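import Cfsg.Statements.S2522
import Cfsg.Agent.Lib.SLn.RegLU
import Cfsg.Agent.Lib.SLn.Monomial
import Cfsg.Agent.Lib.SLn.MinIndexMain

set_option autoImplicit false
open Cfsg

namespace Cfsg.Agent.S2522

open Matrix Cfsg.Agent.SLn

variable {F : Type*} [Field F] {m : ℕ}

theorem J_mul_castSucc {J : Matrix (Fin (m + 1)) (Fin (m + 1)) F}
    (hJ : ∀ i j, J i j = if i = j then 1 else if j.val = i.val + 1 then 1 else 0)
    (X : Matrix (Fin (m + 1)) (Fin (m + 1)) F) (i : Fin m) (j : Fin (m + 1)) :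
    (J * X) i.castSucc j = X i.castSucc j + X i.succ j := by
  rw [mul_apply, Finset.sum_eq_add i.castSucc i.succ (Fin.castSucc_lt_succ).ne]
  · simp [hJ]
  · intro c _ hc
    rw [hJ, if_neg hc.1.symm, if_neg fun e => hc.2 (Fin.ext (by simpa using e)), zero_mul]
  · simp
  · simp

theorem J_mul_last {J : Matrix (Fin (m + 1)) (Fin (m + 1)) F}
    (hJ : ∀ i j, J i j = if i = j then 1 else if j.val = i.val + 1 then 1 else 0)
    (X : Matrix (Fin (m + 1)) (Fin (m + 1)) F) (j : Fin (m + 1)) :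
    (J * X) (Fin.last m) j = X (Fin.last m) j := by
  rw [mul_apply, Finset.sum_eq_single (Fin.last m)]
  · simp [hJ]
  · intro c _ hc
    rw [hJ, if_neg hc.symm, if_neg (by have := c.2; simp; omega), zero_mul]
  · simp

theorem mul_J_succ {J : Matrix (Fin (m + 1)) (Fin (m + 1)) F}
    (hJ : ∀ i j, J i j = if i = j then 1 else if j.val = i.val + 1 then 1 else 0)
    (X : Matrix (Fin (m + 1)) (Fin (m + 1)) F) (i : Fin (m + 1)) (j : Fin m) :
    (X * J) i j.succ = X i j.castSucc + X i j.succ := by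
  rw [mul_apply, Finset.sum_eq_add j.castSucc j.succ (Fin.castSucc_lt_succ).ne]
  · simp [hJ]
  · intro c _ hc
    rw [hJ, if_neg hc.2, if_neg fun e => hc.1 (Fin.ext (by simpa using e.symm)), mul_zero]
  · simp
  · simp

theorem mul_J_zero {J : Matrix (Fin (m + 1)) (Fin (m + 1)) F}
    (hJ : ∀ i j, J i j = if i = j then 1 else if j.val = i.val + 1 then 1 else 0)
    (X : Matrix (Fin (m + 1)) (Fin (m + 1)) F) (i : Fin (m + 1)) :
    (X * J) i 0 = X i 0 := by
  rw [mul_apply, Finset.sum_eq_single 0]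
  · simp [hJ]
  · intro c _ hc
    rw [hJ, if_neg hc, if_neg (by simp), mul_zero]
  · simp

theorem upper_conj {J U : Matrix (Fin (m + 1)) (Fin (m + 1)) F}
    (hJ : ∀ i j, J i j = if i = j then 1 else if j.val = i.val + 1 then 1 else 0)
    (hU : ∀ i j, j < i → U i j = 0) (hd : ∀ i, U i i = 1)
    (hs : ∀ i j : Fin (m + 1), j.val = i.val + 1 → U i j ≠ 0) :
    ∃ P : Matrix (Fin (m + 1)) (Fin (m + 1)) F, P.det ≠ 0 ∧ U * P = P * J := by
  obtain ⟨N, rfl⟩ : ∃ N, U = N + 1 := ⟨U - 1, by simp⟩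
  have hN : ∀ i j : Fin (m + 1), j.val ≤ i.val → N i j = 0 := by
    intro i j h
    rcases h.eq_or_lt with e | e
    · rw [Fin.ext e]; simpa using hd i
    · have := hU i j e
      rwa [Matrix.add_apply, one_apply_ne (Fin.ne_of_gt e), add_zero] at this
  have hN' : ∀ i j : Fin (m + 1), j.val = i.val + 1 → N i j ≠ 0 := by
    intro i j h
    have := hs i j h
    rwa [Matrix.add_apply, one_apply_ne (by intro e; subst e; omega), add_zero] at this
  refine ⟨of fun i j => (N ^ (m - j.val)) i (Fin.last m), ?_, ?_⟩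
  · rw [det_of_isUpperTriangular (M := of fun i j : Fin (m + 1) => (N ^ (m - j.val)) i (Fin.last m))
      fun i j hij => pow_apply_eq_zero_of_strictUpper hN _ _ _ (by
        have h1 : j.val < i.val := hij
        have := i.2
        simp; omega)]
    refine Finset.prod_ne_zero_iff.2 fun i _ => pow_apply_ne_zero_of_strictUpper hN hN' _ _ _ ?_
    have := i.2
    simp; omega
  · ext i j
    have h1 : (N * of fun i j : Fin (m + 1) => (N ^ (m - j.val)) i (Fin.last m)) i j =
        (N ^ (m - j.val + 1)) i (Fin.last m) := by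
      rw [pow_succ']; rfl
    rw [add_mul, one_mul, Matrix.add_apply, h1]
    refine Fin.cases ?_ (fun j => ?_) j
    · rw [mul_J_zero hJ, pow_apply_eq_zero_of_strictUpper hN _ _ _ (by simp; omega), zero_add]
    · rw [mul_J_succ hJ]
      have := j.2
      simp only [of_apply, Fin.val_succ, Fin.val_castSucc]
      rw [show m - (j.val + 1) + 1 = m - j.val by omega]

theorem lower_conj {J L : Matrix (Fin (m + 1)) (Fin (m + 1)) F}
    (hJ : ∀ i j, J i j = if i = j then 1 else if j.val = i.val + 1 then 1 else 0)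
    (hL : ∀ i j, i < j → L i j = 0) (hd : ∀ i, L i i = 1)
    (hs : ∀ i j : Fin (m + 1), i.val = j.val + 1 → L i j ≠ 0) :
    ∃ P : Matrix (Fin (m + 1)) (Fin (m + 1)) F, P.det ≠ 0 ∧ L * P = P * J := by
  obtain ⟨P, h1, h2⟩ := upper_conj (U := L.submatrix Fin.revPerm Fin.revPerm) hJ
    (fun i j h => hL _ _ (by simpa using h)) (fun i => hd _) (fun i j h => hs _ _ (by
      have := j.2
      simp; omega))
  refine ⟨P.submatrix Fin.revPerm.symm id, ?_, ?_⟩
  · rw [det_permute]
    refine mul_ne_zero ?_ h1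
    rcases Int.units_eq_one_or (Equiv.Perm.sign Fin.revPerm.symm) with h | h <;> rw [h] <;> simp
  · have := congrArg (fun M => M.submatrix Fin.revPerm.symm id) h2
    rw [← submatrix_mul_equiv _ _ _ Fin.revPerm.symm, submatrix_submatrix, Equiv.self_comp_symm,
      submatrix_id_id, ← submatrix_mul_equiv _ _ _ (Equiv.refl _)] at this
    exact this

theorem finish (J g : GL (Fin (m + 1)) F) (k : SpecialLinearGroup (Fin (m + 1)) F)
    {L U P Q : Matrix (Fin (m + 1)) (Fin (m + 1)) F} (h : g.1 = k.1 * (L * U) * (k⁻¹).1)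
    (hP : P.det ≠ 0) (hQ : Q.det ≠ 0) (h1 : L * P = P * J) (h2 : U * Q = Q * J) :
    ∃ x y : GL (Fin (m + 1)) F, g = (x * J * x⁻¹) * (y * J * y⁻¹) := by
  let P' := GeneralLinearGroup.mkOfDetNeZero P hP
  let Q' := GeneralLinearGroup.mkOfDetNeZero Q hQ
  let k' : GL (Fin (m + 1)) F := Matrix.SpecialLinearGroup.toGL k
  refine ⟨k' * P', k' * Q', ?_⟩
  have : k' * P' * J * (k' * P')⁻¹ * (k' * Q' * J * (k' * Q')⁻¹) =
      k' * (P' * J * P'⁻¹ * (Q' * J * Q'⁻¹)) * k'⁻¹ := by group
  rw [this, ← map_inv]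
  apply Units.ext
  have e1 : (P' * J * P'⁻¹).1 = L := by
    rw [Units.val_mul, Units.val_mul, show P'.1 * J.1 = L * P'.1 from h1.symm, mul_assoc,
      Units.mul_inv, mul_one]
  have e2 : (Q' * J * Q'⁻¹).1 = U := by
    rw [Units.val_mul, Units.val_mul, show Q'.1 * J.1 = U * Q'.1 from h2.symm, mul_assoc,
      Units.mul_inv, mul_one]
  rw [Units.val_mul, Units.val_mul, Units.val_mul, e1, e2, h]
  rfl

/-- Let K be a field with at least four elements (finite or infinite), n ≥ 3, and J ∈ GL(n, K) the regular unipotent matrix (ones on the diagonal and the superdiagonal, zeros elsewhere). Then every non-scalar g ∈ GL(n, K) with det g = 1 is a product of two GL(n, K)-conjugates of J. -/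
theorem result {K : Type*} [Field K] (hK : 4 ≤ Cardinal.mk K) (n : ℕ) (hn : 3 ≤ n) (J g : GL (Fin n) K)
    (hJ : ∀ i j : Fin n, (J : Matrix (Fin n) (Fin n) K) i j = if i = j then 1 else if j.val = i.val + 1 then 1 else 0)
    (hg : ¬ ∃ c : K, (g : Matrix (Fin n) (Fin n) K) = c • (1 : Matrix (Fin n) (Fin n) K))
    (hdet : (g : Matrix (Fin n) (Fin n) K).det = 1) :
    ∃ x y : GL (Fin n) K, g = (x * J * x⁻¹) * (y * J * y⁻¹) := by
  obtain ⟨m, rfl⟩ : ∃ m, n = m + 2 := ⟨n - 2, by omega⟩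
  have h4 := four_of_cardinal hK
  push Not at hg
  by_cases hR : R2 (g.1 - 1)
  · obtain ⟨k, L, U, h, h1, -⟩ := regLU h4 g.1 hdet (fun _ => ⟨hg, hR⟩) (s := Pi.single 0 1)
      (r := Pi.single 0 1) (by simp) (by simp)
    obtain ⟨P, p1, p2⟩ := lower_conj hJ h.lower h.dL fun i j hij => (h1 i j hij).1
    obtain ⟨Q, q1, q2⟩ := upper_conj hJ h.upper h.dU fun i j hij => (h1 j i hij).2
    exact finish J g k h.eq p1 q1 p2 q2
  unfold R2 at hR
  push Not at hR
  obtain ⟨w, hw⟩ := hR
  choose ψ hψ using fun j => hw (Pi.single j 1)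
  have e1 : g.1 = 1 + vecMulVec w ψ := by
    rw [← sub_eq_iff_eq_add']
    ext i j
    simpa [vecMulVec_apply, mul_comm] using congrFun (hψ j) i
  have hw0 : w ≠ 0 := by rintro rfl; exact hg 1 (by simpa using e1)
  have hψ0 : ψ ≠ 0 := by rintro rfl; exact hg 1 (by simpa using e1)
  have hψw : ψ ⬝ᵥ w = 0 := by
    rw [e1, det_one_add_vecMulVec] at hdet
    simpa using hdet
  obtain ⟨t, t0, t1, -⟩ := h4 0 1 1
  obtain ⟨k, k1⟩ := exists_SL_mulVec (ι := Fin (m + 2)) (by simp) (v := Pi.single 0 1) (by simp) hw0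
  have k2 : (ψ ᵥ* k.1) 0 = 0 := by
    rw [← k1, dotProduct_mulVec] at hψw
    simpa using hψw
  have k3 : Fin.tail (ψ ᵥ* k.1) ≠ 0 := fun e => hψ0 (by
    rw [← vecMul_inv_of_eq (rfl : ψ ᵥ* k.1 = _), ← Fin.cons_self_tail (ψ ᵥ* k.1), k2, e,
      show (Fin.cons 0 0 : Fin (m + 2) → K) = 0 by ext i; refine Fin.cases ?_ (fun i => ?_) i <;> rfl,
      zero_vecMul])
  obtain ⟨l, hl⟩ := exists_SL_mulVec (ι := Fin (m + 1)) (by simp; omega) k3
    (v' := Pi.single 0 t) (by simp [t0])
  let l' : SpecialLinearGroup (Fin (m + 1)) K := ⟨l.1ᵀ, by rw [det_transpose, l.2]⟩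
  have k4 : ψ ᵥ* (k * oneSum l').1 = Pi.single 1 t := by
    rw [Matrix.SpecialLinearGroup.coe_mul, ← vecMul_vecMul, ← Fin.cons_self_tail (ψ ᵥ* k.1),
      coe_oneSum, vecMul_bord, k2, vecMul_transpose, hl]
    ext i
    refine Fin.cases ?_ (fun i => ?_) i
    · simp
    · rw [← Fin.succ_zero_eq_one]
      simp [Pi.single_apply, -Fin.succ_zero_eq_one, -Fin.succ_zero_eq_one']
  have k5 : (k * oneSum l').1 *ᵥ Pi.single 0 1 = w := by
    rw [Matrix.SpecialLinearGroup.coe_mul, ← mulVec_mulVec, coe_oneSum, single_zero_eq_cons,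
      bord_mulVec, ← k1, single_zero_eq_cons]
    simp
  generalize k * oneSum l' = a at k4 k5
  set M : Matrix (Fin (m + 2)) (Fin (m + 2)) K := 1 + vecMulVec (Pi.single 0 1) (Pi.single 1 t)
    with hM
  have hJX : J.1 * ((J⁻¹).1 * M) = M := by rw [← mul_assoc, Units.mul_inv, one_mul]
  have hup : ((J⁻¹).1 * M).BlockTriangular id := by
    refine BlockTriangular.mul ?_ ?_
    · rw [coe_units_inv]
      have := J.invertible
      refine blockTriangular_inv_of_blockTriangular fun i j hij => ?_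
      have h1 : j.val < i.val := hij
      rw [hJ, if_neg (by intro e; subst e; omega), if_neg (by omega)]
    · intro i j hij
      have h0 : j < i := hij
      have h1 : i ≠ 0 := Fin.ne_zero_of_lt h0
      simp [hM, vecMulVec_apply, h1, one_apply_ne h0.ne']
  have hdiag : ∀ i, ((J⁻¹).1 * M) i i = 1 := by
    intro i
    have h1 : M i i = 1 := by
      by_cases h : i = 0
      · subst h; simp [hM, vecMulVec_apply]
      · simp [hM, vecMulVec_apply, h]
    rw [← hJX] at h1
    induction i using Fin.lastCases with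
    | last => rwa [J_mul_last hJ] at h1
    | cast i =>
      rwa [J_mul_castSucc hJ, hup (i := i.succ) (j := i.castSucc) Fin.castSucc_lt_succ,
        add_zero] at h1
  obtain ⟨Q, q1, q2⟩ := upper_conj hJ (U := (J⁻¹).1 * M) (fun i j h => hup h) hdiag (by
    intro i j hij
    obtain ⟨i, rfl⟩ := Fin.exists_castSucc_eq.2 (show i ≠ Fin.last _ by
      rintro rfl; have := j.2; simp at hij; omega)
    obtain rfl : j = i.succ := Fin.ext hij
    intro e
    have h1 := J_mul_castSucc hJ ((J⁻¹).1 * M) i i.succ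
    rw [hJX, e, hdiag, zero_add] at h1
    by_cases h : i = 0
    · subst h
      simp [hM, vecMulVec_apply] at h1
      exact t1 h1
    · simp [hM, vecMulVec_apply, h, one_apply_ne (Fin.castSucc_lt_succ (i := i)).ne] at h1)
  refine finish J g a (L := J.1) (P := 1) ?_ (by simp) q1 (by simp) q2
  rw [hJX, hM, mul_add, add_mul, mul_one, coe_mul_inv, mul_vecMulVec, vecMulVec_mul, k5,
    vecMul_inv_of_eq k4, e1]

end Cfsg.Agent.S2522
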