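import Cfsg.Statements.S2089
import Cfsg.Agent.Lib.Cls.MUKer

set_option autoImplicit false
open Cfsg

namespace Cfsg.Agent.S2089

open Cls Forms Module Subgroup

theorem perfect_one {F : Type*} [Field F] [Fintype F] {q : ℕ} {V : Type*} [AddCommGroup V]
    [Module F V] {hF : Fintype.card F = q ^ 2} {f : Form (uP hF) V} (fr : Frame f (PM 1))
    (h3 : 3 ≤ q) {v : V} (hv : v ∈ fr.V0) (hB : f.B v v ≠ 0)
    (hV : ∀ u ∈ fr.V0, ∃ c : F, u = c • v) : fr.EG ≤ ⁅fr.EG, fr.EG⁆ :=
  fr.EG_le (fun i j a1 a2 => ((PM.cases_one i j).elim a1 a2).elim) fun i x ⟨u, hu, l, hx⟩ => by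
    obtain ⟨c, rfl⟩ := hV u hu
    obtain ⟨ζ, h1, -, h2⟩ := exists_gen_norm_one hF
    have z0 := left_ne_zero_of_mul_eq_one h1
    obtain ⟨g, hg, -, g1, -, -, g3⟩ := fr.torus_odd i hv hB z0
    have a2 : frobq hF ζ * (frobq hF ζ / ζ) - 1 ≠ 0 := fun a => h2 3 (by omega) h3 (by
      rw [eq_inv_of_mul_eq_one_right h1] at a; field_simp at a; linear_combination -a)
    obtain ⟨y, l', hy, r, hr, rfl⟩ := fr.weight_U g1 hx
      (v' := (c / (frobq hF ζ * (frobq hF ζ / ζ) - 1)) • v)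
      (fr.mem_V0.1 (Submodule.smul_mem _ _ hv) i) (by
        rw [map_smul, g3, smul_smul, smul_smul, ← sub_smul, Param.unit_σ]
        congr 1
        linear_combination div_mul_cancel₀ c a2)
    exact mul_mem (commutator_mem_commutator hg (fr.U_le_EG i ⟨_, _, hy⟩))
      (commutator_mono (fr.U_le_EG i) (fr.U_le_EG i) (fr.RZ_le_comm (unit_hZ f (frobq_ne hF))
        (fr.mem_V0.1 hv i) (fr.mem_V0.1 hv i) hB hr))

/-- Schur multipliers of the unitary groups: for n ≥ 3 and a field F with q² elements, (n, q) ≠ (3, 2), apart from the exceptional pairs (n, q) = (4, 2), (4, 3), (6, 2), the Schur multiplier of PSU_n(q) is cyclic of order gcd(n, q + 1); here the Schur multiplier is described through stem extensions, as in the definitions. -/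
theorem result {F : Type*} [Field F] [Fintype F] (n q : ℕ) (hF : Fintype.card F = q ^ 2) (hn : 3 ≤ n) (h3 : ¬ (n = 3 ∧ q = 2)) (hexc : (n, q) ∉ ({(4, 2), (4, 3), (6, 2)} : Set (ℕ × ℕ))) : Cfsg.HasCyclicSchurMultiplier (Cfsg.PSU n F q) (Nat.gcd n (q + 1)) := by
  simp only [Set.mem_insert_iff, Set.mem_singleton_iff, Prod.mk.injEq, not_or, not_and] at hexc h3
  obtain ⟨e1, e2, e3⟩ := hexc
  obtain ⟨fr, hV⟩ := unit_frame hF n
  have hf := uForm_nondeg n hF
  have h2 := two_le_q hF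
  obtain ⟨m, hm⟩ : ∃ m, n / 2 = m := ⟨_, rfl⟩
  revert fr
  rw [hm]
  intro fr hV
  let i : PM m := ⟨⟨0, by omega⟩, true⟩
  have hr := (suHom_range hF n).trans (fr.unit_EG i (frobq_ne hF)).symm
  have hZ := fun z => (mem_center_equiv (suEquiv n hF) z).trans
    (hf.su_mem_center_iff (by simp; omega) _)
  have := isCyclic_of_scalar _ (suHom_injective hF n) (fr.e_ne_zero i) _ fun z hz => (hZ z).1 hz
  have key : fr.EG ≤ ⁅fr.EG, fr.EG⁆ ∧ fr.KB 1 := by
    by_cases e : n % 2 = 0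
    · have hV := fr.V0_eq_zero (hV.trans e)
      have a2 := PM.two (m := m) (by omega)
      obtain ⟨j, j1, j2⟩ := a2 i
      have hC := fr.canE_of (fun p k _ _ => fr.term_of_C fr.unit_hasC fun g _ _ _ v hv => by
        rw [hV v hv, map_zero]) fun J _ φ hφ => by
          rcases (by omega : 4 ≤ m ∨ m = 3 ∨ m = 2) with h | rfl | rfl
          · exact hφ.unit_big (PM.four h)
          · exact hφ.unit_six (by omega) (PM.three le_rfl)
          · exact hφ.unit_four (by omega) hV a2 fun _ _ => PM.cases_two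
      refine ⟨?_, fr.kb_one fun J _ _ φ b1 b2 b3 x hx =>
        let ⟨U, hU⟩ := hC J φ b1 b2 b3; hU.ker_su_even hV j1 j2 (hU.top ▸ mem_top x) hx⟩
      by_cases h : 3 ≤ m
      · exact fr.perfect_three (PM.three h)
      · exact fr.perfect_tor (fr.hT_N (by omega) a2) a2
    obtain ⟨v, v1, v2, v3⟩ := fr.exists_gen_V0 hf (by omega)
    have hC := fr.canE_of (fun p k _ h => fr.term_of_line h fr.unit_hasC v1 v3) fun J _ φ hφ => by
      rcases (by omega : 4 ≤ m ∨ m = 3 ∨ m = 2 ∨ m = 1) with h | rfl | rfl | rfl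
      · exact hφ.unit_big (PM.four h)
      · exact hφ.unit_odd v1 v2 v3 (PM.two (by omega)) (Or.inr fun _ _ => PM.cases_three)
      · exact hφ.unit_odd v1 v2 v3 (PM.two le_rfl) (Or.inl fun _ _ => PM.cases_two)
      · exact hφ.unit_three v1 v2 v3 (by omega) PM.cases_one
    refine ⟨?_, fr.kb_one fun J _ _ φ b1 b2 b3 x hx =>
      let ⟨U, hU⟩ := hC J φ b1 b2 b3; hU.ker_su_odd v1 v2 v3 i hx⟩
    rcases (by omega : 2 ≤ m ∨ m = 1) with h | rfl
    · exact fr.perfect_tor (fr.hT_odd v1 v2) (PM.two h)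
    · exact perfect_one fr (by omega) v1 v2 v3
  refine fr.hasSchur_center _ (suHom_injective hF n) hr key.1 key.2 ?_
  rw [card_center_of_scalar _ (suHom_injective hF n) (fr.B_ne i) (d := Nat.gcd n (q + 1))
    (by simp) hZ fun c => ?_, Nat.card_eq_fintype_card, hF]
  · exact Nat.gcd_eq_left ((Nat.gcd_dvd_right _ _).trans ⟨q - 1, by rw [← Nat.sq_sub_sq]⟩)
  rw [pow_gcd_eq_one, suHom_range, pow_succ', and_comm]
  simp only [Form.mem_SIsom, ← Form.coe_detHom, Form.detHom_scalar, finrank_fin_fun, exists_prop]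
  rfl

end Cfsg.Agent.S2089
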