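import Cfsg.Statements.S2092
import Cfsg.Agent.Lib.Cls.MSp

set_option autoImplicit false
open Cfsg

namespace Cfsg.Agent.S2092

/-- Schur multipliers of the symplectic groups: for m ≥ 2 and a field F with q elements (q ≥ 3 when m = 2), with (m, q) ≠ (3, 2), the Schur multiplier of PSp_2m(F) is cyclic of order gcd(2, q − 1); here the Schur multiplier is described through stem extensions, as in the definitions. -/
theorem result {F : Type*} [Field F] [Fintype F] {q : ℕ} (hF : Fintype.card F = q) (m : ℕ) (hm : 2 ≤ m) (h2 : m = 2 → 3 ≤ q) (hexc : ¬ (m = 3 ∧ q = 2)) : Cfsg.HasCyclicSchurMultiplier (Cfsg.PSp m F) (Nat.gcd 2 (q - 1)) := by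
  obtain ⟨fr⟩ := Cls.sp_frame (F := F) m
  have := Cls.isCyclic_center_sp (F := F) (m := m) (by omega)
  have : Nonempty (Fin m) := ⟨⟨0, by omega⟩⟩
  have hq : 2 ≤ q := hF ▸ Fintype.one_lt_card
  rw [← Nat.card_eq_fintype_card] at hF
  subst hF
  have hE := fr.sp_EG (Forms.spForm_nondeg m)
  have hr : (Forms.spEquiv m F).toMonoidHom.range = ⊤ :=
    MonoidHom.range_eq_top.2 (Forms.spEquiv m F).surjective
  refine fr.hasSchur_center (Forms.spEquiv m F).toMonoidHom (Forms.spEquiv m F).injective
    (hr.trans hE.symm) (Cls.sp_perfect fr hm (by omega)) (Cls.sp_kb fr hm (by omega)) ?_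
  refine Cls.card_center_of_scalar (Forms.spEquiv m F).toMonoidHom (Forms.spEquiv m F).injective
    (fr.B_ne ⟨⟨0, by omega⟩, true⟩) two_ne_zero (fun z => (Forms.mem_center_equiv (Forms.spEquiv m F) z).trans
      ((Forms.spForm_nondeg m).sp_mem_center_iff _)) fun c => ?_
  simp [hr, sq]

end Cfsg.Agent.S2092
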