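import Cfsg.Statements.S2094
import Cfsg.Agent.Lib.Cls.MOFin

set_option autoImplicit false
open Cfsg

namespace Cfsg.Agent.S2094

open Cls Forms Module

/-- Schur multipliers of the odd-dimensional orthogonal groups: for m ≥ 3 and a field F of odd order q with (m, q) ≠ (3, 3), the Schur multiplier of PΩ_(2m+1)(F) (for the form x₀² + Σ xᵢyᵢ) is cyclic of order 2 = gcd(2, q − 1); here the Schur multiplier is described through stem extensions, as in the definitions. -/
theorem result {F : Type*} [Field F] [Fintype F] {q : ℕ} (hF : Fintype.card F = q) (hq : Odd q) (m : ℕ) (hm : 3 ≤ m) (hexc : ¬ (m = 3 ∧ q = 3)) : Cfsg.HasCyclicSchurMultiplier (Cfsg.POmega F (Cfsg.quadFormOdd m F)) 2 := by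
  subst hF
  have h2 := two_ne_zero_of_odd hq
  have hf := oddForm_nondeg (F := F) m h2
  obtain ⟨fr, h1⟩ := odd_frame (F := F) m h2
  obtain ⟨v, hv, hB, hV⟩ := fr.exists_gen_V0 hf h1
  have v0 : v ≠ 0 := fun e => by simp [e] at hB
  let i : PM m := ⟨⟨0, by omega⟩, true⟩
  have : Nonempty (PM m) := ⟨i⟩
  obtain ⟨j, a1, a2⟩ := PM.two (by omega) i
  have hE := fr.orth_EG hf (by rw [finrank_odd]; omega) a1 a2
  have hC := fr.canE_of (fun p n _ h => fr.term_of_line h (fr.orth_hasC hv v0) hv hV)
    fun J _ φ hφ => by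
      rcases hm.eq_or_lt with rfl | hm'
      swap
      · exact hφ.orth_four (fr.orth_hasC hv v0) (PM.four hm')
      rcases field_cases F with ⟨t, t0, t1⟩ | h3
      · exact hφ.orth_three h2 t0 t1 (PM.three le_rfl)
      classical
      have h4 : Finset.univ ⊆ ({0, 1, -1} : Finset F) := fun a _ => by simpa using h3 a
      have h5 := (Finset.card_le_card h4).trans Finset.card_le_three
      have h6 := Fintype.one_lt_card (α := F)
      obtain ⟨k, hk⟩ := hq
      rw [Finset.card_univ] at h5
      exact absurd ⟨rfl, by omega⟩ hexc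
  obtain ⟨E, _, _, j, d⟩ := fr.exists_dbl hf h2 hE (PM.three hm)
  have w1 := omegaHom_injective (oddForm m F)
  have w2 := (omegaHom_range _).trans hE.symm
  refine d.two (hC.kd (fr.kd_line hv v0 hV) i).1 (PM.three hm) h2 _ w1 w2 fun h => h2 ?_
  have := congrArg Units.val ((hf.mem_commutator_iff h2 _).1 (hE ▸ h)).1
  rw [Form.negOne, Form.detHom_scalar, finrank_odd, pow_succ, pow_mul] at this
  simp only [even_two, Even.neg_pow, one_pow, mul_neg, mul_one, Units.val_one] at this
  linear_combination -this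

end Cfsg.Agent.S2094
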