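import Cfsg.Statements.S2096
import Cfsg.Agent.Lib.Cls.MOFin

set_option autoImplicit false
open Cfsg

namespace Cfsg.Agent.S2096

open Cls Forms Module

/-- Schur multipliers of the even-dimensional orthogonal groups of plus type and odd rank: for odd l ≥ 5 and a field F with q elements, the Schur multiplier of PΩ⁺_2l(F) (for the form Σ xᵢyᵢ) is cyclic of order gcd(4, q^l − 1); here the Schur multiplier is described through stem extensions, as in the definitions. -/
theorem result {F : Type*} [Field F] [Fintype F] {q : ℕ} (hF : Fintype.card F = q) (l : ℕ) (hl : 5 ≤ l) (hodd : Odd l) : Cfsg.HasCyclicSchurMultiplier (Cfsg.POmega F (Cfsg.quadFormPlus l F)) (Nat.gcd 4 (q ^ l - 1)) := by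
  subst hF
  obtain ⟨fr, hV, hE, hC, k2, k1⟩ := plus_setup (F := F) (l := l) (by omega) (Or.inl hl)
  have : Nonempty (PM l) := ⟨⟨⟨0, by omega⟩, true⟩⟩
  have h3 := PM.three (m := l) (by omega)
  have hf := plusForm_nondeg (F := F) l
  have w1 := omegaHom_injective (plusForm l F)
  have w2 := (omegaHom_range _).trans hE.symm
  obtain ⟨p1, -, p2, p3⟩ := pow_mod_four (q := Fintype.card F) l
  obtain ⟨g1, g2, g3⟩ := gcd_four (Fintype.card F ^ l - 1)
  have := Nat.pow_pos (n := l) (Fintype.card_pos (α := F))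
  rcases two_cases F with ⟨h2, hq⟩ | ⟨h2, hq⟩
  · rw [g3 (by have := p3 hq (by omega); omega)]
    exact fr.orth_two h2 (k1 h2) h3 _ w1 w2
  obtain ⟨E, _, _, j, d⟩ := fr.exists_dbl hf h2 hE h3
  by_cases h4 : Fintype.card F % 4 = 3
  · rw [g2 (by have := p2 h4 hodd; omega)]
    refine d.two k2 h3 h2 _ w1 w2 fun h => ?_
    rw [hE, negOne_mem_iff hf h2 (by rw [finrank_plus]; simp), disc_plus l h2, (chi_neg_one.1 h4).1,
      hodd.neg_one_pow] at h
    exact absurd h (by decide)
  · rw [g1 (by have := p1 (by omega); omega)]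
    obtain ⟨t, ht⟩ := (chi_neg_one.2 h4).2
    obtain ⟨s, s1, s2⟩ := d.plus_odd hC hV hodd (by omega) ht.symm
    exact d.four k2 h3 h2 _ w1 w2 s1 s2

end Cfsg.Agent.S2096
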