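import Cfsg.Statements.S2097
import Cfsg.Agent.Lib.Cls.MOFin

set_option autoImplicit false
open Cfsg

namespace Cfsg.Agent.S2097

open Cls Forms Module

/-- Schur multipliers of the even-dimensional orthogonal groups of plus type and even rank: for even l ≥ 4 and a field F with q elements, (l, q) ≠ (4, 2), the Schur multiplier of PΩ⁺_2l(F) (for the form Σ xᵢyᵢ) is the product of two cyclic groups of order gcd(2, q^l − 1) (so trivial for q even and a four-group for q odd; here the Schur multiplier is described through stem extensions, as in the definitions). -/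
theorem result {F : Type*} [Field F] [Fintype F] {q : ℕ} (hF : Fintype.card F = q) (l : ℕ) (hl : 4 ≤ l) (heven : Even l) (hexc : ¬ (l = 4 ∧ q = 2)) : Cfsg.HasSchurMultiplier (Cfsg.POmega F (Cfsg.quadFormPlus l F)) (Multiplicative (ZMod (Nat.gcd 2 (q ^ l - 1)) × ZMod (Nat.gcd 2 (q ^ l - 1)))) := by
  subst hF
  have := Fintype.one_lt_card (α := F)
  obtain ⟨fr, hV, hE, hC, k2, k1⟩ := plus_setup (F := F) hl
    (by rw [Nat.card_eq_fintype_card]; omega)
  have : Nonempty (PM l) := ⟨⟨⟨0, by omega⟩, true⟩⟩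
  have h3 := PM.three (m := l) (by omega)
  have hf := plusForm_nondeg (F := F) l
  have w1 := omegaHom_injective (plusForm l F)
  have w2 := (omegaHom_range _).trans hE.symm
  obtain ⟨p1, p2, -, p3⟩ := pow_mod_four (q := Fintype.card F) l
  have := Nat.pow_pos (n := l) (Fintype.card_pos (α := F))
  rcases two_cases F with ⟨h2, hq⟩ | ⟨h2, hq⟩
  · rw [Nat.gcd_rec, show (Fintype.card F ^ l - 1) % 2 = 1 by have := p3 hq (by omega); omega,
      Nat.gcd_one_left]
    have : Unique (Multiplicative (ZMod 1 × ZMod 1)) := ⟨⟨1⟩, by decide⟩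
    exact hasSchur_congr MulEquiv.ofUnique (fr.orth_two h2 (k1 h2) h3 _ w1 w2)
  obtain ⟨E, _, _, j, d⟩ := fr.exists_dbl hf h2 hE h3
  have : Fintype.card F ^ l % 4 = 1 := by
    by_cases h4 : Fintype.card F % 4 = 3
    exacts [p2 h4 heven, p1 (by omega)]
  rw [Nat.gcd_rec, show (Fintype.card F ^ l - 1) % 2 = 0 by omega, Nat.gcd_zero_left]
  obtain ⟨s, s1, s2⟩ := d.plus_even hC hV heven
  exact d.klein k2 h3 h2 _ w1 w2 s1 s2

end Cfsg.Agent.S2097
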