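import Cfsg.Statements.S2099
import Cfsg.Agent.Lib.Cls.MOFin

set_option autoImplicit false
open Cfsg

namespace Cfsg.Agent.S2099

open Cls Forms Module

/-- Schur multipliers of the even-dimensional orthogonal groups of minus type: for l ≥ 4 and a field F with q elements, the Schur multiplier of PΩ⁻_2l(F) (for the form Σ_{i<l−1} xᵢyᵢ + z₁² + a z₁z₂ + b z₂² with the binary part anisotropic) is cyclic of order gcd(4, q^l + 1); here the Schur multiplier is described through stem extensions, as in the definitions. -/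
theorem result {F : Type*} [Field F] [Fintype F] {q : ℕ} (hF : Fintype.card F = q) (l : ℕ) (hl : 4 ≤ l) (a b : F) (hab : ∀ z₁ z₂ : F, z₁ ^ 2 + a * z₁ * z₂ + b * z₂ ^ 2 = 0 → z₁ = 0 ∧ z₂ = 0) : Cfsg.HasCyclicSchurMultiplier (Cfsg.POmega F (Cfsg.quadFormMinus (l - 1) F a b)) (Nat.gcd 4 (q ^ l + 1)) := by
  subst hF
  obtain ⟨m, rfl⟩ : ∃ m, l = m + 1 := ⟨l - 1, by omega⟩
  rw [Nat.add_sub_cancel]
  have hf := minusForm_nondeg m (disc_ne_zero_of_anisotropic hab)
  obtain ⟨fr⟩ := minus_frame m hab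
  let i : PM m := ⟨⟨0, by omega⟩, true⟩
  have : Nonempty (PM m) := ⟨i⟩
  have h3 := PM.three (m := m) (by omega)
  obtain ⟨j, a1, a2, -⟩ := h3 i i
  have h5 : 5 ≤ finrank F ((Fin m ⊕ Fin m) ⊕ Fin 2 → F) := by rw [finrank_minus]; omega
  have hE := fr.orth_EG hf h5 a1 a2
  have h6 : finrank F fr.V0 = 2 := by
    have := fr.finrank_V0 hf
    rw [finrank_minus, PM.card] at this
    omega
  have hR := fr.orth_rot hf h6
  have hC := fr.canE_of (fun p n _ => fr.orth_term hf h5 hE (Or.inr ⟨hR.1, h6.le⟩))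
    fun J _ φ hφ => hφ.orth_minus hR
      (let ⟨v, hv, u, hu, h, _⟩ := fr.exists_basis_V0 hf h6; ⟨v, hv, u, hu, h⟩) h3
  obtain ⟨c, c', _, ι, k⟩ := fr.exists_kd hf h6
  have := Finite.of_equiv _ (QuadraticAlgebra.equivProd c c').symm
  obtain ⟨k2, k1⟩ := hC.kd k i
  have w1 := omegaHom_injective (minusForm m F a b)
  have w2 := (omegaHom_range _).trans hE.symm
  obtain ⟨p1, p2, p3, p4⟩ := pow_mod_four (q := Fintype.card F) (m + 1)
  obtain ⟨g1, g2, g3⟩ := gcd_four (Fintype.card F ^ (m + 1) + 1)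
  rcases two_cases F with ⟨h2, hq⟩ | ⟨h2, hq⟩
  · rw [g3 (by have := p4 hq (by omega); omega)]
    exact fr.orth_two h2 (k1 h2) h3 _ w1 w2
  obtain ⟨E, _, _, j, d⟩ := fr.exists_dbl hf h2 hE h3
  have key : chi F (-1) ^ (m + 1) = 1 → HasCyclicSchurMultiplier
      (POmega F (quadFormMinus m F a b)) 2 := fun e => d.two k2 h3 h2 _ w1 w2 fun h => by
    rw [hE, negOne_mem_iff hf h2 (by rw [finrank_minus]; simp [Nat.even_add]), disc_minus m h2 hab,
      e] at h
    exact absurd h (by decide)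
  by_cases h4 : Fintype.card F % 4 = 3
  swap
  · rw [g2 (by have := p1 (by omega); omega)]
    exact key (by rw [(chi_neg_one.2 h4).1, one_pow])
  rcases Nat.even_or_odd (m + 1) with h7 | h7
  · rw [g2 (by have := p2 h4 h7; omega)]
    exact key (by rw [(chi_neg_one.1 h4).1, h7.neg_one_pow])
  · rw [g1 (by have := p3 h4 h7; omega)]
    obtain ⟨t, t1, t2⟩ := exists_sqrt_quad (a := c) (b := c') h4
    obtain ⟨s, s1, s2⟩ := d.minus hC k (by simpa [Nat.odd_add] using h7) i t1 t2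
    exact d.four k2 h3 h2 _ w1 w2 s1 s2

end Cfsg.Agent.S2099
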