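import Cfsg.Statements.S2135
import Cfsg.Agent.Lib.Id.J3
import Cfsg.Agent.Lib.Id.Cent4
import Cfsg.Agent.Lib.Grp.J3.Out
import Cfsg.Agent.Lib.Grp.A5.Main

set_option autoImplicit false
open Cfsg

namespace Cfsg.Agent.S2135

set_option maxRecDepth 100000
set_option Elab.async false

open Cfsg.Agent.CG Cfsg.Agent.Id

/-- The centraliser in the table group. -/
noncomputable abbrev C : Subgroup J3.PG := Subgroup.centralizer {J3.act.gen 12}

theorem card_C_le : Nat.card C ≤ 1920 :=
  card_cent_le (A := J3.act) (E := J3.en) J3.enumOK J3.hinv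
    (okc_of_okcb (n := 6156) (w := 20) (by decide +kernel)) (by norm_num) (by rw [J3.card])

theorem ord_t : orderOf (J3.act.gen 12) = 2 :=
  orderOf_gen_two J3.base (by decide +kernel) (by decide +kernel)

/-- The involution in its centraliser. -/
noncomputable def t : C := ⟨J3.act.gen 12, Subgroup.mem_centralizer_singleton_iff.2 rfl⟩

theorem prod_cc : prodN J3.cc = 1920 := by decide +kernel

theorem eqA : A5.PG = alternatingGroup (Fin 5) := eq_alternatingGroup (by rw [A5.card]; rfl)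

/-- Generators of the extraspecial group. -/
def Ws : List (List ℕ) := [[51, 51, 51], [52, 51, 51, 51, 52], [53, 52, 51, 53, 52, 51], [53, 51, 51, 51, 53]]

/-- Its elements. -/
def Us : List (List ℕ) := [[3, 2, 0, 0], [0, 2], [1, 3], [1, 0], [], [3, 0, 0, 0], [2, 0, 0], [3, 2, 0], [2, 1], [3, 2, 1, 0], [1], [3, 1, 0], [0], [3], [1, 0, 0, 0], [3, 1], [1, 3, 0], [1, 0, 0], [2, 0], [3, 2], [3, 2, 1], [0, 2, 1], [3, 0], [0, 0], [2, 1, 0], [1, 3, 2], [2], [3, 0, 2], [3, 0, 0], [0, 0, 0], [2, 1, 0, 0], [1, 3, 2, 0]]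

theorem es : ESData (J3.act.gen 12) (fun i : Fin 4 => ev J3.act.gen (nth Ws [] i)) fun i => i + 2 :=
  esData_of_chk J3.base (τ := fun i => (i + 2) % 4) (by decide) ord_t (by decide +kernel)

/-- The generators in the centraliser. -/
noncomputable def e (i : Fin 4) : C :=
  ⟨ev J3.act.gen (nth Ws [] i), Subgroup.mem_centralizer_singleton_iff.2 (es.comm i).symm⟩

theorem es' : ESData t e fun i => i + 2 := ESData.of_map C.subtype Subtype.val_injective es

/-- The extraspecial group. -/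
noncomputable abbrev Q : Subgroup C := Subgroup.closure (Set.range e)

theorem map_Q : Q.map C.subtype = cl (fun i => ev J3.act.gen (nth Ws [] i)) (List.range 4) := by
  rw [MonoidHom.map_closure, ← Set.range_comp, ← closure_range_eq_cl]; rfl

theorem card_Q : Nat.card Q = 32 := by
  refine le_antisymm (es'.card_le fun i => ?_) (es'.le_card (by decide))
  have h : allLt (fun i => bor (eqW J3.app J3.bs (app2 (nth Ws [] i) (nth Ws [] i)) [])
    (eqW J3.app J3.bs (app2 (nth Ws [] i) (nth Ws [] i)) [12])) 4 = true := by decide +kernel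
  refine ((bor_eq _ _).1 ((allLt_iff _ _).1 h i i.2)).imp (fun h => Subtype.ext ?_) fun h => Subtype.ext ?_
  · simpa [app2_eq, e, t] using J3.base.ev_eq h
  · simpa [app2_eq, e, t] using J3.base.ev_eq h

theorem hU : lettersIn (List.range 4) Us = true := by decide +kernel

instance normal_Q : Q.Normal := by
  rw [← Subgroup.comap_map_eq_self_of_injective C.subtype_injective Q, map_Q]
  exact Subgroup.normal_subgroupOf_of_le_normalizer (le_normalizer_of_chk J3.base J3.chainC
    (card_C_le.trans prod_cc.ge) (T := [50, 51, 52, 53]) (by decide +kernel)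
    (fun a ha => ev_singleton J3.act.gen a ▸ ev_mem_cent J3.base ((allL_iff
      (fun a => eqW J3.app J3.bs (app2 [a] [12]) [12, a]) _).1 (by decide +kernel) a ha))
    hU (by decide +kernel))

theorem compl : Nonempty (A5.PG ≃* C ⧸ Q) ∧ ∃ M : Subgroup C, Q.IsComplement' M := by
  obtain ⟨e, he⟩ := exists_equiv_quot_of_bounds J3.base A5.bounds A5.rels A5.clS A5.card
    (Q := Q) (map_Q ▸ subst_mem_cl hU)
    (I := [[], [], [], [], [], [], [], [], [], [], [], [], [], [], [], [51, 52, 51, 53, 52, 50, 50, 53], [50, 52, 51, 53, 52, 51, 53], [50, 50, 52, 53, 52, 51, 51], [52, 50, 52, 51, 52, 53, 50, 53]])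
    (nth_mem_cent J3.base (by decide +kernel)) (by decide +kernel) J3.chainC
    (V := [(50, [16]), (51, [15]), (52, [17, 18, 16, 17]), (53, [15, 17, 18, 15, 17, 16])])
    (by decide +kernel) (by decide +kernel) (by decide +kernel) (card_C_le.trans prod_cc.ge)
    (by rw [card_Q]; exact prod_cc.ge.trans J3.cent_le)
  obtain ⟨M, h, -⟩ :=
    exists_complement_of_bounds J3.base A5.bounds A5.rels A5.clS A5.card (by decide +kernel) he
  exact ⟨⟨e⟩, M, h⟩

theorem elem {E : Subgroup J3.PG} (hE : E ≤ Q.map C.subtype) (hc : ∀ x ∈ E, ∀ y ∈ E, x * y = y * x)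
    (hs : ∀ x ∈ E, x * x = 1) : Nat.card E ≤ 4 :=
  card_le_four_of_chk J3.base (M := 1048576) (Ws := (Us.map (substW (nth Ws []))).map fun z => (z, []))
    (fun p hp => by
      obtain ⟨z, hz, rfl⟩ := List.mem_map.1 hp
      exact map_Q ▸ subst_mem_cl hU z hz) (by decide +kernel)
    (by rw [Subgroup.card_map_of_injective C.subtype_injective, card_Q]; rfl) (by decide +kernel) hE hc hs

/-- The elements of a Sylow subgroup with conjugating words. -/
def W2 : List (List ℕ × List ℕ) := [([45, 45, 45, 45], [29, 37, 6]), ([48, 46, 46, 47, 45, 45], [27, 24]), ([45, 47, 46], [3, 30, 36]), ([46, 46], []), ([47, 46, 47], []), ([48, 45, 47, 45, 47], []), ([45, 47, 45, 45], []), ([48, 46, 47, 46, 47], []), ([48, 45, 47, 46, 47], []), ([48, 45, 45, 47, 46], []), ([47, 46, 46, 47, 46], []), ([48, 47, 45], []), ([48, 47, 45, 47], [5, 3, 44]), ([48, 46, 47], []), ([48, 45, 47, 45, 47, 45], [0, 4, 12, 47]), ([48, 47, 46, 46, 46], []), ([48, 46, 46, 47, 45], []), ([46, 47,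 45, 45, 45], []), ([47, 45, 45], []), ([], []), ([45, 47, 45, 45, 45], [3, 44, 33]), ([46, 46, 47], []), ([45, 47, 46, 47, 45], []), ([48, 47, 46, 47, 45, 45], []), ([48, 47, 45, 45, 47, 45], []), ([48, 47, 45, 47, 45], []), ([48, 47, 46, 46, 47, 45], []), ([46, 47, 46, 46], []), ([48, 46, 46, 47, 46], []), ([45, 47, 46, 46], []), ([48, 47, 45, 45], []), ([47, 46, 47, 45], []), ([48, 47, 46, 47], [5, 42, 53]), ([46, 47, 45, 45], []), ([48, 45, 47], []), ([48, 47, 46, 46, 47], [18, 24, 5]), ([46, 47, 45], [4, 46, 44]), ([48, 45, 45, 45], [0, 4, 12]), ([48, 45, 45, 47], []), ([48, 45, 45, 47, 45, 45], [19, 4, 5]), ([48, 45, 45, 45, 45], [25, 23, 34]), ([47, 45, 45, 47, 46], []), ([48, 47, 45, 47, 46], []), ([48, 45, 45, 47, 45], []), ([46, 46, 47, 46], []), ([45, 45, 45], []), ([48, 47, 46], []), ([47, 45, 47, 45], []), ([48, 46, 46, 46, 47], []), ([48, 46, 47, 46, 46], []), ([48, 46, 47, 46, 47, 45], []), ([47, 45, 47], []), ([47, 46, 47, 45, 45], []), ([47,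 46, 46], []), ([48, 45, 47, 45], [0, 27, 51]), ([48, 45, 47, 46], []), ([48, 45], [0, 23, 5]), ([48, 47, 46, 47, 46], []), ([46, 46, 46], []), ([45, 47, 45, 47], []), ([46, 47, 46], []), ([47, 46, 46, 47], []), ([45, 47, 45, 47, 45], []), ([45, 45, 47], []), ([48, 45, 45, 45, 47], []), ([45, 45, 47, 45, 45], [1, 36, 22]), ([48, 45, 47, 45, 45], []), ([48, 46], [31, 51, 21]), ([48], [46, 31, 46]), ([47, 46], []), ([47, 45, 47, 46], []), ([48, 46, 47, 46], [9, 24, 43]), ([48, 47, 45, 45, 47, 46], []), ([46, 46, 46, 47], []), ([45, 45], []), ([46, 46, 47, 45], []), ([46, 47, 46, 47], []), ([48, 45, 45], [46, 31]), ([46, 47, 46, 47, 45], []), ([48, 47, 46, 46], []), ([47, 45, 47, 45, 45], []), ([48, 46, 46, 47], []), ([47, 45], []), ([48, 46, 46], [1, 30, 51]), ([45, 45, 45, 47, 45], [29, 4]), ([48, 46, 47, 45, 47, 45], []), ([45, 47], []), ([48, 46, 47, 45], []), ([48, 47, 45, 45, 47], [46, 31, 47]), ([46, 47, 45, 47, 45], []), ([48, 47, 46, 47, 45], []), ([46,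 46, 46, 47, 45], []), ([48, 47, 45, 45, 47, 45, 45], [3, 29, 33]), ([47, 45, 45, 45], []), ([45, 45, 45, 47], []), ([45, 45, 47, 46], []), ([47, 45, 45, 45, 45], [29, 4, 46]), ([47, 46, 46, 47, 45], []), ([48, 46, 47, 45, 47], []), ([48, 45, 47, 46, 46], []), ([46, 47, 45, 47], []), ([46], []), ([48, 45, 45, 45, 47, 45], []), ([48, 47, 46, 46, 47, 46], []), ([48, 46, 47, 45, 45, 45], [4, 34, 21]), ([48, 46, 46, 46], [5, 3, 34]), ([45, 47, 46, 47], []), ([47, 45, 45, 47, 45], []), ([48, 47, 46, 46, 47, 45, 45], [1, 33, 24]), ([47, 45, 45, 47, 45, 45], [27, 1, 18]), ([48, 46, 47, 45, 45], []), ([48, 47, 45, 45, 45, 45], [41, 45, 18]), ([47], [22, 47, 4]), ([46, 46, 47, 45, 45], [4, 4, 28]), ([46, 47], []), ([45, 45, 47, 45], []), ([47, 46, 46, 47, 45, 45], [0, 49, 29, 22]), ([45], []), ([48, 45, 47, 46, 47, 45], [0, 3, 31, 18]), ([47, 46, 47, 46], []), ([47, 45, 45, 47], []), ([48, 47], [33, 17, 29]), ([48, 47, 45, 45, 45], []), ([45, 47, 45], []), ([48, 45,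 47, 45, 45, 45], []), ([48, 47, 45, 47, 45, 45], []), ([47, 46, 46, 46], []), ([48, 46, 46, 46, 47, 45], [9, 44, 25])]

theorem conj {x : J3.PG} (hx : orderOf x = 2) : IsConj x (J3.act.gen 12) :=
  isConj_of_sylow J3.base Nat.prime_two J3.cardP (by rw [J3.card]; norm_num) (M := 1048576) (Ws := W2)
    (by decide +kernel) (by decide +kernel) (by decide +kernel) (by decide +kernel) hx

theorem main {X : Type*} [Group X] (c : C ≃* X) : ∃ (R : Subgroup X) (_ : R.Normal), IsExtraspecial 2 R ∧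
    Nat.card R = 32 ∧ (∀ E : Subgroup R, IsElementaryAbelian 2 E → Nat.card E ≤ 2 ^ 2) ∧
    (∃ H : Subgroup X, R.IsComplement' H) ∧ Nonempty (X ⧸ R ≃* alternatingGroup (Fin 5)) := by
  obtain ⟨⟨f⟩, M, hM⟩ := compl
  have := Finite.of_equiv _ c.toEquiv
  have hN : (Q.map c.toMonoidHom).Normal := normal_Q.map _ c.surjective
  have h1 : Nat.card (Q.map c.toMonoidHom) = 32 := by
    rw [Subgroup.card_map_of_injective c.injective, card_Q]
  have h2 : Q.map c.toMonoidHom = Subgroup.closure (Set.range fun i => c.toMonoidHom (e i)) := by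
    rw [MonoidHom.map_closure, ← Set.range_comp]; rfl
  refine ⟨_, hN, h2 ▸ (es'.map _ c.injective).isExtraspecial' (by decide) (h2 ▸ h1), h1, fun E hE => ?_,
    ⟨_, isComplement'_map c hM⟩, ⟨(QuotientGroup.congr Q (Q.map c.toMonoidHom) c rfl).symm.trans
      (f.symm.trans (MulEquiv.subgroupCongr eqA))⟩⟩
  let g : Q.map c.toMonoidHom →* J3.PG :=
    C.subtype.comp (c.symm.toMonoidHom.comp (Subgroup.subtype _))
  rw [← Subgroup.card_map_of_injective (f := g)
    (C.subtype_injective.comp (c.symm.injective.comp Subtype.val_injective))]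
  refine elem ?_ ?_ ?_
  · rintro _ ⟨⟨_, x, hx, rfl⟩, -, rfl⟩
    exact ⟨x, hx, congrArg Subtype.val (c.symm_apply_apply x).symm⟩
  · rintro _ ⟨x, hx, rfl⟩ _ ⟨y, hy, rfl⟩
    rw [← map_mul, ← map_mul]
    exact congrArg (fun z : E => g z) (hE.1.is_comm.comm ⟨x, hx⟩ ⟨y, hy⟩)
  · rintro _ ⟨x, hx, rfl⟩
    rw [← map_mul, ← sq, hE.2 x hx, map_one]

/-- For any field with 4 elements and any element ω of it with ω² + ω + 1 = 0: in the Janko group J₃ (the group generated by explicit 9 × 9 matrices over that field built from ω, taken modulo its centre) all involutions are conjugate, and the centraliser C of an involution has a normal extraspecial subgroup Q of order 32 containing no elementary abelian subgroup of order 8, complemented in C, with C / Q isomorphic to the alternating group of degree 5 (shape 2^{1+4}_-:A₅). -/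
theorem result {F : Type*} [Field F] [Fintype F] (hF : Fintype.card F = 4) (ω : F) (hω : ω ^ 2 + ω + 1 = 0) : (∀ x y : Cfsg.Spor.J3 F ω, orderOf x = 2 → orderOf y = 2 → IsConj x y) ∧ ∃ t : Cfsg.Spor.J3 F ω, orderOf t = 2 ∧ ∃ (Q : Subgroup ↥(Subgroup.centralizer ({t} : Set (Cfsg.Spor.J3 F ω)))) (_ : Q.Normal), Cfsg.IsExtraspecial 2 Q ∧ Nat.card Q = 32 ∧ (∀ E : Subgroup Q, Cfsg.IsElementaryAbelian 2 E → Nat.card E ≤ 2 ^ 2) ∧ (∃ H : Subgroup ↥(Subgroup.centralizer ({t} : Set (Cfsg.Spor.J3 F ω))), Q.IsComplement' H) ∧ Nonempty (↥(Subgroup.centralizer ({t} : Set (Cfsg.Spor.J3 F ω))) ⧸ Q ≃* ↥(alternatingGroup (Fin 5))) := by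
  obtain ⟨φ⟩ := Id.J3.iso hF ω hω
  refine ⟨fun x y hx hy => ?_, φ.symm (J3.act.gen 12), by rw [MulEquiv.orderOf_eq, ord_t], ?_⟩
  · simpa using φ.symm.toMonoidHom.map_isConj ((conj ((φ.orderOf_eq x).trans hx)).trans
      (conj ((φ.orderOf_eq y).trans hy)).symm)
  · exact main (centEquiv φ.symm _)

end Cfsg.Agent.S2135
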