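import Cfsg.Statements.S2143
import Cfsg.Agent.Lib.MI.O7

set_option autoImplicit false
open Cfsg
open Module Cfsg.Agent.Forms Cfsg.Agent.MI

namespace Cfsg.Agent.S2143

/-- Minimal index of a proper subgroup of the odd-dimensional orthogonal groups: for m ≥ 3 and a field F with q elements, q odd and q ≥ 5, every proper subgroup of PΩ_(2m+1)(F) (for the form x₀² + Σ xᵢyᵢ) has index at least (q^(2m) − 1)/(q − 1), and that index is attained. -/
theorem result {F : Type*} [Field F] [Fintype F] {q : ℕ} (hF : Fintype.card F = q) (hodd : Odd q) (h5 : 5 ≤ q) (m : ℕ) (hm : 3 ≤ m) : (∀ H : Subgroup (Cfsg.POmega F (Cfsg.quadFormOdd m F)), H ≠ ⊤ → (q ^ (2 * m) - 1) / (q - 1) ≤ H.index) ∧ (∃ H : Subgroup (Cfsg.POmega F (Cfsg.quadFormOdd m F)), H.index = (q ^ (2 * m) - 1) / (q - 1)) := by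
  obtain ⟨j, rfl⟩ : ∃ j, m = j + 1 := ⟨m - 1, by omega⟩
  have h2 : (2 : F) ≠ 0 := two_ne_zero_of_odd (hF ▸ hodd)
  have hf := oddForm_nondeg (F := F) (j + 1) h2
  have hV : finrank F (Unit ⊕ (Fin (j + 1) ⊕ Fin (j + 1)) → F) = 2 * j + 1 + 2 := finrank_odd _
  obtain ⟨H, h1, h3⟩ := omega_index_sing hf (by omega)
  obtain ⟨e1, e2⟩ := odd_counts (F := F) j
  have hq : Nat.card F = q := by rw [Nat.card_eq_fintype_card, hF]
  rw [e1, hq] at h3
  have h4 : (q ^ (2 * (j + 1)) - 1) / (q - 1) = H.index := by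
    refine Nat.div_eq_of_eq_mul_left (by omega) ?_
    zify [show 1 ≤ q by omega, show 1 ≤ q ^ (2 * (j + 1)) from Nat.one_le_pow _ _ (by omega)]
    rw [h3]; ring
  rw [h4]
  refine min_index_quot (commutatorEquiv (oddEquiv (j + 1) F)) (omega_index_ge hf hV (by omega) e1 e2
    ?_ fun M _ => by omega) ⟨H, h1, rfl⟩
  rw [hq, show (q : ℤ) ^ (2 * j + 1) = q * (q ^ j) ^ 2 by ring] at *
  have hx : (q : ℤ) ^ 2 ≤ q ^ j := pow_le_pow_right₀ (by omega) (by omega)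
  generalize (q : ℤ) ^ j = x at *
  have h0 : (0 : ℤ) < q - 1 := by omega
  obtain ⟨y, rfl⟩ : ∃ y, x = y + q ^ 2 := ⟨x - q ^ 2, by ring⟩
  have hy : 0 ≤ y := by linarith
  have key : ∀ a b : ℤ, a * (H.index * (q - 1)) ≤ b * (q - 1) → a * H.index ≤ b := fun a b h =>
    le_of_mul_le_mul_right (by linarith) h0
  refine ⟨by linarith, ?_, fun _ => ⟨key _ _ ?_, fun h => by omega, fun h => key _ _ ?_,
    fun h => key _ _ ?_⟩, fun h => absurd h h2⟩
  · rw [← one_mul (H.index : ℤ)]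
    refine key _ _ ?_
    obtain ⟨r, hr, e⟩ : ∃ r : ℤ, 0 ≤ r ∧ q = r + 5 := ⟨q - 5, by omega, by ring⟩
    rw [h3, e, ← sub_nonneg]; ring_nf; positivity
  · obtain ⟨r, hr, e⟩ : ∃ r : ℤ, 0 ≤ r ∧ q = r + 5 := ⟨q - 5, by omega, by ring⟩
    rw [h3, e, ← sub_nonneg]; ring_nf; positivity
  · rw [h3, h, ← sub_nonneg]; ring_nf; positivity
  · obtain ⟨r, hr, e⟩ : ∃ r : ℤ, 0 ≤ r ∧ q = r + 7 := ⟨q - 7, by omega, by ring⟩
    rw [h3, e, ← sub_nonneg]; ring_nf; positivity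

end Cfsg.Agent.S2143
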