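import Cfsg.Statements.S2144
import Cfsg.Agent.Lib.MI.O7

set_option autoImplicit false
open Cfsg
open Module Cfsg.Agent.Forms Cfsg.Agent.MI

namespace Cfsg.Agent.S2144

/-- Minimal index of a proper subgroup of the odd-dimensional orthogonal groups over the field with 3 elements: for m ≥ 3, every proper subgroup of PΩ_(2m+1)(3) (for the form x₀² + Σ xᵢyᵢ) has index at least 3^m(3^m − 1)/2, and that index is attained. -/
theorem result {F : Type*} [Field F] [Fintype F] (hF : Fintype.card F = 3) (m : ℕ) (hm : 3 ≤ m) : (∀ H : Subgroup (Cfsg.POmega F (Cfsg.quadFormOdd m F)), H ≠ ⊤ → 3 ^ m * (3 ^ m - 1) / 2 ≤ H.index) ∧ (∃ H : Subgroup (Cfsg.POmega F (Cfsg.quadFormOdd m F)), H.index = 3 ^ m * (3 ^ m - 1) / 2) := by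
  obtain ⟨j, rfl⟩ : ∃ j, m = j + 1 := ⟨m - 1, by omega⟩
  have h2 : (2 : F) ≠ 0 := two_ne_zero_of_odd (by rw [hF]; decide)
  have hf := oddForm_nondeg (F := F) (j + 1) h2
  have hV : finrank F (Unit ⊕ (Fin (j + 1) ⊕ Fin (j + 1)) → F) = 2 * j + 1 + 2 := finrank_odd _
  have hq : Nat.card F = 3 := by rw [Nat.card_eq_fintype_card, hF]
  obtain ⟨H, h1, h3⟩ := omega_index_Q hf (by omega) (Or.inr hq) (c := -1) (by simp)
  obtain ⟨e1, e2⟩ := odd_counts (F := F) j
  have : IsEmpty {z : F // z ^ 2 = -1} := ⟨fun ⟨z, hz⟩ => h2 (by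
    have := mul_self_eq_one_of_card (a := z) (Or.inr hq) (by rintro rfl; simp at hz)
    linear_combination hz - this)⟩
  zify at h3
  rw [oddForm_Q, card_odd, hq, Nat.card_of_isEmpty] at h3
  push_cast at h3
  have h4 : 3 ^ (j + 1) * (3 ^ (j + 1) - 1) / 2 = H.index := by
    refine Nat.div_eq_of_eq_mul_left (by omega) ?_
    zify [show 1 ≤ 3 ^ (j + 1) from Nat.one_le_pow _ _ (by omega)]
    rw [h3]; ring
  rw [h4]
  refine min_index_quot (commutatorEquiv (oddEquiv (j + 1) F)) (omega_index_ge hf hV (by omega) e1 e2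
    ?_ fun M _ => by omega) ⟨H, h1, rfl⟩
  rw [hq]
  push_cast
  rw [show (3 : ℤ) ^ (2 * j + 1) = 3 * (3 ^ j) ^ 2 by ring]
  rw [pow_succ] at h3
  have hx : (3 : ℤ) ^ 2 ≤ 3 ^ j := pow_le_pow_right₀ (by omega) (by omega)
  generalize (3 : ℤ) ^ j = x at *
  exact ⟨by nlinarith, by nlinarith, fun _ => ⟨by nlinarith, fun _ => ⟨by nlinarith, by nlinarith⟩,
    fun h => by omega, fun h => by omega⟩, fun h => absurd h h2⟩

end Cfsg.Agent.S2144
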