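import Cfsg.Statements.S2145
import Cfsg.Agent.Lib.MI.O9

set_option autoImplicit false
open Cfsg
open Module Cfsg.Agent.Forms Cfsg.Agent.MI

namespace Cfsg.Agent.S2145

/-- Minimal index of a proper subgroup of the even-dimensional orthogonal groups of plus type: for m ≥ 4 and a field F with q ≥ 4 elements, every proper subgroup of PΩ⁺_2m(F) (for the form Σ xᵢyᵢ) has index at least (q^m − 1)(q^(m−1) + 1)/(q − 1), and that index is attained (the singular points). -/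
theorem result {F : Type*} [Field F] [Fintype F] {q : ℕ} (hF : Fintype.card F = q) (hq : 4 ≤ q) (m : ℕ) (hm : 4 ≤ m) : (∀ H : Subgroup (Cfsg.POmega F (Cfsg.quadFormPlus m F)), H ≠ ⊤ → (q ^ m - 1) * (q ^ (m - 1) + 1) / (q - 1) ≤ H.index) ∧ (∃ H : Subgroup (Cfsg.POmega F (Cfsg.quadFormPlus m F)), H.index = (q ^ m - 1) * (q ^ (m - 1) + 1) / (q - 1)) := by
  obtain ⟨j, rfl⟩ : ∃ j, m = j + 4 := ⟨m - 4, by omega⟩
  rw [show j + 4 - 1 = j + 3 from rfl]
  have hf := plusForm_nondeg (F := F) (j + 4)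
  have hV : finrank F (Fin (j + 4) ⊕ Fin (j + 4) → F) = 2 * (j + 4) := finrank_plus _
  obtain ⟨H, h1, h3⟩ := omega_index_sing hf (by omega)
  have hq' : Nat.card F = q := by rw [Nat.card_eq_fintype_card, hF]
  obtain ⟨e1, e2⟩ := plus_counts (F := F) (j + 2)
  rw [e1, hq'] at h3
  have h4 : (q ^ (j + 4) - 1) * (q ^ (j + 3) + 1) / (q - 1) = H.index := by
    refine Nat.div_eq_of_eq_mul_left (by omega) ?_
    zify [show 1 ≤ q by omega, show 1 ≤ q ^ (j + 4) from Nat.one_le_pow _ _ (by omega)]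
    rw [h3]; ring
  rw [h4]
  have h0 : (0 : ℤ) < q - 1 := by omega
  have key : ∀ a b : ℤ, a * (H.index * (q - 1)) ≤ b * (q - 1) → a * H.index ≤ b := fun a b h =>
    le_of_mul_le_mul_right (by linarith) h0
  have key1 : ∀ b : ℤ, H.index * (q - 1) ≤ b * (q - 1) → H.index ≤ b := fun b h =>
    le_of_mul_le_mul_right h h0
  have h5 : j = 0 → (H.index : ℤ) ≤ (q ^ 3 + 1) * (q + 1) * (q ^ 2 + 1) := by
    rintro rfl
    exact key1 _ (by rw [h3]; exact le_of_eq (by ring))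
  rw [show (q : ℤ) ^ (2 * (j + 2) + 2) = q ^ 2 * (q ^ (j + 2)) ^ 2 by ring] at h3
  have hx : (q : ℤ) ^ 2 ≤ q ^ (j + 2) := pow_le_pow_right₀ (by omega) (by omega)
  obtain ⟨r, hr, e⟩ : ∃ r : ℤ, 0 ≤ r ∧ q = r + 4 := ⟨q - 4, by omega, by ring⟩
  refine min_index_quot (commutatorEquiv (plusEquiv (j + 4) F)) (omega_plus_ge hf hV e1
    (fun c hc => (e2 c hc).le) ?_ ?_ fun h => ⟨by rw [h]; ring, Or.inr ⟨by omega, by
      rw [hq']; exact_mod_cast h5 h⟩⟩) ⟨H, h1, rfl⟩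
  all_goals rw [hq']
  rw [show (q : ℤ) ^ (2 * j + 6) = q ^ 2 * (q ^ (j + 2)) ^ 2 by ring]
  all_goals
    generalize (q : ℤ) ^ (j + 2) = x at *
    obtain ⟨y, rfl⟩ : ∃ y, x = y + q ^ 2 := ⟨x - q ^ 2, by ring⟩
    have hy : 0 ≤ y := by linarith
  · refine ⟨by linarith, key1 _ ?_, fun h2 => ⟨key _ _ ?_, fun h => by omega,
      fun h => key _ _ ?_, fun h => key _ _ ?_⟩, fun _ => ⟨?_, fun h => by omega,
      fun h => key _ _ ?_⟩⟩
    · rw [h3, e, ← sub_nonneg]; ring_nf; positivity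
    · rw [h3, e, ← sub_nonneg]; ring_nf; positivity
    · rw [h3, h, ← sub_nonneg]; ring_nf; positivity
    · obtain ⟨r, hr, e⟩ : ∃ r : ℤ, 0 ≤ r ∧ q = r + 7 := ⟨q - 7, by omega, by ring⟩
      rw [h3, e, ← sub_nonneg]; ring_nf; positivity
    · rw [mul_comm, h3, e, ← sub_nonneg]; ring_nf; positivity
    · rw [h3, e, ← sub_nonneg]; ring_nf; positivity
  · refine key _ _ ?_
    rw [h3, e, ← sub_nonneg]; ring_nf; positivity

end Cfsg.Agent.S2145
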