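import Cfsg.Statements.S2146
import Cfsg.Agent.Lib.MI.O9

set_option autoImplicit false
open Cfsg
open Module Cfsg.Agent.Forms Cfsg.Agent.MI

namespace Cfsg.Agent.S2146

/-- Minimal index of a proper subgroup of the even-dimensional orthogonal groups of plus type over the field with 2 elements: for m ≥ 4, every proper subgroup of Ω⁺_2m(2) (for the form Σ xᵢyᵢ) has index at least 2^(m−1)(2^m − 1), and that index is attained. -/
theorem result {F : Type*} [Field F] [Fintype F] (hF : Fintype.card F = 2) (m : ℕ) (hm : 4 ≤ m) : (∀ H : Subgroup (Cfsg.POmega F (Cfsg.quadFormPlus m F)), H ≠ ⊤ → 2 ^ (m - 1) * (2 ^ m - 1) ≤ H.index) ∧ (∃ H : Subgroup (Cfsg.POmega F (Cfsg.quadFormPlus m F)), H.index = 2 ^ (m - 1) * (2 ^ m - 1)) := by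
  obtain ⟨j, rfl⟩ : ∃ j, m = j + 4 := ⟨m - 4, by omega⟩
  rw [show j + 4 - 1 = j + 3 from rfl]
  have hf := plusForm_nondeg (F := F) (j + 4)
  have hV : finrank F (Fin (j + 4) ⊕ Fin (j + 4) → F) = 2 * (j + 4) := finrank_plus _
  have hq : Nat.card F = 2 := by rw [Nat.card_eq_fintype_card, hF]
  obtain ⟨H, h1, h3⟩ := omega_index_Q hf (by omega) (Or.inl hq) (c := 1) one_ne_zero
  obtain ⟨e1, e2⟩ := plus_counts (F := F) (j + 2)
  zify at h3
  rw [← e2 1 one_ne_zero, hq] at h3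
  push_cast at h3
  have h4 : 2 ^ (j + 3) * (2 ^ (j + 4) - 1) = H.index := by
    zify [show 1 ≤ 2 ^ (j + 4) from Nat.one_le_pow _ _ (by omega)]
    linear_combination -h3
  rw [h4]
  have h5 : j = 0 → (H.index : ℤ) ≤ 120 := by
    rintro rfl
    omega
  rw [show (2 : ℤ) ^ (2 * (j + 2) + 2) = 4 * (2 ^ (j + 2)) ^ 2 by ring] at h3
  have hx : (2 : ℤ) ^ 2 ≤ 2 ^ (j + 2) := pow_le_pow_right₀ (by omega) (by omega)
  refine min_index_quot (commutatorEquiv (plusEquiv (j + 4) F)) (omega_plus_ge hf hV e1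
    (fun c hc => (e2 c hc).le) ?_ ?_ fun h => ⟨by rw [h]; ring, Or.inl (by
      rw [hq]; exact_mod_cast h5 h)⟩) ⟨H, h1, rfl⟩
  all_goals rw [hq]; push_cast
  rw [show (2 : ℤ) ^ (2 * j + 6) = 4 * (2 ^ (j + 2)) ^ 2 by ring]
  all_goals generalize (2 : ℤ) ^ (j + 2) = x at *
  · refine ⟨by nlinarith, by nlinarith, fun h => ?_, fun _ => ⟨by nlinarith,
      fun _ => ⟨by nlinarith, by nlinarith⟩, fun h => by omega⟩⟩
    have := odd_card h
    rw [hF] at this
    exact absurd this (by decide)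
  · nlinarith

end Cfsg.Agent.S2146
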