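import Cfsg.Statements.S2147
import Cfsg.Agent.Lib.MI.O7

set_option autoImplicit false
open Cfsg
open Module Cfsg.Agent.Forms Cfsg.Agent.MI

namespace Cfsg.Agent.S2147

/-- Minimal index of a proper subgroup of the even-dimensional orthogonal groups of minus type: for m ≥ 4 and a field F with q elements, every proper subgroup of PΩ⁻_2m(F) (for the form Σ_{i<m−1} xᵢyᵢ + z₁² + a z₁z₂ + b z₂² with anisotropic binary part) has index at least (q^m + 1)(q^(m−1) − 1)/(q − 1), and that index is attained. -/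
theorem result {F : Type*} [Field F] [Fintype F] {q : ℕ} (hF : Fintype.card F = q) (m : ℕ) (hm : 4 ≤ m) (a b : F) (hab : ∀ z₁ z₂ : F, z₁ ^ 2 + a * z₁ * z₂ + b * z₂ ^ 2 = 0 → z₁ = 0 ∧ z₂ = 0) : (∀ H : Subgroup (Cfsg.POmega F (Cfsg.quadFormMinus (m - 1) F a b)), H ≠ ⊤ → (q ^ m + 1) * (q ^ (m - 1) - 1) / (q - 1) ≤ H.index) ∧ (∃ H : Subgroup (Cfsg.POmega F (Cfsg.quadFormMinus (m - 1) F a b)), H.index = (q ^ m + 1) * (q ^ (m - 1) - 1) / (q - 1)) := by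
  obtain ⟨j, rfl⟩ : ∃ j, m = j + 2 := ⟨m - 2, by omega⟩
  rw [show j + 2 - 1 = j + 1 from rfl]
  have hf := minusForm_nondeg (F := F) (j + 1) (disc_ne_zero_of_anisotropic hab)
  have hV : finrank F ((Fin (j + 1) ⊕ Fin (j + 1)) ⊕ Fin 2 → F) = 2 * j + 2 + 2 := finrank_minus _
  obtain ⟨H, h1, h3⟩ := omega_index_sing hf (by omega)
  have hq : Nat.card F = q := by rw [Nat.card_eq_fintype_card, hF]
  have hq1 : 1 < q := hq ▸ Finite.one_lt_card
  rw [minusForm_Q, card_minus_zero j hab, hq] at h3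
  have h4 : (q ^ (j + 2) + 1) * (q ^ (j + 1) - 1) / (q - 1) = H.index := by
    refine Nat.div_eq_of_eq_mul_left (by omega) ?_
    zify [show 1 ≤ q by omega, show 1 ≤ q ^ (j + 1) from Nat.one_le_pow _ _ (by omega)]
    rw [h3]; ring
  rw [h4]
  refine min_index_quot (commutatorEquiv (minusEquiv (j + 1) F a b)) (omega_index_ge hf hV
    (by omega) (n₀ := q ^ 2 * (q ^ j) ^ 2 - q ^ 2 * q ^ j + q * q ^ j)
    (nm := q ^ 2 * (q ^ j) ^ 2 + q * q ^ j)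
    (by rw [minusForm_Q, card_minus_zero j hab, hq]; ring)
    (fun c hc => by rw [minusForm_Q, card_minus_ne j hab hc, hq]; exact le_of_eq (by ring))
    ?_ fun M hM => by have := minusForm_totSing_le hab hM; omega) ⟨H, h1, rfl⟩
  rw [hq, show (q : ℤ) ^ (2 * j + 2) = q ^ 2 * (q ^ j) ^ 2 by ring]
  rw [show (q : ℤ) ^ (j + 1) = q * q ^ j by ring, show (q : ℤ) ^ (j + 2) = q ^ 2 * q ^ j by ring]
    at h3
  have hx : (q : ℤ) ^ 2 ≤ q ^ j := pow_le_pow_right₀ (by omega) (by omega)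
  generalize (q : ℤ) ^ j = x at *
  have h0 : (0 : ℤ) < q - 1 := by omega
  obtain ⟨y, rfl⟩ : ∃ y, x = y + q ^ 2 := ⟨x - q ^ 2, by ring⟩
  have hy : 0 ≤ y := by linarith
  have key : ∀ a b : ℤ, a * (H.index * (q - 1)) ≤ b * (q - 1) → a * H.index ≤ b := fun a b h =>
    le_of_mul_le_mul_right (by linarith) h0
  have key1 : ∀ b : ℤ, H.index * (q - 1) ≤ b * (q - 1) → H.index ≤ b := fun b h =>
    le_of_mul_le_mul_right h h0
  obtain ⟨r, hr, e⟩ : ∃ r : ℤ, 0 ≤ r ∧ q = r + 2 := ⟨q - 2, by omega, by ring⟩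
  refine ⟨by linarith, key1 _ ?_, fun h2 => ⟨key _ _ ?_, fun h => ⟨key1 _ ?_, key1 _ ?_⟩,
    fun h => key _ _ ?_, fun h => key _ _ ?_⟩, fun _ => ⟨?_, fun h => ⟨key1 _ ?_, key _ _ ?_⟩,
    fun h => key _ _ ?_⟩⟩
  · rw [h3, e, ← sub_nonneg]; ring_nf; positivity
  · have := odd_card h2
    rw [hF, Nat.odd_iff] at this
    obtain ⟨r, hr, e⟩ : ∃ r : ℤ, 0 ≤ r ∧ q = r + 3 := ⟨q - 3, by omega, by ring⟩
    rw [h3, e, ← sub_nonneg]; ring_nf; positivity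
  · rw [h3, h, ← sub_nonneg]; ring_nf; positivity
  · rw [h3, h, ← sub_nonneg]; ring_nf; positivity
  · rw [h3, h, ← sub_nonneg]; ring_nf; positivity
  · obtain ⟨r, hr, e⟩ : ∃ r : ℤ, 0 ≤ r ∧ q = r + 7 := ⟨q - 7, by omega, by ring⟩
    rw [h3, e, ← sub_nonneg]; ring_nf; positivity
  · rw [mul_comm, h3, e, ← sub_nonneg]; ring_nf; positivity
  · rw [h3, h, ← sub_nonneg]; ring_nf; positivity
  · rw [h3, h, ← sub_nonneg]; ring_nf; positivity
  · obtain ⟨r, hr, e⟩ : ∃ r : ℤ, 0 ≤ r ∧ q = r + 4 := ⟨q - 4, by omega, by ring⟩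
    rw [h3, e, ← sub_nonneg]; ring_nf; positivity

end Cfsg.Agent.S2147
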