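import Cfsg.Statements.S2149
import Cfsg.Agent.Lib.Id.U35
import Cfsg.Agent.Lib.Grp.A7.Main
import Cfsg.Agent.Lib.Id.Cent4

set_option autoImplicit false
open Cfsg

namespace Cfsg.Agent.S2149

set_option maxRecDepth 100000
set_option Elab.async false

open Cfsg.Agent.CG Cfsg.Agent.Id Cfsg.Agent.CG.U35

theorem card_heis {X : Type*} [Group X] [Finite X] {e : Fin 2 → X} {c : X} {p : ℕ} (hp : 0 < p)
    (h1 : e 0 * e 1 = c * (e 1 * e 0)) (h2 : ∀ i, c * e i = e i * c) (h3 : ∀ i, e i ^ p = 1)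
    (h4 : c ^ p = 1) : Nat.card (Subgroup.closure (Set.range e)) ≤ p ^ 3 := by
  have he : ∀ i, e i ∈ Subgroup.closure (Set.range e) := fun i => Subgroup.subset_closure ⟨i, rfl⟩
  have ht : c ∈ Subgroup.closure (Set.range e) := by
    rw [show c = e 0 * e 1 * (e 1 * e 0)⁻¹ by rw [h1]; group]
    exact mul_mem (mul_mem (he _) (he _)) (inv_mem (mul_mem (he _) (he _)))
  let t' : Subgroup.closure (Set.range e) := ⟨c, ht⟩
  let e' : Fin 2 → Subgroup.closure (Set.range e) := fun i => ⟨e i, he i⟩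
  have h5 : Subgroup.closure (Set.range e') = ⊤ := by
    apply Subgroup.map_injective (Subgroup.closure (Set.range e)).subtype_injective
    rw [MonoidHom.map_closure, ← MonoidHom.range_eq_map, Subgroup.range_subtype, ← Set.range_comp]
    rfl
  have h6 : Subgroup.closure (Set.range e') ≤ Subgroup.centralizer {t'} := by
    rw [Subgroup.closure_le]
    rintro _ ⟨i, rfl⟩
    exact Subgroup.mem_centralizer_singleton_iff.2 (Subtype.ext (h2 i).symm)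
  have := normal_zpowers_of_center (z := t') (Subgroup.mem_center_iff.2 fun g =>
    Subgroup.mem_centralizer_singleton_iff.1 (h6 (h5 ▸ Subgroup.mem_top g)))
  have h7 : (QuotientGroup.mk' (Subgroup.zpowers t')) t' = 1 :=
    (QuotientGroup.eq_one_iff _).2 (Subgroup.mem_zpowers _)
  have h8 : (QuotientGroup.mk' (Subgroup.zpowers t')) (e' 0) * QuotientGroup.mk' _ (e' 1) =
      QuotientGroup.mk' _ (e' 1) * QuotientGroup.mk' _ (e' 0) := by
    rw [← map_mul, show e' 0 * e' 1 = t' * (e' 1 * e' 0) from Subtype.ext h1, map_mul, h7, one_mul, map_mul]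
  rw [Subgroup.card_eq_card_quotient_mul_card_subgroup (Subgroup.zpowers t'), pow_succ, Nat.card_zpowers]
  refine Nat.mul_le_mul ((card_le_of_comm (f := fun i => QuotientGroup.mk' _ (e' i)) hp
    (fun i j => ?_) (fun i => ?_) ?_).trans (by simp)) (orderOf_le_of_pow_eq_one hp (Subtype.ext h4))
  · fin_cases i <;> fin_cases j
    exacts [rfl, h8, h8.symm, rfl]
  · rw [← map_pow, show e' i ^ p = 1 from Subtype.ext (h3 i), map_one]
  · rw [show (Set.range fun i => QuotientGroup.mk' (Subgroup.zpowers t') (e' i)) =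
      QuotientGroup.mk' _ '' Set.range e' from Set.range_comp _ _, ← MonoidHom.map_closure, h5,
      ← MonoidHom.range_eq_map, QuotientGroup.range_mk']

/-- The Sylow 5-subgroup. -/
noncomputable def sylP : Subgroup PG := cl (fun i => ev act.gen (nth [[11], [13]] [] i)) [0, 1]

/-- The elements of the Sylow 5-subgroup with words for the central element. -/
noncomputable def tabP : List (List ℕ × List ℕ) := [([14, 11, 14], [1, 1, 0, 1, 0, 1, 1, 1, 0, 1, 0, 1]), ([13, 13, 11, 13], [1, 1, 0, 1, 1, 1, 1, 0, 1, 1]), ([11, 14, 14], [1, 1, 1, 0, 1, 1, 1, 1, 0, 1]), ([13, 11, 13, 13], [1, 1, 1, 1, 0, 1, 1, 1, 1, 0]), ([14, 14, 11], [1, 0, 1, 1, 1, 1, 0, 1, 1, 1]), ([12, 13, 12, 12], [1, 1, 1, 1, 0, 1, 1, 1, 1, 0]), ([14, 14, 12, 12], [1, 1, 1, 1, 0, 1, 1, 1, 1, 0]), ([12, 12, 13, 11], [1, 0, 1, 1, 1, 1, 0, 1, 1, 1]), ([12, 12, 14], [1, 0, 1, 1, 1, 1, 0, 1, 1, 1]), ([11, 11, 14, 11, 11],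 [1, 0, 1, 0, 1, 1, 1, 0, 1, 0, 1, 1]), ([11, 14, 11, 14], [1, 1, 1, 0, 1, 1, 1, 1, 0, 1]), ([11, 13, 11, 13], [1, 0, 1, 1, 1, 1, 0, 1, 1, 1]), ([14, 12, 12, 13, 11], [1, 1, 1, 1, 0, 1, 1, 1, 1, 0]), ([11, 14, 12], [1, 1, 1, 0, 1, 1, 1, 1, 0, 1]), ([11, 13, 11, 11], [1, 1, 0, 1, 1, 1, 1, 0, 1, 1]), ([], []), ([12, 14, 14], [1, 0, 1, 1, 1, 1, 0, 1, 1, 1]), ([13, 12, 14, 12], [1, 0, 1, 1, 1, 1, 0, 1, 1, 1]), ([13, 12, 13], [1, 1, 0, 1, 0, 1, 1, 1, 0, 1, 0, 1]), ([12, 12, 13, 13], [1, 1, 1, 1, 0, 1, 1, 1, 1, 0]), ([11, 14, 14, 12], [1, 1, 1, 1, 0, 1, 1, 1, 1, 0]), ([12, 13, 11, 11], [1, 0, 1, 1, 1, 1, 0, 1, 1, 1]), ([11, 14], [1, 1, 0, 1, 1, 1, 1, 0, 1, 1]), ([12, 13, 12], [1, 1, 1, 0, 1, 0, 1, 1, 1, 0, 1, 0]), ([12, 14], [1, 1, 1, 1, 0, 1, 1, 1, 1, 0]), ([12], [1, 1, 0, 1, 0, 1, 1, 1, 0, 1, 0, 1]), ([14, 12, 12, 13], [1, 1, 1, 1, 0, 1, 1, 1, 1, 0]), ([11, 14, 12, 12], [1, 0, 1, 1,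 1, 1, 0, 1, 1, 1]), ([12, 12, 13, 11, 11], [1, 1, 1, 1, 0, 1, 1, 1, 1, 0]), ([12, 13, 11], [1, 1, 1, 0, 1, 1, 1, 1, 0, 1]), ([14, 11, 13], [1, 0, 1, 1, 1, 1, 0, 1, 1, 1]), ([14, 12, 14], [1, 0, 1, 0, 1, 1, 1, 0, 1, 0, 1, 1]), ([14, 11, 14, 14], [1, 1, 0, 1, 1, 1, 1, 0, 1, 1]), ([14, 11, 13, 11], [1, 0, 1, 1, 1, 1, 0, 1, 1, 1]), ([14, 14], [1, 1, 0, 1, 0, 1, 1, 1, 0, 1, 0, 1]), ([13, 11, 13, 12], [1, 0, 1, 1, 1, 1, 0, 1, 1, 1]), ([11, 11, 13], [1, 0, 1, 1, 1, 1, 0, 1, 1, 1]), ([13, 13, 11], [1, 1, 1, 0, 1, 1, 1, 1, 0, 1]), ([11, 11, 14, 11], [1, 1, 0, 1, 1, 1, 1, 0, 1, 1]), ([11, 11, 14], [1, 1, 1, 0, 1, 1, 1, 1, 0, 1]), ([14, 11, 11, 13, 12], [1, 1, 0, 1, 1, 1, 1, 0, 1, 1]), ([12, 12], [1, 0, 1, 1, 1, 0, 1, 0, 1, 1, 1, 0]), ([11, 14, 11], [1, 1, 1, 0, 1, 0, 1, 1, 1, 0, 1, 0]), ([14, 12, 13], [1, 1, 1, 0, 1, 1, 1, 1, 0, 1]), ([11, 14, 14, 11], [1, 0, 1, 0, 1, 1, 1, 0, 1, 0, 1,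 1]), ([14, 12, 14, 14], [1, 1, 1, 1, 0, 1, 1, 1, 1, 0]), ([12, 14, 14, 12], [1, 1, 1, 0, 1, 0, 1, 1, 1, 0, 1, 0]), ([13, 12, 12], [1, 0, 1, 1, 1, 1, 0, 1, 1, 1]), ([14, 12, 13, 11], [0, 0, 0, 0]), ([11, 11, 14, 14], [1, 1, 1, 1, 0, 1, 1, 1, 1, 0]), ([12, 14, 12, 14], [1, 0, 1, 1, 1, 1, 0, 1, 1, 1]), ([12, 13, 13, 11], [1, 1, 1, 1, 0, 1, 1, 1, 1, 0]), ([12, 14, 11], [1, 0, 1, 1, 1, 1, 0, 1, 1, 1]), ([12, 14, 12, 12], [1, 1, 0, 1, 1, 1, 1, 0, 1, 1]), ([13, 13, 12, 12], [1, 1, 0, 1, 1, 1, 1, 0, 1, 1]), ([14, 12, 14, 11], [1, 0, 1, 1, 1, 1, 0, 1, 1, 1]), ([12, 14, 11, 11], [1, 1, 1, 0, 1, 1, 1, 1, 0, 1]), ([14], [1, 0, 1, 1, 1, 0, 1, 0, 1, 1, 1, 0]), ([13, 12, 13, 13], [1, 1, 0, 1, 1, 1, 1, 0, 1, 1]), ([11, 13, 12, 12], [1, 1, 1, 0, 1, 1, 1, 1, 0, 1]), ([13, 11], [1, 1, 0, 1, 1, 1, 1, 0, 1, 1]), ([12, 12, 13, 12, 12], [1, 0, 1, 0, 1, 1, 1, 0, 1, 0, 1, 1]), ([12, 14, 12], [1, 0, 1,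 1, 1, 0, 1, 0, 1, 1, 1, 0]), ([12, 13, 13, 12], [1, 0, 1, 0, 1, 1, 1, 0, 1, 0, 1, 1]), ([12, 12, 14, 12, 12], [1, 1, 1, 0, 1, 0, 1, 1, 1, 0, 1, 0]), ([11, 13, 13, 11], [1, 1, 1, 0, 1, 0, 1, 1, 1, 0, 1, 0]), ([11, 13, 11], [1, 0, 1, 1, 1, 0, 1, 0, 1, 1, 1, 0]), ([13, 12, 14, 11], [0]), ([14, 14, 12, 14], [1, 1, 0, 1, 1, 1, 1, 0, 1, 1]), ([11, 13, 12], [1, 0, 1, 1, 1, 1, 0, 1, 1, 1]), ([12, 13], [1, 1, 0, 1, 1, 1, 1, 0, 1, 1]), ([13, 11, 14, 11], [1, 1, 1, 0, 1, 1, 1, 1, 0, 1]), ([13, 11, 13, 11], [1, 1, 1, 0, 1, 1, 1, 1, 0, 1]), ([11, 11, 13, 11], [1, 1, 1, 1, 0, 1, 1, 1, 1, 0]), ([14, 11, 14, 12], [1, 1, 1, 0, 1, 1, 1, 1, 0, 1]), ([14, 12, 12], [1, 1, 1, 0, 1, 1, 1, 1, 0, 1]), ([13, 13, 12, 13], [1, 1, 1, 1, 0, 1, 1, 1, 1, 0]), ([13, 12, 12, 14, 11], [1, 1, 0, 1, 1, 1, 1, 0, 1, 1]), ([12, 12, 13, 12], [1, 1, 0, 1, 1, 1, 1, 0, 1, 1]), ([13, 11, 11], [1, 1, 1, 0, 1, 1, 1, 1, 0,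 1]), ([11, 14, 11, 11], [1, 1, 1, 1, 0, 1, 1, 1, 1, 0]), ([11, 11], [1, 0, 1, 1, 1, 0, 1, 0, 1, 1, 1, 0]), ([13, 12, 12, 14], [1, 1, 0, 1, 1, 1, 1, 0, 1, 1]), ([13], [1, 0, 1, 1, 1, 0, 1, 0, 1, 1, 1, 0]), ([12, 12, 14, 11, 11], [1, 1, 0, 1, 1, 1, 1, 0, 1, 1]), ([13, 11, 11, 14, 12], [1, 1, 1, 1, 0, 1, 1, 1, 1, 0]), ([12, 13, 13], [1, 1, 1, 0, 1, 1, 1, 1, 0, 1]), ([14, 12], [1, 1, 0, 1, 1, 1, 1, 0, 1, 1]), ([11, 13, 13], [1, 0, 1, 1, 1, 1, 0, 1, 1, 1]), ([11, 11, 14, 12, 12], [1, 1, 1, 1, 0, 1, 1, 1, 1, 0]), ([13, 12, 12, 14, 11, 11], [0, 0, 0]), ([14, 14, 11, 11], [1, 1, 0, 1, 1, 1, 1, 0, 1, 1]), ([13, 11, 13], [1, 0, 1, 0, 1, 1, 1, 0, 1, 0, 1, 1]), ([11, 11, 13, 13], [1, 1, 0, 1, 1, 1, 1, 0, 1, 1]), ([14, 12, 14, 12], [1, 1, 1, 0, 1, 1, 1, 1, 0, 1]), ([14, 12, 13, 12], [1, 1, 1, 0, 1, 1, 1, 1, 0, 1]), ([11], [1, 1, 0, 1, 0, 1, 1, 1, 0, 1, 0, 1]), ([12, 14, 14, 11], [1, 1, 0,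 1, 1, 1, 1, 0, 1, 1]), ([14, 14, 12], [1, 1, 1, 0, 1, 1, 1, 1, 0, 1]), ([12, 12, 14, 12], [1, 1, 1, 1, 0, 1, 1, 1, 1, 0]), ([13, 13, 11, 11], [1, 1, 1, 1, 0, 1, 1, 1, 1, 0]), ([11, 13, 13, 12], [1, 1, 0, 1, 1, 1, 1, 0, 1, 1]), ([12, 12, 14, 11], [1, 1, 1, 0, 1, 1, 1, 1, 0, 1]), ([13, 11, 14], [1, 1, 1, 0, 1, 1, 1, 1, 0, 1]), ([14, 14, 11, 14], [1, 1, 1, 1, 0, 1, 1, 1, 1, 0]), ([13, 12, 14], [1, 0, 1, 1, 1, 1, 0, 1, 1, 1]), ([13, 12, 13, 12], [1, 0, 1, 1, 1, 1, 0, 1, 1, 1]), ([12, 12, 13], [1, 1, 1, 0, 1, 1, 1, 1, 0, 1]), ([13, 12], [1, 1, 1, 1, 0, 1, 1, 1, 1, 0]), ([11, 11, 13, 11, 11], [1, 1, 1, 0, 1, 0, 1, 1, 1, 0, 1, 0]), ([13, 13], [1, 1, 0, 1, 0, 1, 1, 1, 0, 1, 0, 1]), ([14, 11, 11], [1, 0, 1, 1, 1, 1, 0, 1, 1, 1]), ([14, 12, 12, 13, 11, 11], [0, 0]), ([14, 11], [1, 1, 1, 1, 0, 1, 1, 1, 1, 0]), ([13, 13, 12], [1, 0, 1, 1, 1, 1, 0, 1, 1, 1]), ([13, 12, 13, 11], [1, 1, 1, 0,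 1, 1, 1, 1, 0, 1]), ([11, 11, 13, 12], [1, 1, 1, 0, 1, 1, 1, 1, 0, 1]), ([13, 11, 11, 14], [1, 1, 1, 1, 0, 1, 1, 1, 1, 0]), ([11, 13], [1, 1, 1, 1, 0, 1, 1, 1, 1, 0]), ([12, 12, 14, 14], [1, 1, 0, 1, 1, 1, 1, 0, 1, 1]), ([11, 11, 14, 12], [1, 0, 1, 1, 1, 1, 0, 1, 1, 1]), ([11, 11, 13, 12, 12], [1, 1, 0, 1, 1, 1, 1, 0, 1, 1]), ([14, 11, 14, 11], [1, 0, 1, 1, 1, 1, 0, 1, 1, 1]), ([12, 13, 12, 13], [1, 1, 1, 0, 1, 1, 1, 1, 0, 1]), ([14, 11, 11, 13], [1, 1, 0, 1, 1, 1, 1, 0, 1, 1])]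

theorem fixB : ∀ a ∈ [3, 4, 5, 6, 7, 8, 9, 10, 11, 13], act.gen a ∈ act.fix [0] := fun a ha b hb => by
  obtain rfl : b = 0 := by simpa using hb
  have h : allL (fun a => Nat.beq (act.app a 0) 0) [3, 4, 5, 6, 7, 8, 9, 10, 11, 13] = true := by
    decide +kernel
  rw [act.smul_pt a 0 mc_ok.1.okb, (beq_iff _ _).1 ((allL_iff _ _).1 h a ha)]

section
variable [Fact (Nat.card PG ≤ 126000)]

theorem cardB : Nat.card (act.fix [0]) ≤ prodN bc := by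
  have h1 := card_fix_cons (A := act) ⊤ [] 0
  have h2 : 126 ≤ _ := mc_ok.1.le_card_orbit (K := ⊤) fun _ _ => trivial
  rw [bc_prod]
  rw [top_inf_eq, top_inf_eq] at h1
  rw [top_inf_eq] at h2
  change 126 ≤ Nat.card (MulAction.orbit (act.fix []) (act.pt 0)) at h2
  have h3 : Nat.card (act.fix []) = 126000 := by rw [act.fix_nil, Subgroup.card_top, card]
  nlinarith

theorem cardB' : Nat.card (act.fix [0]) = 1000 :=
  le_antisymm (bc_prod ▸ cardB) (bc_prod ▸ bc_ok.prodN_le_card_of_mem fun l hl a ha =>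
    fixB a (chainIn_mem (by decide +kernel) l hl a ha))

theorem memP : ∀ a ∈ [11, 12, 13, 14], act.gen a ∈ sylP := by
  have h1 : act.gen 11 ∈ sylP := by
    simpa [nth, sylP] using gen_mem_cl (fun i => ev act.gen (nth [[11], [13]] [] i)) (S := [0, 1]) (a := 0) (by simp)
  have h2 : act.gen 13 ∈ sylP := by
    simpa [nth, sylP] using gen_mem_cl (fun i => ev act.gen (nth [[11], [13]] [] i)) (S := [0, 1]) (a := 1) (by simp)
  simp only [List.forall_mem_cons]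
  exact ⟨h1, (hinv 11).symm ▸ inv_mem h1, h2, (hinv 13).symm ▸ inv_mem h2, by simp⟩

theorem comm_z : act.gen 11 * act.gen 13 = act.gen 15 * (act.gen 13 * act.gen 11) := by
  simpa using base.ev_eq (v := [11, 13]) (w := [15, 13, 11]) (by decide +kernel)

theorem cardP : Nat.card sylP = 125 := by
  refine le_antisymm ?_ (pc_prod ▸ pc_ok.prodN_le_card_of_mem fun l hl a ha =>
    memP a (chainIn_mem (by decide +kernel) l hl a ha))
  have := card_heis (e := fun i : Fin 2 => ev act.gen (nth [[11], [13]] [] i)) (c := act.gen 15) (p := 5)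
    (by norm_num) (by simpa [nth] using comm_z) (Fin.forall_fin_two.2
      ⟨by simpa [nth] using base.ev_eq (v := [15, 11]) (w := [11, 15]) (by decide +kernel),
       by simpa [nth] using base.ev_eq (v := [15, 13]) (w := [13, 15]) (by decide +kernel)⟩)
    (Fin.forall_fin_two.2
      ⟨by rw [← ev_powL]; exact base.ev_eq (w := []) (by decide +kernel),
       by rw [← ev_powL]; exact base.ev_eq (w := []) (by decide +kernel)⟩)
    (by rw [← ev_repL]; exact base.ev_eq (w := []) (by decide +kernel))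
  rwa [closure_range_eq_cl (fun i => ev act.gen (nth [[11], [13]] [] i))] at this

theorem normP : act.fix [0] ≤ Subgroup.normalizer (sylP : Set PG) :=
  le_normalizer_of_chk base bc_ok cardB (T := [3, 4, 5, 6, 7, 8, 9, 10]) (by decide +kernel)
    (fun a ha => fixB a (by simp at ha ⊢; tauto)) (Us := [[0, 0, 0, 1, 0, 0, 0], [0, 0, 1, 0, 0], [0, 1], [0, 1, 0, 1, 0], [0, 1, 1, 0], [0, 1, 1, 0, 1, 0], [0, 1, 1, 1, 0], [1, 0, 1, 0], [1, 0, 1, 1, 0], [1, 0, 1, 1, 0, 0], [1, 0, 1, 1, 1, 0, 0, 0], [1, 1, 0, 0, 0], [1, 1, 0, 1, 1], [1, 1, 0, 1, 1, 0, 0, 0]]) (by decide +kernel)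
    (by decide +kernel)

theorem normZ : act.fix [0] ≤
    Subgroup.normalizer (cl (fun i => ev act.gen (nth [[15]] [] i)) [0] : Set PG) :=
  le_normalizer_of_chk base bc_ok cardB (T := [3, 4, 5, 6, 7, 8, 9, 10]) (by decide +kernel)
    (fun a ha => fixB a (by simp at ha ⊢; tauto)) (Us := [[0, 0], [0, 0, 0]]) (by decide +kernel)
    (by decide +kernel)

theorem z_mem_of_tab {H : Subgroup PG} {y : PG} (h1 : y ∈ sylP) (h2 : y ≠ 1) (h3 : y ∈ H)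
    (h4 : act.gen 7 ∈ H) : act.gen 15 ∈ H := by
  have h5 : lettersIn [11, 12, 13, 14] (tabP.map Prod.fst) = true := by decide +kernel
  obtain ⟨p, hp, rfl⟩ := exists_word_of_card base (M := 4096) (Ws := tabP) (fun p hp => ev_mem _ fun a ha =>
    memP a (lettersIn_iff.1 h5 _ (List.mem_map_of_mem hp) a ha)) (by decide +kernel)
    (cardP.le.trans (by decide +kernel)) h1
  have h6 : allL (fun p : List ℕ × List ℕ => bor (eqW act.app bs p.1 [])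
    (eqW act.app bs [15] (substW (nth [p.1, [7]] []) p.2))) tabP = true := by decide +kernel
  rcases (bor_eq _ _).1 ((allL_iff _ _).1 h6 p hp) with h | h
  · exact absurd (base.ev_eq h) h2
  · have := base.ev_eq h
    rw [ev_singleton, ev_substW] at this
    exact this ▸ ev_mem _ fun a _ => nth_mem_of_all (by simpa using ⟨h3, h4⟩) a

theorem z_mem {H : Subgroup PG} (hH : H.index < 50) : act.gen 15 ∈ H := by
  have h0 : ∀ K : Subgroup PG, H.relIndex K < 50 := fun K => lt_of_le_of_lt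
    (Subgroup.relIndex_le_of_le_right le_top (by simp [Subgroup.index_ne_zero_of_finite]))
    (by simpa using hH)
  have hPB : sylP ≤ act.fix [0] := cl_le _ (by simpa [nth] using ⟨fixB 11 (by simp), fixB 13 (by simp)⟩)
  have h1 : H.relIndex sylP ∣ 5 ^ 3 := by
    have := H.relIndex_dvd_card sylP
    rwa [cardP] at this
  obtain ⟨k, hk, h2⟩ := (Nat.dvd_prime_pow (by norm_num)).1 h1
  have hz : act.gen 15 = act.gen 11 * act.gen 13 * (act.gen 13 * act.gen 11)⁻¹ := by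
    rw [comm_z]; group
  have h11 := memP 11 (by simp)
  have h13 := memP 13 (by simp)
  have h15 : act.gen 15 ∈ sylP := hz ▸ mul_mem (mul_mem h11 h13) (inv_mem (mul_mem h13 h11))
  interval_cases k
  · exact Subgroup.relIndex_eq_one.1 h2 h15
  · have : (H.subgroupOf sylP).Normal := Subgroup.normal_of_index_eq_minFac_card (by
      rw [cardP]; exact h2.trans (by norm_num))
    have h3 : IsCyclic (sylP ⧸ H.subgroupOf sylP) :=
      isCyclic_of_prime_card (p := 5) (hp := Id.U35.fact5) h2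
    have h4 : (⟨_, h15⟩ : sylP) ∈ H.subgroupOf sylP := by
      rw [← QuotientGroup.eq_one_iff, show (⟨_, h15⟩ : sylP) = ⟨_, h11⟩ * ⟨_, h13⟩ * (⟨_, h13⟩ * ⟨_, h11⟩)⁻¹ from
        Subtype.ext hz, QuotientGroup.mk_mul, QuotientGroup.mk_inv, mul_inv_eq_one, QuotientGroup.mk_mul,
        QuotientGroup.mk_mul]
      exact h3.isMulCommutative.is_comm.comm _ _
    exact h4
  · have h3 : Nat.card (H.subgroupOf sylP) = 5 := by
      have := (H.subgroupOf sylP).index_mul_card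
      rw [cardP, show (H.subgroupOf sylP).index = 5 ^ 2 from h2] at this
      omega
    obtain ⟨y, hy⟩ := exists_prime_orderOf_dvd_card' (G := H.subgroupOf sylP) 5 (hp := Id.U35.fact5) h3.symm.dvd
    have hn : (sylP.subgroupOf (act.fix [0])).Normal := (Subgroup.normal_subgroupOf_iff_le_normalizer hPB).2 normP
    have h4 : (sylP.subgroupOf (act.fix [0])).index = 8 := by
      have := (sylP.subgroupOf (act.fix [0])).index_mul_card
      rw [cardB', Nat.card_congr (Subgroup.subgroupOfEquivOfLe hPB).toEquiv, cardP] at this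
      omega
    have h5 : (sylP.subgroupOf (act.fix [0])).relIndex (H.subgroupOf (act.fix [0])) ∣ 8 :=
      h4 ▸ Subgroup.relIndex_dvd_index_of_normal _ _
    have h6 : Nat.card ((sylP.subgroupOf (act.fix [0])).subgroupOf (H.subgroupOf (act.fix [0]))) ≤ 5 :=
      h3 ▸ Nat.card_le_card_of_injective (fun x => ⟨⟨x.1.1.1, x.2⟩, x.1.2⟩) fun x x' h =>
        Subtype.ext (Subtype.ext (Subtype.ext (congrArg (fun v => v.1.1) h)))
    have h7 := ((sylP.subgroupOf (act.fix [0])).subgroupOf (H.subgroupOf (act.fix [0]))).index_mul_card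
    have h8 := (H.subgroupOf (act.fix [0])).index_mul_card
    have h9 : (H.subgroupOf (act.fix [0])).index < 50 := h0 _
    rw [cardB'] at h8
    have h10 : 2 ^ 3 ∣ Nat.card (H.subgroupOf (act.fix [0])) := by
      change _ * _ = _ at h7
      rw [← h7] at h8 ⊢
      obtain ⟨j, hj, h⟩ := (Nat.dvd_prime_pow Nat.prime_two (m := 3)).1 h5
      rw [Subgroup.relIndex] at h
      rw [h] at h8 ⊢
      interval_cases j
      exacts [by nlinarith, by nlinarith, by nlinarith, Dvd.intro _ rfl]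
    obtain ⟨E, hE⟩ := Sylow.exists_subgroup_card_pow_prime 2 h10
    have h12 : act.gen 7 ∈ act.fix [0] := fixB 7 (by simp)
    obtain ⟨b, hb⟩ := exists_conj_of_card Nat.prime_two (n := 3)
      (H := E.map (H.subgroupOf (act.fix [0])).subtype) (K := Subgroup.zpowers ⟨_, h12⟩)
      (by rw [Subgroup.card_map_of_injective Subtype.val_injective, hE]) (by
        rw [Nat.card_zpowers, ← Subgroup.orderOf_coe]
        refine orderOf_eq_prime_pow ?_ ?_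
        · rw [← ev_repL]; exact act.ev_ne_of_eqW (w := []) base.1 (by decide +kernel)
        · rw [← ev_repL]; exact base.ev_eq (w := []) (by decide +kernel)) (by rw [cardB']; norm_num)
    obtain ⟨x, -, hx⟩ := hb _ (Subgroup.mem_zpowers _)
    have h14 := z_mem_of_tab (H := H.comap (MulAut.conj b.1).toMonoidHom) (y := b.1⁻¹ * y.1.1 * b.1)
      ((Subgroup.mem_normalizer_iff''.1 (normP b.2) _).1 y.1.2) (fun h => by
        have : y = 1 := Subtype.ext (Subtype.ext (by simpa [mul_eq_one_iff_eq_inv] using h))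
        simp [this] at hy) (by simpa [mul_assoc] using show y.1.1 ∈ H from y.2) (by
        have : x.1.1 = b.1 * act.gen 7 * b.1⁻¹ := congrArg Subtype.val hx
        simpa [← this] using show x.1.1 ∈ H from x.2)
    have h16 : cl (fun i => ev act.gen (nth [[15]] [] i)) [0] ≤ H.comap (MulAut.conj b.1).toMonoidHom :=
      cl_le _ (by simpa [nth] using h14)
    have h17 := h16 ((Subgroup.mem_normalizer_iff''.1 (normZ b.2) (act.gen 15)).1
      (by simpa [nth] using gen_mem_cl (fun i => ev act.gen (nth [[15]] [] i)) (S := [0]) (a := 0) (by simp)))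
    simpa [mul_assoc] using h17
  · exact absurd (h0 sylP) (by omega)

theorem min_index {H : Subgroup PG} (hH : H.index < 50) : H = ⊤ := by
  have h1 : ∀ g : PG, g * act.gen 15 * g⁻¹ ∈ H := fun g =>
    z_mem (H := H.comap (MulAut.conj g).toMonoidHom)
      (by rwa [Subgroup.index_comap_of_surjective _ (MulAut.conj g).surjective])
  have h2 : ∀ u ∈ [[15], [1, 15, 2], [0, 15, 0]], ev act.gen u ∈ H := by
    have e1 : act.gen 2 = (act.gen 1)⁻¹ := hinv 1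
    have e2 := h1 (act.gen 0)
    rw [show (act.gen 0)⁻¹ = act.gen 0 from (hinv 0).symm] at e2
    simpa [e1, mul_assoc] using ⟨by simpa using h1 1, by simpa [mul_assoc] using h1 (act.gen 1),
      by simpa [mul_assoc] using e2⟩
  have h3 : ∀ a w, eqW act.app bs [a] (substW (nth [[15], [1, 15, 2], [0, 15, 0]] []) w) = true →
      act.gen a ∈ H := fun a w h => by
    have := base.ev_eq h
    rw [ev_singleton, ev_substW] at this
    exact this ▸ ev_mem _ fun a _ => nth_mem_of_all h2 a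
  have h4 := h3 1 [2, 2, 0, 2, 0, 1, 0, 0, 2, 2, 2] (by decide +kernel)
  rw [eq_top_iff, ← tabOK.cl_eq_top]
  exact cl_le _ (by simpa [List.range_succ] using ⟨h3 0 [1, 0, 2, 0, 0, 2, 0, 1, 2, 0, 1, 0, 0] (by decide +kernel), h4,
    (hinv 1).symm ▸ inv_mem h4⟩)

/-- The images of the generators of `A7`. -/
noncomputable def imgA : List (List ℕ) := [[], [], [], [], [], [], [], [], [], [], [], [], [], [], [], [], [], [], [], [], [], [], [20, 24, 1, 1, 25, 21], [19, 1, 1, 23, 22], [22, 20, 1, 25], [21, 2, 24, 22], [1, 20, 24, 21, 21], [24, 21, 1, 24, 21, 21]]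

theorem index_fifty : (cl (fun a => ev act.gen (nth imgA [] a)) A7.tcS).index = 50 := by
  have h1 : allL (fun r => eqW act.app bs (substW (nth imgA []) r) []) A7.tcR = true := by decide +kernel
  have h2 := (A7.bounds.univ (fun a => ev act.gen (nth imgA [] a)) fun r hr => by
    rw [← ev_substW]; exact base.ev_eq ((allL_iff _ _).1 h1 r hr)).2
  obtain ⟨e, -⟩ := exists_equiv_of_bounds base A7.bounds A7.rels A7.clS A7.card h1
    (fun s hs => gen_mem_cl (fun a => ev act.gen (nth imgA [] a)) hs) ac_ok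
    (V := [(1, [23, 25, 26, 27, 22, 25, 26, 25, 23, 24, 23]), (2, [25, 26, 27, 25, 26, 22, 25, 23, 24]), (19, [24, 25, 26, 27, 26, 25, 23, 24]), (20, [23, 25, 26, 27, 26, 25, 24, 22]), (21, [26, 27, 23, 25, 26, 25, 22, 24, 23]), (22, [23, 25, 26, 27, 25, 26, 22, 24, 23]), (23, [26, 22, 25, 23, 24, 23]), (24, [25, 26, 22, 24, 23]), (25, [23, 25, 26, 27, 23, 25, 26, 22, 25, 22])]) (by decide +kernel) (by decide +kernel)
    (by decide +kernel) h2 ac_prod.ge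
  have := (cl (fun a => ev act.gen (nth imgA [] a)) A7.tcS).index_mul_card
  rw [card, ← Nat.card_congr e.toEquiv, A7.card] at this
  omega

end

/-- Minimal index of a proper subgroup of PSU₃(5), realised over the field with 25 elements: every proper subgroup has index at least 50, and that index is attained. -/
theorem result {F : Type*} [Field F] [Fintype F] (hF : Fintype.card F = 25) : (∀ H : Subgroup (Cfsg.PSU 3 F 5), H ≠ ⊤ → 50 ≤ H.index) ∧ (∃ H : Subgroup (Cfsg.PSU 3 F 5), H.index = 50) := by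
  have := Id.U35.factCard (F := F) hF
  obtain ⟨e⟩ := Id.U35.iso (F := F) hF
  refine ⟨fun H hH => not_lt.1 fun h => hH ?_, ⟨Subgroup.comap e.toMonoidHom _,
    (Subgroup.index_comap_of_surjective _ e.surjective).trans index_fifty⟩⟩
  have h1 := min_index (H := H.comap e.symm.toMonoidHom)
    (by rwa [Subgroup.index_comap_of_surjective _ e.symm.surjective])
  exact Subgroup.comap_injective (f := e.symm.toMonoidHom) e.symm.surjective (h1.trans (Subgroup.comap_top _).symm)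

end Cfsg.Agent.S2149
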