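import Cfsg.Statements.S2162
import Cfsg.Agent.Lib.GLn.Classes

set_option autoImplicit false
open Cfsg

namespace Cfsg.Agent.S2162

/-- Conjugacy of involutions in the special linear group over a finite field of characteristic two, in dimension at least 3: two elements of order 2 of SL_n(F) are conjugate in SL_n(F) exactly when the matrices a − 1 and b − 1 have the same rank (the rank of a − 1 is the dimension of the commutator space [V, a]). -/
theorem result {F : Type*} [Field F] [Fintype F] [CharP F 2] {n : ℕ} (hn : 3 ≤ n) (a b : Matrix.SpecialLinearGroup (Fin n) F) (ha : orderOf a = 2) (hb : orderOf b = 2) :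
    IsConj a b ↔ ((a : Matrix (Fin n) (Fin n) F) - 1).rank = ((b : Matrix (Fin n) (Fin n) F) - 1).rank := by
  classical
  have hsq : ∀ c : Fˣ, ∃ d : Fˣ, d ^ 2 = c := by
    intro c
    obtain ⟨d, hd⟩ := (frobeniusEquiv F 2).surjective (c : F)
    have hd' : d ^ 2 = c := hd
    have h0 : d ≠ 0 := by
      rintro rfl
      exact c.ne_zero (by simpa using hd'.symm)
    exact ⟨Units.mk0 d h0, Units.ext hd'⟩
  have htyp : ∀ a : Matrix.SpecialLinearGroup (Fin n) F, orderOf a = 2 →
      ∀ x ∈ GLn.typ (a : Matrix (Fin n) (Fin n) F), x.1 = Polynomial.X - 1 ∧ x.2 ≤ 2 := by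
    intro a ha x hx
    have h1 : Matrix.SpecialLinearGroup.toGL a ^ 2 ^ 1 = 1 := by
      rw [← map_pow, pow_one, ← ha, pow_orderOf_eq_one, map_one]
    have h2 := (GLn.GL_pow_eq_one_iff_typ _ _).1 h1 x hx
    rw [GLn.X_pow_char_pow_sub_one] at h2
    obtain ⟨hm, hi, he⟩ := GLn.valid_typ _ x hx
    have h3 := GLn.eq_of_irreducible_of_dvd_pow hm hi GLn.monic_X_sub_one
      GLn.irreducible_X_sub_one he h2
    rw [h3] at h2
    exact ⟨h3, (pow_dvd_pow_iff GLn.irreducible_X_sub_one.ne_zero
      GLn.irreducible_X_sub_one.not_isUnit).1 h2⟩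
  have hk : ∀ a : Matrix.SpecialLinearGroup (Fin n) F,
      GLn.kdim (a : Matrix (Fin n) (Fin n) F) (Polynomial.X - 1) +
        ((a : Matrix (Fin n) (Fin n) F) - 1).rank = n := by
    intro a
    have := GLn.kdim_add_rank (a : Matrix (Fin n) (Fin n) F) (Polynomial.X - 1)
    simpa using this
  constructor
  · intro h
    have h1 := GLn.typ_eq_of_isConj_SL h
    have h2 := (GLn.hasType_typ (a : Matrix (Fin n) (Fin n) F)).kdim_pow (GLn.valid_typ _)
      GLn.monic_X_sub_one GLn.irreducible_X_sub_one 1
    have h3 := (GLn.hasType_typ (b : Matrix (Fin n) (Fin n) F)).kdim_pow (GLn.valid_typ _)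
      GLn.monic_X_sub_one GLn.irreducible_X_sub_one 1
    rw [h1, ← h3, pow_one] at h2
    have := hk a
    have := hk b
    omega
  · intro h
    have ht : GLn.typ (a : Matrix (Fin n) (Fin n) F) = GLn.typ (b : Matrix (Fin n) (Fin n) F) := by
      refine GLn.type_eq_of_kdim_eq (GLn.hasType_typ _) (GLn.valid_typ _) (GLn.hasType_typ _)
        (GLn.valid_typ _) fun r hr hri j => ?_
      by_cases hr1 : r = Polynomial.X - 1
      · subst hr1
        rcases Nat.lt_or_ge j 2 with hj | hj
        · interval_cases j
          · rw [(GLn.hasType_typ _).kdim_pow (GLn.valid_typ _) hr hri,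
              (GLn.hasType_typ _).kdim_pow (GLn.valid_typ _) hr hri]
            simp
          · have := hk a
            have := hk b
            rw [pow_one]
            omega
        · have h0 : ∀ a : Matrix.SpecialLinearGroup (Fin n) F, orderOf a = 2 →
              Polynomial.aeval (a : Matrix (Fin n) (Fin n) F)
                ((Polynomial.X - 1 : Polynomial F) ^ j) = 0 := by
            intro a ha
            rw [GLn.aeval_eq_zero_iff_typ]
            intro x hx
            rw [(htyp a ha x hx).1]
            exact pow_dvd_pow _ ((htyp a ha x hx).2.trans hj)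
          rw [GLn.kdim, GLn.kdim, h0 a ha, h0 b hb]
      · have h0 : ∀ a : Matrix.SpecialLinearGroup (Fin n) F, orderOf a = 2 →
            GLn.kdim (a : Matrix (Fin n) (Fin n) F) (r ^ j) = 0 := by
          intro a ha
          rw [(GLn.hasType_typ _).kdim_pow (GLn.valid_typ _) hr hri, Multiset.sum_eq_zero, zero_mul]
          intro y hy
          obtain ⟨x, hx, rfl⟩ := Multiset.mem_map.1 hy
          rw [if_neg]
          rw [(htyp a ha x hx).1]
          exact Ne.symm hr1
        rw [h0 a ha, h0 b hb]
    have hne : GLn.typ (a : Matrix (Fin n) (Fin n) F) ≠ 0 := by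
      intro h0
      have := GLn.wt_typ (a : Matrix (Fin n) (Fin n) F)
      rw [h0] at this
      simp [GLn.wt] at this
      omega
    obtain ⟨x, hx⟩ := Multiset.exists_mem_of_ne_zero hne
    refine GLn.isConj_SL_of_typ_eq ht hx fun c => ?_
    have h1 := (htyp a ha x hx).2
    have h2 := (GLn.valid_typ _ x hx).2.2
    obtain h3 | h3 : x.2 = 1 ∨ x.2 = 2 := by omega
    · exact ⟨c, by rw [h3, pow_one]⟩
    · rw [h3]; exact hsq c

end Cfsg.Agent.S2162
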