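import Cfsg.Statements.S2163

set_option autoImplicit false
open Cfsg

namespace Cfsg.Agent.S2163

/-- Over a finite field of characteristic two and for n ≥ 3: for every ℓ with 1 ≤ ℓ and 2ℓ ≤ n, the matrix j_ℓ that is the identity plus the entries 1 in positions (n − ℓ + i, i) for i < ℓ (an identity block of size ℓ in the lower left corner) lies in SL_n(F), has order 2, and j_ℓ − 1 has rank ℓ. Together with the conjugacy criterion by rank, these matrices represent the conjugacy classes of involutions of SL_n(F). -/
theorem result {F : Type*} [Field F] [Fintype F] [CharP F 2] {n : ℕ} (hn : 3 ≤ n) (ℓ : ℕ) (h1 : 1 ≤ ℓ) (h2 : 2 * ℓ ≤ n) :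
    ∃ a : Matrix.SpecialLinearGroup (Fin n) F, (a : Matrix (Fin n) (Fin n) F) = 1 + Matrix.of (fun i j : Fin n => if j.val < ℓ ∧ i.val = j.val + (n - ℓ) then (1 : F) else 0) ∧ orderOf a = 2 ∧ ((a : Matrix (Fin n) (Fin n) F) - 1).rank = ℓ := by
  classical
  set N : Matrix (Fin n) (Fin n) F := Matrix.of (fun i j : Fin n =>
    if j.val < ℓ ∧ i.val = j.val + (n - ℓ) then (1 : F) else 0) with hN
  let f : Fin ℓ → Fin n := fun j => ⟨j.val + (n - ℓ), by omega⟩
  let g : Fin ℓ → Fin n := fun j => ⟨j.val, by omega⟩
  have hNN : N * N = 0 := by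
    ext i k
    rw [Matrix.mul_apply, Matrix.zero_apply]
    refine Finset.sum_eq_zero fun j _ => ?_
    simp only [hN, Matrix.of_apply]
    split_ifs with h3 h4
    · omega
    all_goals simp
  have hsq : (1 + N) * (1 + N) = 1 := by
    have h2 : N + N = 0 := by
      ext i j
      simp [CharTwo.add_self_eq_zero]
    rw [add_mul, mul_add, mul_add, hNN, one_mul, one_mul, mul_one, add_zero, add_assoc, h2,
      add_zero]
  have hdet : (1 + N).det = 1 := by
    have h3 := congrArg Matrix.det hsq
    rw [Matrix.det_mul, Matrix.det_one, mul_self_eq_one_iff, CharTwo.neg_eq] at h3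
    exact h3.elim id id
  have hsub : N.submatrix f g = 1 := by
    ext i j
    simp only [hN, Matrix.submatrix_apply, Matrix.of_apply, f, g, Matrix.one_apply, Fin.ext_iff]
    have := j.2
    congr 1
    apply propext
    omega
  have hrank : N.rank = ℓ := by
    apply le_antisymm
    · have h3 : N = N.submatrix id g * (1 : Matrix (Fin n) (Fin n) F).submatrix g id := by
        ext i k
        rw [Matrix.mul_apply]
        by_cases hk : k.val < ℓ
        · rw [Finset.sum_eq_single ⟨k.val, hk⟩]
          · change N i k = N i k * (1 : Matrix (Fin n) (Fin n) F) k k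
            simp
          · intro j _ hj
            have : g j ≠ k := fun h => hj (Fin.ext (congrArg (fun x : Fin n => x.val) h))
            simp [this]
          · simp
        · rw [Finset.sum_eq_zero]
          · simp [hN, hk]
          · intro j _
            have : g j ≠ k := fun h => hk (by rw [← h]; exact j.2)
            simp [this]
      rw [h3]
      exact (Matrix.rank_mul_le_left _ _).trans (Matrix.rank_le_width _)
    · have h3 := Matrix.rank_submatrix_le N f g
      rwa [hsub, Matrix.rank_one, Fintype.card_fin] at h3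
  let a : Matrix.SpecialLinearGroup (Fin n) F := ⟨1 + N, hdet⟩
  refine ⟨a, rfl, orderOf_eq_prime ?_ ?_, ?_⟩
  · rw [pow_two]
    exact Subtype.ext hsq
  · intro h
    have h3 : 1 + N = 1 := congrArg Subtype.val h
    rw [add_eq_left] at h3
    rw [h3, Matrix.rank_zero] at hrank
    omega
  · change (1 + N - 1).rank = ℓ
    rw [add_sub_cancel_left, hrank]

end Cfsg.Agent.S2163
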