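import Cfsg.Statements.S2164
import Cfsg.Agent.Lib.Forms.Invol

set_option autoImplicit false
open Cfsg

namespace Cfsg.Agent.S2164



/-- Conjugacy of involutions in the special unitary group SU_n(q), q even, n ≥ 3, realised over the field F with q² elements as the matrices of determinant 1 preserving the form Σ u_i v_i^q: for two elements of order 2 of SU_n(q) the following are equivalent — they are conjugate in SU_n(q); they are conjugate in SL_n(F); the matrices a − 1 and b − 1 have the same rank. -/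
theorem result {F : Type*} [Field F] [Fintype F] [CharP F 2] {n q : ℕ} (hF : Fintype.card F = q ^ 2) (hn : 3 ≤ n) (a b : ↥(Cfsg.SU n F q)) (ha : orderOf a = 2) (hb : orderOf b = 2) :
    (IsConj a b ↔ IsConj (a : Matrix.SpecialLinearGroup (Fin n) F) (b : Matrix.SpecialLinearGroup (Fin n) F)) ∧
    (IsConj a b ↔ (((a : Matrix.SpecialLinearGroup (Fin n) F) : Matrix (Fin n) (Fin n) F) - 1).rank = (((b : Matrix.SpecialLinearGroup (Fin n) F) : Matrix (Fin n) (Fin n) F) - 1).rank) := by
  have hf := Forms.uForm_nondeg n hF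
  have key : (((a : Matrix.SpecialLinearGroup (Fin n) F) : Matrix (Fin n) (Fin n) F) - 1).rank = (((b : Matrix.SpecialLinearGroup (Fin n) F) : Matrix (Fin n) (Fin n) F) - 1).rank → IsConj a b := by
    intro h
    rw [Forms.rank_sub_one_eq (Forms.suEquiv_apply n hF a),
      Forms.rank_sub_one_eq (Forms.suEquiv_apply n hF b)] at h
    have hsq : ∀ a, orderOf a = 2 → Forms.suEquiv n hF a * Forms.suEquiv n hF a = 1 := by
      intro a ha; rw [← map_mul, ← sq, ← ha, pow_orderOf_eq_one, map_one]
    rw [← Forms.isConj_equiv_iff (Forms.suEquiv n hF)]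
    refine hf.su_isConj_of_invol (hsq a ha) (hsq b hb) ?_ h
    intro h1
    rw [(map_eq_one_iff _ (Forms.suEquiv n hF).injective).1 h1] at hb
    simp at hb
  have key2 : IsConj (a : Matrix.SpecialLinearGroup (Fin n) F) (b : Matrix.SpecialLinearGroup (Fin n) F) → (((a : Matrix.SpecialLinearGroup (Fin n) F) : Matrix (Fin n) (Fin n) F) - 1).rank = (((b : Matrix.SpecialLinearGroup (Fin n) F) : Matrix (Fin n) (Fin n) F) - 1).rank := by
    intro h
    obtain ⟨c, hc⟩ := isConj_iff.1 h
    have : ((b : Matrix.SpecialLinearGroup (Fin n) F) : Matrix (Fin n) (Fin n) F) - 1 =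
        (c : Matrix (Fin n) (Fin n) F) * ((((a : Matrix.SpecialLinearGroup (Fin n) F) : Matrix (Fin n) (Fin n) F) - 1) * ((c⁻¹ : Matrix.SpecialLinearGroup (Fin n) F) : Matrix (Fin n) (Fin n) F)) := by
      rw [← hc, sub_mul, mul_sub, one_mul, ← Matrix.SpecialLinearGroup.coe_mul c c⁻¹,
        mul_inv_cancel, Matrix.SpecialLinearGroup.coe_mul, Matrix.SpecialLinearGroup.coe_mul,
        mul_assoc, Matrix.SpecialLinearGroup.coe_one]
    rw [this, Matrix.rank_mul_eq_right_of_isUnit_det _ _ (by simp),
      Matrix.rank_mul_eq_left_of_isUnit_det _ _ (by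
        rw [Matrix.SpecialLinearGroup.det_coe]; exact isUnit_one)]
  have key3 : IsConj a b → IsConj (a : Matrix.SpecialLinearGroup (Fin n) F) (b : Matrix.SpecialLinearGroup (Fin n) F) := fun h => (Cfsg.SU n F q).subtype.map_isConj h
  exact ⟨⟨key3, fun h => key (key2 h)⟩, ⟨fun h => key2 (key3 h), key⟩⟩

end Cfsg.Agent.S2164
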