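import Cfsg.Statements.S2165
import Cfsg.Agent.Lib.Forms.Invol

set_option autoImplicit false
open Cfsg

namespace Cfsg.Agent.S2165



/-- In SU_n(q), q even, n ≥ 3 (matrices of determinant 1 over the field with q² elements preserving Σ u_i v_i^q): for every ℓ with 1 ≤ ℓ and 2ℓ ≤ n, the permutation matrix of the involution of {0, …, n−1} exchanging i and n − ℓ + i for each i < ℓ lies in SU_n(q), has order 2, and differs from the identity by a matrix of rank ℓ. So every rank between 1 and n/2 occurs for involutions of SU_n(q). -/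
theorem result {F : Type*} [Field F] [Fintype F] [CharP F 2] {n q : ℕ} (hF : Fintype.card F = q ^ 2) (hn : 3 ≤ n) (ℓ : ℕ) (h1 : 1 ≤ ℓ) (h2 : 2 * ℓ ≤ n) :
    ∃ a : ↥(Cfsg.SU n F q), (((a : Matrix.SpecialLinearGroup (Fin n) F) : Matrix (Fin n) (Fin n) F) = Matrix.of (fun i j : Fin n => if (j.val < ℓ ∧ i.val = j.val + (n - ℓ)) ∨ (i.val < ℓ ∧ j.val = i.val + (n - ℓ)) ∨ (i = j ∧ ℓ ≤ i.val ∧ i.val < n - ℓ) then (1 : F) else 0)) ∧ orderOf a = 2 ∧ ((((a : Matrix.SpecialLinearGroup (Fin n) F) : Matrix (Fin n) (Fin n) F)) - 1).rank = ℓ := by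
  have h20 : (2 : F) = 0 := CharP.ofNat_eq_zero F 2
  let s : Fin n → Fin n := fun i => if h : i.val < ℓ then ⟨i + (n - ℓ), by omega⟩ else
    if h' : n - ℓ ≤ i.val then ⟨i - (n - ℓ), by omega⟩ else i
  have hs : ∀ i : Fin n, (s i).val = if i.val < ℓ then i + (n - ℓ) else
      if n - ℓ ≤ i.val then i - (n - ℓ) else i := by
    intro i; simp only [s]; split_ifs <;> rfl
  have hinv : Function.Involutive s := by
    intro i; apply Fin.ext; have := i.2; rw [hs, hs]; split_ifs <;> omega
  let σ : Equiv.Perm (Fin n) := hinv.toPerm s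
  have hσσ : σ * σ = 1 := Equiv.ext fun i => hinv i
  have hM : σ.permMatrix F = Matrix.of (fun i j : Fin n => if (j.val < ℓ ∧ i.val = j.val + (n - ℓ)) ∨ (i.val < ℓ ∧ j.val = i.val + (n - ℓ)) ∨ (i = j ∧ ℓ ≤ i.val ∧ i.val < n - ℓ) then (1 : F) else 0) := by
    ext i j
    rw [Equiv.Perm.permMatrix, PEquiv.toMatrix_apply, Matrix.of_apply]
    congr 1
    rw [Equiv.toPEquiv_apply, Option.mem_def, Option.some.injEq, Fin.ext_iff, Fin.ext_iff]
    change ((s i).val = j.val) = _
    have := i.2; have := j.2
    rw [hs, eq_iff_iff]; split_ifs <;> omega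
  have hdet : (σ.permMatrix F).det = 1 := by
    rw [Matrix.det_permutation]
    rcases Int.units_eq_one_or (Equiv.Perm.sign σ) with h | h <;> rw [h]
    · simp
    · simp; linear_combination -h20
  let a : Cfsg.SU n F q := ⟨⟨σ.permMatrix F, hdet⟩, fun u v => by
    change hermForm n F q (Matrix.mulVec (σ.permMatrix F) u) (Matrix.mulVec (σ.permMatrix F) v) = _
    rw [Matrix.permMatrix_mulVec, Matrix.permMatrix_mulVec]
    exact Equiv.sum_comp σ (fun i => u i * v i ^ q)⟩
  have hrank : (σ.permMatrix F - 1).rank = ℓ := by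
    apply le_antisymm
    · let B : Matrix (Fin n) (Fin ℓ) F := Matrix.of fun i k =>
        if i.val = k.val + (n - ℓ) then 1 else if i.val = k.val then -1 else 0
      let C : Matrix (Fin ℓ) (Fin n) F := Matrix.of fun k j =>
        if j.val = k.val + (n - ℓ) then -1 else if j.val = k.val then 1 else 0
      have : σ.permMatrix F - 1 = B * C := by
        ext i j
        have hi := i.2; have hj := j.2
        rw [hM, Matrix.mul_apply, Matrix.sub_apply, Matrix.of_apply, Matrix.one_apply]
        simp only [B, C, Matrix.of_apply, Fin.ext_iff]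
        by_cases h3 : i.val < ℓ
        · rw [Finset.sum_eq_single ⟨i, h3⟩]
          · simp only; split_ifs <;> first | omega | simp
          · intro k _ hk
            have : k.val ≠ i.val := fun h => hk (Fin.ext h)
            have := k.2
            rw [if_neg (by omega), if_neg (by omega), zero_mul]
          · simp
        · by_cases h4 : n - ℓ ≤ i.val
          · rw [Finset.sum_eq_single ⟨i - (n - ℓ), by omega⟩]
            · simp only; split_ifs <;> first | omega | simp
            · intro k _ hk
              have : k.val ≠ i.val - (n - ℓ) := fun h => hk (Fin.ext h)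
              have := k.2
              rw [if_neg (by omega), if_neg (by omega), zero_mul]
            · simp
          · rw [Finset.sum_eq_zero]
            · split_ifs <;> first | omega | simp
            · intro k _
              have := k.2
              rw [if_neg (by omega), if_neg (by omega), zero_mul]
      rw [this]
      exact (Matrix.rank_mul_le_left _ _).trans (Matrix.rank_le_width _)
    · have : (σ.permMatrix F - 1).submatrix (fun i : Fin ℓ => (⟨i, by omega⟩ : Fin n))
          (fun i : Fin ℓ => (⟨i + (n - ℓ), by omega⟩ : Fin n)) = 1 := by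
        ext i j
        have hi := i.2; have hj := j.2
        rw [hM, Matrix.submatrix_apply, Matrix.sub_apply, Matrix.of_apply, Matrix.one_apply,
          Matrix.one_apply]
        simp only [Fin.ext_iff]
        split_ifs <;> first | omega | simp
      have h3 := Matrix.rank_submatrix_le (σ.permMatrix F - 1)
        (fun i : Fin ℓ => (⟨i, by omega⟩ : Fin n))
        (fun i : Fin ℓ => (⟨i + (n - ℓ), by omega⟩ : Fin n))
      rwa [this, Matrix.rank_one, Fintype.card_fin] at h3
  refine ⟨a, hM, ?_, hrank⟩
  apply orderOf_eq_prime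
  · apply Subtype.ext; apply Subtype.ext
    change σ.permMatrix F ^ 2 = 1
    rw [sq, ← Matrix.permMatrix_mul, hσσ, Matrix.permMatrix_one]
  · intro h
    have : σ.permMatrix F = 1 := congrArg (fun x : Cfsg.SU n F q => (x.1 : Matrix (Fin n) (Fin n) F)) h
    rw [this, sub_self, Matrix.rank_zero] at hrank
    omega

end Cfsg.Agent.S2165
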