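import Cfsg.Statements.S2166
import Cfsg.Agent.Lib.Forms.Invol

set_option autoImplicit false
open Cfsg

namespace Cfsg.Agent.S2166



/-- Conjugacy of involutions in the symplectic group Sp_{2m}(F), F a finite field of characteristic two, m ≥ 2 (Sp taken as the matrices A with A J Aᵀ = J, acting on column vectors, with the alternating form f(u, v) = u ⬝ (J v)). For an involution t write V(t) for the set of vectors v with f(v, t v) = 0 (a subspace). Two involutions a, b are conjugate in Sp_{2m}(F) exactly when a − 1 and b − 1 have the same rank and, in case that rank is even, V(a) and V(b) have the same number of elements. -/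
theorem result {F : Type*} [Field F] [Fintype F] [CharP F 2] {m : ℕ} (hm : 2 ≤ m) (a b : ↥(Matrix.symplecticGroup (Fin m) F)) (ha : orderOf a = 2) (hb : orderOf b = 2) :
    IsConj a b ↔ ((((a : ↥(Matrix.symplecticGroup (Fin m) F)) : Matrix (Fin m ⊕ Fin m) (Fin m ⊕ Fin m) F) - 1).rank = (((b : ↥(Matrix.symplecticGroup (Fin m) F)) : Matrix (Fin m ⊕ Fin m) (Fin m ⊕ Fin m) F) - 1).rank ∧
      (Even (((a : ↥(Matrix.symplecticGroup (Fin m) F)) : Matrix (Fin m ⊕ Fin m) (Fin m ⊕ Fin m) F) - 1).rank → Nat.card {v : Fin m ⊕ Fin m → F // Cfsg.sympForm m F v (Matrix.mulVec ((a : ↥(Matrix.symplecticGroup (Fin m) F)) : Matrix (Fin m ⊕ Fin m) (Fin m ⊕ Fin m) F) v) = 0} = Nat.card {v : Fin m ⊕ Fin m → F // Cfsg.sympForm m F v (Matrix.mulVec ((b : ↥(Matrix.symplecticGroup (Fin m) F)) : Matrix (Fin m ⊕ Fin m) (Fin m ⊕ Fin m) F) v) = 0})) := by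
  have h2 : (2 : F) = 0 := CharP.ofNat_eq_zero F 2
  have hs := Forms.isSquare_of_two_eq_zero h2
  have hf := Forms.spForm_nondeg (F := F) m
  rw [← Forms.isConj_equiv_iff (Forms.spEquiv m F),
    Forms.rank_sub_one_eq (Forms.spEquiv_apply m a), Forms.rank_sub_one_eq (Forms.spEquiv_apply m b)]
  simp only [← Forms.spForm_B, ← Forms.spEquiv_apply]
  have hsq : ∀ a, orderOf a = 2 → Forms.spEquiv m F a * Forms.spEquiv m F a = 1 := by
    intro a ha; rw [← map_mul, ← sq, ← ha, pow_orderOf_eq_one, map_one]
  have hss := hsq a ha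
  have htt := hsq b hb
  generalize Forms.spEquiv m F a = s at hss ⊢
  generalize Forms.spEquiv m F b = t at htt ⊢
  constructor
  · intro h
    refine ⟨Forms.Form.Isom.finrank_res_of_isConj h, fun _ => ?_⟩
    obtain ⟨g, rfl⟩ := isConj_iff.1 h
    refine Nat.card_congr (g.1.toEquiv.subtypeEquiv fun v => ?_)
    rw [← Forms.Form.Isom.map_B g]
    simp [Forms.Form.Isom.mul_apply]
  · rintro ⟨h1, h3⟩
    refine hf.sp_isConj_of_invol h2 hs hss htt h1 ?_
    have key : ∀ s : (Forms.spForm m F).Isom, s * s = 1 → (Forms.Form.Isom.IsAlt s ↔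
        Nat.card {v // (Forms.spForm m F).B v (s.1 v) = 0} = Nat.card (Fin m ⊕ Fin m → F)) := by
      intro s hss
      refine ⟨fun hA => Nat.card_congr (Equiv.subtypeUnivEquiv hA), fun h => ?_⟩
      by_contra hA
      have := Forms.Form.Isom.card_wall_ker hs hss hA
      rw [h] at this
      have h4 : 0 < Nat.card (Fin m ⊕ Fin m → F) := Nat.card_pos
      have h5 := Fintype.one_lt_card (α := F)
      nlinarith
    by_cases he : Even (Module.finrank F (Forms.Form.Isom.res s))
    · rw [key s hss, key t htt, h3 he]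
    · exact ⟨fun h => absurd (hf.even_of_isAlt h) he,
        fun h => absurd (hf.even_of_isAlt h) (fun h' => he (by
          have h1' : Module.finrank F (Forms.Form.Isom.res s) =
            Module.finrank F (Forms.Form.Isom.res t) := h1
          rwa [h1']))⟩

end Cfsg.Agent.S2166
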