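import Cfsg.Statements.S2167
import Cfsg.Agent.Lib.Forms.Invol

set_option autoImplicit false
open Cfsg

namespace Cfsg.Agent.S2167



/-- For an involution t of the symplectic group Sp_{2m}(F), m ≥ 2, F a finite field of characteristic two (matrices A with A J Aᵀ = J acting on column vectors, alternating form f(u, v) = u ⬝ (J v)): the set V(t) of vectors v with f(v, t v) = 0 has either q^{2m} or q^{2m−1} elements, q the order of F (it is a subspace of codimension at most 1), and if it is the whole space then t − 1 has even rank. -/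
theorem result {F : Type*} [Field F] [Fintype F] [CharP F 2] {m : ℕ} (hm : 2 ≤ m) (a : ↥(Matrix.symplecticGroup (Fin m) F)) (ha : orderOf a = 2) :
    (Nat.card {v : Fin m ⊕ Fin m → F // Cfsg.sympForm m F v (Matrix.mulVec ((a : ↥(Matrix.symplecticGroup (Fin m) F)) : Matrix (Fin m ⊕ Fin m) (Fin m ⊕ Fin m) F) v) = 0} = Fintype.card F ^ (2 * m) ∨ Nat.card {v : Fin m ⊕ Fin m → F // Cfsg.sympForm m F v (Matrix.mulVec ((a : ↥(Matrix.symplecticGroup (Fin m) F)) : Matrix (Fin m ⊕ Fin m) (Fin m ⊕ Fin m) F) v) = 0} * Fintype.card F = Fintype.card F ^ (2 * m)) ∧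
    ((∀ v : Fin m ⊕ Fin m → F, Cfsg.sympForm m F v (Matrix.mulVec ((a : ↥(Matrix.symplecticGroup (Fin m) F)) : Matrix (Fin m ⊕ Fin m) (Fin m ⊕ Fin m) F) v) = 0) → Even (((a : ↥(Matrix.symplecticGroup (Fin m) F)) : Matrix (Fin m ⊕ Fin m) (Fin m ⊕ Fin m) F) - 1).rank) := by
  have h2 : (2 : F) = 0 := CharP.ofNat_eq_zero F 2
  set t := Forms.spEquiv m F a with ht
  have htt : t * t = 1 := by rw [ht, ← map_mul, ← sq, ← ha, pow_orderOf_eq_one, map_one]
  have hcard : Nat.card (Fin m ⊕ Fin m → F) = Fintype.card F ^ (2 * m) := by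
    simp [two_mul]
  have hr := Forms.rank_sub_one_eq (Forms.spEquiv_apply m a)
  simp only [← Forms.spForm_B, ← Forms.spEquiv_apply, ← ht]
  constructor
  · by_cases hA : Forms.Form.Isom.IsAlt t
    · left
      rw [← hcard]
      exact Nat.card_congr (Equiv.subtypeUnivEquiv hA)
    · right
      rw [← hcard]
      exact Forms.Form.Isom.card_wall_ker (Forms.isSquare_of_two_eq_zero h2) htt hA
  · intro h
    rw [hr]
    exact (Forms.spForm_nondeg m).even_of_isAlt h

end Cfsg.Agent.S2167
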