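import Cfsg.Statements.S2172
import Cfsg.Agent.Lib.Forms.OrthMax

set_option autoImplicit false
open Cfsg

namespace Cfsg.Agent.S2172



/-- Splitting of involution classes from O to Ω for the hyperbolic quadratic form Q = Σ x_i y_i in dimension 2m over a finite field F of characteristic two, m ≥ 4. Let t, s be involutions of the commutator subgroup Ω that are conjugate in the full isometry group O. If it is not the case that t − 1 has rank m and Q(v + t v) = 0 for every vector v, then t and s are conjugate by an element of Ω. If t − 1 has rank m and Q(v + t v) = 0 for all v, then t and s are conjugate by an element of Ω exactly when the intersection of the images of t − 1 and s − 1 has even dimension (so the class of t in O meets at most two classes of Ω). -/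
theorem result {F : Type*} [Field F] [Fintype F] [CharP F 2] {m : ℕ} (hm : 4 ≤ m) (t s : ↥(Cfsg.isometryGroup F (Cfsg.quadFormPlus m F))) (ht : orderOf t = 2) (hs : orderOf s = 2) (htO : t ∈ Cfsg.Omega F (Cfsg.quadFormPlus m F)) (hsO : s ∈ Cfsg.Omega F (Cfsg.quadFormPlus m F)) (hconj : IsConj t s) :
    (¬ (((((t : ↥(Cfsg.isometryGroup F (Cfsg.quadFormPlus m F))) : GL (Fin m ⊕ Fin m) F) : Matrix (Fin m ⊕ Fin m) (Fin m ⊕ Fin m) F) - 1).rank = m ∧ ∀ v : Fin m ⊕ Fin m → F, Cfsg.quadFormPlus m F (v + Matrix.mulVec (((t : ↥(Cfsg.isometryGroup F (Cfsg.quadFormPlus m F))) : GL (Fin m ⊕ Fin m) F) : Matrix (Fin m ⊕ Fin m) (Fin m ⊕ Fin m) F) v) = 0) →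
      ∃ g ∈ Cfsg.Omega F (Cfsg.quadFormPlus m F), g * t * g⁻¹ = s) ∧
    ((((((t : ↥(Cfsg.isometryGroup F (Cfsg.quadFormPlus m F))) : GL (Fin m ⊕ Fin m) F) : Matrix (Fin m ⊕ Fin m) (Fin m ⊕ Fin m) F) - 1).rank = m ∧ ∀ v : Fin m ⊕ Fin m → F, Cfsg.quadFormPlus m F (v + Matrix.mulVec (((t : ↥(Cfsg.isometryGroup F (Cfsg.quadFormPlus m F))) : GL (Fin m ⊕ Fin m) F) : Matrix (Fin m ⊕ Fin m) (Fin m ⊕ Fin m) F) v) = 0) →
      ((∃ g ∈ Cfsg.Omega F (Cfsg.quadFormPlus m F), g * t * g⁻¹ = s) ↔
        Even (Module.finrank F ↥(LinearMap.range (Matrix.toLin' ((((t : ↥(Cfsg.isometryGroup F (Cfsg.quadFormPlus m F))) : GL (Fin m ⊕ Fin m) F) : Matrix (Fin m ⊕ Fin m) (Fin m ⊕ Fin m) F) - 1)) ⊓ LinearMap.range (Matrix.toLin' ((((s : ↥(Cfsg.isometryGroup F (Cfsg.quadFormPlus m F))) : GL (Fin m ⊕ Fin m) F) : Matrix (Fin m ⊕ Fin m) (Fin m ⊕ Fin m) F) - 1)))))) := by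
  have hf := Forms.plusForm_nondeg (F := F) m
  let e := Forms.plusEquiv m F
  have ht2 : e t * e t = 1 := by
    rw [← map_mul, ← sq, ← ht, pow_orderOf_eq_one, map_one]
  have hn : Module.finrank F (Fin m ⊕ Fin m → F) = 2 * m := by
    simp; omega
  have hq : (∃ c : F, c ≠ 0 ∧ c ≠ 1) ∨ 5 ≤ Module.finrank F (Fin m ⊕ Fin m → F) :=
    Or.inr (by omega)
  have hrk : (((t : GL (Fin m ⊕ Fin m) F) : Matrix (Fin m ⊕ Fin m) (Fin m ⊕ Fin m) F) - 1).rank =
      Module.finrank F (Forms.Form.Isom.res (e t)) := Forms.rank_orthEquiv (Forms.plusForm m F) t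
  have hres : ∀ x : ↥(Cfsg.isometryGroup F (Cfsg.quadFormPlus m F)),
      LinearMap.range (Matrix.toLin' (((x : GL (Fin m ⊕ Fin m) F) :
        Matrix (Fin m ⊕ Fin m) (Fin m ⊕ Fin m) F) - 1)) = Forms.Form.Isom.res (e x) := by
    intro x
    unfold Forms.Form.Isom.res
    congr 1
    apply LinearMap.ext
    intro v
    rw [Matrix.toLin'_apply, Matrix.sub_mulVec, Matrix.one_mulVec]; rfl
  have hadd : ∀ v : Fin m ⊕ Fin m → F, v + (e t).1 v = (e t).1 v - v := by
    intro v; ext i; simp [CharTwo.sub_eq_add, add_comm]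
  constructor
  · intro hnot
    obtain ⟨g, hg1, hg2⟩ := hf.exists_conj_mem_commutator hq
      Forms.isSquare_of_charP_two ((Forms.isConj_equiv_iff e).2 hconj) (by
        by_contra hc
        obtain ⟨h1, h2⟩ := hf.totSing_res_of_fix ht2 hc
        refine hnot ⟨hrk.trans (by omega),
          fun v => ?_⟩
        have := h1.1 _ (Forms.Form.Isom.sub_mem_res (e t) v)
        rw [← hadd] at this
        exact this)
    obtain ⟨g, rfl⟩ := e.surjective g
    refine ⟨g, (Forms.mem_commutator_equiv e g).1 hg1, e.injective ?_⟩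
    rw [map_mul, map_mul, map_inv]; exact hg2
  · rintro ⟨h1, h2⟩
    have h1' : Module.finrank F (Forms.Form.Isom.res (e t)) = m := hrk.symm.trans h1
    have hts : (Forms.plusForm m F).TotSing (Forms.Form.Isom.res (e t)) := by
      apply Forms.Form.totSing_of_Q
      rintro _ ⟨v, rfl⟩
      rw [Forms.Form.Isom.N_apply, ← hadd]
      exact h2 v
    have hev : Even (Module.finrank F (Forms.Form.Isom.res (e t))) :=
      hf.even_res_of_mem_commutator hq ((Forms.mem_commutator_equiv e t).2 htO)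
    have key : ∀ g : ↥(Cfsg.isometryGroup F (Cfsg.quadFormPlus m F)), g * t * g⁻¹ = s →
        (g ∈ Cfsg.Omega F (Cfsg.quadFormPlus m F) ↔
          Even (Module.finrank F ↥(Forms.Form.Isom.res (e t) ⊓ Forms.Form.Isom.res (e s)))) := by
      intro g hg
      have h3 : e s = e g * e t * (e g)⁻¹ := by rw [← hg, map_mul, map_mul, map_inv]
      rw [h3, Forms.Form.Isom.res_conj, hf.even_finrank_inf_map_iff hq hts (by omega),
        ← hf.mem_commutator_iff_even_res hq Forms.isSquare_of_charP_two (e g),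
        Forms.mem_commutator_equiv]
      simp [hev]
    rw [hres, hres]
    constructor
    · rintro ⟨g, hg1, hg2⟩
      exact (key g hg2).1 hg1
    · intro h
      obtain ⟨g, hg⟩ := isConj_iff.1 hconj
      exact ⟨g, (key g hg).2 h, hg⟩

end Cfsg.Agent.S2172
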