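import Cfsg.Statements.S2173
import Cfsg.Agent.Lib.Forms.OrthMax

set_option autoImplicit false
open Cfsg

namespace Cfsg.Agent.S2173



/-- For the quadratic form Σ x_i y_i + (z₁² + c z₁ z₂ + d z₂²) in dimension 2m with anisotropic binary part over a finite field F of characteristic two, m ≥ 4 (minus type): two involutions of the commutator subgroup Ω that are conjugate in the full isometry group O are conjugate by an element of Ω (no class of involutions of O inside Ω splits). -/
theorem result {F : Type*} [Field F] [Fintype F] [CharP F 2] {m : ℕ} (hm : 4 ≤ m) (c d : F) (hcd : ∀ z₁ z₂ : F, z₁ ^ 2 + c * z₁ * z₂ + d * z₂ ^ 2 = 0 → z₁ = 0 ∧ z₂ = 0) (t s : ↥(Cfsg.isometryGroup F (Cfsg.quadFormMinus (m - 1) F c d))) (ht : orderOf t = 2) (hs : orderOf s = 2) (htO : t ∈ Cfsg.Omega F (Cfsg.quadFormMinus (m - 1) F c d)) (hsO : s ∈ Cfsg.Omega F (Cfsg.quadFormMinus (m - 1) F c d)) (hconj : IsConj t s) :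
    ∃ g ∈ Cfsg.Omega F (Cfsg.quadFormMinus (m - 1) F c d), g * t * g⁻¹ = s := by
  have hf := Forms.minusForm_nondeg (F := F) (m - 1) (Forms.disc_ne_zero_of_anisotropic hcd)
  let e := Forms.minusEquiv (m - 1) F c d
  have ht2 : e t * e t = 1 := by
    have := pow_orderOf_eq_one t
    rw [ht] at this
    rw [← map_mul, ← sq, this, map_one]
  have hn : Module.finrank F ((Fin (m - 1) ⊕ Fin (m - 1)) ⊕ Fin 2 → F) = 2 * m := by
    simp; omega
  obtain ⟨g, hg1, hg2⟩ := hf.exists_conj_mem_commutator (Or.inr (by omega))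
    Forms.isSquare_of_charP_two ((Forms.isConj_equiv_iff e).2 hconj) (by
      by_contra hc
      obtain ⟨h1, h2⟩ := hf.totSing_res_of_fix ht2 hc
      have := Forms.minusForm_totSing_le hcd h1
      omega)
  obtain ⟨g, rfl⟩ := e.surjective g
  refine ⟨g, (Forms.mem_commutator_equiv e g).1 hg1, e.injective ?_⟩
  rw [map_mul, map_mul, map_inv]; exact hg2

end Cfsg.Agent.S2173
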