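import Cfsg.Statements.S2178
import Cfsg.Agent.Lib.Chev.Char2

set_option autoImplicit false
open Cfsg

namespace Cfsg.Agent.S2178

open Cfsg.Agent.ChevM Cfsg.Agent.Chev

/-- Centralizers of the long and the short root involutions in the Chevalley group G of type F₄ over a finite field F of characteristic two (this problem's root numbering for type F₄, from the Chevalley data module: fundamental roots p₁, p₂ short, p₃, p₄ long, with indices 33, 27, 25, 24, their negatives 14, 20, 22, 23; highest root 47, highest short root 44; U the subgroup generated by the positive root subgroups). For an element t of G with matrix x_47(1): the centralizer of t in G is the subgroup generated by U and the root subgroups X_{−p₁}, X_{−p₂}, X_{−p₃} (the unipotent radical of the maximal parabolic subgroup whose Levi factor has fundamental roots p₁, p₂, p₃, together with that Levi factor's root subgroups; the Levi factor is of type C₃). For an element u of G with matrix x_44(1): the centralizer of u in G is generated by U and X_{−p₂}, X_{−p₃},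 X_{−p₄} (the same construction for the Levi factor with fundamental roots p₂, p₃, p₄, of type B₃). -/
theorem result {F : Type*} [Field F] [Fintype F] [CharP F 2] (t u : GL Cfsg.Lie.chevF4.Idx F) (ht : (t : Matrix Cfsg.Lie.chevF4.Idx Cfsg.Lie.chevF4.Idx F) = Cfsg.Lie.chevF4.x F 47 1) (hu : (u : Matrix Cfsg.Lie.chevF4.Idx Cfsg.Lie.chevF4.Idx F) = Cfsg.Lie.chevF4.x F 44 1) :
    Cfsg.Lie.chevF4.group F ⊓ Subgroup.centralizer {t} = Cfsg.Lie.chevF4.posUnipotent F ⊔ Cfsg.Lie.chevF4.rootSubgroup F 14 ⊔ Cfsg.Lie.chevF4.rootSubgroup F 20 ⊔ Cfsg.Lie.chevF4.rootSubgroup F 22 ∧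
    Cfsg.Lie.chevF4.group F ⊓ Subgroup.centralizer {u} = Cfsg.Lie.chevF4.posUnipotent F ⊔ Cfsg.Lie.chevF4.rootSubgroup F 20 ⊔ Cfsg.Lie.chevF4.rootSubgroup F 22 ⊔ Cfsg.Lie.chevF4.rootSubgroup F 23 := by
  have h1 := cent_of_check keyOK_F4 (ot_G _ F) (A := [47]) (T := [47]) (p := fun s => Nat.ble 24 s || memL s [14, 20, 22])
    (m := fun _ => 1) (k := fun _ _ => 1) (L := []) (by decide +kernel)
  have h2 := cent_of_check keyOK_F4 (ot_G _ F) (A := [44]) (T := [44]) (p := fun s => Nat.ble 24 s || memL s [20, 22, 23])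
    (m := fun _ => 1) (k := fun _ _ => 1) (L := []) (by decide +kernel)
  rw [prN_cons, prN_nil, mul_one] at h1 h2
  have hn : Cfsg.Lie.chevF4.nroots = 48 := by decide +kernel
  rw [eq_xU_iff.mp ht, eq_xU_iff.mp hu, ← xG_coe, ← xG_coe, inf_centralizer_eq, inf_centralizer_eq, h1, h2, ← map_U,
    ← map_X ⟨14, by omega⟩, ← map_X ⟨20, by omega⟩, ← map_X ⟨22, by omega⟩, ← map_X ⟨23, by omega⟩]
  simp only [← Subgroup.map_sup, PreRGD.U, ← USub_singleton (X := (PG _ F).X), ← USub_union]
  constructor <;> congr 2 <;> ext s <;> simp [rs_isPos_iff_le, Fin.ext_iff, hn] <;> omega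

end Cfsg.Agent.S2178
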