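import Cfsg.Statements.S2179
import Cfsg.Agent.Lib.Chev.Char2

set_option autoImplicit false
open Cfsg

namespace Cfsg.Agent.S2179

open Cfsg.Agent.ChevM Cfsg.Agent.Chev

/-- Centralizers of the two remaining classes of involutions in the Chevalley group G of type F₄ over a finite field F of characteristic two (this problem's root numbering for type F₄, from the Chevalley data module: p₁, p₂ short, p₃, p₄ long with indices 33, 27, 25, 24 and negatives 14, 20, 22, 23; U generated by the positive root subgroups). For an element of G with matrix x_47(1)x_44(1) (highest root times highest short root): its centralizer in G is generated by U, X_{−p₂} and X_{−p₃}. For an element of G with matrix x_39(1)x_45(1) (roots (1,2,2,1) and (2,4,2,1), an orthogonal short/long pair): its centralizer in G is generated by X_{p₁}, X_{−p₁}, X_{p₄}, X_{−p₄} and the root subgroups of all positive roots other than p₂ (27), p₃ (25), p₁ + p₂ (34)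 and p₃ + p₄ (26). -/
theorem result {F : Type*} [Field F] [Fintype F] [CharP F 2] (w v : GL Cfsg.Lie.chevF4.Idx F) (hw : (w : Matrix Cfsg.Lie.chevF4.Idx Cfsg.Lie.chevF4.Idx F) = Cfsg.Lie.chevF4.x F 47 1 * Cfsg.Lie.chevF4.x F 44 1) (hv : (v : Matrix Cfsg.Lie.chevF4.Idx Cfsg.Lie.chevF4.Idx F) = Cfsg.Lie.chevF4.x F 39 1 * Cfsg.Lie.chevF4.x F 45 1) :
    Cfsg.Lie.chevF4.group F ⊓ Subgroup.centralizer {w} = Cfsg.Lie.chevF4.posUnipotent F ⊔ Cfsg.Lie.chevF4.rootSubgroup F 20 ⊔ Cfsg.Lie.chevF4.rootSubgroup F 22 ∧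
    Cfsg.Lie.chevF4.group F ⊓ Subgroup.centralizer {v} = Cfsg.Lie.chevF4.rootSubgroup F 33 ⊔ Cfsg.Lie.chevF4.rootSubgroup F 14 ⊔ Cfsg.Lie.chevF4.rootSubgroup F 24 ⊔ Cfsg.Lie.chevF4.rootSubgroup F 23 ⊔
      Subgroup.closure {g : GL Cfsg.Lie.chevF4.Idx F | ∃ (r : ℕ) (c : F), Cfsg.Lie.chevF4.IsPosRoot r ∧ r ∉ [27, 25, 34, 26] ∧ (g : Matrix Cfsg.Lie.chevF4.Idx Cfsg.Lie.chevF4.Idx F) = Cfsg.Lie.chevF4.x F r c} := by
  have h1 := cent_of_check keyOK_F4 (ot_G _ F) (A := [47, 44]) (T := [44, 47]) (p := fun s => Nat.ble 24 s || memL s [20, 22])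
    (m := fun _ => 1) (k := fun i a => if (i = 0) = (a = 44) then 1 else 0) (L := []) (by decide +kernel)
  have h2 := cent_of_check keyOK_F4 (ot_G _ F) (A := [39, 45]) (T := [39, 40, 44, 45, 46, 47])
    (p := fun s => (Nat.ble 24 s && !memL s [27, 25, 34, 26]) || memL s [14, 23])
    (m := fun a => if a = 39 then 3 else 2) (k := fun i a => if i = 2 ∧ a = 39 then 2 else 1)
    (L := [(27, 39, 40, 1, [44, 46, 47]), (25, 45, 46, 1, [44, 47]), (34, 39, 44, 1, [47]), (26, 45, 47, 1, [])])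
    (by decide +kernel)
  rw [prN_cons, prN_cons, prN_nil, mul_one] at h1 h2
  have hn : Cfsg.Lie.chevF4.nroots = 48 := by decide +kernel
  have e1 : w = (xG _ F 47 1 * xG _ F 44 1 : Cfsg.Lie.chevF4.group F) := Units.ext hw
  have e2 : v = (xG _ F 39 1 * xG _ F 45 1 : Cfsg.Lie.chevF4.group F) := Units.ext hv
  have e : {g : GL Cfsg.Lie.chevF4.Idx F | ∃ (r : ℕ) (c : F), Cfsg.Lie.chevF4.IsPosRoot r ∧ r ∉ [27, 25, 34, 26] ∧
      (g : Matrix Cfsg.Lie.chevF4.Idx Cfsg.Lie.chevF4.Idx F) = Cfsg.Lie.chevF4.x F r c} =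
      {g : GL Cfsg.Lie.chevF4.Idx F | ∃ (r : ℕ) (c : F), (Cfsg.Lie.chevF4.IsPosRoot r ∧ r ∉ [27, 25, 34, 26]) ∧
      (g : Matrix Cfsg.Lie.chevF4.Idx Cfsg.Lie.chevF4.Idx F) = Cfsg.Lie.chevF4.x F r c} := by simp only [and_assoc]
  rw [e1, e2, inf_centralizer_eq, inf_centralizer_eq, h1, h2, ← map_U, e,
    ← map_US _ fun r hr => (isPosRoot_iff_le.mp hr.1).1, ← map_X ⟨14, by omega⟩, ← map_X ⟨20, by omega⟩,
    ← map_X ⟨22, by omega⟩, ← map_X ⟨23, by omega⟩, ← map_X ⟨24, by omega⟩, ← map_X ⟨33, by omega⟩]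
  simp only [← Subgroup.map_sup, PreRGD.U, ← USub_singleton (X := (PG _ F).X), ← USub_union]
  constructor <;> congr 2 <;> ext ⟨s, hs⟩ <;> simp [rs_isPos_iff_le, isPosRoot_iff_le, Fin.ext_iff, hn] <;> omega

end Cfsg.Agent.S2179
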