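import Cfsg.Statements.S2180
import Cfsg.Agent.Lib.Chev.Char2

set_option autoImplicit false
open Cfsg

namespace Cfsg.Agent.S2180

open Cfsg.Agent.ChevM Cfsg.Agent.Chev

/-- Centralizers of involutions in the Chevalley group G of type G₂ over a finite field F of characteristic two with at least four elements (this problem's root numbering for type G₂, from the Chevalley data module: a = p₁ short with index 7, b = p₂ long with index 6, −a = 4, −b = 5, 2a + b = 9, 3a + b = 10, 3a + 2b = 11; U generated by the positive root subgroups). For an element z of G with matrix x_{3a+2b}(1): the centralizer of z in G is generated by U and X_{−a}. For an element t of G with matrix x_{2a+b}(1): the centralizer of t in G is generated by X_{2a+b}, X_{3a+b}, X_{3a+2b}, X_b and X_{−b}. -/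
theorem result {F : Type*} [Field F] [Fintype F] [CharP F 2] (hF : 4 ≤ Fintype.card F) (z t : GL Cfsg.Lie.chevG2.Idx F) (hz : (z : Matrix Cfsg.Lie.chevG2.Idx Cfsg.Lie.chevG2.Idx F) = Cfsg.Lie.chevG2.x F 11 1) (ht : (t : Matrix Cfsg.Lie.chevG2.Idx Cfsg.Lie.chevG2.Idx F) = Cfsg.Lie.chevG2.x F 9 1) :
    Cfsg.Lie.chevG2.group F ⊓ Subgroup.centralizer {z} = Cfsg.Lie.chevG2.posUnipotent F ⊔ Cfsg.Lie.chevG2.rootSubgroup F 4 ∧
    Cfsg.Lie.chevG2.group F ⊓ Subgroup.centralizer {t} = Cfsg.Lie.chevG2.rootSubgroup F 9 ⊔ Cfsg.Lie.chevG2.rootSubgroup F 10 ⊔ Cfsg.Lie.chevG2.rootSubgroup F 11 ⊔ Cfsg.Lie.chevG2.rootSubgroup F 6 ⊔ Cfsg.Lie.chevG2.rootSubgroup F 5 := by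
  have h1 := cent_of_check keyOK_G2 (ot_G _ F) (A := [11]) (T := [11]) (p := fun s => Nat.ble 6 s || memL s [4])
    (m := fun _ => 1) (k := fun _ _ => 1) (L := []) (by decide +kernel)
  have h2 := cent_of_check keyOK_G2 (ot_G _ F) (A := [9]) (T := [9, 10, 11]) (p := fun s => memL s [9, 10, 11, 6, 5])
    (m := fun _ => 1) (k := fun _ _ => 1) (L := [(7, 9, 10, 1, [11]), (8, 9, 11, 1, [])]) (by decide +kernel)
  rw [prN_cons, prN_nil, mul_one] at h1 h2
  have hn : Cfsg.Lie.chevG2.nroots = 12 := by decide +kernel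
  rw [eq_xU_iff.mp ht, eq_xU_iff.mp hz, ← xG_coe, ← xG_coe, inf_centralizer_eq, inf_centralizer_eq, h1, h2, ← map_U,
    ← map_X ⟨4, by omega⟩, ← map_X ⟨5, by omega⟩, ← map_X ⟨6, by omega⟩, ← map_X ⟨9, by omega⟩,
    ← map_X ⟨10, by omega⟩, ← map_X ⟨11, by omega⟩]
  simp only [← Subgroup.map_sup, PreRGD.U, ← USub_singleton (X := (PG _ F).X), ← USub_union]
  constructor <;> congr 2 <;> ext s <;> simp [rs_isPos_iff_le, Fin.ext_iff, hn] <;> omega

end Cfsg.Agent.S2180
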