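import Cfsg.Statements.S2186
import Cfsg.Agent.Lib.Chev.Misc

set_option autoImplicit false
open Cfsg

namespace Cfsg.Agent.S2186

open Cfsg.Agent.ChevM Cfsg.Agent.Chev

/-- Let G be the Chevalley group of type G₂ (over a field with at least four elements), D₄, E₆, E₇ or E₈ over a finite field F of characteristic two, and let X be the root subgroup of the highest root (the last root index) — a long root subgroup, of order |F|. For every g in G, the subgroup generated by X and its conjugate g X g⁻¹ is either a 2-group or is conjugate by an element of G to the subgroup generated by X and the root subgroup of the lowest root (index 0, the negative of the highest root), which is a copy of SL₂(F). -/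
theorem result {F : Type*} [Field F] [Fintype F] [CharP F 2] (D : Cfsg.Lie.ChevalleyDatum) (hD : D ∈ [Cfsg.Lie.chevG2, Cfsg.Lie.chevD4, Cfsg.Lie.chevE6, Cfsg.Lie.chevE7, Cfsg.Lie.chevE8]) (hF : D = Cfsg.Lie.chevG2 → 4 ≤ Fintype.card F) (g : GL D.Idx F) (hg : g ∈ D.group F) :
    IsPGroup 2 ↥(D.rootSubgroup F (D.nroots - 1) ⊔ (D.rootSubgroup F (D.nroots - 1)).map (MulAut.conj g).toMonoidHom) ∨
    ∃ h ∈ D.group F, (D.rootSubgroup F (D.nroots - 1) ⊔ (D.rootSubgroup F (D.nroots - 1)).map (MulAut.conj g).toMonoidHom).map (MulAut.conj h).toMonoidHom = D.rootSubgroup F (D.nroots - 1) ⊔ D.rootSubgroup F 0 := by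
  have : GoodM D := goodM_of_tab (by
    simp only [List.mem_cons, List.not_mem_nil, or_false] at hD
    rcases hD with rfl | rfl | rfl | rfl | rfl <;> simp [IsTab])
  have hn : 0 < D.nroots := by
    simp only [List.mem_cons, List.not_mem_nil, or_false] at hD
    rcases hD with rfl | rfl | rfl | rfl | rfl <;> decide
  let θ : Fin D.nroots := ⟨D.nroots - 1, by omega⟩
  have hθ : θ.val + 1 = D.nroots := by simp only [θ]; omega
  have e0 : (((rs D).neg θ : Fin D.nroots) : ℕ) = 0 := by rw [rs_neg_val, neg_eq θ.2]; simp only [θ]; omega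
  have e1 : D.rootSubgroup F (D.nroots - 1) = ((PG D F).X θ).map (D.group F).subtype := (map_X θ).symm
  have e2 : D.rootSubgroup F 0 = ((PG D F).X ((rs D).neg θ)).map (D.group F).subtype := by rw [map_X, e0]
  obtain ⟨w, hw, b, hb, c, hc, e⟩ := bruhat (⟨g, hg⟩ : D.group F)
  have hB : ∀ b ∈ (PG D F).B, ((PG D F).X θ).map (MulAut.conj b).toMonoidHom = (PG D F).X θ := fun b hb =>
    map_conj_eq_of (fun x hx => B_conj_X_last hθ hb hx)
      (fun x hx => by simpa using B_conj_X_last hθ (inv_mem hb) hx)
  have hw' : ((PG D F).X θ).map (MulAut.conj ((PG D F).nW w)).toMonoidHom = (PG D F).X (w θ) :=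
    map_conj_eq_of (fun x hx => (PG D F).nW_conj_X hw _ hx)
      (fun x hx => by simpa using (PG D F).nW_inv_conj_X hw _ hx)
  have key : D.rootSubgroup F (D.nroots - 1) ⊔ (D.rootSubgroup F (D.nroots - 1)).map (MulAut.conj g).toMonoidHom =
      (((PG D F).X θ ⊔ (PG D F).X (w θ)).map (MulAut.conj b).toMonoidHom).map (D.group F).subtype := by
    rw [e1, ← map_subtype_conj _ (⟨g, hg⟩ : D.group F), ← Subgroup.map_sup, e, map_conj_mul, map_conj_mul, hB c hc,
      hw', Subgroup.map_sup _ _ (MulAut.conj b).toMonoidHom, hB b hb]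
  rw [key]
  by_cases h : w θ = (rs D).neg θ
  · refine Or.inr ⟨(b⁻¹ : D.group F), (b⁻¹).2, ?_⟩
    rw [← map_subtype_conj, ← map_conj_mul, inv_mul_cancel, e1, e2, ← Subgroup.map_sup, h]
    congr 1
    exact map_conj_eq_of (by simp) (by simp)
  · refine Or.inl (IsPGroup.map (IsPGroup.map ?_ _) _)
    exact (isPGroup_US 2 (RSys.halfSpace_cone h) (RSys.closed_cone θ (w θ))).to_le
      (sup_le (le_USub (RSys.left_mem_cone _ _)) (le_USub (RSys.right_mem_cone _ _)))

end Cfsg.Agent.S2186
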