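import Cfsg.Statements.S2194
import Cfsg.Agent.Lib.R3L.Main

set_option autoImplicit false
open Cfsg

namespace Cfsg.Agent.S2194

/-- Primitive rank 3 actions of the projective special linear groups in dimension at least 5. Let G ≅ PSL_n(F), n ≥ 5, F a finite field with q elements, act faithfully and primitively on a finite set X so that a point stabilizer has exactly three orbits on X. Then X has as many points as there are 2-dimensional subspaces of F^n: |X|·(q² − 1)(q − 1) = (q^n − 1)(q^(n−1) − 1). (The action is in fact the one on the lines of the projective space, or on its subspaces of dimension n − 2; only the number of points is asserted here.) -/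
theorem result {G X : Type*} [Group G] [Finite G] [MulAction G X] [FaithfulSMul G X] [Fintype X] {F : Type*} [Field F] [Fintype F] (n : ℕ) (hn : 5 ≤ n) (e : G ≃* Matrix.ProjectiveSpecialLinearGroup (Fin n) F) (hprim : MulAction.IsPreprimitive G X) (x : X) (h3 : Nat.card (MulAction.orbitRel.Quotient ↥(MulAction.stabilizer G x) X) = 3) :
    Fintype.card X * ((Fintype.card F ^ 2 - 1) * (Fintype.card F - 1)) = (Fintype.card F ^ n - 1) * (Fintype.card F ^ (n - 1) - 1) := by
  classical
  obtain ⟨m, rfl⟩ : ∃ m, n = m + 3 := ⟨n - 3, by omega⟩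
  let f : Matrix.SpecialLinearGroup (Fin (m + 3)) F →* G :=
    e.symm.toMonoidHom.comp (QuotientGroup.mk' _)
  have hf : Function.Surjective f := e.symm.surjective.comp (QuotientGroup.mk'_surjective _)
  let _ : MulAction (Matrix.SpecialLinearGroup (Fin (m + 3)) F) X := MulAction.compHom X f
  have hs : ∀ (g : Matrix.SpecialLinearGroup (Fin (m + 3)) F) (y : X), g • y = f g • y :=
    fun _ _ => rfl
  have : MulAction.IsPretransitive (Matrix.SpecialLinearGroup (Fin (m + 3)) F) X := ⟨fun a b => by
    obtain ⟨g, hg⟩ := MulAction.exists_smul_eq G a b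
    obtain ⟨g, rfl⟩ := hf g
    exact ⟨g, hg⟩⟩
  have h3' : Nat.card (MulAction.orbitRel.Quotient
      (MulAction.stabilizer (Matrix.SpecialLinearGroup (Fin (m + 3)) F) x) X) = 3 := by
    refine (Nat.card_congr (Quotient.congr (Equiv.refl _) fun a b => ?_)).trans h3
    simp only [Equiv.refl_apply, MulAction.orbitRel_apply]
    constructor
    · rintro ⟨k, hk⟩
      exact ⟨⟨f k, k.2⟩, hk⟩
    · rintro ⟨⟨k, hk⟩, hk'⟩
      obtain ⟨g, rfl⟩ := hf k
      exact ⟨⟨g, hk⟩, hk'⟩
  have : Nontrivial X := by
    by_contra h
    rw [not_nontrivial_iff_subsingleton] at h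
    exact R3L.not_rank_two x h3 fun y z hy _ => absurd (Subsingleton.elim _ _) hy
  have hK : IsCoatom (MulAction.stabilizer (Matrix.SpecialLinearGroup (Fin (m + 3)) F) x) :=
    Subgroup.isCoatom_comap_of_surjective hf
      (MulAction.IsPreprimitive.isCoatom_stabilizer_of_isPreprimitive G x)
  have h := R3L.main (by omega) hK h3'
  have hq : 1 ≤ Fintype.card F := Fintype.card_pos
  have h1 := R3L.qInt_mul ℤ (Fintype.card F) (m + 3)
  have h2 := R3L.qInt_mul ℤ (Fintype.card F) (m + 2)
  rw [show m + 3 - 1 = m + 2 from rfl]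
  zify [hq, Nat.one_le_pow _ _ hq] at h ⊢
  rw [← h1, ← h2]
  linear_combination ((Fintype.card F : ℤ) - 1) ^ 2 * h

end Cfsg.Agent.S2194
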