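import Cfsg.Statements.S2195
import Cfsg.Agent.Lib.R3S.T11
import Cfsg.Agent.Lib.Forms.Center
import Cfsg.Agent.Lib.Forms.OrthTwo

set_option autoImplicit false
open Cfsg

namespace Cfsg.Agent.S2195

open MulAction in
theorem transfer {G H X : Type*} [Group G] [Group H] [MulAction G X] [MulAction H X] (φ : H →* G)
    (hφ : Function.Surjective φ) (ha : ∀ h (x : X), h • x = φ h • x) (x : X) :
    (IsPreprimitive G X → IsPreprimitive H X) ∧
      orbitRel (stabilizer H x) X = orbitRel (stabilizer G x) X := by
  refine ⟨fun hp => ?_, Setoid.ext fun a b => ⟨fun ⟨h, hh⟩ => ⟨⟨φ h, (ha _ _).symm.trans h.2⟩,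
    (ha _ _).symm.trans hh⟩, fun ⟨g, hg⟩ => ?_⟩⟩
  · exact (isPreprimitive_congr (φ := φ) (f := ⟨id, ha⟩) hφ Function.bijective_id).2 hp
  · obtain ⟨h, hh⟩ := hφ g
    exact ⟨⟨h, (ha _ _).trans (hh ▸ g.2)⟩, (ha h b).trans (by rw [hh]; exact hg)⟩

/-- Primitive rank 3 actions of the projective symplectic groups in dimension at least 6 over fields of odd order. Let G ≅ PSp_{2k}(F), k ≥ 3, F a finite field with q elements, q odd, act faithfully and primitively on a finite set X so that a point stabilizer has exactly three orbits. Then X has as many points as the projective space of F^{2k}: |X|·(q − 1) = q^{2k} − 1. (The action is in fact the one on the points of the projective space, all of which are isotropic for the symplectic form; only the number of points is asserted here.) -/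
theorem result {G X : Type*} [Group G] [Finite G] [MulAction G X] [FaithfulSMul G X] [Fintype X] {F : Type*} [Field F] [Fintype F] (k : ℕ) (hk : 3 ≤ k) (hq : Odd (Fintype.card F)) (e : G ≃* Cfsg.PSp k F) (hprim : MulAction.IsPreprimitive G X) (x : X) (h3 : Nat.card (MulAction.orbitRel.Quotient ↥(MulAction.stabilizer G x) X) = 3) :
    Fintype.card X * (Fintype.card F - 1) = Fintype.card F ^ (2 * k) - 1 := by
  obtain ⟨j, rfl⟩ : ∃ j, k = j + 3 := ⟨k - 3, by omega⟩
  let φ : (Forms.spForm (j + 3) F).Isom →* G := e.symm.toMonoidHom.comp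
    ((QuotientGroup.mk' _).comp (Forms.spEquiv (j + 3) F).symm.toMonoidHom)
  have hφ : Function.Surjective φ := e.symm.surjective.comp
    ((QuotientGroup.mk'_surjective _).comp (Forms.spEquiv (j + 3) F).symm.surjective)
  letI := MulAction.compHom X φ
  obtain ⟨h1, h2⟩ := transfer φ hφ (fun _ _ => rfl) x
  haveI := h1 hprim
  have hn : φ (R3S.negI _) = 1 := by
    change e.symm (QuotientGroup.mk _) = 1
    rw [(QuotientGroup.eq_one_iff _).2, map_one]
    exact (Forms.mem_center_equiv _ _).1 (Subgroup.mem_center_iff.2 fun g =>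
      (Forms.Form.commute_of_scalar (c := -1) (fun v => by simp [R3S.negI_apply]) g).eq.symm)
  have two : (2 : F) ≠ 0 := fun h => by
    have := FiniteField.even_card_of_char_two (F := F)
      (CharP.ringChar_of_prime_eq_zero Nat.prime_two (by exact_mod_cast h))
    rw [Nat.odd_iff] at hq
    omega
  have := R3S.main (ω := x) (Forms.spForm_nondeg (j + 3)) two (j := j)
    (by rw [Forms.finrank_plus]; ring) (fun y => (congrArg (· • y) hn).trans (one_smul _ _))
    (by unfold MulAction.orbitRel.Quotient at h3 ⊢; rw [h2]; exact h3)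
  rwa [Module.natCard_eq_pow_finrank (K := F) (V := Fin (j + 3) ⊕ Fin (j + 3) → F), Forms.finrank_plus,
    Nat.card_eq_fintype_card, Nat.card_eq_fintype_card] at this

end Cfsg.Agent.S2195
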