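import Cfsg.Statements.S2196
import Cfsg.Agent.Lib.Rk3.Reg3
import Cfsg.Agent.Lib.Rk3.Red

set_option autoImplicit false
open Cfsg

namespace Cfsg.Agent.S2196

open Module Cfsg.Agent.Forms Cfsg.Agent.Forms.Form Cfsg.Agent.MI Cfsg.Agent.Rk3 MulAction

theorem card_eq {F : Type*} [Field F] [Fintype F] {q m : ℕ} (hF : Fintype.card F = q ^ 2)
    (hq : 3 ≤ q) {X : Type*} [Fintype X] [MulAction (AF (m + 6) hF).SIsom X]
    [IsPreprimitive (AF (m + 6) hF).SIsom X] {x : X}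
    (h3 : Nat.card (orbitRel.Quotient (stabilizer (AF (m + 6) hF).SIsom x) X) = 3)
    (hz : ∀ z ∈ Subgroup.center (AF (m + 6) hF).SIsom, z • x = x) :
    Nat.card X * (q ^ 2 - 1) = {w | (AF (m + 6) hF).Q w = 0 ∧ w ≠ 0}.ncard := by
  have R := r3 hF hq 0 h3
  set K := (stabilizer (AF (m + 6) hF).SIsom x).map (AF (m + 6) hF).SIsom.subtype
  have hf : (AF (m + 6) hF).Nondeg := aForm_nondeg
  by_cases hirr : Irr m hF ((1 : (AF (m + 6) hF).Isom) : (AF (m + 6) hF).Isom ⧸ K)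
  swap
  · simp only [Irr, not_forall, not_or] at hirr
    obtain ⟨W, h1, h2, h4⟩ := hirr
    exact card_of_red hf hq (by simp) h3 (fun k hk => h1 k.1 (QuotientGroup.eq.2
      ⟨k⁻¹, inv_mem hk, by simp⟩)) h2 h4
  exfalso
  obtain ⟨ω, h⟩ := R.phi hq _ hirr fun ω g hg h => by
    obtain ⟨k, rfl⟩ := QuotientGroup.mk_surjective ω
    refine QuotientGroup.eq.2 ⟨⟨g, hg⟩⁻¹, inv_mem (hz _ ((hf.su_mem_center_iff (by simp) _).2
      ⟨-1, by simpa using h⟩)), ?_⟩
    change g⁻¹ = (g * k)⁻¹ * k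
    rw [← Subgroup.mem_center_iff.1 ((hf.gu_mem_center_iff (by simp) g).2
      ⟨-1, by simpa using h⟩) k]
    simp
  have h1 := su_gen hf (by simp) _ (ein_of_hasTr hf (Or.inr hq)
    (hasTr_stabilizer fun u h1 h2 => (h u trivial h1 h2).2.2))
  obtain ⟨g, rfl⟩ := QuotientGroup.mk_surjective ω
  have h2 : ∀ s : (AF (m + 6) hF).SIsom, s • x = x := fun s => by
    obtain ⟨t, ht, e⟩ := QuotientGroup.eq.1
      (h1 (Subgroup.Normal.conj_mem inferInstance _ (inv_mem s.2) g))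
    rwa [← show t = s from Subtype.ext (by simpa [mul_assoc] using e)]
  have : Subsingleton X := ⟨fun a b => by
    obtain ⟨s, rfl⟩ := exists_smul_eq (AF (m + 6) hF).SIsom x a
    obtain ⟨t, rfl⟩ := exists_smul_eq (AF (m + 6) hF).SIsom x b
    rw [h2, h2]⟩
  have := Finite.card_le_one_iff_subsingleton.2
    (inferInstance : Subsingleton (orbitRel.Quotient (stabilizer (AF (m + 6) hF).SIsom x) X))
  omega

theorem result {G X : Type*} [Group G] [Finite G] [MulAction G X] [FaithfulSMul G X] [Fintype X] {F : Type*} [Field F] [Fintype F] (n q : ℕ) (hn : 6 ≤ n) (hq : 3 ≤ q) (hF : Fintype.card F = q ^ 2) (e : G ≃* Cfsg.PSU n F q) (hprim : MulAction.IsPreprimitive G X) (x : X) (h3 : Nat.card (MulAction.orbitRel.Quotient ↥(MulAction.stabilizer G x) X) = 3) :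
    (Even n → Fintype.card X * (q ^ 2 - 1) = (q ^ n - 1) * (q ^ (n - 1) + 1)) ∧
    (Odd n → Fintype.card X * (q ^ 2 - 1) = (q ^ n + 1) * (q ^ (n - 1) - 1)) := by
  obtain ⟨m, rfl⟩ : ∃ m, n = m + 6 := ⟨n - 6, by omega⟩
  have hf : (AF (m + 6) hF).Nondeg := aForm_nondeg
  obtain ⟨i⟩ := (uForm_nondeg (m + 6) hF).unit_iso hf rfl
  let j := (suEquiv _ hF).trans i.sisomEquiv
  let φ : (AF (m + 6) hF).SIsom →* G :=
    e.symm.toMonoidHom.comp ((QuotientGroup.mk' _).comp j.symm.toMonoidHom)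
  have hφ : Function.Surjective φ :=
    e.symm.surjective.comp ((QuotientGroup.mk'_surjective _).comp j.symm.surjective)
  let _ := MulAction.compHom X φ
  have h1 : ∀ (s : (AF (m + 6) hF).SIsom) (y : X), s • y = φ s • y := fun _ _ => rfl
  have : IsPreprimitive (AF (m + 6) hF).SIsom X :=
    (isPreprimitive_congr hφ (f := ⟨id, h1⟩) Function.bijective_id).2 hprim
  have h2 := card_eq hF hq (x := x) ((Nat.card_congr (Quotient.congr
    (ra := orbitRel (stabilizer (AF (m + 6) hF).SIsom x) X) (rb := orbitRel (stabilizer G x) X)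
    (Equiv.refl X) fun a b => ⟨fun ⟨s, hs⟩ => ⟨⟨φ s, s.2⟩, hs⟩, fun ⟨⟨s, h⟩, hs⟩ => by
      obtain ⟨s, rfl⟩ := hφ s
      exact ⟨⟨s, h⟩, hs⟩⟩)).trans h3) fun z hz => by
    have : φ z = 1 := (congrArg e.symm ((QuotientGroup.eq_one_iff _).2
      ((mem_center_equiv j.symm z).1 hz))).trans (map_one _)
    rw [h1, this, one_smul]
  have h4 := su_card_sing hf (k := m + 4) (by simp)
  rw [← h2, Nat.card_eq_fintype_card] at h4
  have h5 : ∀ k, 1 ≤ q ^ k := fun k => Nat.one_le_pow _ _ (by omega)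
  constructor <;> intro h <;> zify [h5] at h4 ⊢ <;> rw [h4]
  · rw [(show Even (m + 4) by grind).neg_one_pow]; simp only [Nat.add_succ_sub_one]; ring
  · rw [(show Odd (m + 4) by grind).neg_one_pow]; simp only [Nat.add_succ_sub_one]; ring

end Cfsg.Agent.S2196
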