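import Cfsg.Statements.S2197
import Cfsg.Agent.Lib.LieId.Tits

set_option autoImplicit false
open Cfsg

namespace Cfsg.Agent.S2197

open Cfsg.Agent.CG MulAction

section

variable {G : Type*} [Group G]

/-- There is a subgroup of order `m` all of whose nontrivial elements are conjugate to `t`. -/
def Uni (t : G) (m : ℕ) : Prop := ∃ K : Subgroup G, Nat.card K = m ∧ ∀ g ∈ K, g ≠ 1 → IsConj t g

theorem Uni.map {H : Type*} [Group H] (e : G ≃* H) {t : G} {m : ℕ} (h : Uni t m) : Uni (e t) m := by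
  obtain ⟨K, h1, h2⟩ := h
  refine ⟨K.map e.toMonoidHom, by rw [Subgroup.card_map_of_injective e.injective, h1], ?_⟩
  rintro _ ⟨g, hg, rfl⟩ h3
  exact e.toMonoidHom.map_isConj (h2 g hg fun h4 => h3 (by simp [h4]))

theorem uni_of_chk {X : Type*} [MulAction G X] [Finite G] {A : Act G X} {B : List ℕ} (hB : A.IsBase B)
    (img : ℕ → List ℕ) (t : List ℕ) (L : List (List ℕ × List ℕ))
    (h1 : allL (fun v => allL (fun a => blt a 2) v.1) L = true)
    (h2 : allL (fun v => allLt (fun s => anyL (fun v' => eqW A.app B (substW img (s :: v)) (substW img v'))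
      ([] :: L.map Prod.fst)) 2) ([] :: L.map Prod.fst) = true)
    (h3 : allL (fun v => eqW A.app B (app2 v.2 t) (app2 (substW img v.1) v.2)) L = true)
    (h4 : ([] :: L.map Prod.fst).Pairwise fun v v' => eqW A.app B (substW img v) (substW img v') = false) :
    Uni (ev A.gen t) (L.length + 1) := by
  classical
  simp only [allL_iff, allLt_iff, anyL_iff, blt_iff] at h1 h2 h3
  let f : List ℕ → G := ev fun a => ev A.gen (img a)
  have h5 : ∀ s < 2, ∀ k, ∀ g ∈ ([] :: L.map Prod.fst).map f, ev A.gen (img s) ^ k * g ∈ ([] :: L.map Prod.fst).map f :=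
    fun s hs k g hg => by
      induction k with
      | zero => simpa using hg
      | succ k ih =>
        obtain ⟨v, hv, e⟩ := List.mem_map.1 ih
        obtain ⟨v', hv', e'⟩ := h2 v hv s hs
        have := hB.ev_eq e'
        rw [ev_substW, ev_substW, ev_cons] at this
        rw [pow_succ', mul_assoc, ← e]
        exact List.mem_map.2 ⟨v', hv', this.symm⟩
  have h6 : (cl (fun a => ev A.gen (img a)) [0, 1] : Set G) = (([] :: L.map Prod.fst).map f).toFinset := by
    ext g
    rw [Finset.mem_coe, List.mem_toFinset, SetLike.mem_coe]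
    constructor
    · intro hg
      induction hg using Subgroup.closure_induction_left with
      | one => simp [f]
      | mul_left x hx y _ hy =>
        obtain ⟨s, hs, rfl⟩ := hx
        simpa using h5 s (by simp at hs; omega) 1 y hy
      | inv_mul_cancel x hx y _ hy =>
        obtain ⟨s, hs, rfl⟩ := hx
        have := h5 s (by simp at hs; omega) (orderOf (ev A.gen (img s)) - 1) y hy
        rwa [eq_inv_of_mul_eq_one_left (a := ev A.gen (img s) ^ _) (b := ev A.gen (img s)) (by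
          rw [← pow_succ, Nat.sub_add_cancel (orderOf_pos _), pow_orderOf_eq_one])] at this
    · intro hg
      obtain ⟨v, hv, rfl⟩ := List.mem_map.1 hg
      refine ev_mem _ fun a ha => gen_mem_cl _ ?_
      rcases List.mem_cons.1 hv with rfl | hv
      · simp at ha
      · obtain ⟨u, hu, rfl⟩ := List.mem_map.1 hv
        have := h1 u hu a ha
        simp; omega
  refine ⟨cl (fun a => ev A.gen (img a)) [0, 1], ?_, fun g hg h7 => ?_⟩
  · rw [← SetLike.coe_sort_coe, h6, Finset.coe_sort_coe, Nat.card_eq_finsetCard, List.toFinset_card_of_nodup]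
    · simp
    · exact List.pairwise_map.2 (h4.imp fun h => by
        simpa only [ev_substW] using A.ev_ne_of_eqW hB.1 h)
  · rw [← SetLike.mem_coe, h6, Finset.mem_coe, List.mem_toFinset] at hg
    obtain ⟨v, hv, rfl⟩ := List.mem_map.1 hg
    rcases List.mem_cons.1 hv with rfl | hv
    · exact absurd rfl h7
    · obtain ⟨u, hu, rfl⟩ := List.mem_map.1 hv
      have := hB.ev_eq (h3 u hu)
      rw [app2_eq, app2_eq, ev_append, ev_append, ev_substW] at this
      exact isConj_iff.2 ⟨_, mul_inv_eq_of_eq_mul this⟩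

variable {Ω : Type*} [Fintype Ω] [MulAction G Ω]

omit [Fintype Ω] in
theorem card_fixedBy_conj {t g : G} (h : IsConj t g) : Nat.card (fixedBy Ω g) = Nat.card (fixedBy Ω t) := by
  obtain ⟨c, rfl⟩ := isConj_iff.1 h
  exact Nat.card_congr ((toPerm c⁻¹).subtypeEquiv fun a => by simp [mul_smul, smul_eq_iff_eq_inv_smul c])

theorem sum_fixedBy [Finite G] {t : G} {K : Subgroup G} [Fintype K] (h : ∀ g ∈ K, g ≠ 1 → IsConj t g) :
    ∑ g : K, Nat.card (fixedBy Ω g) = Nat.card Ω + (Nat.card K - 1) * Nat.card (fixedBy Ω t) := by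
  classical
  rw [← Finset.add_sum_erase _ _ (Finset.mem_univ 1), Finset.sum_congr (f := fun g : K => Nat.card (fixedBy Ω g)) rfl
    (g := fun _ => Nat.card (fixedBy Ω t))
    fun g hg => card_fixedBy_conj (g := g.1) (h g g.2 fun e => (Finset.mem_erase.1 hg).1 (Subtype.ext e))]
  simp [Finset.card_erase_of_mem]

theorem Uni.dvd [Finite G] {t : G} {m : ℕ} (h : Uni t m) : m ∣ Nat.card Ω + (m - 1) * Nat.card (fixedBy Ω t) := by
  classical
  obtain ⟨K, rfl, h⟩ := h
  have := Fintype.ofFinite K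
  rw [← sum_fixedBy h]
  simp only [Nat.card_eq_fintype_card, sum_card_fixedBy_eq_card_orbits_mul_card_group]
  exact Dvd.intro_left _ rfl

theorem Uni.le [Finite G] {t : G} (h : Uni t 25) (h1 : ∀ a : Ω, ¬ 25 ∣ Nat.card (stabilizer G a)) :
    Nat.card Ω + 24 * Nat.card (fixedBy Ω t) ≤ Nat.card Ω * 5 := by
  classical
  obtain ⟨K, hK, h⟩ := h
  have := Fintype.ofFinite K
  have h2 := sum_fixedBy (Ω := Ω) h
  rw [hK] at h2
  rw [← h2, Nat.card_eq_fintype_card, ← Finset.card_univ, ← smul_eq_mul]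
  refine le_trans (le_of_eq ?_) (Finset.sum_le_card_nsmul _ (fun a => Nat.card (stabilizer K a)) _ fun a _ => ?_)
  · simp only [Nat.card_eq_fintype_card, Fintype.card_subtype, Finset.card_filter, mem_fixedBy, mem_stabilizer_iff]
    exact Finset.sum_comm
  · have h3 : Nat.card (stabilizer K a) ∣ 5 ^ 2 := (Subgroup.card_subgroup_dvd_card _).trans hK.dvd
    have h4 : Nat.card (stabilizer K a) ∣ Nat.card (stabilizer G a) := by
      rw [← Subgroup.card_map_of_injective K.subtype_injective]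
      exact Subgroup.card_dvd_of_le (by rintro _ ⟨g, hg, rfl⟩; exact hg)
    obtain ⟨i, hi, e⟩ := (Nat.dvd_prime_pow Nat.prime_five).1 h3
    rw [e] at h4 ⊢
    interval_cases i
    exacts [by decide, by decide, absurd h4 (h1 a)]

theorem card_fixedBy_lt [FaithfulSMul G Ω] {t : G} (h : t ≠ 1) : Nat.card (fixedBy Ω t) < Nat.card Ω := by
  obtain ⟨a, ha⟩ := not_forall.1 fun e : ∀ a : Ω, t • a = a => h (eq_of_smul_eq_smul (α := Ω) fun a =>
    (e a).trans (one_smul G a).symm)
  exact Finite.card_subtype_lt (x := a) ha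

set_option maxRecDepth 100000 in
theorem degs (n : ℕ) (h1 : n < 4300) (h2 : 27 ≤ n) (h3 : (n - 1) * n ∣ 17971200) : n = 27 ∨ n = 40 ∨ n = 65 := by
  have := (allLt_iff _ _).1 (show allLt (fun n => bor (blt n 27) (bor (bnot (Nat.beq (17971200 % ((n - 1) * n)) 0))
    (memL n [27, 40, 65]))) 4300 = true by decide +kernel) n h1
  simp only [bor_eq, bnot_eq, blt_iff, beq_false_iff, memL_iff] at this
  rcases this with h | h | h
  · omega
  · exact absurd (Nat.mod_eq_zero_of_dvd h3) h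
  · simpa using h

theorem not_two_trans [FaithfulSMul G Ω] (hG : Nat.card G = 17971200) {x y z : G} (hx : x ^ 13 = 1) (hx1 : x ≠ 1)
    (hy : y ^ 3 = 1) (hy1 : y ≠ 1) (hz1 : z ≠ 1) (hxy : y * x = x ^ 3 * y) (h3 : Uni y 27) (h5 : Uni z 25)
    (h : IsMultiplyPretransitive G Ω 2) : False := by
  classical
  have : Finite G := Nat.finite_of_card_ne_zero (by rw [hG]; decide)
  have a1 := h3.dvd (Ω := Ω)
  have a2 := card_fixedBy_lt (Ω := Ω) hy1
  have a3 := h5.dvd (Ω := Ω)
  have a4 := card_fixedBy_lt (Ω := Ω) hz1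
  have a5 := card_fixedBy_lt (Ω := Ω) hx1
  have a6 : 27 ≤ Nat.card Ω := by omega
  obtain ⟨f⟩ : Nonempty (Fin 2 ↪ Ω) := Function.Embedding.nonempty_of_card_le (by
    rw [← Nat.card_eq_fintype_card (α := Ω), Fintype.card_fin]; omega)
  have a7 : (Nat.card Ω - 1) * Nat.card Ω ∣ 17971200 := by
    have := (stabilizer G f).index_dvd_card
    rw [index_stabilizer_of_transitive, hG, Nat.card_eq_fintype_card, Fintype.card_embedding_eq,
      ← Nat.card_eq_fintype_card (α := Ω)] at this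
    simpa using this
  have a8 : Nat.card Ω < 4300 := by
    have := Nat.le_of_dvd (by decide) a7
    by_contra h1
    have : 4299 * 4300 ≤ (Nat.card Ω - 1) * Nat.card Ω := Nat.mul_le_mul (by omega) (by omega)
    omega
  have : IsPretransitive G Ω := isPretransitive_of_is_two_pretransitive
  have b1 : ∀ a : Ω, Nat.card Ω * Nat.card (stabilizer G a) = 17971200 := fun a => by
    rw [← index_stabilizer_of_transitive G a, Subgroup.index_mul_card, hG]
  rcases degs _ a8 a6 a7 with e | e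
  · have := Fact.mk Nat.prime_three
    have : Fact (Nat.Prime 13) := ⟨by decide⟩
    have b2 := Equiv.Perm.card_fixedPoints_modEq (f := toEndHom (α := Ω) x) (p := 13) (n := 1) (by
      rw [pow_one, ← map_pow, hx, map_one])
    have b3 : ∀ a, y • a ∈ fixedBy Ω x ↔ a ∈ fixedBy Ω x := fun a => by
      have b4 : ∀ b : Ω, x ^ 3 • b = b ↔ x • b = b := fun b =>
        ⟨fun h => by
          have : (x ^ 3) ^ 9 • b = b := (stabilizer G b).pow_mem h 9
          rwa [← pow_mul, show 3 * 9 = 13 * 2 + 1 from rfl, pow_succ, pow_mul, hx, one_pow, one_mul] at this,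
        fun h => (stabilizer G b).pow_mem h 3⟩
      rw [mem_fixedBy, mem_fixedBy, ← b4, ← mul_smul, ← hxy, mul_smul, smul_left_cancel_iff]
    obtain ⟨a, ha⟩ := Equiv.Perm.exists_fixed_point_of_prime (p := 3) (n := 1) (σ := (toPerm y).subtypePerm b3) (by
      rw [← Nat.card_eq_fintype_card, ← Nat.card_eq_fintype_card, e] at b2
      change 27 % 13 = Nat.card (fixedBy Ω x) % 13 at b2
      rw [← Nat.card_eq_fintype_card]
      change ¬ 3 ∣ Nat.card (fixedBy Ω x)
      omega) (by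
      ext a
      simp [Equiv.Perm.subtypePerm_pow, ← toPermHom_apply, ← map_pow, hy])
    have : Nonempty (fixedBy Ω y) := ⟨⟨a, congrArg Subtype.val ha⟩⟩
    have := Nat.card_pos (α := fixedBy Ω y)
    omega
  · have := h5.le (Ω := Ω) fun a h => by have := b1 a; rcases e with e | e <;> rw [e] at this <;> omega
    omega

theorem not_two_trans' [FaithfulSMul G Ω] {H : Type*} [Group H] (e : G ≃* H) (hH : Nat.card H = 17971200)
    (h : ∃ x y z : H, x ^ 13 = 1 ∧ x ≠ 1 ∧ y ^ 3 = 1 ∧ y ≠ 1 ∧ z ≠ 1 ∧ y * x = x ^ 3 * y ∧ Uni y 27 ∧ Uni z 25) :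
    ¬ IsMultiplyPretransitive G Ω 2 := by
  obtain ⟨x, y, z, h1, h2, h3, h4, h5, h6, h7, h8⟩ := h
  exact not_two_trans ((Nat.card_congr e.toEquiv).trans hH) (x := e.symm x) (by rw [← map_pow, h1, map_one])
    (by simpa using h2) (by rw [← map_pow, h3, map_one]) (by simpa using h4) (by simpa using h5)
    (by rw [← map_pow, ← map_mul, ← map_mul, h6]) (h7.map e.symm) (h8.map e.symm)

end

set_option maxRecDepth 100000 in
theorem data : ∃ x y z : CG.Tits.PG, x ^ 13 = 1 ∧ x ≠ 1 ∧ y ^ 3 = 1 ∧ y ≠ 1 ∧ z ≠ 1 ∧ y * x = x ^ 3 * y ∧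
    Uni y 27 ∧ Uni z 25 := by
  refine ⟨ev Tits.act.gen [42,26,8,20,21,31,42,45], ev Tits.act.gen [8,16,8,17,23,23,31,37,43,42,45],
    ev Tits.act.gen [42,21,11,25,17,23,23,25,31,43,45], ?_, ?_, ?_, ?_, ?_, ?_,
    uni_of_chk Tits.base (nth [[14,23,8,20,18,25,31,37,42],[19,17,11,17,22,25,37,43,42]] []) _
      [([0],[31,15,8,19,38,42,45]),([1],[8,12,24,21,38,37,45]),([0,0],[17,23,8,19,21,25,43]),([1,0],[13,11,8,17,25,31]),([0,1],[43,15,18,22,43]),([1,1],[18,14,8,21,43,42]),([1,0,0],[24,10,8,20,23,43]),([0,1,0],[16,18,23,25,37,43,42]),([1,1,0],[26,15,9,19,25,43,45]),([0,0,1],[18,19,8,22,31,43,42]),([1,0,1],[23,20,9,18,24,21]),([0,1,1],[31,11,10,8,19,24,31,37,42]),([0,1,0,0],[21,32,13,20,21]),([1,1,0,0],[17,9,10,18,31,21]),([0,0,1,0],[8,17,23,23,25,37]),([1,0,1,0],[18,21,11,25,31,42,45]),([0,1,1,0],[21,18,10,20,21,43,45]),([1,1,0,1],[9,11,18,21,25,43]),([1,0,1,1],[43,42,16,18,23,23]),([0,0,1,0,0],[32,21,13,19,31,45]),([1,0,1,0,0],[45,16,10,17,24,45]),([0,1,1,0,0],[21,9,17,17,23,25,45]),([1,1,0,1,0],[45,11,11,19,24,25,37,43]),([1,0,1,1,0],[37,43,42]),([1,1,0,1,0,0],[16,31,10,25,17,21,31,37]),([1,0,1,1,0,0],[23,45,9,24,25,42])]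
      (by decide +kernel) (by decide +kernel) (by decide +kernel) (by decide +kernel),
    uni_of_chk Tits.base (nth [[42,21,11,25,17,23,23,25,31,43,45],[8,18,10,25,18,21,25,31,38,37,43,42]] []) _
      [([0],[26,15,8,22,31,42,45]),([1],[21,8,22,31,43,45]),([0,0],[17,11,20,25,45]),([1,0],[11,17,9,17,22,45]),([1,1],[11,37,8,20,18,23]),([0,0,0],[15,31,21,25,31,42]),([1,0,0],[19,43,11,18,24,21,31]),([1,1,0],[17,21,8,25,18,23]),([1,1,1],[31,18,10,19,22,38,45]),([0,0,0,0],[13,20,13,20,42]),([1,0,0,0],[17,26,13,20,24,31]),([1,1,0,0],[11,17,8,17,17,31,42]),([1,1,1,0],[8,24,10,19,22,38]),([1,1,1,1],[15,37,9,25,17,31,37,42]),([1,0,0,0,0],[19,37,9,17,37]),([1,1,0,0,0],[18,12,21,38,43]),([1,1,1,0,0],[12,17,9,18,31,43]),([1,1,1,1,0],[26,15,9,25,18,31,37,42]),([1,1,0,0,0,0],[22,10,25,18,22,37,43,42]),([1,1,1,0,0,0],[20,12,22,38,42]),([1,1,1,1,0,0],[15,23,9,18,23,38]),([1,1,1,0,0,0,0],[42,10,17,17,23,31,43,45]),([1,1,1,1,0,0,0],[19,42,8,18,25,43,42]),([1,1,1,1,0,0,0,0],[12,14,20,18,21,38,37])]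
      (by decide +kernel) (by decide +kernel) (by decide +kernel) (by decide +kernel)⟩
  · rw [← ev_powL]; exact Tits.base.ev_eq (w := []) (by decide +kernel)
  · exact Tits.act.ev_ne_of_eqW (w := []) Tits.base.1 (by decide +kernel)
  · rw [← ev_powL]; exact Tits.base.ev_eq (w := []) (by decide +kernel)
  · exact Tits.act.ev_ne_of_eqW (w := []) Tits.base.1 (by decide +kernel)
  · exact Tits.act.ev_ne_of_eqW (w := []) Tits.base.1 (by decide +kernel)
  · rw [← ev_powL, ← ev_append, ← ev_append]; exact Tits.base.ev_eq (by decide +kernel)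

/-- The Tits group (the commutator subgroup of ²F₄(2)) has no faithful 2-transitive action on a finite set with more than two points. -/
theorem result {Ω : Type*} [Fintype Ω] [MulAction Cfsg.Lie.TitsGroup Ω] [FaithfulSMul Cfsg.Lie.TitsGroup Ω] (hΩ : 3 ≤ Fintype.card Ω) :
    ¬ MulAction.IsMultiplyPretransitive Cfsg.Lie.TitsGroup Ω 2 := by
  exact LieId.Tits.iso.elim fun e => not_two_trans' e Tits.card data

end Cfsg.Agent.S2197
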