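import Cfsg.Statements.S2207
import Cfsg.Agent.Lib.R3.Main

set_option autoImplicit false
open Cfsg

namespace Cfsg.Agent.S2207

/-- Primitive rank 3 groups whose point stabilizer acts as a Frobenius group on one of its two non-trivial orbits. Let a finite group G of even order act faithfully and primitively on a finite set X so that the stabilizer of a point A has exactly three orbits, and suppose that on one of its non-trivial orbits I the stabilizer of A acts faithfully as a Frobenius group: transitively, some non-identity element fixing a point of I, and no non-identity element fixing two points of I. Then either G ≅ A₅ and X has 10 points (the action on unordered pairs), or G is solvable and has a normal subgroup of order 16 acting regularly on X. -/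
theorem result {G X : Type*} [Group G] [Finite G] [Fintype X] [MulAction G X] [FaithfulSMul G X] (heven : Even (Nat.card G)) (hprim : MulAction.IsPreprimitive G X) (A : X)
    (h3 : Nat.card (MulAction.orbitRel.Quotient ↥(MulAction.stabilizer G A) X) = 3) (B : X) (hBA : B ≠ A)
    (hfaith : ∀ g ∈ MulAction.stabilizer G A, (∀ h ∈ MulAction.stabilizer G A, g • (h • B) = h • B) → g = 1)
    (hfix : ∃ g ∈ MulAction.stabilizer G A, g ≠ 1 ∧ g • B = B)
    (hfrob : ∀ g ∈ MulAction.stabilizer G A, ∀ h ∈ MulAction.stabilizer G A, g • B = B → g • (h • B) = h • B → h • B ≠ B → g = 1) :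
    (Nonempty (G ≃* ↥(alternatingGroup (Fin 5))) ∧ Fintype.card X = 10) ∨
    (IsSolvable G ∧ ∃ N : Subgroup G, N.Normal ∧ Nat.card N = 16 ∧ ∀ x y : X, ∃! n : ↥N, (n : G) • x = y) := by
  exact R3.main heven hprim A h3 B hBA hfix hfrob

end Cfsg.Agent.S2207
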