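import Cfsg.Statements.S2209
import Cfsg.Agent.Lib.Chev.Char2

set_option autoImplicit false
open Cfsg

namespace Cfsg.Agent.S2209

open Cfsg.Agent.ChevM Cfsg.Agent.Chev

/-- Centralizer of a long root involution in the Chevalley groups of type E₆, E₇, E₈ over a finite field F of characteristic two. Let G be the group generated by the root elements, U the subgroup generated by the positive root subgroups, r the highest root (the last root index: 71, 125, 239 respectively), and t the element of G with matrix x_r(1). Then the centralizer of t in G is the subgroup generated by U together with the root subgroups X_{−p} for the fundamental roots p orthogonal to r — all fundamental roots except p₂ for E₆, except p₁ for E₇, except p₈ for E₈ (numbering with p₁–p₃–p₄–…–p_l the long chain and p₂ joined to p₄); the indices of these negative fundamental roots are 15, 29, 32, 34, 35 (E₆), 47, 52, 56, 59, 61, 62 (E₇), 77, 98, 104, 109, 113, 116, 118 (E₈). (This is the unipotent radical of the corresponding maximal parabolic subgroup extended by the root subgroups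 of its Levi factor, of type A₅, D₆, E₇ respectively.) -/
theorem result {F : Type*} [Field F] [Fintype F] [CharP F 2] (d : Cfsg.Lie.ChevalleyDatum × List ℕ)
    (hd : d ∈ [(Cfsg.Lie.chevE6, [15, 29, 32, 34, 35]), (Cfsg.Lie.chevE7, [47, 52, 56, 59, 61, 62]), (Cfsg.Lie.chevE8, [77, 98, 104, 109, 113, 116, 118])])
    (t : GL d.1.Idx F) (ht : (t : Matrix d.1.Idx d.1.Idx F) = d.1.x F (d.1.nroots - 1) 1) :
    d.1.group F ⊓ Subgroup.centralizer {t} = d.1.posUnipotent F ⊔ Subgroup.closure {g : GL d.1.Idx F | ∃ s ∈ d.2, ∃ c : F, (g : Matrix d.1.Idx d.1.Idx F) = d.1.x F s c} := by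
  have key : ∀ (D : Cfsg.Lie.ChevalleyDatum) [GoodM D] [SLaced D] (c : TabCert) (_ : KeyOK D c) (L : List ℕ),
      allL L (fun s => Nat.blt s D.nroots) = true →
      centB D c (otS D.nroots c) [D.nroots - 1] [D.nroots - 1] (fun s => Nat.ble D.nroots (2 * s) || memL s L)
        (fun _ => 1) (fun _ _ => 1) [] = true → ∀ t : GL D.Idx F, (t : Matrix D.Idx D.Idx F) = D.x F (D.nroots - 1) 1 →
      D.group F ⊓ Subgroup.centralizer {t} = D.posUnipotent F ⊔ Subgroup.closure
        {g : GL D.Idx F | ∃ s ∈ L, ∃ c : F, (g : Matrix D.Idx D.Idx F) = D.x F s c} := by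
    intro D _ _ c hc L hL h t ht
    have h1 := cent_of_check hc (ot_S F hc) h
    rw [prN_cons, prN_nil, mul_one] at h1
    have e : {g : GL D.Idx F | ∃ s ∈ L, ∃ c : F, (g : Matrix D.Idx D.Idx F) = D.x F s c} =
        {g : GL D.Idx F | ∃ (s : ℕ) (c : F), s ∈ L ∧ (g : Matrix D.Idx D.Idx F) = D.x F s c} := by ext; simp
    rw [eq_xU_iff.mp ht, ← xG_coe, inf_centralizer_eq, h1, ← map_U, e,
      ← map_US (· ∈ L) (by simpa [allL_iff] using hL), ← Subgroup.map_sup, PreRGD.U, ← USub_union]
    congr 2
    ext s
    simp [rs_isPos_iff_le]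
  simp only [List.mem_cons, List.not_mem_nil, or_false] at hd
  rcases hd with rfl | rfl | rfl
  · exact key _ _ keyOK_E6 _ (by decide +kernel) (by decide +kernel) t ht
  · exact key _ _ keyOK_E7 _ (by decide +kernel) (by decide +kernel) t ht
  · exact key _ _ keyOK_E8 _ (by decide +kernel) (by decide +kernel) t ht

end Cfsg.Agent.S2209
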