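import Cfsg.Statements.S2212
import Cfsg.Agent.Lib.AIC.UMat

set_option autoImplicit false
open Cfsg

namespace Cfsg.Agent.S2212

open Cfsg.Agent.AIC

/-- Characterization of the three-dimensional projective unitary groups over finite fields of characteristic two by the centralizer of an involution. Let q = 2^n > 2 and let PGU₃(q) be the quotient of the full unitary group of a non-degenerate Hermitian form in three variables over the field with q² elements by its centre. Let G be a finite group of even order in which all involutions are conjugate, the centralizer of an involution is isomorphic to the centralizer of an involution in PGU₃(q), and a Sylow 2-subgroup is not normal. Then G ≅ PGU₃(q). -/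
theorem result {G : Type*} [Group G] [Finite G] {F : Type*} [Field F] [Fintype F] [CharP F 2] (q : ℕ) (hq : 2 < q) (hF : Fintype.card F = q ^ 2)
    (heven : Even (Nat.card G)) (hconj : ∀ s t : G, orderOf s = 2 → orderOf t = 2 → IsConj s t)
    (hC : ∀ (x : G) (y : (↥(Cfsg.GU 3 F q) ⧸ Subgroup.center ↥(Cfsg.GU 3 F q))), orderOf x = 2 → orderOf y = 2 →
      Nonempty (↥(Subgroup.centralizer ({x} : Set G)) ≃* ↥(Subgroup.centralizer ({y} : Set (↥(Cfsg.GU 3 F q) ⧸ Subgroup.center ↥(Cfsg.GU 3 F q))))))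
    (hS : ∀ P : Sylow 2 G, ¬ (P : Subgroup G).Normal) :
    Nonempty (G ≃* (↥(Cfsg.GU 3 F q) ⧸ Subgroup.center ↥(Cfsg.GU 3 F q))) := by
  have : Fact (Nat.Prime 2) := ⟨Nat.prime_two⟩
  obtain ⟨hI, hD⟩ := fd_frobq hq hF
  obtain ⟨e⟩ := exists_GU_equiv hD
  let e' := Forms.centerQuotEquiv e
  have hy : orderOf (e' (φ0 y0)) = 2 := by
    rw [MulEquiv.orderOf_eq]
    exact isInv_iff.1 ((mod_φ0 hD.tr).isInv_iff.2 y0_inv)
  have hy' : Mod (e' (φ0 y0)) (e'.toMonoidHom.comp φ0) := by
    refine ⟨e'.injective.comp (mod_φ0 hD.tr).inj, fun g => ?_⟩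
    obtain ⟨g, rfl⟩ := e'.surjective g
    refine Iff.trans ⟨fun h => by simpa using h.map e'.symm, fun h => h.map e'⟩
      (((mod_φ0 hD.tr).mem g).trans (exists_congr fun x => e'.injective.eq_iff.symm))
  have hM : ∀ u : G, IsInv u → ∃ φ : M (Forms.frobq hF) →* G, Mod u φ := fun u hu =>
    hy'.transport (hC u _ (isInv_iff.1 hu) hy).some
  obtain ⟨x, hx⟩ := exists_prime_orderOf_dvd_card' 2 heven.two_dvd
  obtain ⟨S⟩ := exists_setup hD hM (exists_not_commute hM hS)
  obtain ⟨u, v, hu, hv, huv⟩ := nc_φ0 hD.tr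
  obtain ⟨S'⟩ := exists_setup hD (fun u hu => hy'.transport ((hC x u hx (isInv_iff.1 hu)).some.symm.trans
    (hC x _ hx hy).some)) ⟨e' u, e' v, isInv_iff.2 (by rw [MulEquiv.orderOf_eq]; exact isInv_iff.1 hu),
      isInv_iff.2 (by rw [MulEquiv.orderOf_eq]; exact isInv_iff.1 hv),
      fun h => huv (by simpa using h.map e'.symm)⟩
  exact S.nonempty_equiv S'

end Cfsg.Agent.S2212
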