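import Cfsg.Statements.S2214
import Cfsg.Agent.Lib.Chev.Misc

set_option autoImplicit false
open Cfsg

namespace Cfsg.Agent.S2214

open Cfsg.Agent.ChevM Cfsg.Agent.Chev Cfsg.Lie

theorem conj_mem_of_fixed {D : ChevalleyDatum} [GoodM D] {F : Type*} [Field F] (φ : F →+* F)
    {K : Subgroup (D.group F)} (h1 : ∀ (r : Fin D.nroots) (t : F), φ t = t → xG D F r t ∈ K)
    (h2 : ∀ g ∈ K, fm D φ g = g) {g : D.group F} (hg : fm D φ g = g) {k : D.group F} (hk : k ∈ K) :
    g * k * g⁻¹ ∈ K := by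
  let L : Subgroup (D.group F) := Subgroup.closure {x | ∃ (r : Fin D.nroots) (t : F), φ t = t ∧ x = xG D F r t}
  have hLK : L ≤ K := (Subgroup.closure_le _).2 (by rintro _ ⟨r, t, ht, rfl⟩; exact h1 r t ht)
  have hx : ∀ (r : Fin D.nroots) (t : F), φ t = t → xG D F r t ∈ L := fun r t ht =>
    Subgroup.subset_closure ⟨r, t, ht, rfl⟩
  have dec : ∀ g : D.group F, fm D φ g = g → ∃ u ∈ L, ∃ h ∈ (PG D F).H, ∃ v ∈ L, fm D φ h = h ∧ g = u * h * v := by
    intro g hg
    obtain ⟨w, hw, u, hu, h, hh, v, hv, e1, e2, e3, e⟩ := bruhat_of_fm_eq φ hg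
    refine ⟨u, mem_of_fm_eq φ RSys.halfSpace_pos RSys.closed_pos hu e1 fun r _ => hx r, h, hh, (PG D F).nW w * v,
      mul_mem (nw_mem_of fun j _ => ?_) (mem_of_fm_eq φ RSys.halfSpace_pos RSys.closed_pos
        ((PG D F).Uw_le_U w hv) e3 fun r _ => hx r), e2, by rw [e, mul_assoc]⟩
    rw [PG_n, ← rs_simple_val, nElt_eq]
    exact mul_mem (mul_mem (hx _ _ (by simp)) (hx _ _ (by simp))) (hx _ _ (by simp))
  have hL : ∀ h ∈ (PG D F).H, fm D φ h = h → ∀ l ∈ L, h * l * h⁻¹ ∈ L := by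
    intro h hh e l hl
    induction hl using Subgroup.closure_induction with
    | mem x hx' =>
      obtain ⟨r, t, ht, rfl⟩ := hx'
      have e2 : fm D φ (h * xG D F r t * h⁻¹) = h * xG D F r t * h⁻¹ := by
        simp only [map_mul, map_inv, e, fm_xG, ht]
      obtain ⟨a, rfl⟩ := mem_H_iff.1 hh
      rw [hG_conj_xG] at e2 ⊢
      rw [fm_xG] at e2
      exact hx _ _ (xG_injective r.2 e2)
    | one => simp
    | mul x y _ _ a b => simpa [mul_assoc] using mul_mem a b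
    | inv x _ a => simpa [mul_assoc] using inv_mem a
  obtain ⟨u, hu, h, hh, v, hv, e, rfl⟩ := dec g hg
  have h3 := mul_mem (mul_mem (hLK hv) hk) (inv_mem (hLK hv))
  obtain ⟨u', hu', h', hh', v', hv', -, e'⟩ := dec _ (h2 _ h3)
  have h4 : h' ∈ K := by
    have := mul_mem (mul_mem (inv_mem (hLK hu')) h3) (inv_mem (hLK hv'))
    rw [e'] at this; simpa [mul_assoc] using this
  have h5 := mul_mem (mul_mem (hLK (hL h hh e _ hu')) h4) (hLK (hL h hh e _ hv'))
  have e3 : h * u' * h⁻¹ * h' * (h * v' * h⁻¹) = h * (v * k * v⁻¹) * h⁻¹ := by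
    rw [e', mul_assoc (h * u') h⁻¹, H_comm (inv_mem hh) hh']; simp [mul_assoc]
  rw [e3] at h5
  simpa [mul_assoc] using mul_mem (mul_mem (hLK hu) h5) (inv_mem (hLK hu))

/-- Let k be an algebraically closed field of prime characteristic p, G the adjoint Chevalley group of type G₂, B₂, D₄, F₄, E₆, E₇ or E₈ over k (the matrix group generated by the root elements x_s(t), t ∈ k, acting on the Lie algebra), q = p^a with a ≥ 1, and K a subgroup of G containing every root element x_s(t) with t^q = t and consisting of matrices all of whose entries c satisfy c^q = c. Then the centralizer of K in G is trivial, and the normalizer of K in G is exactly the set of elements of G all of whose entries c satisfy c^q = c. -/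
theorem result {k : Type*} [Field k] [IsAlgClosed k] (p : ℕ) [Fact p.Prime] [CharP k p] (D : Cfsg.Lie.ChevalleyDatum) (hD : D ∈ [Cfsg.Lie.chevG2, Cfsg.Lie.chevB2, Cfsg.Lie.chevD4, Cfsg.Lie.chevF4, Cfsg.Lie.chevE6, Cfsg.Lie.chevE7, Cfsg.Lie.chevE8]) (a : ℕ) (ha : 1 ≤ a) (K : Subgroup (GL D.Idx k)) (hKG : K ≤ D.group k)
    (hLK : Subgroup.closure {g : GL D.Idx k | ∃ (s : ℕ) (t : k), t ^ (p ^ a) = t ∧ (g : Matrix D.Idx D.Idx k) = D.x k s t} ≤ K)
    (hKfix : ∀ g ∈ K, ∀ i j : D.Idx, ((g : Matrix D.Idx D.Idx k) i j) ^ (p ^ a) = (g : Matrix D.Idx D.Idx k) i j) :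
    D.group k ⊓ Subgroup.centralizer (K : Set (GL D.Idx k)) = ⊥ ∧
    ∀ g : GL D.Idx k, g ∈ D.group k → (g ∈ Subgroup.normalizer (K : Set (GL D.Idx k)) ↔ ∀ i j : D.Idx, ((g : Matrix D.Idx D.Idx k) i j) ^ (p ^ a) = (g : Matrix D.Idx D.Idx k) i j) := by
  have := goodM_of_tab hD
  let φ : k →+* k := iterateFrobenius k p a
  have hφ : ∀ g : D.group k, fm D φ g = g ↔
      ∀ i j : D.Idx, ((g : GL D.Idx k) : Matrix D.Idx D.Idx k) i j ^ (p ^ a) = ((g : GL D.Idx k) : Matrix D.Idx D.Idx k) i j := by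
    intro g
    rw [← mat_injective.eq_iff, mat_fm, ← Matrix.ext_iff]; rfl
  have hfix : ∀ g : D.group k, (g : GL D.Idx k) ∈ K → fm D φ g = g := fun g hg => (hφ g).2 (hKfix g hg)
  have hx : ∀ (r : ℕ) (t : k), φ t = t → xU D k r t ∈ K := fun r t ht =>
    hLK (Subgroup.subset_closure ⟨r, t, ht, rfl⟩)
  have h1 : ∀ g : D.group k, (∀ x : D.group k, (x : GL D.Idx k) ∈ K → x * g = g * x) → g = 1 := fun g hg =>
    eq_one_of_commute (fun i => ⟨1, one_ne_zero, (hg _ (hx _ 1 (map_one φ))).symm⟩)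
      (fun i => ⟨1, one_ne_zero, (hg _ (hx _ 1 (map_one φ))).symm⟩)
  refine ⟨eq_bot_iff.2 fun g hg => congrArg Subtype.val (h1 ⟨g, hg.1⟩ fun x hx =>
    Subtype.ext (Subgroup.mem_centralizer_iff.1 hg.2 x hx)), fun g hg => ?_⟩
  obtain ⟨g, rfl⟩ : ∃ g' : D.group k, (g' : GL D.Idx k) = g := ⟨⟨g, hg⟩, rfl⟩
  rw [← hφ g]
  constructor
  · intro hn
    have := h1 (g⁻¹ * fm D φ g) fun x hxK => by
      have h3 := hfix (g * x * g⁻¹) ((Subgroup.mem_normalizer_iff.1 hn x).1 hxK)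
      rw [map_mul, map_mul, map_inv, hfix x hxK, mul_inv_eq_iff_eq_mul] at h3
      rw [mul_assoc, h3]; simp [mul_assoc]
    rw [inv_mul_eq_one] at this
    exact this.symm
  · intro hf
    have key : ∀ g : D.group k, fm D φ g = g → ∀ x ∈ K, (g : GL D.Idx k) * x * (g : GL D.Idx k)⁻¹ ∈ K :=
      fun g hg x hxK => conj_mem_of_fixed φ (K := K.subgroupOf (D.group k)) (fun r t ht => hx r t ht)
        hfix hg (k := ⟨x, hKG hxK⟩) hxK
    refine Subgroup.mem_normalizer_iff.2 fun x => ⟨key _ hf x, fun h => ?_⟩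
    simpa [mul_assoc] using key g⁻¹ (by rw [map_inv, hf]) _ h

end Cfsg.Agent.S2214
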