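import Cfsg.Statements.S2221
import Cfsg.Agent.Lib.Alt.Sylow2Max

set_option autoImplicit false
open Cfsg

namespace Cfsg.Agent.S2221

open Equiv Equiv.Perm Cfsg.Agent.Alt

section
variable {α : Type*} [DecidableEq α] [Fintype α]

/-- orbit relation -/
def Rel (Q : Subgroup (Perm α)) (x y : α) : Prop := ∃ g ∈ Q, g x = y

lemma Rel.refl (Q : Subgroup (Perm α)) (x : α) : Rel Q x x := ⟨1, one_mem _, rfl⟩
lemma Rel.symm {Q : Subgroup (Perm α)} {x y : α} (h : Rel Q x y) : Rel Q y x := by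
  obtain ⟨g, hg, rfl⟩ := h; exact ⟨g⁻¹, inv_mem hg, by simp⟩
lemma Rel.trans {Q : Subgroup (Perm α)} {x y z : α} (h : Rel Q x y) (h' : Rel Q y z) : Rel Q x z := by
  obtain ⟨g, hg, rfl⟩ := h; obtain ⟨k, hk, rfl⟩ := h'; exact ⟨k * g, mul_mem hk hg, rfl⟩
lemma rel_inv {Q : Subgroup (Perm α)} (x : α) : ∀ g ∈ Q, ∀ y, Rel Q x (g y) ↔ Rel Q x y :=
  fun g hg y => ⟨fun h => h.trans (Rel.symm ⟨g, hg, rfl⟩), fun h => h.trans ⟨g, hg, rfl⟩⟩

/-- points whose orbit is bigger than a pair -/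
def Big (Q : Subgroup (Perm α)) (τ : Perm α) (x : α) : Prop := ∃ g ∈ Q, g x ≠ x ∧ g x ≠ τ x

open Classical in
/-- restriction of a permutation to an invariant set -/
noncomputable def res (g : Perm α) (p : α → Prop) (h : ∀ x, p (g x) ↔ p x) : Perm α :=
  ofSubtype (g.subtypePerm h)

lemma res_pos {g : Perm α} {p : α → Prop} (h : ∀ x, p (g x) ↔ p x) {x : α} (hx : p x) :
    res g p h x = g x := by classical exact ofSubtype_subtypePerm_of_mem h hx
lemma res_neg {g : Perm α} {p : α → Prop} (h : ∀ x, p (g x) ↔ p x) {x : α} (hx : ¬ p x) :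
    res g p h x = x := by classical exact ofSubtype_subtypePerm_of_not_mem h hx

lemma res_mem (Q : Sylow 2 (Perm α)) {g : Perm α} (hg : g ∈ (Q : Subgroup (Perm α))) {p : α → Prop}
    (hp : ∀ g ∈ (Q : Subgroup (Perm α)), ∀ x, p (g x) ↔ p x) : res g p (hp g hg) ∈ (Q : Subgroup (Perm α)) := by
  let R : Subgroup (Perm α) :=
    { carrier := {c | ∀ x, ∃ q ∈ (Q : Subgroup (Perm α)), ∀ y, Rel Q x y → c y = q y}
      one_mem' := fun x => ⟨1, one_mem _, fun _ _ => rfl⟩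
      mul_mem' := by
        intro a b ha hb x
        obtain ⟨q, hq, h1⟩ := ha x
        obtain ⟨r, hr, h2⟩ := hb x
        refine ⟨q * r, mul_mem hq hr, fun y hy => ?_⟩
        rw [Perm.mul_apply, h2 y hy, h1 _ ((rel_inv x r hr y).2 hy), Perm.mul_apply]
      inv_mem' := by
        intro a ha x
        obtain ⟨q, hq, h1⟩ := ha x
        refine ⟨q⁻¹, inv_mem hq, fun y hy => ?_⟩
        rw [Perm.inv_eq_iff_eq, h1 _ ((rel_inv x _ (inv_mem hq) y).2 hy)]; simp }
  have hR : IsPGroup 2 R := by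
    obtain ⟨k, hk⟩ := IsPGroup.iff_card.1 Q.2
    intro c
    refine ⟨k, Subtype.ext (Perm.ext fun x => ?_)⟩
    obtain ⟨q, hq, h1⟩ := c.2 x
    have : ∀ m : ℕ, (c.1 ^ m) x = (q ^ m) x := by
      intro m
      induction m with
      | zero => rfl
      | succ m ih => rw [pow_succ', pow_succ', Perm.mul_apply, ih, h1 _ ⟨_, pow_mem hq m, rfl⟩, Perm.mul_apply]
    have h2 : q ^ 2 ^ k = 1 := by
      rw [← hk]; exact congrArg Subtype.val (pow_card_eq_one' (x := (⟨q, hq⟩ : (Q : Subgroup (Perm α)))))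
    rw [Subgroup.coe_pow, this, h2]; rfl
  rw [← Q.is_maximal' hR (fun q hq x => ⟨q, hq, fun _ _ => rfl⟩)]
  intro x
  by_cases hx : p x
  · refine ⟨g, hg, ?_⟩
    rintro _ ⟨q, hq, rfl⟩
    exact res_pos _ ((hp q hq x).2 hx)
  · refine ⟨1, one_mem _, ?_⟩
    rintro _ ⟨q, hq, rfl⟩
    exact res_neg _ (fun h => hx ((hp q hq x).1 h))

variable {Q : Sylow 2 (Perm α)} {τ : Perm α} (h : IsMatch (Q : Subgroup (Perm α)) τ)
include h

lemma memE {c : Perm α} (hc : ∀ x, c x = x ∨ c x = τ x) : c ∈ (Q : Subgroup (Perm α)) := by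
  let E : Subgroup (Perm α) :=
    { carrier := {c | ∀ x, c x = x ∨ c x = τ x}
      one_mem' := fun x => Or.inl rfl
      mul_mem' := by
        intro a b ha hb x
        rw [Perm.mul_apply]
        rcases hb x with h1 | h1 <;> rw [h1]
        · exact ha x
        · rw [← h.invol x, h.invol (τ x)]; exact (ha (τ x)).symm
      inv_mem' := by
        intro a ha x
        rcases ha (a⁻¹ x) with h1 | h1
        · left; rw [← h1]; simp
        · right; rw [← h.invol (a⁻¹ x), ← h1]; simp }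
  have hE : IsPGroup 2 E := by
    intro c
    refine ⟨1, Subtype.ext (Perm.ext fun x => ?_)⟩
    change c.1 (c.1 x) = x
    rcases c.2 x with h1 | h1
    · rw [h1, h1]
    · rcases c.2 (τ x) with h2 | h2
      · rw [← c.1.injective (h1.trans h2.symm)] at h1; rw [h1, h1]
      · rw [h1, h2, h.invol]
  have hn : (Q : Subgroup (Perm α)) ≤ Subgroup.normalizer (E : Set (Perm α)) := by
    have k : ∀ g ∈ (Q : Subgroup (Perm α)), ∀ c ∈ E, g * c * g⁻¹ ∈ E := by
      intro g hg c hc x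
      rw [Perm.mul_apply, Perm.mul_apply]
      rcases hc (g⁻¹ x) with h1 | h1 <;> rw [h1]
      · left; simp
      · right; rw [h.comm g hg]; simp
    intro g hg c
    refine ⟨k g hg c, fun hc => ?_⟩
    simpa [mul_assoc] using k g⁻¹ (inv_mem hg) _ hc
  rw [← Q.is_maximal' (Q.2.to_sup_of_normal_right' hE hn) le_sup_left]
  exact Subgroup.mem_sup_right hc

lemma tau_mem : τ ∈ (Q : Subgroup (Perm α)) := memE h fun _ => Or.inr rfl

lemma big_ne {x : α} (hx : Big Q τ x) : τ x ≠ x := fun e => by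
  obtain ⟨g, hg, h1, -⟩ := hx
  exact h1 (h.apply_fix e hg)

lemma big_inv : ∀ g ∈ (Q : Subgroup (Perm α)), ∀ x, Big Q τ (g x) ↔ Big Q τ x := by
  have k : ∀ g ∈ (Q : Subgroup (Perm α)), ∀ x, Big Q τ x → Big Q τ (g x) := by
    rintro g hg x ⟨q, hq, h1, h2⟩
    refine ⟨g * q * g⁻¹, mul_mem (mul_mem hg hq) (inv_mem hg), by simpa using h1, ?_⟩
    rw [← h.comm g hg]; simpa using h2
  intro g hg x
  exact ⟨fun hx => by simpa using k g⁻¹ (inv_mem hg) _ hx, k g hg x⟩

omit h in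
open Classical in
lemma card_orb (x : α) : ∃ k, (Finset.univ.filter (Rel Q x)).card = 2 ^ k := by
  obtain ⟨k, hk⟩ := Q.2.card_orbit (α := α) x
  refine ⟨k, ?_⟩
  rw [← hk, ← Fintype.card_subtype, ← Nat.card_eq_fintype_card]
  exact Nat.card_congr (Equiv.subtypeEquivRight fun y =>
    ⟨fun ⟨g, hg, e⟩ => ⟨⟨g, hg⟩, e⟩, fun ⟨g, e⟩ => ⟨g, g.2, e⟩⟩)

lemma four_dvd (T : Finset α) (hT : ∀ g ∈ (Q : Subgroup (Perm α)), ∀ x ∈ T, g x ∈ T)
    (hB : ∀ x ∈ T, Big Q τ x) : 4 ∣ T.card := by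
  classical
  induction T using Finset.strongInduction with
  | H T ih =>
    rcases T.eq_empty_or_nonempty with rfl | ⟨x, hx⟩
    · simp
    have hsub : Finset.univ.filter (Rel Q x) ⊆ T := by
      intro y hy
      obtain ⟨g, hg, rfl⟩ := (Finset.mem_filter.1 hy).2
      exact hT g hg x hx
    have h1 := ih (T \ Finset.univ.filter (Rel Q x))
      (Finset.sdiff_ssubset hsub ⟨x, by simp [Rel.refl]⟩) (by
        intro g hg y hy
        simp only [Finset.mem_sdiff, Finset.mem_filter, Finset.mem_univ, true_and] at hy ⊢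
        exact ⟨hT g hg y hy.1, by rw [rel_inv x g hg]; exact hy.2⟩)
      (fun y hy => hB y (Finset.mem_sdiff.1 hy).1)
    have h2 : 4 ∣ (Finset.univ.filter (Rel Q x)).card := by
      obtain ⟨k, hk⟩ := card_orb (Q := Q) x
      obtain ⟨g, hg, e1, e2⟩ := hB x hx
      have : 2 < (Finset.univ.filter (Rel Q x)).card := Finset.two_lt_card_iff.2
        ⟨x, τ x, g x, by simp [Rel.refl], by simpa using ⟨τ, tau_mem h, rfl⟩, by simpa using ⟨g, hg, rfl⟩,
          (big_ne h (hB x hx)).symm, e1.symm, e2.symm⟩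
      rw [hk] at this ⊢
      rcases k with _ | _ | k
      · omega
      · omega
      · exact ⟨2 ^ k, by ring⟩
    rw [← Finset.card_sdiff_add_card_eq_card hsub]
    exact dvd_add h1 h2

lemma small_unique {x y : α} (hx : ¬ Big Q τ x) (hx' : τ x ≠ x) (hy : ¬ Big Q τ y) (hy' : τ y ≠ y) :
    y = x ∨ y = τ x := by
  by_contra hcon
  push Not at hcon
  have k : ∀ z, ¬ Big Q τ z → ∀ g ∈ (Q : Subgroup (Perm α)), g z = z ∨ g z = τ z := by
    intro z hz g hg
    by_contra hc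
    push Not at hc
    exact hz ⟨g, hg, hc⟩
  have k2 : ∀ g ∈ (Q : Subgroup (Perm α)), ∀ z ∈ ({x, τ x, y, τ y} : Finset α),
      g z ∈ ({x, τ x, y, τ y} : Finset α) := by
    intro g hg z hz
    simp only [Finset.mem_insert, Finset.mem_singleton] at hz ⊢
    rcases hz with rfl | rfl | rfl | rfl
    · rcases k _ hx g hg with e | e <;> simp [e]
    · rcases k _ hx g hg with e | e <;> simp [h.comm g hg, e, h.invol]
    · rcases k _ hy g hg with e | e <;> simp [e]
    · rcases k _ hy g hg with e | e <;> simp [h.comm g hg, e, h.invol]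
  have h1 : τ y ≠ x := fun e => hcon.2 (by rw [← e, h.invol])
  have h2 : τ y ≠ τ x := fun e => hcon.1 (τ.injective e)
  obtain ⟨g, hg, e⟩ := exists_trans_on Q {x, τ x, y, τ y}
    (fun g hg z => ⟨fun hz => by simpa using k2 g⁻¹ (inv_mem hg) _ hz, k2 g hg z⟩) (k := 2)
    (by rw [Finset.card_insert_of_notMem (by simp [hx'.symm, hcon.1.symm, h1.symm]),
      Finset.card_insert_of_notMem (by simp [hcon.2.symm, h2.symm]), Finset.card_pair hy'.symm]; rfl)
    (a := x) (b := y) (by simp) (by simp)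
  rcases k x hx g hg with e' | e'
  · exact hcon.1 (e.symm.trans e')
  · exact hcon.2 (e.symm.trans e')

open Classical in
lemma count : (Finset.univ.filter (Big Q τ)).card = 4 * (Fintype.card α / 4) ∧
    ((∃ u, ¬ Big Q τ u ∧ τ u ≠ u) ↔ (Fintype.card α % 4 = 2 ∨ Fintype.card α % 4 = 3)) := by
  have h4 := four_dvd h (Finset.univ.filter (Big Q τ)) (fun g hg x hx => by
    simp only [Finset.mem_filter, Finset.mem_univ, true_and] at hx ⊢
    exact (big_inv h g hg x).2 hx) (fun x hx => (Finset.mem_filter.1 hx).2)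
  have h1 := Finset.card_filter_add_card_filter_not (s := Finset.univ) (Big Q τ)
  have h2 := Finset.card_filter_add_card_filter_not (s := Finset.univ.filter fun x => ¬ Big Q τ x)
    (fun x => τ x = x)
  have h3 : ((Finset.univ.filter fun x => ¬ Big Q τ x).filter fun x => τ x = x).card ≤ 1 :=
    Finset.card_le_one.2 fun a ha b hb => h.fix a b (Finset.mem_filter.1 ha).2 (Finset.mem_filter.1 hb).2
  rw [Finset.card_univ] at h1
  by_cases hu : ∃ u, ¬ Big Q τ u ∧ τ u ≠ u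
  · obtain ⟨u, hu, hu'⟩ := id hu
    have : ((Finset.univ.filter fun x => ¬ Big Q τ x).filter fun x => ¬ τ x = x) = {u, τ u} := by
      ext y
      simp only [Finset.mem_filter, Finset.mem_univ, true_and, Finset.mem_insert, Finset.mem_singleton]
      refine ⟨fun hy => small_unique h hu hu' hy.1 hy.2, ?_⟩
      rintro (rfl | rfl)
      · exact ⟨hu, hu'⟩
      · exact ⟨by rwa [big_inv h τ (tau_mem h)], by rw [h.invol]; exact hu'.symm⟩
    rw [this, Finset.card_pair hu'.symm] at h2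
    simp only [‹∃ u, _›, true_iff]
    omega
  · have : ((Finset.univ.filter fun x => ¬ Big Q τ x).filter fun x => ¬ τ x = x) = ∅ := by
      rw [Finset.filter_eq_empty_iff]
      intro y hy hy'
      exact hu ⟨y, (Finset.mem_filter.1 hy).2, hy'⟩
    rw [this, Finset.card_empty] at h2
    simp only [hu, false_iff]
    omega

open Classical in
lemma one_orbit_iff (h4 : 4 ≤ Fintype.card α) : (∀ x y, Big Q τ x → Big Q τ y → Rel Q x y) ↔
    ∃ r, 4 * (Fintype.card α / 4) = 2 ^ r := by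
  rw [← (count h).1]
  constructor
  · intro hh
    obtain ⟨x, hx⟩ := Finset.card_pos.1 (show 0 < (Finset.univ.filter (Big Q τ)).card by
      rw [(count h).1]; omega)
    have hx := (Finset.mem_filter.1 hx).2
    obtain ⟨k, hk⟩ := card_orb (Q := Q) x
    refine ⟨k, ?_⟩
    rw [← hk]
    congr 1
    ext y
    simp only [Finset.mem_filter, Finset.mem_univ, true_and]
    refine ⟨hh x y hx, ?_⟩
    rintro ⟨g, hg, rfl⟩
    exact (big_inv h g hg x).2 hx
  · rintro ⟨r, hr⟩ x y hx hy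
    exact exists_trans_on Q _ (fun g hg z => by
      simp only [Finset.mem_filter, Finset.mem_univ, true_and]; exact big_inv h g hg z) hr
      (by simpa using hx) (by simpa using hy)

lemma sw_apply {x z : α} (h1 : z ≠ x) (h2 : z ≠ τ x) : swap x (τ x) z = z := swap_apply_of_ne_of_ne h1 h2

lemma sw_cases (x z : α) : swap x (τ x) z = z ∨ swap x (τ x) z = τ z := by
  by_cases h1 : z = x
  · right; rw [h1, swap_apply_left]
  by_cases h2 : z = τ x
  · right; rw [h2, swap_apply_right, h.invol]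
  · left; exact swap_apply_of_ne_of_ne h1 h2

/-- the two pairs are different -/
lemma dbl_apply {x y : α} (h1 : x ≠ y) (h2 : x ≠ τ y) : (swap x (τ x) * swap y (τ y)) x = τ x := by
  rw [Perm.mul_apply, swap_apply_of_ne_of_ne h1 h2, swap_apply_left]

lemma dbl_moves {x y z : α} (hz : (swap x (τ x) * swap y (τ y)) z ≠ z) :
    z = x ∨ z = τ x ∨ z = y ∨ z = τ y := by
  by_contra hc
  push Not at hc
  exact hz (by rw [Perm.mul_apply, swap_apply_of_ne_of_ne hc.2.2.1 hc.2.2.2,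
    swap_apply_of_ne_of_ne hc.1 hc.2.1])

lemma dbl_mem {x y : α} (hx : τ x ≠ x) (hy : τ y ≠ y) :
    swap x (τ x) * swap y (τ y) ∈ (Q : Subgroup (Perm α)) ∧ sign (swap x (τ x) * swap y (τ y)) = 1 :=
  ⟨mul_mem (h.swap_mem x) (h.swap_mem y), sign_swap_mul_swap hx.symm hy.symm⟩

lemma comm_dbl {x y : α} (hx : τ x ≠ x) (h1 : x ≠ y) (h2 : x ≠ τ y) {c : Perm α}
    (hc : Commute c (swap x (τ x) * swap y (τ y))) : c x = x ∨ c x = τ x ∨ c x = y ∨ c x = τ y := by
  apply dbl_moves h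
  rw [← Perm.mul_apply, ← hc.eq, Perm.mul_apply, dbl_apply h h1 h2]
  exact fun e => hx (c.injective e)

/-- the center in the case of one big orbit -/
lemma central_eq (h6 : 6 ≤ Fintype.card α) (hone : ∀ x y, Big Q τ x → Big Q τ y → Rel Q x y)
    {c : Perm α} (hcQ : c ∈ (Q : Subgroup (Perm α))) (hs : sign c = 1)
    (hc : ∀ p ∈ (Q : Subgroup (Perm α)), sign p = 1 → Commute c p) :
    c = 1 ∨ ∀ x, Big Q τ x → c x = τ x := by
  have h1 : ∀ x, τ x ≠ x → c x = x ∨ c x = τ x := by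
    intro x hx
    obtain ⟨y, hy, hy1, hy2⟩ := h.exists_avoid {x} (by simp; omega)
    obtain ⟨w, hw, hw1, hw2⟩ := h.exists_avoid {x, y} (by
      have := Finset.card_le_two (a := x) (b := y); omega)
    simp only [Finset.mem_insert, Finset.mem_singleton, not_or] at hy1 hy2 hw1 hw2
    have k1 := comm_dbl h hx (Ne.symm hy1) (Ne.symm hy2) (hc _ (dbl_mem h hx hy).1 (dbl_mem h hx hy).2)
    have k2 := comm_dbl h hx (Ne.symm hw1.1) (Ne.symm hw2.1) (hc _ (dbl_mem h hx hw).1 (dbl_mem h hx hw).2)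
    rcases k1 with k1 | k1 | k1 | k1
    · exact Or.inl k1
    · exact Or.inr k1
    · rcases k2 with k2 | k2 | k2 | k2
      exacts [Or.inl k2, Or.inr k2, absurd (k2.symm.trans k1) hw1.2, absurd (k2.symm.trans k1) hw2.2]
    · rcases k2 with k2 | k2 | k2 | k2
      · exact Or.inl k2
      · exact Or.inr k2
      · exact absurd (by rw [← k2, k1, h.invol]) hw2.2
      · exact absurd (τ.injective (k2.symm.trans k1)) hw1.2
  by_cases hb : ∃ x, Big Q τ x ∧ c x = x
  · left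
    obtain ⟨x, hx, hcx⟩ := hb
    have h2 : ∀ y, Big Q τ y → c y = y := by
      intro y hy
      obtain ⟨g, hg, rfl⟩ := hone x y hx hy
      obtain ⟨q, hq, hsq, e⟩ := h.exists_even (by omega) hg x
      rw [← e, ← Perm.mul_apply, (hc q hq hsq).eq, Perm.mul_apply, hcx]
    by_contra hne
    obtain ⟨u, hu⟩ : ∃ u, c u ≠ u := by
      by_contra hh; push Not at hh; exact hne (Perm.ext hh)
    have hu1 : τ u ≠ u := fun e => hu (h.apply_fix e hcQ)
    have hu2 : ¬ Big Q τ u := fun e => hu (h2 u e)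
    have hu3 := (h1 u hu1).resolve_left hu
    have : c = swap u (τ u) := by
      ext z
      by_cases e1 : z = u
      · rw [e1, swap_apply_left, hu3]
      by_cases e2 : z = τ u
      · rw [e2, swap_apply_right, h.comm c hcQ, hu3, h.invol]
      rw [swap_apply_of_ne_of_ne e1 e2]
      by_cases e3 : Big Q τ z
      · exact h2 z e3
      by_cases e4 : τ z = z
      · exact h.apply_fix e4 hcQ
      · rcases small_unique h hu2 hu1 e3 e4 with e | e
        exacts [absurd e e1, absurd e e2]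
    rw [this, sign_swap hu1.symm] at hs
    exact absurd hs (by decide)
  · right
    push Not at hb
    exact fun x hx => (h1 x (big_ne h hx)).resolve_left (hb x hx)

end

/-- a direct decomposition of the even part of `Q` -/
structure Dec {α : Type*} [DecidableEq α] [Fintype α] (Q S T : Subgroup (Perm α)) : Prop where
  le₁ : ∀ a ∈ S, a ∈ Q ∧ sign a = 1
  le₂ : ∀ a ∈ T, a ∈ Q ∧ sign a = 1
  comm : ∀ a ∈ S, ∀ b ∈ T, Commute a b
  inf : ∀ a ∈ S, a ∈ T → a = 1
  sup : ∀ p ∈ Q, sign p = 1 → ∃ a ∈ S, ∃ b ∈ T, p = a * b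

section
variable {α : Type*} [DecidableEq α] [Fintype α]

lemma Dec.symm {Q S T : Subgroup (Perm α)} (D : Dec Q S T) : Dec Q T S :=
  ⟨D.le₂, D.le₁, fun a ha b hb => (D.comm b hb a ha).symm, fun a ha hb => D.inf a hb ha,
    fun p hp hs => by
      obtain ⟨a, ha, b, hb, e⟩ := D.sup p hp hs
      exact ⟨b, hb, a, ha, e.trans (D.comm a ha b hb).eq⟩⟩

lemma Dec.conj_mem {Q S T : Subgroup (Perm α)} (D : Dec Q S T) {p a : Perm α} (hp : p ∈ Q)
    (hs : sign p = 1) (ha : a ∈ S) : p * a * p⁻¹ ∈ S := by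
  obtain ⟨a', ha', b, hb, rfl⟩ := D.sup p hp hs
  have : a' * b * a * (a' * b)⁻¹ = a' * a * a'⁻¹ := by
    rw [mul_assoc a', ← (D.comm a ha b hb).eq]; group
  rw [this]
  exact mul_mem (mul_mem ha' ha) (inv_mem ha')

variable {Q : Sylow 2 (Perm α)} {τ : Perm α} (h : IsMatch (Q : Subgroup (Perm α)) τ)
  {S T : Subgroup (Perm α)} (D : Dec (Q : Subgroup (Perm α)) S T)

include D in
lemma Dec.exists_central (hS : S ≠ ⊥) :
    ∃ c ∈ S, c ≠ 1 ∧ ∀ p ∈ (Q : Subgroup (Perm α)), sign p = 1 → Commute c p := by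
  have hP : IsPGroup 2 S := Q.2.to_le fun a ha => (D.le₁ a ha).1
  have : Nontrivial S := (Subgroup.nontrivial_iff_ne_bot S).2 hS
  have := hP.center_nontrivial
  obtain ⟨c, hc⟩ := exists_ne (1 : Subgroup.center S)
  refine ⟨c.1.1, c.1.2, fun e => hc (Subtype.ext (Subtype.ext e)), fun p hp hs => ?_⟩
  obtain ⟨a, ha, b, hb, rfl⟩ := D.sup p hp hs
  exact Commute.mul_right (congrArg Subtype.val (Subgroup.mem_center_iff.1 c.2 ⟨a, ha⟩)).symm
    (D.comm _ c.1.2 b hb)

include h D in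
lemma indec_one (h6 : 6 ≤ Fintype.card α) (hone : ∀ x y, Big Q τ x → Big Q τ y → Rel Q x y)
    (hS : S ≠ ⊥) (hT : T ≠ ⊥) : False := by
  obtain ⟨c, hc, hc1, hc2⟩ := D.exists_central hS
  obtain ⟨d, hd, hd1, hd2⟩ := D.symm.exists_central hT
  have e1 := (central_eq h h6 hone (D.le₁ c hc).1 (D.le₁ c hc).2 hc2).resolve_left hc1
  have e2 := (central_eq h h6 hone (D.le₂ d hd).1 (D.le₂ d hd).2 hd2).resolve_left hd1
  rcases central_eq h h6 hone (mul_mem (D.le₁ c hc).1 (D.le₂ d hd).1)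
    (by rw [Perm.sign_mul, (D.le₁ c hc).2, (D.le₂ d hd).2, one_mul])
    (fun p hp hs => (hc2 p hp hs).mul_left (hd2 p hp hs)) with e | e
  · exact hc1 (D.inf c hc (by rw [eq_inv_of_mul_eq_one_left e]; exact inv_mem hd))
  · classical
    obtain ⟨x, hx⟩ := Finset.card_pos.1 (show 0 < (Finset.univ.filter (Big Q τ)).card by
      rw [(count h).1]; omega)
    have hx := (Finset.mem_filter.1 hx).2
    have := e x hx
    rw [Perm.mul_apply, e2 x hx, e1 _ ((big_inv h τ (tau_mem h) x).2 hx), h.invol] at this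
    exact big_ne h hx this.symm

/-- `c` acts on the orbit of `x` as `1` or as `τ` -/
def CenAt (Q : Subgroup (Perm α)) (τ c : Perm α) (x : α) : Prop :=
  (∀ y, Rel Q x y → c y = y) ∨ (∀ y, Rel Q x y → c y = τ y)

include h D in
lemma cenAt_of_pairs (h4 : 4 ≤ Fintype.card α) {x : α}
    (hT : ∀ b ∈ T, ∀ y, Rel Q x y → b y = y ∨ b y = τ y) : ∀ b ∈ T, CenAt Q τ b x := by
  intro b hb
  have hbQ := (D.le₂ b hb).1
  have key : ∀ y, Rel Q x y → ∃ a ∈ S, y = a x ∨ y = a (τ x) := by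
    rintro _ ⟨g, hg, rfl⟩
    obtain ⟨q, hq, hsq, e⟩ := h.exists_even h4 hg x
    obtain ⟨a, ha, b', hb', rfl⟩ := D.sup q hq hsq
    refine ⟨a, ha, ?_⟩
    rw [← e, Perm.mul_apply]
    rcases hT b' hb' x (Rel.refl _ _) with e | e <;> simp [e]
  have hc : ∀ a ∈ S, ∀ z, b (a z) = a (b z) := fun a ha z => by
    rw [← Perm.mul_apply, ← (D.comm a ha b hb).eq, Perm.mul_apply]
  rcases hT b hb x (Rel.refl _ _) with e | e
  · left
    intro y hy
    obtain ⟨a, ha, rfl | rfl⟩ := key y hy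
    · rw [hc a ha, e]
    · rw [hc a ha, h.comm b hbQ, e]
  · right
    intro y hy
    obtain ⟨a, ha, rfl | rfl⟩ := key y hy
    · rw [hc a ha, e, h.comm a (D.le₁ a ha).1]
    · rw [hc a ha, h.comm b hbQ, e, h.comm a (D.le₁ a ha).1]

include h D in
lemma moves_all (h4 : 4 ≤ Fintype.card α) {x y : α} (hxy : Rel Q y x) {a : Perm α} (ha : a ∈ S)
    (h1 : a y ≠ y) (h2 : a y ≠ τ y) : ∃ a ∈ S, a x ≠ x ∧ a x ≠ τ x := by
  obtain ⟨g, hg, rfl⟩ := hxy
  obtain ⟨q, hq, hsq, e⟩ := h.exists_even h4 hg y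
  rw [← e]
  refine ⟨q * a * q⁻¹, D.conj_mem hq hsq ha, by simpa using h1, ?_⟩
  rw [← h.comm q hq]; simpa using h2

include h D in
lemma not_both_aux {x y : α} (hx : τ x ≠ x) (hy : τ y ≠ y) (hxy : ¬ Rel Q x y) {a b a' b' : Perm α}
    (ha : a ∈ S) (hb : b ∈ T) (ha' : a' ∈ S) (hb' : b' ∈ T)
    (a1 : a x ≠ x) (a2 : a x ≠ τ x) (b1 : b x ≠ x) (b2 : b x ≠ τ x)
    (e : swap x (τ x) * swap y (τ y) = a' * b') (hb'x : b' x = x) : False := by
  have haQ := (D.le₁ a ha).1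
  have hbQ := (D.le₂ b hb).1
  have hne : ∀ z, Rel Q x z → z ≠ y ∧ z ≠ τ y := fun z hz =>
    ⟨fun e => hxy (e ▸ hz), fun e => hxy ((rel_inv x τ (tau_mem h) y).1 (e ▸ hz))⟩
  have hd : ∀ z, Rel Q x z → z ≠ x → z ≠ τ x → (swap x (τ x) * swap y (τ y)) z = z := fun z hz h1 h2 => by
    rw [Perm.mul_apply, swap_apply_of_ne_of_ne (hne z hz).1 (hne z hz).2, swap_apply_of_ne_of_ne h1 h2]
  have hdx := dbl_apply h (hne x (Rel.refl _ _)).1 (hne x (Rel.refl _ _)).2
  set d := swap x (τ x) * swap y (τ y) with hdd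
  have hdQ := dbl_mem h hx hy
  have ha'x : a' x = τ x := by rw [← hdx, e, Perm.mul_apply, hb'x]
  -- the commutator
  have hw : d * a * d⁻¹ * a⁻¹ ∈ S := mul_mem (D.conj_mem hdQ.1 hdQ.2 ha) (inv_mem ha)
  have hdinv : d⁻¹ = d := by
    rw [inv_eq_iff_mul_eq_one]
    have := memE h (c := d) (fun z => by
      rw [hdd, Perm.mul_apply]
      rcases sw_cases h y z with e | e <;> rw [e]
      · exact sw_cases h x z
      · rcases sw_cases h x (τ z) with e | e <;> rw [e]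
        · exact Or.inr rfl
        · exact Or.inl (h.invol z))
    have hc : Commute (swap x (τ x)) (swap y (τ y)) := by
      apply Perm.Disjoint.commute
      apply disjoint_swap_swap
      have := hne x (Rel.refl _ _)
      have := hne (τ x) ⟨τ, tau_mem h, rfl⟩
      simp [*, hx.symm, hy.symm]
    rw [hdd, mul_assoc, ← mul_assoc (swap y (τ y)), ← hc.eq]
    simp [mul_assoc]
  have hax : Rel Q x (a⁻¹ x) := ⟨_, inv_mem haQ, rfl⟩
  -- `b x` lies in the pair of `a x`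
  have hbx : b x = a x ∨ b x = τ (a x) := by
    by_contra hc
    push Not at hc
    have hr : Rel Q x (b x) := ⟨b, hbQ, rfl⟩
    have e1 : (d * a * d⁻¹ * a⁻¹) (b x) = b x := by
      rw [hdinv, Perm.mul_apply, Perm.mul_apply, Perm.mul_apply,
        hd (a⁻¹ (b x)) ((rel_inv x _ (inv_mem haQ) _).2 hr) (fun e => hc.1 (Perm.inv_eq_iff_eq.1 e))
          (fun e => hc.2 (by rw [← h.comm a haQ]; exact Perm.inv_eq_iff_eq.1 e))]
      rw [papply_inv]
      exact hd _ hr b1 b2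
    have e2 : (d * a * d⁻¹ * a⁻¹) x = τ x := by
      rw [hdinv, Perm.mul_apply, Perm.mul_apply, Perm.mul_apply,
        hd (a⁻¹ x) hax (fun e => a1 (Perm.inv_eq_iff_eq.1 e).symm)
          (fun e => a2 (by rw [← h.invol (a x), ← h.comm a haQ, ← Perm.inv_eq_iff_eq.1 e]))]
      rw [papply_inv]
      exact hdx
    rw [← Perm.mul_apply, (D.comm _ hw b hb).eq, Perm.mul_apply, e2] at e1
    exact hx (b.injective e1)
  have e3 : b' (a x) = a x := by rw [← Perm.mul_apply, ← (D.comm a ha b' hb').eq, Perm.mul_apply, hb'x]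
  have e4 : b' (b x) = b x := by
    rcases hbx with e | e <;> rw [e]
    · exact e3
    · rw [h.comm b' (D.le₂ b' hb').1, e3]
  have e5 : a' (b x) = b (τ x) := by rw [← Perm.mul_apply, (D.comm a' ha' b hb).eq, Perm.mul_apply, ha'x]
  have e6 := hd (b x) ⟨b, hbQ, rfl⟩ b1 b2
  rw [e, Perm.mul_apply, e4, e5] at e6
  exact hx (b.injective e6)

include h D in
lemma cen_or (h4 : 4 ≤ Fintype.card α) {x y : α} (hy : τ y ≠ y) (hxy : ¬ Rel Q x y) :
    (∀ a ∈ S, CenAt Q τ a x) ∨ (∀ b ∈ T, CenAt Q τ b x) := by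
  by_contra hc
  rw [not_or] at hc
  obtain ⟨a, ha, a1, a2⟩ : ∃ a ∈ S, a x ≠ x ∧ a x ≠ τ x := by
    have := mt (cenAt_of_pairs h D.symm h4) hc.1
    push Not at this
    obtain ⟨a, ha, z, hz, h1, h2⟩ := this
    exact moves_all h D h4 hz.symm ha h1 h2
  obtain ⟨b, hb, b1, b2⟩ : ∃ a ∈ T, a x ≠ x ∧ a x ≠ τ x := by
    have := mt (cenAt_of_pairs h D h4) hc.2
    push Not at this
    obtain ⟨a, ha, z, hz, h1, h2⟩ := this
    exact moves_all h D.symm h4 hz.symm ha h1 h2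
  have hx : τ x ≠ x := fun e => a1 (h.apply_fix e (D.le₁ a ha).1)
  obtain ⟨a', ha', b', hb', e⟩ := D.sup _ (dbl_mem h hx hy).1 (dbl_mem h hx hy).2
  have hne : ∀ z, Rel Q x z → z ≠ y ∧ z ≠ τ y := fun z hz =>
    ⟨fun e => hxy (e ▸ hz), fun e => hxy ((rel_inv x τ (tau_mem h) y).1 (e ▸ hz))⟩
  have h0 := hne x (Rel.refl _ _)
  have hb'x : b' x = x ∨ b' x = τ x := by
    have hcm : Commute b' (swap x (τ x) * swap y (τ y)) := by
      rw [e]; exact (D.comm a' ha' b' hb').symm.mul_right (Commute.refl _)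
    have := hne (b' x) ⟨b', (D.le₂ b' hb').1, rfl⟩
    have := comm_dbl h hx h0.1 h0.2 hcm
    tauto
  rcases hb'x with e1 | e1
  · exact not_both_aux h D hx hy hxy ha hb ha' hb' a1 a2 b1 b2 e e1
  · refine not_both_aux h D.symm hx hy hxy hb ha hb' ha' b1 b2 a1 a2 (e.trans (D.comm a' ha' b' hb').eq) ?_
    have := dbl_apply h h0.1 h0.2
    rw [e, Perm.mul_apply, e1, h.comm a' (D.le₁ a' ha').1] at this
    exact τ.injective this

include h in
lemma sign_cen (hns : ∀ u, τ u ≠ u → Big Q τ u) {c : Perm α} (hc : ∀ x, CenAt Q τ c x) : sign c = 1 := by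
  classical
  have h1 : ∀ x, c x = x ∨ c x = τ x := fun x => (hc x).imp (fun e => e x (Rel.refl _ _)) (fun e => e x (Rel.refl _ _))
  have h2 : c ^ 2 = 1 := by
    ext x
    rw [sq, Perm.mul_apply]
    rcases hc x with e | e
    · rw [e x (Rel.refl _ _), e x (Rel.refl _ _)]; rfl
    · rw [e x (Rel.refl _ _), e _ ⟨τ, tau_mem h, rfl⟩, h.invol]; rfl
  have h3 := four_dvd h c.support (fun g hg x hx => by
    rw [mem_support] at hx ⊢
    have e := (hc x).resolve_left fun e => hx (e x (Rel.refl _ _))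
    rw [e _ ⟨g, hg, rfl⟩, ← h.comm g hg, ← e x (Rel.refl _ _)]
    exact fun e => hx (g.injective e)) (fun x hx => by
    rw [mem_support] at hx
    exact hns x (by rw [← (h1 x).resolve_left hx]; exact hx))
  rw [sign_of_pow_two_eq_one h2, card_fixedPoints, Nat.sub_sub_self, sum_cycleType]
  · obtain ⟨k, hk⟩ := h3
    rw [hk, show 4 * k / 2 = 2 * k by omega, pow_mul]; simp
  · rw [sum_cycleType]; exact Finset.card_le_univ _

include h D in
lemma not_mixed (hns : ∀ u, τ u ≠ u → Big Q τ u) (hall : ∀ x, (∀ a ∈ S, CenAt Q τ a x) ∨ (∀ b ∈ T, CenAt Q τ b x))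
    {x y : α} (hx : ¬ ∀ b ∈ T, CenAt Q τ b x) (hy : ¬ ∀ a ∈ S, CenAt Q τ a y) : False := by
  let U : α → Prop := fun z => ∀ a ∈ S, CenAt Q τ a z
  have hcen : ∀ c z w, Rel Q z w → CenAt Q τ c z → CenAt Q τ c w := fun c z w hzw hc =>
    hc.imp (fun e v hv => e v (hzw.trans hv)) (fun e v hv => e v (hzw.trans hv))
  have hU : ∀ g ∈ (Q : Subgroup (Perm α)), ∀ z, U (g z) ↔ U z := fun g hg z =>
    ⟨fun e a ha => hcen a _ _ (Rel.symm ⟨g, hg, rfl⟩) (e a ha), fun e a ha => hcen a _ _ ⟨g, hg, rfl⟩ (e a ha)⟩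
  have hU' : ∀ g ∈ (Q : Subgroup (Perm α)), ∀ z, ¬ U (g z) ↔ ¬ U z := fun g hg z => not_congr (hU g hg z)
  have hxU : U x := (hall x).resolve_right hx
  have hfix : ∀ z, τ z = z → ∀ c ∈ (Q : Subgroup (Perm α)), CenAt Q τ c z := fun z hz c hc => Or.inl (by
    rintro _ ⟨g, hg, rfl⟩; rw [h.apply_fix hz hg, h.apply_fix hz hc])
  have hx' : τ x ≠ x := fun e => hx fun b hb => hfix x e b (D.le₂ b hb).1
  have hy' : τ y ≠ y := fun e => hy fun b hb => hfix y e b (D.le₁ b hb).1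
  obtain ⟨a, ha, b, hb, e⟩ := D.sup _ (dbl_mem h hx' hy').1 (dbl_mem h hx' hy').2
  have haQ := (D.le₁ a ha).1
  have hbQ := (D.le₂ b hb).1
  have hτ := hU τ (tau_mem h)
  have e1 : a * res b (fun z => ¬ U z) (hU' b hbQ) = res a _ (hU a haQ) * swap y (τ y) := by
    ext z
    rw [Perm.mul_apply, Perm.mul_apply]
    by_cases hz : U z
    · rw [res_neg (p := fun z => ¬ U z) (hU' b hbQ) (not_not.2 hz), swap_apply_of_ne_of_ne (x := z) (a := y) (b := τ y)
        (fun e => hy (e ▸ hz)) (fun e => hy ((hτ y).1 (e ▸ hz))), res_pos _ hz]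
    · have hz' : ¬ U (swap y (τ y) z) := (hU' _ (h.swap_mem y) z).2 hz
      rw [res_pos (p := fun z => ¬ U z) (hU' b hbQ) hz, res_neg (hU a haQ) hz', ← Perm.mul_apply, ← e, Perm.mul_apply,
        swap_apply_of_ne_of_ne (x := swap y (τ y) z) (a := x) (b := τ x)
          (fun e => hz' (e ▸ hxU)) (fun e => hz' (e ▸ (hτ x).2 hxU))]
  have s1 : sign (res b (fun z => ¬ U z) (hU' b hbQ)) = 1 := sign_cen h hns fun z => by
    by_cases hz : U z
    · left; rintro _ ⟨g, hg, rfl⟩; exact res_neg _ (not_not.2 ((hU g hg z).2 hz))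
    · refine ((hall z).resolve_left hz b hb).imp ?_ ?_ <;> rintro e _ ⟨g, hg, rfl⟩ <;>
        rw [res_pos (p := fun z => ¬ U z) (hU' b hbQ) ((hU' g hg z).2 hz), e _ ⟨g, hg, rfl⟩]
  have s2 : sign (res a _ (hU a haQ)) = 1 := sign_cen h hns fun z => by
    by_cases hz : U z
    · refine (hz a ha).imp ?_ ?_ <;> rintro e _ ⟨g, hg, rfl⟩ <;>
        rw [res_pos _ ((hU g hg z).2 hz), e _ ⟨g, hg, rfl⟩]
    · left; rintro _ ⟨g, hg, rfl⟩; exact res_neg _ ((hU' g hg z).2 hz)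
  have := congrArg sign e1
  rw [Perm.sign_mul, Perm.sign_mul, s1, s2, (D.le₁ a ha).2, sign_swap hy'.symm] at this
  exact absurd this (by decide)

include h D in
lemma comm_mem (hT : ∀ b ∈ T, ∀ x, CenAt Q τ b x) {g e : Perm α} (hg : g ∈ (Q : Subgroup (Perm α)))
    (hg' : sign g = 1) (he : e ∈ (Q : Subgroup (Perm α))) (he' : sign e = 1) : g * e * g⁻¹ * e⁻¹ ∈ S := by
  obtain ⟨a, ha, b, hb, rfl⟩ := D.sup g hg hg'
  have hc : Commute b e := by
    ext x
    rw [Perm.mul_apply, Perm.mul_apply]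
    rcases hT b hb x with e1 | e1 <;> rw [e1 _ ⟨e, he, rfl⟩, e1 x (Rel.refl _ _)]
    rw [h.comm e he]
  have : a * b * e * (a * b)⁻¹ * e⁻¹ = a * (e * a⁻¹ * e⁻¹) := by
    rw [mul_assoc a, hc.eq]; group
  rw [this]
  exact mul_mem ha (D.conj_mem he he' (inv_mem ha))

include h D in
lemma z_mem (hT : ∀ b ∈ T, ∀ x, CenAt Q τ b x) {x y : α} (hx : Big Q τ x) (hy : τ y ≠ y)
    (hxy : ¬ Rel Q x y) : res τ _ (rel_inv x τ (tau_mem h)) ∈ S := by
  let L : Subgroup (Q : Subgroup (Perm α)) :=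
    { carrier := {g | g.1 x = x ∨ g.1 x = τ x}
      one_mem' := Or.inl rfl
      mul_mem' := by
        rintro a b ha (hb | hb) <;> simp only [Set.mem_ofPred_eq, Subgroup.coe_mul, Perm.mul_apply, hb]
        · exact ha
        · rw [h.comm _ a.2]; rcases ha with e | e <;> simp [e, h.invol]
      inv_mem' := by
        rintro a (ha | ha) <;> simp only [Set.mem_ofPred_eq, Subgroup.coe_inv, Perm.inv_eq_iff_eq]
        · exact Or.inl ha.symm
        · right; rw [h.comm _ a.2, ha, h.invol] }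
  have hL : L ≠ ⊤ := by
    obtain ⟨g, hg, h1, h2⟩ := hx
    intro e
    rcases (e ▸ Subgroup.mem_top (⟨g, hg⟩ : (Q : Subgroup (Perm α))) : _ ∈ L) with e | e
    exacts [h1 e, h2 e]
  obtain ⟨K, hLK, hK⟩ := exists_index_prime_ge Q.2 hL
  let H : α → Prop := fun z => ∃ k ∈ K, k.1 x = z
  have hstab : ∀ g : (Q : Subgroup (Perm α)), H (g.1 x) ↔ g ∈ K := by
    refine fun g => ⟨?_, fun hg => ⟨g, hg, rfl⟩⟩
    rintro ⟨k, hk, e⟩
    have : k⁻¹ * g ∈ K := hLK (Or.inl (by simp [← e]))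
    simpa using mul_mem hk this
  have hτK : (⟨τ, tau_mem h⟩ : (Q : Subgroup (Perm α))) ∈ K := hLK (Or.inr rfl)
  have hHτ : ∀ z, H (τ z) ↔ H z := by
    have k : ∀ z, H z → H (τ z) := by
      rintro _ ⟨k, hk, rfl⟩; exact ⟨_, mul_mem hτK hk, rfl⟩
    exact fun z => ⟨fun e => by simpa [h.invol] using k _ e, k z⟩
  obtain ⟨g0, hg0⟩ : ∃ g0, g0 ∉ K := by
    by_contra hc; push Not at hc
    rw [(Subgroup.eq_top_iff' K).2 hc] at hK; simp at hK
  have hyne : ∀ z, Rel Q x z → z ≠ y ∧ z ≠ τ y := fun z hz =>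
    ⟨fun e => hxy (e ▸ hz), fun e => hxy ((rel_inv x τ (tau_mem h) y).1 (e ▸ hz))⟩
  obtain ⟨g, hgQ, hgs, hgK, hgy⟩ : ∃ g, ∃ hg : g ∈ (Q : Subgroup (Perm α)), sign g = 1 ∧ ⟨g, hg⟩ ∉ K ∧
      ∀ z, ¬ Rel Q x z → g z = z := by
    have h1 := res_mem Q g0.2 (rel_inv x)
    have h2 : (⟨_, h1⟩ : (Q : Subgroup (Perm α))) ∉ K := by
      rw [← hstab] at hg0 ⊢
      rwa [res_pos _ (Rel.refl _ _)]
    rcases Int.units_eq_one_or (sign (res g0.1 _ (rel_inv x _ g0.2))) with e | e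
    · exact ⟨_, h1, e, h2, fun z hz => res_neg _ hz⟩
    · refine ⟨_, mul_mem h1 (h.swap_mem x), by rw [Perm.sign_mul, e, sign_swap (big_ne h hx).symm]; simp,
        fun hk => h2 ?_, fun z hz => ?_⟩
      · have : (⟨_, h.swap_mem x⟩ : (Q : Subgroup (Perm α))) ∈ K := hLK (Or.inr (by simp))
        exact (Subgroup.mul_mem_cancel_right K this).1 hk
      · rw [Perm.mul_apply, swap_apply_of_ne_of_ne (x := z) (fun e => hz (e ▸ Rel.refl _ _))
          (fun e => hz ⟨τ, tau_mem h, e.symm⟩), res_neg _ hz]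
  have hHR : ∀ z, H z → Rel Q x z := by rintro _ ⟨k, -, rfl⟩; exact ⟨k, k.2, rfl⟩
  obtain ⟨e, hes, he1, he2, he3⟩ : ∃ e : Perm α, sign e = 1 ∧ (∀ z, e z = z ∨ e z = τ z) ∧
      (∀ z, H z → e z = τ z) ∧ (∀ z, Rel Q x z → ¬ H z → e z = z) := by
    have k0 : ∀ z, res τ H hHτ z = z ∨ res τ H hHτ z = τ z := fun z => by
      by_cases hz : H z
      exacts [Or.inr (res_pos _ hz), Or.inl (res_neg _ hz)]
    rcases Int.units_eq_one_or (sign (res τ H hHτ)) with e | e
    · exact ⟨_, e, k0, fun z hz => res_pos _ hz, fun z _ hz => res_neg _ hz⟩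
    · refine ⟨res τ H hHτ * swap y (τ y), by rw [Perm.sign_mul, e, sign_swap hy.symm]; simp, fun z => ?_,
        fun z hz => ?_, fun z hz hz' => ?_⟩
      · rw [Perm.mul_apply]
        rcases sw_cases h y z with e | e <;> rw [e]
        · exact k0 z
        · rcases k0 (τ z) with e | e <;> rw [e]
          exacts [Or.inr rfl, Or.inl (h.invol z)]
      · rw [Perm.mul_apply, swap_apply_of_ne_of_ne (hyne z (hHR z hz)).1 (hyne z (hHR z hz)).2, res_pos _ hz]
      · rw [Perm.mul_apply, swap_apply_of_ne_of_ne (hyne z hz).1 (hyne z hz).2, res_neg _ hz']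
  have heQ := memE h he1
  convert comm_mem h D hT (inv_mem hgQ) (by rw [Perm.sign_inv, hgs]) (inv_mem heQ)
    (by rw [Perm.sign_inv, hes]) using 1
  rw [inv_inv, inv_inv]
  ext z
  simp only [Perm.mul_apply]
  rw [eq_comm, Perm.inv_eq_iff_eq, Perm.inv_eq_iff_eq]
  by_cases hz : Rel Q x z
  · rw [res_pos _ hz]
    obtain ⟨q, hq, rfl⟩ := hz
    have hgq : H (g (q x)) ↔ ¬ H (q x) := by
      rw [← Perm.mul_apply, hstab ⟨g * q, mul_mem hgQ hq⟩, hstab ⟨q, hq⟩]
      have := (Subgroup.mul_mem_iff_of_index_two hK (a := ⟨g, hgQ⟩) (b := ⟨q, hq⟩))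
      change (⟨g, hgQ⟩ * ⟨q, hq⟩ : (Q : Subgroup (Perm α))) ∈ K ↔ _
      rw [this]; tauto
    by_cases hH : H (q x)
    · rw [he2 _ hH, he3 (g (τ (q x))) ⟨g * τ * q, mul_mem (mul_mem hgQ (tau_mem h)) hq, rfl⟩]
      rw [h.comm g hgQ, hHτ, hgq]; exact not_not.2 hH
    · rw [he3 _ ⟨q, hq, rfl⟩ hH, he2 (g (τ (q x))) (by rw [h.comm g hgQ, hHτ, hgq]; exact hH),
        h.comm g hgQ, h.invol]
  · rw [res_neg _ hz, hgy z hz, hgy _ (by rw [rel_inv x e heQ]; exact hz)]

include h D in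
lemma cen_mem (hns : ∀ u, τ u ≠ u → Big Q τ u) (htwo : ∀ x, ∃ y, τ y ≠ y ∧ ¬ Rel Q x y)
    (hT : ∀ b ∈ T, ∀ x, CenAt Q τ b x) (c : Perm α) (hc : ∀ x, CenAt Q τ c x) : c ∈ S := by
  induction hn : c.support.card using Nat.strong_induction_on generalizing c with
  | _ n ih =>
    by_cases h1 : c = 1
    · rw [h1]; exact one_mem _
    obtain ⟨x, hx⟩ : ∃ x, c x ≠ x := by
      by_contra hh; push Not at hh; exact h1 (Perm.ext hh)
    have e := (hc x).resolve_left fun e => hx (e x (Rel.refl _ _))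
    obtain ⟨y, hy, hxy⟩ := htwo x
    have hz := z_mem h D hT (hns x (by rw [← e x (Rel.refl _ _)]; exact hx)) hy hxy
    have k1 : ∀ z, Rel Q x z → (c * res τ _ (rel_inv x τ (tau_mem h))) z = z := fun z hz => by
      rw [Perm.mul_apply, res_pos _ hz, e _ ((rel_inv x τ (tau_mem h) z).2 hz), h.invol]
    have k2 : ∀ z, ¬ Rel Q x z → (c * res τ _ (rel_inv x τ (tau_mem h))) z = c z := fun z hz => by
      rw [Perm.mul_apply, res_neg _ hz]
    refine (Subgroup.mul_mem_cancel_right S hz).1 (ih _ ?_ _ (fun z => ?_) rfl)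
    · rw [← hn]
      apply Finset.card_lt_card
      refine ⟨fun z hz => ?_, fun hsub => ?_⟩
      · rw [mem_support] at hz ⊢
        rwa [k2 z (fun hr => hz (k1 z hr))] at hz
      · exact mem_support.1 (hsub (mem_support.2 hx)) (k1 x (Rel.refl _ _))
    · by_cases hr : Rel Q x z
      · exact Or.inl fun w hw => k1 w (hr.trans hw)
      · refine (hc z).imp ?_ ?_ <;> intro e w hw <;> rw [k2 w (fun hh => hr (hh.trans hw.symm)), e w hw]

include h D in
lemma indec_two (h4 : 4 ≤ Fintype.card α) (hns : ∀ u, τ u ≠ u → Big Q τ u)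
    (htwo : ¬ ∀ x y, Big Q τ x → Big Q τ y → Rel Q x y) (hS : S ≠ ⊥) (hT : T ≠ ⊥) : False := by
  have htwo' : ∀ x, ∃ y, τ y ≠ y ∧ ¬ Rel Q x y := by
    intro x
    by_contra hc
    push Not at hc
    exact htwo fun y z hy hz => (hc y (big_ne h hy)).symm.trans (hc z (big_ne h hz))
  have hall : ∀ x, (∀ a ∈ S, CenAt Q τ a x) ∨ (∀ b ∈ T, CenAt Q τ b x) := fun x => by
    obtain ⟨y, hy, hxy⟩ := htwo' x
    exact cen_or h D h4 hy hxy
  by_cases h1 : ∀ x, ∀ b ∈ T, CenAt Q τ b x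
  · exact hT ((Subgroup.eq_bot_iff_forall T).2 fun b hb =>
      D.inf b (cen_mem h D hns htwo' (fun b hb x => h1 x b hb) b (fun x => h1 x b hb)) hb)
  by_cases h2 : ∀ x, ∀ b ∈ S, CenAt Q τ b x
  · exact hS ((Subgroup.eq_bot_iff_forall S).2 fun b hb =>
      D.inf b hb (cen_mem h D.symm hns htwo' (fun b hb x => h2 x b hb) b (fun x => h2 x b hb)))
  obtain ⟨x, hx⟩ := not_forall.1 h1
  obtain ⟨y, hy⟩ := not_forall.1 h2
  exact not_mixed h D hns hall hx hy

/-- even elements of `Q` fixing the big points satisfying `p` -/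
def fixer (Q : Subgroup (Perm α)) (p : α → Prop) : Subgroup (Perm α) where
  carrier := {g | g ∈ Q ∧ sign g = 1 ∧ ∀ z, p z → g z = z}
  one_mem' := ⟨one_mem _, by simp, fun _ _ => rfl⟩
  mul_mem' := fun {a b} ha hb => ⟨mul_mem ha.1 hb.1, by rw [Perm.sign_mul, ha.2.1, hb.2.1, one_mul],
    fun z hz => by rw [Perm.mul_apply, hb.2.2 z hz, ha.2.2 z hz]⟩
  inv_mem' := fun {a} ha => ⟨inv_mem ha.1, by rw [Perm.sign_inv, ha.2.1],
    fun z hz => by rw [Perm.inv_eq_iff_eq, ha.2.2 z hz]⟩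

include h in
lemma exists_dec {u x y : α} (hu : ¬ Big Q τ u) (hu' : τ u ≠ u) (hx : Big Q τ x) (hy : Big Q τ y)
    (hxy : ¬ Rel Q x y) : ∃ S T, S ≠ ⊥ ∧ T ≠ ⊥ ∧ Dec (Q : Subgroup (Perm α)) S T := by
  have hτ := tau_mem h
  have hsm : ∀ z, ¬ Big Q τ z → ∀ g ∈ (Q : Subgroup (Perm α)), (g u = u ∧ g z = z) ∨ (g u = τ u ∧ g z = τ z) := by
    intro z hz g hg
    have hgu : g u = u ∨ g u = τ u := by
      by_contra hc; push Not at hc; exact hu ⟨g, hg, hc⟩
    by_cases e : τ z = z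
    · rw [e, h.apply_fix e hg]; tauto
    · rcases small_unique h hu hu' hz e with rfl | rfl
      · tauto
      · rw [h.comm g hg]; rcases hgu with e | e <;> simp [e]
  have hbig : ∀ z, Rel Q x z → Big Q τ z := by rintro _ ⟨g, hg, rfl⟩; exact (big_inv h g hg x).2 hx
  have hτu : ¬ Big Q τ (τ u) := by rwa [big_inv h τ hτ]
  have hfix : ∀ g ∈ (Q : Subgroup (Perm α)), sign g = 1 → (∀ z, Big Q τ z → g z = z) → g = 1 := by
    intro g hg hs hz
    rcases hsm u hu g hg with e | e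
    · ext z
      by_cases hb : Big Q τ z
      · exact hz z hb
      · rcases hsm z hb g hg with e' | e'
        · exact e'.2
        · exact absurd (e'.1.symm.trans e.1) hu'
    · exfalso
      have : g = swap u (τ u) := by
        ext z
        by_cases e1 : z = u
        · rw [e1, swap_apply_left, e.1]
        by_cases e2 : z = τ u
        · rw [e2, swap_apply_right, h.comm g hg, e.1, h.invol]
        rw [swap_apply_of_ne_of_ne e1 e2]
        by_cases e3 : Big Q τ z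
        · exact hz z e3
        by_cases e4 : τ z = z
        · exact h.apply_fix e4 hg
        · rcases small_unique h hu hu' e3 e4 with e | e
          exacts [absurd e e1, absurd e e2]
      rw [this, sign_swap hu'.symm] at hs
      exact absurd hs (by decide)
  have hne : ∀ w, Big Q τ w → ∀ p : α → Prop, (∀ z, p z → Big Q τ z) → ¬ p w → ¬ p (τ w) →
      fixer Q p ≠ ⊥ := by
    intro w hw p hp h1 h2 e
    have : swap w (τ w) * swap u (τ u) ∈ fixer Q p := by
      refine ⟨(dbl_mem h (big_ne h hw) hu').1, (dbl_mem h (big_ne h hw) hu').2, fun z hz => ?_⟩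
      by_contra hc
      rcases dbl_moves h hc with rfl | rfl | rfl | rfl
      exacts [h1 hz, h2 hz, hu (hp _ hz), hτu (hp _ hz)]
    rw [e, Subgroup.mem_bot] at this
    have h3 := dbl_apply h (x := w) (y := u) (fun e => hu (e ▸ hw)) (fun e => hτu (e ▸ hw))
    rw [this] at h3
    exact big_ne h hw h3.symm
  refine ⟨fixer Q (fun z => Big Q τ z ∧ ¬ Rel Q x z), fixer Q (Rel Q x),
    hne x hx _ (fun z hz => hz.1) (fun e => e.2 (Rel.refl _ _)) (fun e => e.2 ⟨τ, hτ, rfl⟩),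
    hne y hy _ hbig hxy (by rwa [rel_inv x τ hτ]), fun a ha => ⟨ha.1, ha.2.1⟩, fun a ha => ⟨ha.1, ha.2.1⟩,
    fun a ha b hb => ?_, fun a ha hb => hfix a ha.1 ha.2.1 fun z hz => ?_, fun p hp hs => ?_⟩
  · ext z
    rw [Perm.mul_apply, Perm.mul_apply]
    by_cases hz : Rel Q x z
    · rw [hb.2.2 z hz, hb.2.2 _ ((rel_inv x a ha.1 z).2 hz)]
    by_cases hB : Big Q τ z
    · rw [ha.2.2 z ⟨hB, hz⟩, ha.2.2 _ ⟨(big_inv h b hb.1 z).2 hB, by rwa [rel_inv x b hb.1]⟩]
    · rcases hsm z hB a ha.1 with e | e <;> rcases hsm z hB b hb.1 with e' | e' <;>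
        simp only [e.2, e'.2, h.comm a ha.1, h.comm b hb.1]
  · by_cases hr : Rel Q x z
    exacts [hb.2.2 z hr, ha.2.2 z ⟨hz, hr⟩]
  · obtain ⟨a, ha, ha'⟩ : ∃ a ∈ fixer Q (fun z => Big Q τ z ∧ ¬ Rel Q x z), ∀ z, Rel Q x z → a z = p z := by
      have h1 := res_mem Q hp (rel_inv x)
      rcases Int.units_eq_one_or (sign (res p _ (rel_inv x _ hp))) with e | e
      · exact ⟨_, ⟨h1, e, fun z hz => res_neg _ hz.2⟩, fun z hz => res_pos _ hz⟩
      · have k : ∀ z, Big Q τ z → swap u (τ u) z = z := fun z hz =>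
          swap_apply_of_ne_of_ne (fun e => hu (e ▸ hz)) (fun e => hτu (e ▸ hz))
        refine ⟨_, ⟨mul_mem h1 (h.swap_mem u), by rw [Perm.sign_mul, e, sign_swap hu'.symm]; simp,
          fun z hz => ?_⟩, fun z hz => ?_⟩
        · rw [Perm.mul_apply, k z hz.1, res_neg _ hz.2]
        · rw [Perm.mul_apply, k z (hbig z hz), res_pos _ hz]
    refine ⟨a, ha, a⁻¹ * p, ⟨mul_mem (inv_mem ha.1) hp, by rw [Perm.sign_mul, Perm.sign_inv, ha.2.1, hs, one_mul],
      fun z hz => ?_⟩, by simp⟩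
    rw [Perm.mul_apply, ← ha' z hz]; simp

end

lemma dec_iff {α : Type*} [DecidableEq α] [Fintype α] (P : Subgroup (alternatingGroup α)) (Q : Subgroup (Perm α))
    (hPQ : ∀ x : alternatingGroup α, x ∈ P ↔ x.1 ∈ Q) :
    (∃ S₁ S₂ : Subgroup (alternatingGroup α), S₁ ≠ ⊥ ∧ S₂ ≠ ⊥ ∧ Cfsg.IsInternalDirectProduct S₁ S₂ P) ↔
      ∃ S T, S ≠ ⊥ ∧ T ≠ ⊥ ∧ Dec Q S T := by
  constructor
  · rintro ⟨S, T, hS, hT, h1, h2, h3, h4, h5⟩
    have hinj := (alternatingGroup α).subtype_injective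
    refine ⟨S.map (alternatingGroup α).subtype, T.map (alternatingGroup α).subtype,
      by rwa [Ne, Subgroup.map_eq_bot_iff_of_injective _ hinj],
      by rwa [Ne, Subgroup.map_eq_bot_iff_of_injective _ hinj], ?_, ?_, ?_, ?_, ?_⟩
    · rintro _ ⟨a, ha, rfl⟩; exact ⟨(hPQ a).1 (h1 ha), a.2⟩
    · rintro _ ⟨a, ha, rfl⟩; exact ⟨(hPQ a).1 (h2 ha), a.2⟩
    · rintro _ ⟨a, ha, rfl⟩ _ ⟨b, hb, rfl⟩; exact congrArg Subtype.val (h3 a ha b hb)
    · rintro _ ⟨a, ha, rfl⟩ ⟨b, hb, e⟩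
      have : a ∈ S ⊓ T := ⟨ha, hinj e ▸ hb⟩
      rw [h4, Subgroup.mem_bot] at this
      rw [this, map_one]
    · intro p hp hs
      let K : Subgroup (alternatingGroup α) :=
        { carrier := {g | ∃ a ∈ S, ∃ b ∈ T, g = a * b}
          one_mem' := ⟨1, one_mem _, 1, one_mem _, by simp⟩
          mul_mem' := by
            rintro _ _ ⟨a, ha, b, hb, rfl⟩ ⟨a', ha', b', hb', rfl⟩
            refine ⟨_, mul_mem ha ha', _, mul_mem hb hb', ?_⟩
            rw [mul_assoc, ← mul_assoc b, ← h3 a' ha' b hb]; group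
          inv_mem' := by
            rintro _ ⟨a, ha, b, hb, rfl⟩
            exact ⟨_, inv_mem ha, _, inv_mem hb, by rw [h3 a ha b hb]; group⟩ }
      have hK : P ≤ K := by
        rw [← h5]
        exact sup_le (fun a ha => ⟨a, ha, 1, one_mem _, by simp⟩) (fun b hb => ⟨1, one_mem _, b, hb, by simp⟩)
      obtain ⟨a, ha, b, hb, e⟩ := hK ((hPQ ⟨p, hs⟩).2 hp)
      exact ⟨a, ⟨a, ha, rfl⟩, b, ⟨b, hb, rfl⟩, congrArg Subtype.val e⟩
  · rintro ⟨S, T, hS, hT, D⟩
    have k : ∀ S : Subgroup (Perm α), S ≠ ⊥ → (∀ a ∈ S, sign a = 1) → S.subgroupOf (alternatingGroup α) ≠ ⊥ := by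
      intro S hS h e
      refine hS ((Subgroup.eq_bot_iff_forall S).2 fun a ha => ?_)
      exact congrArg Subtype.val ((Subgroup.eq_bot_iff_forall _).1 e ⟨a, h a ha⟩ ha)
    refine ⟨S.subgroupOf _, T.subgroupOf _, k S hS fun a ha => (D.le₁ a ha).2, k T hT fun a ha => (D.le₂ a ha).2,
      fun a ha => (hPQ a).2 (D.le₁ _ ha).1, fun a ha => (hPQ a).2 (D.le₂ _ ha).1,
      fun a ha b hb => Subtype.ext (D.comm _ ha _ hb), ?_, ?_⟩
    · exact (Subgroup.eq_bot_iff_forall _).2 fun a ha => Subtype.ext (D.inf _ ha.1 ha.2)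
    · refine le_antisymm (sup_le (fun a ha => (hPQ a).2 (D.le₁ _ ha).1) (fun a ha => (hPQ a).2 (D.le₂ _ ha).1))
        fun p hp => ?_
      obtain ⟨a, ha, b, hb, e⟩ := D.sup _ ((hPQ p).1 hp) p.2
      have : p = ⟨a, (D.le₁ a ha).2⟩ * ⟨b, (D.le₂ b hb).2⟩ := Subtype.ext e
      rw [this]
      exact Subgroup.mul_mem_sup ha hb

lemma klein {G : Type*} [Group G] [Finite G] (P : Subgroup G) (h4 : Nat.card P = 4) (h : ∀ g ∈ P, g ^ 2 = 1) :
    ∃ S₁ S₂ : Subgroup G, S₁ ≠ ⊥ ∧ S₂ ≠ ⊥ ∧ Cfsg.IsInternalDirectProduct S₁ S₂ P := by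
  have hc := IsPGroup.isMulCommutative_of_card_eq_prime_sq (p := 2) (G := P) h4
  have : Nontrivial P := Finite.one_lt_card_iff_nontrivial.1 (by omega)
  obtain ⟨a, ha⟩ := exists_ne (1 : P)
  have ha1 : (a : G) ≠ 1 := fun e => ha (Subtype.ext e)
  have hoa : Nat.card (Subgroup.zpowers (a : G)) = 2 := by
    rw [Nat.card_zpowers]; exact orderOf_eq_prime (h _ a.2) ha1
  obtain ⟨b, hb, hba⟩ : ∃ b ∈ P, b ∉ Subgroup.zpowers (a : G) := by
    by_contra hcon; push Not at hcon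
    have := Subgroup.card_le_of_le hcon
    omega
  have hb1 : b ≠ 1 := fun e => hba (e ▸ one_mem _)
  have hob : Nat.card (Subgroup.zpowers b) = 2 := by
    rw [Nat.card_zpowers]; exact orderOf_eq_prime (h _ hb) hb1
  have l1 : Subgroup.zpowers (a : G) ≤ P := Subgroup.zpowers_le.2 a.2
  have l2 : Subgroup.zpowers b ≤ P := Subgroup.zpowers_le.2 hb
  refine ⟨Subgroup.zpowers a, Subgroup.zpowers b, by simpa using ha1, by simpa using hb1, l1, l2,
    fun x hx y hy => congrArg Subtype.val (hc.is_comm.comm ⟨x, l1 hx⟩ ⟨y, l2 hy⟩), ?_, ?_⟩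
  · have h1 := Subgroup.card_dvd_of_le (inf_le_right : Subgroup.zpowers (a : G) ⊓ Subgroup.zpowers b ≤ _)
    rw [hob] at h1
    rcases (Nat.dvd_prime Nat.prime_two).1 h1 with e | e
    · exact Subgroup.card_eq_one.1 e
    · have := Subgroup.eq_of_le_of_card_ge (inf_le_right : Subgroup.zpowers (a : G) ⊓ Subgroup.zpowers b ≤ _)
        (by rw [e, hob])
      exact absurd (this.ge (Subgroup.mem_zpowers b)).1 hba
  · have h1 := Subgroup.card_dvd_of_le (sup_le l1 l2)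
    have h2 := Subgroup.card_dvd_of_le (le_sup_left : Subgroup.zpowers (a : G) ≤ _ ⊔ Subgroup.zpowers b)
    have h3 : Nat.card (Subgroup.zpowers (a : G) ⊔ Subgroup.zpowers b : Subgroup G) ≠ 2 := fun e => by
      have := Subgroup.eq_of_le_of_card_ge (le_sup_left : Subgroup.zpowers (a : G) ≤ _ ⊔ Subgroup.zpowers b)
        (by rw [e, hoa])
      exact hba (this.ge (Subgroup.mem_sup_right (Subgroup.mem_zpowers b)))
    refine Subgroup.eq_of_le_of_card_ge (sup_le l1 l2) ?_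
    rw [h4] at h1 ⊢
    rw [hoa] at h2
    have := Nat.le_of_dvd (by norm_num) h1
    generalize Nat.card (Subgroup.zpowers (a : G) ⊔ Subgroup.zpowers b : Subgroup G) = m at *
    interval_cases m <;> omega

lemma small (n : ℕ) (hn : n = 4 ∨ n = 5) (P : Sylow 2 (alternatingGroup (Fin n))) :
    ∃ S₁ S₂ : Subgroup (alternatingGroup (Fin n)), S₁ ≠ ⊥ ∧ S₂ ≠ ⊥ ∧
      Cfsg.IsInternalDirectProduct S₁ S₂ (P : Subgroup (alternatingGroup (Fin n))) := by
  have h1 := two_mul_card_alt (α := Fin n) (by simp; omega)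
  have h4 : Nat.card (P : Subgroup (alternatingGroup (Fin n))) = 4 := by
    rcases hn with rfl | rfl
    · exact card_sylow_of_eq P (k := 2) (m := 3) (by simp [Nat.factorial] at h1 ⊢; omega) (by norm_num)
    · exact card_sylow_of_eq P (k := 2) (m := 15) (by simp [Nat.factorial] at h1 ⊢; omega) (by norm_num)
  refine klein _ h4 fun g hg => Subtype.ext ?_
  have h2 : g.1 ^ 4 = 1 := by
    rw [← h4]
    exact congrArg (fun z : (P : Subgroup (alternatingGroup (Fin n))) => z.1.1) (pow_card_eq_one' (x := ⟨g, hg⟩))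
  have h3 : sign g.1 = 1 := g.2
  change g.1 ^ 2 = 1
  generalize g.1 = x at *
  rcases hn with rfl | rfl <;> revert x <;> decide +kernel

/-- Direct decomposability of the Sylow 2-subgroups of the alternating groups. Let n ≥ 4 and let P be a Sylow 2-subgroup of the alternating group of degree n. Then P is the internal direct product of two nontrivial subgroups if and only if n = 4, n = 5, or n ≡ 2, 3 (mod 4) with 4⌊n/4⌋ not a power of 2. In the remaining cases (n ≡ 0, 1 (mod 4) with n ≥ 8, or n ≡ 2, 3 (mod 4) with 4⌊n/4⌋ a power of 2) P is directly indecomposable. -/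
theorem result (n : ℕ) (hn : 4 ≤ n)
    (P : Sylow 2 (alternatingGroup (Fin n))) :
    (∃ S₁ S₂ : Subgroup (alternatingGroup (Fin n)), S₁ ≠ ⊥ ∧ S₂ ≠ ⊥ ∧
        Cfsg.IsInternalDirectProduct S₁ S₂ (P : Subgroup (alternatingGroup (Fin n)))) ↔
      (n = 4 ∨ n = 5 ∨ ((n % 4 = 2 ∨ n % 4 = 3) ∧ ∀ r : ℕ, 4 * (n / 4) ≠ 2 ^ r)) := by
  by_cases h45 : n = 4 ∨ n = 5
  · exact ⟨fun _ => by tauto, fun _ => small n h45 P⟩
  obtain ⟨Q, hQ⟩ := exists_sylow_perm_of_alt P
  obtain ⟨τ, h⟩ := exists_isMatch Q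
  rw [dec_iff _ _ hQ]
  have h1 := (count h).2
  have h2 := one_orbit_iff h (by simpa using hn)
  rw [Fintype.card_fin] at h1 h2
  rw [← or_assoc, or_iff_right h45, ← h1, ← not_exists, ← h2]
  constructor
  · rintro ⟨S, T, hS, hT, D⟩
    have h3 : ¬ ∀ x y, Big Q τ x → Big Q τ y → Rel Q x y := fun e =>
      indec_one h D (by simp; omega) e hS hT
    refine ⟨?_, h3⟩
    by_contra hc
    exact indec_two h D (by simpa using hn) (fun u hu => by_contra fun e => hc ⟨u, e, hu⟩) h3 hS hT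
  · rintro ⟨⟨u, hu, hu'⟩, h3⟩
    push Not at h3
    obtain ⟨x, y, hx, hy, hxy⟩ := h3
    exact exists_dec h hu hu' hx hy hxy

end Cfsg.Agent.S2221
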