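import Cfsg.Statements.S2222
import Cfsg.Agent.Lib.Alt.Sylow2Max

set_option autoImplicit false
open Cfsg

namespace Cfsg.Agent.S2222

open Equiv Equiv.Perm Cfsg.Agent.Alt MulAction

theorem pronormal_of {G : Type*} [Group G] [Finite G] {p : ℕ} [Fact p.Prime] (S : Sylow p G)
    {H : Subgroup G} (hS : (S : Subgroup G) ≤ H)
    (hN : Subgroup.normalizer ((S : Subgroup G) : Set G) ≤ Subgroup.normalizer (H : Set G)) :
    Cfsg.IsPronormal H := by
  intro g
  obtain ⟨d, hd, h⟩ := exists_conj_le_sylow S (D := H ⊔ H.map (MulAut.conj g).toMonoidHom)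
    (Q := (S : Subgroup G).map (MulAut.conj g).toMonoidHom) (hS.trans le_sup_left)
    ((Subgroup.map_mono hS).trans le_sup_right) (S.isPGroup'.map _)
  have h1 : d * g ∈ Subgroup.normalizer ((S : Subgroup G) : Set G) := by
    refine Subgroup.mem_normalizer_fintype fun x hx => ?_
    have := h _ ⟨x, hx, rfl⟩
    simpa only [MulEquiv.coe_toMonoidHom, MulAut.conj_apply, mul_assoc, mul_inv_rev,
      SetLike.mem_coe] using this
  have h2 := Subgroup.mem_normalizer_iff.1 (hN h1)
  refine ⟨d⁻¹, inv_mem hd, ?_⟩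
  ext y
  simp only [Subgroup.mem_map_equiv, MulAut.conj_symm_apply]
  rw [h2]
  simp [mul_assoc]

theorem five {α : Type*} [Fintype α] [DecidableEq α] (h5 : Fintype.card α = 5)
    (S : Sylow 2 (alternatingGroup α)) {H : Subgroup (alternatingGroup α)}
    (hS : (S : Subgroup (alternatingGroup α)) ≤ H) :
    Subgroup.normalizer ((S : Subgroup (alternatingGroup α)) : Set (alternatingGroup α)) ≤
      Subgroup.normalizer (H : Set (alternatingGroup α)) := by
  obtain ⟨P, hP⟩ := exists_sylow_perm_of_alt S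
  obtain ⟨τ, hτ⟩ := exists_isMatch P
  obtain ⟨ω, hω⟩ := hτ.exists_fix (by rw [h5]; decide)
  by_cases h1 : H ≤ stabilizer _ ω
  swap
  · obtain ⟨m, hm, hm'⟩ := SetLike.not_le_iff_exists.1 h1
    have h2 := alt_le_of_moves P hτ hω (k := 2) le_rfl h5
      (M := H.map (alternatingGroup α).subtype)
      (fun p hp hs => ⟨⟨p, mem_alternatingGroup.2 hs⟩, hS ((hP _).2 hp), rfl⟩) ⟨m, hm, rfl⟩ hm'
    have h3 : H = ⊤ := by
      rw [eq_top_iff]
      intro x _
      obtain ⟨y, hy, h1⟩ := h2 x.2
      exact (Subtype.ext h1 : y = x) ▸ hy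
    rw [h3, Subgroup.normalizer_eq_top (H := ⊤)]
    exact le_top
  have hA : Nat.card (alternatingGroup α) = 60 := by
    have := two_mul_card_alt (α := α) (by omega)
    rw [h5, show Nat.factorial 5 = 120 from rfl] at this
    omega
  have hS4 : Nat.card (S : Subgroup (alternatingGroup α)) = 4 :=
    card_sylow_of_eq S (k := 2) (m := 15) hA (by norm_num)
  have htr : IsPretransitive (alternatingGroup α) α :=
    alternatingGroup.isPretransitive_of_three_le_card α (by rw [Nat.card_eq_fintype_card]; omega)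
  have h12 : Nat.card (stabilizer (alternatingGroup α) ω) = 12 := by
    have h2 := (stabilizer (alternatingGroup α) ω).card_mul_index
    rw [index_stabilizer_of_transitive, hA, Nat.card_eq_fintype_card (α := α), h5] at h2
    omega
  have h2 := Subgroup.card_dvd_of_le hS
  have h3 := Subgroup.card_dvd_of_le h1
  rw [hS4] at h2
  rw [h12] at h3
  have h4 : Nat.card H = 4 ∨ Nat.card H = 12 := by
    have := Nat.le_of_dvd (by norm_num) h3
    interval_cases (Nat.card H) <;> simp_all
  rcases h4 with h4 | h4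
  · rw [← Subgroup.eq_of_le_of_card_ge hS (by rw [h4, hS4])]
  · rw [Subgroup.eq_of_le_of_card_ge h1 (by rw [h4, h12])]
    refine le_trans (fun g hg => ?_) Subgroup.le_normalizer
    change g.1 ω = ω
    by_contra h6
    have h7 : τ (g.1 ω) ≠ g.1 ω := fun h8 => h6 (hτ.fix _ _ h8 hω)
    obtain ⟨c, hc, hc1, hc2⟩ := hτ.exists_avoid {g.1 ω} (by simp; omega)
    simp only [Finset.mem_singleton] at hc1 hc2
    have h8 := (Subgroup.mem_normalizer_iff''.1 hg
      ⟨swap (g.1 ω) (τ (g.1 ω)) * swap c (τ c),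
        mem_alternatingGroup.2 (sign_swap_mul_swap h7.symm hc.symm)⟩).1
      ((hP _).2 (mul_mem (hτ.swap_mem _) (hτ.swap_mem c)))
    have h9 := hτ.apply_fix hω ((hP _).1 h8)
    simp only [Subgroup.coe_mul, Subgroup.coe_inv, Perm.mul_apply] at h9
    rw [swap_apply_of_ne_of_ne (Ne.symm hc1) (Ne.symm hc2), swap_apply_left, inv_eq_iff_eq] at h9
    exact h7 h9

/-- In the alternating group of degree n ≥ 5 every subgroup H of odd index is pronormal: for every element g, the subgroups H and gHg⁻¹ are conjugate by an element of the subgroup they generate. -/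
theorem result (n : ℕ) (hn : 5 ≤ n)
    (H : Subgroup (alternatingGroup (Fin n))) (hH : Odd H.index) : Cfsg.IsPronormal H := by
  obtain ⟨S, hS⟩ := exists_sylow_le_of_not_dvd_index (p := 2) (H := H)
    (fun h1 => (Nat.not_even_iff_odd.2 hH) (even_iff_two_dvd.2 h1))
  apply pronormal_of S hS
  rcases hn.eq_or_lt with rfl | h6
  · exact five (Fintype.card_fin 5) S hS
  · exact (normalizer_sylow_two_alt (by rw [Fintype.card_fin]; omega) S).trans (hS.trans Subgroup.le_normalizer)

end Cfsg.Agent.S2222
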