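import Cfsg.Statements.S2226
import Cfsg.Agent.Lib.Forms.USyl2

set_option autoImplicit false
open Cfsg

namespace Cfsg.Agent.S2226

open Forms GLn

/-- Let F be a finite field with q² elements and d = 2^w ≥ 4 a power of 2 such that the unitary group PSU_d(q) (realised over F) is simple. Then every subgroup H of PSU_d(q) of odd index is pronormal: for every g, H and gHg⁻¹ are conjugate by an element of the subgroup they generate. -/
theorem result {F : Type*} [Field F] [Fintype F] (q : ℕ)
    (hF : Fintype.card F = q ^ 2) (w : ℕ) (hw : 2 ≤ w) (hs : IsSimpleGroup (Cfsg.PSU (2 ^ w) F q))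
    (H : Subgroup (Cfsg.PSU (2 ^ w) F q)) (hH : Odd H.index) : Cfsg.IsPronormal H := by
  refine pronormal_of_comap (QuotientGroup.mk' _) (QuotientGroup.mk'_surjective _) ?_
  rw [← Subgroup.index_comap_of_surjective H (QuotientGroup.mk'_surjective _)] at hH
  generalize H.comap (QuotientGroup.mk' _) = K at hH
  replace hH : ¬ 2 ∣ K.index := fun h => (Nat.not_even_iff_odd.2 hH) (even_iff_two_dvd.2 h)
  clear hs H
  obtain ⟨k, rfl⟩ : ∃ k, w = k + 2 := ⟨w - 2, by omega⟩
  rcases Nat.even_or_odd q with hq | hq
  · have h2 : CharP F 2 := by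
      obtain ⟨p, j, hp, hc, -, rfl⟩ := exists_char_pow hF
      obtain rfl := (Nat.prime_dvd_prime_iff_eq Nat.prime_two hp).1
        (Nat.prime_two.dvd_of_dvd_pow (even_iff_two_dvd.1 hq))
      exact hc
    obtain ⟨i⟩ := (uForm_nondeg (2 ^ (k + 2)) hF).unit_iso
      (aForm_nondeg (hs := frobq_ne hF)) rfl
    let e := (suEquiv _ hF).trans i.sisomEquiv
    let φ := (Form.SIsom _).subtype.comp e.toMonoidHom
    have hφ : Function.Injective φ := (Subgroup.subtype_injective _).comp e.injective
    refine pronormal_of_map φ hφ (pronormal_aForm (Nat.even_pow.2 ⟨even_two, by omega⟩) 2 ?_)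
    rw [← Subgroup.map_map, Subgroup.index_map_of_injective _ (Subgroup.subtype_injective _),
      Subgroup.range_subtype, Subgroup.index_map_of_bijective e.bijective]
    intro h
    rcases (Nat.Prime.dvd_mul Nat.prime_two).1 h with h | h
    · exact hH h
    · rw [Form.SIsom, Subgroup.index_ker] at h
      have h3 := h.trans (Subgroup.card_subgroup_dvd_card _)
      rw [Nat.card_units, Nat.card_eq_fintype_card, hF] at h3
      have h4 := two_le_q hF
      have h5 : 2 ∣ q ^ 2 := (even_iff_two_dvd.1 hq).trans (dvd_pow_self q two_ne_zero)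
      have h6 := Nat.one_lt_pow two_ne_zero h4
      omega
  · obtain ⟨S, hS⟩ := Alt.exists_sylow_le_of_not_dvd_index hH
    exact pronormal_of_normalizer_le S hS ((normalizer_sylow_two_SU hF hq k S).trans
      (hS.trans Subgroup.le_normalizer))

end Cfsg.Agent.S2226
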