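import Cfsg.Statements.S2227
import Cfsg.Agent.Lib.Tw.Five3

set_option autoImplicit false
open Cfsg

namespace Cfsg.Agent.S2227

open Cfsg.Lie Cfsg.Agent.Chev Cfsg.Agent.Chev.Five

/-- In the twisted group ²E₆(2) all elements of order 5 are conjugate, and the centralizer of an element of order 5 is isomorphic to the direct product of a cyclic group of order 5 with the alternating group of degree 8. -/
theorem result {K : Type*} [Field K] [Fintype K] (hK : Fintype.card K = 4) :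
    (∀ x y : ↥(Cfsg.Lie.twistedE6 K 2), orderOf x = 5 → orderOf y = 5 → IsConj x y) ∧
      ∀ x : ↥(Cfsg.Lie.twistedE6 K 2), orderOf x = 5 →
        Nonempty (↥(Subgroup.centralizer ({x} : Set ↥(Cfsg.Lie.twistedE6 K 2))) ≃* (Multiplicative (ZMod 5) × ↥(alternatingGroup (Fin 8)))) := by
  obtain ⟨p, _, _, hp, φ₀, hφ₀, hφk⟩ := exists_frob (q := 2) (k := 2) Nat.prime_two.isPrimePow hK
  obtain rfl : p = 2 := (Nat.prime_dvd_prime_iff_eq Fact.out Nat.prime_two).1 hp
  have hK' : Nat.card K = 4 := Nat.card_eq_fintype_card.trans hK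
  obtain ⟨φ', hφ'⟩ := exists_frob_closure K
  let φ := frobenius (AlgebraicClosure K) 2
  have hφ : ∀ t, φ t = t ^ 2 := fun _ => rfl
  have A := alg_st (torInj_E6 (AlgebraicClosure K)) 2 hφ'
  obtain ⟨τ, h⟩ := exists_isTw_st twist_E6 (charOK_zero (AlgebraicClosure K)) φ
  obtain ⟨τ₀, h₀⟩ := exists_isTw_st twist_E6 (charOK_zero K) φ₀
  have hi := st_tor_injective_E6 (AlgebraicClosure K)
  have hm : ∀ g, τ^[2] g = sm chevE6 φ' g := fun g => by
    have h1 : ∀ r < 72, twE6.π^[2] r = r ∧ sgnP twE6 r 2 = 1 := by decide +kernel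
    rw [← itr_apply, Frob.unique A.full (σ := itr τ 2) (fun r t => ?_) A.frob]
    rw [itr_apply, h.iter_eq per_E6, h.tw.ρ_pow_val, (h1 r r.2).1, (h1 r r.2).2, hK']
    simp [hφ, ← pow_mul]
  have hj : Function.Injective ((sm chevE6 (algebraMap K (AlgebraicClosure K))).comp h₀.fold.gen.subtype) :=
    ((full_st _ K).map_injective A.full (sm_x _) hi).comp Subtype.val_injective
  have hr : ∀ g, τ g = g ↔ g ∈ ((sm chevE6 (algebraMap K (AlgebraicClosure K))).comp h₀.fold.gen.subtype).range :=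
    fun g => h.fixed_iff A.full (h.ok per_E6) (full_st _ K) h₀ (sm_x _) ((full_st _ K).map_injective A.full (sm_x _) hi)
      (fun t => by simp [hφ₀, hφ]) A.frob hm (h₀.ok per_E6).emb_gen fun a ha => by
        have h1 : h.σT a = a := hi ((h.map_tor A.full a).symm.trans ha)
        have h2 := hm (A.full.tor a)
        rw [Function.iterate_fixed ha, A.frob.map_tor A.full A.one_lt] at h2
        obtain ⟨b, rfl⟩ := Frob.exists_um_eq (ι := algebraMap K (AlgebraicClosure K)) rfl (hi h2).symm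
        refine ⟨⟨_, h₀.tor_mem_gen_E6 hφk (b := b) (funext fun i => Units.ext
          ((algebraMap K (AlgebraicClosure K)).injective ?_))⟩, (full_st _ K).map_tor A.full (sm_x _) b⟩
        have h3 := h.σT_E6 (um (algebraMap K (AlgebraicClosure K)) b) i
        rw [h1, um_coe, um_coe, hφ] at h3
        rw [h₀.σT_E6, hφ₀, map_pow, h3]
  have h1 : h₀.fold.gen.map (spi chevE6 K) = (wordIncl chevE6 (e6Words K 2)).range := by
    rw [range_wordIncl, h₀.gen_E6 hφ₀ hφk, MonoidHom.map_closure, Set.image_image]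
    refine congrArg _ (Set.image_congr ?_)
    rintro _ (⟨t, -, r, hr, rfl⟩ | ⟨t, rs, hr, rfl⟩)
    · simp [spi_x (D := chevE6) ⟨r, by revert r; decide⟩]
    · simp [spi_x (D := chevE6) ⟨rs.1, by revert rs; decide⟩, spi_x (D := chevE6) ⟨rs.2, by revert rs; decide⟩]
  let π : h₀.fold.gen →* twistedE6 K 2 := ((chevE6.group K).subtype.comp ((spi chevE6 K).comp
    h₀.fold.gen.subtype)).codRestrict _ fun g => by
      obtain ⟨g', e⟩ := h1.le (Subgroup.mem_map_of_mem _ g.2)
      exact (congrArg (· ∈ twistedE6 K 2) (congrArg Subtype.val e)).mp g'.2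
  have h3 : ∀ g, π g = 1 ↔ spi chevE6 K g = 1 := fun g => by
    rw [Subtype.ext_iff, Subtype.ext_iff (a1 := spi chevE6 K g)]; rfl
  obtain ⟨z, -, hz⟩ := A.lang_top two_pos hm (A.full.P.nW w0)⁻¹ trivial
  obtain ⟨ζ, hζ, hζ'⟩ := exists_primitive (k := AlgebraicClosure K) (n := 5) (by
    rw [Ne, CharP.cast_eq_zero_iff _ 2]; norm_num)
  let c := (MonoidHom.ofInjective hj).symm.toMonoidHom.comp (((MulAut.conj z).toMonoidHom.comp
    ((tw (A.full.P.nW w0)⁻¹ τ).eqLocus (MonoidHom.id _)).subtype).codRestrict _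
      fun g => (hr _).1 (conj_fixed_iff.2 (hz ▸ g.2)))
  have hc : ∀ g, sm chevE6 (algebraMap K (AlgebraicClosure K)) (c g) = z * g * z⁻¹ := fun g =>
    MonoidHom.apply_ofInjective_symm hj _
  refine main h hφ (hK' ▸ A) hi hm hζ hζ' (π.comp c) (fun γ => ?_) fun g => ?_
  · obtain ⟨g, hg, e⟩ := h1.ge ⟨γ, rfl⟩
    have h4 : τ (z * (z⁻¹ * sm chevE6 (algebraMap K (AlgebraicClosure K)) g * z) * z⁻¹) =
        z * (z⁻¹ * sm chevE6 (algebraMap K (AlgebraicClosure K)) g * z) * z⁻¹ :=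
      (hr _).2 ⟨⟨g, hg⟩, by simp [mul_assoc]⟩
    refine ⟨⟨_, hz ▸ conj_fixed_iff.1 h4⟩, ?_⟩
    rw [MonoidHom.comp_apply, show c _ = ⟨g, hg⟩ from hj ((hc _).trans (by simp [mul_assoc]))]
    exact Subtype.ext (congrArg Subtype.val e :)
  · rw [MonoidHom.comp_apply, h3, ← map_eq_one_iff _ (ChevM.fm_injective (algebraMap K (AlgebraicClosure K))), ← spi_sm, hc,
      map_mul, map_mul, map_inv, conj_eq_one_iff]
    refine ⟨fun e => ?_, ?_⟩
    · obtain ⟨a, ha⟩ := A.full.mem_H_iff.1 (A.full.mem_H_of_map_mem (full_xG _ _) (φ := RingHom.id _) spi_x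
        (e ▸ one_mem _))
      exact ⟨a, ChevM.hG_eq_one_iff.1 (by rw [← spi_tor, ha, e]), ha⟩
    · rintro ⟨a, ha, e⟩
      rw [← e, spi_tor, ChevM.hG_eq_one_iff.2 ha]

end Cfsg.Agent.S2227
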