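import Cfsg.Statements.S2231
import Cfsg.Agent.Lib.SL2.PSL

set_option autoImplicit false
open Cfsg

namespace Cfsg.Agent.S2231

set_option backward.isDefEq.respectTransparency false
open SL2 Matrix
open scoped MatrixGroups

theorem comm_of_isPGroup {p : ℕ} [Fact p.Prime] (hp : p ≠ 2) {K : Type*} [Field K] [Finite K]
    [CharP K p] {P : Subgroup PSL(2, K)} (hP : IsPGroup p P) {x y : PSL(2, K)} (hx : x ∈ P)
    (hy : y ∈ P) : x * y = y * x := by
  have h2 := two_ne_zero_of_char (F := K) p hp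
  have hu : ¬ IsScal (up (1 : K)).1 := by simp [IsScal]
  have h1 := index_cent_double_odd h2 hu (by rw [trace_up]; norm_num)
  have hi : ¬ p ∣ ((Subgroup.centralizer ({up 1} : Set SL(2, K))).map pr).index := by
    intro h
    have h3 : p ∣ Nat.card K ^ 2 - 1 :=
      h1 ▸ (h.trans (Subgroup.index_map_dvd _ pr_surjective)).mul_left 2
    have h4 : p ∣ Nat.card K ^ 2 := (char_dvd_card p).trans (dvd_pow_self _ two_ne_zero)
    have h5 := Nat.dvd_sub h4 h3
    have h6 : 0 < Nat.card K ^ 2 := pow_pos Nat.card_pos 2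
    rw [show Nat.card K ^ 2 - (Nat.card K ^ 2 - 1) = 1 by omega, Nat.dvd_one] at h5
    exact (Fact.out : p.Prime).one_lt.ne' h5
  obtain ⟨c, hc⟩ := exists_conj_le_of_not_dvd_index hP hi
  obtain ⟨a, ha, ea⟩ := hc x hx
  obtain ⟨b, hb, eb⟩ := hc y hy
  have : (c⁻¹ * x * c) * (c⁻¹ * y * c) = (c⁻¹ * y * c) * (c⁻¹ * x * c) := by
    rw [← ea, ← eb, ← map_mul, ← map_mul, SL_cent_comm hu ha hb]
  calc x * y = c * ((c⁻¹ * x * c) * (c⁻¹ * y * c)) * c⁻¹ := by group
    _ = y * x := by rw [this]; group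

/-- The upper unitriangular subgroup. -/
def heis (p : ℕ) : Subgroup SL(3, ZMod p) where
  carrier := {g | g.1 1 0 = 0 ∧ g.1 2 0 = 0 ∧ g.1 2 1 = 0 ∧ g.1 0 0 = 1 ∧ g.1 1 1 = 1 ∧ g.1 2 2 = 1}
  mul_mem' := by
    rintro a b ⟨a1, a2, a3, a4, a5, a6⟩ ⟨b1, b2, b3, b4, b5, b6⟩
    simp [Matrix.mul_apply, Fin.sum_univ_three, *]
  one_mem' := by simp
  inv_mem' := by
    rintro a ⟨a1, a2, a3, a4, a5, a6⟩
    simp [Matrix.adjugate_fin_three, *]

theorem heis_isPGroup {p : ℕ} [Fact p.Prime] (hp : p ≠ 2) : IsPGroup p (heis p) := by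
  rintro ⟨g, a1, a2, a3, a4, a5, a6⟩
  refine ⟨1, Subtype.ext (Subtype.ext ?_)⟩
  change g.1 ^ p ^ 1 = 1
  have h3 : (g.1 - 1) ^ 3 = 0 := by
    ext i j
    fin_cases i <;> fin_cases j <;>
      simp [pow_three, Matrix.mul_apply, Fin.sum_univ_three, *]
  have h4 : 3 ≤ p := by
    have := (Fact.out : p.Prime).two_le
    omega
  have h5 := pow_eq_zero_of_le h4 h3
  rw [sub_pow_char_of_commute p (Commute.one_right _), one_pow, sub_eq_zero] at h5
  rw [pow_one, h5]

/-- Let p be an odd prime and K a finite field of characteristic p. Then Qd(p) (the natural semidirect product of an elementary abelian group of order p² by SL₂(p)) is not involved in the projective special linear group PSL₂(K). -/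
theorem result {p : ℕ} [Fact p.Prime] (hp : p ≠ 2) {K : Type*} [Field K] [Fintype K] [CharP K p] : ¬ Cfsg.Involves ↥(Cfsg.qd p) (Matrix.ProjectiveSpecialLinearGroup (Fin 2) K) := by
  rintro ⟨H, R, hR, ⟨e⟩⟩
  let φ : H →* Cfsg.qd p := e.toMonoidHom.comp (QuotientGroup.mk' _)
  have hφ : Function.Surjective φ := e.surjective.comp (QuotientGroup.mk'_surjective _)
  obtain ⟨S, hS⟩ := (heis_isPGroup hp).comap_subtype (K := Cfsg.qd p) |>.exists_le_sylow
  obtain ⟨P, hP⟩ := Sylow.mapSurjective_surjective hφ p S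
  let a : SL(3, ZMod p) := ⟨!![1, 1, 0; 0, 1, 0; 0, 0, 1], by simp [det_fin_three]⟩
  let b : SL(3, ZMod p) := ⟨!![1, 0, 0; 0, 1, 1; 0, 0, 1], by simp [det_fin_three]⟩
  have ha : a ∈ Cfsg.qd p := Subgroup.subset_closure (by simp [a])
  have hb : b ∈ Cfsg.qd p := Subgroup.subset_closure (by simp [b])
  have haS : (⟨a, ha⟩ : Cfsg.qd p) ∈ (S : Subgroup (Cfsg.qd p)) := hS (by
    change a ∈ heis p
    simp [heis, a])
  have hbS : (⟨b, hb⟩ : Cfsg.qd p) ∈ (S : Subgroup (Cfsg.qd p)) := hS (by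
    change b ∈ heis p
    simp [heis, b])
  rw [← hP, Sylow.coe_mapSurjective] at haS hbS
  obtain ⟨x, hx, ex⟩ := haS
  obtain ⟨y, hy, ey⟩ := hbS
  have h1 : x * y = y * x := Subtype.ext (comm_of_isPGroup hp (P.isPGroup'.map H.subtype)
    (Subgroup.mem_map_of_mem _ hx) (Subgroup.mem_map_of_mem _ hy))
  have h2 := congrArg φ h1
  rw [map_mul, map_mul, ex, ey] at h2
  have h3 : (a * b).1 0 2 = (b * a).1 0 2 := congrArg (fun z => z.1.1 0 2) h2
  simp [a, b] at h3

end Cfsg.Agent.S2231
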