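import Cfsg.Statements.S2232
import Cfsg.Agent.Lib.Forms.PFix

set_option autoImplicit false
open Cfsg

namespace Cfsg.Agent.S2232

set_option backward.isDefEq.respectTransparency false
open Forms Forms.Form Module Matrix
open scoped MatrixGroups

theorem frattini {H X : Type*} [Group H] [Finite H] [Group X] {p : ℕ} [Fact p.Prime] (φ : H →* X)
    (hφ : Function.Surjective φ) (V : Subgroup X) [V.Normal] (hV : IsPGroup p V) :
    ∃ P : Subgroup H, IsPGroup p P ∧ P.map φ = V ∧ (Subgroup.normalizer (P : Set H)).map φ = ⊤ := by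
  obtain ⟨S⟩ : Nonempty (Sylow p (V.comap φ)) := inferInstance
  have h1 : Function.Surjective (φ.subgroupComap V) := φ.subgroupComap_surjective_of_surjective V hφ
  have h2 : ((S.mapSurjective h1 : Sylow p V) : Subgroup V) = ⊤ :=
    ((S.mapSurjective h1).is_maximal' (hV.to_subgroup ⊤) le_top).symm
  have h3 : ((S : Subgroup (V.comap φ)).map (V.comap φ).subtype).map φ = V := by
    refine le_antisymm ?_ fun v hv => ?_
    · rintro _ ⟨_, ⟨x, -, rfl⟩, rfl⟩
      exact x.2
    · obtain ⟨x, hx, e⟩ := h2.ge (Subgroup.mem_top ⟨v, hv⟩)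
      exact ⟨_, ⟨x, hx, rfl⟩, congrArg Subtype.val e⟩
  refine ⟨_, S.isPGroup'.map _, h3, ?_⟩
  have h4 := congrArg (Subgroup.map φ) S.normalizer_sup_eq_top
  rw [Subgroup.map_sup, Subgroup.map_comap_eq_self_of_surjective hφ, ← MonoidHom.range_eq_map,
    MonoidHom.range_eq_top.2 hφ] at h4
  rw [← h4, left_eq_sup]
  exact h3.ge.trans (Subgroup.map_mono Subgroup.le_normalizer)

theorem comm_pow {F : Type*} [Field F] [Finite F] {P : Param F} {V : Type*} [AddCommGroup V]
    [Module F V] [FiniteDimensional F V] {f : Form P V} (hf : f.Nondeg) (hd : finrank F V = 3)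
    (p : ℕ) [Fact p.Prime] [CharP F p] (hp : p ≠ 2) {H : Subgroup f.Isom} (hH : IsPGroup p H)
    (h0 : H ≠ ⊥) {a b : f.Isom} (ha : a ∈ Subgroup.normalizer (H : Set f.Isom))
    (hb : b ∈ Subgroup.normalizer (H : Set f.Isom)) : (a * b * a⁻¹ * b⁻¹) ^ p = 1 := by
  set R := fixSub H ⊓ f.orth (fixSub H)
  have h1 : ∀ a ∈ Subgroup.normalizer (H : Set f.Isom), ∀ x ∈ R, a.1 x ∈ R := fun a ha x hx =>
    ⟨map_mem_fixSub ha x hx.1, Isom.orth_invariant a (map_mem_fixSub ha) x hx.2⟩
  have h2 : R ≤ f.orth R := inf_le_right.trans (f.orth_le inf_le_left)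
  have h3 := Submodule.finrank_mono h2
  have h4 := hf.finrank_add_orth R
  have h5 : finrank F R ≠ 0 := mt Submodule.finrank_eq_zero.1 (hf.fixSub_inf_orth_ne_bot p hH h0)
  have key : ∀ S T : Submodule F V, S ≤ T → finrank F T ≤ finrank F S + 1 →
      (∀ a ∈ Subgroup.normalizer (H : Set f.Isom), ∀ x ∈ S, a.1 x ∈ S) →
      (∀ a ∈ Subgroup.normalizer (H : Set f.Isom), ∀ x ∈ T, a.1 x ∈ T) →
      ∀ x ∈ T, (a * b * a⁻¹ * b⁻¹).1 x - x ∈ S := fun S T h6 h7 h8 h9 x hx => by
    have := comm_sub_mem_of_finrank h6 h7 (a := a.1) (b := b.1) (h8 a ha) (h8 b hb) (h9 a ha) (h9 b hb)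
      (h9 _ (inv_mem ha) _ (h9 _ (inv_mem hb) x hx))
    simpa only [LinearEquiv.coe_coe, Isom.apply_inv, Isom.mul_apply] using this
  have h6 := fun a ha => Isom.orth_invariant a (h1 a ha)
  refine Subtype.ext ?_
  rw [← pow_one p]
  refine pow_eq_one_of_sub_pow p (n := 3) (LinearMap.ext fun x => ?_) ?_
  · exact key ⊥ R bot_le (by rw [finrank_bot]; omega) (by simp) h1 _
      (key R _ h2 (by omega) h1 h6 _ (key _ ⊤ le_top (by rw [finrank_top]; omega) h6 (by simp) x trivial))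
  · have := (Fact.out : p.Prime).two_le
    rw [pow_one]; omega

theorem mulVec_two {p : ℕ} (g : qd p) (x : Fin 3 → ZMod p) : (g.1.1 *ᵥ x) 2 = x 2 := by
  obtain ⟨g, hg⟩ := g
  induction hg using Subgroup.closure_induction generalizing x with
  | mem g h => simp [mulVec, dotProduct, Fin.sum_univ_three, h.1, h.2.1, h.2.2]
  | one => simp
  | mul a b _ _ ha hb => simp only [Matrix.SpecialLinearGroup.coe_mul, ← mulVec_mulVec] at *; rw [ha, hb]
  | inv a _ ha =>
    rw [← ha (_ *ᵥ x), mulVec_mulVec, ← Matrix.SpecialLinearGroup.coe_mul, mul_inv_cancel]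
    simp

/-- The translation subgroup. -/
def tr (p : ℕ) : Subgroup (qd p) where
  carrier := {g | ∀ x, x 2 = 0 → g.1.1 *ᵥ x = x}
  one_mem' x _ := by simp
  mul_mem' {a b} ha hb x hx := by simp [← mulVec_mulVec, hb x hx, ha x hx]
  inv_mem' {a} ha x hx := by
    conv_lhs => rw [← ha x hx, mulVec_mulVec, ← Matrix.SpecialLinearGroup.coe_mul]
    simp

instance (p : ℕ) : (tr p).Normal := ⟨fun a ha g x hx => by
  rw [Subgroup.coe_mul, Subgroup.coe_mul, Matrix.SpecialLinearGroup.coe_mul, Matrix.SpecialLinearGroup.coe_mul,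
    ← mulVec_mulVec, ← mulVec_mulVec, ha _ ((mulVec_two g⁻¹ x).trans hx), mulVec_mulVec,
    ← Matrix.SpecialLinearGroup.coe_mul]
  simp⟩

theorem unip {p : ℕ} [Fact p.Prime] (A : Matrix (Fin 3) (Fin 3) (ZMod p)) : (A - 1) ^ p = A ^ p - 1 := by
  rw [sub_pow_char_of_commute p (Commute.one_right _), one_pow]

theorem isPGroup_tr (p : ℕ) [Fact p.Prime] : IsPGroup p (tr p) := by
  rintro ⟨g, hg⟩
  refine ⟨1, Subtype.ext (Subtype.ext (Subtype.ext ?_))⟩
  change g.1.1 ^ p ^ 1 = 1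
  rw [pow_one, ← sub_eq_zero, ← unip]
  refine pow_eq_zero_of_le (Fact.out : p.Prime).two_le (ext_of_mulVec_single fun i => ?_)
  rw [sq, ← mulVec_mulVec, sub_mulVec, hg _ (by rw [sub_mulVec, Pi.sub_apply, mulVec_two, one_mulVec, sub_self]), one_mulVec, sub_self,
    zero_mulVec]

/-- Let p be an odd prime, q a power of p and K a finite field with q² elements. Then Qd(p) (the natural semidirect product of an elementary abelian group of order p² by SL₂(p)) is not involved in the projective special unitary group PSU₃(q) realised over K. -/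
theorem result {p : ℕ} [Fact p.Prime] (hp : p ≠ 2) {K : Type*} [Field K] [Fintype K] [CharP K p] (n : ℕ) (hn : 1 ≤ n) (hK : Fintype.card K = (p ^ n) ^ 2) : ¬ Cfsg.Involves ↥(Cfsg.qd p) (Cfsg.PSU 3 K (p ^ n)) := by
  rintro ⟨H, R, hR, ⟨e⟩⟩
  let π := QuotientGroup.mk' (Subgroup.center (SU 3 K (p ^ n)))
  let φ : H.comap π →* qd p := e.toMonoidHom.comp ((QuotientGroup.mk' _).comp (π.subgroupComap H))
  have hφ : Function.Surjective φ := e.surjective.comp ((QuotientGroup.mk'_surjective _).comp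
    (π.subgroupComap_surjective_of_surjective H (QuotientGroup.mk'_surjective _)))
  obtain ⟨P, h1, h2, h3⟩ := frattini φ hφ (tr p) (isPGroup_tr p)
  let ψ := (suHom 3 hK).comp (H.comap π).subtype
  have hψ : Function.Injective ψ := fun a b h =>
    Subtype.ext ((suEquiv 3 hK).injective (Subtype.ext h))
  let a : qd p := ⟨⟨!![1, 1, 0; 0, 1, 0; 0, 0, 1], by simp [det_fin_three]⟩,
    Subgroup.subset_closure (by simp)⟩
  let b : qd p := ⟨⟨!![1, 0, 0; 1, 1, 0; 0, 0, 1], by simp [det_fin_three]⟩,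
    Subgroup.subset_closure (by simp)⟩
  let c : qd p := ⟨⟨!![1, 0, 1; 0, 1, 0; 0, 0, 1], by simp [det_fin_three]⟩,
    Subgroup.subset_closure (by simp)⟩
  have h4 : P.map ψ ≠ ⊥ := fun h => by
    rw [(Subgroup.map_eq_bot_iff_of_injective P hψ).1 h, Subgroup.map_bot] at h2
    have : c ∈ tr p := fun x hx => by
      ext i; fin_cases i <;> simp [c, mulVec, dotProduct, Fin.sum_univ_three, hx]
    simpa [c] using congrArg (fun g : qd p => g.1.1 0 2) (Subgroup.mem_bot.1 (h2.ge this))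
  obtain ⟨x, hx, ea⟩ := h3.ge (Subgroup.mem_top a)
  obtain ⟨y, hy, eb⟩ := h3.ge (Subgroup.mem_top b)
  have h5 := comm_pow (uForm_nondeg 3 hK) (by simp) p hp (h1.map ψ) h4
    (P.le_normalizer_map ψ ⟨x, hx, rfl⟩) (P.le_normalizer_map ψ ⟨y, hy, rfl⟩)
  rw [← map_inv, ← map_inv, ← map_mul, ← map_mul, ← map_mul, ← map_pow, map_eq_one_iff _ hψ] at h5
  have h6 := congrArg (fun g => (φ g).1.1) h5
  simp only [map_pow, map_mul, map_inv, ea, eb, map_one] at h6
  have h7 : IsNilpotent ((a * b * a⁻¹ * b⁻¹).1.1 - 1) := ⟨p, by rw [unip, sub_eq_zero]; exact h6⟩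
  have h8 := (isNilpotent_trace_of_isNilpotent h7).eq_zero
  simp [a, b, trace_fin_three, adjugate_fin_three] at h8
  exact one_ne_zero (α := ZMod p) (by linear_combination h8)

end Cfsg.Agent.S2232
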