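import Cfsg.Statements.S2238
import Cfsg.Agent.Lib.Suz.Torus

set_option autoImplicit false
open Cfsg

namespace Cfsg.Agent.S2238

open Cfsg.Agent.Suz

theorem nums_eq {m a b : ℕ} (ha : a = 2 ^ (2 * m + 1) - 1 ∨ a = tp m ∨ a = tm m)
    (hb : b = 2 ^ (2 * m + 1) - 1 ∨ b = tp m ∨ b = tm m) (hab : a ∣ b) (h1 : a ≠ 1) : a = b := by
  have c1 := coprime_q_sub_one m
  rw [← tp_mul_tm] at c1
  have c2 := Nat.Coprime.coprime_mul_right_right c1
  have c3 := Nat.Coprime.coprime_mul_left_right c1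
  have c4 := coprime_tp_tm m
  rcases ha with rfl | rfl | rfl <;> rcases hb with rfl | rfl | rfl
  · rfl
  · exact absurd (Nat.eq_one_of_dvd_coprimes c2 dvd_rfl hab) h1
  · exact absurd (Nat.eq_one_of_dvd_coprimes c3 dvd_rfl hab) h1
  · exact absurd (Nat.eq_one_of_dvd_coprimes c2 hab dvd_rfl) h1
  · rfl
  · exact absurd (Nat.eq_one_of_dvd_coprimes c4 dvd_rfl hab) h1
  · exact absurd (Nat.eq_one_of_dvd_coprimes c3 hab dvd_rfl) h1
  · exact absurd (Nat.eq_one_of_dvd_coprimes c4 hab dvd_rfl) h1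
  · rfl


/-- The partition of the Suzuki group: with q = 2^(2m+1), m ≥ 1, r = 2^m and the Suzuki group realised as the stabiliser in SL₄ of the Suzuki–Tits ovoid, every non-identity element lies in exactly one subgroup that is either a Sylow 2-subgroup or a cyclic subgroup of order q − 1, q + 2r + 1 or q − 2r + 1. -/
theorem result {F : Type*} [Field F] [Fintype F] {m : ℕ} (hm : 1 ≤ m) (hF : Fintype.card F = 2 ^ (2 * m + 1)) (g : ↥(Cfsg.Sz F m)) (hg : g ≠ 1) :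
    ∃! U : Subgroup ↥(Cfsg.Sz F m), ((∃ P : Sylow 2 ↥(Cfsg.Sz F m), U = (P : Subgroup ↥(Cfsg.Sz F m))) ∨
      (IsCyclic ↥U ∧ Nat.card ↥U ∈ ({2 ^ (2 * m + 1) - 1, 2 ^ (2 * m + 1) + 2 ^ (m + 1) + 1, 2 ^ (2 * m + 1) - 2 ^ (m + 1) + 1} : Set ℕ))) ∧ g ∈ U := by
  have := SuzF.of_card hm hF
  have hodd : ∀ a : ℕ, a = 2 ^ (2 * m + 1) - 1 ∨ a = tp m ∨ a = tm m → Odd a := by
    rintro a (rfl | rfl | rfl)
    exacts [odd_q_sub_one, odd_tp m, odd_tm m]
  have hsyl : ∀ (P : Sylow 2 (G F m)) (k : G F m), k ∈ (P : Subgroup (G F m)) → tr k = 0 := by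
    intro P k hk
    obtain ⟨n, hn⟩ := P.isPGroup' ⟨k, hk⟩
    exact tr_eq_zero_of_pow (k := n) (congrArg Subtype.val hn)
  by_cases ht : tr g = 0
  · obtain ⟨P, hP⟩ := (isPGroup_zpowers (k := 2) (pow_four_of_tr_eq_zero ht)).exists_le_sylow
    have hgP : g ∈ (P : Subgroup (G F m)) := hP (Subgroup.mem_zpowers g)
    refine ⟨P, ⟨Or.inl ⟨P, rfl⟩, hgP⟩, ?_⟩
    rintro V ⟨⟨Q, rfl⟩ | ⟨-, hV⟩, hgV⟩
    · obtain ⟨x, hx⟩ := exists_sylow_eq P
      obtain ⟨y, hy⟩ := exists_sylow_eq Q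
      have h1 : x⁻¹ * g * x ≠ 1 := by
        intro he; apply hg
        calc g = x * (x⁻¹ * g * x) * x⁻¹ := by group
          _ = 1 := by rw [he]; group
      have hB : y⁻¹ * x ∈ B F := mem_B_of_conj_mem_U ((hx g).mp hgP) h1 (by
        convert (hy g).mp hgV using 1; group)
      ext k
      rw [hx, hy]
      constructor
      · intro hk
        convert conj_mem_U hk (inv_mem hB) using 1; group
      · intro hk
        convert conj_mem_U hk hB using 1; group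
    · exact absurd ht (tr_ne_zero_of_odd hg
        ((hodd _ hV).of_dvd_nat (Subgroup.orderOf_dvd_natCard _ hgV)))
  · refine ⟨Subgroup.centralizer {g}, ⟨Or.inr ⟨ss_isCyclic ht, ss_card_cent ht⟩, mem_cent.mpr rfl⟩,
      ?_⟩
    rintro V ⟨⟨Q, rfl⟩ | ⟨hc, hV⟩, hgV⟩
    · exact absurd (hsyl Q g hgV) ht
    · have hle : V ≤ Subgroup.centralizer {g} := fun k hk =>
        mem_cent.mpr (comm_of_isCyclic hc hk hgV)
      refine Subgroup.eq_of_le_of_card_ge hle (nums_eq hV (ss_card_cent ht)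
        (Subgroup.card_dvd_of_le hle) ?_).ge
      intro he
      rw [Subgroup.card_eq_one] at he
      rw [he] at hgV
      exact hg hgV

end Cfsg.Agent.S2238
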