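import Cfsg.Statements.S2239
import Cfsg.Agent.Lib.Suz.Sub

set_option autoImplicit false
open Cfsg

namespace Cfsg.Agent.S2239

open Cfsg.Agent.Suz

theorem order_inj {k k' : ℕ}
    (h : (2 ^ (2 * k + 1)) ^ 2 * (2 ^ (2 * k + 1) - 1) * ((2 ^ (2 * k + 1)) ^ 2 + 1) =
      (2 ^ (2 * k' + 1)) ^ 2 * (2 ^ (2 * k' + 1) - 1) * ((2 ^ (2 * k' + 1)) ^ 2 + 1)) : k = k' := by
  have key : ∀ k : ℕ, padicValNat 2
      ((2 ^ (2 * k + 1)) ^ 2 * (2 ^ (2 * k + 1) - 1) * ((2 ^ (2 * k + 1)) ^ 2 + 1)) =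
        (2 * k + 1) * 2 := by
    intro k
    have h1 := (odd_q_sub_one (m := k)).mul (odd_q_sq_add_one (m := k))
    rw [mul_assoc, padicValNat.mul (by positivity) h1.pos.ne', ← pow_mul 2 _ 2,
      padicValNat.prime_pow, padicValNat.eq_zero_of_not_dvd
        (by rwa [← even_iff_two_dvd, Nat.not_even_iff_odd, pow_mul 2 _ 2]), add_zero]
  have := congrArg (padicValNat 2) h
  rw [key, key] at this
  omega

theorem key {F : Type*} [Field F] {m : ℕ} [SuzF F m] {K : Type*} [Field K] {k : ℕ} [SuzF K k]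
    (S : Subgroup (G F m)) (e : S ≃* G K k) :
    ∃ (x : G F m) (L : Subfield F), SuzF L k ∧ cj x S = subSz L := by
  obtain ⟨t, ht0, ht1⟩ := exists_ne_zero_one (F := K)
  let f : G K k →* G F m := S.subtype.comp e.symm.toMonoidHom
  have hf : Function.Injective f := S.subtype_injective.comp e.symm.injective
  have hm : ∀ g, f g ∈ S := fun g => (e.symm g).2
  obtain ⟨x, L, hL, he⟩ := exists_conj_eq_subSz (hm (u 0 1)) (hm (u 0 t)) (hm w)
    (by rw [← map_mul, sq_of_mem_Z (u_mem_Z _), map_one])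
    (by rw [← map_mul, sq_of_mem_Z (u_mem_Z _), map_one])
    (by rw [← map_mul, w_mul_w, map_one])
    (by rw [Ne, map_eq_one_iff f hf]; simp [u_eq_one])
    (by rw [Ne, map_eq_one_iff f hf]; simp [u_eq_one, ht0])
    (by rw [Ne, hf.eq_iff]; simp [u_inj, ht1.symm])
    (by rw [← map_mul, ← map_mul, u_comm_z])
    (by
      rw [← map_mul, ← map_mul, Ne, hf.eq_iff]
      intro he
      exact w_not_mem_B (U_le_B (mem_U_of_commute (u_mem_U 0 1) (by simp [u_eq_one]) he)))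
  obtain ⟨k', hk', hd⟩ := exists_suzF_subfield L hL
  obtain ⟨e1⟩ := nonempty_subSz_equiv' (m := m) L hd
  have e2 : S ≃* cj x S := ((MulAut.conj x).symm.subgroupMap S).trans
      (MulEquiv.subgroupCongr (Subgroup.map_equiv_eq_comap_symm' _ _))
  rw [he] at e2
  have h1 := Nat.card_congr (e.symm.trans (e2.trans e1)).toEquiv
  rw [card_G, card_G] at h1
  obtain rfl := order_inj h1
  exact ⟨x, L, hk', he⟩


/-- Subfield subgroups of the Suzuki group: let q = 2^(2m+1) and s = 2^(2k+1) with m, k ≥ 1 and 2k+1 dividing 2m+1 (so q is a power of s), both groups realised as stabilisers in SL₄ of the Suzuki–Tits ovoid. Then Sz(q) has a subgroup isomorphic to Sz(s), and any two subgroups of Sz(q) isomorphic to Sz(s) are conjugate. -/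
theorem result {F : Type*} [Field F] [Fintype F] {m : ℕ} (hm : 1 ≤ m) (hF : Fintype.card F = 2 ^ (2 * m + 1)) {K : Type*} [Field K] [Fintype K] {k : ℕ} (hk : 1 ≤ k) (hK : Fintype.card K = 2 ^ (2 * k + 1)) (hdiv : 2 * k + 1 ∣ 2 * m + 1) :
    (∃ S : Subgroup ↥(Cfsg.Sz F m), Nonempty (↥S ≃* ↥(Cfsg.Sz K k))) ∧
    ∀ S₁ S₂ : Subgroup ↥(Cfsg.Sz F m), Nonempty (↥S₁ ≃* ↥(Cfsg.Sz K k)) → Nonempty (↥S₂ ≃* ↥(Cfsg.Sz K k)) →
      ∃ g : ↥(Cfsg.Sz F m), S₂ = S₁.map (MulAut.conj g).toMonoidHom := by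
  have := SuzF.of_card hm hF
  have := SuzF.of_card hk hK
  constructor
  · have : Fact (Nat.Prime 2) := ⟨Nat.prime_two⟩
    let := ZMod.algebra F 2
    let := ZMod.algebra K 2
    have h1 : Module.finrank (ZMod 2) F = 2 * m + 1 := by
      have := FiniteField.pow_finrank_eq_natCard 2 F
      rw [card_F] at this
      exact Nat.pow_right_injective le_rfl this
    have h2 : Module.finrank (ZMod 2) K = 2 * k + 1 := by
      have := FiniteField.pow_finrank_eq_natCard 2 K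
      rw [card_F] at this
      exact Nat.pow_right_injective le_rfl this
    obtain ⟨ι⟩ := FiniteField.nonempty_algHom_of_finrank_dvd (F := ZMod 2) (K := K) (L := F)
      (by rw [h1, h2]; exact hdiv)
    exact ⟨_, nonempty_subSz_equiv (ι : K →+* F) hdiv⟩
  · rintro S₁ S₂ ⟨e₁⟩ ⟨e₂⟩
    obtain ⟨x₁, L₁, h₁, he₁⟩ := key S₁ e₁
    obtain ⟨x₂, L₂, h₂, he₂⟩ := key S₂ e₂
    rw [subfield_eq_of_suzF (L := L₁) (L' := L₂), ← he₂] at he₁
    refine ⟨x₂ * x₁⁻¹, ?_⟩
    ext g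
    rw [Subgroup.mem_map]
    constructor
    · intro hg
      have : x₂⁻¹ * g * x₂ ∈ cj x₁ S₁ := by rw [he₁]; simpa [mem_cj, mul_assoc] using hg
      exact ⟨_, this, by simp [mul_assoc]⟩
    · rintro ⟨y, hy, rfl⟩
      have : x₁⁻¹ * y * x₁ ∈ cj x₂ S₂ := by rw [← he₁]; simpa [mem_cj, mul_assoc] using hy
      simpa [mem_cj, mul_assoc] using this

end Cfsg.Agent.S2239
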