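import Cfsg.Statements.S2240
import Cfsg.Agent.Lib.Suz.Sub

set_option autoImplicit false
open Cfsg

namespace Cfsg.Agent.S2240

open Cfsg.Agent.Suz

/-- Elementary abelian TI-subgroups of the Suzuki group: let q = 2^(2m+1) with m ≥ 1, the group realised as the stabiliser in SL₄ of the Suzuki–Tits ovoid, and n ≥ 2. There is an elementary abelian 2-subgroup E of order 2^n that is a TI-subgroup (every conjugate of E meeting E nontrivially is E itself) if and only if n divides 2m + 1. -/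
theorem result {F : Type*} [Field F] [Fintype F] {m : ℕ} (hm : 1 ≤ m) (hF : Fintype.card F = 2 ^ (2 * m + 1)) (n : ℕ) (hn : 2 ≤ n) :
    (∃ E : Subgroup ↥(Cfsg.Sz F m), Cfsg.IsElementaryAbelian 2 E ∧ Nat.card ↥E = 2 ^ n ∧
      ∀ x : ↥(Cfsg.Sz F m), E ⊓ E.map (MulAut.conj x).toMonoidHom ≠ ⊥ → x ∈ Subgroup.normalizer (E : Set ↥(Cfsg.Sz F m))) ↔ n ∣ 2 * m + 1 := by
  have := SuzF.of_card hm hF
  constructor
  · rintro ⟨E, ⟨-, hE2⟩, hcard, hTI⟩
    have hp : IsPGroup 2 E := fun g => ⟨1, Subtype.ext (by simpa using hE2 g g.2)⟩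
    obtain ⟨x, hx⟩ := exists_conj_le_U hp
    have hx' : ∀ g ∈ E, ∃ b : F, g = x * u 0 b * x⁻¹ := fun g hg => by
      obtain ⟨b, hb⟩ := mem_Z_of_sq (g := x⁻¹ * g * x⁻¹⁻¹) (by simpa using hx g hg)
        (by rw [conj_mul, ← sq, hE2 g hg]; simp)
      exact ⟨b, by rw [← hb]; group⟩
    set A := zPart (cj x E) with hA
    have hmem : ∀ b : F, b ∈ A ↔ x * u 0 b * x⁻¹ ∈ E := fun _ => Iff.rfl
    have hcA : Nat.card A = 2 ^ n := by
      rw [← hcard]
      refine Nat.card_eq_of_bijective (fun b => ⟨_, (hmem b).mp b.2⟩) ⟨?_, ?_⟩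
      · intro a b hab
        have h1 : x * u 0 (a : F) * x⁻¹ = x * u 0 (b : F) * x⁻¹ := congrArg Subtype.val hab
        rw [mul_left_inj, mul_right_inj, u_inj] at h1
        exact Subtype.ext h1.2
      · rintro ⟨g, hg⟩
        obtain ⟨b, rfl⟩ := hx' g hg
        exact ⟨⟨b, hg⟩, rfl⟩
    have : Nontrivial A := Finite.one_lt_card_iff_nontrivial.mp (by
      rw [hcA]; exact Nat.one_lt_two_pow (by omega))
    obtain ⟨⟨b0, hb0A⟩, hb0⟩ := exists_ne (0 : A)
    have hb0' : b0 ≠ 0 := fun he => hb0 (Subtype.ext he)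
    have hdiv : ∀ b ∈ A, b / b0 ∈ stabField A := by
      intro b hb
      by_cases h0 : b = 0
      · rw [h0, zero_div]; exact zero_mem _
      obtain ⟨μ, hμ⟩ := nm_surjective (b / b0)
      simp only at hμ
      have hμ0 : μ ≠ 0 := by rintro rfl; simp [h0, hb0', eq_comm] at hμ
      have hconj : ∀ c : F, x * hh (Units.mk0 μ hμ0) * x⁻¹ * (x * u 0 c * x⁻¹) *
          (x * hh (Units.mk0 μ hμ0) * x⁻¹)⁻¹ = x * u 0 (b / b0 * c) * x⁻¹ := fun c => by
        have := hh_conj_u (m := m) (Units.mk0 μ hμ0) 0 c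
        simp only [Units.val_mk0, mul_zero, hμ] at this
        rw [← this]; group
      have h1 := hTI (x * hh (Units.mk0 μ hμ0) * x⁻¹) (by
        rw [Subgroup.ne_bot_iff_exists_ne_one]
        refine ⟨⟨x * u 0 b * x⁻¹, hb, _, hb0A, ?_⟩, fun he => h0 ?_⟩
        · have := hconj b0
          rw [div_mul_cancel₀ _ hb0'] at this
          exact this
        · have h2 : x * u 0 b * x⁻¹ = 1 := congrArg Subtype.val he
          rw [conj_eq_one_iff, u_eq_one] at h2
          exact h2.2)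
      intro c hc
      rw [hmem, ← hconj]
      exact (Subgroup.mem_normalizer_iff.mp h1 _).mp hc
    obtain ⟨n', h1, h2⟩ := exists_card_subfield (stabField A)
    have h3 : Nat.card (stabField A) = Nat.card A := by
      refine Nat.card_eq_of_bijective (fun l => ⟨l * b0, l.2 b0 hb0A⟩) ⟨?_, ?_⟩
      · intro a b hab
        exact Subtype.ext (mul_right_cancel₀ hb0' (congrArg Subtype.val hab))
      · rintro ⟨b, hb⟩
        exact ⟨⟨b / b0, hdiv b hb⟩, Subtype.ext (div_mul_cancel₀ _ hb0')⟩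
    rw [h1, hcA] at h3
    rwa [← Nat.pow_right_injective le_rfl h3]
  · intro hdiv
    have : Fact (Nat.Prime 2) := ⟨Nat.prime_two⟩
    let := ZMod.algebra F 2
    have h1 : Module.finrank (ZMod 2) F = 2 * m + 1 := by
      have := FiniteField.pow_finrank_eq_natCard 2 F
      rw [card_F] at this
      exact Nat.pow_right_injective le_rfl this
    obtain ⟨ι⟩ := FiniteField.nonempty_algHom_of_finrank_dvd (F := ZMod 2) (K := GaloisField 2 n)
      (L := F) (by rw [h1, GaloisField.finrank 2 (by omega)]; exact hdiv)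
    let L := (ι : GaloisField 2 n →+* F).fieldRange
    have hL : Nat.card L = 2 ^ n := by
      rw [← GaloisField.card 2 n (by omega)]
      exact (Nat.card_eq_of_bijective _ (RingHom.rangeRestrictField_bijective _)).symm
    let E : Subgroup (G F m) :=
      { carrier := {g | ∃ b ∈ L, g = u 0 b}
        mul_mem' := by
          rintro _ _ ⟨a, ha, rfl⟩ ⟨b, hb, rfl⟩
          exact ⟨a + b, add_mem ha hb, by simp [u_mul_u]⟩
        one_mem' := ⟨0, zero_mem _, by simp⟩
        inv_mem' := by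
          rintro _ ⟨a, ha, rfl⟩
          exact ⟨a, ha, by simp [u_inv]⟩ }
    refine ⟨E, ⟨⟨⟨?_⟩⟩, ?_⟩, ?_, ?_⟩
    · rintro ⟨_, a, ha, rfl⟩ ⟨_, b, hb, rfl⟩
      exact Subtype.ext (u_comm_z 0 a b)
    · rintro _ ⟨a, ha, rfl⟩
      simp [u_sq]
    · rw [← hL]
      symm
      refine Nat.card_eq_of_bijective (fun b => ⟨u 0 b, b, b.2, rfl⟩) ⟨?_, ?_⟩
      · intro a b hab
        exact Subtype.ext (u_inj.mp (congrArg Subtype.val hab)).2
      · rintro ⟨_, b, hb, rfl⟩
        exact ⟨⟨b, hb⟩, rfl⟩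
    · intro x hx
      obtain ⟨⟨g, ⟨b, hb, hg⟩, _, ⟨c, hc, rfl⟩, he⟩, h1⟩ := Subgroup.ne_bot_iff_exists_ne_one.mp hx
      have he' : x * u 0 c * x⁻¹ = u 0 b := he.trans hg
      have hc0 : c ≠ 0 := by
        rintro rfl
        apply h1
        apply Subtype.ext
        simpa using he.symm
      have hB := mem_B_of_conj_mem_U (u_mem_U 0 c) (by simp [u_eq_one, hc0]) (he' ▸ u_mem_U 0 b)
      obtain ⟨a', b', μ, rfl⟩ := mem_B_iff.mp hB
      rw [B_conj_z, u_inj] at he'
      have hν : (μ : F) * θ (μ : F) ∈ L := by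
        rw [← mul_div_cancel_right₀ ((μ : F) * θ (μ : F)) hc0, he'.2]
        exact div_mem hb hc
      apply Subgroup.mem_normalizer_fintype
      rintro _ ⟨d, hd, rfl⟩
      exact ⟨_, mul_mem hν hd, B_conj_z _ _ _ _⟩

end Cfsg.Agent.S2240
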