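import Cfsg.Statements.S2241
import Cfsg.Agent.Lib.Suz.Borel

set_option autoImplicit false
open Cfsg

namespace Cfsg.Agent.S2241

open Cfsg.Agent.Suz

/-- Real 2-elements of the Suzuki group: with q = 2^(2m+1), m ≥ 1, and the group realised as the stabiliser in SL₄ of the Suzuki–Tits ovoid, a non-identity element of a Sylow 2-subgroup is conjugate to its inverse if and only if it is an involution; in particular no element of order 4 is conjugate to its inverse. -/
theorem result {F : Type*} [Field F] [Fintype F] {m : ℕ} (hm : 1 ≤ m) (hF : Fintype.card F = 2 ^ (2 * m + 1)) (P : Sylow 2 ↥(Cfsg.Sz F m)) (g : ↥(Cfsg.Sz F m)) (hg : g ∈ (P : Subgroup ↥(Cfsg.Sz F m))) (h1 : g ≠ 1) :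
    IsConj g g⁻¹ ↔ orderOf g = 2 := by
  have := SuzF.of_card hm hF
  have : Fact (Nat.Prime 2) := ⟨Nat.prime_two⟩
  constructor
  · intro hc
    obtain ⟨x, hx⟩ := exists_sylow_eq P
    obtain ⟨a, b, he⟩ := (hx g).mp hg
    have hg' : g = x * u a b * x⁻¹ := by rw [← he]; group
    by_cases ha : a = 0
    · subst ha
      apply orderOf_eq_prime _ h1
      rw [hg', conj_pow, u_sq]; simp
    · exfalso
      apply not_isConj_u_inv (m := m) (b := b) ha
      have h2 : IsConj (u a b : G F m) g := isConj_iff.mpr ⟨x, hg'.symm⟩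
      have h3 : IsConj (u a b : G F m)⁻¹ g⁻¹ := isConj_iff.mpr ⟨x, by rw [hg']; group⟩
      exact (h2.trans hc).trans h3.symm
  · intro ho
    have : g⁻¹ = g := by
      rw [inv_eq_iff_mul_eq_one, ← sq, ← ho, pow_orderOf_eq_one]
    rw [this]

end Cfsg.Agent.S2241
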