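import Cfsg.Statements.S2245
import Cfsg.Agent.Lib.Alt.Sylow2Max
import Cfsg.Agent.Lib.Alt.PresGlue2

set_option autoImplicit false
open Cfsg

namespace Cfsg.Agent.S2245

open Equiv Equiv.Perm Cfsg.Agent.Alt MulAction

theorem not_unique {G : Type*} [Group G] [Finite G] {R A B : Subgroup G} (hA : R ≤ A) (hB : R ≤ B)
    (h1 : A ≠ ⊤) (h2 : B ≠ ⊤) (h : ∀ K, A ≤ K → B ≤ K → K = ⊤) :
    ¬ ∃! M : Subgroup G, IsCoatom M ∧ R ≤ M := by
  rintro ⟨M, ⟨hM, -⟩, hu⟩
  obtain ⟨M1, hM1, h3⟩ := (eq_top_or_exists_le_coatom A).resolve_left h1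
  obtain ⟨M2, hM2, h4⟩ := (eq_top_or_exists_le_coatom B).resolve_left h2
  rw [hu M1 ⟨hM1, hA.trans h3⟩] at h3
  rw [hu M2 ⟨hM2, hB.trans h4⟩] at h4
  exact hM.1 (h M h3 h4)

theorem unique_of {G : Type*} [Group G] {R A : Subgroup G} (hA : R ≤ A) (h1 : A ≠ ⊤)
    (h : ∀ M, R ≤ M → ∀ m ∈ M, m ∉ A → M = ⊤) :
    ∃! M : Subgroup G, IsCoatom M ∧ R ≤ M := by
  refine ⟨A, ⟨⟨h1, fun M hM => ?_⟩, hA⟩, fun M hM => ?_⟩
  · obtain ⟨m, hm, hm'⟩ := SetLike.exists_of_lt hM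
    exact h M (hA.trans hM.le) m hm hm'
  · have h2 : M ≤ A := by
      intro m hm
      by_contra h3
      exact hM.1.1 (h M hM.2 m hm h3)
    exact ((hM.1.le_iff.1 h2).resolve_left h1).symm

theorem eq_top_of_map {α : Type*} [Fintype α] [DecidableEq α] {K : Subgroup (alternatingGroup α)}
    (h : alternatingGroup α ≤ K.map (alternatingGroup α).subtype) : K = ⊤ := by
  rw [eq_top_iff]
  intro x _
  obtain ⟨y, hy, h1⟩ := h x.2
  exact (Subtype.ext h1 : y = x) ▸ hy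

/-- For n ≥ 5 with n ≠ 6, a Sylow 2-subgroup of the alternating group A_n lies in exactly one maximal subgroup of A_n if and only if n = 2^k + 1 for some k ≥ 2; the same holds for the symmetric group S_n. -/
theorem result (n : ℕ) (hn : 5 ≤ n) (h6 : n ≠ 6) :
    ((∀ R : Sylow 2 ↥(alternatingGroup (Fin n)), (∃! M : Subgroup ↥(alternatingGroup (Fin n)), IsCoatom M ∧ (R : Subgroup ↥(alternatingGroup (Fin n))) ≤ M) ↔ ∃ k : ℕ, 2 ≤ k ∧ n = 2 ^ k + 1) ∧
    (∀ R : Sylow 2 (Equiv.Perm (Fin n)), (∃! M : Subgroup (Equiv.Perm (Fin n)), IsCoatom M ∧ (R : Subgroup (Equiv.Perm (Fin n))) ≤ M) ↔ ∃ k : ℕ, 2 ≤ k ∧ n = 2 ^ k + 1)) := by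
  have hc : Fintype.card (Fin n) = n := Fintype.card_fin n
  have hodd : ∀ k, 2 ≤ k → n = 2 ^ k + 1 → Odd (Fintype.card (Fin n)) := by
    intro k hk h
    rw [hc, h]
    exact ((Nat.even_pow' (by omega)).2 even_two).add_one
  constructor
  · intro R
    obtain ⟨P, hP⟩ := exists_sylow_perm_of_alt R
    obtain ⟨τ, hτ⟩ := exists_isMatch P
    constructor
    · intro h
      by_contra h1
      obtain ⟨A, B, hA, hB, h2, h3, h4⟩ := two_overgroups P (by omega) (by rwa [hc])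
      refine not_unique (A := A.subgroupOf _) (B := B.subgroupOf _)
        (fun x hx => hA ((hP x).1 hx)) (fun x hx => hB ((hP x).1 hx))
        (fun h5 => h2 (Subgroup.subgroupOf_eq_top.1 h5))
        (fun h5 => h3 (Subgroup.subgroupOf_eq_top.1 h5)) (fun K h5 h7 => eq_top_of_map ?_) h
      exact h4 _ (fun g hg hs => ⟨⟨g, mem_alternatingGroup.2 hs⟩, h5 hg, rfl⟩)
        (fun g hg hs => ⟨⟨g, mem_alternatingGroup.2 hs⟩, h7 hg, rfl⟩)
    · rintro ⟨k, hk, h⟩
      obtain ⟨ω, hω⟩ := hτ.exists_fix (hodd k hk h)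
      obtain ⟨z, hz, hz1, hz2⟩ := hτ.exists_avoid {ω} (by simp; omega)
      simp only [Finset.mem_singleton] at hz1 hz2
      refine unique_of (A := stabilizer _ ω) (fun x hx => hτ.apply_fix hω ((hP x).1 hx))
        (fun h1 => ?_) (fun M hM m hm hm' => eq_top_of_map ?_)
      · have h2 : t3 ω z (τ z) ∈ stabilizer (alternatingGroup (Fin n)) ω :=
          h1 ▸ Subgroup.mem_top _
        have h3 : (t3 ω z (τ z)).1 ω = ω := h2
        rw [coe_t3 (Ne.symm hz1) (Ne.symm hz2) hz.symm, c3_apply_left (Ne.symm hz1) hz.symm] at h3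
        exact hz1 h3
      · exact alt_le_of_moves P hτ hω hk (hc.trans h)
          (fun p hp hs => ⟨⟨p, mem_alternatingGroup.2 hs⟩, hM ((hP _).2 hp), rfl⟩)
          ⟨m, hm, rfl⟩ hm'
  · intro P
    obtain ⟨τ, hτ⟩ := exists_isMatch P
    obtain ⟨c, hc1, -⟩ := hτ.exists_avoid ∅ (by simp; omega)
    constructor
    · intro h
      by_contra h1
      obtain ⟨A, B, hA, hB, h2, h3, h4⟩ := two_overgroups P (by omega) (by rwa [hc])
      refine not_unique hA hB (fun h5 => h2 (h5 ▸ le_top)) (fun h5 => h3 (h5 ▸ le_top))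
        (fun K h5 h7 => ?_) h
      exact eq_top_of_alt_le_of_odd (h4 K (fun g hg _ => h5 hg) (fun g hg _ => h7 hg))
        (h5 (hA (hτ.swap_mem c))) (sign_swap hc1.symm)
    · rintro ⟨k, hk, h⟩
      obtain ⟨ω, hω⟩ := hτ.exists_fix (hodd k hk h)
      obtain ⟨z, hz, hz1, hz2⟩ := hτ.exists_avoid {ω} (by simp; omega)
      simp only [Finset.mem_singleton] at hz1 hz2
      refine unique_of (A := stabilizer _ ω) (fun x hx => hτ.apply_fix hω hx)
        (fun h1 => ?_) (fun M hM m hm hm' => ?_)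
      · have h2 : swap ω z ∈ stabilizer (Perm (Fin n)) ω := h1 ▸ Subgroup.mem_top _
        have h3 : swap ω z ω = ω := h2
        rw [swap_apply_left] at h3
        exact hz1 h3
      · exact eq_top_of_alt_le_of_odd (alt_le_of_moves P hτ hω hk (hc.trans h)
          (fun p hp _ => hM hp) hm hm') (hM (hτ.swap_mem c)) (sign_swap hc1.symm)

end Cfsg.Agent.S2245
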