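import Cfsg.Statements.S2249
import Cfsg.Agent.Lib.GLn.TwoVal
import Cfsg.Agent.Lib.Alt.Sylow2

set_option autoImplicit false
open Cfsg

namespace Cfsg.Agent.S2249

open GLn Finset

variable {F : Type*} [Field F]

theorem card_prod' {G H : Type*} [Group G] [Group H] (A : Subgroup G) (B : Subgroup H) :
    Nat.card (A.prod B) = Nat.card A * Nat.card B := by
  rw [Nat.card_congr (Subgroup.prodEquiv A B).toEquiv, Nat.card_prod]

/-- There is a normal elementary abelian `2`-subgroup of order at least `2 ^ k`. -/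
def NR (k : ℕ) (A : Type*) [Group A] : Prop :=
  ∃ E : Subgroup A, E.Normal ∧ Cfsg.IsElementaryAbelian 2 E ∧ 2 ^ k ≤ Nat.card E

theorem NR.of_equiv {k : ℕ} {A B : Type*} [Group A] [Group B] (h : NR k A) (e : A ≃* B) :
    NR k B := by
  obtain ⟨E, h1, ⟨h2, h3⟩, h4⟩ := h
  refine ⟨E.map e.toMonoidHom, h1.map _ e.surjective, ⟨inferInstance, ?_⟩, ?_⟩
  · rintro _ ⟨a, ha, rfl⟩
    rw [← map_pow, h3 a ha, map_one]
  · rwa [Subgroup.card_map_of_injective e.injective]

/-- Signs constant on the fibres of a labelling. -/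
def sgnGL (F : Type*) [Field F] {ι κ : Type*} [Fintype ι] [DecidableEq ι] (l : ι → κ) :
    (κ → ℤˣ) →* GL ι F :=
  (diagGL F ι).comp (((Units.map (Int.castRingHom F).toMonoidHom).compLeft ι).comp
    (MonoidHom.pi fun i => Pi.evalMonoidHom (fun _ => ℤˣ) (l i)))

theorem coe_sgnGL {ι κ : Type*} [Fintype ι] [DecidableEq ι] (l : ι → κ) (ε : κ → ℤˣ) :
    (sgnGL F l ε).1 = Matrix.diagonal fun i => (((ε (l i) : ℤˣ) : ℤ) : F) := rfl

theorem sgnGL_injective (h2 : (2 : F) ≠ 0) {ι κ : Type*} [Fintype ι] [DecidableEq ι] {l : ι → κ}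
    (hl : Function.Surjective l) : Function.Injective (sgnGL F l) := by
  rw [injective_iff_map_eq_one]
  intro ε h
  funext k
  obtain ⟨i, rfl⟩ := hl k
  have h1 := congrArg (fun g : GL ι F => g.1 i i) h
  simp only [coe_sgnGL, Matrix.diagonal_apply_eq, Units.val_one, Matrix.one_apply_eq] at h1
  refine (Int.units_eq_one_or (ε (l i))).resolve_right fun h3 => h2 ?_
  rw [h3] at h1
  simp only [Units.val_neg, Units.val_one, Int.cast_neg, Int.cast_one] at h1
  linear_combination -h1

theorem mem_normalizer_sgnGL {ι κ : Type*} [Fintype ι] [DecidableEq ι] (l : ι → κ) {g : GL ι F}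
    (π : Equiv.Perm κ) (h : ∀ i j, g.1 i j ≠ 0 → l i = π (l j)) :
    g ∈ Subgroup.normalizer ((sgnGL F l).range : Set (GL ι F)) := by
  have key : ∀ ε : κ → ℤˣ, g * sgnGL F l (ε ∘ π) = sgnGL F l ε * g := by
    intro ε
    apply Units.ext
    ext i j
    rw [Units.val_mul, Units.val_mul, coe_sgnGL, coe_sgnGL, Matrix.mul_diagonal,
      Matrix.diagonal_mul]
    by_cases h0 : g.1 i j = 0
    · simp [h0]
    · rw [h i j h0, mul_comm]
      rfl
  rw [Subgroup.mem_normalizer_iff]
  intro x
  constructor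
  · rintro ⟨ε, rfl⟩
    refine ⟨ε ∘ π.symm, ?_⟩
    rw [eq_mul_inv_iff_mul_eq, ← key]
    simp [Function.comp_def]
  · rintro ⟨ε, hε⟩
    refine ⟨ε ∘ π, ?_⟩
    rw [eq_mul_inv_iff_mul_eq, ← key] at hε
    exact mul_left_cancel hε

theorem nr_of_card [Finite F] (ho : Odd (Nat.card F)) {d a b : Type} [Fintype d] [DecidableEq d]
    [Fintype a] [DecidableEq a] [Fintype b] [DecidableEq b] [Nonempty d] [Subsingleton b] {n : ℕ}
    (hn : Fintype.card d * Fintype.card a + Fintype.card b = n)
    (hv : padicValNat 2 (Nat.card (GL (Fin n) F)) ≤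
      Fintype.card a * padicValNat 2 (Nat.card (GL d F)) + padicValNat 2 (Fintype.card a).factorial +
        padicValNat 2 (Nat.card (GL b F))) (S : Sylow 2 (GL (Fin n) F)) :
    NR (Fintype.card a + Fintype.card b) S := by
  have h2 := two_ne_zero_of_odd ho
  let l : (d × a) ⊕ b → a ⊕ b := Sum.map Prod.snd id
  have hl : Function.Surjective l := Prod.snd_surjective.sumMap Function.surjective_id
  let E := (sgnGL F l).range
  let K := ((wrGL F d a).prod ⊤).map (blockGL F (d × a) b)
  have hc : Nat.card (GL ((d × a) ⊕ b) F) = Nat.card (GL (Fin n) F) := card_GL_congr (by simp [hn])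
  have hK : K ≤ Subgroup.normalizer (E : Set (GL ((d × a) ⊕ b) F)) := by
    rintro _ ⟨⟨_, y⟩, ⟨hx, -⟩, rfl⟩
    obtain ⟨x, σ, rfl⟩ := mem_wrGL.1 hx
    refine mem_normalizer_sgnGL l (Equiv.sumCongr σ 1) ?_
    rintro (i | i) (j | j) h
    · rw [coe_blockGL, Matrix.fromBlocks_apply₁₁, Units.val_mul, coe_permGL,
        SLn.mul_monoMat_apply, coe_blockDiagGL] at h
      have h1 : i.2 = σ j.2 := by
        by_contra h3
        apply h
        have := Matrix.blockDiagonal_apply_ne (fun k => (x k).1) i.1 j.1 h3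
        exact mul_eq_zero_of_left this _
      simp [l, h1]
    · exact absurd rfl h
    · exact absurd rfl h
    · simp [l, Subsingleton.elim i j]
  have hKi : ¬ 2 ∣ K.index := by
    intro h
    have h1 := K.card_mul_index
    rw [Subgroup.card_map_of_injective blockGL_injective, card_prod', card_wrGL,
      Subgroup.card_top, hc] at h1
    have h3 : K.index ≠ 0 := Subgroup.index_ne_zero_of_finite
    have h4 := one_le_padicValNat_of_dvd h3 h
    have p1 : 0 < Nat.card (GL d F) := Nat.card_pos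
    have p2 : 0 < Nat.card (GL b F) := Nat.card_pos
    rw [← h1, padicValNat.mul (by positivity) h3, padicValNat.mul (by positivity) (by positivity),
      padicValNat.mul (by positivity) (by positivity), padicValNat.pow] at hv
    omega
  obtain ⟨S', hS'⟩ := Alt.exists_sylow_le_of_not_dvd_index hKi
  have hE2 : ∀ x ∈ E, x ^ 2 = 1 := by
    rintro _ ⟨ε, rfl⟩
    rw [← map_pow, ← (sgnGL F l).map_one]
    congr 1
    funext k
    exact Int.units_sq _
  have hE : IsPGroup 2 E := fun x => ⟨1, Subtype.ext (hE2 x x.2)⟩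
  have hES : E ≤ S' := by
    rw [← S'.is_maximal' (S'.isPGroup'.to_sup_of_normal_right' hE (hS'.trans hK)) le_sup_left]
    exact le_sup_right
  obtain ⟨e⟩ := nonempty_sylow_equiv
    ((reindexGL F (Fintype.equivOfCardEq (by simp [hn]) : (d × a) ⊕ b ≃ Fin n)).toMonoidHom.comp
      (S' : Subgroup (GL ((d × a) ⊕ b) F)).subtype)
    ((reindexGL F _).injective.comp Subtype.val_injective)
    (by rw [S'.card_eq_multiplicity, hc]) S
  refine NR.of_equiv ⟨E.subgroupOf S', ?_, ⟨?_, fun x hx => Subtype.ext (hE2 _ hx)⟩, ?_⟩ e.symm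
  · exact (Subgroup.normal_subgroupOf_iff_le_normalizer hES).2 (hS'.trans hK)
  · refine ⟨⟨?_⟩⟩
    rintro ⟨u, x, hx⟩ ⟨v, y, hy⟩
    apply Subtype.ext
    apply Subtype.ext
    change u.1 * v.1 = v.1 * u.1
    replace hx : sgnGL F l x = u.1 := hx
    replace hy : sgnGL F l y = v.1 := hy
    rw [← hx, ← hy, ← map_mul, mul_comm, map_mul]
  · rw [Nat.card_congr (Subgroup.subgroupOfEquivOfLe hES).toEquiv,
      ← Nat.card_congr (MonoidHom.ofInjective (sgnGL_injective h2 hl)).toEquiv, Nat.card_fun]
    simp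

theorem card_range_le {n : ℕ} {β : Type*} (w : Fin n → β)
    (h : Nat.card {i // ∀ j, w j = w i → j = i} ≤ 1) : Nat.card (Set.range w) ≤ (n + 1) / 2 := by
  classical
  have h5 := card_eq_sum_card_image w univ
  have h6 : ∑ b ∈ univ.image w, 2 ≤ ∑ b ∈ univ.image w,
      ((univ.filter fun a => w a = b).card +
        if (univ.filter fun a => w a = b).card = 1 then 1 else 0) := by
    refine sum_le_sum fun b hb => ?_
    obtain ⟨i, -, rfl⟩ := mem_image.1 hb
    have : 0 < (univ.filter fun a => w a = w i).card := card_pos.2 ⟨i, by simp⟩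
    split_ifs <;> omega
  rw [sum_add_distrib, ← h5, ← card_filter, sum_const, smul_eq_mul, card_univ,
    Fintype.card_fin] at h6
  have h7 : ((univ.image w).filter fun b => (univ.filter fun a => w a = b).card = 1).card ≤ 1 := by
    refine le_trans (card_le_card (t := (univ.filter fun i => ∀ j, w j = w i → j = i).image w)
      fun b hb => ?_) (card_image_le.trans (by
        rwa [← Fintype.card_subtype, ← Nat.card_eq_fintype_card]))
    obtain ⟨hb1, hb2⟩ := mem_filter.1 hb
    obtain ⟨i, -, rfl⟩ := mem_image.1 hb1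
    exact mem_image_of_mem _ (mem_filter.2 ⟨mem_univ _, fun j hj =>
      card_le_one.1 hb2.le j (by simp [hj]) i (by simp)⟩)
  rw [Nat.card_eq_fintype_card, ← Set.toFinset_card, Set.toFinset_range]
  omega

theorem upper [Finite F] (ho : Odd (Nat.card F)) {n : ℕ} (S : Sylow 2 (GL (Fin n) F))
    (E : Subgroup (S : Subgroup (GL (Fin n) F))) (hn : E.Normal)
    (hE : Cfsg.IsElementaryAbelian 2 E) :
    ∃ w : Fin n → (E → F), Nat.card E ≤ 2 ^ Nat.card (Set.range w) ∧
      (Nat.card F % 4 = 3 → Nat.card {i // ∀ j, w j = w i → j = i} ≤ 1) := by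
  classical
  have h2 := two_ne_zero_of_odd ho
  obtain ⟨P, d, hP, hd⟩ := exists_conj_diagonal h2 (fun a : E => a.1.1.1)
    (fun a b => congrArg (fun x : E => x.1.1.1) (hE.1.is_comm.comm a b))
    (fun a => by
      have := congrArg (fun x : (S : Subgroup (GL (Fin n) F)) => x.1.1) (hE.2 a.1 a.2)
      rwa [sq] at this)
  let w : Fin n → (E → F) := fun i a => d a i
  refine ⟨w, ?_, fun h3 => ?_⟩
  · refine (Nat.card_le_card_of_injective (β := Set.range w → Prop)
      (fun a μ => μ.1 a = 1) ?_).trans (by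
        rw [Nat.card_fun]
        simp)
    intro a b h
    have h5 : d a = d b := by
      funext i
      have h4 : d a i = 1 ↔ d b i = 1 :=
        iff_of_eq (congrFun h ⟨w i, i, rfl⟩)
      rcases hd a i with h5 | h5
      · rw [h5, h4.1 h5]
      · rcases hd b i with h6 | h6
        · rw [h6, h4.2 h6]
        · rw [h5, h6]
    apply Subtype.ext
    apply Subtype.ext
    apply Units.ext
    exact (Units.mul_left_inj P).1 (by rw [hP a, hP b, h5])
  let p : Fin n → Prop := fun i => ∀ j, w j = w i → j = i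
  let σ : Fin n ≃ {i // p i} ⊕ {i // ¬ p i} := (Equiv.sumCompl p).symm
  let χ : (S : Subgroup (GL (Fin n) F)) →* GL ({i // p i} ⊕ {i // ¬ p i}) F :=
    (reindexGL F σ).toMonoidHom.comp ((MulAut.conj P⁻¹).toMonoidHom.comp (Subgroup.subtype _))
  have hχ : Function.Injective χ :=
    (reindexGL F σ).injective.comp ((MulAut.conj P⁻¹).injective.comp Subtype.val_injective)
  have hle : χ.range ≤ ((monGL F {i // p i}).prod ⊤).map (blockGL F _ {i // ¬ p i}) := by
    rintro _ ⟨s, rfl⟩
    let g : GL (Fin n) F := P⁻¹ * s * P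
    let φ : E ≃* E := MulAut.conjNormal s
    have hg : ∀ i j, g.1 i j ≠ 0 → w i ∘ φ = w j := by
      intro i j h
      funext a
      have h4 : g.1 * Matrix.diagonal (d a) = Matrix.diagonal (d (φ a)) * g.1 := by
        have h5 : (φ a).1.1.1 = s.1.1 * a.1.1.1 * s.1⁻¹.1 := rfl
        have h6 := hP (φ a)
        rw [h5, ← Units.inv_mul_eq_iff_eq_mul] at h6
        rw [← h6, Units.val_mul, Units.val_mul, mul_assoc, ← hP a]
        simp only [mul_assoc, Units.mul_inv_cancel_left, Units.inv_mul_cancel_left]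
      have h5 := congrFun (congrFun h4 i) j
      rw [Matrix.mul_diagonal, Matrix.diagonal_mul, mul_comm] at h5
      exact (mul_right_cancel₀ h h5).symm
    obtain ⟨τ, hτ⟩ := exists_perm_apply_ne_zero (Matrix.GeneralLinearGroup.det_ne_zero g)
    have hw : ∀ i j, g.1 i j ≠ 0 → w i = w (τ j) := fun i j h =>
      φ.surjective.injective_comp_right ((hg i j h).trans (hg _ j (hτ j)).symm)
    have hp : ∀ j, p (τ j) ↔ p j := by
      intro j
      constructor
      · intro h k hk
        refine τ.injective (h _ (φ.surjective.injective_comp_right ?_))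
        exact (hg _ k (hτ k)).trans (hk.trans (hg _ j (hτ j)).symm)
      · intro h k hk
        obtain ⟨k, rfl⟩ := τ.surjective k
        rw [h k (by rw [← hg _ k (hτ k), hk, hg _ j (hτ j)])]
    have hχs : ∀ i j, (χ s).1 i j = g.1 (σ.symm i) (σ.symm j) := by
      intro i j
      change ((P⁻¹ * s * P⁻¹⁻¹ : GL (Fin n) F)).1 _ _ = _
      rw [inv_inv]
    obtain ⟨x, hx⟩ := (mem_range_blockGL (χ s)).2 ⟨by
      ext i j
      by_contra h
      replace h : g.1 i j ≠ 0 := fun h' => h ((hχs _ _).trans h')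
      exact j.2 ((hp j).1 ((i.2 _ (hw _ _ h).symm).symm ▸ i.2)), by
      ext i j
      by_contra h
      replace h : g.1 i j ≠ 0 := fun h' => h ((hχs _ _).trans h')
      exact i.2 ((((hp j).2 j.2) _ (hw _ _ h)).symm ▸ (hp j).2 j.2)⟩
    refine ⟨x, ⟨mem_monGL_of (τ := τ.subtypePerm hp) fun i j h => ?_, trivial⟩, hx⟩
    have h4 : g.1 i j ≠ 0 := by
      intro h'
      apply h
      have := hχs (Sum.inl i) (Sum.inl j)
      rw [← hx] at this
      exact this.trans h'
    exact Subtype.ext (((hp j).2 j.2) _ (hw _ _ h4))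
  have h4 := Subgroup.card_dvd_of_le hle
  rw [← Nat.card_congr (MonoidHom.ofInjective hχ).toEquiv,
    Subgroup.card_map_of_injective blockGL_injective, card_prod', card_monGL,
    Subgroup.card_top, S.card_eq_multiplicity, Nat.factorization_def _ Nat.prime_two] at h4
  have h5 := Subgroup.card_subgroup_dvd_card (blockGL F {i // p i} {i // ¬ p i}).range
  rw [← Nat.card_congr (MonoidHom.ofInjective blockGL_injective).toEquiv, Nat.card_prod,
    ← card_GL_congr (Fintype.card_congr σ)] at h5
  have hq : 0 < Nat.card F - 1 := Nat.sub_pos_of_lt Finite.one_lt_card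
  have p1 : 0 < Nat.card (GL {i // p i} F) := Nat.card_pos
  have p2 : 0 < Nat.card (GL {i // ¬ p i} F) := Nat.card_pos
  have h6 := (padicValNat_dvd_iff_le (p := 2) Nat.card_pos.ne').1 (pow_padicValNat_dvd.trans h5)
  have h7 := (padicValNat_dvd_iff_le (by positivity)).1 h4
  rw [padicValNat.mul (by positivity) (by positivity)] at h6 h7
  rw [padicValNat.mul (by positivity) (by positivity), padicValNat.pow] at h7
  have h8 := v2_card_GL ho {i // p i}
  have h9 : 2 ≤ padicValNat 2 (Nat.card F + 1) :=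
    (padicValNat_dvd_iff_le (Nat.succ_ne_zero _)).1 (by omega)
  have h10 := Nat.mul_le_mul_left (Fintype.card {i // p i} / 2) h9
  change Nat.card {i // p i} ≤ 1
  rw [Nat.card_eq_fintype_card]
  omega

/-- The normal 2-rank of the general linear group over a finite field of odd order q: for n ≥ 1 and S a Sylow 2-subgroup of GL_n(F), the largest rank of an elementary abelian subgroup of S that is normal in S equals n when q ≡ 1 (mod 4) and ⌊(n + 1)/2⌋ when q ≡ 3 (mod 4). -/
theorem result {F : Type*} [Field F] [Fintype F] {q : ℕ} (hF : Fintype.card F = q) (hodd : Odd q) (n : ℕ) (hn : 1 ≤ n) (S : Sylow 2 (Matrix.GeneralLinearGroup (Fin n) F)) :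
    (q % 4 = 1 → ((∃ E : Subgroup ↥(S : Subgroup (Matrix.GeneralLinearGroup (Fin n) F)), E.Normal ∧ Cfsg.IsElementaryAbelian 2 E ∧ 2 ^ (n) ≤ Nat.card ↥E) ∧
      ∀ E : Subgroup ↥(S : Subgroup (Matrix.GeneralLinearGroup (Fin n) F)), E.Normal → Cfsg.IsElementaryAbelian 2 E → Nat.card ↥E ≤ 2 ^ (n))) ∧
    (q % 4 = 3 → ((∃ E : Subgroup ↥(S : Subgroup (Matrix.GeneralLinearGroup (Fin n) F)), E.Normal ∧ Cfsg.IsElementaryAbelian 2 E ∧ 2 ^ ((n + 1) / 2) ≤ Nat.card ↥E) ∧
      ∀ E : Subgroup ↥(S : Subgroup (Matrix.GeneralLinearGroup (Fin n) F)), E.Normal → Cfsg.IsElementaryAbelian 2 E → Nat.card ↥E ≤ 2 ^ ((n + 1) / 2))) := by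
  classical
  rw [← Nat.card_eq_fintype_card] at hF
  subst hF
  refine ⟨fun h => ⟨?_, fun E h1 h2 => ?_⟩, fun h => ⟨?_, fun E h1 h2 => ?_⟩⟩
  · have h1 : padicValNat 2 (Nat.card F + 1) = 1 := by
      have h2 : ¬ 2 ≤ padicValNat 2 (Nat.card F + 1) := fun h' => by
        have := (padicValNat_dvd_iff_le (Nat.succ_ne_zero _)).2 h'
        omega
      have h3 := one_le_padicValNat_of_dvd (p := 2) (Nat.succ_ne_zero (Nat.card F)) (by omega)
      simp only [Nat.succ_eq_add_one] at h3
      omega
    have h2 := nr_of_card hodd (d := Fin 1) (a := Fin n) (b := Fin 0) (n := n) (by simp) (by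
      have h3 := v2_card_GL_fin hodd n
      have h4 := v2_card_GL_fin hodd 1
      rw [h1] at h3
      simp only [Fintype.card_fin] at h3 h4 ⊢
      norm_num [-Nat.card_eq_fintype_card] at h4
      rw [h4]
      omega) S
    rw [Fintype.card_fin, Fintype.card_fin, add_zero] at h2
    exact h2
  · obtain ⟨w, h3, -⟩ := upper hodd S E h1 h2
    exact h3.trans (Nat.pow_le_pow_right two_pos ((Finite.card_range_le w).trans (by simp)))
  · have : Subsingleton (Fin (n % 2)) := Fin.subsingleton_iff_le_one.2 (by omega)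
    have h2 := nr_of_card hodd (d := Fin 2) (a := Fin (n / 2)) (b := Fin (n % 2)) (n := n)
      (by simp [Nat.div_add_mod]) (by
      have h3 := v2_card_GL_fin hodd n
      have h4 := v2_card_GL_fin hodd 2
      have h5 := v2_card_GL_fin hodd (n % 2)
      simp only [Fintype.card_fin] at h3 h4 ⊢
      have h6 : padicValNat 2 n.factorial = padicValNat 2 (n / 2).factorial + n / 2 := by
        rw [← padicValNat_factorial_mul]
        conv_lhs => rw [← Nat.div_add_mod n 2]
        exact padicValNat_factorial_mul_add _ (Nat.mod_lt _ two_pos)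
      norm_num [-Nat.card_eq_fintype_card] at h4
      have h7 : n * padicValNat 2 (Nat.card F - 1) = n / 2 * (2 * padicValNat 2 (Nat.card F - 1)) +
          n % 2 * padicValNat 2 (Nat.card F - 1) := by
        conv_lhs => rw [← Nat.div_add_mod n 2]
        ring
      rw [show n % 2 / 2 = 0 by omega] at h5
      rw [show padicValNat 2 (Nat.card (GL (Fin 2) F)) = 2 * padicValNat 2 (Nat.card F - 1) +
        padicValNat 2 (Nat.card F + 1) by omega, mul_add]
      omega) S
    rw [Fintype.card_fin, Fintype.card_fin, show n / 2 + n % 2 = (n + 1) / 2 by omega] at h2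
    exact h2
  · obtain ⟨w, h3, h4⟩ := upper hodd S E h1 h2
    exact h3.trans (Nat.pow_le_pow_right two_pos (card_range_le w (h4 h)))

end Cfsg.Agent.S2249
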