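import Cfsg.Statements.S2251
import Cfsg.Agent.Lib.Suz.Sub
import Cfsg.Agent.Lib.Suz.Borel

set_option autoImplicit false
open Cfsg

namespace Cfsg.Agent.S2251

open Cfsg.Agent.Suz

/-- The subgroups of the Suzuki group: with q = 2^(2m+1), m ≥ 1, r = 2^m and the group realised as the stabiliser in SL₄ of the Suzuki–Tits ovoid, every proper subgroup is contained in the normalizer of a Sylow 2-subgroup, or in the normalizer of a cyclic subgroup of order q − 1, q + 2r + 1 or q − 2r + 1, or in a subgroup isomorphic to a smaller Suzuki group Sz(s) with s = 2^(2k+1) ≥ 8 and 2k+1 a proper divisor of 2m+1. -/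
theorem result {F : Type*} [Field F] [Fintype F] {m : ℕ} (hm : 1 ≤ m) (hF : Fintype.card F = 2 ^ (2 * m + 1)) (M : Subgroup ↥(Cfsg.Sz F m)) (hM : M ≠ ⊤) :
    (∃ P : Sylow 2 ↥(Cfsg.Sz F m), M ≤ Subgroup.normalizer ((P : Subgroup ↥(Cfsg.Sz F m)) : Set ↥(Cfsg.Sz F m))) ∨
    (∃ U : Subgroup ↥(Cfsg.Sz F m), IsCyclic ↥U ∧ Nat.card ↥U ∈ ({2 ^ (2 * m + 1) - 1, 2 ^ (2 * m + 1) + 2 ^ (m + 1) + 1, 2 ^ (2 * m + 1) - 2 ^ (m + 1) + 1} : Set ℕ) ∧
      M ≤ Subgroup.normalizer (U : Set ↥(Cfsg.Sz F m))) ∨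
    (∃ (K : Type) (_ : Field K) (_ : Fintype K) (k : ℕ), 1 ≤ k ∧ k < m ∧ Fintype.card K = 2 ^ (2 * k + 1) ∧ 2 * k + 1 ∣ 2 * m + 1 ∧
      ∃ S : Subgroup ↥(Cfsg.Sz F m), Nonempty (↥S ≃* ↥(Cfsg.Sz K k)) ∧ M ≤ S) := by
  have := SuzF.of_card hm hF
  rcases subgroup_cases M with ⟨α, hα⟩ | ⟨c, hc, hle⟩ | ⟨x, L, hL, he⟩
  · left
    obtain ⟨x, rfl⟩ := exists_smul_inf_eq α
    obtain ⟨P, hP⟩ := exists_sylow_eq_U (F := F)
    refine ⟨x • P, fun g hg => ?_⟩
    rw [mem_normalizer_of_conj (x := x)]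
    · rw [mem_B, mul_smul, mul_smul, hα g hg, inv_smul_smul]
    · intro k
      rw [Sylow.coe_subgroup_smul, Subgroup.mem_pointwise_smul_iff_inv_smul_mem, hP]
      simp
  · exact Or.inr (Or.inl ⟨_, ss_isCyclic hc, ss_card_cent hc, hle⟩)
  · right; right
    obtain ⟨k, hk, hd⟩ := exists_suzF_subfield L hL
    have hkm : k < m := by
      have h1 := Nat.le_of_dvd (by omega) hd
      by_contra h2
      obtain rfl : k = m := by omega
      have : SuzF (⊤ : Subfield F) k := ⟨inferInstance, by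
        rw [Nat.card_congr (Subfield.topEquiv (K := F)).toEquiv, card_F], hm⟩
      rw [subfield_eq_of_suzF (L := L) (L' := ⊤), subSz_top] at he
      apply hM
      rw [eq_top_iff]
      intro g _
      have : x⁻¹ * g * x ∈ cj x M := by rw [he]; trivial
      simpa [mem_cj, mul_assoc] using this
    have : Fact (Nat.Prime 2) := ⟨Nat.prime_two⟩
    let := Fintype.ofFinite (GaloisField 2 (2 * k + 1))
    have hcard : Fintype.card (GaloisField 2 (2 * k + 1)) = 2 ^ (2 * k + 1) := by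
      rw [← Nat.card_eq_fintype_card, GaloisField.card 2 _ (by omega)]
    have := SuzF.of_card hk.one_le hcard
    let := Fintype.ofFinite L
    have e : GaloisField 2 (2 * k + 1) ≃+* L := FiniteField.ringEquivOfCardEq (by
      rw [hcard, ← Nat.card_eq_fintype_card, card_F])
    refine ⟨GaloisField 2 (2 * k + 1), inferInstance, inferInstance, k, hk.one_le, hkm, hcard, hd,
      M, ?_, le_rfl⟩
    obtain ⟨e1⟩ := nonempty_subSz_equiv (m := m) (L.subtype.comp e.toRingHom) hd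
    have h2 : (L.subtype.comp e.toRingHom).fieldRange = L := by
      ext y
      constructor
      · rintro ⟨z, rfl⟩; exact (e z).2
      · intro hy; exact ⟨e.symm ⟨y, hy⟩, by simp⟩
    rw [h2, ← he] at e1
    refine ⟨MulEquiv.trans ?_ e1⟩
    exact ((MulAut.conj x).symm.subgroupMap M).trans
      (MulEquiv.subgroupCongr (Subgroup.map_equiv_eq_comap_symm' _ _))

end Cfsg.Agent.S2251
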