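import Cfsg.Statements.S2254
import Cfsg.Agent.Lib.Alt.Nilp3

set_option autoImplicit false
open Cfsg

namespace Cfsg.Agent.S2254

open Cfsg.Agent.Alt Equiv Equiv.Perm

/-- Let n ≡ 3 (mod 4). Then every nilpotent subgroup of the symmetric group on n letters has order at most 3 times the order of a Sylow 2-subgroup of the symmetric group on n − 3 letters; the bound is attained by a nilpotent subgroup isomorphic to the direct product of such a Sylow 2-subgroup with a cyclic group of order 3; and any two nilpotent subgroups attaining the bound are conjugate. -/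
theorem result  (n : ℕ) (hn : n % 4 = 3)
    (P : Sylow 2 (Equiv.Perm (Fin (n - 3)))) :
    (∀ N : Subgroup (Equiv.Perm (Fin n)), Group.IsNilpotent N → Nat.card N ≤ 3 * Nat.card P) ∧
    (∃ M : Subgroup (Equiv.Perm (Fin n)), Group.IsNilpotent M ∧ Nat.card M = 3 * Nat.card P ∧
      Nonempty (M ≃* (↥(P : Subgroup (Equiv.Perm (Fin (n - 3)))) × Multiplicative (ZMod 3)))) ∧
    (∀ N₁ N₂ : Subgroup (Equiv.Perm (Fin n)), Group.IsNilpotent N₁ → Group.IsNilpotent N₂ →
      Nat.card N₁ = 3 * Nat.card P → Nat.card N₂ = 3 * Nat.card P →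
      ∃ g : Equiv.Perm (Fin n), N₂ = N₁.map (MulAut.conj g).toMonoidHom) := by
  have hP := card_sylow_two_perm P
  rw [Fintype.card_fin] at hP
  have hc : Fintype.card (Fin n) = n := Fintype.card_fin n
  refine ⟨fun N hN => ?_, ?_, fun N₁ N₂ h1 h2 h3 h4 => ?_⟩
  · have h := nil_card_le N hN
    rwa [hc, nilF_of_eq hn, ← hP] at h
  · have hi : Function.Injective ((addThree (n - 3) n (by omega)).comp
        ((P : Subgroup (Perm (Fin (n - 3)))).subtype.prodMap (MonoidHom.id _))) :=
      (addThree_injective _ _ (by omega)).comp (Subtype.coe_injective.prodMap Function.injective_id)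
    have e := MonoidHom.ofInjective hi
    have := P.isPGroup'.isNilpotent
    refine ⟨_, Group.nilpotent_of_mulEquiv e, ?_, ⟨e.symm⟩⟩
    rw [← Nat.card_congr e.toEquiv, Nat.card_prod, mul_comm]
    simp
  · rw [hP] at h3 h4
    obtain ⟨z₁, hz₁, Q₁, a1, b1, rfl⟩ := nil_three_struct h1 h3
    obtain ⟨z₂, hz₂, Q₂, a2, b2, rfl⟩ := nil_three_struct h2 h4
    have t1 := isThreeCycle_of_dvd (hc.symm ▸ hn) hz₁ (by rw [hc]; exact Nat.le_succ _)
      (a1 ▸ Subgroup.card_dvd_of_le b1)
    have t2 := isThreeCycle_of_dvd (hc.symm ▸ hn) hz₂ (by rw [hc]; exact Nat.le_succ _)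
      (a2 ▸ Subgroup.card_dvd_of_le b2)
    refine conj_of_three a1 a2 b1 b2 (isConj_iff_cycleType_eq.2 (t1.trans t2.symm)) fun h => ?_
    rw [card_centralizer_threeCycle t2, hc] at h
    have h5 := (Nat.prime_two.pow_dvd_iff_le_factorization (Nat.factorial_ne_zero _)).1
      (Nat.Coprime.dvd_of_dvd_mul_right (Nat.Coprime.pow_left _ (by norm_num)) h)
    simp only [vF] at h5
    omega

end Cfsg.Agent.S2254
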