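import Cfsg.Statements.S2255
import Cfsg.Agent.Lib.Alt.Nilp

set_option autoImplicit false
open Cfsg

namespace Cfsg.Agent.S2255

open Cfsg.Agent.Alt

/-- Let n be a natural number not congruent to 3 modulo 4, with n ∉ {5, 6, 9}. Then every nilpotent subgroup of the alternating group on n letters has order at most the order of a Sylow 2-subgroup of the alternating group (so the nilpotent subgroups of largest order are exactly the Sylow 2-subgroups). -/
theorem result  (n : ℕ) (hn : n % 4 ≠ 3)
    (h5 : n ≠ 5) (h6 : n ≠ 6) (h9 : n ≠ 9)
    (N : Subgroup (alternatingGroup (Fin n))) (hN : Group.IsNilpotent N)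
    (P : Sylow 2 (alternatingGroup (Fin n))) :
    Nat.card N ≤ Nat.card P := by
  have h := nil_card_alt N hN
  rw [Fintype.card_fin] at h
  have h0 : 0 < Nat.card P := Nat.card_pos
  rcases h with h | h | h | h | h | h | h
  · by_cases h2 : 2 ≤ n
    · have h3 := card_sylow_two_alt (by simpa using h2) P
      rw [Fintype.card_fin, ← nilF_of_ne hn] at h3
      omega
    · have h3 : n = 0 ∨ n = 1 := by omega
      obtain ⟨v0, v1, -⟩ := nilF_vals
      rcases h3 with rfl | rfl <;> omega
  all_goals omega

end Cfsg.Agent.S2255
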