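import Cfsg.Statements.S2256
import Cfsg.Agent.Lib.Alt.Nilp3

set_option autoImplicit false
open Cfsg

namespace Cfsg.Agent.S2256

open Cfsg.Agent.Alt Equiv Equiv.Perm

theorem card_cent {α : Type*} [Fintype α] [DecidableEq α] (z : alternatingGroup α) :
    Nat.card (Subgroup.centralizer ({z} : Set (alternatingGroup α))) =
      Nat.card (Subgroup.centralizer ({z.1} : Set (Perm α)) ⊓ alternatingGroup α :
        Subgroup (Perm α)) := by
  rw [← Subgroup.card_map_of_injective (alternatingGroup α).subtype_injective]
  congr 2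
  ext x
  simp only [Subgroup.mem_map, Subgroup.mem_centralizer_singleton_iff, Subgroup.mem_inf]
  constructor
  · rintro ⟨y, hy, rfl⟩
    exact ⟨congrArg Subtype.val hy, y.2⟩
  · rintro ⟨h1, h2⟩
    exact ⟨⟨x, h2⟩, Subtype.ext h1, rfl⟩

/-- Let n ≡ 3 (mod 4) with n ≥ 7. Then every nilpotent subgroup of the alternating group on n letters has order at most 3 times the order of a Sylow 2-subgroup of the alternating group on n − 3 letters; the bound is attained by a nilpotent subgroup isomorphic to the direct product of such a Sylow 2-subgroup with a cyclic group of order 3; and any two nilpotent subgroups of the alternating group attaining the bound are conjugate in it. -/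
theorem result  (n : ℕ) (hn : n % 4 = 3) (h7 : 7 ≤ n)
    (P : Sylow 2 (alternatingGroup (Fin (n - 3)))) :
    (∀ N : Subgroup (alternatingGroup (Fin n)), Group.IsNilpotent N → Nat.card N ≤ 3 * Nat.card P) ∧
    (∃ M : Subgroup (alternatingGroup (Fin n)), Group.IsNilpotent M ∧ Nat.card M = 3 * Nat.card P ∧
      Nonempty (M ≃* (↥(P : Subgroup (alternatingGroup (Fin (n - 3)))) × Multiplicative (ZMod 3)))) ∧
    (∀ N₁ N₂ : Subgroup (alternatingGroup (Fin n)), Group.IsNilpotent N₁ → Group.IsNilpotent N₂ →
      Nat.card N₁ = 3 * Nat.card P → Nat.card N₂ = 3 * Nat.card P →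
      ∃ g : alternatingGroup (Fin n), N₂ = N₁.map (MulAut.conj g).toMonoidHom) := by
  have hP := card_sylow_two_alt (by rw [Fintype.card_fin]; omega) P
  rw [Fintype.card_fin] at hP
  have hc : Fintype.card (Fin n) = n := Fintype.card_fin n
  refine ⟨fun N hN => ?_, ?_, fun N₁ N₂ h1 h2 h3 h4 => ?_⟩
  · have h := nil_card_alt N hN
    rw [hc, NilE, nilF_of_eq hn, ← hP] at h
    omega
  · have hi : Function.Injective (((addThree (n - 3) n (by omega)).comp
        (((alternatingGroup _).subtype.comp
          (P : Subgroup (alternatingGroup (Fin (n - 3)))).subtype).prodMap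
          (MonoidHom.id _))).codRestrict (alternatingGroup (Fin n)) (fun x => by
            rw [mem_alternatingGroup, MonoidHom.comp_apply, sign_addThree]
            exact x.1.1.2)) := by
      rw [MonoidHom.injective_codRestrict]
      exact (addThree_injective _ _ (by omega)).comp
        ((Subtype.coe_injective.comp Subtype.coe_injective).prodMap Function.injective_id)
    have e := MonoidHom.ofInjective hi
    have := P.isPGroup'.isNilpotent
    refine ⟨_, Group.nilpotent_of_mulEquiv e, ?_, ⟨e.symm⟩⟩
    rw [← Nat.card_congr e.toEquiv, Nat.card_prod, mul_comm]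
    simp
  · obtain ⟨e, he⟩ := P.isPGroup'.exists_card_eq
    have he' : Nat.card P = 2 ^ e := he
    rw [he', ← pow_succ'] at hP
    have he2 : e + 1 = vF (n - 3) := Nat.pow_right_injective le_rfl hP
    rw [he'] at h3 h4
    obtain ⟨z₁, hz₁, Q₁, a1, b1, rfl⟩ := nil_three_struct h1 h3
    obtain ⟨z₂, hz₂, Q₂, a2, b2, rfl⟩ := nil_three_struct h2 h4
    have t1 := isThreeCycle_of_dvd (hc.symm ▸ hn) ((Subgroup.orderOf_coe z₁).trans hz₁)
      (by rw [hc]; exact he2.ge) ((a1 ▸ Subgroup.card_dvd_of_le b1).trans
        (card_cent z₁ ▸ Subgroup.card_dvd_of_le inf_le_left))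
    have t2 := isThreeCycle_of_dvd (hc.symm ▸ hn) ((Subgroup.orderOf_coe z₂).trans hz₂)
      (by rw [hc]; exact he2.ge) ((a2 ▸ Subgroup.card_dvd_of_le b2).trans
        (card_cent z₂ ▸ Subgroup.card_dvd_of_le inf_le_left))
    refine conj_of_three a1 a2 b1 b2 (alternatingGroup.isThreeCycle_isConj (by simp; omega) t1 t2)
      fun h => ?_
    rw [card_cent] at h
    have h5 : (Subgroup.centralizer ({z₂.1} : Set (Perm (Fin n))) ⊓ alternatingGroup (Fin n)) <
        Subgroup.centralizer ({z₂.1} : Set (Perm (Fin n))) := by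
      refine lt_of_le_of_ne inf_le_left fun h6 => ?_
      obtain ⟨a, ha, b, hb, ab⟩ := Finset.one_lt_card.1
        (show 1 < z₂.1.supportᶜ.card by rw [Finset.card_compl, t2.card_support, hc]; omega)
      have h7 : swap a b ∈ Subgroup.centralizer ({z₂.1} : Set (Perm (Fin n))) := by
        rw [Subgroup.mem_centralizer_singleton_iff]
        refine (Disjoint.commute ?_).eq
        rw [disjoint_iff_disjoint_support, support_swap ab]
        simp only [Finset.disjoint_insert_left, Finset.disjoint_singleton_left]
        exact ⟨Finset.mem_compl.1 ha, Finset.mem_compl.1 hb⟩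
      have h8 := mem_alternatingGroup.1 ((h6.symm ▸ h7 :
        swap a b ∈ Subgroup.centralizer ({z₂.1} : Set (Perm (Fin n))) ⊓ alternatingGroup (Fin n))).2
      rw [sign_swap ab] at h8
      exact absurd h8 (by decide)
    have h6 : 2 * Nat.card (Subgroup.centralizer ({z₂.1} : Set (Perm (Fin n))) ⊓
        alternatingGroup (Fin n) : Subgroup (Perm (Fin n))) ∣
        Nat.card (Subgroup.centralizer ({z₂.1} : Set (Perm (Fin n)))) := by
      have : Nontrivial (Fin n) := Fin.nontrivial_iff_two_le.2 (by omega)
      set C := Subgroup.centralizer ({z₂.1} : Set (Perm (Fin n)))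
      have h7 : (C ⊓ alternatingGroup (Fin n)).relIndex C ∣ 2 := by
        rw [Subgroup.inf_relIndex_left, ← alternatingGroup.index_eq_two (α := Fin n)]
        exact Subgroup.relIndex_dvd_index_of_normal _ _
      have h8 := ((Nat.dvd_prime Nat.prime_two).1 h7).resolve_left
        fun h9 => h5.not_ge (Subgroup.relIndex_eq_one.1 h9)
      rw [← h8, ← Nat.card_congr (Subgroup.subgroupOfEquivOfLe h5.le).toEquiv]
      exact (Subgroup.index_mul_card _).dvd
    have h7 := (Nat.mul_dvd_mul_left 2 h).trans h6
    rw [card_centralizer_threeCycle t2, hc, ← pow_succ'] at h7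
    have h8 := (Nat.prime_two.pow_dvd_iff_le_factorization (Nat.factorial_ne_zero _)).1
      (Nat.Coprime.dvd_of_dvd_mul_right (Nat.Coprime.pow_left _ (by norm_num)) h7)
    simp only [vF] at he2
    omega

end Cfsg.Agent.S2256
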