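import Cfsg.Statements.S2257
import Cfsg.Agent.Lib.SL2.Solv

set_option autoImplicit false
open Cfsg

namespace Cfsg.Agent.S2257

open Cfsg.Agent.SL2 Matrix
open scoped MatrixGroups

/-- Let G = PSL_2(F) with F a field of order q = 2^p, p prime, and for x ∈ G call the solubilizer of x the set of y ∈ G such that x and y generate a solvable subgroup. Then the solubilizer of an involution has 3q(q − 1) elements; that of a non-identity element of order dividing q − 1 has 2q(q − 1) elements; and that of a non-identity element of order dividing q + 1 has 2(q + 1) elements. -/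
theorem result (p : ℕ) (hp : p.Prime) {F : Type*} [Field F] [Fintype F]
    (hF : Fintype.card F = 2 ^ p) (x : Matrix.ProjectiveSpecialLinearGroup (Fin 2) F) :
    (orderOf x = 2 → Nat.card {y : Matrix.ProjectiveSpecialLinearGroup (Fin 2) F // Group.IsSolvable ↥(Subgroup.closure ({x, y} : Set (Matrix.ProjectiveSpecialLinearGroup (Fin 2) F)))} = 3 * 2 ^ p * (2 ^ p - 1)) ∧
    (x ≠ 1 → orderOf x ∣ 2 ^ p - 1 → Nat.card {y : Matrix.ProjectiveSpecialLinearGroup (Fin 2) F // Group.IsSolvable ↥(Subgroup.closure ({x, y} : Set (Matrix.ProjectiveSpecialLinearGroup (Fin 2) F)))} = 2 * 2 ^ p * (2 ^ p - 1)) ∧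
    (x ≠ 1 → orderOf x ∣ 2 ^ p + 1 → Nat.card {y : Matrix.ProjectiveSpecialLinearGroup (Fin 2) F // Group.IsSolvable ↥(Subgroup.closure ({x, y} : Set (Matrix.ProjectiveSpecialLinearGroup (Fin 2) F)))} = 2 * (2 ^ p + 1)) := by
  have hq : Nat.card F = 2 ^ p := by rw [Nat.card_eq_fintype_card, hF]
  have hev : Even (2 ^ p) := (Nat.even_pow.2 ⟨even_two, hp.ne_zero⟩)
  have h2 : (2 : F) = 0 := even_card_iff.1 (hq ▸ hev)
  have : CharP F 2 := (CharP.charP_iff_prime_eq_zero Nat.prime_two).2 (by exact_mod_cast h2)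
  obtain ⟨g, rfl⟩ := pr_surjective x
  have key : ∀ g' : SL(2, F), IsConj g g' → Nat.card {y : PSL(2, F) //
      Group.IsSolvable (Subgroup.closure ({pr g, y} : Set PSL(2, F)))} = Nat.card {y : SL(2, F) // Sv g' y} := by
    intro g' h
    rw [card_sol_conj (pr.map_isConj h), ← card_sol_mul, Subgroup.card_eq_one.2 (center_SL_even h2), mul_one]
  have hpos : 1 ≤ 2 ^ p := Nat.one_le_two_pow
  have hcop : ∀ n, n ∣ 2 ^ p - 1 → n ∣ 2 ^ p + 1 → n = 1 := by
    intro n h1 h3
    have h4 : n ∣ 2 := by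
      have := (Nat.dvd_sub h3 h1)
      rwa [show 2 ^ p + 1 - (2 ^ p - 1) = 2 by omega] at this
    rcases (Nat.dvd_prime Nat.prime_two).1 h4 with h | h
    · exact h
    · subst h; obtain ⟨k, hk⟩ := hev; omega
  refine ⟨fun h => ?_, fun h1 h => ?_, fun h1 h => ?_⟩
  · obtain ⟨hs, ht⟩ := orderOf_pr_eq_two_iff.1 h
    obtain ⟨b, hb, hc⟩ := isConj_up hs (by rw [ht, h2])
    rw [key _ hc, card_sv_up_even h2 hb, hq]
  · rcases SL_trace_cases g.1.trace with ht | ⟨a, ha, ht⟩ | ht
    · exfalso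
      have := orderOf_dvd_of_pow_eq_one (show pr g ^ (2 ^ p + 1) = 1 by
        rw [← map_pow, ← hq, SL_pow_of_noRoot ht, map_one])
      exact h1 (orderOf_eq_one_iff.1 (hcop _ h this))
    · rw [key _ (isConj_dg ha ht), card_sv_dg ha ?_ (Or.inl h2), hq]
      intro h0
      apply trace_sq_ne_of_sq_ne ha
      rw [← trace_dg, h0]; linear_combination -2 * h2
    · exfalso
      rw [orderOf_pr_eq_char 2 (fun h => h1 (pr_eq_one_iff.2 h)) ht] at h
      obtain ⟨k, hk⟩ := hev; omega
  · rcases SL_trace_cases g.1.trace with ht | ⟨a, ha, ht⟩ | ht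
    · rw [key _ (IsConj.refl g), card_sv_noRoot ht ?_ (Or.inl h2), hq]
      intro h0
      apply SL_trace_sq_ne_of_noRoot ht
      rw [h0]; linear_combination -2 * h2
    · exfalso
      have := orderOf_dvd_of_pow_eq_one (show pr g ^ (2 ^ p - 1) = 1 by
        rw [← map_pow, ← hq, SL_pow_of_split ha ht, map_one])
      exact h1 (orderOf_eq_one_iff.1 (hcop _ this h))
    · exfalso
      rw [orderOf_pr_eq_char 2 (fun h => h1 (pr_eq_one_iff.2 h)) ht] at h
      obtain ⟨k, hk⟩ := hev; omega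

end Cfsg.Agent.S2257
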