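import Cfsg.Statements.S2258
import Cfsg.Agent.Lib.SL2.Solv

set_option autoImplicit false
open Cfsg

namespace Cfsg.Agent.S2258

open Cfsg.Agent.SL2 Matrix
open scoped MatrixGroups

/-- Let G = PSL_2(F) with F a field of order q = 3^p, p an odd prime, and for x ∈ G call the solubilizer of x the set of y ∈ G such that x and y generate a solvable subgroup. Then the solubilizer of an involution has q(q + 1) elements; that of an element of order 3 has q(q + 5)/2 elements; that of an element of order neither 1 nor 2 dividing q − 1 has q(q − 1) elements; and that of an element of order neither 1 nor 2 dividing q + 1 has q + 1 elements. -/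
theorem result (p : ℕ) (hp : p.Prime) (hodd : Odd p) {F : Type*} [Field F] [Fintype F]
    (hF : Fintype.card F = 3 ^ p) (x : Matrix.ProjectiveSpecialLinearGroup (Fin 2) F) :
    (orderOf x = 2 → Nat.card {y : Matrix.ProjectiveSpecialLinearGroup (Fin 2) F // Group.IsSolvable ↥(Subgroup.closure ({x, y} : Set (Matrix.ProjectiveSpecialLinearGroup (Fin 2) F)))} = 3 ^ p * (3 ^ p + 1)) ∧
    (orderOf x = 3 → 2 * Nat.card {y : Matrix.ProjectiveSpecialLinearGroup (Fin 2) F // Group.IsSolvable ↥(Subgroup.closure ({x, y} : Set (Matrix.ProjectiveSpecialLinearGroup (Fin 2) F)))} = 3 ^ p * (3 ^ p + 5)) ∧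
    (x ≠ 1 → orderOf x ≠ 2 → orderOf x ∣ 3 ^ p - 1 → Nat.card {y : Matrix.ProjectiveSpecialLinearGroup (Fin 2) F // Group.IsSolvable ↥(Subgroup.closure ({x, y} : Set (Matrix.ProjectiveSpecialLinearGroup (Fin 2) F)))} = 3 ^ p * (3 ^ p - 1)) ∧
    (x ≠ 1 → orderOf x ≠ 2 → orderOf x ∣ 3 ^ p + 1 → Nat.card {y : Matrix.ProjectiveSpecialLinearGroup (Fin 2) F // Group.IsSolvable ↥(Subgroup.closure ({x, y} : Set (Matrix.ProjectiveSpecialLinearGroup (Fin 2) F)))} = 3 ^ p + 1) := by
  have hq : Nat.card F = 3 ^ p := by rw [Nat.card_eq_fintype_card, hF]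
  have h3 : (3 : F) = 0 := by
    have := Nat.cast_card_eq_zero F
    rw [hF] at this
    push_cast at this
    exact pow_eq_zero_iff hp.ne_zero |>.1 this
  have : Fact (Nat.Prime 3) := ⟨Nat.prime_three⟩
  have : CharP F 3 := (CharP.charP_iff_prime_eq_zero Nat.prime_three).2 (by exact_mod_cast h3)
  have h2 : (2 : F) ≠ 0 := fun h => one_ne_zero (α := F) (by linear_combination h3 - h)
  have hsq : ¬ IsSquare (-1 : F) := by
    rw [FiniteField.isSquare_neg_one_iff, hF, not_not]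
    obtain ⟨k, rfl⟩ := hodd
    rw [pow_succ, pow_mul, Nat.mul_mod, Nat.pow_mod]
    simp
  obtain ⟨g, rfl⟩ := pr_surjective x
  have key : ∀ g' : SL(2, F), IsConj (pr g) (pr g') → Nat.card {y : PSL(2, F) //
      Group.IsSolvable (Subgroup.closure ({pr g, y} : Set PSL(2, F)))} * 2 = Nat.card {y : SL(2, F) // Sv g' y} := by
    intro g' h
    rw [card_sol_conj h, ← card_sol_mul, card_center_SL_odd h2]
  have hpos : 1 ≤ 3 ^ p := Nat.one_le_pow _ _ (by norm_num)
  have hdvd : 3 ∣ 3 ^ p := dvd_pow_self 3 hp.ne_zero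
  have hcop : ∀ n, n ∣ 3 ^ p - 1 → n ∣ 3 ^ p + 1 → n = 1 ∨ n = 2 := by
    intro n h1 h3
    have h4 : n ∣ 2 := by
      have := (Nat.dvd_sub h3 h1)
      rwa [show 3 ^ p + 1 - (3 ^ p - 1) = 2 by omega] at this
    exact (Nat.dvd_prime Nat.prime_two).1 h4
  have ho1 : ∀ a : Fˣ, (a : F) ^ 2 ≠ 1 → g.1.trace = a + (a : F)⁻¹ → orderOf (pr g) ∣ 3 ^ p - 1 :=
    fun a ha ht => orderOf_dvd_of_pow_eq_one (by rw [← map_pow, ← hq, SL_pow_of_split ha ht, map_one])
  have ho2 : (∀ c : F, c ^ 2 - g.1.trace * c + 1 ≠ 0) → orderOf (pr g) ∣ 3 ^ p + 1 :=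
    fun ht => orderOf_dvd_of_pow_eq_one (by rw [← map_pow, ← hq, SL_pow_of_noRoot ht, map_one])
  refine ⟨fun h => ?_, fun h => ?_, fun h1 h2' h => ?_, fun h1 h2' h => ?_⟩
  · obtain ⟨hs, ht⟩ := orderOf_pr_eq_two_iff.1 h
    have := key wt (pr.map_isConj (SL_isConj_of_trace' (by rw [ht]; simp [trace_fin_two])
      (trace_sq_ne_of_trace_eq_zero h2 ht)))
    rw [card_sv_wt h3 hsq, hq] at this
    omega
  · have hs : ¬ IsScal g.1 := fun hs => by rw [pr_eq_one_iff.2 hs] at h; simp at h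
    rcases SL_trace_cases g.1.trace with ht | ⟨a, ha, ht⟩ | ht
    · have := ho2 ht
      rw [h] at this; omega
    · have := ho1 a ha ht
      rw [h] at this; omega
    · obtain ⟨b, hb, hc⟩ : ∃ b : F, b ≠ 0 ∧ IsConj (pr g) (pr (up b)) := by
        rcases trace_eq_or_of_sq ht with ht | ht
        · obtain ⟨b, hb, hc⟩ := isConj_up hs ht
          exact ⟨b, hb, pr.map_isConj hc⟩
        · obtain ⟨b, hb, hc⟩ := isConj_neg_up hs ht
          exact ⟨b, hb, pr_neg (up b) ▸ pr.map_isConj hc⟩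
      rw [mul_comm, key _ hc, card_sv_up_three h3 hsq hb, hq]
  · have hs : ¬ IsScal g.1 := fun hs => h1 (pr_eq_one_iff.2 hs)
    have ht0 : g.1.trace ≠ 0 := fun h0 => h2' (orderOf_pr_eq_two_iff.2 ⟨hs, h0⟩)
    rcases SL_trace_cases g.1.trace with ht | ⟨a, ha, ht⟩ | ht
    · rcases hcop _ h (ho2 ht) with h | h
      · exact absurd (orderOf_eq_one_iff.1 h) h1
      · exact absurd h h2'
    · have := key _ (pr.map_isConj (isConj_dg ha ht))
      rw [card_sv_dg ha (by rw [trace_dg, ← ht]; exact ht0) (Or.inr ⟨h3, hsq⟩), hq, mul_assoc] at this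
      omega
    · rw [orderOf_pr_eq_char 3 hs ht] at h
      omega
  · have hs : ¬ IsScal g.1 := fun hs => h1 (pr_eq_one_iff.2 hs)
    have ht0 : g.1.trace ≠ 0 := fun h0 => h2' (orderOf_pr_eq_two_iff.2 ⟨hs, h0⟩)
    rcases SL_trace_cases g.1.trace with ht | ⟨a, ha, ht⟩ | ht
    · have := key _ (IsConj.refl _)
      rw [card_sv_noRoot ht ht0 (Or.inr ⟨h3, hsq⟩), hq] at this
      omega
    · rcases hcop _ (ho1 a ha ht) h with h | h
      · exact absurd (orderOf_eq_one_iff.1 h) h1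
      · exact absurd h h2'
    · rw [orderOf_pr_eq_char 3 hs ht] at h
      omega

end Cfsg.Agent.S2258
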