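import Cfsg.Statements.S2259
import Cfsg.Agent.Lib.Suz.Solv
import Cfsg.Agent.Lib.Suz.Wp
import Cfsg.Agent.Lib.Suz.Iso

set_option autoImplicit false
open Cfsg

namespace Cfsg.Agent.S2259

open Cfsg.Agent.Suz

open Finset hiding inf
open scoped Classical

variable {F : Type*} [Field F] {m : ℕ} [h : SuzF F m]

noncomputable instance fintypeG : Fintype (G F m) := Fintype.ofFinite _
noncomputable instance fintypePt : Fintype (Pt F m) := Fintype.ofFinite _

/-- Conjugates of `c` commuting with `c`. -/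
noncomputable def SS (c : G F m) : Finset (G F m) := {d | IsConj c d ∧ d * c = c * d}
/-- Fixed points. -/
noncomputable def Fx (c : G F m) : Finset (Pt F m) := {α | c • α = α}
/-- The solubilizer. -/
noncomputable def SolS (x : G F m) : Finset (G F m) := {y | Sol x y}
/-- Involutions outside the Borel subgroup. -/
noncomputable def JJ (F : Type*) [Field F] {m : ℕ} [SuzF F m] : Finset (G F m) :=
  {j | j * j = 1 ∧ j ∉ B F}

theorem card_sub (K : Subgroup (G F m)) : #{g | g ∈ K} = Nat.card K := by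
  rw [Nat.card_eq_fintype_card, Fintype.card_subtype]

theorem ne_inv {c : G F m} (hc : tr c ≠ 0) : c ≠ c⁻¹ := fun he =>
  ne_one_of_tr hc (eq_one_of_sq_of_comm hc rfl (mul_eq_one_iff_eq_inv.mpr he))

theorem card_SS_fpf {c : G F m} (hc : FPF c) : #(SS c) = 4 := by
  have h0 := hc.tr_ne_zero
  have h1 := hc.pow_q_sq
  have h2 := tr_pow_q c
  have h3 := fun d => hc.eq_pow_of_tr_eq (c := d)
  generalize 2 ^ (2 * m + 1) = q at h1 h2 h3
  have h4 : c ^ q ^ 3 = (c ^ q)⁻¹ := by rw [pow_succ, pow_mul, h1, inv_pow]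
  have h5 : (c ^ q) ^ q = c⁻¹ := by rw [← pow_mul, ← sq, h1]
  have h6 : c ≠ c ^ q := fun he => ne_inv h0 (by rw [← h5, ← he, ← he])
  have h7 : c ≠ (c ^ q)⁻¹ := fun he => ne_inv h0 (by
    have h8 : c ^ q = c⁻¹ := by rw [eq_comm, inv_eq_iff_eq_inv]; exact he
    rw [← h5, h8, inv_pow, h8, inv_inv])
  rw [h4, h1] at h3
  refine card_eq_four.mpr ⟨c, c ^ q, c⁻¹, (c ^ q)⁻¹, h6, ne_inv h0, h7, ?_,
    ne_inv (h2 ▸ h0), inv_injective.ne h6, ?_⟩
  · intro he; apply h7; rw [he, inv_inv]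
  · ext d
    simp only [SS, mem_filter, mem_univ, true_and, mem_insert, mem_singleton]
    refine ⟨fun hd => h3 d hd.2 (tr_eq_of_isConj hd.1).symm, ?_⟩
    rintro (rfl | rfl | rfl | rfl) <;>
      exact ⟨isConj_of_tr_eq h0 (by simp only [tr_inv, h2]), by group⟩

theorem card_SS_add {c : G F m} (hc : tr c ≠ 0) :
    (#(SS c) = 2 ∧ #(Fx c) = 2) ∨ (#(SS c) = 4 ∧ #(Fx c) = 0) := by
  rcases ss_cases hc with ⟨x, μ, hμ, rfl⟩ | hf
  · refine Or.inl ⟨card_eq_two.mpr ⟨_, _, ne_inv hc, ?_⟩,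
      card_eq_two.mpr ⟨x • inf, x • pt 0 0, by simp, ?_⟩⟩
    · ext d
      simp only [SS, mem_filter, mem_univ, true_and, mem_insert, mem_singleton]
      refine ⟨fun hd => eq_or_eq_inv_of_hh hμ hd.1 hd.2, ?_⟩
      rintro (rfl | rfl) <;> exact ⟨isConj_of_tr_eq hc (by simp only [tr_inv]), by group⟩
    · ext α
      simp only [Fx, mem_filter, mem_univ, true_and, mem_insert, mem_singleton]
      constructor
      · intro he
        rw [mul_smul, mul_smul, smul_eq_iff_eq_inv_smul] at he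
        simpa only [inv_smul_eq_iff] using hh_fix hμ he
      · rintro (rfl | rfl) <;> simp [mul_smul]
  · exact Or.inr ⟨card_SS_fpf hf, by
      rw [Fx, card_eq_zero, filter_eq_empty_iff]; exact fun α _ => hf α⟩

theorem card_NT {c : G F m} (hc : tr c ≠ 0) :
    Nat.card (NT c) = #(SS c) * Nat.card (Subgroup.centralizer ({c} : Set (G F m))) := by
  rw [← card_sub, ← card_sub, card_eq_sum_card_fiberwise (f := fun g => g * c * g⁻¹) (t := SS c)
    (fun g hg => mem_coe.mpr (mem_filter.mpr ⟨mem_univ _, isConj_iff.mpr ⟨g, rfl⟩,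
      NT_conj_comm (mem_filter.mp (mem_coe.mp hg)).2 rfl⟩)), ← smul_eq_mul, ← sum_const]
  refine sum_congr rfl fun d hd => ?_
  simp only [SS, mem_filter, mem_univ, true_and, isConj_iff] at hd
  obtain ⟨⟨g, rfl⟩, hg⟩ := hd
  refine card_bij' (fun k _ => g⁻¹ * k) (fun k _ => g * k) (fun k hk => ?_) (fun k hk => ?_)
    (by simp) (by simp)
  · simp only [mem_filter, mem_univ, true_and, mem_cent] at hk ⊢
    calc g⁻¹ * k * c = g⁻¹ * (k * c * k⁻¹) * k := by group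
      _ = _ := by rw [hk.2]; group
  · simp only [mem_filter, mem_univ, true_and, mem_cent, mem_NT_iff hc] at hk ⊢
    have : g * k * c * (g * k)⁻¹ = g * c * g⁻¹ := by rw [mul_assoc g k, hk]; group
    rw [this]
    exact ⟨hg, rfl⟩

theorem mul_comm_of_invol {c i j : G F m} (hc : tr c ≠ 0) (hi : i * i = 1) (hi1 : i ≠ 1)
    (hiN : i ∈ NT c) (hj : j * j = 1) (hj1 : j ≠ 1) (hjN : j ∈ NT c) : j * i * c = c * (j * i) := by
  have h1 := invol_inverts hc hi hi1 hiN rfl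
  have h2 := invol_inverts hc hj hj1 hjN (t := c⁻¹) (by group)
  calc j * i * c = j * (i * c * i⁻¹) * j⁻¹ * (j * i) := by group
    _ = _ := by rw [h1, h2, inv_inv]

theorem card_fiber {c z j : G F m} (hc : tr c ≠ 0) (hz : z * z = 1) (hz1 : z ≠ 1)
    (hzN : z ∈ NT c) (hj : j * j = 1) (hj1 : j ≠ 1) (hjN : j ∈ NT c) :
    #{y | y * z * y⁻¹ = j ∧ y ∈ NT c} = #(SS c) := by
  refine card_bij (fun y _ => y * c * y⁻¹) (fun y hy => ?_) (fun y hy y' hy' he => ?_)
    (fun d hd => ?_)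
  · simp only [mem_filter, mem_univ, true_and, mem_NT_iff hc] at hy
    exact mem_filter.mpr ⟨mem_univ _, isConj_iff.mpr ⟨y, rfl⟩, hy.2⟩
  · simp only [mem_filter, mem_univ, true_and] at hy hy'
    have h1 : y'⁻¹ * y * c = c * (y'⁻¹ * y) := by
      calc y'⁻¹ * y * c = y'⁻¹ * (y * c * y⁻¹) * y := by group
        _ = _ := by rw [he]; group
    have h2 : z * (y'⁻¹ * y) * z⁻¹ = y'⁻¹ * y := by
      calc _ = y'⁻¹ * (y' * z * y'⁻¹) * y * z⁻¹ := by group
        _ = _ := by rw [hy'.1, ← hy.1]; group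
    rw [invol_inverts hc hz hz1 hzN h1] at h2
    exact (inv_mul_eq_one.mp (eq_one_of_sq_of_comm hc h1 (mul_eq_one_iff_eq_inv.mpr h2.symm))).symm
  · simp only [SS, mem_filter, mem_univ, true_and, isConj_iff] at hd
    obtain ⟨⟨g, rfl⟩, hg⟩ := hd
    have hgN := (mem_NT_iff hc).mpr hg
    have hi : g * z * g⁻¹ * (g * z * g⁻¹) = 1 := by rw [conj_mul, hz]; simp
    have hi1 : g * z * g⁻¹ ≠ 1 := by rwa [Ne, conj_eq_one_iff]
    have hiN : g * z * g⁻¹ ∈ NT c := mul_mem (mul_mem hgN hzN) (inv_mem hgN)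
    obtain ⟨s, hs, hss⟩ := exists_sqrt_of_comm hc (mul_comm_of_invol hc hi hi1 hiN hj hj1 hjN)
    have h1 := invol_inverts hc hi hi1 hiN (t := s⁻¹) ((show Commute s c from hs).inv_left.eq)
    refine ⟨s * g, ?_, ?_⟩
    · simp only [mem_filter, mem_univ, true_and]
      refine ⟨?_, mul_mem (mem_NT_of_comm hc hs) hgN⟩
      calc _ = s * (g * z * g⁻¹ * s⁻¹ * (g * z * g⁻¹)⁻¹) * (g * z * g⁻¹) := by group
        _ = _ := by rw [h1, inv_inv, hss, mul_assoc, hi, mul_one]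
    · calc _ = s * (g * c * g⁻¹) * s⁻¹ := by group
        _ = _ := by rw [ss_comm hc hs hg, mul_inv_cancel_right]

theorem card_swap {α β : Pt F m} (hne : α ≠ β) :
    #{g : G F m | g • α = β ∧ g • β = α} = 2 ^ (2 * m + 1) - 1 := by
  obtain ⟨x, rfl, rfl⟩ := exists_smul_pair hne
  have := Fintype.ofFinite Fˣ
  rw [← card_units_F (F := F), Nat.card_eq_fintype_card, ← card_univ, eq_comm]
  refine card_bij (fun μ _ => x * (hh μ * w) * x⁻¹) (fun μ _ => by simp [mul_smul])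
    (fun μ _ ν _ he => by simpa [hh_inj] using he) fun g hg => ?_
  simp only [mem_filter, mem_univ, true_and] at hg
  obtain ⟨μ, hμ⟩ := eq_hh_mul_w_of_swap (g := x⁻¹ * g * x) (by simp [mul_smul, hg.1])
    (by simp [mul_smul, hg.2])
  exact ⟨μ, mem_univ _, by rw [← hμ]; group⟩

theorem card_erase : #(univ.erase (inf : Pt F m)) = (2 ^ (2 * m + 1)) ^ 2 := by
  rw [card_erase_of_mem (mem_univ _), card_univ, ← Nat.card_eq_fintype_card, card_Pt,
    Nat.add_sub_cancel]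

theorem card_JJ : #(JJ F) = (2 ^ (2 * m + 1)) ^ 2 * (2 ^ (2 * m + 1) - 1) := by
  rw [card_eq_sum_card_fiberwise (f := fun j => j • (inf : Pt F m)) (t := univ.erase inf)
    (fun g hg => by simp [JJ, mem_B] at hg ⊢; exact hg.2), ← card_erase (F := F), ← smul_eq_mul,
    ← sum_const]
  refine sum_congr rfl fun α hα => ?_
  have hα := ne_of_mem_erase hα
  rw [← card_swap hα.symm]
  congr 1
  ext j
  simp only [JJ, mem_filter, mem_univ, true_and, mem_B]
  constructor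
  · rintro ⟨⟨h1, -⟩, rfl⟩
    exact ⟨rfl, by rw [← mul_smul, h1, one_smul]⟩
  · rintro ⟨h1, h2⟩
    exact ⟨⟨sq_of_swap hα.symm h1 h2, h1 ▸ hα⟩, h1⟩

theorem sum_Fx {b : F} (hb : b ≠ 0) :
    ∑ j ∈ JJ F, #(Fx (u 0 b * j)) = (2 ^ (2 * m + 1)) ^ 2 * (2 ^ (2 * m + 1) - 1 - 1) := by
  have hz := sq_of_mem_Z (u_mem_Z b)
  have hz1 : (u 0 b : G F m) ≠ 1 := by simp [u_eq_one, hb]
  simp only [Fx, card_filter]
  rw [sum_comm, ← add_sum_erase _ _ (mem_univ inf), sum_eq_zero, zero_add, ← card_erase (F := F),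
    ← smul_eq_mul, ← sum_const]
  · refine sum_congr rfl fun α hα => ?_
    have hα := ne_of_mem_erase hα
    have h1 : α ≠ (u 0 b : G F m) • α := fun he =>
      hz1 (eq_one_of_mem_U_of_fix (u_mem_U _ _) hα he.symm)
    rw [← card_filter, ← card_swap h1, ← card_erase_of_mem (a := u 0 b)
      (by simp [← mul_smul, hz])]
    congr 1
    ext j
    simp only [JJ, mem_filter, mem_univ, true_and, mem_erase, mul_smul]
    rw [smul_eq_iff_eq_inv_smul, inv_eq_of_mul_eq_one_right hz]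
    constructor
    · rintro ⟨⟨h2, h3⟩, h4⟩
      refine ⟨fun he => h3 (he ▸ U_le_B (u_mem_U _ _)), h4, ?_⟩
      rw [← h4, ← mul_smul, h2, one_smul]
    · rintro ⟨h2, h3, h4⟩
      have h5 := sq_of_swap h1 h3 h4
      refine ⟨⟨h5, fun hB => h2 ?_⟩, h3⟩
      have h6 := eq_one_of_mem_U_of_fix (mul_mem (inv_mem (u_mem_U 0 b))
        (mem_U_of_tr hB (tr_eq_zero_of_sq h5))) hα (by rw [mul_smul, h3, inv_smul_smul])
      exact (inv_mul_eq_one.mp h6).symm
  · intro j hj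
    simp only [JJ, mem_filter, mem_univ, true_and] at hj
    rw [if_neg]
    intro he
    exact hj.2 ((mul_mem_cancel_left (U_le_B (u_mem_U 0 b))).mp (mem_B.mpr he))

theorem mem_NT_mul {z j : G F m} (hz : z * z = 1) (hc : tr (z * j) ≠ 0) (hj : j * j = 1) :
    z ∈ NT (z * j) ∧ j ∈ NT (z * j) := by
  have h1 : z * (z * j) * z⁻¹ = (z * j)⁻¹ := by
    rw [← mul_assoc, hz, one_mul, mul_inv_rev, inv_eq_of_mul_eq_one_right hj]
  have h2 : z ∈ NT (z * j) := by rw [mem_NT_iff hc, h1]; group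
  exact ⟨h2, (mul_mem_cancel_left h2).mp (mem_NT_of_comm hc rfl)⟩

theorem card_SolS {x : G F m} (hx : x ∈ U F) (hx1 : x ≠ 1) {b : F} (hb : b ≠ 0)
    (hzx : ∀ c : G F m, x ∈ NT c → u 0 b ∈ NT c) :
    #(SolS x) = (2 ^ (2 * m + 1)) ^ 2 * (2 ^ (2 * m + 1) - 1) +
      ∑ j ∈ JJ F, if x ∈ NT (u 0 b * j) then #(SS (u 0 b * j)) else 0 := by
  have hz := sq_of_mem_Z (u_mem_Z b)
  have hz1 : (u 0 b : G F m) ≠ 1 := by simp [u_eq_one, hb]
  have hJ : ∀ y : G F m, y ∉ B F → y * u 0 b * y⁻¹ * (y * u 0 b * y⁻¹) = 1 ∧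
      y * u 0 b * y⁻¹ ∉ B F := fun y hy =>
    ⟨by rw [conj_mul, hz]; simp, fun hB => hy (mem_B_of_conj_mem_U (u_mem_U _ _) hz1
      (mem_U_of_tr hB (by rw [tr_conj, tr_u])))⟩
  rw [← card_filter_add_card_filter_not (s := SolS x) (· ∈ B F), ← card_B (F := F), ← card_sub]
  congr 1
  · congr 1
    ext y
    simp only [SolS, mem_filter, mem_univ, true_and, and_iff_right_iff_imp]
    exact fun hy => Or.inl ⟨inf, U_le_B hx, hy⟩
  rw [card_eq_sum_card_fiberwise (f := fun y => y * u 0 b * y⁻¹) (t := JJ F)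
    (fun y hy => by
      simp only [coe_filter, Set.mem_setOf_eq] at hy
      simpa only [JJ, coe_filter, mem_univ, true_and, Set.mem_setOf_eq] using hJ y hy.2)]
  refine sum_congr rfl fun j hj => ?_
  simp only [JJ, mem_filter, mem_univ, true_and] at hj
  have hc := tr_mul_ne_zero hb hj.1 hj.2
  have hj1 : j ≠ 1 := fun he => hj.2 (he ▸ one_mem _)
  have key : ∀ y : G F m, Sol x y → y ∉ B F → y * u 0 b * y⁻¹ = j →
      x ∈ NT (u 0 b * j) ∧ y ∈ NT (u 0 b * j) := by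
    rintro y (⟨α, h1, h2⟩ | ⟨c, hc', h1, h2⟩) hy he
    · exact absurd (by rwa [eq_inf_of_mem_U hx hx1 h1] at h2) hy
    · have h3 := hzx c h1
      rw [NT_eq hc' (mul_comm_of_invol hc' hj.1 hj1 (he ▸ mul_mem (mul_mem h2 h3) (inv_mem h2))
        hz hz1 h3) (ne_one_of_tr hc)]
      exact ⟨h1, h2⟩
  split_ifs with hN
  · rw [← card_fiber hc hz hz1 (mem_NT_mul hz hc hj.1).1 hj.1 hj1 (mem_NT_mul hz hc hj.1).2]
    congr 1
    ext y
    simp only [SolS, mem_filter, mem_univ, true_and]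
    refine ⟨fun hy => ⟨hy.2, (key y hy.1.1 hy.1.2 hy.2).2⟩, fun hy =>
      ⟨⟨Or.inr ⟨_, hc, hN, hy.2⟩, fun hB => hj.2 ?_⟩, hy.1⟩⟩
    exact hy.1 ▸ mul_mem (mul_mem hB (U_le_B (u_mem_U _ _))) (inv_mem hB)
  · rw [card_eq_zero, eq_empty_iff_forall_notMem]
    intro y hy
    simp only [SolS, mem_filter, mem_univ, true_and] at hy
    exact hN (key y hy.1.1 hy.1.2 hy.2).1

theorem mem_NT_conj {c x : G F m} (hc : tr c ≠ 0) (hx : x ∈ NT c) (g : G F m) :
    g * x * g⁻¹ ∈ NT (g * c * g⁻¹) := by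
  rw [mem_NT_iff (by rwa [tr_conj]), conj_inv, conj_mul, conj_mul, conj_mul, conj_mul,
    (mem_NT_iff hc).mp hx]

theorem Sol_conj {x y : G F m} (hs : Sol x y) (g : G F m) : Sol (g * x * g⁻¹) (g * y * g⁻¹) := by
  rcases hs with ⟨α, h1, h2⟩ | ⟨c, hc, h1, h2⟩
  · exact Or.inl ⟨g • α, by simp [mul_smul, h1], by simp [mul_smul, h2]⟩
  · exact Or.inr ⟨_, by rwa [tr_conj], mem_NT_conj hc h1 g, mem_NT_conj hc h2 g⟩

theorem card_SolS_conj (g x : G F m) : #(SolS (g * x * g⁻¹)) = #(SolS x) := by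
  refine card_bij' (fun y _ => g⁻¹ * y * g) (fun y _ => g * y * g⁻¹) (fun y hy => ?_)
    (fun y hy => ?_) (fun y _ => by group) (fun y _ => by group)
  · simp only [SolS, mem_filter, mem_univ, true_and] at hy ⊢
    simpa [mul_assoc] using Sol_conj hy g⁻¹
  · simp only [SolS, mem_filter, mem_univ, true_and] at hy ⊢
    exact Sol_conj hy g

theorem SolS_inv (x : G F m) : SolS x⁻¹ = SolS x := by
  ext y
  simp only [SolS, mem_filter]
  simp only [Sol, inv_smul_eq_iff, inv_mem_iff, eq_comm (b := x • _)]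

theorem case_invol {x : G F m} (hx : orderOf x = 2) :
    #(SolS x) = (2 ^ (2 * m + 1)) ^ 2 * (4 * 2 ^ (2 * m + 1) - 3) := by
  obtain ⟨g, b, hb, rfl⟩ := exists_conj_eq_z (i := x) (by rw [← sq, ← hx, pow_orderOf_eq_one])
    (by rintro rfl; simp at hx)
  rw [card_SolS_conj, card_SolS (u_mem_U _ _) (by simp [u_eq_one, hb]) hb fun _ h => h]
  have h1 : ∑ j ∈ JJ F, ((if u 0 b ∈ NT (u 0 b * j) then #(SS (u 0 b * j)) else 0) +
      #(Fx (u 0 b * j))) = ∑ _j ∈ JJ F, 4 := sum_congr rfl fun j hj => by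
    simp only [JJ, mem_filter, mem_univ, true_and] at hj
    have hc := tr_mul_ne_zero hb hj.1 hj.2
    rw [if_pos (mem_NT_mul (sq_of_mem_Z (u_mem_Z b)) hc hj.1).1]
    rcases card_SS_add hc with h2 | h2 <;> rw [h2.1, h2.2]
  rw [sum_add_distrib, sum_Fx hb, sum_const, card_JJ, smul_eq_mul] at h1
  obtain ⟨Q, hQ⟩ := Nat.exists_eq_add_of_le' (two_pow_ge_eight F)
  rw [hQ] at h1 ⊢
  rw [show Q + 8 - 1 = Q + 7 by omega] at h1 ⊢
  rw [show Q + 7 - 1 = Q + 6 by omega] at h1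
  rw [show 4 * (Q + 8) - 3 = 4 * Q + 29 by omega]
  linarith

theorem eq_of_mem_Z {c z z' : G F m} (hc : tr c ≠ 0) (hz : z ∈ Z F) (hz1 : z ≠ 1) (hN : z ∈ NT c)
    (hz' : z' ∈ Z F) (hz1' : z' ≠ 1) (hN' : z' ∈ NT c) : z' = z := by
  have h1 := eq_one_of_sq_of_comm hc (mul_comm_of_invol hc (sq_of_mem_Z hz) hz1 hN
    (sq_of_mem_Z hz') hz1' hN') (sq_of_mem_Z (mul_mem hz' hz))
  rw [← sq_of_mem_Z hz] at h1
  exact mul_right_cancel h1

theorem card_sqrt {c : G F m} (hc : tr c ≠ 0) {b : F} (hb : b ≠ 0) (hN : u 0 b ∈ NT c) :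
    #{y | y * y = u 0 b ∧ y ∈ NT c} + 2 = #(SS c) := by
  have hz := sq_of_mem_Z (u_mem_Z b)
  have hz1 : (u 0 b : G F m) ≠ 1 := by simp [u_eq_one, hb]
  rw [← card_fiber hc hz hz1 hN hz hz1 hN, ← card_pair hz1, ← card_union_of_disjoint]
  · congr 1
    ext y
    simp only [mem_filter, mem_univ, true_and, mem_union, mem_insert, mem_singleton]
    constructor
    · rintro (⟨h1, h2⟩ | rfl | rfl)
      · exact ⟨by rw [← h1]; group, h2⟩
      · exact ⟨by group, hN⟩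
      · exact ⟨by group, one_mem _⟩
    · rintro ⟨h1, h2⟩
      have hU := mem_U_of_commute (u_mem_U 0 b) hz1 (mul_inv_eq_iff_eq_mul.mp h1)
      by_cases h3 : y * y = 1
      · by_cases h4 : y = 1
        · exact Or.inr (Or.inr h4)
        · exact Or.inr (Or.inl (eq_of_mem_Z hc (u_mem_Z b) hz1 hN (mem_Z_of_sq hU h3) h4 h2))
      · refine Or.inl ⟨eq_of_mem_Z hc (u_mem_Z b) hz1 hN ?_ h3 (mul_mem h2 h2), h2⟩
        obtain ⟨a', b', rfl⟩ := hU
        rw [← sq, u_sq]; exact u_mem_Z _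
  · rw [disjoint_left]
    intro y hy
    simp only [mem_filter, mem_univ, true_and, mem_insert, mem_singleton] at hy ⊢
    rintro (rfl | rfl)
    · exact hz1 (hy.1.symm.trans hz)
    · exact hz1 (hy.1.symm.trans (one_mul _))

theorem case_four {x : G F m} (hx : orderOf x = 4) :
    #(SolS x) = (2 ^ (2 * m + 1)) ^ 2 * (2 ^ (2 * m + 1) + 3) := by
  obtain ⟨g, a, b0, hg⟩ := exists_conj_mem_U_of_tr (g := x)
    (tr_eq_zero_iff.mpr (orderOf_dvd_iff_pow_eq_one.mp hx.dvd))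
  obtain rfl : x = g * u a b0 * g⁻¹ := by rw [← hg]; group
  have ha : a ≠ 0 := by
    rintro rfl
    have : orderOf (g * u 0 b0 * g⁻¹) ∣ 2 := orderOf_dvd_of_pow_eq_one (by simp [conj_pow, u_sq])
    rw [hx] at this
    omega
  have hb : a * θ a ≠ 0 := mul_ne_zero ha (θ_ne_zero ha)
  have hz1 : (u 0 (a * θ a) : G F m) ≠ 1 := by simp only [Ne, u_eq_one, hb]; simp
  have := Fintype.ofFinite F
  have hX : ({y | y * y = u 0 (a * θ a)} : Finset (G F m)) = univ.image (u a) := by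
    ext y
    simp only [mem_filter, mem_univ, true_and, mem_image]
    constructor
    · intro hy
      obtain ⟨a', b', rfl⟩ := mem_U_of_commute (u_mem_U 0 _) hz1 (c := y) (by rw [← hy]; group)
      rw [← sq, u_sq, u_inj] at hy
      exact ⟨b', by rw [nm_injective hy.2]⟩
    · rintro ⟨b, rfl⟩
      rw [← sq, u_sq]
  have hXc : #({y | y * y = u 0 (a * θ a)} : Finset (G F m)) = 2 ^ (2 * m + 1) := by
    rw [hX, card_image_of_injective _ (fun b b' he => (u_inj.mp he).2), card_univ,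
      ← Nat.card_eq_fintype_card, card_F]
  have h1 : ∑ y ∈ ({y | y * y = u 0 (a * θ a)} : Finset (G F m)), #(SolS y) =
      2 ^ (2 * m + 1) * #(SolS (u a b0 : G F m)) := by
    rw [← hXc]
    refine sum_const_nat fun y hy => ?_
    rw [hX, mem_image] at hy
    obtain ⟨b, -, rfl⟩ := hy
    rcases isConj_u_or ha ha b0 b with h1 | h1 <;> obtain ⟨k, hk⟩ := isConj_iff.mp h1 <;>
      rw [← hk, card_SolS_conj]
    rw [SolS_inv]
  rw [sum_congr rfl fun y hy => card_SolS (b := a * θ a) (x := y)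
    (by rw [hX, mem_image] at hy; obtain ⟨b, -, rfl⟩ := hy; simp)
    (by rintro rfl; exact hz1 ((mem_filter.mp hy).2.symm.trans (one_mul _))) hb
    (fun c hc => by rw [← (mem_filter.mp hy).2]; exact mul_mem hc hc), sum_add_distrib, sum_const, hXc,
    sum_comm, smul_eq_mul] at h1
  have h2 : ∑ j ∈ JJ F, ((∑ y ∈ ({y | y * y = u 0 (a * θ a)} : Finset (G F m)),
      if y ∈ NT (u 0 (a * θ a) * j) then #(SS (u 0 (a * θ a) * j)) else 0) +
      4 * #(Fx (u 0 (a * θ a) * j))) = ∑ _j ∈ JJ F, 8 := sum_congr rfl fun j hj => by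
    simp only [JJ, mem_filter, mem_univ, true_and] at hj
    have hc := tr_mul_ne_zero hb hj.1 hj.2
    have h3 := card_sqrt hc hb (mem_NT_mul (sq_of_mem_Z (u_mem_Z _)) hc hj.1).1
    rw [← sum_filter, filter_filter, sum_const, smul_eq_mul]
    rcases card_SS_add hc with h2 | h2 <;> rw [h2.1] at h3 ⊢ <;> rw [h2.2] <;> omega
  rw [sum_add_distrib, ← mul_sum, sum_Fx hb, sum_const, card_JJ, smul_eq_mul] at h2
  rw [card_SolS_conj]
  obtain ⟨Q, hQ⟩ := Nat.exists_eq_add_of_le' (two_pow_ge_eight F)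
  rw [hQ] at h1 h2 ⊢
  rw [show Q + 8 - 1 = Q + 7 by omega] at h1 h2
  rw [show Q + 7 - 1 = Q + 6 by omega] at h2
  refine Nat.eq_of_mul_eq_mul_left (by omega : 0 < Q + 8) ?_
  linarith

theorem NT_eq_of_odd {x c : G F m} (h1 : x ≠ 1) (ho : Odd (orderOf x)) (hc : tr c ≠ 0)
    (hx : x ∈ NT c) : NT x = NT c := NT_eq hc (comm_of_mem_NT_of_odd hc hx ho) h1

theorem case_fpf {x : G F m} (h1 : x ≠ 1) {t : ℕ} (ht : t = tp m ∨ t = tm m) (hx : orderOf x ∣ t) :
    #(SolS x) = 4 * t := by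
  have hf : FPF x := fpf_of_pow h1 (orderOf_dvd_iff_pow_eq_one.mp (hx.trans (by
    rw [← tp_mul_tm]; rcases ht with rfl | rfl <;> simp)))
  have h0 := hf.tr_ne_zero
  have h2 : SolS x = ({g | g ∈ NT x} : Finset _) := by
    ext y
    simp only [SolS, mem_filter, mem_univ, true_and]
    refine ⟨?_, fun hy => Or.inr ⟨x, h0, mem_NT_of_comm h0 rfl, hy⟩⟩
    rintro (⟨α, h2, -⟩ | ⟨c, hc, h2, h3⟩)
    · exact absurd h2 (hf α)
    · rwa [NT_eq_of_odd h1 (ss_odd_orderOf h0) hc h2]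
  rw [h2, card_sub, card_NT h0, card_SS_fpf hf]
  congr 1
  have h3 := Subgroup.orderOf_dvd_natCard _ (mem_cent.mpr (rfl : x * x = x * x))
  have h4 : orderOf x ≠ 1 := by simpa using h1
  rcases hf.card_cent with h5 | h5 <;> rw [h5] at h3 ⊢ <;> rcases ht with rfl | rfl
  · rfl
  · exact absurd (Nat.eq_one_of_dvd_coprimes (coprime_tp_tm m) h3 hx) h4
  · exact absurd (Nat.eq_one_of_dvd_coprimes (coprime_tp_tm m) hx h3) h4
  · rfl

theorem case_split {x : G F m} (h1 : x ≠ 1) (hx : orderOf x ∣ 2 ^ (2 * m + 1) - 1) :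
    #(SolS x) = 2 * (2 ^ (2 * m + 1)) ^ 2 * (2 ^ (2 * m + 1) - 1) := by
  have h0 := tr_ne_zero_of_odd h1 (odd_q_sub_one.of_dvd_nat hx)
  rcases ss_cases h0 with ⟨g, μ, hμ, rfl⟩ | hf
  swap
  · exact absurd (orderOf_eq_one_iff.mp (Nat.eq_one_of_dvd_coprimes (coprime_q_sub_one m) hx
      (orderOf_dvd_of_pow_eq_one hf.pow_eq_one))) h1
  have h2 := tr_hh_ne_zero (m := m) hμ
  have h3 : SolS (hh μ : G F m) = (({y | y ∈ B F} : Finset _) ∪
      ({y | y ∈ MulAction.stabilizer (G F m) (pt 0 0 : Pt F m)} : Finset _)) ∪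
      ({y : G F m | y • (inf : Pt F m) = pt 0 0 ∧ y • (pt 0 0 : Pt F m) = inf} : Finset _) := by
    ext y
    simp only [SolS, mem_filter, mem_univ, true_and, mem_union, MulAction.mem_stabilizer_iff, mem_B]
    constructor
    · rintro (⟨α, h3, h4⟩ | ⟨c, hc, h3, h4⟩)
      · rcases hh_fix hμ h3 with rfl | rfl
        exacts [Or.inl (Or.inl h4), Or.inl (Or.inr h4)]
      · rw [← NT_eq_of_odd (ne_one_of_tr h2) (ss_odd_orderOf h2) hc h3] at h4
        have h5 := mem_cent.mpr (NT_conj_comm h4 rfl)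
        rw [centralizer_hh hμ] at h5
        rcases conj_hh_mem_H hμ h5 with ⟨ν, rfl⟩ | ⟨ν, rfl⟩ <;> simp [mul_smul]
    · rintro ((h3 | h3) | ⟨h3, h4⟩)
      · exact Or.inl ⟨inf, by simp, h3⟩
      · exact Or.inl ⟨pt 0 0, by simp, h3⟩
      · obtain ⟨ν, rfl⟩ := eq_hh_mul_w_of_swap h3 h4
        refine Or.inr ⟨_, h2, mem_NT_of_comm h2 rfl, ?_⟩
        rw [mem_NT_iff h2, hh_w_conj_hh, hh_comm]
  have h4 : ({y | y ∈ B F} : Finset _) ∩
      ({y | y ∈ MulAction.stabilizer (G F m) (pt 0 0 : Pt F m)} : Finset _) =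
      ({y | y ∈ H F} : Finset _) := by
    ext y; simp [mem_H_iff_fix, mem_B]
  have h5 : Nat.card (MulAction.stabilizer (G F m) (pt 0 0 : Pt F m)) = Nat.card (B F) := by
    rw [← w_smul_inf, MulAction.stabilizer_smul_eq_stabilizer_map_conj]
    exact Subgroup.card_map_of_injective (MulEquiv.injective _)
  have h6 := card_sub (MulAction.stabilizer (G F m) (pt 0 0 : Pt F m))
  rw [card_SolS_conj, h3, card_union_of_disjoint, card_swap (by simp), ← card_H (F := F),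
    ← card_sub, ← h4, card_union_add_card_inter, card_sub, h4, card_sub, card_H]
  · rw [h5] at h6
    refine (congrArg (_ + ·) ((congrArg card (by congr)).trans h6)).trans ?_
    rw [card_B]; ring
  · rw [disjoint_left]
    intro y hy
    simp only [mem_filter, mem_univ, true_and, mem_union, MulAction.mem_stabilizer_iff,
      mem_B] at hy ⊢
    rintro ⟨h6, h7⟩
    rcases hy with hy | hy
    · simp [hy] at h6
    · simp [hy] at h7

theorem card_eq {A : Type*} [Group A] (e : G F m ≃* A) (hp : (2 * m + 1).Prime) (x : G F m) :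
    Nat.card {y : A // Group.IsSolvable (Subgroup.closure ({e x, y} : Set A))} = #(SolS x) := by
  rw [← Fintype.card_coe, ← Nat.card_eq_fintype_card, eq_comm]
  refine Nat.card_congr (e.toEquiv.subtypeEquiv fun y => ?_)
  simp only [SolS, mem_filter, mem_univ, true_and, ← isSolvable_closure_iff hp]
  have e2 : Subgroup.closure ({x, y} : Set (G F m)) ≃* Subgroup.closure ({e x, e y} : Set A) :=
    (e.subgroupMap _).trans (MulEquiv.subgroupCongr (by
      rw [MonoidHom.map_closure]; simp [Set.image_insert_eq]))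
  exact ⟨fun _ => Group.isSolvable_of_surjective (f := e2.toMonoidHom) e2.surjective,
    fun _ => Group.isSolvable_of_surjective (f := e2.symm.toMonoidHom) e2.symm.surjective⟩


/-- Let G be the Suzuki group Sz(q), q = 2^(2m+1) with 2m + 1 prime and m ≥ 1, realised inside Sp_4(F) for F the field of order q, write r = 2^(m+1) (so r² = 2q), and for x ∈ G call the solubilizer of x the set of y ∈ G such that x and y generate a solvable subgroup. Then the solubilizer of an involution has q²(4q − 3) elements; that of an element of order 4 has q²(q + 3) elements; that of a non-identity element of order dividing q − 1 has 2q²(q − 1) elements; that of a non-identity element of order dividing q + r + 1 has 4(q + r + 1) elements; and that of a non-identity element of order dividing q − r + 1 has 4(q − r + 1) elements. -/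
theorem result {F : Type*} [Field F] [Fintype F] {m : ℕ} (hm : 1 ≤ m)
    (hp : (2 * m + 1).Prime) (hF : Fintype.card F = 2 ^ (2 * m + 1)) (x : ↥(Cfsg.Lie.Sz F (2 ^ (m + 1)))) :
    (orderOf x = 2 → Nat.card {y : ↥(Cfsg.Lie.Sz F (2 ^ (m + 1))) // Group.IsSolvable ↥(Subgroup.closure ({x, y} : Set (↥(Cfsg.Lie.Sz F (2 ^ (m + 1))))))} = (2 ^ (2 * m + 1)) ^ 2 * (4 * 2 ^ (2 * m + 1) - 3)) ∧
    (orderOf x = 4 → Nat.card {y : ↥(Cfsg.Lie.Sz F (2 ^ (m + 1))) // Group.IsSolvable ↥(Subgroup.closure ({x, y} : Set (↥(Cfsg.Lie.Sz F (2 ^ (m + 1))))))} = (2 ^ (2 * m + 1)) ^ 2 * (2 ^ (2 * m + 1) + 3)) ∧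
    (x ≠ 1 → orderOf x ∣ 2 ^ (2 * m + 1) - 1 →
      Nat.card {y : ↥(Cfsg.Lie.Sz F (2 ^ (m + 1))) // Group.IsSolvable ↥(Subgroup.closure ({x, y} : Set (↥(Cfsg.Lie.Sz F (2 ^ (m + 1))))))} = 2 * (2 ^ (2 * m + 1)) ^ 2 * (2 ^ (2 * m + 1) - 1)) ∧
    (x ≠ 1 → orderOf x ∣ 2 ^ (2 * m + 1) + 2 ^ (m + 1) + 1 → Nat.card {y : ↥(Cfsg.Lie.Sz F (2 ^ (m + 1))) // Group.IsSolvable ↥(Subgroup.closure ({x, y} : Set (↥(Cfsg.Lie.Sz F (2 ^ (m + 1))))))} = 4 * (2 ^ (2 * m + 1) + 2 ^ (m + 1) + 1)) ∧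
    (x ≠ 1 → orderOf x ∣ 2 ^ (2 * m + 1) - 2 ^ (m + 1) + 1 → Nat.card {y : ↥(Cfsg.Lie.Sz F (2 ^ (m + 1))) // Group.IsSolvable ↥(Subgroup.closure ({x, y} : Set (↥(Cfsg.Lie.Sz F (2 ^ (m + 1))))))} = 4 * (2 ^ (2 * m + 1) - 2 ^ (m + 1) + 1)) := by
  have := SuzF.of_card hm hF
  obtain ⟨x, rfl⟩ := (lieEquiv F).surjective x
  rw [card_eq _ hp, MulEquiv.orderOf_eq, Ne, map_eq_one_iff _ (lieEquiv F).injective]
  exact ⟨case_invol, case_four, case_split, fun h1 => case_fpf h1 (Or.inl rfl),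
    fun h1 => case_fpf h1 (Or.inr rfl)⟩

end Cfsg.Agent.S2259
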