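import Cfsg.Statements.S2268
import Cfsg.Agent.Lib.Alt.Sylow2

set_option autoImplicit false
open Cfsg

namespace Cfsg.Agent.S2268

open Cfsg.Agent.Alt

/-- Let G be a finite group with an abelian Sylow p-subgroup P and let Q ≤ P. Then N_G(Q) = (N_G(Q) ∩ N_G(P))·C_G(Q), so that N_G(Q)/C_G(Q) is a homomorphic image of the subgroup (N_G(Q) ∩ N_G(P))/C_G(P) of N_G(P)/C_G(P); in particular the order of N_G(Q)/C_G(Q) divides the order of N_G(P)/C_G(P). -/
theorem result {G : Type*} [Group G] [Finite G] {p : ℕ} [Fact p.Prime]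
    (P : Sylow p G) (hP : IsMulCommutative (P : Subgroup G)) (Q : Subgroup G) (hQ : Q ≤ (P : Subgroup G)) :
    Subgroup.normalizer (Q : Set G) =
      (Subgroup.normalizer (Q : Set G) ⊓ Subgroup.normalizer ((P : Subgroup G) : Set G)) ⊔ Subgroup.centralizer (Q : Set G) ∧
    ((Subgroup.centralizer (Q : Set G)).subgroupOf (Subgroup.normalizer (Q : Set G))).index ∣ ((Subgroup.centralizer ((P : Subgroup G) : Set G)).subgroupOf (Subgroup.normalizer ((P : Subgroup G) : Set G))).index := by
  have hPC : (P : Subgroup G) ≤ Subgroup.centralizer (Q : Set G) := by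
    intro x hx y hy
    exact congrArg Subtype.val (hP.is_comm.comm (⟨y, hQ hy⟩ : (P : Subgroup G)) ⟨x, hx⟩)
  have hCN : Subgroup.centralizer (Q : Set G) ≤ Subgroup.normalizer (Q : Set G) :=
    Subgroup.centralizer_le_normalizer _
  have key : ∀ g ∈ Subgroup.normalizer (Q : Set G), ∃ d ∈ Subgroup.centralizer (Q : Set G),
      d * g ∈ Subgroup.normalizer ((P : Subgroup G) : Set G) := by
    intro g hg
    obtain ⟨d, hd, h⟩ := exists_conj_le_sylow P hPC
      (Q := (P : Subgroup G).map (MulAut.conj g).toMonoidHom) (by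
        rintro _ ⟨x, hx, rfl⟩ y hy
        have h1 := hPC hx _ ((Subgroup.mem_normalizer_iff''.1 hg y).1 hy)
        change y * (g * x * g⁻¹) = g * x * g⁻¹ * y
        calc y * (g * x * g⁻¹) = g * (g⁻¹ * y * g * x) * g⁻¹ := by group
          _ = g * x * g⁻¹ * y := by rw [h1]; group) (P.isPGroup'.map _)
    refine ⟨d, hd, Subgroup.mem_normalizer_fintype fun x hx => ?_⟩
    have := h _ ⟨x, hx, rfl⟩
    simpa only [MulEquiv.coe_toMonoidHom, MulAut.conj_apply, mul_assoc, mul_inv_rev,
      SetLike.mem_coe] using this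
  have h1 : Subgroup.normalizer (Q : Set G) =
      (Subgroup.normalizer (Q : Set G) ⊓ Subgroup.normalizer ((P : Subgroup G) : Set G)) ⊔
        Subgroup.centralizer (Q : Set G) := by
    refine le_antisymm (fun g hg => ?_) (sup_le inf_le_left hCN)
    obtain ⟨d, hd, h⟩ := key g hg
    rw [← inv_mul_cancel_left d g]
    exact mul_mem (Subgroup.mem_sup_right (inv_mem hd))
      (Subgroup.mem_sup_left ⟨mul_mem (hCN hd) hg, h⟩)
  refine ⟨h1, ?_⟩
  set N := Subgroup.normalizer (Q : Set G)
  set C := Subgroup.centralizer (Q : Set G)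
  set N' := Subgroup.normalizer ((P : Subgroup G) : Set G)
  set C' := Subgroup.centralizer ((P : Subgroup G) : Set G)
  have hC' : C' ≤ C := Subgroup.centralizer_le hQ
  have hC'N : C' ≤ N ⊓ N' := le_inf (hC'.trans hCN) (Subgroup.centralizer_le_normalizer _)
  change C.relIndex N ∣ C'.relIndex N'
  have h2 : C.relIndex N = C.relIndex (N ⊓ N') := by
    have hn : (C.subgroupOf N).Normal := inferInstance
    have h3 := Subgroup.relIndex_sup_right ((N ⊓ N').subgroupOf N) (C.subgroupOf N)
    rw [← Subgroup.subgroupOf_sup inf_le_left hCN, ← h1, Subgroup.subgroupOf_self,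
      Subgroup.relIndex_top_right, Subgroup.relIndex_subgroupOf inf_le_left] at h3
    exact h3
  rw [h2, ← Subgroup.relIndex_mul_relIndex C' (N ⊓ N') N' hC'N inf_le_right]
  exact (Subgroup.relIndex_dvd_of_le_left _ hC').mul_right _

end Cfsg.Agent.S2268
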