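import Cfsg.Statements.S2270
import Cfsg.Agent.S2268

set_option autoImplicit false
open Cfsg

namespace Cfsg.Agent.S2270

open Cfsg.Agent.Alt

/-- If a nontrivial element `c` of an abelian Sylow `p`-subgroup (`p` odd) is conjugate to its
inverse, the automizer has even order. -/
theorem two_dvd_of_real {G : Type*} [Group G] [Finite G] {p : ℕ} [hp' : Fact p.Prime] (hp : p ≠ 2)
    (P : Sylow p G) (hP : IsMulCommutative (P : Subgroup G)) {c g : G} (hc : c ∈ (P : Subgroup G))
    (hc1 : c ≠ 1) (hg : g * c * g⁻¹ = c⁻¹) :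
    2 ∣ ((Subgroup.centralizer ((P : Subgroup G) : Set G)).subgroupOf
      (Subgroup.normalizer ((P : Subgroup G) : Set G))).index := by
  refine dvd_trans ?_ (S2268.result P hP (Subgroup.zpowers c) (Subgroup.zpowers_le.2 hc)).2
  have hgN : g ∈ Subgroup.normalizer ((Subgroup.zpowers c : Subgroup G) : Set G) := by
    refine Subgroup.mem_normalizer_fintype ?_
    rintro _ ⟨n, rfl⟩
    refine ⟨-n, ?_⟩
    simp only
    rw [← conj_zpow, hg, inv_zpow, zpow_neg]
  set N := Subgroup.normalizer ((Subgroup.zpowers c : Subgroup G) : Set G)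
  set C := Subgroup.centralizer ((Subgroup.zpowers c : Subgroup G) : Set G)
  have hn : (C.subgroupOf N).Normal := inferInstance
  have h2 : orderOf (QuotientGroup.mk (s := C.subgroupOf N) ⟨g, hgN⟩) = 2 := by
    apply orderOf_eq_prime
    · rw [← QuotientGroup.mk_pow, QuotientGroup.eq_one_iff, Subgroup.mem_subgroupOf]
      rintro _ ⟨n, rfl⟩
      refine (Commute.zpow_left ?_ n).eq
      have h3 : g * c⁻¹ * g⁻¹ = c := by rw [← conj_inv, hg, inv_inv]
      change c * g ^ 2 = g ^ 2 * c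
      calc c * g ^ 2 = g * (g * c * g⁻¹) * g⁻¹ * g ^ 2 := by rw [hg, h3]
        _ = g ^ 2 * c := by simp only [sq]; group
    · rw [ne_eq, QuotientGroup.eq_one_iff, Subgroup.mem_subgroupOf]
      intro h
      have h3 : c * g = g * c := h c (Subgroup.mem_zpowers c)
      rw [← h3, mul_inv_cancel_right] at hg
      refine hc1 (eq_one_of_isPGroup_of_pow P.isPGroup' hc (m := 2) ?_ ?_)
      · rw [sq]; nth_rewrite 1 [hg]; rw [inv_mul_cancel]
      · exact (Nat.coprime_primes hp'.out Nat.prime_two).2 hp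
  rw [← h2, Subgroup.index_eq_card]
  exact orderOf_dvd_natCard _

/-- Let n ≥ 3, p an odd prime, and P an abelian Sylow p-subgroup of the symmetric group S_n (with p dividing n!, so that P ≠ 1). Then N(P)/C(P) has even order. -/
theorem result (n : ℕ) (hn : 3 ≤ n) {p : ℕ} [Fact p.Prime] (hp : p ≠ 2) (hpn : p ≤ n)
    (P : Sylow p (Equiv.Perm (Fin n))) (hP : IsMulCommutative (P : Subgroup (Equiv.Perm (Fin n)))) :
    2 ∣ ((Subgroup.centralizer ((P : Subgroup (Equiv.Perm (Fin n))) : Set (Equiv.Perm (Fin n)))).subgroupOf (Subgroup.normalizer ((P : Subgroup (Equiv.Perm (Fin n))) : Set (Equiv.Perm (Fin n))))).index := by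
  have h1 : (P : Subgroup (Equiv.Perm (Fin n))) ≠ ⊥ := by
    apply P.ne_bot_of_dvd_card
    rw [Nat.card_perm, Nat.card_eq_fintype_card, Fintype.card_fin]
    exact (Nat.Prime.dvd_factorial Fact.out).2 hpn
  obtain ⟨c, hc⟩ := Subgroup.ne_bot_iff_exists_ne_one.1 h1
  have h2 : IsConj c.1 c.1⁻¹ :=
    Equiv.Perm.isConj_iff_cycleType_eq.2 (Equiv.Perm.cycleType_inv _).symm
  obtain ⟨g, hg⟩ := isConj_iff.1 h2
  exact two_dvd_of_real hp P hP c.2 (fun h => hc (Subtype.ext h)) hg

end Cfsg.Agent.S2270
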