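import Cfsg.Statements.S2269
import Cfsg.Agent.S2270
import Cfsg.Agent.Lib.Alt.Orders

set_option autoImplicit false
open Cfsg

namespace Cfsg.Agent.S2269

open Cfsg.Agent.Alt Equiv Equiv.Perm

theorem burnside {G : Type*} [Group G] [Finite G] [IsSimpleGroup G] {p q : ℕ} [hp : Fact p.Prime]
    (hq : q.Prime) (hpq : p ≠ q) (h1 : p ∣ Nat.card G) (h2 : q ∣ Nat.card G) (P : Sylow p G) :
    ¬ Subgroup.normalizer ((P : Subgroup G) : Set G) ≤
      Subgroup.centralizer ((P : Subgroup G) : Set G) := by
  intro h
  have h3 := MonoidHom.ker_transferSylow_isComplement' P h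
  rcases (MonoidHom.normal_ker (MonoidHom.transferSylow P h)).eq_bot_or_eq_top with h4 | h4
  · rw [h4, Subgroup.isComplement'_bot_left] at h3
    obtain ⟨k, hk⟩ := P.isPGroup'.exists_card_eq
    rw [h3, Subgroup.card_top] at hk
    exact hpq ((Nat.prime_dvd_prime_iff_eq hq hp.out).1 (hq.dvd_of_dvd_pow (hk ▸ h2))).symm
  · rw [h4, Subgroup.isComplement'_top_left] at h3
    exact P.ne_bot_of_dvd_card h1 h3

/-- Let n ≥ 5 and let P be an abelian Sylow p-subgroup of the alternating group A_n. Then N(P)/C(P) (taken in A_n) has even order, or P is cyclic, except when n = 5 and p = 2, where P is a four-group and N(P)/C(P) has order 3. -/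
theorem result (n : ℕ) (hn : 5 ≤ n) {p : ℕ} [Fact p.Prime]
    (P : Sylow p (alternatingGroup (Fin n))) (hP : IsMulCommutative (P : Subgroup (alternatingGroup (Fin n)))) :
    (¬ (n = 5 ∧ p = 2) → 2 ∣ ((Subgroup.centralizer ((P : Subgroup (alternatingGroup (Fin n))) : Set (alternatingGroup (Fin n)))).subgroupOf (Subgroup.normalizer ((P : Subgroup (alternatingGroup (Fin n))) : Set (alternatingGroup (Fin n))))).index ∨ IsCyclic (P : Subgroup (alternatingGroup (Fin n)))) ∧
    ((n = 5 ∧ p = 2) → ((Subgroup.centralizer ((P : Subgroup (alternatingGroup (Fin n))) : Set (alternatingGroup (Fin n)))).subgroupOf (Subgroup.normalizer ((P : Subgroup (alternatingGroup (Fin n))) : Set (alternatingGroup (Fin n))))).index = 3 ∧ IsKleinFour (P : Subgroup (alternatingGroup (Fin n)))) := by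
  have hp : p.Prime := Fact.out
  have hc : Fintype.card (Fin n) = n := Fintype.card_fin n
  have hs : IsSimpleGroup (alternatingGroup (Fin n)) :=
    alternatingGroup.isSimpleGroup (by simpa using hn)
  have hcard := two_mul_card_alt (α := Fin n) (by omega)
  rw [hc] at hcard
  have h12 : 6 ∣ Nat.card (alternatingGroup (Fin n)) := by
    have h1 : Nat.factorial 5 ∣ n.factorial := Nat.factorial_dvd_factorial hn
    rw [← hcard, show Nat.factorial 5 = 2 * (6 * 10) from rfl] at h1
    exact (dvd_mul_right _ _).trans (Nat.dvd_of_mul_dvd_mul_left two_pos h1)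
  have hPC : (P : Subgroup (alternatingGroup (Fin n))) ≤ Subgroup.centralizer
      ((P : Subgroup (alternatingGroup (Fin n))) : Set (alternatingGroup (Fin n))) :=
    Subgroup.le_centralizer _
  constructor
  · intro h
    by_cases h2 : p = 2
    · subst h2
      exfalso
      have h6 : 6 ≤ n := by
        by_contra h7
        exact h ⟨by omega, rfl⟩
      exact burnside Nat.prime_three (by norm_num) (dvd_trans (by norm_num) h12)
        (dvd_trans (by norm_num) h12) P ((normalizer_sylow_two_alt (by omega) P).trans hPC)
    have hodd := hp.eq_two_or_odd.resolve_left h2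
    by_cases h3 : p + 2 ≤ n
    · left
      obtain ⟨c, hc'⟩ := (exists_with_cycleType_iff (Fin n) (m := {p})).2
        ⟨by simp; omega, by simpa using hp.two_le⟩
      have hcs : c ∈ alternatingGroup (Fin n) := by
        rw [mem_alternatingGroup, sign_of_cycleType, hc']
        exact Even.neg_one_pow (by simp [Nat.even_iff]; omega)
      have hco : orderOf c = p := by rw [← lcm_cycleType, hc']; simp
      obtain ⟨d, -, hd⟩ := exists_conj_mem_sylow P le_top (x := ⟨c, hcs⟩) (Subgroup.mem_top _)
        (k := 1) (Subtype.ext (by rw [pow_one, ← hco]; exact pow_orderOf_eq_one c))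
      have h4 : IsConj (⟨c, hcs⟩ : alternatingGroup (Fin n)) (⟨c, hcs⟩ : alternatingGroup (Fin n))⁻¹ :=
        alternatingGroup.isConj_of (isConj_iff_cycleType_eq.2 (cycleType_inv _).symm)
          (by rw [← sum_cycleType, hc', hc]; simpa using h3)
      obtain ⟨g, hg⟩ := isConj_iff.1 h4
      refine S2270.two_dvd_of_real h2 P hP hd (g := d * g * d⁻¹) ?_ ?_
      · rw [ne_eq, mul_inv_eq_one, mul_eq_left, Subtype.ext_iff]
        intro h5
        rw [show c = 1 from h5, orderOf_one] at hco
        exact hp.one_lt.ne hco
      · rw [conj_mul, mul_inv_rev, mul_inv_rev, inv_inv, ← mul_assoc d g⁻¹, conj_mul, hg, conj_inv]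
    · right
      apply isCyclic_of_card_dvd_prime (p := p)
      rw [P.card_eq_multiplicity]
      conv_rhs => rw [← pow_one p]
      apply pow_dvd_pow
      have h4 : (Nat.card (alternatingGroup (Fin n))).factorization p ≤
          n.factorial.factorization p :=
        (Nat.factorization_le_iff_dvd Nat.card_pos.ne' (Nat.factorial_ne_zero _)).2
          (hcard ▸ dvd_mul_left _ _) p
      have h5 : Nat.log p n < 2 := Nat.log_lt_of_lt_pow (by omega) (by nlinarith)
      rw [Nat.factorization_factorial hp h5] at h4
      simp only [Nat.Ico_succ_singleton, Finset.sum_singleton, pow_one] at h4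
      have h6 : n / p < 2 := (Nat.div_lt_iff_lt_mul hp.pos).2 (by omega)
      omega
  · rintro ⟨rfl, rfl⟩
    have hA : Nat.card (alternatingGroup (Fin 5)) = 60 := by
      rw [show Nat.factorial 5 = 120 from rfl] at hcard
      omega
    have hS4 : Nat.card (P : Subgroup (alternatingGroup (Fin 5))) = 4 :=
      card_sylow_of_eq P (k := 2) (m := 15) hA (by norm_num)
    constructor
    · have h1 := (P : Subgroup (alternatingGroup (Fin 5))).card_mul_index
      rw [hS4, hA] at h1
      have h2 : (P : Subgroup (alternatingGroup (Fin 5))).index = 15 := by omega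
      set N := Subgroup.normalizer ((P : Subgroup (alternatingGroup (Fin 5))) :
        Set (alternatingGroup (Fin 5))) with hN
      set C := Subgroup.centralizer ((P : Subgroup (alternatingGroup (Fin 5))) :
        Set (alternatingGroup (Fin 5))) with hC
      have h3 : (C.subgroupOf N).index ∣ 15 :=
        (Subgroup.relIndex_dvd_of_le_left N hPC).trans
          (h2 ▸ Subgroup.relIndex_dvd_index_of_le Subgroup.le_normalizer)
      have h4 : (C.subgroupOf N).index ∣ 24 := by
        rw [← Subgroup.normalizerMonoidHom_ker, Subgroup.index_ker]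
        refine (Subgroup.card_subgroup_dvd_card _).trans ?_
        have h5 := Subgroup.card_dvd_of_injective (MulAut.toPerm (P : Subgroup (alternatingGroup (Fin 5))))
          (fun a b h => MulEquiv.toEquiv_injective h)
        rwa [Nat.card_perm, hS4] at h5
      have h5 : (C.subgroupOf N).index ≠ 1 := fun h =>
        burnside Nat.prime_three (by norm_num) (dvd_trans (by norm_num) h12)
          (dvd_trans (by norm_num) h12) P
          (Subgroup.subgroupOf_eq_top.1 (Subgroup.index_eq_one.1 h))
      have h6 : (C.subgroupOf N).index ∣ 3 := by simpa using Nat.dvd_gcd h3 h4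
      exact ((Nat.dvd_prime Nat.prime_three).1 h6).resolve_left h5
    · have : Nontrivial (P : Subgroup (alternatingGroup (Fin 5))) :=
        Finite.one_lt_card_iff_nontrivial.1 (by omega)
      refine ⟨hS4, (Monoid.exponent_eq_prime_iff Nat.prime_two).2 fun g hg => ?_⟩
      have h1 : orderOf g ∣ 2 ^ 2 := (orderOf_dvd_natCard g).trans hS4.dvd
      obtain ⟨k, hk, h2⟩ := (Nat.dvd_prime_pow Nat.prime_two).1 h1
      interval_cases k
      · exact absurd (orderOf_eq_one_iff.1 h2) hg
      · exact h2
      · exfalso
        obtain ⟨m, h3, h4, h5, h6⟩ := mem_range_orderOf_alt.1 ⟨g.1, (Subgroup.orderOf_coe g).trans h2⟩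
        have h7 := chkTypes_sound (fun l e => e == 1 || l != 4) m 5 5 1 0 (by decide +kernel)
          le_rfl two_pos h3 h4
        rw [zero_add, Nat.even_iff.1 h5, Nat.lcm_one_left, h6] at h7
        simp at h7

end Cfsg.Agent.S2269
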