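import Cfsg.Statements.S2278
import Cfsg.Agent.Lib.RU.Field

set_option autoImplicit false
open Cfsg

namespace Cfsg.Agent.S2278

open Matrix Cfsg.Agent.SLn Cfsg.Agent.RU Polynomial

variable {F : Type*} [Field F]

/-- upper unitriangular matrices -/
def up (x y z : F) : Matrix.SpecialLinearGroup (Fin 3) F :=
  ⟨!![1, x, z; 0, 1, y; 0, 0, 1], by simp [det_fin_three]⟩

/-- lower unitriangular matrices -/
def low (y : F) : Matrix.SpecialLinearGroup (Fin 3) F :=
  ⟨!![1, 0, 0; 1, 1, 0; y, 1, 1], by simp [det_fin_three]⟩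

theorem coe_up (x y z : F) : ((up x y z : Matrix.SpecialLinearGroup (Fin 3) F) :
    Matrix (Fin 3) (Fin 3) F) = !![1, x, z; 0, 1, y; 0, 0, 1] := rfl

theorem coe_low (y : F) : ((low y : Matrix.SpecialLinearGroup (Fin 3) F) :
    Matrix (Fin 3) (Fin 3) F) = !![1, 0, 0; 1, 1, 0; y, 1, 1] := rfl

theorem up_zero : up (0 : F) 0 0 = 1 := by
  apply Subtype.ext
  ext i j
  fin_cases i <;> fin_cases j <;> simp [up]

theorem up_mul (x y z x' y' z' : F) :
    up x y z * up x' y' z' = up (x + x') (y + y') (z + z' + x * y') := by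
  apply Subtype.ext
  rw [Matrix.SpecialLinearGroup.coe_mul]
  ext i j
  fin_cases i <;> fin_cases j <;> simp [up, Matrix.mul_apply, Fin.sum_univ_three] <;> ring

theorem up_inv (x y z : F) : (up x y z)⁻¹ = up (-x) (-y) (x * y - z) := by
  apply inv_eq_of_mul_eq_one_right
  rw [up_mul]
  apply Subtype.ext
  ext i j
  fin_cases i <;> fin_cases j <;> simp [up]

theorem up_reg {a c : F} (b : F) (ha : a ≠ 0) (hc : c ≠ 0) :
    IsNilpotent (((up a c b : Matrix.SpecialLinearGroup (Fin 3) F) : Matrix (Fin 3) (Fin 3) F) - 1) ∧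
      (((up a c b : Matrix.SpecialLinearGroup (Fin 3) F) : Matrix (Fin 3) (Fin 3) F) - 1) ^ (3 - 1)
        ≠ 0 := by
  refine regUnip_of_upper (by omega) ?_ ?_ ?_
  · intro i j; fin_cases i <;> fin_cases j <;> simp [up]
  · intro i; fin_cases i <;> simp [up]
  · intro i j; fin_cases i <;> fin_cases j <;> simp [up, ha, hc]

theorem exists_conj {a c l : F} (b y : F) (ha : a ≠ 0) (hc : c ≠ 0) (hl : l ^ 3 = -(a * c ^ 2)) :
    ∃ g : Matrix.SpecialLinearGroup (Fin 3) F, g * up a c b * g⁻¹ = low y := by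
  obtain ⟨g, hg⟩ : ∃ g : Matrix.SpecialLinearGroup (Fin 3) F, (g : Matrix (Fin 3) (Fin 3) F) =
      !![0, 0, l; 0, l / c, 0; l / (a * c), l * (y - b / (a * c)) / c, 0] := by
    refine ⟨⟨_, ?_⟩, rfl⟩
    simp [det_fin_three]
    field_simp
    linear_combination -hl
  refine ⟨g, ?_⟩
  rw [mul_inv_eq_iff_eq_mul]
  apply Subtype.ext
  rw [Matrix.SpecialLinearGroup.coe_mul, Matrix.SpecialLinearGroup.coe_mul, hg, coe_up, coe_low]
  ext i j
  fin_cases i <;> fin_cases j <;> simp [Matrix.mul_apply, Fin.sum_univ_three] <;>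
    field_simp <;> ring

variable {H : Subgroup (Matrix.SpecialLinearGroup (Fin 3) F)}

theorem hasTv_iff (y z : F) : HasTv H ![z, y, 0] ![0, 0, 1] ↔ up 0 y z ∈ H := by
  have e : ((up 0 y z : Matrix.SpecialLinearGroup (Fin 3) F) : Matrix (Fin 3) (Fin 3) F) =
      1 + vecMulVec ![z, y, 0] ![0, 0, 1] := by
    ext i j
    fin_cases i <;> fin_cases j <;> simp [up, vecMulVec_apply]
  exact ⟨fun h => h.mem e, fun h => ⟨_, h, e⟩⟩

theorem eq_top_of_up {y : F} (hv : low y ∈ H) (h : ∀ s r : F, up 0 s r ∈ H) : H = ⊤ := by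
  have h3 : (![0, 0, 1] : Fin 3 → F) ∈ axisSub H := by
    intro w hw
    have : w = ![w 0, w 1, 0] := by
      ext i; fin_cases i <;> simp
      simpa [dotProduct, Fin.sum_univ_three] using hw
    rw [this, hasTv_iff]; exact h _ _
  have hv' : ∀ φ ∈ axisSub H, φ ᵥ* (low y).1 - φ ∈ axisSub H := fun φ hφ =>
    (axisSub H).sub_mem (HasAxis.conj hφ hv) hφ
  have h2 := hv' _ h3
  have h1 := hv' _ h2
  apply eq_top_of_axisSub
  rw [eq_top_iff]
  intro φ _
  have := (axisSub H).add_mem ((axisSub H).add_mem ((axisSub H).smul_mem (φ 2) h3)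
    ((axisSub H).smul_mem (φ 1) h2)) ((axisSub H).smul_mem (φ 0 - φ 1 * y) h1)
  convert this using 1
  ext i
  fin_cases i <;> simp [low, vecMul, dotProduct, Fin.sum_univ_three]

theorem conj_up {β : Matrix.SpecialLinearGroup (Fin 3) F} (hβ : β ∈ H) {t1 t2 t3 p r s : F}
    (e : β.1 = !![t1, p, r; 0, t2, s; 0, 0, t3]) {x y z : F} (h : up x y z ∈ H) :
    ∃ z', up (t1 / t2 * x) (t2 / t3 * y) z' ∈ H := by
  have hd := β.2
  rw [e] at hd
  simp [det_fin_three] at hd
  have h2 : t2 ≠ 0 := by rintro rfl; simp at hd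
  have h3 : t3 ≠ 0 := by rintro rfl; simp at hd
  refine ⟨(t1 * z + p * y - t1 / t2 * x * s) / t3, ?_⟩
  convert H.mul_mem (H.mul_mem hβ h) (H.inv_mem hβ) using 1
  rw [eq_mul_inv_iff_mul_eq]
  apply Subtype.ext
  rw [Matrix.SpecialLinearGroup.coe_mul, Matrix.SpecialLinearGroup.coe_mul, e]
  ext i j
  fin_cases i <;> fin_cases j <;> simp [up, Matrix.mul_apply, Fin.sum_univ_three] <;>
    field_simp <;> ring

theorem crit [Fintype F] {a b c y : F} (ha : a ≠ 0) (hc : c ≠ 0) (hu : up a c b ∈ H)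
    (hv : low y ∈ H) {β : Matrix.SpecialLinearGroup (Fin 3) F} (hβ : β ∈ H) {t1 t2 t3 p r s : F}
    (e : β.1 = !![t1, p, r; 0, t2, s; 0, 0, t3]) (f : ℤ[X]) (h1 : aeval (t1 / t2) f = 0)
    (h2 : aeval (t2 / t3) f ≠ 0) (hK : ∀ K : Subring F, t2 / t3 ∈ K → K = ⊤) : H = ⊤ := by
  let M : AddSubgroup (F × F) :=
    { carrier := {w | ∃ z, up w.1 w.2 z ∈ H}
      zero_mem' := ⟨0, by simpa [up_zero] using H.one_mem⟩
      add_mem' := by
        rintro w w' ⟨z, hz⟩ ⟨z', hz'⟩
        have := H.mul_mem hz hz'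
        rw [up_mul] at this
        exact ⟨_, this⟩
      neg_mem' := by
        rintro w ⟨z, hz⟩
        have := H.inv_mem hz
        rw [up_inv] at this
        exact ⟨_, this⟩ }
  have hT : ∀ x y, (x, y) ∈ M → (t1 / t2 * x, t2 / t3 * y) ∈ M := by
    rintro x y ⟨z, hz⟩
    exact conj_up hβ e hz
  have hP : ∀ g : ℤ[X], (aeval (t1 / t2) g * a, aeval (t2 / t3) g * c) ∈ M := by
    intro g
    induction g using Polynomial.induction_on with
    | C k =>
      have := M.zsmul_mem (show (a, c) ∈ M from ⟨b, hu⟩) k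
      simpa using this
    | add g g' hg hg' =>
      have := M.add_mem hg hg'
      simpa [add_mul] using this
    | monomial k z ih =>
      have := hT _ _ ih
      convert this using 2 <;> simp <;> ring
  let A : AddSubgroup F := M.comap (AddMonoidHom.inr F F)
  have hA : ∀ t, t ∈ A := addSubgroup_eq_top_of_gen A (mul_ne_zero h2 hc)
    (by have := hP f; rwa [h1, zero_mul] at this) hK (fun t ht => by
      have := hT _ _ ht
      rwa [mul_zero] at this)
  have hZ : ∀ r : F, up 0 0 r ∈ H := by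
    intro r
    obtain ⟨z, hz⟩ := hA (r / a)
    have := H.mul_mem (H.mul_mem hu hz) (H.mul_mem (H.inv_mem hu) (H.inv_mem hz))
    simp only [up_inv, up_mul, AddMonoidHom.inr_apply] at this
    convert this using 2
    · ring
    · ring
    · field_simp; ring
  refine eq_top_of_up hv fun s r => ?_
  obtain ⟨z, hz⟩ := hA s
  have := H.mul_mem hz (hZ (r - z))
  simpa [up_mul] using this

theorem even_case [Fintype F] (h2 : (2 : F) = 0) {θ : F} (hθ : ∀ K : Subring F, θ ∈ K → K = ⊤)
    (hu : up 1 1 θ ∈ H) (hv : low 0 ∈ H) : H = ⊤ := by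
  have hvi : ((low (0 : F))⁻¹ : Matrix.SpecialLinearGroup (Fin 3) F).1 =
      !![1, 0, 0; -1, 1, 0; 1, -1, 1] := by
    rw [Matrix.SpecialLinearGroup.coe_inv]
    ext i j
    fin_cases i <;> fin_cases j <;> simp [low, adjugate_fin_three]
  have ht : up 0 0 1 ∈ H := by
    have := H.mul_mem hu hu
    rw [up_mul] at this
    convert this using 2 <;> grind
  have step : ∀ r r' : F, up 0 0 r ∈ H → up 0 0 r' ∈ H → up 0 (r * r') (r * r') ∈ H := by
    intro r r' hr hr'
    rw [← hasTv_iff] at hr hr' ⊢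
    have := (hr.conj hv).comm_left hr' (by simp [low, mulVec, dotProduct, Fin.sum_univ_three])
    convert this using 1
    rw [hvi]
    ext i
    fin_cases i <;> simp [low, mulVec, vecMul, dotProduct, Fin.sum_univ_three, mul_comm]
  have step2 : ∀ s z : F, up 0 s z ∈ H → up 0 0 s ∈ H := by
    intro s z hz
    have := H.mul_mem (H.mul_mem hu hz) (H.mul_mem (H.inv_mem hu) (H.inv_mem hz))
    simp only [up_inv, up_mul] at this
    convert this using 2 <;> ring
  have h12 : up 1 0 1 ∈ H := by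
    have ht' := (hasTv_iff _ _).2 ht
    have := ht'.comm_left (ht'.conj_inv hv) (by simp [low, vecMul, dotProduct, Fin.sum_univ_three])
    have := this.sub_right (φ' := ![0, 0, 1]) (by
      convert ht' using 1
      rw [hvi]
      ext i
      fin_cases i <;> simp [mulVec, dotProduct, Fin.sum_univ_three])
    have := this.mem (g := up 1 0 0) (by
      rw [hvi]
      ext i j
      fin_cases i <;> fin_cases j <;>
        simp [up, low, mulVec, vecMul, dotProduct, Fin.sum_univ_three, vecMulVec_apply])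
    have := H.mul_mem this ht
    simpa [up_mul] using this
  let K : Subring F :=
    { carrier := {r | up 0 0 r ∈ H}
      mul_mem' := fun {x y} hx hy => step2 _ _ (step x y hx hy)
      one_mem' := ht
      add_mem' := fun {x y} hx hy => by simpa [up_mul] using H.mul_mem hx hy
      zero_mem' := by simpa [up_zero] using H.one_mem
      neg_mem' := fun {x} hx => by simpa [up_inv] using H.inv_mem hx }
  have hK : K = ⊤ := by
    apply hθ
    have := H.mul_mem (H.mul_mem hu h12) (step 1 1 ht ht)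
    simp only [up_mul] at this
    change up 0 0 θ ∈ H
    convert this using 2 <;> grind
  have hZ : ∀ r : F, up 0 0 r ∈ H := fun r => (hK ▸ Subring.mem_top r : r ∈ K)
  refine eq_top_of_up hv fun s r => ?_
  have := H.mul_mem (step s 1 (hZ s) ht) (hZ (r - s))
  simpa [up_mul] using this

theorem num {p n k : ℕ} (hp : p.Prime) (h2 : p ≠ 2) (hk : k < n)
    (h : p ^ n - 1 ∣ 3 * (p ^ k + 1)) : p ^ n = 3 ∨ p ^ n = 7 := by
  obtain ⟨m, rfl⟩ : ∃ m, n = m + 1 := ⟨n - 1, by omega⟩
  have h1 : p ^ k ≤ p ^ m := Nat.pow_le_pow_right hp.pos (by omega)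
  have h0 : 0 < p ^ m := Nat.pow_pos hp.pos
  by_cases h3 : p = 3
  · subst h3
    have hc : Nat.Coprime (3 ^ (m + 1) - 1) 3 := by
      rw [Nat.coprime_comm, Nat.Prime.coprime_iff_not_dvd Nat.prime_three, pow_succ]
      omega
    have := Nat.le_of_dvd (Nat.succ_pos _) (hc.dvd_of_dvd_mul_left h)
    rw [pow_succ] at this ⊢
    omega
  have h5 : 5 ≤ p := hp.five_le_of_ne_two_of_ne_three h2 h3
  have h6 := Nat.le_of_dvd (by omega) h
  rw [pow_succ] at h6
  have h7 : p ^ m * 5 ≤ p ^ m * p := Nat.mul_le_mul_left _ h5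
  have hm : m = 0 := by
    by_contra hm
    have : p ≤ p ^ m := Nat.le_self_pow hm p
    omega
  subst hm
  obtain rfl : k = 0 := by omega
  simp only [zero_add, pow_one, pow_zero] at h h6 ⊢
  have h8 : p ≤ 7 := by omega
  interval_cases p
  · omega
  · exact absurd hp (by norm_num)
  · simp

theorem num2 {p n k : ℕ} (hp : p.Prime) (h2 : p ≠ 2) (hk1 : 1 ≤ k) (hk : 2 * k ≤ n)
    (h : p ^ n - 1 ∣ 3 * (p ^ k - 1)) : False := by
  have h3 : 3 ≤ p := by have := hp.two_le; omega
  have h1 : p ≤ p ^ k := Nat.le_self_pow (by omega) p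
  have h4 : p ^ k * p ^ k ≤ p ^ n := by
    rw [← pow_add]; exact Nat.pow_le_pow_right hp.pos (by omega)
  have h6 := Nat.le_of_dvd (by omega) h
  have : 3 * p ^ k ≤ p ^ k * p ^ k := Nat.mul_le_mul_right _ (by omega)
  omega

/-- Let F be a finite field. Then SL_3(F) is generated by two conjugate regular unipotent elements: there are u with u − 1 nilpotent and (u − 1)² ≠ 0, and g, such that u and g u g⁻¹ generate SL_3(F). -/
theorem result {F : Type*} [Field F] [Fintype F] :
    ∃ u g : Matrix.SpecialLinearGroup (Fin 3) F, IsNilpotent ((u : Matrix (Fin 3) (Fin 3) F) - 1) ∧ ((u : Matrix (Fin 3) (Fin 3) F) - 1) ^ (3 - 1) ≠ 0 ∧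
      Subgroup.closure ({u, g * u * g⁻¹} : Set (Matrix.SpecialLinearGroup (Fin 3) F)) = ⊤ := by
  classical
  have red : ∀ a b c y l : F, a ≠ 0 → c ≠ 0 → l ^ 3 = -(a * c ^ 2) →
      (∀ H : Subgroup (Matrix.SpecialLinearGroup (Fin 3) F), up a c b ∈ H → low y ∈ H → H = ⊤) →
      ∃ u g : Matrix.SpecialLinearGroup (Fin 3) F,
        IsNilpotent ((u : Matrix (Fin 3) (Fin 3) F) - 1) ∧
        ((u : Matrix (Fin 3) (Fin 3) F) - 1) ^ (3 - 1) ≠ 0 ∧
        Subgroup.closure ({u, g * u * g⁻¹} : Set (Matrix.SpecialLinearGroup (Fin 3) F)) = ⊤ := by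
    intro a b c y l ha hc hl h
    obtain ⟨g, hg⟩ := exists_conj b y ha hc hl
    refine ⟨up a c b, g, (up_reg b ha hc).1, (up_reg b ha hc).2, h _ ?_ ?_⟩
    · exact Subgroup.subset_closure (by simp)
    · rw [← hg]; exact Subgroup.subset_closure (by simp)
  obtain ⟨θ, hθ⟩ := IsCyclic.exists_generator (α := Fˣ)
  have hord : ∀ m : ℕ, (θ : F) ^ m = 1 → Fintype.card F - 1 ∣ m := by
    intro m hm
    rw [← Fintype.card_units, ← Nat.card_eq_fintype_card, ← orderOf_eq_card_of_forall_mem_zpowers hθ]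
    exact orderOf_dvd_of_pow_eq_one (Units.ext (by simpa using hm))
  obtain ⟨p, hc, n, hp, hn⟩ := FiniteField.card' F
  have := Fact.mk hp
  by_cases h2 : p = 2
  · subst h2
    have h2 : (2 : F) = 0 := by simpa using CharP.cast_eq_zero F 2
    refine red 1 θ 1 0 1 one_ne_zero one_ne_zero (by grind) fun H hu hv =>
      even_case h2 (fun K hK => ?_) hu hv
    rw [eq_top_iff]
    intro t _
    exact addSubgroup_eq_top_of_mul_gen K.toAddSubgroup one_ne_zero K.one_mem θ hθ
      (fun s hs => K.mul_mem hK hs) t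
  by_cases h3 : Fintype.card F = 3
  · have h3' : (3 : F) = 0 := by simpa [h3] using FiniteField.cast_card_eq_zero F
    have h2' : (2 : F) ≠ 0 := fun h => one_ne_zero (α := F) (by linear_combination h3' - h)
    refine red 1 1 2 2 2 one_ne_zero h2' (by grind) fun H hu hv => ?_
    refine crit one_ne_zero h2' hu hv (t1 := 1) (t2 := 2) (t3 := 2) (p := 0) (r := 0) (s := 1)
      (H.mul_mem (H.mul_mem (H.mul_mem hv hu) (H.mul_mem hv hu))
        (H.mul_mem (H.mul_mem hu hv) (H.mul_mem hu hv))) ?_ (X + X - 1) ?_ ?_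
      (fun K _ => subring_eq_top_of_prime (h3 ▸ Nat.prime_three) K)
    · simp only [Matrix.SpecialLinearGroup.coe_mul, coe_up, coe_low, Matrix.mul_fin_three]
      clear red hθ hord hu hv
      ext i j
      fin_cases i <;> fin_cases j <;> simp <;> grind
    · simp only [map_sub, map_add, aeval_X, map_one]; field_simp; ring
    · simp [h2']
  by_cases h7 : Fintype.card F = 7
  · have h7' : (7 : F) = 0 := by simpa [h7] using FiniteField.cast_card_eq_zero F
    have h2' : (2 : F) ≠ 0 := fun h => one_ne_zero (α := F) (by linear_combination h7' - 3 * h)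
    have h5' : (5 : F) ≠ 0 := fun h => h2' (by linear_combination h7' - h)
    have h3' : (3 : F) ≠ 0 := fun h => one_ne_zero (α := F) (by linear_combination h7' - 2 * h)
    refine red 2 1 5 2 (-1) h2' h5' (by grind) fun H hu hv => ?_
    refine crit h2' h5' hu hv (t1 := 5) (t2 := 5) (t3 := 2) (p := 3) (r := 1) (s := 0)
      (H.mul_mem (H.mul_mem hv hv) (H.mul_mem hu hv)) ?_ (X - 1) ?_ ?_
      (fun K _ => subring_eq_top_of_prime (h7 ▸ Nat.prime_seven) K)
    · simp only [Matrix.SpecialLinearGroup.coe_mul, coe_up, coe_low, Matrix.mul_fin_three]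
      clear red hθ hord hu hv
      ext i j
      fin_cases i <;> fin_cases j <;> simp <;> grind
    · simp [h5']
    · simp; grind
  set h : F := (θ : F) with hh
  have h0 : h ≠ 0 := θ.ne_zero
  have h1 : 1 + h ≠ 0 := by
    intro h1
    have := hord 2 (by rw [show h = -1 by linear_combination h1]; simp)
    have h4 := Nat.le_of_dvd (by omega) this
    have h5 : 3 ≤ p := by have := hp.two_le; omega
    have h6 : p ≤ p ^ (n : ℕ) := Nat.le_self_pow n.ne_zero p
    omega
  have ha : -(1 + h) ^ 2 / h ≠ 0 := div_ne_zero (neg_ne_zero.2 (pow_ne_zero _ h1)) h0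
  refine red (-(1 + h) ^ 2 / h) (2 * h + 3 + 2 / h + 1 / h ^ 2) (-(1 + h) ^ 2 / h) (h / (1 + h))
    ((1 + h) ^ 2 / h) ha ha (by ring) fun H hu hv => ?_
  obtain ⟨f, hf1, hf2⟩ := exists_sep_poly hn (h ^ 3) (h ^ 3)⁻¹ (by
    intro k hk e
    have := hord (3 * (p ^ k + 1)) (by
      rw [pow_mul, pow_succ, e, inv_mul_cancel₀ (pow_ne_zero _ h0)])
    rw [hn] at this
    rcases num hp h2 hk this with h | h <;> omega)
  have e1 : h / (h ^ 2)⁻¹ = h ^ 3 := by field_simp
  have e2 : (h ^ 2)⁻¹ / h = (h ^ 3)⁻¹ := by field_simp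
  refine crit ha ha hu hv (t1 := h) (t2 := (h ^ 2)⁻¹) (t3 := h)
    (p := h + 1 + 1 / h + 1 / h ^ 2) (r := 2 * h + 3 + 2 / h + 1 / h ^ 2)
    (s := h + 1 + 1 / h + 1 / h ^ 2) (H.mul_mem (H.mul_mem hv hu) hv) ?_ f
    (by rwa [e1]) (by rwa [e2]) fun K hK => ?_
  · simp only [Matrix.SpecialLinearGroup.coe_mul, coe_up, coe_low, Matrix.mul_fin_three]
    ext i j
    fin_cases i <;> fin_cases j <;> simp <;> field_simp <;> ring
  · by_contra hne
    obtain ⟨k, hk1, hk2, hk⟩ := exists_small_of_ne_top hn K hne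
    have h3K : h ^ 3 ∈ K := by simpa [e2] using inv_mem_subring K hK
    have h4 := hk _ h3K
    have h5 : 1 ≤ p ^ k := Nat.one_le_pow _ _ hp.pos
    refine num2 hp h2 hk1 hk2 (hn ▸ hord _ ?_)
    rw [pow_mul]
    apply mul_right_cancel₀ (pow_ne_zero 3 h0)
    rw [← pow_succ, Nat.sub_add_cancel h5, h4, one_mul]

end Cfsg.Agent.S2278
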