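import Cfsg.Statements.S2279
import Cfsg.Agent.Lib.RU.SLn

set_option autoImplicit false
open Cfsg

namespace Cfsg.Agent.S2279

open Matrix Cfsg.Agent.SLn Cfsg.Agent.RU

variable {F : Type*} [Field F] {n : ℕ}

theorem eq_top_of_tri (S : Submodule F (Fin n → F))
    (h : ∀ k : Fin n, ∃ v ∈ S, v k ≠ 0 ∧ ∀ i, i < k → v i = 0) : S = ⊤ := by
  have key : ∀ k : ℕ, ∀ w : Fin n → F, (∀ i : Fin n, i.val + k < n → w i = 0) → w ∈ S := by
    intro k
    induction k with
    | zero =>
      intro w hw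
      rw [show w = 0 from funext fun i => hw i (by simp)]
      exact S.zero_mem
    | succ k ih =>
      intro w hw
      by_cases hk : k < n
      · obtain ⟨v, hv, h1, h2⟩ := h ⟨n - 1 - k, by omega⟩
        have := ih (w - (w ⟨n - 1 - k, by omega⟩ / v ⟨n - 1 - k, by omega⟩) • v) (by
          intro i hi
          by_cases hik : i.val = n - 1 - k
          · have e : i = ⟨n - 1 - k, by omega⟩ := Fin.ext hik
            rw [e]
            simp only [Pi.sub_apply, Pi.smul_apply, smul_eq_mul]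
            field_simp
            ring
          · simp only [Pi.sub_apply, Pi.smul_apply, smul_eq_mul]
            rw [hw i (by omega), h2 i (by simp only [Fin.lt_def]; omega)]
            ring)
        simpa using S.add_mem this (S.smul_mem
          (w ⟨n - 1 - k, by omega⟩ / v ⟨n - 1 - k, by omega⟩) hv)
      · exact ih w fun i hi => by omega
  rw [eq_top_iff]
  intro w _
  exact key n w fun i hi => by omega

theorem bidiag_mulVec (x : ℕ → F) (hx : x n = 0) :
    (bidiag n (fun _ => (1 : F)) : Matrix (Fin n) (Fin n) F) *ᵥ (fun i => x i.val) =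
      fun i => x i.val + x (i.val + 1) := by
  ext i
  simp only [mulVec, dotProduct, bidiag_apply]
  have e : ∀ j : Fin n, (if i = j then (1 : F) else if j.val = i.val + 1 then 1 else 0) * x j.val =
      (if i = j then x j.val else 0) + (if j.val = i.val + 1 then x (i.val + 1) else 0) := by
    intro j
    by_cases h1 : i = j
    · subst h1; simp
    · by_cases h2 : j.val = i.val + 1
      · simp [h1, h2]
      · simp [h1, h2]
  simp only [e, Finset.sum_add_distrib, Finset.sum_ite_eq, Finset.mem_univ, if_true]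
  congr 1
  by_cases hi : i.val + 1 < n
  · rw [Finset.sum_eq_single (⟨i.val + 1, hi⟩ : Fin n)]
    · simp
    · intro j _ hj
      rw [if_neg (fun h => hj (Fin.ext h))]
    · simp
  · have : i.val + 1 = n := by have := i.2; omega
    rw [this, hx]; simp

theorem vecMul_bidiag (x : ℕ → F) :
    (fun i => x (i.val + 1)) ᵥ* (bidiag n (fun _ => (1 : F)) : Matrix (Fin n) (Fin n) F) =
      fun j => x (j.val + 1) + if j.val = 0 then 0 else x j.val := by
  ext j
  simp only [vecMul, dotProduct, bidiag_apply]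
  have e : ∀ i : Fin n, x (i.val + 1) *
      (if i = j then (1 : F) else if j.val = i.val + 1 then 1 else 0) =
      (if i = j then x (i.val + 1) else 0) + (if j.val = i.val + 1 then x j.val else 0) := by
    intro i
    by_cases h1 : i = j
    · subst h1; simp
    · by_cases h2 : j.val = i.val + 1
      · simp [h1, h2]
      · simp [h1, h2]
  simp only [e, Finset.sum_add_distrib, Finset.sum_ite_eq', Finset.mem_univ, if_true]
  congr 1
  by_cases hj : j.val = 0
  · simp [hj]
  · rw [if_neg hj, Finset.sum_eq_single (⟨j.val - 1, by have := j.2; omega⟩ : Fin n)]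
    · rw [if_pos (by simp only; omega)]
    · intro i _ hi
      rw [if_neg (fun h => hi (Fin.ext (by simp only; omega)))]
    · simp

theorem aux [Finite F] (r : ℕ) (hr : 2 ≤ r) (d d' : F) (m : ℕ) (hm : 2 ≤ m) (hmr : r ≤ m + 1)
    (hd : d ≠ 0)
    (h0 : ∀ j ≤ m, d * (j.choose (r + 1) : F) + d' * (j.choose r : F) = 0)
    (hc : d - d' ≠ 0) (hd1 : d * ((m + 1).choose (r + 1) : F) + d' * ((m + 1).choose r : F) ≠ 0)
    (hK : ∀ K : Subring F, ((-1) ^ (r + 1) * (d - d')) ^ (m + 1) *
      (d * ((m + 1).choose (r + 1) : F) + d' * ((m + 1).choose r : F)) ∈ K →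
      ((-1) ^ (r + 1) * (d * (r + 2) - d' * (r + 1))) / ((-1) ^ (r + 1) * (d - d')) ^ 2 ∈ K →
        K = ⊤) :
    ∃ u g : SpecialLinearGroup (Fin (r + 2)) F,
      (IsNilpotent ((u : Matrix (Fin (r + 2)) (Fin (r + 2)) F) - 1) ∧
        ((u : Matrix (Fin (r + 2)) (Fin (r + 2)) F) - 1) ^ (r + 2 - 1) ≠ 0) ∧
      Subgroup.closure ({u, g * u * g⁻¹} : Set (SpecialLinearGroup (Fin (r + 2)) F)) = ⊤ := by
  set u : SpecialLinearGroup (Fin (r + 2)) F := bidiag (r + 2) (fun _ => 1) with hu
  let a' : ℕ → ℕ → F := fun k i => if i ≤ r + 1 then (k.choose (r + 1 - i) : F) else 0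
  let a : ℕ → Fin (r + 2) → F := fun k i => a' k i.val
  let g' : ℕ → ℕ → F := fun k i => if i = k + 1 then d else if i = k + 2 then d' else 0
  let g : ℕ → Fin (r + 2) → F := fun k i => g' k (i.val + 1)
  let f : ℕ → Fin (r + 2) → F := fun k => g 0 ᵥ* ((u⁻¹ ^ k : Matrix.SpecialLinearGroup (Fin (r + 2)) F) : Matrix _ _ F)
  have ha : ∀ k, a (k + 1) = (u : Matrix _ _ F) *ᵥ a k := by
    intro k
    rw [hu, bidiag_mulVec (a' k) (by simp [a'])]
    ext i
    have hi := i.2
    simp only [a, a']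
    rw [if_pos (by omega), if_pos (by omega)]
    by_cases h : i.val = r + 1
    · rw [if_neg (by omega), h]; simp
    · rw [if_pos (by omega), show r + 1 - i.val = (r + 1 - (i.val + 1)) + 1 by omega,
        Nat.choose_succ_succ']
      push_cast; ring
  have hf : ∀ k, f (k + 1) = f k ᵥ* ((u⁻¹ : Matrix.SpecialLinearGroup (Fin (r + 2)) F) : Matrix _ _ F) := by
    intro k
    simp only [f]
    rw [vecMul_vecMul, ← Matrix.SpecialLinearGroup.coe_mul, pow_succ]
  have hf0 : f 0 = g 0 := by simp [f]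
  have hg0 : ∀ x : ℕ → F, g 0 ⬝ᵥ (fun i => x i.val) = d * x 0 + d' * x 1 := by
    intro x
    simp [g, g', dotProduct, Fin.sum_univ_succ]
  have hfa : ∀ j, f 0 ⬝ᵥ a j = d * (j.choose (r + 1) : F) + d' * (j.choose r : F) := by
    intro j
    rw [hf0, hg0 (a' j)]
    simp [a']
  let b1 : ℕ → F := fun i => if i ≤ r + 1 then (-1) ^ (r + 1 - i) else 0
  let b2 : ℕ → F := fun i => if i ≤ r + 1 then (-1) ^ (r + 1 - i) * ((r + 2 - i : ℕ) : F) else 0
  have hb1 : a 0 = u.1 *ᵥ (fun i : Fin (r + 2) => b1 i.val) := by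
    rw [hu, bidiag_mulVec b1 (by simp [b1])]
    ext i
    have hi := i.2
    simp only [a, a', b1]
    rw [if_pos (by omega), if_pos (by omega)]
    by_cases h : i.val = r + 1
    · rw [if_neg (by omega), h]; simp
    · rw [if_pos (by omega), show r + 1 - i.val = (r + 1 - (i.val + 1)) + 1 by omega,
        Nat.choose_zero_succ, pow_succ]
      simp
  have hb2 : (fun i : Fin (r + 2) => b1 i.val) = u.1 *ᵥ (fun i : Fin (r + 2) => b2 i.val) := by
    rw [hu, bidiag_mulVec b2 (by simp [b2])]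
    ext i
    have hi := i.2
    simp only [b1, b2]
    rw [if_pos (by omega), if_pos (by omega)]
    by_cases h : i.val = r + 1
    · rw [if_neg (by omega), h]; simp
    · rw [if_pos (by omega), show r + 1 - i.val = (r + 1 - (i.val + 1)) + 1 by omega,
        show r + 2 - i.val = (r + 2 - (i.val + 1)) + 1 by omega, pow_succ]
      push_cast; ring
  have sh : ∀ k x, f (k + 1) ⬝ᵥ (u.1 *ᵥ x) = f k ⬝ᵥ x := by
    intro k x
    rw [hf, dotProduct_mulVec, vecMul_vecMul, coe_inv_mul, vecMul_one]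
  have hc1 : f 1 ⬝ᵥ a 0 = (-1) ^ (r + 1) * (d - d') := by
    rw [hb1, sh, hf0, hg0 b1]
    simp [b1]; ring
  have hc2 : f 2 ⬝ᵥ a 0 = (-1) ^ (r + 1) * (d * (r + 2) - d' * (r + 1)) := by
    rw [hb1, sh, hb2, sh, hf0, hg0 b2]
    simp [b2]; ring
  refine ⟨u, _, bidiag_regUnip (by omega) (fun _ => one_ne_zero),
    eq_top_of_pair u a f ha hf m hm (fun j hj => by rw [hfa]; exact h0 j hj)
      (by rw [hc1]; exact mul_ne_zero (pow_ne_zero _ (by simp)) hc) (by rw [hfa]; exact hd1)
      (by rw [hfa, hc1, hc2]; exact hK) ?_ ?_⟩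
  · intro S hS
    refine eq_top_of_tri S fun k => ⟨a (r + 1 - k.val), hS _ (by omega), ?_, ?_⟩
    · have := k.2
      simp only [a, a']
      rw [if_pos (by omega)]; simp
    · intro i hi
      have := k.2
      rw [Fin.lt_def] at hi
      simp only [a, a']
      rw [if_pos (by omega), Nat.choose_eq_zero_of_lt (by omega)]; simp
  · intro S h1 h2
    have hg : ∀ k, g k ∈ S := by
      intro k
      induction k with
      | zero => exact hf0 ▸ h1
      | succ k ih =>
        have h3 := S.sub_mem (h2 _ ih) ih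
        rw [hu, vecMul_bidiag (g' k)] at h3
        convert h3 using 1
        ext i
        simp only [g, g', Pi.sub_apply]
        split_ifs <;> first | omega | simp
    refine eq_top_of_tri S fun k => ⟨g k.val, hg _, by simpa [g, g'] using hd, ?_⟩
    intro i hi
    rw [Fin.lt_def] at hi
    simp only [g, g']
    rw [if_neg (by omega), if_neg (by omega)]

theorem subring_eq_top_of_gen [Finite F] (K : Subring F) (θ : Fˣ)
    (hθ : ∀ x : Fˣ, x ∈ Subgroup.zpowers θ) (h : (θ : F) ∈ K) : K = ⊤ := by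
  classical
  rw [eq_top_iff]
  intro t _
  by_cases ht : t = 0
  · rw [ht]; exact K.zero_mem
  obtain ⟨k, -, hk⟩ := (mem_zpowers_iff_mem_range_orderOf.1 (hθ (Units.mk0 t ht))) |>
    Finset.mem_image.1
  have : t = (θ : F) ^ k := by
    have := congrArg Units.val hk
    simpa using this.symm
  rw [this]; exact K.pow_mem h _

theorem pair {F : Type*} [Field F] [Fintype F] (n : ℕ) (hn : 4 ≤ n) :
    ∃ u g : SpecialLinearGroup (Fin n) F,
      (IsNilpotent ((u : Matrix (Fin n) (Fin n) F) - 1) ∧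
        ((u : Matrix (Fin n) (Fin n) F) - 1) ^ (n - 1) ≠ 0) ∧
      Subgroup.closure ({u, g * u * g⁻¹} : Set (SpecialLinearGroup (Fin n) F)) = ⊤ := by
  obtain ⟨r, rfl⟩ : ∃ r, n = r + 2 := ⟨n - 2, by omega⟩
  obtain ⟨θ, hθ⟩ := IsCyclic.exists_generator (α := Fˣ)
  have first : ∀ d : F, d ≠ 0 → (∀ K : Subring F, d ^ (r + 2) ∈ K → ((r : F) + 2) / d ∈ K → K = ⊤) →
      ∃ u g : SpecialLinearGroup (Fin (r + 2)) F,
      (IsNilpotent ((u : Matrix (Fin (r + 2)) (Fin (r + 2)) F) - 1) ∧
        ((u : Matrix (Fin (r + 2)) (Fin (r + 2)) F) - 1) ^ (r + 2 - 1) ≠ 0) ∧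
      Subgroup.closure ({u, g * u * g⁻¹} : Set (SpecialLinearGroup (Fin (r + 2)) F)) = ⊤ := by
    intro d hd hK
    refine aux r (by omega) d 0 r (by omega) (by omega) hd ?_ (by simpa using hd)
      (by simpa using hd) ?_
    · intro j hj
      rw [Nat.choose_eq_zero_of_lt (by omega)]; simp
    · intro K h1 h2
      have hs : ((-1 : F) ^ (r + 1)) ∈ K := K.pow_mem (K.neg_mem K.one_mem) _
      have hs2 : ((-1 : F) ^ (r + 1)) ^ 2 = 1 := by rw [← pow_mul, mul_comm, pow_mul]; simp
      have hs0 : ((-1 : F) ^ (r + 1)) ≠ 0 := pow_ne_zero _ (by simp)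
      apply hK
      · have := K.mul_mem (K.pow_mem hs (r + 1)) h1
        convert this using 1
        rw [mul_pow, ← mul_assoc, ← mul_assoc, ← mul_pow, ← sq, hs2]
        simp; ring
      · have := K.mul_mem hs h2
        convert this using 1
        simp only [sub_zero, zero_mul]
        field_simp
  by_cases h1 : (θ : F) = -1
  · exact first 1 one_ne_zero fun K _ _ => subring_eq_top_of_gen K θ hθ
      (h1 ▸ K.neg_mem K.one_mem)
  by_cases h4 : r = 2
  · subst h4
    refine first θ θ.ne_zero fun K h2 h3 => subring_eq_top_of_gen K θ hθ ?_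
    by_cases h2' : (2 : F) = 0
    · have : CharP F 2 := (CharP.charP_iff_prime_eq_zero Nat.prime_two).2 (by simpa using h2')
      obtain ⟨k, -, hk⟩ := FiniteField.card F 2
      have h5 := FiniteField.pow_card_pow 2 (θ : F)
      obtain ⟨j, hj⟩ : ∃ j, (k : ℕ) = j + 1 := ⟨k - 1, by have : 0 < (k : ℕ) := k.2; omega⟩
      rw [hk, hj, show (2 ^ (j + 1)) ^ 2 = (2 + 2) * 4 ^ j by
        rw [← pow_mul, mul_comm, pow_mul]; ring, pow_mul] at h5
      rw [← h5]; exact K.pow_mem h2 _
    · have h4 : ((2 : ℕ) : F) + 2 ≠ 0 := by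
        have := mul_ne_zero h2' h2'
        intro h; apply this; push_cast at h; linear_combination h
      have h5 : ((2 : ℕ) : F) + 2 ∈ K := K.add_mem (natCast_mem K 2) (ofNat_mem K 2)
      have := K.mul_mem h5 (inv_mem_subring K h3)
      convert this using 1
      field_simp
  obtain ⟨m, rfl⟩ : ∃ m, r = m + 1 := ⟨r - 1, by omega⟩
  refine aux (m + 1) (by omega) (θ + 1) θ m (by omega) le_rfl (fun h => h1 (by linear_combination h))
    ?_ (by simp) (by simp) ?_
  · intro j hj
    rw [Nat.choose_eq_zero_of_lt (by omega), Nat.choose_eq_zero_of_lt (by omega)]; simp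
  · intro K h2 _
    refine subring_eq_top_of_gen K θ hθ ?_
    have hs : ((-1 : F) ^ (m + 1 + 1)) ∈ K := K.pow_mem (K.neg_mem K.one_mem) _
    have hs2 : ((-1 : F) ^ (m + 1 + 1)) ^ 2 = 1 := by rw [← pow_mul, mul_comm, pow_mul]; simp
    have := K.mul_mem (K.pow_mem hs (m + 1)) h2
    convert this using 1
    rw [mul_pow, ← mul_assoc, ← mul_assoc, ← mul_pow, ← sq, hs2]
    simp

/-- Let F be a finite field with q elements and n ≥ 4. Then SL_n(F) is generated by two regular unipotent elements (elements u with u − 1 nilpotent and (u − 1)^(n−1) ≠ 0); if q is prime, the two can be taken conjugate in SL_n(F). -/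
theorem result {F : Type*} [Field F] [Fintype F] (n : ℕ) (hn : 4 ≤ n) :
    (∃ u v : Matrix.SpecialLinearGroup (Fin n) F, (IsNilpotent ((u : Matrix (Fin n) (Fin n) F) - 1) ∧ ((u : Matrix (Fin n) (Fin n) F) - 1) ^ (n - 1) ≠ 0) ∧ (IsNilpotent ((v : Matrix (Fin n) (Fin n) F) - 1) ∧ ((v : Matrix (Fin n) (Fin n) F) - 1) ^ (n - 1) ≠ 0) ∧
      Subgroup.closure ({u, v} : Set (Matrix.SpecialLinearGroup (Fin n) F)) = ⊤) ∧
    ((Fintype.card F).Prime → ∃ u g : Matrix.SpecialLinearGroup (Fin n) F, (IsNilpotent ((u : Matrix (Fin n) (Fin n) F) - 1) ∧ ((u : Matrix (Fin n) (Fin n) F) - 1) ^ (n - 1) ≠ 0) ∧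
      Subgroup.closure ({u, g * u * g⁻¹} : Set (Matrix.SpecialLinearGroup (Fin n) F)) = ⊤) := by
  obtain ⟨u, g, h1, h2⟩ := pair (F := F) n hn
  exact ⟨⟨u, g * u * g⁻¹, h1, regUnip_conj h1, h2⟩, fun _ => ⟨u, g, h1, h2⟩⟩

end Cfsg.Agent.S2279
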