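import Cfsg.Statements.S2280
import Cfsg.Agent.Lib.SLn.Monomial

set_option autoImplicit false
open Cfsg

namespace Cfsg.Agent.S2280

open Matrix Cfsg.Agent.SLn

variable {F : Type*} [Field F] {m : ℕ}

theorem lower_mulVec {v : Matrix (Fin (m + 1)) (Fin (m + 1)) F} {b : Fin (m + 1) → F}
    (hv : ∀ i j, v i j = if i = j then 1 else if i.val = j.val + 1 then b j else 0)
    (j : Fin m) (r : F) :
    v *ᵥ Pi.single j.castSucc r = Pi.single j.castSucc r + Pi.single j.succ (b j.castSucc * r) := by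
  ext a
  simp only [mulVec_single, Pi.smul_apply, col_apply, hv, Pi.add_apply, Pi.single_apply,
    Fin.ext_iff, Fin.val_succ, Fin.val_castSucc]
  split_ifs <;> first | omega | simp

theorem lower_vecMul {v : Matrix (Fin (m + 1)) (Fin (m + 1)) F} {b : Fin (m + 1) → F}
    (hv : ∀ i j, v i j = if i = j then 1 else if i.val = j.val + 1 then b j else 0)
    (j : Fin m) :
    Pi.single j.succ 1 ᵥ* v = Pi.single j.succ 1 + b j.castSucc • Pi.single j.castSucc 1 := by
  ext a
  simp only [single_vecMul, Pi.smul_apply, row_apply, hv, Pi.add_apply, Pi.single_apply,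
    Fin.ext_iff, Fin.val_succ, Fin.val_castSucc]
  split_ifs with h1 h2 h3 h4 h5 h6 h7 <;> try (first | omega | simp)
  congr 1
  ext
  simp; omega

theorem lower_mulVec_last {v : Matrix (Fin (m + 1)) (Fin (m + 1)) F} {b : Fin (m + 1) → F}
    (hv : ∀ i j, v i j = if i = j then 1 else if i.val = j.val + 1 then b j else 0) :
    v *ᵥ Pi.single (Fin.last m) 1 = Pi.single (Fin.last m) 1 := by
  ext a
  have := a.2
  simp only [mulVec_single, Pi.smul_apply, col_apply, hv, Pi.single_apply,
    Fin.ext_iff, Fin.val_last]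
  split_ifs <;> first | omega | simp

theorem inv_corner_ne_zero {v : SpecialLinearGroup (Fin (m + 1)) F} {b : Fin (m + 1) → F}
    (hv : ∀ i j, v.1 i j = if i = j then 1 else if i.val = j.val + 1 then b j else 0)
    (hb : ∀ j, b j ≠ 0) :
    (Pi.single (Fin.last m) 1 ᵥ* (v⁻¹ : SpecialLinearGroup (Fin (m + 1)) F).1) 0 ≠ 0 := by
  set φ := Pi.single (Fin.last m) 1 ᵥ* (v⁻¹ : SpecialLinearGroup (Fin (m + 1)) F).1 with hφ
  have h1 : φ ᵥ* v.1 = Pi.single (Fin.last m) 1 := by
    rw [hφ, vecMul_vecMul, coe_inv_mul, vecMul_one]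
  intro h0
  have h2 : ∀ j, φ j = 0 := by
    intro j
    induction j using Fin.induction with
    | zero => exact h0
    | succ j ih =>
      have h3 := dotProduct_mulVec φ v.1 (Pi.single j.castSucc 1)
      rw [lower_mulVec hv, h1] at h3
      simp only [dotProduct_add, dotProduct_single, ih, mul_one, zero_add,
        Pi.single_eq_of_ne (Fin.castSucc_lt_last j).ne, mul_eq_zero] at h3
      exact h3.resolve_right (hb _)
  have h3 := dotProduct_mulVec φ v.1 (Pi.single (Fin.last m) 1)
  rw [lower_mulVec_last hv, h1] at h3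
  simp [h2] at h3

theorem key [Finite F] (hm : 2 ≤ m) (H : Subgroup (SpecialLinearGroup (Fin (m + 1)) F))
    (θ : Fˣ) (hθ : ∀ x : Fˣ, x ∈ Subgroup.zpowers θ)
    {u v : SpecialLinearGroup (Fin (m + 1)) F} (huH : u ∈ H) (hvH : v ∈ H)
    (hu1 : ∀ r : F, u.1 *ᵥ Pi.single (⟨1, by omega⟩ : Fin (m + 1)) r =
      Pi.single ⟨1, by omega⟩ r + Pi.single 0 (θ * r))
    (hu2 : Pi.single (Fin.last m) 1 ᵥ* u.1 = Pi.single (Fin.last m) 1)
    {b : Fin (m + 1) → F}
    (hv : ∀ i j, v.1 i j = if i = j then 1 else if i.val = j.val + 1 then b j else 0)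
    (hb : ∀ j, b j ≠ 0) (hb0 : b 0 = 1)
    (ht : HasTv H (Pi.single 0 ((Pi.single (Fin.last m) 1 ᵥ*
      (v⁻¹ : SpecialLinearGroup (Fin (m + 1)) F).1) 0)⁻¹) (Pi.single (Fin.last m) 1)) :
    H = ⊤ := by
  have hc := inv_corner_ne_zero hv hb
  set φ := Pi.single (Fin.last m) 1 ᵥ* (v⁻¹ : SpecialLinearGroup (Fin (m + 1)) F).1 with hφ
  have hu3 : Pi.single (Fin.last m) 1 ᵥ* (u⁻¹ : SpecialLinearGroup (Fin (m + 1)) F).1 =
      Pi.single (Fin.last m) 1 := by
    conv_lhs => rw [← hu2]
    rw [vecMul_vecMul, coe_mul_inv, vecMul_one]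
  have stepv : ∀ (j : Fin m) (r : F), j.succ ≠ Fin.last m →
      HasTv H (Pi.single j.castSucc r) (Pi.single (Fin.last m) 1) →
      HasTv H (Pi.single j.succ (b j.castSucc * r)) (Pi.single (Fin.last m) 1) := by
    intro j r hj h
    have h1 := (h.conj hvH).comm_left ht (by
      rw [lower_mulVec hv]
      simp [Pi.single_eq_of_ne hj, Pi.single_eq_of_ne (Fin.castSucc_lt_last j).ne])
    rw [dotProduct_single, ← hφ, mul_inv_cancel₀ hc, one_smul, lower_mulVec hv] at h1
    simpa using h1.sub_left h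
  have h0 : HasRoot H 0 (Fin.last m) := by
    intro t
    refine addSubgroup_eq_top_of_mul_gen (rootParams H 0 (Fin.last m)) (inv_ne_zero hc) ht θ hθ
      ?_ t
    intro s hs
    have h1 := stepv ⟨0, by omega⟩ s (by simp [Fin.ext_iff]; omega) hs
    have e1 : (⟨0, by omega⟩ : Fin m).castSucc = 0 := rfl
    have e2 : (⟨0, by omega⟩ : Fin m).succ = ⟨1, by omega⟩ := rfl
    rw [e1, e2, hb0, one_mul] at h1
    have h2 := h1.conj huH
    rw [hu1, hu3] at h2
    rw [mem_rootParams]
    simpa using h2.sub_left h1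
  have h1 : ∀ i : Fin (m + 1), i ≠ Fin.last m → HasRoot H i (Fin.last m) := by
    intro i
    induction i using Fin.induction with
    | zero => exact fun _ => h0
    | succ j ih =>
      intro hj t
      have := stepv j ((b j.castSucc)⁻¹ * t) hj (ih (Fin.castSucc_lt_last j).ne _)
      rwa [← mul_assoc, mul_inv_cancel₀ (hb _), one_mul] at this
  have h2 : ∀ i : Fin (m + 1), (Pi.single i 1 : Fin (m + 1) → F) ∈ axisSub H := by
    intro i
    induction i using Fin.reverseInduction with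
    | last => exact hasAxis_single _ h1
    | cast j ih =>
      have h3 : Pi.single j.succ 1 ᵥ* v.1 ∈ axisSub H := HasAxis.conj ih hvH
      rw [lower_vecMul hv] at h3
      have h4 := (axisSub H).smul_mem (b j.castSucc)⁻¹ ((axisSub H).sub_mem h3 ih)
      rwa [add_sub_cancel_left, smul_smul, inv_mul_cancel₀ (hb _), one_smul] at h4
  exact eq_top_of_hasTv_single H fun i j hij t => h2 j _ (by simp [hij.symm])

/-- Let F be a finite field and n ≥ 3. Then SL_n(F) is generated by three conjugate regular unipotent elements: there are u with u − 1 nilpotent and (u − 1)^(n−1) ≠ 0, and g, h, such that u, g u g⁻¹ and h u h⁻¹ generate SL_n(F). -/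
theorem result {F : Type*} [Field F] [Fintype F] (n : ℕ) (hn : 3 ≤ n) :
    ∃ u g h : Matrix.SpecialLinearGroup (Fin n) F, (IsNilpotent ((u : Matrix (Fin n) (Fin n) F) - 1) ∧ ((u : Matrix (Fin n) (Fin n) F) - 1) ^ (n - 1) ≠ 0) ∧
      Subgroup.closure ({u, g * u * g⁻¹, h * u * h⁻¹} : Set (Matrix.SpecialLinearGroup (Fin n) F)) = ⊤ := by
  obtain ⟨m, rfl⟩ : ∃ m, n = m + 1 := ⟨n - 1, by omega⟩
  have hm : 2 ≤ m := by omega
  obtain ⟨θ, hθ⟩ := IsCyclic.exists_generator (α := Fˣ)
  set a : ℕ → F := fun i => if i = 0 then θ else 1 with ha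
  have ha0 : ∀ i, a i ≠ 0 := by
    intro i; simp only [ha]; split_ifs
    · exact θ.ne_zero
    · exact one_ne_zero
  set u : SpecialLinearGroup (Fin (m + 1)) F := bidiag (m + 1) a with hu
  set h : SpecialLinearGroup (Fin (m + 1)) F := permSL F Fin.revPerm 0 with hh
  set d : Fin (m + 1) → F := fun j =>
    if j = 0 then ((Equiv.Perm.sign (Fin.revPerm : Equiv.Perm (Fin (m + 1))) : ℤ) : F) else 1
    with hd
  have hhc : h.1 = monoMat Fin.revPerm d := rfl
  have hd0 := ne_zero_of_monoMat hhc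
  set b : Fin (m + 1) → F := fun j =>
    d ⟨m - j.val - 1, by omega⟩ * a (m - j.val - 1) * (d j.rev)⁻¹ with hb
  have hv : ∀ i j, (h * u * h⁻¹).1 i j =
      if i = j then 1 else if i.val = j.val + 1 then b j else 0 := by
    intro i j
    have := coe_conj_monoMat_apply hhc u i.rev j.rev
    simp only [Fin.revPerm_apply, Fin.rev_rev] at this
    rw [this, hu, bidiag_apply]
    have hi := i.2
    have hj := j.2
    by_cases h1 : i = j
    · subst h1; simp [hd0]
    · rw [if_neg (by simpa using h1), if_neg h1]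
      by_cases h2 : i.val = j.val + 1
      · rw [if_pos h2, if_pos (by simp only [Fin.val_rev]; omega)]
        simp only [hb]
        congr 3
        · ext; simp only [Fin.val_rev]; omega
        · simp only [Fin.val_rev]; omega
      · rw [if_neg h2, if_neg (by simp only [Fin.val_rev]; omega)]
        simp
  have hb0 : ∀ j, b j ≠ 0 := fun j =>
    mul_ne_zero (mul_ne_zero (hd0 _) (ha0 _)) (inv_ne_zero (hd0 _))
  have hb1 : b 0 = 1 := by
    simp only [hb, hd, ha]
    rw [if_neg (by simp [Fin.ext_iff]; omega), if_neg (by simp; omega),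
      if_neg (by simp [Fin.ext_iff]; omega)]
    simp
  set c := (Pi.single (Fin.last m) 1 ᵥ*
      ((h * u * h⁻¹)⁻¹ : SpecialLinearGroup (Fin (m + 1)) F).1) 0 with hc
  have h1m : (⟨1, by omega⟩ : Fin (m + 1)) ≠ Fin.last m := by simp [Fin.ext_iff]; omega
  set s : F := -(θ : F)⁻¹ * c⁻¹ with hs
  set g : SpecialLinearGroup (Fin (m + 1)) F := Matrix.SpecialLinearGroup.transvection h1m s
    with hg
  have hgc : g.1 = 1 + vecMulVec (Pi.single ⟨1, by omega⟩ s) (Pi.single (Fin.last m) 1) :=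
    coe_transvection_eq _ _ _
  refine ⟨u, g, h, bidiag_regUnip (by omega) ha0, ?_⟩
  set H := Subgroup.closure
    ({u, g * u * g⁻¹, h * u * h⁻¹} : Set (Matrix.SpecialLinearGroup (Fin (m + 1)) F))
  have huH : u ∈ H := Subgroup.subset_closure (by simp)
  have hgH : g * u * g⁻¹ ∈ H := Subgroup.subset_closure (by simp)
  have hvH : h * u * h⁻¹ ∈ H := Subgroup.subset_closure (by simp)
  have hu1 : ∀ r : F, u.1 *ᵥ Pi.single (⟨1, by omega⟩ : Fin (m + 1)) r =
      Pi.single ⟨1, by omega⟩ r + Pi.single 0 (θ * r) := by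
    intro r
    ext i
    simp only [hu, mulVec_single, Pi.smul_apply, col_apply, bidiag_apply, Pi.add_apply,
      Pi.single_apply, Fin.ext_iff, ha, Fin.val_zero]
    split_ifs <;> first | omega | simp
  have hu2 : Pi.single (Fin.last m) 1 ᵥ* u.1 = Pi.single (Fin.last m) 1 := by
    ext i
    have := i.2
    simp only [hu, single_vecMul, Pi.smul_apply, row_apply, bidiag_apply,
      Pi.single_apply, Fin.ext_iff, Fin.val_last]
    split_ifs <;> first | omega | simp
  have hu3 : Pi.single (Fin.last m) 1 ᵥ* (u⁻¹ : SpecialLinearGroup (Fin (m + 1)) F).1 =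
      Pi.single (Fin.last m) 1 := by
    conv_lhs => rw [← hu2]
    rw [vecMul_vecMul, coe_mul_inv, vecMul_one]
  refine key hm H θ hθ huH hvH hu1 hu2 hv hb0 hb1 ?_
  refine ⟨(g * u * g⁻¹) * u⁻¹, H.mul_mem hgH (H.inv_mem huH), ?_⟩
  have e1 : (g * u * g⁻¹) * u⁻¹ = g * (u * g⁻¹ * u⁻¹) := by group
  rw [e1, Matrix.SpecialLinearGroup.coe_mul, coe_conj_of_eq u (inv_coe_of_eq hgc).2, hgc, hu3,
    one_add_mul_one_add, ← Pi.single_neg, hu1, add_assoc, add_assoc, add_right_inj,
    single_dotProduct, Pi.add_apply, Pi.single_eq_of_ne h1m.symm,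
    Pi.single_eq_of_ne (by simp [Fin.ext_iff]; omega), add_zero, mul_zero, zero_smul, add_zero,
    ← add_vecMulVec, ← add_assoc, ← Pi.single_add, add_neg_cancel, Pi.single_zero, zero_add]
  congr 2
  rw [hs, ← hc]
  field_simp

end Cfsg.Agent.S2280
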