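import Cfsg.Statements.S2281
import Cfsg.Agent.Lib.RU.Build

set_option autoImplicit false
open Cfsg

namespace Cfsg.Agent.S2281

open Module Cfsg.Agent.Forms Cfsg.Agent.Forms.Form Cfsg.Agent.Deg Cfsg.Agent.RU Cfsg.Agent.SLn

section general

variable {F : Type*} [Field F] {P : Param F} {V : Type*} [AddCommGroup V] [Module F V]
  {f : Form P V} {K : Subgroup f.Isom} {e v v' : V}

theorem diff (h : InE K e v) {g : f.Isom} (hg : g ∈ K) (he : g.1 e = e) :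
    ∃ hu hv hl, f.eichler e (g.1 v - v) (f.B v v - f.B v (g.1 v)) hu hv hl ∈ K := by
  obtain ⟨l, hu, hv, hl, h⟩ := h
  have h1 := K.mul_mem (K.mul_mem hg h) (K.inv_mem hg)
  rw [eichler_conj, eichler_congr' _ _ _ he rfl rfl] at h1
  have h2 := K.mul_mem h1 (K.inv_mem h)
  rw [eichler_inv, eichler_mul, f.eichler_congr _ _ _ (sub_eq_add_neg _ _).symm
    (l' := f.B v v - f.B v (g.1 v)) (by rw [hl.2, B_neg_left, sub_eq_add_neg])] at h2
  exact ⟨_, _, _, h2⟩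

theorem inT_of_two (h : InE K e v) (h' : InE K e v') {g g' : f.Isom} (hg : g ∈ K) (hg' : g' ∈ K)
    (he : g.1 e = e) (he' : g'.1 e = e) (hv : g.1 v - v = g'.1 v' - v') :
    InT K e (f.B v v - f.B v (g.1 v) - (f.B v' v' - f.B v' (g'.1 v'))) := by
  obtain ⟨hu, h1, hl, h⟩ := diff h hg he
  obtain ⟨_, h1', hl', h'⟩ := diff h' hg' he'
  rw [f.eichler_congr _ _ _ hv rfl] at h
  have h0 := lam0_sub (hv ▸ hl) hl'
  refine ⟨hu, h0, ?_⟩
  convert K.mul_mem h (K.inv_mem h') using 1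
  rw [eq_mul_inv_iff_mul_eq, tr, eichler_mul]
  exact f.eichler_congr _ _ _ (zero_add _) (by simp)

end general

variable {F : Type*} [Field F] [Fintype F] {V : Type*} [AddCommGroup V] [Module F V]
  {f : Form (Param.sp F) V}

theorem lam0_sp (l : F) : Lam0 (Param.sp F) l := ⟨rfl, by simp⟩

theorem gen_sq (θ : Fˣ) (hθ : ∀ x : Fˣ, x ∈ Subgroup.zpowers θ) (R : Subring F)
    (h : (θ : F) ^ 2 ∈ R) : R = ⊤ := by
  classical
  by_contra hne
  obtain ⟨p, hc, n, hp, hn⟩ := FiniteField.card' F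
  have := Fact.mk hp
  obtain ⟨k, hk1, hk2, hk⟩ := exists_small_of_ne_top hn R hne
  have h5 : p ≤ p ^ k := Nat.le_self_pow (by omega) p
  have h6 := hp.two_le
  have h1 : (θ : F) ^ (2 * (p ^ k - 1)) = 1 := by
    rw [pow_mul]
    apply mul_right_cancel₀ (pow_ne_zero 2 θ.ne_zero)
    rw [← pow_succ, Nat.sub_add_cancel (by omega), hk _ h, one_mul]
  have h2 : orderOf θ ∣ 2 * (p ^ k - 1) := orderOf_dvd_of_pow_eq_one (Units.ext (by simpa using h1))
  rw [orderOf_eq_card_of_forall_mem_zpowers hθ, Nat.card_eq_fintype_card, Fintype.card_units,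
    hn] at h2
  have h3 := Nat.le_of_dvd (by omega) h2
  have h4 : p ^ k * p ^ k ≤ p ^ (n : ℕ) := by
    rw [← pow_add]; exact Nat.pow_le_pow_right hp.pos (by omega)
  have : 2 * p ^ k ≤ p ^ k * p ^ k := Nat.mul_le_mul_right _ (by omega)
  omega

theorem exists_sq_gen (θ : Fˣ) (hθ : ∀ x : Fˣ, x ∈ Subgroup.zpowers θ) {a : F} (ha : a ≠ 0) :
    ∃ t : F, t ≠ 0 ∧ ∀ R : Subring F, a * t ^ 2 ∈ R → R = ⊤ := by
  obtain ⟨j, hj⟩ := hθ (Units.mk0 a ha)
  have hj' : (θ : F) ^ j = a := by simpa using congrArg Units.val hj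
  have h0 := θ.ne_zero
  rcases Int.even_or_odd' j with ⟨i, rfl | rfl⟩
  · refine ⟨θ ^ (1 - i), zpow_ne_zero _ h0, fun R hR => gen_sq θ hθ R ?_⟩
    convert hR using 1
    rw [← hj', ← zpow_natCast, ← zpow_natCast, ← zpow_mul, ← zpow_add₀ h0]
    congr 1; push_cast; ring
  · refine ⟨θ ^ (-i), zpow_ne_zero _ h0, fun R hR => gen_sq θ hθ R (R.pow_mem ?_ 2)⟩
    convert hR using 1
    rw [← hj', ← zpow_natCast, ← zpow_mul, ← zpow_add₀ h0]
    conv_lhs => rw [← zpow_one (θ : F)]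
    congr 1; push_cast; ring

theorem conj_eq {u : f.Isom} {e x1 x2 : V} (hue : u.1 e = e) (hux : u.1 x1 = x1 + e)
    (hux2 : u.1 x2 = x2 + x1) (h1 : f.B x1 e = 0) (h2 : f.B x2 e = 0) (s : F) :
    ∃ g : f.Isom, g * u * g⁻¹ * u⁻¹ =
      tr f e (s * (s * f.B x2 x1 - 1)) (sp_Q _ _) (lam0_sp _) := by
  let T := tr f x1 s (sp_Q _ _) (lam0_sp _)
  let E := f.eichler e ((-s) • x2) 0 (sp_Q _ _) (by simp [h2]) (sp_isLam _ _ _)
  refine ⟨T * E, ?_⟩
  have e1 : u * T * u⁻¹ = T * f.eichler e (s • x1) s (sp_Q _ _) (by simp [h1]) (sp_isLam _ _ _) := by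
    have : u * T * u⁻¹ = tr f (x1 + e) s (sp_Q _ _) (lam0_sp _) := by
      rw [tr_conj]; congr 1
    rw [this, tr_add (sp_Q _ _) (sp_Q _ _) h1, mul_assoc]
    congr 1
    rw [tr, TT, eichler_mul]
    exact f.eichler_congr _ _ _ (by simp) (by simp)
  have e2 : u * E * u⁻¹ = f.eichler e ((-s) • (x2 + x1)) 0 (sp_Q _ _) (by simp [h1, h2])
      (sp_isLam _ _ _) := by
    rw [eichler_conj]
    exact eichler_congr' _ _ _ hue (by rw [map_smul, hux2]) rfl
  have e3 : T * tr f e (s * (s * f.B x2 x1 - 1)) (sp_Q _ _) (lam0_sp _) * T⁻¹ =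
      tr f e (s * (s * f.B x2 x1 - 1)) (sp_Q _ _) (lam0_sp _) := by
    rw [tr_conj]; congr 1
    rw [tr_apply, f.B_eq_zero_symm h1]; simp
  have e4 : T * E * u * (T * E)⁻¹ * u⁻¹ = T * (E * (u * E * u⁻¹)⁻¹) * (u * T * u⁻¹)⁻¹ := by group
  rw [e4, e1, e2, ← e3, mul_inv_rev, ← mul_assoc, mul_assoc T]
  congr 2
  rw [eichler_inv, eichler_inv, eichler_mul, eichler_mul, tr]
  refine f.eichler_congr _ _ _ (by module) ?_
  simp [sp_B_self, f.sp_symm x2 x1]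
  ring

theorem main [FiniteDimensional F V] (hf : f.Nondeg) {u : f.Isom} {w x0 : V} {k : ℕ}
    (h : Reg f u w k) (hx1 : f.B (u.1 x0) x0 = 0) (hx2 : f.B (u.1 (u.1 x0)) x0 ≠ 0)
    (hq : k = 0 → Fintype.card F ≠ 2) :
    ∃ g g' : f.Isom, ∀ K : Subgroup f.Isom, u ∈ K → g * u * g⁻¹ ∈ K → g' * u * g'⁻¹ ∈ K →
      K = ⊤ := by
  classical
  obtain ⟨θ, hθ⟩ := IsCyclic.exists_generator (α := Fˣ)
  set e := (Isom.N u ^ (k + 3)) w with he
  set x1 := (Isom.N u ^ (k + 2)) w with hx1'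
  set x2 := (Isom.N u ^ (k + 1)) w with hx2'
  set γ := f.B x2 x1 with hγ
  have hue : u.1 e = e := h.u_e
  have hux : u.1 x1 = x1 + e := u_pow_apply u _ w
  have hux2 : u.1 x2 = x2 + x1 := u_pow_apply u _ w
  have b1 : f.B x1 e = 0 := B_pow_pow h.nil (by omega) _ _
  have b2 : f.B x2 e = 0 := B_pow_pow h.nil (by omega) _ _
  have hγθ : γ = 0 ∨ (θ : F) ≠ 1 := by
    rcases Nat.eq_zero_or_pos k with hk | hk
    · right
      intro h1
      apply hq hk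
      have : orderOf θ = 1 := orderOf_eq_one_iff.2 (Units.ext h1)
      rw [orderOf_eq_card_of_forall_mem_zpowers hθ, Nat.card_eq_fintype_card,
        Fintype.card_units] at this
      omega
    · left; exact B_pow_pow h.nil (by omega) _ _
  obtain ⟨s, hs0, hs⟩ : ∃ s : F, s ≠ 0 ∧ s * γ - 1 ≠ 0 := by
    by_cases h1 : γ = 1
    · exact ⟨θ, θ.ne_zero, by
        rw [h1, mul_one, sub_ne_zero]; exact hγθ.resolve_left (h1 ▸ one_ne_zero)⟩
    · exact ⟨1, one_ne_zero, by rwa [one_mul, sub_ne_zero]⟩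
  set c := s * (s * γ - 1) with hc
  have hc0 : c ≠ 0 := mul_ne_zero hs0 hs
  obtain ⟨g, hg⟩ := conj_eq hue hux hux2 b1 b2 s
  obtain ⟨y0, hy1, hy2⟩ : ∃ y0, f.HypPair x1 y0 ∧ f.B y0 e = 0 :=
    h.exists_y hf (fun x _ => sp_Q _ _)
  have hρ := h.rho_ne hy2 (by rw [hy1.Bue]; exact one_ne_zero)
  obtain ⟨t, ht0, ht⟩ := exists_sq_gen θ hθ (mul_ne_zero hc0 hρ)
  set δ := f.B x0 (u.1 (u.1 x0)) with hδ
  have hδ0 : δ ≠ 0 := fun h => hx2 (f.B_eq_zero_symm h)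
  obtain ⟨μ, hμ0, hμ⟩ : ∃ μ : F, μ ≠ 0 ∧ ((2 : F) ≠ 0 ∨ 1 - c * (μ ^ 2 * δ / t) ^ 2 * γ ≠ 0) := by
    by_cases h2 : (2 : F) = 0
    swap
    · exact ⟨1, one_ne_zero, Or.inl h2⟩
    by_cases h1 : 1 - c * (1 ^ 2 * δ / t) ^ 2 * γ = 0
    swap
    · exact ⟨1, one_ne_zero, Or.inr h1⟩
    refine ⟨θ, θ.ne_zero, Or.inr fun h3 => ?_⟩
    rcases hγθ with h4 | h4
    · simp [h4] at h1
    · apply h4
      have h5 : ((θ : F) - 1) ^ 4 = 0 := by
        linear_combination (θ : F) ^ 4 * h1 - h3 +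
          (-2 * θ ^ 3 + 3 * θ ^ 2 - 2 * θ + 1) * h2
      exact sub_eq_zero.1 (pow_eq_zero_iff (by omega) |>.1 h5)
  set l := μ ^ 2 * δ / t with hl
  have hl0 : l ≠ 0 := div_ne_zero (mul_ne_zero (pow_ne_zero _ hμ0) hδ0) ht0
  have hx0 : x0 ≠ 0 := by rintro rfl; simp at hx2
  obtain ⟨g', a1, a2, a3⟩ := exists_witt_three hf (a := μ • x0) (b := u.1 (μ • x0))
    (c := u.1 (u.1 (μ • x0))) (a' := l • x1) (b' := e) (c' := t • y0) (sp_Q _ _) (sp_Q _ _)
    (sp_Q _ _) (sp_Q _ _) (sp_Q _ _) (sp_Q _ _) (by simp [hμ0, ← hδ, hδ0])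
    (by simp [← hδ, hy1.Bue, hl]; field_simp) (by simp [hμ0, hx0]) h.e_ne (by simp [hx1])
    (by rw [Isom.map_B]; simp [f.B_eq_zero_symm hx1]) (by simp [f.B_eq_zero_symm b1])
    (by simp [f.B_eq_zero_symm hy2])
  refine ⟨g, g', fun K hu hgK hv => HasTr.sp_eq_top hf ?_⟩
  have hT : InT K e c := ⟨_, _, hg ▸ K.mul_mem hgK (K.inv_mem hu)⟩
  have v1 : (g' * u * g'⁻¹).1 (l • x1) = e := by
    rw [← a1, ← a2, Isom.mul_apply, Isom.mul_apply, Isom.inv_apply]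
  have v2 : (g' * u * g'⁻¹).1 e = t • y0 := by
    rw [← a2, ← a3, Isom.mul_apply, Isom.mul_apply, Isom.inv_apply]
  have hye : f.B (t • y0) e = 0 := by simp [hy2]
  have hxy : f.B x1 (t • y0) ≠ 0 := by simp [hy1.Bue, ht0]
  have hE := core hu hv hue hux (sp_Q _ _) b1 v1 v2 hye hxy hl0 hc0 hT (h.span hye hxy)
    (fun R hR => ht R (by
      convert hR (k + 1) using 1
      simp; ring))
  refine hasTr_of_ein hf ⟨1, one_ne_zero, lam0_sp _⟩ (sp_Q _ _) (fun r _ => ?_) hE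
    (K.mul_mem hv hv) ?_
  · rcases hμ with h2 | h2
    · have := (hE ((r / 2) • y0) (by simp [hy2])).comm (hE x1 b1)
      convert this using 1
      simp [hy1.Bue, hy1.Beu]; field_simp; ring
    · let A : AddSubgroup F :=
        { carrier := {x | InT K e x}
          zero_mem' := InT.zero (sp_Q _ _)
          add_mem' := InT.add
          neg_mem' := InT.neg }
      refine addSubgroup_eq_top_of_sq A (mul_ne_zero (mul_ne_zero hc0 (pow_ne_zero 2 hl0)) h2)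
        (fun b => ?_) r
      have hTx : InT K (l • x1) c := InT.of_conj hv (v1 ▸ hT)
      have := inT_of_two (hE ((-(c * b * l ^ 2)) • x2) (by simp [b2])) (hE (b • y0) (by simp [hy2]))
        hu (hTx.mem hTx.Q hTx.lam) hue (by rw [tr_apply]; simp [f.B_eq_zero_symm b1]) (by
          rw [map_smul, hux2, tr_apply]
          simp only [B_smul_left, sp_B_smul_right, hy1.Beu, Param.sp_ε]
          module)
      change InT K e _
      convert this using 1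
      rw [tr_apply]
      simp [sp_B_self, hy1.Beu, ← hγ, hux2]
      ring
  · rw [Isom.mul_apply, v2, ← a3, ← a2, Isom.mul_apply, Isom.mul_apply, Isom.inv_apply, Isom.map_B,
      Isom.map_B]
    simpa [hμ0] using hx2

/-- Let F be a finite field and n ≥ 2, excluding the case n = 2 with F of two elements (where the group is not quasisimple). Then the symplectic group Sp_2n(F) is generated by three conjugate regular unipotent elements: there are u ∈ Sp_2n(F) with u − 1 nilpotent and (u − 1)^(2n−1) ≠ 0, and g, h ∈ Sp_2n(F), such that u, g u g⁻¹ and h u h⁻¹ generate Sp_2n(F). -/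
theorem result {F : Type*} [Field F] [Fintype F] (n : ℕ) (hn : 2 ≤ n) (h22 : ¬ (n = 2 ∧ Fintype.card F = 2)) :
    ∃ u g h : Matrix.symplecticGroup (Fin n) F,
      IsNilpotent ((u : Matrix (Fin n ⊕ Fin n) (Fin n ⊕ Fin n) F) - 1) ∧
      ((u : Matrix (Fin n ⊕ Fin n) (Fin n ⊕ Fin n) F) - 1) ^ (2 * n - 1) ≠ 0 ∧
      Subgroup.closure ({u, g * u * g⁻¹, h * u * h⁻¹} : Set (Matrix.symplecticGroup (Fin n) F)) = ⊤ := by
  obtain ⟨t, rfl⟩ : ∃ t, n = t + 2 := ⟨n - 2, by omega⟩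
  obtain ⟨W, _, _, _, f, u, w, x, h1, h2, h3⟩ := exists_sp_good F t
  obtain ⟨g, g', h⟩ := main h1.nondeg h1.reg h2 h3 fun h0 hc => h22 ⟨by omega, hc⟩
  refine sp_transport h1.nondeg (by rw [h1.dim]; omega) ⟨_, h1.nil⟩ (fun h0 => h1.top ?_) h
  rw [show 2 * t + 3 = 2 * (t + 2) - 1 by omega, h0]; simp

end Cfsg.Agent.S2281
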