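import Cfsg.Statements.S2283
import Cfsg.Agent.Lib.RU.Ein

set_option autoImplicit false
open Cfsg

namespace Cfsg.Agent.S2283

open Module Cfsg.Agent.Forms Cfsg.Agent.Forms.Form Cfsg.Agent.Deg Cfsg.Agent.RU Cfsg.Agent.MI

variable {F : Type*} [Field F] [Fintype F] {q : ℕ} (hF : Fintype.card F = q ^ 2)

/-- the hermitian form with antidiagonal Gram matrix -/
def jForm : Form (uP hF) (Fin 3 → F) :=
  Form.ofHerm (frobq hF) (frobq_frobq hF) (frobq_ne hF)
    (LinearMap.mk₂'ₛₗ (RingHom.id F) (frobq hF)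
      (fun u v => u 0 * frobq hF (v 2) - u 1 * frobq hF (v 1) + u 2 * frobq hF (v 0))
      (fun _ _ _ => by simp; ring) (fun _ _ _ => by simp; ring)
      (fun _ _ _ => by simp; ring) (fun _ _ _ => by simp; ring))
    (fun x y => by simp [frobq_frobq]; ring)

theorem jB (u v : Fin 3 → F) : (jForm hF).B u v =
    u 0 * frobq hF (v 2) - u 1 * frobq hF (v 1) + u 2 * frobq hF (v 0) := rfl

theorem jQ (u : Fin 3 → F) : (jForm hF).Q u =
    u 0 * frobq hF (u 2) - u 1 * frobq hF (u 1) + u 2 * frobq hF (u 0) := rfl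

theorem j_nondeg : (jForm hF).Nondeg := by
  intro x hx
  ext i
  fin_cases i
  · simpa [jB] using hx ![0, 0, 1]
  · simpa [jB] using hx ![0, 1, 0]
  · simpa [jB] using hx ![1, 0, 0]

variable {hF}

/-- upper unitriangular isometries -/
def up (a b : F) (h : b + frobq hF b = a * frobq hF a) : (jForm hF).Isom :=
  (jForm hF).eichler ![1, 0, 0] (frobq hF a • ![0, 1, 0]) (-b) (by simp [jQ]) (by simp [jB])
    (by rw [unit_isLam_iff]; simp [jB, frobq_frobq]; linear_combination -h)

/-- lower unitriangular isometries -/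
def low (y : F) (h : y + frobq hF y = 1) : (jForm hF).Isom :=
  (jForm hF).eichler ![0, 0, 1] ![0, 1, 0] (-y) (by simp [jQ]) (by simp [jB])
    (by rw [unit_isLam_iff]; simp [jB]; linear_combination -h)

theorem up_apply (a b : F) (h : b + frobq hF b = a * frobq hF a) (x y z : F) :
    (up a b h).1 ![x, y, z] = ![x + a * y + b * z, y + frobq hF a * z, z] := by
  ext i
  fin_cases i <;> simp [up, eichler_apply, jB, frobq_frobq] <;> ring

theorem low_apply (c : F) (h : c + frobq hF c = 1) (x y z : F) :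
    (low c h).1 ![x, y, z] = ![x, y + x, z + y + c * x] := by
  ext i
  fin_cases i <;> simp [low, eichler_apply, jB] <;> ring

theorem up_reg {a : F} (ha : a ≠ 0) (b : F) (h : b + frobq hF b = a * frobq hF a) :
    IsNilpotent (Isom.N (up a b h)) ∧ Isom.N (up a b h) ^ (3 - 1) ≠ 0 := by
  have e : ∀ x y z : F, Isom.N (up a b h) ![x, y, z] = ![a * y + b * z, frobq hF a * z, 0] := by
    intro x y z
    rw [Isom.N_apply, up_apply]
    ext i; fin_cases i <;> simp <;> ring
  constructor
  · refine ⟨3, LinearMap.ext fun x => ?_⟩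
    rw [show x = ![x 0, x 1, x 2] by ext i; fin_cases i <;> rfl]
    simp only [pow_succ, pow_zero, one_mul, Module.End.mul_apply, e]
    ext i; fin_cases i <;> simp
  · intro h0
    have := congrFun (LinearMap.congr_fun h0 ![0, 0, 1]) 0
    simp only [pow_succ, pow_zero, one_mul, Module.End.mul_apply, e] at this
    simp [ha] at this

theorem exists_conj {a b y t : F} (h : b + frobq hF b = a * frobq hF a) (hy : y + frobq hF y = 1)
    (ht : t ≠ 0) (hat : -frobq hF a * frobq hF t ^ 2 = t) :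
    ∃ g ∈ (jForm hF).SIsom, g * up a b h * g⁻¹ = low y hy := by
  have hσ : frobq hF t ≠ 0 := by simpa using ht
  let n : (jForm hF).Isom := Isom.ofEnd (j_nondeg hF)
    (Matrix.toLin' !![0, 0, (frobq hF t)⁻¹; 0, -frobq hF t / t, 0; t, 0, 0])
    (unit_isIsom fun x y => by
      simp [jB, Matrix.toLin'_apply, Matrix.mulVec, dotProduct, Fin.sum_univ_three, frobq_frobq]
      field_simp
      ring)
  have hn : n ∈ (jForm hF).SIsom := by
    rw [mem_SIsom]
    change LinearMap.det (Matrix.toLin' (R := F) _) = 1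
    rw [LinearMap.det_toLin']
    simp [Matrix.det_fin_three]
    field_simp
  have e1 : n.1 ![1, 0, 0] = t • ![0, 0, 1] := by
    ext i; fin_cases i <;> simp [n, Matrix.toLin'_apply, Matrix.mulVec, dotProduct,
      Fin.sum_univ_three]
  have e2 : n.1 (frobq hF a • ![0, 1, 0]) = (frobq hF t)⁻¹ • ![0, 1, 0] := by
    ext i; fin_cases i <;> simp [n, Matrix.toLin'_apply, Matrix.mulVec, dotProduct,
      Fin.sum_univ_three]
    field_simp
    linear_combination hat
  have hl : Lam0 (uP hF) (y - t * frobq hF t * b) := by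
    rw [lam0_unit]
    have := congrArg (frobq hF) hat
    simp only [map_mul, map_neg, map_pow, map_sub, frobq_frobq] at this ⊢
    have h1 : a * frobq hF a * (t * frobq hF t) = 1 := by
      apply mul_left_cancel₀ (mul_ne_zero ht hσ)
      linear_combination (frobq hF t) * hat - (frobq hF a * frobq hF t ^ 2) * this
    linear_combination hy - t * frobq hF t * h - h1
  obtain ⟨c, hc⟩ := exists_sub_eq hl
  obtain ⟨m, hm⟩ := (jForm hF).exists_isLam (c • ![0, 1, 0])
  refine ⟨(jForm hF).eichler ![0, 0, 1] (c • ![0, 1, 0]) m (by simp [jQ]) (by simp [jB]) hm * n,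
    Subgroup.mul_mem _ (eichler_mem_SIsom _ _ _ _ _ _ _) hn, ?_⟩
  have e3 : n * up a b h * n⁻¹ = (jForm hF).eichler ![0, 0, 1] ![0, 1, 0] (-(t * frobq hF t * b))
      (by simp [jQ]) (by simp [jB]) (by
        have := isLam_add_lam0 (f := jForm hF) (v := ![0, 1, 0]) (l := -y)
          (by rw [unit_isLam_iff]; simp [jB]; linear_combination -hy) hl
        convert this using 1; ring) := by
    rw [up, eichler_conj]
    apply Isom.ext; intro w
    simp only [eichler_apply, e1, e2, B_smul_right, Param.unit_σ, map_inv₀, frobq_frobq]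
    match_scalars <;> field_simp
  rw [mul_inv_rev, mul_assoc, mul_assoc, ← mul_assoc (up a b h), ← mul_assoc n, ← mul_assoc n, e3,
    ← mul_assoc, mul_inv_eq_iff_eq_mul, low, eichler_mul, eichler_mul]
  refine (jForm hF).eichler_congr _ _ _ (add_comm _ _) ?_
  simp [jB]
  linear_combination -hc

theorem crit (hq : 3 ≤ q) {a b y : F} (ha : a ≠ 0) {h : b + frobq hF b = a * frobq hF a}
    {hy : y + frobq hF y = 1} {K : Subgroup (jForm hF).Isom} (hu : up a b h ∈ K)
    (hv : low y hy ∈ K) (hy0 : y ≠ 0) {β : (jForm hF).Isom} (hβ : β ∈ K) {t1 t2 p : F} (ht : t1 ≠ 0)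
    (e1 : β.1 ![1, 0, 0] = ![t1, 0, 0]) (e2 : β.1 ![0, 1, 0] = ![p, t2, 0])
    (hR : ∀ R : Subring F, frobq hF t1 * t2 ∈ R → R = ⊤) : (jForm hF).SIsom ≤ K := by
  have he : (jForm hF).Q ![1, 0, 0] = 0 := by simp [jQ]
  let A : AddSubgroup F :=
    { carrier := {x | InE K ![1, 0, 0] (x • ![0, 1, 0])}
      zero_mem' := by rw [Set.mem_setOf_eq, zero_smul]; exact InE.zero he
      add_mem' := fun {x y} hx hy => by simpa only [Set.mem_setOf_eq, add_smul] using InE.add hx hy
      neg_mem' := fun {x} hx => by simpa only [Set.mem_setOf_eq, neg_smul] using InE.neg hx }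
  have hA' : ∀ x, x ∈ A :=
    addSubgroup_eq_top_of_gen A (d := frobq hF a) (by simpa using ha) ⟨_, _, _, _, hu⟩ hR (by
      intro s hs
      have := InE.conj hs hβ ht (by rw [e1]; ext i; fin_cases i <;> simp)
      refine InE.of_add_smul (c := frobq hF t1 * s * p) ?_
      convert this using 1
      rw [map_smul, e2]
      ext i; fin_cases i <;> simp <;> ring)
  have hA : ∀ x : F, InE K ![1, 0, 0] (x • ![0, 1, 0]) := hA'
  have hT : ∀ l, Lam0 (uP hF) l → InT K ![1, 0, 0] l := by
    intro l hl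
    obtain ⟨c, rfl⟩ := exists_sub_eq hl
    simpa [jB, sub_eq_add_neg, add_comm] using (hA 1).comm (hA c)
  refine su_gen (j_nondeg hF) (by simp) K (ein_of_hasTr (j_nondeg hF) (Or.inr hq)
    (hasTr_of_ein (j_nondeg hF) (exists_lam0 hF) he hT (fun v hv => ?_) hv ?_))
  · have h2 : v 2 = 0 := by simpa [jB] using hv
    convert (hA (v 1)).add_smul (v 0) using 1
    ext i; fin_cases i <;> simp [h2]
  · rw [low_apply]; simpa [jB] using hy0

theorem num {p f k : ℕ} (hp : p.Prime) (h3 : 3 ≤ p ^ f) (hk1 : 1 ≤ k) (hk : k ≤ f)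
    (h : p ^ f + 1 ∣ 3 * (p ^ k - 1)) : p ^ f = 5 ∨ p ^ f = 8 := by
  have h1 : p ≤ p ^ k := Nat.le_self_pow (by omega) p
  have h2 := hp.two_le
  have h4 := Nat.le_of_dvd (by omega) h
  rcases hk.eq_or_lt with rfl | hk
  · left
    have : p ^ k + 1 ∣ 6 := by
      have h5 : 3 * (p ^ k + 1) = 3 * (p ^ k - 1) + 6 := by omega
      exact (Nat.dvd_add_right h).1 (h5 ▸ Dvd.intro_left _ rfl)
    have h6 := Nat.le_of_dvd (by omega) this
    generalize p ^ k = x at *
    have : x ≤ 5 := by omega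
    interval_cases x <;> omega
  · right
    obtain ⟨j, rfl⟩ : ∃ j, f = k + 1 + j := ⟨f - (k + 1), by omega⟩
    have h5 : 1 ≤ p ^ j := Nat.one_le_pow _ _ hp.pos
    rw [pow_add, pow_succ] at h h4 ⊢
    have h6 : p * p ^ j < 3 := by
      by_contra hc
      have : p ^ k * 3 ≤ p ^ k * (p * p ^ j) := Nat.mul_le_mul_left _ (by omega)
      rw [← mul_assoc] at this
      omega
    have h7 : p * p ^ j = 2 := by nlinarith
    rw [mul_assoc, h7] at h h4 ⊢
    obtain ⟨c, hc⟩ := h
    generalize p ^ k = x at *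
    have : c = 1 := by
      rcases c with _ | _ | c
      · omega
      · rfl
      · nlinarith [Nat.sub_le x 1]
    subst this
    omega

theorem main (hq : 3 ≤ q) : ∃ u ∈ (jForm hF).SIsom, ∃ g ∈ (jForm hF).SIsom,
    (IsNilpotent (Isom.N u) ∧ Isom.N u ^ (3 - 1) ≠ 0) ∧
    ∀ K : Subgroup (jForm hF).Isom, u ∈ K → g * u * g⁻¹ ∈ K → (jForm hF).SIsom ≤ K := by
  classical
  have red : ∀ (a b y t : F) (h : b + frobq hF b = a * frobq hF a) (hy : y + frobq hF y = 1),
      a ≠ 0 → t ≠ 0 → -frobq hF a * frobq hF t ^ 2 = t →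
      (∀ K : Subgroup (jForm hF).Isom, up a b h ∈ K → low y hy ∈ K → (jForm hF).SIsom ≤ K) →
      ∃ u ∈ (jForm hF).SIsom, ∃ g ∈ (jForm hF).SIsom,
        (IsNilpotent (Isom.N u) ∧ Isom.N u ^ (3 - 1) ≠ 0) ∧
        ∀ K : Subgroup (jForm hF).Isom, u ∈ K → g * u * g⁻¹ ∈ K → (jForm hF).SIsom ≤ K := by
    intro a b y t h hy ha ht hat hK
    obtain ⟨g, hg, e⟩ := exists_conj h hy ht hat
    exact ⟨up a b h, eichler_mem_SIsom _ _ _ _ _ _ _, g, hg, up_reg ha b h,
      fun K h1 h2 => hK K h1 (e ▸ h2)⟩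
  obtain ⟨θ, hθ⟩ := IsCyclic.exists_generator (α := Fˣ)
  have hq1 : q ^ 2 - 1 = (q - 1) * (q + 1) := by
    obtain ⟨r, rfl⟩ : ∃ r, q = r + 1 := ⟨q - 1, by omega⟩
    simp only [Nat.add_sub_cancel]
    apply Nat.sub_eq_of_eq_add; ring
  obtain ⟨h, h0, hord, hσ⟩ : ∃ h : F, h ≠ 0 ∧ (∀ m : ℕ, h ^ m = 1 → q + 1 ∣ m) ∧
      h ^ (q + 1) = 1 := by
    refine ⟨(θ : F) ^ (q - 1), pow_ne_zero _ θ.ne_zero, fun m hm => ?_, ?_⟩
    · have : orderOf θ ∣ (q - 1) * m :=
        orderOf_dvd_of_pow_eq_one (Units.ext (by simpa [pow_mul] using hm))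
      rw [orderOf_eq_card_of_forall_mem_zpowers hθ, Nat.card_eq_fintype_card, Fintype.card_units,
        hF, hq1] at this
      exact Nat.dvd_of_mul_dvd_mul_left (by omega) this
    · rw [← pow_mul, ← hq1, ← hF]
      exact FiniteField.pow_card_sub_one_eq_one _ θ.ne_zero
  have hs : frobq hF h = h⁻¹ := by
    rw [frobq_apply]; exact eq_inv_of_mul_eq_one_left (by rw [← pow_succ, hσ])
  obtain ⟨p, hc, n, hp, hn⟩ := FiniteField.card' F
  have := Fact.mk hp
  obtain ⟨f, -, hf⟩ := (Nat.dvd_prime_pow hp).1 (show q ∣ p ^ (n : ℕ) by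
    rw [← hn, hF]; exact Dvd.intro_left _ (pow_succ q 1).symm)
  have hnf : (n : ℕ) = 2 * f := by
    apply Nat.pow_right_injective hp.two_le
    simp only
    rw [← hn, hF, hf, ← pow_mul, mul_comm]
  have gen : ∀ (j : ℕ) (R : Subring F), R ≠ ⊤ → h ^ j ∈ R →
      ∃ k, 1 ≤ k ∧ k ≤ f ∧ q + 1 ∣ j * (p ^ k - 1) := by
    intro j R hR hj
    obtain ⟨k, hk1, hk2, hk⟩ := exists_small_of_ne_top hn R hR
    refine ⟨k, hk1, by omega, hord _ ?_⟩
    have h5 : 1 ≤ p ^ k := Nat.one_le_pow _ _ hp.pos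
    rw [pow_mul]
    apply mul_right_cancel₀ (pow_ne_zero j h0)
    rw [← pow_succ, Nat.sub_add_cancel h5, hk _ hj, one_mul]
  have gen1 : ∀ R : Subring F, h ∈ R → R = ⊤ := by
    intro R hR
    by_contra hne
    obtain ⟨k, hk1, hk2, hk⟩ := gen 1 R hne (by simpa using hR)
    have h1 : p ≤ p ^ k := Nat.le_self_pow (by omega) p
    have h2 := hp.two_le
    have h3 : p ^ k ≤ p ^ f := Nat.pow_le_pow_right hp.pos hk2
    have := Nat.le_of_dvd (by omega) hk
    omega
  by_cases h5 : q = 5
  · subst h5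
    have c5 : (5 : F) = 0 := by
      have := FiniteField.cast_card_eq_zero F
      rw [hF] at this
      exact pow_eq_zero_iff (n := 2) (by omega) |>.1 (by norm_num at this ⊢; exact this)
    have h2 : h ^ 2 - h + 1 = 0 := by
      have a1 : h ^ 3 - 1 ≠ 0 := fun e => by simpa using hord 3 (by linear_combination e)
      have a2 : h + 1 ≠ 0 := fun e => by
        simpa using hord 2 (by linear_combination (h - 1) * e)
      apply mul_left_cancel₀ (mul_ne_zero a1 a2)
      linear_combination hσ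
    have hs' : frobq hF h = 1 - h := by
      rw [hs]; exact (eq_inv_of_mul_eq_one_left (by linear_combination -h2)).symm
    clear hord gen hθ hσ hs
    refine red (2 + h) (3 + h) (1 + 4 * h) (4 + 2 * h)
      (by simp only [map_add, map_ofNat, hs']; grind)
      (by simp only [map_add, map_mul, map_one, map_ofNat, hs']; grind) (by grind) (by grind)
      (by simp only [map_add, map_mul, map_ofNat, hs']; grind) fun K hu hv => ?_
    refine crit hq (by grind) hu hv (by grind)
      (K.mul_mem hv (K.mul_mem hu (K.mul_mem hv hv))) (t1 := 1 + 2 * h) (t2 := h)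
      (p := 3 + 3 * h) (by grind) ?_ ?_ fun R hR => gen1 R ?_
    · simp only [Isom.mul_apply, up_apply, low_apply, map_add, map_ofNat, hs']
      clear red hu hv
      ext i; fin_cases i <;> simp <;> grind
    · simp only [Isom.mul_apply, up_apply, low_apply, map_add, map_ofNat, hs']
      clear red hu hv
      ext i; fin_cases i <;> simp <;> grind
    · have := R.sub_mem hR (ofNat_mem R 2)
      convert this using 1
      simp only [map_add, map_mul, map_one, map_ofNat, hs']
      grind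
  by_cases h8 : q = 8
  · subst h8
    have c2 : (2 : F) = 0 := by
      have := FiniteField.cast_card_eq_zero F
      rw [hF] at this
      exact pow_eq_zero_iff (n := 6) (by omega) |>.1 (by norm_num at this ⊢; exact this)
    have h2 : h ^ 6 + h ^ 3 + 1 = 0 := by
      have a1 : h ^ 3 - 1 ≠ 0 := fun e => by simpa using hord 3 (by linear_combination e)
      apply mul_left_cancel₀ a1
      linear_combination hσ
    have hs' : frobq hF h = h ^ 5 + h ^ 2 := by
      rw [hs]; exact (eq_inv_of_mul_eq_one_left (by grind)).symm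
    clear hord gen hθ hσ hs
    refine red (h + h ^ 2) (1 + h + h ^ 4 + h ^ 5) (h + h ^ 2 + h ^ 3 + h ^ 5) (1 + h + h ^ 2)
      (by simp only [map_add, map_one, map_pow, hs']; grind)
      (by simp only [map_add, map_pow, hs']; grind) (by grind) (by grind)
      (by simp only [map_add, map_one, map_pow, hs']; grind) fun K hu hv => ?_
    refine crit hq (by grind) hu hv (by grind)
      (K.mul_mem hv (K.mul_mem hu (K.mul_mem hv (K.mul_mem hu (K.mul_mem hu hv)))))
      (t1 := 1 + h ^ 2 + h ^ 3) (t2 := h) (p := 0) (by grind) ?_ ?_ fun R hR => gen1 R ?_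
    · simp only [Isom.mul_apply, up_apply, low_apply, map_add, map_pow, hs']
      clear red hu hv
      ext i; fin_cases i <;> simp <;> grind
    · simp only [Isom.mul_apply, up_apply, low_apply, map_add, map_pow, hs']
      clear red hu hv
      ext i; fin_cases i <;> simp <;> grind
    · have := R.add_mem hR (R.pow_mem hR 2)
      convert this using 1
      simp only [map_add, map_pow, map_one, hs']
      clear red hu hv this hR gen1 hs'
      grind
  have h1 : 1 + h ≠ 0 := by
    intro h1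
    have := Nat.le_of_dvd (by omega) (hord 2 (by linear_combination (h - 1) * h1))
    omega
  have h1' : h + 1 ≠ 0 := by rwa [add_comm]
  have ha : -(1 + h) ^ 2 / h ≠ 0 := div_ne_zero (neg_ne_zero.2 (pow_ne_zero _ h1)) h0
  have hsa : frobq hF (-(1 + h) ^ 2 / h) = -(1 + h) ^ 2 / h := by
    simp only [map_div₀, map_neg, map_pow, map_add, map_one, hs]
    field_simp
    ring
  refine red (-(1 + h) ^ 2 / h) (2 * h + 3 + 2 / h + 1 / h ^ 2) (h / (1 + h))
    (-(-(1 + h) ^ 2 / h)⁻¹) ?_ ?_ ha (neg_ne_zero.2 (inv_ne_zero ha)) ?_ fun K hu hv => ?_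
  · rw [hsa]
    simp only [map_div₀, map_mul, map_ofNat, map_pow, map_add, map_one, hs]
    field_simp
    ring
  · simp only [map_div₀, map_add, map_one, hs]
    field_simp
    ring
  · rw [map_neg, map_inv₀, hsa]
    field_simp
  refine crit hq ha hu hv (div_ne_zero h0 h1) (K.mul_mem hv (K.mul_mem hu hv)) (t1 := h)
    (t2 := (h ^ 2)⁻¹) (p := h + 1 + 1 / h + 1 / h ^ 2) h0 ?_ ?_ fun R hR => ?_
  · simp only [Isom.mul_apply, up_apply, low_apply, hsa]
    ext i; fin_cases i <;> simp <;> field_simp <;> ring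
  · simp only [Isom.mul_apply, up_apply, low_apply, hsa]
    ext i; fin_cases i <;> simp <;> field_simp <;> ring
  · by_contra hne
    obtain ⟨k, hk1, hk2, hk⟩ := gen 3 R hne (by
      have := inv_mem_subring R hR
      convert this using 1
      rw [hs]; field_simp)
    rw [hf] at hk hq h5 h8
    rcases num hp hq hk1 hk2 hk with e | e <;> omega

/-- Let F be a field with q² elements, q ≥ 3, and SU_3(q) the special unitary group of the standard Hermitian form. Then SU_3(q) is generated by two conjugate regular unipotent elements: there are u ∈ SU_3(q) with u − 1 nilpotent and (u − 1)² ≠ 0, and g ∈ SU_3(q), such that u and g u g⁻¹ generate SU_3(q). -/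
theorem result {F : Type*} [Field F] [Fintype F] (q : ℕ) (hq : 3 ≤ q) (hF : Fintype.card F = q ^ 2) :
    ∃ u g : ↥(Cfsg.SU 3 F q), (IsNilpotent (((u : Matrix.SpecialLinearGroup (Fin 3) F) : Matrix (Fin 3) (Fin 3) F) - 1) ∧ (((u : Matrix.SpecialLinearGroup (Fin 3) F) : Matrix (Fin 3) (Fin 3) F) - 1) ^ (3 - 1) ≠ 0) ∧
      Subgroup.closure ({u, g * u * g⁻¹} : Set ↥(Cfsg.SU 3 F q)) = ⊤ := by
  obtain ⟨u, hu, g, hg, h1, h2⟩ := main (hF := hF) hq
  obtain ⟨u', g', h', a1, a2, a3⟩ := su_transport (j_nondeg hF) (n := 3) (by simp) hu hg hg h1.1 h1.2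
  obtain rfl := a2 rfl
  exact ⟨u', g', a1, by simpa using a3 fun K b1 b2 _ => h2 K b1 b2⟩

end Cfsg.Agent.S2283
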