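import Cfsg.Statements.S2282
import Cfsg.Agent.Lib.RU.Build
import Cfsg.Agent.S2283

set_option autoImplicit false
open Cfsg

namespace Cfsg.Agent.S2282

open Module Cfsg.Agent.Forms Cfsg.Agent.Forms.Form Cfsg.Agent.Deg Cfsg.Agent.RU Cfsg.Agent.MI

variable {F : Type*} [Field F] [Fintype F] {q : ℕ} {hF : Fintype.card F = q ^ 2}
  {V : Type*} [AddCommGroup V] [Module F V] {f : Form (uP hF) V}

theorem exists_tau (hF : Fintype.card F = q ^ 2) : ∃ τ : F, τ ≠ 0 ∧ frobq hF τ = -τ ∧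
    ∀ R : Subring F, τ ∈ R → R ≠ ⊤ → ∀ x ∈ R, frobq hF x = x := by
  classical
  have hq := two_le_q hF
  obtain ⟨θ, hθ⟩ := IsCyclic.exists_generator (α := Fˣ)
  have hq1 : q ^ 2 - 1 = (q + 1) * (q - 1) := by
    obtain ⟨r, rfl⟩ : ∃ r, q = r + 1 := ⟨q - 1, by omega⟩
    simp only [Nat.add_sub_cancel]
    apply Nat.sub_eq_of_eq_add; ring
  have hord : ∀ m : ℕ, (θ : F) ^ m = 1 → (q + 1) * (q - 1) ∣ m := fun m hm => by
    have : orderOf θ ∣ m := orderOf_dvd_of_pow_eq_one (Units.ext (by simpa using hm))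
    rwa [orderOf_eq_card_of_forall_mem_zpowers hθ, Nat.card_eq_fintype_card, Fintype.card_units,
      hF, hq1] at this
  have h1 : (θ : F) ^ ((q + 1) * (q - 1)) = 1 := by
    rw [← hq1, ← hF]
    exact FiniteField.pow_card_sub_one_eq_one _ θ.ne_zero
  obtain ⟨τ, h0, h2, h3⟩ : ∃ τ : F, τ ≠ 0 ∧ τ ^ (q - 1) = -1 ∧ ∀ m : ℕ, τ ^ m = 1 → q - 1 ∣ m := by
    by_cases h2 : ringChar F = 2
    · have : CharP F 2 := ringChar.of_eq h2
      refine ⟨(θ : F) ^ (q + 1), pow_ne_zero _ θ.ne_zero, ?_, fun m hm => ?_⟩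
      · rw [← pow_mul, h1, CharTwo.neg_eq]
      · rw [← pow_mul] at hm
        exact Nat.dvd_of_mul_dvd_mul_left (by omega) (hord _ hm)
    · have h4 := FiniteField.odd_card_of_char_ne_two h2
      rw [hF] at h4
      obtain ⟨j, hj⟩ : ∃ j, q + 1 = 2 * j := by
        rcases Nat.even_or_odd' q with ⟨j, rfl | rfl⟩
        · rw [mul_pow] at h4; omega
        · exact ⟨j + 1, by ring⟩
      refine ⟨(θ : F) ^ j, pow_ne_zero _ θ.ne_zero, ?_, fun m hm => ?_⟩
      · have h5 : (((θ : F) ^ j) ^ (q - 1)) ^ 2 = 1 := by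
          rw [← h1, hj, ← pow_mul, ← pow_mul]; congr 1; ring
        refine (sq_eq_one_iff.1 h5).resolve_left fun h6 => ?_
        rw [← pow_mul] at h6
        have h7 := Nat.le_of_dvd (Nat.mul_pos (by omega) (by omega)) (hord _ h6)
        have := Nat.le_of_mul_le_mul_right h7 (by omega)
        omega
      · refine Nat.dvd_of_mul_dvd_mul_left (k := q + 1) (by omega) (hord _ ?_)
        rw [hj, mul_comm 2 j, mul_assoc, mul_comm 2 m, pow_mul, pow_mul, hm, one_pow]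
  refine ⟨τ, h0, ?_, fun R hR hne x hx => ?_⟩
  · rw [frobq_apply, ← Nat.sub_add_cancel (show 1 ≤ q by omega), pow_succ, h2]; ring
  obtain ⟨p, hc, n, hp, hn⟩ := FiniteField.card' F
  have := Fact.mk hp
  obtain ⟨k, hk1, hk2, hk⟩ := exists_small_of_ne_top hn R hne
  have h5 : p ≤ p ^ k := Nat.le_self_pow (by omega) p
  have h6 := hp.two_le
  have h7 := Nat.le_of_dvd (by omega) (h3 (p ^ k - 1) (by
    apply mul_right_cancel₀ h0
    rw [← pow_succ, Nat.sub_add_cancel (by omega), hk _ hR, one_mul]))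
  have h8 : (p ^ k) ^ 2 ≤ q ^ 2 := by
    rw [← hF, hn, ← pow_mul]; exact Nat.pow_le_pow_right hp.pos (by omega)
  have h9 := lt_or_ge q (p ^ k)
  have : q = p ^ k := by
    rcases h9 with h9 | h9
    · nlinarith
    · omega
  rw [frobq_apply, this, hk x hx]

theorem exists_aniso_three [FiniteDimensional F V] (hf : f.Nondeg) (h5 : 5 ≤ finrank F V)
    {a b c : V} (ha : f.B a a = 0) (hc : f.B c c = 0) (hac : f.B a c ≠ 0)
    (hba : f.B b a = 0) (hbc : f.B b c = 0) :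
    ∃ z, f.B z z ≠ 0 ∧ f.B a z = 0 ∧ f.B b z = 0 ∧ f.B c z = 0 := by
  obtain ⟨z, hz, h⟩ := exists_aniso_orth hf (Submodule.span F {a, b, c}) (by
    intro hle
    have h1 : f.orth (Submodule.span F {a, b, c}) ≤ F ∙ b := by
      intro x hx
      have h2 := mem_orth_span.1 hx
      obtain ⟨r, s, t, rfl⟩ := Submodule.mem_span_triple.1 (hle hx)
      have h3 := h2 a (by simp)
      have h4 := h2 c (by simp)
      have hca : f.B c a ≠ 0 := fun h => hac (f.B_eq_zero_symm h)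
      simp only [B_add_left, B_smul_left, ha, hc, hba, hbc, mul_zero, add_zero, zero_add,
        mul_eq_zero, hac, hca, or_false] at h3 h4
      rw [h3, h4, zero_smul, zero_smul, zero_add, add_zero]
      exact Submodule.smul_mem _ _ (Submodule.mem_span_singleton_self b)
    have h2 := Submodule.finrank_mono h1
    have h3 := hf.finrank_add_orth (Submodule.span F {a, b, c})
    have h4 : finrank F (Submodule.span F ({a, b, c} : Set V)) ≤ 3 := by
      have := finrank_range_le_card (R := F) ![a, b, c]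
      have e : Set.range ![a, b, c] = {a, b, c} := by
        ext x; simp [Fin.exists_fin_succ, eq_comm]; tauto
      rwa [Set.finrank, e] at this
    have h6 : finrank F (F ∙ b) ≤ 1 := by
      have := finrank_range_le_card (R := F) ![b]
      have e : Set.range ![b] = {b} := by simp
      rwa [Set.finrank, e] at this
    omega)
  have h2 := mem_orth_span.1 hz
  exact ⟨z, h, f.B_eq_zero_symm (h2 a (by simp)), f.B_eq_zero_symm (h2 b (by simp)),
    f.B_eq_zero_symm (h2 c (by simp))⟩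

theorem main [FiniteDimensional F V] (hf : f.Nondeg) {u : f.Isom} {w x0 : V} {t : ℕ}
    (h : Reg f u w (2 * t + 1)) (hx0 : f.Q x0 = 0) (hx1 : f.B (u.1 x0) x0 = 0)
    (hx2 : f.B (u.1 (u.1 x0)) x0 ≠ 0) :
    ∃ g ∈ f.SIsom, ∃ g' ∈ f.SIsom, ∀ K : Subgroup f.Isom, u ∈ K → g * u * g⁻¹ ∈ K →
      g' * u * g'⁻¹ ∈ K → f.SIsom ≤ K := by
  set e := (Isom.N u ^ (2 * t + 1 + 3)) w with he
  set x1 := (Isom.N u ^ (2 * t + 1 + 2)) w with hx1'
  have hue : u.1 e = e := h.u_e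
  have hux : u.1 x1 = x1 + e := u_pow_apply u _ w
  have b1 : f.B x1 e = 0 := B_pow_pow h.nil (by omega) _ _
  have qe : f.Q e = 0 := (f.unit_Q _).trans (B_pow_pow h.nil (by omega) _ _)
  obtain ⟨y, hy1, hy2⟩ : ∃ y, f.HypPair x1 y ∧ f.B y e = 0 :=
    h.exists_y hf (fun x hx => (f.unit_Q _).trans hx)
  have hxy : f.B x1 y ≠ 0 := by rw [hy1.Bue]; exact one_ne_zero
  have hρ := h.rho_ne hy2 hxy
  have hρ' := h.b_top hy2 (2 * t + 1 + 1) 0 (by omega)
  rw [pow_zero, Module.End.one_apply, uB_symm, Even.neg_one_pow ⟨t + 1, by ring⟩, one_mul] at hρ'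
  set ρ := f.B ((Isom.N u ^ (2 * t + 1 + 1)) y) y with hρd
  obtain ⟨τ, hτ0, hτ1, hτ⟩ := exists_tau hF
  have hc : frobq hF (τ / ρ) = -(τ / ρ) := by rw [map_div₀, hτ1, hρ', neg_div]
  have hc0 : τ / ρ ≠ 0 := div_ne_zero hτ0 hρ
  obtain ⟨s, hs⟩ := exists_sub_eq (lam0_unit'.2 hc).neg
  have q1 : f.Q (s • x1) = 0 := by rw [f.Q_smul, hy1.Qu, mul_zero]
  let g := f.eichler e (s • x1) 0 qe (by simp [b1]) (f.isLam_zero_of_Q q1)
  have hg : g * u * g⁻¹ * u⁻¹ = tr f e (τ / ρ) qe (lam0_unit'.2 hc) := by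
    have e1 : u * g * u⁻¹ = f.eichler e (s • x1 + s • e) 0 qe (by simp [b1, f.B_self_of_Q qe])
        (isLam_add_smul qe (by simp [b1]) (f.isLam_zero_of_Q q1) s) := by
      rw [eichler_conj]
      exact eichler_congr' _ _ _ hue (by rw [map_smul, hux, smul_add]) rfl
    rw [eichler_add_smul s qe (by simp [b1]) (f.isLam_zero_of_Q q1)] at e1
    rw [show g * u * g⁻¹ * u⁻¹ = g * (u * g * u⁻¹)⁻¹ by group, e1, eichler_inv, eichler_mul, tr]
    refine f.eichler_congr _ _ _ (by simp) ?_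
    simp [hy1.Buu, frobq_frobq]
    linear_combination -hs
  have hδ0 : f.B x0 (u.1 (u.1 x0)) ≠ 0 := fun h => hx2 (f.B_eq_zero_symm h)
  have hx00 : x0 ≠ 0 := by rintro rfl; simp at hx2
  have c1 : f.B (u.1 x0) (u.1 (u.1 x0)) = 0 := by rw [Isom.map_B]; exact f.B_eq_zero_symm hx1
  obtain ⟨g0, a1, a2, a3⟩ := exists_witt_three hf (a := x0) (b := u.1 x0)
    (c := u.1 (u.1 x0)) (a' := f.B x0 (u.1 (u.1 x0)) • x1) (b' := e) (c' := y) hx0
    (by rw [Isom.map_Q, hx0]) (by rw [Isom.map_Q, Isom.map_Q, hx0])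
    (by rw [f.Q_smul, hy1.Qu, mul_zero]) qe hy1.Qe hδ0
    (by simp [hy1.Bue]) (by simp [hx00]) h.e_ne hx1 c1 (by simp [f.B_eq_zero_symm b1])
    (f.B_eq_zero_symm hy2)
  obtain ⟨z, z0, z1, z2, z3⟩ := exists_aniso_three hf (by rw [h.dim]; omega) (f.B_self_of_Q hx0)
    (f.B_self_of_Q (by rw [Isom.map_Q, Isom.map_Q, hx0])) hδ0 hx1 c1
  obtain ⟨g', hg', hz⟩ := exists_su_fix hf z0 g0
  rw [← hz _ z1] at a1
  rw [← hz _ z2] at a2
  rw [← hz _ z3] at a3
  refine ⟨g, eichler_mem_SIsom _ _ _ _ _ _ _, g', hg', fun K hu hgK hv => ?_⟩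
  have hT : InT K e (τ / ρ) := ⟨_, _, hg ▸ K.mul_mem hgK (K.inv_mem hu)⟩
  have v1 : (g' * u * g'⁻¹).1 (f.B x0 (u.1 (u.1 x0)) • x1) = e := by
    rw [← a1, ← a2, Isom.mul_apply, Isom.mul_apply, Isom.inv_apply]
  have v2 : (g' * u * g'⁻¹).1 e = y := by
    rw [← a2, ← a3, Isom.mul_apply, Isom.mul_apply, Isom.inv_apply]
  have hE := core hu hv hue hux hy1.Qu b1 v1 v2 hy2 hxy hδ0 hc0 hT (h.span hy2 hxy)
    (fun R hR => by
      by_contra hne
      have h1 := hR (2 * t + 1 + 1)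
      rw [← hρd, div_mul_cancel₀ _ hρ] at h1
      have h2 : (2 : F) = 0 := by
        have := hτ R h1 hne τ h1
        rw [hτ1] at this
        exact mul_right_cancel₀ hτ0 (by linear_combination -this)
      have h3 := hτ R h1 hne _ (hR (2 * t + 1))
      have h4 := h.b_sub hy2 h2 (2 * t + 1) 0 (by omega)
      rw [pow_zero, Module.End.one_apply, uB_symm, ← hρd] at h4
      rw [map_mul, hc, h4] at h3
      apply hρ
      apply mul_left_cancel₀ hc0
      push_cast at h3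
      linear_combination -h3 - (τ / ρ * (f.B ((Isom.N u ^ (2 * t + 1)) y) y + t * ρ)) * h2)
  refine su_gen hf (by rw [h.dim]; omega) K (ein_of_hasTr hf (Or.inl (by rw [h.dim]; omega))
    (hasTr_of_ein hf (exists_lam0 hF) qe (fun r hr => ?_) hE (K.mul_mem hv hv) ?_))
  · obtain ⟨b, rfl⟩ := exists_sub_eq hr
    simpa [hy1.Bue, hy1.Beu] using (hE (b • y) (by simp [hy2])).comm (hE x1 b1)
  · rw [Isom.mul_apply, v2, ← a3, ← a2, Isom.mul_apply, Isom.mul_apply, Isom.inv_apply, Isom.map_B,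
      Isom.map_B]
    exact hx2

/-- Let F be a field with q² elements, n ≥ 3 odd with (n, q) ≠ (3, 2), and SU_n(q) the special unitary group of the standard Hermitian form Σ u_i v_i^q. Then SU_n(q) is generated by three conjugate regular unipotent elements: there are u ∈ SU_n(q) with u − 1 nilpotent and (u − 1)^(n−1) ≠ 0, and g, h ∈ SU_n(q), such that u, g u g⁻¹ and h u h⁻¹ generate SU_n(q). -/
theorem result {F : Type*} [Field F] [Fintype F] (q : ℕ) (hF : Fintype.card F = q ^ 2) (n : ℕ) (hn : 3 ≤ n) (hodd : Odd n) (h32 : ¬ (n = 3 ∧ q = 2)) :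
    ∃ u g h : ↥(Cfsg.SU n F q), (IsNilpotent (((u : Matrix.SpecialLinearGroup (Fin n) F) : Matrix (Fin n) (Fin n) F) - 1) ∧ (((u : Matrix.SpecialLinearGroup (Fin n) F) : Matrix (Fin n) (Fin n) F) - 1) ^ (n - 1) ≠ 0) ∧
      Subgroup.closure ({u, g * u * g⁻¹, h * u * h⁻¹} : Set ↥(Cfsg.SU n F q)) = ⊤ := by
  by_cases h3 : n = 3
  · subst h3
    have := two_le_q hF
    obtain ⟨u, g, h1, h2⟩ := S2283.result q (by omega) hF
    exact ⟨u, g, g, h1, by simpa using h2⟩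
  obtain ⟨t, rfl⟩ : ∃ t, n = 2 * t + 1 + 3 + 1 := by
    obtain ⟨j, rfl⟩ := hodd
    exact ⟨j - 2, by omega⟩
  obtain ⟨W, _, _, _, f, u, w, x, h1, h2, h4, h5⟩ := exists_su_good hF t
  obtain ⟨g, hg, g', hg', h⟩ := main h1.nondeg h1.reg h2 h4 h5
  obtain ⟨u', a, b, a1, -, a3⟩ := su_transport h1.nondeg h1.dim h1.mem hg hg' ⟨_, h1.nil⟩
    (fun h0 => h1.top (by rw [Nat.add_sub_cancel] at h0; rw [h0]; simp))
  exact ⟨u', a, b, a1, a3 h⟩

end Cfsg.Agent.S2282
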