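import Cfsg.Statements.S2288
import Cfsg.Agent.Lib.SLn.PresFour

set_option autoImplicit false
open Cfsg

namespace Cfsg.Agent.S2288

/-- For every finite field F and n ≥ 4: SL_n(F) has a presentation with 7 generators and at most 25 relations, and PSL_n(F) one with 7 generators and at most 26 relations; moreover SL_4(F) has one with 6 generators and at most 21 relations and SL_5(F) one with 6 generators and at most 22 relations. -/
theorem result {F : Type*} [Field F] [Fintype F] (n : ℕ) (hn : 4 ≤ n) :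
    (∃ rels : Finset (FreeGroup (Fin 7)), rels.card ≤ 25 ∧ Nonempty (PresentedGroup (↑rels : Set (FreeGroup (Fin 7))) ≃* Matrix.SpecialLinearGroup (Fin n) F)) ∧ (∃ rels : Finset (FreeGroup (Fin 7)), rels.card ≤ 26 ∧ Nonempty (PresentedGroup (↑rels : Set (FreeGroup (Fin 7))) ≃* Matrix.ProjectiveSpecialLinearGroup (Fin n) F)) ∧
    (∃ rels : Finset (FreeGroup (Fin 6)), rels.card ≤ 21 ∧ Nonempty (PresentedGroup (↑rels : Set (FreeGroup (Fin 6))) ≃* Matrix.SpecialLinearGroup (Fin 4) F)) ∧ (∃ rels : Finset (FreeGroup (Fin 6)), rels.card ≤ 22 ∧ Nonempty (PresentedGroup (↑rels : Set (FreeGroup (Fin 6))) ≃* Matrix.SpecialLinearGroup (Fin 5) F)) := by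
  have h4 := SLn.hasPres_SL_four (K := F)
  have h7 : ∃ π : Fin 7 → Matrix.SpecialLinearGroup (Fin n) F, Pres.HasPres π 25 := by
    by_cases h : n = 4
    · subst h
      obtain ⟨π, hπ⟩ := h4
      obtain ⟨π', h'⟩ := hπ.pad (k := 7) (by simp)
      exact ⟨π', h'.mono (by simp)⟩
    · obtain ⟨π, hπ⟩ := SLn.hasPres_SL_five_le (K := F) (n := n) (k := 2) (by omega) (Or.inr rfl)
      obtain ⟨π', h'⟩ := hπ.pad (k := 7) (by simp)
      exact ⟨π', h'.mono (by simp)⟩
  obtain ⟨π, hπ⟩ := h7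
  obtain ⟨π4, hπ4⟩ := h4
  obtain ⟨π5, hπ5⟩ := SLn.hasPres_SL_five_le (K := F) (n := 5) (k := 1) le_rfl (Or.inl ⟨rfl, rfl⟩)
  obtain ⟨π5', h5⟩ := hπ5.pad (k := 6) (by simp)
  exact ⟨hπ.nonempty le_rfl, hπ.quotient_center.nonempty le_rfl, hπ4.nonempty (by omega),
    h5.nonempty (by simp)⟩

end Cfsg.Agent.S2288
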