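import Cfsg.Statements.S2412
import Cfsg.Agent.Lib.Cls.Conc
import Cfsg.Agent.Lib.Forms.Spinor

set_option autoImplicit false
open Cfsg

namespace Cfsg.Agent.S2412

/-- The projective special unitary group `PSU_n(q)` with `n ≥ 3`, realised over the field with `q²` elements, `(n, q) ≠ (3, 2)`, is generated by two of its elements. -/
theorem result {F : Type*} [Field F] [Fintype F] {q : ℕ} (hq : IsPrimePow q) (hF : Fintype.card F = q ^ 2) (n : ℕ) (hn : 3 ≤ n) (h32 : n = 3 → q ≠ 2) :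
    ∃ a b : Cfsg.PSU n F q, Subgroup.closure ({a, b} : Set (Cfsg.PSU n F q)) = ⊤ := by
  obtain ⟨fr, hV⟩ := Cls.unit_frame hF n
  have hf := Forms.uForm_nondeg n hF
  have h2 := Forms.two_le_q hF
  have h4 : 4 ≤ Nat.card F := by rw [Nat.card_eq_fintype_card, hF]; nlinarith
  obtain ⟨m, hm⟩ : ∃ m, n / 2 = m + 1 := ⟨n / 2 - 1, by omega⟩
  revert fr
  rw [hm]
  intro fr hV
  obtain ⟨p, h1, h3⟩ := Cls.PM.exists_cyc m
  refine Cls.Frame.TwoG.quot (fr := fr) ?_ _ (Cls.suHom_injective hF n) ((Cls.suHom_range hF n).trans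
    (fr.unit_EG (p 0) (Forms.frobq_ne hF)).symm) (QuotientGroup.mk' _)
    (QuotientGroup.mk'_surjective _)
  by_cases e : n % 2 = 0
  · exact fr.twoG_A h1 h3 (by omega) h4 (Forms.frobq_ne hF) (Cls.unit_hZ _ (Forms.frobq_ne hF))
      (Forms.Form.unit_exists_isLam_zero _) (fr.V0_eq_zero (hV.trans e))
  obtain ⟨v, v1, v2, v3⟩ := fr.exists_gen_V0 hf (by omega)
  by_cases e' : m = 0
  · subst e'
    exact fr.twoG_three (h32 (by omega)) (i := p 0)
      (fun a => let ⟨_, ht, h⟩ := h3 a; Nat.le_zero.1 ht ▸ h) v1 v2 v3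
  · exact fr.twoG_B h1 h3 (by omega) (by omega) (Cls.unit_hZ _ (Forms.frobq_ne hF)) v1 v2 v3

end Cfsg.Agent.S2412
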