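import Cfsg.Statements.S2411
import Cfsg.Agent.Lib.Cls.SpMat
import Cfsg.Agent.Lib.Cls.TwoGen2

set_option autoImplicit false
open Cfsg

namespace Cfsg.Agent.S2411

/-- The projective symplectic group `PSp_{2m}(q)` with `m ≥ 2` (and `q > 2` if `m = 2`) is generated by two of its elements. -/
theorem result {F : Type*} [Field F] [Fintype F] (m : ℕ) (hm : 2 ≤ m) (hF : m = 2 → 2 < Fintype.card F) :
    ∃ a b : Cfsg.PSp m F, Subgroup.closure ({a, b} : Set (Cfsg.PSp m F)) = ⊤ := by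
  obtain ⟨m, rfl⟩ : ∃ k, m = k + 1 := ⟨m - 1, by omega⟩
  obtain ⟨fr⟩ := Cls.sp_frame (F := F) (m + 1)
  obtain ⟨q, h1, h2⟩ := Cls.PM.exists_cyc m
  refine (fr.twoG_sp h1 h2 (by omega) ?_).quot (Forms.spEquiv _ F).toMonoidHom
    (Forms.spEquiv _ F).injective ?_ (QuotientGroup.mk' _) (QuotientGroup.mk'_surjective _)
  · rw [Nat.card_eq_fintype_card]; omega
  · rw [fr.sp_EG (Forms.spForm_nondeg _), MonoidHom.range_eq_top]
    exact (Forms.spEquiv _ F).surjective

end Cfsg.Agent.S2411
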