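import Cfsg.Statements.S2295
import Cfsg.Agent.Lib.Cls.DPres

set_option autoImplicit false
open Cfsg

namespace Cfsg.Agent.S2295

open Cls Forms Module Pres Subgroup

theorem pres {F : Type*} [Field F] [Fintype F] {n g r : ℕ} (hn : 4 ≤ n)
    (h : PresN (Matrix.SpecialLinearGroup (Fin n) F) g r) :
    PresN (Omega F (quadFormPlus n F)) (g + 1) (r + if n = 4 then 8 else 6) ∧
      PresN (POmega F (quadFormPlus n F)) (g + 1) ((r + if n = 4 then 8 else 6) + 1) := by
  obtain ⟨fr, hV⟩ := plus_frame (F := F) n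
  let i : PM n := ⟨⟨0, by omega⟩, true⟩
  have : Nonempty (PM n) := ⟨i⟩
  obtain ⟨j, h1, h2⟩ := PM.two (m := n) (by omega) i
  have w1 := omegaHom_injective (plusForm n F)
  have w2 := (omegaHom_range _).trans (fr.orth_EG (plusForm_nondeg (F := F) n)
    (by rw [finrank_plus]; omega) h1 h2).symm
  have := isCyclic_of_scalar _ w1 (fr.e_ne_zero i) (center _) fun z hz =>
    (fr.eq_of_commute (PM.three (by omega)) (g := omegaHom _ z) fun x hx => by
      obtain ⟨x, rfl⟩ := w2.ge hx
      exact (Commute.map (mem_center_iff.1 hz x) _).symm).elim (fun e => ⟨1, by simp [e]⟩)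
      fun e => ⟨-1, by simp [e, Form.negOne_apply]⟩
  have := (plus_presN fr hV PM.pos1 PM.pos2 (PM.ncard_pos.symm ▸ hn) (PM.four hn)
    (h.equiv (fr.exists_equiv_levi (by omega) PM.ncard_pos PM.pos1).some)).equiv
    ((MonoidHom.ofInjective w1).trans (MulEquiv.subgroupCongr w2)).symm
  rw [PM.ncard_pos] at this
  exact ⟨this, this.center⟩

/-- Let F be a finite field and n ≥ 4, and let Ω⁺_2n(F) be the commutator subgroup of the orthogonal group of the hyperbolic quadratic form Σ x_i y_i, with PΩ⁺_2n(F) its central quotient. Then Ω⁺_2n(F) has a presentation with 8 generators and at most 31 relations (at most 29 if n = 4 or 5), and PΩ⁺_2n(F) one with 8 generators and at most 32 relations (at most 30 if n = 4 or 5). -/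
theorem result {F : Type*} [Field F] [Fintype F] (n : ℕ) (hn : 4 ≤ n) :
    (∃ rels : Finset (FreeGroup (Fin 8)), rels.card ≤ 31 ∧ Nonempty (PresentedGroup (↑rels : Set (FreeGroup (Fin 8))) ≃* ↥(Cfsg.Omega F (Cfsg.quadFormPlus n F)))) ∧ (∃ rels : Finset (FreeGroup (Fin 8)), rels.card ≤ 32 ∧ Nonempty (PresentedGroup (↑rels : Set (FreeGroup (Fin 8))) ≃* Cfsg.POmega F (Cfsg.quadFormPlus n F))) ∧
    (n ≤ 5 → (∃ rels : Finset (FreeGroup (Fin 8)), rels.card ≤ 29 ∧ Nonempty (PresentedGroup (↑rels : Set (FreeGroup (Fin 8))) ≃* ↥(Cfsg.Omega F (Cfsg.quadFormPlus n F)))) ∧ (∃ rels : Finset (FreeGroup (Fin 8)), rels.card ≤ 30 ∧ Nonempty (PresentedGroup (↑rels : Set (FreeGroup (Fin 8))) ≃* Cfsg.POmega F (Cfsg.quadFormPlus n F)))) := by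
  by_cases h4 : n = 4
  · have h := pres (F := F) hn (h4 ▸ SLn.presN_four)
    rw [if_pos h4] at h
    exact ⟨(h.1.mono (by omega) (by omega)).nonempty, (h.2.mono (by omega) (by omega)).nonempty,
      fun _ => ⟨(h.1.mono (by omega) (by omega)).nonempty, (h.2.mono (by omega) (by omega)).nonempty⟩⟩
  have h := pres (F := F) hn (SLn.presN_five_le (by omega))
  rw [if_neg h4] at h
  refine ⟨(h.1.mono (by omega) (by omega)).nonempty, (h.2.mono (by omega) (by omega)).nonempty,
    fun h5 => ?_⟩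
  have h := pres (F := F) hn ((by omega : 5 = n) ▸ SLn.presN_five)
  rw [if_neg h4] at h
  exact ⟨(h.1.mono (by omega) (by omega)).nonempty, (h.2.mono (by omega) (by omega)).nonempty⟩

end Cfsg.Agent.S2295
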