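import Cfsg.Statements.S2332
import Cfsg.Agent.Lib.Deg.SLMin2

set_option autoImplicit false
open Cfsg
open Cfsg.Agent.Deg Cfsg.Agent.SLn Cfsg.Agent.Char Matrix Module

namespace Cfsg.Agent.S2332

theorem card_tv {ι F : Type*} [Fintype ι] [DecidableEq ι] [Field F] [Fintype F] :
    Nat.card {g : SpecialLinearGroup ι F // ∃ x φ h, x ≠ 0 ∧ φ ≠ 0 ∧ g = tv x φ h} *
    (Nat.card F - 1) =
      (Nat.card F ^ Fintype.card ι - 1) * (Nat.card F ^ (Fintype.card ι - 1) - 1) := by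
  classical
  choose X Φ H hX hΦ e using fun t : {g : SpecialLinearGroup ι F //
    ∃ x φ h, x ≠ 0 ∧ φ ≠ 0 ∧ g = tv x φ h} => t.2
  have := Fintype.ofFinite {x : ι → F // x ≠ 0}
  rw [← Nat.card_units, ← Nat.card_prod, Nat.card_eq_of_bijective
    (β := {p : (ι → F) × (ι → F) // p.1 ≠ 0 ∧ p.2 ≠ 0 ∧ p.2 ⬝ᵥ p.1 = 0})
    (fun p => ⟨(p.2.1 • X p.1, (p.2.1)⁻¹ • Φ p.1), by simp [hX, hΦ, H]⟩) ⟨?_, ?_⟩,
    Nat.card_congr (β := Σ x : {x : ι → F // x ≠ 0}, {φ : kerv x.1 // ¬ φ = 0})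
      { toFun := fun p => ⟨⟨p.1.1, p.2.1⟩, ⟨p.1.2, (dotProduct_comm _ _).trans p.2.2.2⟩,
          fun h => p.2.2.1 (congrArg Subtype.val h)⟩
        invFun := fun p => ⟨(p.1.1, p.2.1.1), p.1.2, fun h => p.2.2 (Subtype.ext h),
          (dotProduct_comm _ _).trans p.2.1.2⟩
        left_inv := fun _ => rfl
        right_inv := fun _ => rfl }, Nat.card_sigma, ← card_ne_zero_vec,
    Nat.card_eq_fintype_card (α := {x // x ≠ 0}), ← smul_eq_mul, ← Finset.card_univ,
    ← Finset.sum_const]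
  · exact Finset.sum_congr rfl fun x _ => by rw [card_subtype_not, card_kerv x.2]; simp
  · rintro ⟨t, s⟩ ⟨t', s'⟩ h
    obtain ⟨h1, h2⟩ := Prod.ext_iff.mp (congrArg Subtype.val h)
    obtain rfl : t = t' := Subtype.ext (by
      rw [e t, e t']
      refine SL_ext fun v => ?_
      have := congrArg₂ (fun φ x => (φ ⬝ᵥ v) • x) h2 h1
      simp only [smul_dotProduct, smul_smul, smul_eq_mul] at this
      rw [tv_mulVec, tv_mulVec]
      simpa [mul_right_comm] using this)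
    exact Prod.ext rfl (Units.ext (smul_left_injective F (hX t) h1))
  · rintro ⟨⟨x, φ⟩, h1, h2, h3⟩
    obtain ⟨t, ht⟩ : ∃ t : {g : SpecialLinearGroup ι F // ∃ x φ h, x ≠ 0 ∧ φ ≠ 0 ∧ g = tv x φ h},
      tv x φ h3 = t := ⟨⟨_, x, φ, h3, h1, h2, rfl⟩, rfl⟩
    have h4 : ∀ v, (φ ⬝ᵥ v) • x = (Φ t ⬝ᵥ v) • X t := fun v => by
      have := congrArg (fun g : SpecialLinearGroup ι F => g.1 *ᵥ v) (ht.trans (e t))
      simpa only [tv_mulVec, add_right_inj] using this
    obtain ⟨u, -, hu⟩ := exists_dot_single (a := 0) (y := φ) (by simpa)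
    have h5 := h4 u
    rw [dotProduct_comm, hu, one_smul] at h5
    have h6 := left_ne_zero_of_smul (h5 ▸ h1)
    refine ⟨(t, Units.mk0 _ h6), Subtype.ext (Prod.ext h5.symm (dotProduct_eq _ _ fun v => ?_))⟩
    have h7 := h4 v
    rw [h5, smul_smul] at h7
    simp [← smul_left_injective F (hX t) h7, h6, mul_comm]

theorem arith {q w k N : ℕ} (h2 : 3 ≤ q) (h4 : q ≠ 4) (h10 : q ≠ 10) (hw : q - 1 ≤ w)
    (hk : k + 1 = q ^ 2 + w) (hN : N * (q - 1) = (q ^ 3 - 1) * (q ^ 2 - 1)) (h : k ∣ N * (w - 1)) :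
    q + 1 ≤ w := by
  obtain ⟨r, rfl⟩ : ∃ r, q = r + 3 := ⟨q - 3, by omega⟩
  obtain rfl : N = (r ^ 2 + 7 * r + 13) * (r + 2) * (r + 4) := by
    rw [show (r + 3) ^ 3 - 1 = (r ^ 2 + 7 * r + 13) * (r + 2) from Nat.sub_eq_of_eq_add (by ring),
      show (r + 3) ^ 2 - 1 = (r + 4) * (r + 2) from Nat.sub_eq_of_eq_add (by ring),
      ← mul_assoc] at hN
    exact Nat.eq_of_mul_eq_mul_right (by omega) hN
  by_contra hc
  obtain rfl | rfl : w = r + 2 ∨ w = r + 3 := by omega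
  · obtain rfl : k = (r + 2) * (r + 5) := by nlinarith
    rw [show (r ^ 2 + 7 * r + 13) * (r + 2) * (r + 4) * (r + 2 - 1) = (r + 2) *
      ((r + 5) * (r ^ 3 + 7 * r ^ 2 + 17 * r + 8) + 12) by simp; ring,
      Nat.mul_dvd_mul_iff_left (by omega), Nat.dvd_add_right (dvd_mul_right _ _)] at h
    have := Nat.le_of_dvd (by norm_num) h
    have : r ≤ 7 := by omega
    interval_cases r <;> simp_all
  · obtain rfl : k = r ^ 2 + 7 * r + 11 := by nlinarith
    rw [show (r ^ 2 + 7 * r + 13) * (r + 2) * (r + 4) * (r + 3 - 1) = (r ^ 2 + 7 * r + 11) *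
      (r ^ 3 + 8 * r ^ 2 + 22 * r + 18) + (4 * r + 10) by simp; ring,
      Nat.dvd_add_right (dvd_mul_right _ _)] at h
    have := Nat.le_of_dvd (by omega) h
    omega

/-- Smallest degree of a non-linear irreducible complex representation of SL_n over a finite field with q elements, for n ≥ 3 and (n, q) not one of (3, 2), (3, 4), (4, 2), (4, 3): every irreducible complex representation of SL_n(F) of degree at least 2 has degree at least (q^n − q)/(q − 1), and there is an irreducible complex representation of exactly that degree. -/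
theorem result {F : Type*} [Field F] [Fintype F] [DecidableEq F] (n : ℕ) (hn : 3 ≤ n)
    (hex : (n, Fintype.card F) ≠ (3, 2) ∧ (n, Fintype.card F) ≠ (3, 4) ∧ (n, Fintype.card F) ≠ (4, 2) ∧ (n, Fintype.card F) ≠ (4, 3)) :
    (∀ (k : ℕ) (ρ : Representation ℂ (Matrix.SpecialLinearGroup (Fin n) F) (Fin k → ℂ)), ρ.IsIrreducible → 2 ≤ k → (Fintype.card F ^ n - Fintype.card F) / (Fintype.card F - 1) ≤ k) ∧
    (∃ ρ : Representation ℂ (Matrix.SpecialLinearGroup (Fin n) F) (Fin ((Fintype.card F ^ n - Fintype.card F) / (Fintype.card F - 1)) → ℂ), ρ.IsIrreducible) := by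
  classical
  have := Fintype.ofFinite (Fˣ →* ℂˣ)
  have : Nonempty (Fin n) := ⟨⟨0, by omega⟩⟩
  have hn' : 3 ≤ Fintype.card (Fin n) := by simpa
  obtain ⟨a1, -, a2⟩ := chiA_spec (F := F) hn'
  refine ⟨fun k ρ hρ hk => ?_, exists_rep_of_irr (a1 1) (by simpa using chiA_one_one (ι := Fin n))⟩
  obtain ⟨ψ, hψ⟩ : ∃ ψ : AddChar F ℂ, ψ ≠ 1 := ⟨_, by
    simpa using AddChar.FiniteField.primitiveChar_to_Complex_isPrimitive F one_ne_zero⟩
  obtain ⟨x₀, hx₀⟩ := exists_ne (0 : Fin n → F)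
  obtain ⟨y₀, hy₀⟩ := exists_not_comb_pair hn' x₀ 0
  replace hy₀ : ∀ c : F, y₀ ≠ c • x₀ := fun c => by simpa using hy₀ c 0
  obtain ⟨m, hm⟩ : ∃ m, ∀ x y, x ≠ 0 → (∀ c : F, y ≠ c • x) → finrank ℂ (Wt ρ ψ x y) = m :=
    ⟨_, fun x y hx hy => by
      obtain ⟨g, rfl, rfl⟩ := exists_SL_pair hn' hx₀ hy₀ hx hy
      exact finrank_Wt_map g _ _⟩
  obtain ⟨w₀, hw₀⟩ : ∃ w₀, ∀ x, x ≠ 0 → finrank ℂ (Wt ρ ψ x 0) = w₀ :=
    ⟨finrank ℂ (Wt ρ ψ x₀ 0), fun x hx => by
      obtain ⟨g, rfl⟩ := exists_SL_mulVec (by omega) hx₀ hx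
      rw [← finrank_Wt_map g x₀ 0, mulVec_zero]⟩
  have hq := Fintype.one_lt_card (α := F)
  have hq0 : (Fintype.card F : ℂ) ≠ 0 := Nat.cast_ne_zero.mpr (by omega)
  have b1 : ∀ x φ h, x ≠ 0 → φ ≠ 0 → ρ.character (tv x φ h) = w₀ - m := fun x φ h hx hφ => by
    have := trace_tvc hψ hx (fun y => hm x y hx) ⟨φ, (dotProduct_comm _ _).trans h⟩
    rw [sum_psi_dot hψ hφ, mul_zero, zero_add, hw₀ x hx] at this
    exact mul_left_cancel₀ hq0 this
  have b0 : ∀ {x φ : Fin n → F} (h), x = 0 ∨ φ = 0 → tv x φ h = 1 := fun h e =>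
    SL_ext fun v => by rw [tv_mulVec]; rcases e with e | e <;> simp [e]
  have b2 : Fintype.card F * k + Fintype.card F * m =
      m * Fintype.card F ^ n + Fintype.card F * w₀ := by
    have := trace_tvc hψ hx₀ (fun y => hm x₀ y hx₀) 0
    rw [tvc, b0 (φ := (0 : kerv x₀)) _ (.inr rfl), hw₀ _ hx₀] at this
    simp only [map_one, LinearMap.trace_one, finrank_fin_fun, Submodule.coe_zero, zero_dotProduct,
      AddChar.map_zero_eq_one, Finset.sum_const, Finset.card_univ, Fintype.card_fun,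
      Fintype.card_fin, nsmul_one] at this
    exact Nat.cast_injective (R := ℂ) (by push_cast at this ⊢; linear_combination this)
  have b3 : Fintype.card F ≤ Fintype.card F ^ n := Nat.le_self_pow (by omega) _
  obtain rfl | rfl | hm2 : m = 0 ∨ m = 1 ∨ 2 ≤ m := by omega
  · obtain rfl : k = w₀ := by simpa [(zero_lt_one.trans hq).ne'] using b2
    have h : ∀ g, g ∈ ρ.ker := fun g => mem_of_fix ⊥ (fun z φ h _ => by
      by_cases e : z = 0 ∨ φ = 0
      · rw [b0 h e]; exact one_mem _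
      · push Not at e
        exact rep_eq_one_of_character_eq ρ (by simp [b1 z φ h e.1 e.2])) g (by simp)
    have := finrank_le_one_of_comm ρ hρ fun a b => by rw [h a, h b]
    simp at this; omega
  swap
  · refine Nat.div_le_of_le_mul ?_
    obtain ⟨r, hr⟩ := Nat.exists_eq_add_of_le b3
    obtain ⟨s, hs⟩ := Nat.exists_eq_add_of_lt hq
    rw [hr] at b2 ⊢
    rw [hs] at b2
    rw [Nat.add_sub_cancel_left, hs, Nat.add_sub_cancel]
    nlinarith [Nat.mul_le_mul_right r hm2]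
  have key : ∀ i, ¬ Fintype.card F - 1 ∣ i → ∃ s : F, s ≠ 0 ∧ s ^ i ≠ 1 := fun i hi => by
    obtain ⟨s, hs⟩ := not_forall.mp (mt (FiniteField.forall_pow_eq_one_iff F i).mp hi)
    exact ⟨s, s.ne_zero, fun e => hs (Units.ext (by simpa using e))⟩
  simp only [ne_eq, Prod.mk.injEq, not_and] at hex
  have U := fun x y hx hy w hw g => Wt_fix_of_one (hm x y hx hy) (w := w) (g := g) (by
    rw [Fintype.card_fin]
    obtain rfl | rfl | h : n = 3 ∨ n = 4 ∨ 5 ≤ n := by omega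
    · refine .inr (.inr ⟨rfl, key 3 fun h => ?_⟩)
      have := (Nat.dvd_prime Nat.prime_three).mp h
      omega
    · refine .inr (.inl ⟨le_rfl, key 2 fun h => ?_⟩)
      have := Nat.le_of_dvd two_pos h
      omega
    · exact .inl h) hw
  have ex : ∀ x y, x ≠ 0 → (∀ c : F, y ≠ c • x) → ∃ w ∈ Wt ρ ψ x y, w ≠ 0 := fun x y hx hy =>
    (Submodule.ne_bot_iff _).mp fun e => by have := hm x y hx hy; rw [e] at this; simp at this
  have hχ := isIrrCharacter_of_rep ρ hρ
  rcases hn.eq_or_lt with rfl | hn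
  · obtain ⟨u, hu⟩ := exists_not_comb_pair hn' x₀ y₀
    obtain ⟨φ, c1, c2, c3⟩ := exists_dot_pair hu
    have hφ : φ ≠ 0 := by rintro rfl; simp at c3
    have hk' : k + 1 = Fintype.card F ^ 2 + w₀ :=
      Nat.eq_of_mul_eq_mul_left (zero_lt_one.trans hq) (by linarith)
    have c4 := finrank_wtSp (a := fun z : kerv φ => ρ (tv z φ (mem_kerv.mp z.2))) (fun z z' => by
      rw [← map_mul]
      refine congrArg ρ (SL_ext fun v => ?_)
      simp only [SL_mul_mulVec, tv_mulVec, Submodule.coe_add, dotProduct_add, dotProduct_smul,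
        show φ ⬝ᵥ z' = 0 from z'.2, smul_zero, add_zero]
      module) 0 0
    have c5 : Fintype.card (kerv φ) = Fintype.card F ^ 2 := by simpa using card_kerv hφ
    have c6 : ∑ z : kerv φ, ρ.character (tv z φ (mem_kerv.mp z.2)) = Fintype.card F ^ 2 * w₀ := by
      rw [← Finset.add_sum_erase _ _ (Finset.mem_univ 0), b0 (x := (0 : kerv φ)) _ (.inl rfl), Finset.sum_congr rfl
        fun z hz => b1 _ _ _ (by simpa using hz) hφ, Finset.sum_const,
        Finset.card_erase_of_mem (Finset.mem_univ _), Finset.card_univ, c5, nsmul_eq_mul,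
        Nat.cast_pred (by positivity)]
      have := congrArg (Nat.cast (R := ℂ)) hk'
      simp only [Representation.char_one, finrank_fin_fun]
      push_cast at this ⊢
      linear_combination this
    rw [b0 (x := (0 : kerv φ)) _ (.inl rfl), map_one, one_mul, prj, map_smul, map_sum] at c4
    simp only [AddChar.zero_apply, one_smul, one_mul] at c4
    rw [show ∑ z : kerv φ, LinearMap.trace ℂ _ (ρ (tv z φ (mem_kerv.mp z.2))) = _ from c6, c5, smul_eq_mul,
      Nat.cast_pow, inv_mul_cancel_left₀ (pow_ne_zero 2 hq0), Nat.cast_inj] at c4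
    have c7 : ∀ (c : Fˣ) (d : F), c.1 • y₀ ≠ d • x₀ := fun c d e =>
      hy₀ (c.1⁻¹ * d) (by rw [mul_smul, ← e, inv_smul_smul₀ c.ne_zero])
    choose v hv hv0 using fun c : Fˣ => ex x₀ _ hx₀ (c7 c)
    obtain ⟨η, d1, d2⟩ := exists_dot_single hy₀
    have d3 := linearIndependent_fw (fun φ => ρ (tvc x₀ φ)) (fun c : Fˣ => chY ψ x₀ (c.1 • y₀))
      (fun c c' e => Units.ext (mulShift_inj hψ (AddChar.ext _ _ fun s => by
        simpa [chY_apply, d2, mul_comm] using
          congrFun e ⟨s • η, by simp [mem_kerv, dotProduct_comm x₀, d1]⟩))) v hv0 fun c => hv c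
    have d4 : ∀ c, v c ∈ wtSp (fun z : kerv φ => ρ (tv z φ (mem_kerv.mp z.2)))
        (0 : AddChar (kerv φ) ℂ) := fun c z => by
      rw [AddChar.zero_apply, one_smul]
      exact U _ _ hx₀ (c7 c) _ (hv c) _ (by rw [tv_mulVec]; simp [c1])
        (by rw [tv_mulVec]; simp [c2])
    have c8 := (LinearIndependent.of_comp (v := fun c => (⟨v c, d4 c⟩ : wtSp _ _))
      (Submodule.subtype _) d3).fintype_card_le_finrank
    rw [← c4, Fintype.card_units] at c8
    have c9 := isIntegral_sum_div hχ (f := fun g =>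
      if ∃ x φ h, x ≠ 0 ∧ φ ≠ 0 ∧ g = tv x φ h then 1 else 0) (fun g h => by
        have key : ∀ g h : SpecialLinearGroup (Fin 3) F, (∃ x φ h, x ≠ 0 ∧ φ ≠ 0 ∧ g = tv x φ h) →
            ∃ x φ e, x ≠ 0 ∧ φ ≠ 0 ∧ h * g * h⁻¹ = tv x φ e := by
          rintro _ h ⟨x, φ, e, h1, h2, rfl⟩
          have h3 : φ ᵥ* (h⁻¹).1 ᵥ* h.1 = φ := by rw [vecMul_vecMul, coe_inv_mul, vecMul_one]
          exact ⟨h.1 *ᵥ x, φ ᵥ* (h⁻¹).1, by rw [dotProduct_mulVec, h3, e], fun h4 =>
            h1 (mulVec_SL_injective h (by simpa using h4)), fun h4 => h2 (by rw [← h3, h4]; simp),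
              tv_conj h e _ rfl h3⟩
        exact if_congr ⟨fun e => by simpa [mul_assoc] using key _ h⁻¹ e, key g h⟩ rfl rfl)
      fun g => by split_ifs; exacts [isIntegral_one, isIntegral_zero]
    have hq3 : 3 ≤ Fintype.card F := by omega
    rw [Finset.sum_congr rfl (g := fun g => (if ∃ x φ h, x ≠ 0 ∧ φ ≠ 0 ∧ g = tv x φ h then 1 else 0)
      * ((w₀ - 1 : ℕ) : ℂ)) fun g _ => by
        split_ifs with h
        · obtain ⟨x, φ, h, h1, h2, rfl⟩ := h
          rw [b1 _ _ _ h1 h2, Nat.cast_sub (by omega)]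
        · simp, ← Finset.sum_mul, Finset.sum_boole, ← Nat.cast_mul, Representation.char_one,
      finrank_fin_fun, ← Fintype.card_subtype, ← Nat.card_eq_fintype_card] at c9
    have := arith hq3 (by omega) (fun e => absurd (e ▸ FiniteField.isPrimePow_card F) (by decide))
      c8 hk' (by simpa using card_tv (ι := Fin 3) (F := F)) (nat_dvd_of_isIntegral_div (by omega) c9)
    refine Nat.div_le_of_le_mul ?_
    obtain ⟨s, hs⟩ := Nat.exists_eq_add_of_lt hq
    rw [hs] at this hk'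
    rw [hs, Nat.add_sub_cancel, tsub_le_iff_right]
    nlinarith
  obtain ⟨w, hw, h0⟩ := ex _ _ hx₀ hy₀
  obtain ⟨e, z, hz, hz'⟩ := exists_fixed hψ (by simp; omega) U hx₀ hy₀ hw h0
  have h1 := inner_perm_ne_zero ρ e hz hz'
  rw [show (fun g => (Nat.card (MulAction.fixedBy (NZ (Fin n) F) g) : ℂ)) = 1 + ∑ α, chiA α from
    funext fun g => by rw [Pi.add_apply, Finset.sum_apply]; exact a2 g, Char.inner_add_right,
    inner_irr_ne hχ isIrr_one fun e => by have := congrFun e 1; simp at this; omega, zero_add,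
    inner_sum_right] at h1
  obtain ⟨α, -, h2⟩ := Finset.exists_ne_zero_of_sum_ne_zero h1
  have h3 := congrFun (eq_of_inner_irr_ne_zero hχ (a1 α) h2) 1
  by_cases h : α = 1
  · rw [h, chiA_one_one] at h3
    exact le_of_eq (by simpa using h3.symm)
  · rw [chiA, if_neg h, piA_one, div_sub_one_eq hq (by omega)] at h3
    simp only [Representation.char_one, finrank_fin_fun, Fintype.card_fin, Nat.cast_inj] at h3
    omega

end Cfsg.Agent.S2332
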