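import Cfsg.Statements.S2333
import Cfsg.Agent.Lib.Deg.SpQuad

set_option autoImplicit false
open Cfsg
open Cfsg.Agent.Deg Cfsg.Agent.Forms

namespace Cfsg.Agent.S2333

/-- For a finite field F of even order q and n ≥ 2 with (n, q) ≠ (2, 2), every irreducible complex representation of the symplectic group Sp_{2n}(F) of degree at least 2 has degree at least (q^n − 1)(q^n − q)/(2(q + 1)). -/
theorem result {F : Type*} [Field F] [Fintype F] [DecidableEq F] (n : ℕ) (hn : 2 ≤ n) (heven : Even (Fintype.card F)) (hex : (n, Fintype.card F) ≠ (2, 2)) :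
    (∀ (k : ℕ) (ρ : Representation ℂ (Matrix.symplecticGroup (Fin n) F) (Fin k → ℂ)), ρ.IsIrreducible → 2 ≤ k → (Fintype.card F ^ n - 1) * (Fintype.card F ^ n - Fintype.card F) / (2 * (Fintype.card F + 1)) ≤ k) := by
  intro k ρ hρ hk
  have h2 : (2 : F) = 0 := by
    have := ringChar.Nat.cast_ringChar (R := F)
    rw [FiniteField.even_card_iff_char_two.mpr (Nat.even_iff.mp heven)] at this
    exact_mod_cast this
  have h := sp_lower_two (ι := Fin n) (by simpa using hn) h2 (spForm_nondeg n) (spEquiv n F)
    (lag_injective n) (lag_B n) (K := ℂ)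
    (by rw [ringChar.eq_zero]; exact (CharP.char_is_prime F _).ne_zero.symm) ρ (by
      by_contra hc
      push Not at hc
      have := finrank_le_one_of_comm ρ hρ fun a b => by rw [hc, hc]
      rw [Module.finrank_fin_fun] at this
      omega)
  rw [Module.finrank_fin_fun, Nat.card_eq_fintype_card, Fintype.card_fin] at h
  exact Nat.div_le_of_le_mul h

end Cfsg.Agent.S2333
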