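import Cfsg.Statements.S2334
import Cfsg.Agent.Lib.Deg.Unitary

set_option autoImplicit false
open Cfsg
open Cfsg.Agent.Deg Cfsg.Agent.Forms

namespace Cfsg.Agent.S2334

/-- For odd n ≥ 3 and a finite field F with q² elements, (n, q) ≠ (3, 2), every irreducible complex representation of the special unitary group SU_n(q) (the determinant-one isometries of the standard Hermitian form over F) of degree at least 2 has degree at least (q^n − q)/(q + 1). -/
theorem result {F : Type*} [Field F] [Fintype F] [DecidableEq F] (n q : ℕ) (hn : 3 ≤ n) (hodd : Odd n) (hF : Fintype.card F = q ^ 2) (hex : (n, q) ≠ (3, 2)) :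
    (∀ (k : ℕ) (ρ : Representation ℂ (Cfsg.SU n F q) (Fin k → ℂ)), ρ.IsIrreducible → 2 ≤ k → (q ^ n - q) / (q + 1) ≤ k) := by
  intro k ρ hρ hk
  obtain ⟨m, rfl⟩ := hodd
  have h2 := two_le_q hF
  have h := su_lower_odd (uForm_nondeg (2 * m + 1) hF) (m := m) (by omega) (by simp)
    (by
      simp only [Module.finrank_fin_fun]
      by_contra hc
      exact hex (Prod.ext (by simp; omega) (by simp; omega))) (K := ℂ)
    (by rw [ringChar.eq_zero]; exact (CharP.char_is_prime F _).ne_zero.symm)
    (ρ.comp (suEquiv (2 * m + 1) hF).symm.toMonoidHom) (by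
      by_contra hc
      push Not at hc
      have := finrank_le_one_of_comm ρ hρ fun a b => by
        simpa using hc (suEquiv _ hF a) (suEquiv _ hF b)
      rw [Module.finrank_fin_fun] at this
      omega)
  rw [Module.finrank_fin_fun, Nat.sub_one_mul, ← pow_succ] at h
  exact Nat.div_le_of_le_mul h

end Cfsg.Agent.S2334
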