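import Cfsg.Statements.S2338
import Cfsg.Agent.Lib.RD.G2b
import Cfsg.Agent.Lib.RD.G2c

set_option autoImplicit false
open Cfsg
open Cfsg.Lie Cfsg.Agent.Chev Cfsg.Agent.RD Cfsg.Agent.RD.G2

namespace Cfsg.Agent.S2338

theorem cert1 : certOK 1 [0, 1] [3, 0, -2, 0, 2, 0, -1] [1] [2, 6] 4 6 2 9 = true := by
  decide +kernel

theorem cert2 : certOK (-1) [0, 1, 0, 1] [3, 0, 1, 0, 1, 0, -3] [5, 0, 3] [2, 6] 2 6 2 9 = true := by
  decide +kernel

theorem cert3 : certOK 2 [0, 1] [13, 0, -6, 0, 3, 0, -1] [1] [2, 6] 27 6 42 9 = true := by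
  decide +kernel

/-- Lower bounds for the degrees of non-linear irreducible complex representations of the Chevalley group of type G₂ over a finite field with q elements: the degree is at least q³ + 1 when q ≡ 1 (mod 3) and q > 4, at least q³ − 1 when q ≡ 2 (mod 3) and q > 2, and at least q⁴ + q² + 1 when q ≡ 0 (mod 3) and q > 3. -/
theorem result {F : Type*} [Field F] [Fintype F] (k : ℕ) (ρ : Representation ℂ (Cfsg.Lie.chevG2.group F) (Fin k → ℂ)) (hρ : ρ.IsIrreducible) (hk : 2 ≤ k) :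
    (Fintype.card F % 3 = 1 → 4 < Fintype.card F → Fintype.card F ^ 3 + 1 ≤ k) ∧
    (Fintype.card F % 3 = 2 → 2 < Fintype.card F → Fintype.card F ^ 3 - 1 ≤ k) ∧
    (Fintype.card F % 3 = 0 → 3 < Fintype.card F → Fintype.card F ^ 4 + Fintype.card F ^ 2 + 1 ≤ k) := by
  obtain ⟨p, hp⟩ := CharP.exists F
  obtain ⟨n, hp', hn⟩ := FiniteField.card F p
  obtain ⟨ψ, hψ⟩ := (AddChar.exists_apply_ne_zero (a := (1 : F))).2 one_ne_zero
  replace hψ : ψ ≠ 1 := fun e => hψ (by simp [e])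
  have h := fun hq => not_or.1 (mt (all_ker (ρ := ρ) hq) (not_le_ker hρ hk))
  have h3 : Fintype.card F % 3 ≠ 0 → (3 : F) ≠ 0 := fun h e => by
    obtain rfl := (Nat.prime_dvd_prime_iff_eq hp' Nat.prime_three).1 ((CharP.cast_eq_zero_iff F p 3).1 e)
    exact h (Nat.mod_eq_zero_of_dvd (hn ▸ dvd_pow_self 3 n.ne_zero))
  refine ⟨fun h1 h2 => by_contra fun e => one_mod_three hψ (h3 (by omega)) h2 h1 (h h2).1 ?_,
    fun h1 h2 => by_contra fun e => ?_, fun h1 h2 => by_contra fun e => ?_⟩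
  · rw [Module.finrank_fin_fun]; omega
  · have := count hψ (h3 (by omega)) (by omega) (by rw [Module.finrank_fin_fun]; omega) (h (by omega)).1
    rw [Module.finrank_fin_fun] at this; omega
  obtain rfl := (Nat.prime_dvd_prime_iff_eq Nat.prime_three hp').1
    (Nat.prime_three.dvd_of_dvd_pow (hn ▸ Nat.dvd_of_mod_eq_zero h1))
  have hq : 9 ≤ Fintype.card F := by
    rw [hn] at h2 ⊢
    exact Nat.pow_le_pow_right (n := 3) (i := 2) (by norm_num) (show 1 < (n : ℕ) from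
      (Nat.pow_lt_pow_iff_right (by norm_num : 1 < 3)).1 h2)
  have c := count3 hψ (CharP.cast_eq_zero F 3) hq (h (by omega)).2
    (by rw [Module.finrank_fin_fun]; omega) (h (by omega)).1
  have d : (k : ℤ) ∣ (Fintype.card F : ℤ) ^ 6 * _ :=
    Nat.card_eq_fintype_card (α := F) ▸ dvd_order degrees_G2 (dvd_card hρ)
  rw [Module.finrank_fin_fun] at c
  zify at c e
  rcases (by omega : (k : ℤ) = Fintype.card F ^ 4 + Fintype.card F ^ 2 ∨
    (k : ℤ) = Fintype.card F ^ 4 + Fintype.card F ^ 2 - 1 ∨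
    (k : ℤ) = Fintype.card F ^ 4 + Fintype.card F ^ 2 - 2) with e | e | e
  · exact not_dvd_of_cert cert1 hq (Dvd.dvd.trans ⟨Fintype.card F ^ 2, by simp only [pev, e]; ring⟩ d)
  · exact not_dvd_of_cert cert2 hq (Dvd.dvd.trans ⟨1, by simp only [pev, e]; ring⟩ d)
  · exact not_dvd_of_cert cert3 hq (Dvd.dvd.trans ⟨Fintype.card F ^ 2 - 1, by simp only [pev, e]; ring⟩ d)

end Cfsg.Agent.S2338
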