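import Cfsg.Statements.S2343
import Cfsg.Agent.Lib.Ree.Inst
import Cfsg.Agent.Lib.Ree.Deg

set_option autoImplicit false
open Cfsg

namespace Cfsg.Agent.S2343

open Cfsg.Agent.Ree

/-- For the Ree group ²G₂(q), q = 3^(2m+1) with m ≥ 1 (realised over the field with q elements), every irreducible complex representation of degree at least 2 has degree at least q² − q + 1. -/
theorem result {K : Type*} [Field K] [Fintype K] (m : ℕ) (hm : 1 ≤ m) (hK : Fintype.card K = 3 ^ (2 * m + 1)) :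
    (∀ (k : ℕ) (ρ : Representation ℂ (Cfsg.Lie.twistedG2 K (3 ^ m)) (Fin k → ℂ)), ρ.IsIrreducible → 2 ≤ k → (3 ^ (2 * m + 1)) ^ 2 - 3 ^ (2 * m + 1) + 1 ≤ k) := by
  obtain ⟨R⟩ := exists_rg hm hK
  intro k ρ hρ hk
  have h1 := R.le_finrank ρ (by
    by_contra hc
    push Not at hc
    let S : Subrepresentation ρ :=
      ⟨Submodule.span ℂ {Pi.single ⟨0, by omega⟩ 1}, fun g v hv => by rwa [hc]⟩
    rcases hρ.eq_bot_or_eq_top S with h3 | h3
    · have h4 : (Pi.single ⟨0, by omega⟩ 1 : Fin k → ℂ) ∈ S := Submodule.mem_span_singleton_self _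
      rw [h3] at h4
      have h5 : (Pi.single ⟨0, by omega⟩ 1 : Fin k → ℂ) = 0 := h4
      simpa using congrFun h5 ⟨0, by omega⟩
    · have h4 : (Pi.single ⟨1, by omega⟩ 1 : Fin k → ℂ) ∈ S := by rw [h3]; trivial
      obtain ⟨c, hc⟩ := Submodule.mem_span_singleton.mp h4
      simpa [Pi.single_apply, Fin.ext_iff] using congrFun hc ⟨1, by omega⟩)
  simpa [hK] using h1

end Cfsg.Agent.S2343
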