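import Cfsg.Statements.S2344
import Cfsg.Agent.Lib.OD.Main

set_option autoImplicit false
open Cfsg
open Module Cfsg.Agent.Forms Cfsg.Agent.MI Cfsg.Agent.OD

namespace Cfsg.Agent.S2344

/-- For a finite field F of odd order q > 3 and n ≥ 3, every irreducible complex representation of degree at least 2 of Ω_{2n+1}(F) (the commutator subgroup of the isometry group of the quadratic form x₀² + x₁y₁ + ⋯ + x_ny_n) has degree at least (q^{2n} − 1)/(q² − 1). -/
theorem result {F : Type*} [Field F] [Fintype F] (n : ℕ) (hn : 3 ≤ n) (hodd : Odd (Fintype.card F)) (h3 : 3 < Fintype.card F) :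
    (∀ (k : ℕ) (ρ : Representation ℂ (Cfsg.Omega F (Cfsg.quadFormOdd n F)) (Fin k → ℂ)), ρ.IsIrreducible → 2 ≤ k → (Fintype.card F ^ (2 * n) - 1) / (Fintype.card F ^ 2 - 1) ≤ k) := by
  intro k ρ hρ hk
  obtain ⟨j, rfl⟩ : ∃ j, n = j + 1 := ⟨n - 1, by omega⟩
  have hf := oddForm_nondeg (F := F) (j + 1) (two_ne_zero_of_odd hodd)
  have hV : finrank F (Unit ⊕ (Fin (j + 1) ⊕ Fin (j + 1)) → F) = 2 * j + 1 + 2 := finrank_odd _
  obtain ⟨e1, e2⟩ := odd_counts (F := F) j
  have := transfer hf (by omega) (commutatorEquiv (oddEquiv (j + 1) F)) ρ hρ (by simpa)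
    (p := fun d => (Fintype.card F : ℤ) ^ (2 * j + 1 + 1) - 1 ≤ (Fintype.card F ^ 2 - 1) * d)
    fun W _ _ _ R ψ H h => by
      obtain ⟨y, -, e, -, he⟩ := exists_hyp_orth hf ⊥ (by rw [finrank_bot]; omega)
      have c1 := fun {z} hz hz0 c => card_perp hf hV (y := z) hz hz0 c
      obtain ⟨n, N⟩ : ∃ n, Num _ (2 * j + 1) n := ⟨_, hf, hV, (c1 he.Qu he.u_ne_zero 0).symm⟩
      have hn := N.hn
      zify [Fintype.card_pos] at hn
      rw [e1] at hn
      simp only [Nat.card_eq_fintype_card (α := F)] at e2 hn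
      obtain ⟨X, hX⟩ : ∃ X, X = (Fintype.card F : ℤ) ^ j := ⟨_, rfl⟩
      have X1 : (Fintype.card F : ℤ) ^ 2 ≤ X := hX ▸ pow_le_pow_right₀ (by omega) (by omega)
      rw [show (Fintype.card F : ℤ) ^ (2 * j + 1 + 1) = Fintype.card F ^ 2 * X ^ 2 by rw [hX]; ring]
      rw [← hX] at hn e2
      obtain ⟨r, hr, q⟩ : ∃ r : ℤ, 0 ≤ r ∧ Fintype.card F = r + 4 :=
        ⟨Fintype.card F - 4, by omega, by ring⟩
      obtain ⟨Y, hY, X3⟩ : ∃ Y : ℤ, 0 ≤ Y ∧ X = Y + Fintype.card F ^ 2 :=
        ⟨X - Fintype.card F ^ 2, by omega, by ring⟩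
      rcases H.main N (by omega) (Or.inl (by rwa [Nat.card_eq_fintype_card])) h with
        ⟨z, μ, z1, z2, z3, z4, w, w1, w2⟩ | h | ⟨ζ, χ, A⟩
      · have b1 := H.ns_le (by omega) z1 z2 z3 z4 w1 w2
        have b2 := c1 z1 z2 ((oddForm (j + 1) F).Q μ)
        zify [Fintype.card_pos] at b1 b2
        replace b1 := (mul_le_mul_of_nonneg_left
          (le_of_add_le_add_right ((e2 _ z4).trans_eq b2.symm)) (by omega)).trans b1
        replace b1 := mul_le_mul_of_nonneg_left b1
          (show (0 : ℤ) ≤ Fintype.card F ^ 2 - 1 by nlinarith)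
        rw [← mul_assoc 2, mul_left_comm _ (2 * _ : ℤ)] at b1
        refine le_of_mul_le_mul_left (le_trans ?_ b1) (by omega)
        rw [X3, q, ← sub_nonneg]; ring_nf; positivity
      · zify at h
        rw [← add_right_cancel hn, mul_add, ← sub_le_iff_le_add] at h
        replace h := mul_le_mul_of_nonneg_left h
          (show (0 : ℤ) ≤ Fintype.card F ^ 2 - 1 by nlinarith)
        rw [mul_left_comm _ _ (finrank ℂ W : ℤ)] at h
        refine le_of_mul_le_mul_left (le_trans ?_ h) (by omega)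
        rw [X3, q, ← sub_nonneg]; ring_nf; positivity
      · rw [show (Fintype.card F : ℤ) ^ 2 * X ^ 2 = Fintype.card F ^ (2 * j + 1 + 1) by
          rw [hX]; ring]
        exact_mod_cast A.odd N (by zify; rw [← add_right_cancel hn, hX]; ring)
  refine Nat.div_le_of_le_mul ?_
  zify [Nat.one_le_pow 2 _ (show 0 < Fintype.card F by omega),
    Nat.one_le_pow (2 * (j + 1)) _ (show 0 < Fintype.card F by omega)]
  simpa [mul_add] using this

end Cfsg.Agent.S2344
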