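import Cfsg.Statements.S2345
import Cfsg.Agent.Lib.OD.Main

set_option autoImplicit false
open Cfsg
open Module Cfsg.Agent.Forms Cfsg.Agent.MI Cfsg.Agent.OD

namespace Cfsg.Agent.S2345

/-- For a finite field F with q > 3 elements and n ≥ 4, every irreducible complex representation of degree at least 2 of Ω⁺_{2n}(F) (the commutator subgroup of the isometry group of the hyperbolic quadratic form x₁y₁ + ⋯ + x_ny_n) has degree at least (q^n − 1)(q^{n−1} + q)/(q² − 1). -/
theorem result {F : Type*} [Field F] [Fintype F] (n : ℕ) (hn : 4 ≤ n) (h3 : 3 < Fintype.card F) :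
    (∀ (k : ℕ) (ρ : Representation ℂ (Cfsg.Omega F (Cfsg.quadFormPlus n F)) (Fin k → ℂ)), ρ.IsIrreducible → 2 ≤ k → (Fintype.card F ^ n - 1) * (Fintype.card F ^ (n - 1) + Fintype.card F) / (Fintype.card F ^ 2 - 1) ≤ k) := by
  intro k ρ hρ hk
  obtain ⟨j, rfl⟩ : ∃ j, n = j + 2 := ⟨n - 2, by omega⟩
  have hf := plusForm_nondeg (F := F) (j + 2)
  have hV : finrank F (Fin (j + 2) ⊕ Fin (j + 2) → F) = 2 * j + 2 + 2 := finrank_plus _
  obtain ⟨e1, e2⟩ := plus_counts (F := F) j
  have := transfer hf (by omega) (commutatorEquiv (plusEquiv (j + 2) F)) ρ hρ (by simpa)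
    (p := fun d => ((Fintype.card F : ℤ) ^ (j + 2) - 1) *
      (Fintype.card F ^ (j + 1) + Fintype.card F) ≤ (Fintype.card F ^ 2 - 1) * d)
    fun W _ _ _ R ψ H h => by
      obtain ⟨y, -, e, -, he⟩ := exists_hyp_orth hf ⊥ (by rw [finrank_bot]; omega)
      have c1 := fun {z} hz hz0 c => card_perp hf hV (y := z) hz hz0 c
      obtain ⟨n, N⟩ : ∃ n, Num _ (2 * j + 2) n := ⟨_, hf, hV, (c1 he.Qu he.u_ne_zero 0).symm⟩
      have hn := N.hn
      zify [Fintype.card_pos] at hn
      rw [e1] at hn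
      simp only [Nat.card_eq_fintype_card (α := F)] at e2 hn
      obtain ⟨X, hX⟩ : ∃ X, X = (Fintype.card F : ℤ) ^ j := ⟨_, rfl⟩
      have X1 : (Fintype.card F : ℤ) ^ 2 ≤ X := hX ▸ pow_le_pow_right₀ (by omega) (by omega)
      rw [show (Fintype.card F : ℤ) ^ (j + 2) = Fintype.card F ^ 2 * X by rw [hX]; ring,
        show (Fintype.card F : ℤ) ^ (j + 1) = Fintype.card F * X by rw [hX]; ring]
      rw [← hX] at hn e2
      obtain ⟨r, hr, q⟩ : ∃ r : ℤ, 0 ≤ r ∧ Fintype.card F = r + 4 :=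
        ⟨Fintype.card F - 4, by omega, by ring⟩
      obtain ⟨Y, hY, X3⟩ : ∃ Y : ℤ, 0 ≤ Y ∧ X = Y + Fintype.card F ^ 2 :=
        ⟨X - Fintype.card F ^ 2, by omega, by ring⟩
      rcases H.main N (by omega) (Or.inl (by rwa [Nat.card_eq_fintype_card])) h with
        ⟨z, μ, z1, z2, z3, z4, w, w1, w2⟩ | h | ⟨ζ, χ, A⟩
      · have b1 := H.ns_le (by omega) z1 z2 z3 z4 w1 w2
        have b2 := c1 z1 z2 ((plusForm (j + 2) F).Q μ)
        zify [Fintype.card_pos] at b1 b2
        rw [add_right_cancel (b2.trans (e2 _ z4).symm)] at b1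
        replace b1 := mul_le_mul_of_nonneg_left b1
          (show (0 : ℤ) ≤ Fintype.card F ^ 2 - 1 by nlinarith)
        rw [← mul_assoc 2, mul_left_comm _ (2 * _ : ℤ)] at b1
        refine le_of_mul_le_mul_left (le_trans ?_ b1) (by omega)
        rw [X3, q, ← sub_nonneg]; ring_nf; positivity
      · zify at h
        rw [← add_right_cancel hn, mul_add, ← sub_le_iff_le_add] at h
        replace h := mul_le_mul_of_nonneg_left h
          (show (0 : ℤ) ≤ Fintype.card F ^ 2 - 1 by nlinarith)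
        rw [mul_left_comm] at h
        refine le_of_mul_le_mul_left (le_trans ?_ h) (by omega)
        rw [X3, q, ← sub_nonneg]; ring_nf; positivity
      · exact_mod_cast A.even N (M := X) (Or.inl (by nlinarith)) (by rw [hX]; ring) (by linarith)
          fun c hc => by exact_mod_cast (e2 c hc).symm.trans (e2 1 one_ne_zero)
  refine Nat.div_le_of_le_mul ?_
  zify [Nat.one_le_pow 2 _ (show 0 < Fintype.card F by omega),
    Nat.one_le_pow (j + 2) _ (show 0 < Fintype.card F by omega)]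
  simpa using this

end Cfsg.Agent.S2345
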