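import Cfsg.Statements.S2346
import Cfsg.Agent.Lib.OD.Main

set_option autoImplicit false
open Cfsg
open Module Cfsg.Agent.Forms Cfsg.Agent.MI Cfsg.Agent.OD

namespace Cfsg.Agent.S2346

/-- For a finite field F with q elements, n ≥ 4, and a, b ∈ F with z₁² + a z₁z₂ + b z₂² anisotropic, every irreducible complex representation of degree at least 2 of Ω⁻_{2n}(F) (the commutator subgroup of the isometry group of x₁y₁ + ⋯ + x_{n−1}y_{n−1} + z₁² + a z₁z₂ + b z₂²) has degree at least (q^n + 1)(q^{n−1} − q)/(q² − 1). -/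
theorem result {F : Type*} [Field F] [Fintype F] (n : ℕ) (hn : 4 ≤ n) (a b : F) (hab : ∀ z₁ z₂ : F, z₁ ^ 2 + a * z₁ * z₂ + b * z₂ ^ 2 = 0 → z₁ = 0 ∧ z₂ = 0) :
    (∀ (k : ℕ) (ρ : Representation ℂ (Cfsg.Omega F (Cfsg.quadFormMinus (n - 1) F a b)) (Fin k → ℂ)), ρ.IsIrreducible → 2 ≤ k → (Fintype.card F ^ n + 1) * (Fintype.card F ^ (n - 1) - Fintype.card F) / (Fintype.card F ^ 2 - 1) ≤ k) := by
  intro k ρ hρ hk
  obtain ⟨j, rfl⟩ : ∃ j, n = j + 4 := ⟨n - 4, by omega⟩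
  have hf := minusForm_nondeg (F := F) (j + 3) (disc_ne_zero_of_anisotropic hab)
  have hV : finrank F ((Fin (j + 3) ⊕ Fin (j + 3)) ⊕ Fin 2 → F) = 2 * (j + 2) + 4 := finrank_minus _
  have T : MT (minusForm (j + 3) F a b) (j + 2) := ⟨hf, hV,
    by rw [minusForm_Q, card_minus_zero _ hab, Nat.card_eq_fintype_card]; ring,
    fun c hc => by rw [minusForm_Q, card_minus_ne _ hab hc, Nat.card_eq_fintype_card]; ring,
    fun M => minusForm_totSing_le hab⟩
  have := transfer hf (by omega) (commutatorEquiv (minusEquiv (j + 3) F a b)) ρ hρ (by simpa)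
    (p := fun d => ((Fintype.card F : ℤ) ^ (j + 4) + 1) *
      (Fintype.card F ^ (j + 3) - Fintype.card F) ≤ (Fintype.card F ^ 2 - 1) * d)
    fun W _ _ _ R ψ => minus_le ψ j T
  have hq := Fintype.one_lt_card (α := F)
  refine Nat.div_le_of_le_mul ?_
  zify [Nat.one_le_pow 2 _ (zero_lt_one.trans hq), Nat.le_self_pow (show j + 4 - 1 ≠ 0 by omega)]
  simpa using this

end Cfsg.Agent.S2346
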