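import Cfsg.Statements.S2347
import Cfsg.Agent.Lib.Deg.Weil

set_option autoImplicit false
open Cfsg
open Cfsg.Agent.Deg Cfsg.Agent.Forms Cfsg.Agent.Char

namespace Cfsg.Agent.S2347

/-- Smallest degree of a non-linear irreducible complex representation of the symplectic group Sp_{2n} over a finite field of odd order q, n ≥ 2: every irreducible complex representation of degree at least 2 has degree at least (q^n − 1)/2, and there is an irreducible complex representation of exactly that degree (a Weil representation). -/
theorem result {F : Type*} [Field F] [Fintype F] [DecidableEq F] (n : ℕ) (hn : 2 ≤ n) (hodd : Odd (Fintype.card F)) :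
    (∀ (k : ℕ) (ρ : Representation ℂ (Matrix.symplecticGroup (Fin n) F) (Fin k → ℂ)), ρ.IsIrreducible → 2 ≤ k → (Fintype.card F ^ n - 1) / 2 ≤ k) ∧
    (∃ ρ : Representation ℂ (Matrix.symplecticGroup (Fin n) F) (Fin ((Fintype.card F ^ n - 1) / 2) → ℂ), ρ.IsIrreducible) := by
  have h2 : (2 : F) ≠ 0 := fun h => Nat.not_even_iff_odd.mpr hodd (Nat.even_iff.mpr
    (FiniteField.even_card_iff_char_two.mp (ringChar.eq_iff.mpr
      ((CharP.charP_iff_prime_eq_zero Nat.prime_two).mpr (by exact_mod_cast h)))))
  refine ⟨fun k ρ hρ hk => ?_, ?_⟩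
  · have h := sp_lower' h2 (n := n) (by omega) (K := ℂ)
      (by rw [ringChar.eq_zero]; exact (CharP.char_is_prime F _).ne_zero.symm) ρ (by
      by_contra hc
      push Not at hc
      have := finrank_le_one_of_comm ρ hρ fun a b => by rw [hc, hc]
      rw [Module.finrank_fin_fun] at this
      omega)
    rw [Module.finrank_fin_fun, Nat.card_eq_fintype_card] at h
    omega
  · obtain ⟨-, χ, -, -, h1, -, h2, -⟩ := exists_weil_sp hodd (n := n) (by omega)
    exact exists_rep_of_irr (isIrr_comp (spEquiv n F).toMonoidHom (spEquiv n F).surjective h1)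
      (by simpa using h2)

end Cfsg.Agent.S2347
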