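import Cfsg.Statements.S2353
import Cfsg.Agent.Lib.SL2.PSL

set_option autoImplicit false
open Cfsg

namespace Cfsg.Agent.S2353

set_option backward.isDefEq.respectTransparency false
open SL2 Matrix Polynomial
open scoped MatrixGroups

variable {F : Type*} [Field F]

/-- Action of an upper unitriangular matrix on a pair of polynomials. -/
noncomputable def xx (f : F[X]) (v : F[X] × F[X]) : F[X] × F[X] := (v.1 + f * v.2, v.2)
/-- Action of a lower unitriangular matrix on a pair of polynomials. -/
noncomputable def yy (f : F[X]) (v : F[X] × F[X]) : F[X] × F[X] := (v.1, v.2 + f * v.1)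

/-- The image of the vector `(1, 1)` under a word. -/
noncomputable def vec (F : Type*) [Field F] : List (ℕ × Bool) → F[X] × F[X]
  | [] => (1, 1)
  | (i, true) :: L => xx (X ^ (i + 1)) (yy (X ^ (i + 1)) (vec F L))
  | (i, false) :: L => yy (-X ^ (i + 1)) (xx (-X ^ (i + 1)) (vec F L))

theorem lt_add {a b f : F[X]} (hb : b ≠ 0) (h : a.degree ≤ b.degree) (hf : 0 < f.degree) :
    b.degree < (a + f * b).degree := by
  have h1 : b.degree < (f * b).degree := by
    rw [degree_mul]
    have hb' : b.degree ≠ ⊥ := degree_ne_bot.2 hb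
    nth_rewrite 1 [← zero_add b.degree]
    exact WithBot.add_lt_add_right hb' hf
  rwa [degree_add_eq_right_of_degree_lt (h.trans_lt h1)]

theorem deg_pos (i : ℕ) : 0 < (X ^ (i + 1) : F[X]).degree := by
  rw [degree_X_pow]; exact_mod_cast Nat.succ_pos i

theorem deg_sub_pos {i j : ℕ} (h : i ≠ j) : 0 < (X ^ (i + 1) - X ^ (j + 1) : F[X]).degree := by
  rcases lt_or_gt_of_ne h with h | h
  · rw [degree_sub_eq_right_of_degree_lt]
    · exact deg_pos j
    · rw [degree_X_pow, degree_X_pow]; exact_mod_cast Nat.succ_lt_succ h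
  · rw [degree_sub_eq_left_of_degree_lt]
    · exact deg_pos i
    · rw [degree_X_pow, degree_X_pow]; exact_mod_cast Nat.succ_lt_succ h

/-- The ping-pong invariant. -/
def Inv (F : Type*) [Field F] : List (ℕ × Bool) → Prop
  | [] => True
  | (i, true) :: L => (yy (X ^ (i + 1)) (vec F L)).1.degree < (yy (X ^ (i + 1)) (vec F L)).2.degree
  | (i, false) :: L =>
      (xx (-X ^ (i + 1)) (vec F L)).2.degree < (xx (-X ^ (i + 1)) (vec F L)).1.degree

theorem ne_zero_of_lt {a b : F[X]} (h : a.degree < b.degree) : b ≠ 0 := by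
  rintro rfl
  simp at h

theorem inv_of_reduced (L : List (ℕ × Bool)) (hL : FreeGroup.IsReduced L) : Inv F L := by
  induction L with
  | nil => trivial
  | cons a L ih =>
    have ih' := ih hL.tail
    obtain ⟨j, s⟩ := a
    rcases L with _ | ⟨⟨i, r⟩, L⟩
    · cases s
      · exact lt_add one_ne_zero le_rfl (by rw [degree_neg]; exact deg_pos j)
      · exact lt_add one_ne_zero le_rfl (deg_pos j)
    · have hr : j = i → s = r := (List.isChain_cons_cons.1 hL).1
      cases s <;> cases r
      · have h1 := lt_add (ne_zero_of_lt ih') ih'.le (f := -X ^ (i + 1))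
          (by rw [degree_neg]; exact deg_pos i)
        exact lt_add (ne_zero_of_lt h1) h1.le (by rw [degree_neg]; exact deg_pos j)
      · have hij : i ≠ j := fun h => by simpa using hr h.symm
        have h1 := lt_add (ne_zero_of_lt ih') ih'.le (deg_sub_pos hij)
        simp only [Inv, vec, xx] at h1 ⊢
        convert h1 using 2
        ring
      · have hij : j ≠ i := fun h => by simpa using hr h
        have h1 := lt_add (ne_zero_of_lt ih') ih'.le (deg_sub_pos hij)
        simp only [Inv, vec, yy] at h1 ⊢
        convert h1 using 2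
        ring
      · have h1 := lt_add (ne_zero_of_lt ih') ih'.le (deg_pos i)
        exact lt_add (ne_zero_of_lt h1) h1.le (deg_pos j)

theorem vec_ne {L : List (ℕ × Bool)} (hL : FreeGroup.IsReduced L) (h : L ≠ []) :
    (vec F L).1 ≠ (vec F L).2 := by
  have h1 := inv_of_reduced (F := F) L hL
  rcases L with _ | ⟨⟨i, r⟩, L⟩
  · exact absurd rfl h
  · cases r
    · have h2 := lt_add (ne_zero_of_lt h1) h1.le (f := -X ^ (i + 1))
          (by rw [degree_neg]; exact deg_pos i)
      exact fun e => h2.ne (congrArg degree e)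
    · have h2 := lt_add (ne_zero_of_lt h1) h1.le (deg_pos i)
      exact fun e => h2.ne (congrArg degree e.symm)

/-- A bound for the degrees. -/
def bd (L : List (ℕ × Bool)) : ℕ := (L.map fun a => 2 * (a.1 + 1)).sum

theorem natDegree_step {a b f : F[X]} {n k : ℕ} (ha : a.natDegree ≤ n) (hb : b.natDegree ≤ n)
    (hf : f.natDegree ≤ k) : (a + f * b).natDegree ≤ k + n :=
  natDegree_add_le_of_degree_le (by omega) (natDegree_mul_le.trans (by omega))

theorem natDegree_vec (L : List (ℕ × Bool)) :
    (vec F L).1.natDegree ≤ bd L ∧ (vec F L).2.natDegree ≤ bd L := by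
  induction L with
  | nil => simp [vec, bd]
  | cons a L ih =>
    obtain ⟨j, s⟩ := a
    have e : bd ((j, s) :: L) = (j + 1) + ((j + 1) + bd L) := by simp [bd]; ring
    have h1 : (X ^ (j + 1) : F[X]).natDegree ≤ j + 1 := by simp
    have h2 : (-X ^ (j + 1) : F[X]).natDegree ≤ j + 1 := by simp
    rw [e]
    cases s
    · have h3 := natDegree_step ih.1 ih.2 h2
      exact ⟨h3.trans (by omega), natDegree_step (ih.2.trans (by omega)) h3 h2⟩
    · have h3 := natDegree_step ih.2 ih.1 h1
      exact ⟨natDegree_step (ih.1.trans (by omega)) h3 h1, h3.trans (by omega)⟩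

theorem lift_vec (t : F) (L : List (ℕ × Bool)) :
    (FreeGroup.lift (fun i => up (t ^ (i + 1)) * lo (t ^ (i + 1))) (FreeGroup.mk L)).1.mulVec
      ![1, 1] = ![(vec F L).1.eval t, (vec F L).2.eval t] := by
  induction L with
  | nil => simp [vec]
  | cons a L ih =>
    obtain ⟨j, s⟩ := a
    rw [FreeGroup.lift_mk] at ih ⊢
    rw [List.map_cons, List.prod_cons, SL_coe_mul, ← mulVec_mulVec, ih]
    cases s
    · simp only [cond_false, _root_.mul_inv_rev, up_inv, lo_inv]
      ext i; fin_cases i <;> simp [vec, xx, yy, mulVec, dotProduct, Fin.sum_univ_two] <;> ring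
    · ext i; fin_cases i <;> simp [vec, xx, yy, mulVec, dotProduct, Fin.sum_univ_two] <;> ring

/-- A non-trivial law holds in PSL_2 over only finitely many finite fields: for every non-trivial element w of the free group on countably many generators there is N such that over every finite field with at least N elements some substitution of elements of PSL_2 into w is not the identity. -/
theorem result (w : FreeGroup ℕ) (hw : w ≠ 1) :
    ∃ N : ℕ, ∀ (F : Type*) [Field F] [Fintype F], N ≤ Fintype.card F →
      ∃ f : ℕ → Matrix.ProjectiveSpecialLinearGroup (Fin 2) F, FreeGroup.lift f w ≠ 1 := by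
  refine ⟨bd w.toWord + 1, fun F _ _ hF => ?_⟩
  have h1 := vec_ne (F := F) (FreeGroup.isReduced_toWord (x := w))
    (fun h => hw (FreeGroup.toWord_eq_nil_iff.1 h))
  have h2 := natDegree_vec (F := F) w.toWord
  obtain ⟨t, ht⟩ : ∃ t : F, ((vec F w.toWord).1 - (vec F w.toWord).2).eval t ≠ 0 := by
    by_contra h
    push Not at h
    refine sub_ne_zero.2 h1 (eq_zero_of_natDegree_lt_card_of_eval_eq_zero _
      Function.injective_id h ?_)
    have := natDegree_sub_le_of_le h2.1 h2.2
    simp only [max_self] at this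
    omega
  refine ⟨fun i => pr (up (t ^ (i + 1)) * lo (t ^ (i + 1))), fun h => ht ?_⟩
  have h3 := lift_vec t w.toWord
  rw [FreeGroup.mk_toWord] at h3
  have h4 : FreeGroup.lift (fun i => pr (up (t ^ (i + 1)) * lo (t ^ (i + 1)))) w =
      pr (FreeGroup.lift (fun i => up (t ^ (i + 1)) * lo (t ^ (i + 1))) w) := by
    rw [← MonoidHom.comp_apply]
    congr 1
    ext i
    simp
  rw [h4, pr_eq_one_iff, isScal_iff] at h
  obtain ⟨a, ha⟩ := h
  rw [ha] at h3
  have e0 := congrFun h3 0
  have e1 := congrFun h3 1
  simp at e0 e1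
  rw [eval_sub, ← e0, ← e1, sub_self]

end Cfsg.Agent.S2353
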