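import Cfsg.Statements.S2354
import Cfsg.Agent.Lib.Suz.Iso

set_option autoImplicit false
open Cfsg

namespace Cfsg.Agent.S2354

open Cfsg.Agent.Suz

open Matrix Polynomial

section generic
variable {R : Type*} [CommRing R] [CharP R 2]

/-- Upper generic involution. -/
def xM (s t : R) : Matrix (Fin 4) (Fin 4) R := !![1, 0, s, t; 0, 1, 0, s; 0, 0, 1, 0; 0, 0, 0, 1]

/-- Lower generic involution. -/
def yM (s t : R) : Matrix (Fin 4) (Fin 4) R := !![1, 0, 0, 0; 0, 1, 0, 0; s, 0, 1, 0; t, s, 0, 1]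

theorem xM_mul (s t s' t' : R) : xM s t * xM s' t' = xM (s + s') (t + t') := by
  ext i j; fin_cases i <;> fin_cases j <;> simp [xM, Matrix.mul_apply, Fin.sum_univ_four, add_comm]

theorem yM_mul (s t s' t' : R) : yM s t * yM s' t' = yM (s + s') (t + t') := by
  ext i j; fin_cases i <;> fin_cases j <;> simp [yM, Matrix.mul_apply, Fin.sum_univ_four, add_comm]

theorem xM_sq (s t : R) : xM s t * xM s t = 1 := by
  rw [xM_mul, CharTwo.add_self_eq_zero, CharTwo.add_self_eq_zero]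
  ext i j; fin_cases i <;> fin_cases j <;> simp [xM]

theorem yM_sq (s t : R) : yM s t * yM s t = 1 := by
  rw [yM_mul, CharTwo.add_self_eq_zero, CharTwo.add_self_eq_zero]
  ext i j; fin_cases i <;> fin_cases j <;> simp [yM]

/-- The generic generators. -/
def gU (s t : R) (i : ℕ) : (Matrix (Fin 4) (Fin 4) R)ˣ where
  val := xM (s ^ (i + 1)) (t ^ (i + 1)) * yM (s ^ (i + 1)) (t ^ (i + 1))
  inv := yM (s ^ (i + 1)) (t ^ (i + 1)) * xM (s ^ (i + 1)) (t ^ (i + 1))
  val_inv := by rw [mul_assoc, ← mul_assoc (yM _ _), yM_sq, one_mul, xM_sq]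
  inv_val := by rw [mul_assoc, ← mul_assoc (xM _ _), xM_sq, one_mul, yM_sq]

theorem map_lift {S : Type*} [CommRing S] [CharP S 2] (ψ : R →+* S) (s t : R) (w : FreeGroup ℕ) :
    ((FreeGroup.lift (gU s t) w : (Matrix (Fin 4) (Fin 4) R)ˣ) : Matrix (Fin 4) (Fin 4) R).map ψ =
      (FreeGroup.lift (gU (ψ s) (ψ t)) w : (Matrix (Fin 4) (Fin 4) S)ˣ) := by
  have : (Units.map (ψ.mapMatrix (m := Fin 4)).toMonoidHom).comp (FreeGroup.lift (gU s t)) =
      FreeGroup.lift (gU (ψ s) (ψ t)) := by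
    ext i : 1
    simp only [MonoidHom.comp_apply, FreeGroup.lift_apply_of]
    ext : 1
    change Matrix.map (xM (s ^ (i + 1)) (t ^ (i + 1)) * yM (s ^ (i + 1)) (t ^ (i + 1))) ψ =
      xM (ψ s ^ (i + 1)) (ψ t ^ (i + 1)) * yM (ψ s ^ (i + 1)) (ψ t ^ (i + 1))
    rw [Matrix.map_mul]
    congr 1 <;> ext i j <;> fin_cases i <;> fin_cases j <;> simp [xM, yM]
  rw [← this]; rfl

end generic

section pingpong
variable {K : Type*} [Field K] [CharP K 2]

theorem x0 (a : K[X]) (v : Fin 4 → K[X]) : (xM 0 a *ᵥ v) 0 = v 0 + a * v 3 := by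
  simp [xM, mulVec, dotProduct, Fin.sum_univ_four]
theorem x3 (a : K[X]) (v : Fin 4 → K[X]) : (xM 0 a *ᵥ v) 3 = v 3 := by
  simp [xM, mulVec, dotProduct, Fin.sum_univ_four]
theorem y0 (a : K[X]) (v : Fin 4 → K[X]) : (yM 0 a *ᵥ v) 0 = v 0 := by
  simp [yM, mulVec, dotProduct, Fin.sum_univ_four]
theorem y3 (a : K[X]) (v : Fin 4 → K[X]) : (yM 0 a *ᵥ v) 3 = v 3 + a * v 0 := by
  simp [yM, mulVec, dotProduct, Fin.sum_univ_four, add_comm]

omit [CharP K 2] in
theorem deg_step {a p r : K[X]} (ha : 0 < a.natDegree) (hr : r ≠ 0) (h : p.degree ≤ r.degree) :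
    r.degree < (p + a * r).degree := by
  have ha0 : a ≠ 0 := by rintro rfl; simp at ha
  have h1 : r.degree < (a * r).degree := by
    rw [degree_mul, degree_eq_natDegree ha0, degree_eq_natDegree hr]
    exact_mod_cast (by omega : r.natDegree < a.natDegree + r.natDegree)
  rwa [degree_add_eq_right_of_degree_lt (h.trans_lt h1)]

theorem x_step {a : K[X]} (ha : 0 < a.natDegree) {v : Fin 4 → K[X]} (hr : v 3 ≠ 0)
    (h : (v 0).degree ≤ (v 3).degree) : ((xM 0 a *ᵥ v) 3).degree < ((xM 0 a *ᵥ v) 0).degree := by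
  rw [x0, x3]; exact deg_step ha hr h

theorem y_step {a : K[X]} (ha : 0 < a.natDegree) {v : Fin 4 → K[X]} (hr : v 0 ≠ 0)
    (h : (v 3).degree ≤ (v 0).degree) : ((yM 0 a *ᵥ v) 0).degree < ((yM 0 a *ᵥ v) 3).degree := by
  rw [y0, y3]; exact deg_step ha hr h

omit [CharP K 2] in
theorem deg_pow (i : ℕ) : 0 < (X ^ (i + 1) : K[X]).natDegree := by simp

omit [CharP K 2] in
theorem deg_pow_add {i j : ℕ} (h : i ≠ j) : 0 < (X ^ (i + 1) + X ^ (j + 1) : K[X]).natDegree := by
  rcases lt_or_gt_of_ne h with h | h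
  · rw [natDegree_add_eq_right_of_natDegree_lt (by simpa using h)]; simp
  · rw [natDegree_add_eq_left_of_natDegree_lt (by simpa using h)]; simp

/-- The ping-pong invariant. -/
def St (x : ℕ × Bool) (v : Fin 4 → K[X]) : Prop :=
  cond x.2 (∃ v' : Fin 4 → K[X], (v' 0).degree < (v' 3).degree ∧ v = xM 0 (X ^ (x.1 + 1)) *ᵥ v')
    (∃ v' : Fin 4 → K[X], (v' 3).degree < (v' 0).degree ∧ v = yM 0 (X ^ (x.1 + 1)) *ᵥ v')

theorem pingpong (x : ℕ × Bool) (L : List (ℕ × Bool)) (hL : FreeGroup.IsReduced (x :: L)) :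
    St x (((FreeGroup.lift (gU (0 : K[X]) X) (FreeGroup.mk (x :: L)) :
      (Matrix (Fin 4) (Fin 4) K[X])ˣ) : Matrix (Fin 4) (Fin 4) K[X]) *ᵥ ![1, 0, 0, 1]) := by
  have hstep : ∀ (x : ℕ × Bool) (L : List (ℕ × Bool)),
      ((FreeGroup.lift (gU (0 : K[X]) X) (FreeGroup.mk (x :: L)) :
      (Matrix (Fin 4) (Fin 4) K[X])ˣ) : Matrix (Fin 4) (Fin 4) K[X]) =
      cond x.2 (xM 0 (X ^ (x.1 + 1)) * yM 0 (X ^ (x.1 + 1)))
        (yM 0 (X ^ (x.1 + 1)) * xM 0 (X ^ (x.1 + 1))) *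
      ((FreeGroup.lift (gU (0 : K[X]) X) (FreeGroup.mk L) :
      (Matrix (Fin 4) (Fin 4) K[X])ˣ) : Matrix (Fin 4) (Fin 4) K[X]) := by
    rintro ⟨i, _ | _⟩ L <;> simp [FreeGroup.lift_mk, gU]
  induction L generalizing x with
  | nil =>
    rw [hstep]
    obtain ⟨i, _ | _⟩ := x
    · refine ⟨xM 0 (X ^ (i + 1)) *ᵥ ![1, 0, 0, 1], x_step (deg_pow i) (by simp) (by simp), ?_⟩
      simp [FreeGroup.lift_mk]
    · refine ⟨yM 0 (X ^ (i + 1)) *ᵥ ![1, 0, 0, 1], y_step (deg_pow i) (by simp) (by simp), ?_⟩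
      simp [FreeGroup.lift_mk]
  | cons y L ih =>
    rw [FreeGroup.isReduced_cons_cons] at hL
    have h1 := ih y hL.2
    rw [hstep, ← mulVec_mulVec]
    generalize ((FreeGroup.lift (gU (0 : K[X]) X) (FreeGroup.mk (y :: L)) :
      (Matrix (Fin 4) (Fin 4) K[X])ˣ) : Matrix (Fin 4) (Fin 4) K[X]) *ᵥ ![1, 0, 0, 1] = v at h1
    obtain ⟨i, _ | _⟩ := x <;> obtain ⟨j, _ | _⟩ := y <;> obtain ⟨v', hv, rfl⟩ := h1
    · have h2 := y_step (deg_pow j) (ne_zero_of_degree_gt hv) hv.le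
      exact ⟨_, x_step (deg_pow i) (ne_zero_of_degree_gt h2) h2.le, (mulVec_mulVec _ _ _).symm⟩
    · have hij : i ≠ j := fun he => by simpa using hL.1 he
      refine ⟨_, x_step (deg_pow_add hij) (ne_zero_of_degree_gt hv) hv.le, ?_⟩
      simp only [cond_false, mulVec_mulVec, mul_assoc, xM_mul, add_zero]
    · have hij : i ≠ j := fun he => by simpa using hL.1 he
      refine ⟨_, y_step (deg_pow_add hij) (ne_zero_of_degree_gt hv) hv.le, ?_⟩
      simp only [cond_true, mulVec_mulVec, mul_assoc, yM_mul, add_zero]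
    · have h2 := x_step (deg_pow j) (ne_zero_of_degree_gt hv) hv.le
      exact ⟨_, y_step (deg_pow i) (ne_zero_of_degree_gt h2) h2.le, (mulVec_mulVec _ _ _).symm⟩

theorem lift_ne_one (w : FreeGroup ℕ) (hw : w ≠ 1) :
    ((FreeGroup.lift (gU (0 : K[X]) X) w : (Matrix (Fin 4) (Fin 4) K[X])ˣ) :
      Matrix (Fin 4) (Fin 4) K[X]) ≠ 1 := by
  intro he
  have h1 := FreeGroup.isReduced_toWord (x := w)
  have h2 := FreeGroup.mk_toWord (x := w)
  cases hL : w.toWord with
  | nil => exact hw (FreeGroup.toWord_eq_nil_iff.mp hL)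
  | cons x L =>
    rw [hL] at h1 h2
    have h3 := pingpong (K := K) x L h1
    rw [h2, he, one_mulVec] at h3
    obtain ⟨i, _ | _⟩ := x <;> obtain ⟨v', hv, h4⟩ := h3
    · have h5 := y_step (deg_pow i) (ne_zero_of_degree_gt hv) hv.le
      rw [← h4] at h5; simp at h5
    · have h5 := x_step (deg_pow i) (ne_zero_of_degree_gt hv) hv.le
      rw [← h4] at h5; simp at h5

end pingpong

theorem kronecker {K : Type*} [Field K] (r n : ℕ) : ∀ P : K[X][X], P.natDegree ≤ n →
    (∀ j, (P.coeff j).natDegree < r) → P.eval (X ^ r) = 0 → P = 0 := by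
  induction n with
  | zero =>
    intro P hn _ he
    rw [eq_C_of_natDegree_le_zero hn] at he ⊢
    simpa using he
  | succ n ih =>
    intro P hn hc he
    have h1 := X_mul_divX_add P
    rw [← h1, eval_add, eval_mul, eval_X, eval_C] at he
    have h2 : P.coeff 0 = 0 := by
      refine eq_zero_of_dvd_of_natDegree_lt (p := X ^ r) ⟨-eval (X ^ r) P.divX, ?_⟩
        (by simpa using hc 0)
      linear_combination he
    rw [h2, add_zero, mul_eq_zero] at he
    have h3 := ih P.divX (by rw [natDegree_divX_eq_natDegree_tsub_one]; omega)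
      (fun j => by rw [coeff_divX]; exact hc _) (he.resolve_left (by simp))
    rw [← h1, h2, h3]; simp

theorem natDegree_eval_le {K : Type*} [Field K] (r D : ℕ) (P : K[X][X])
    (hc : ∀ j, (P.coeff j).natDegree ≤ D) : (P.eval (X ^ r)).natDegree ≤ D + r * P.natDegree := by
  rw [eval_eq_sum_range]
  refine natDegree_sum_le_of_forall_le _ _ fun j hj => natDegree_mul_le.trans ?_
  rw [← pow_mul, natDegree_X_pow]
  exact add_le_add (hc j) (Nat.mul_le_mul_left _ (Nat.lt_succ_iff.mp (Finset.mem_range.mp hj)))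

theorem exists_eval_ne (P : (ZMod 2)[X][X]) (hP : P ≠ 0) : ∃ N : ℕ, ∀ (F : Type*) [Field F]
    (m : ℕ) [SuzF F m], N ≤ m → ∃ b : F,
      eval₂RingHom (eval₂RingHom (ZMod.castHom (dvd_refl 2) F) b) (θ b) P ≠ 0 := by
  let D := P.support.sup fun j => (P.coeff j).natDegree
  have hD : ∀ j, (P.coeff j).natDegree ≤ D := fun j => by
    by_cases hj : j ∈ P.support
    · exact Finset.le_sup (f := fun j => (P.coeff j).natDegree) hj
    · rw [notMem_support_iff.mp hj]; simp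
  refine ⟨D + P.natDegree, fun F _ m _ hm => ?_⟩
  have h1 : m < 2 ^ m := Nat.lt_two_pow_self
  have h2 : D < 2 ^ (m + 1) := by rw [pow_succ]; omega
  have h3 : P.eval (X ^ 2 ^ (m + 1)) ≠ 0 := fun he =>
    hP (kronecker _ _ P le_rfl (fun j => (hD j).trans_lt h2) he)
  have h4 := natDegree_eval_le (2 ^ (m + 1)) D P hD
  have h5 : (P.eval (X ^ 2 ^ (m + 1))).natDegree < 2 ^ (2 * m + 1) := by
    have : 2 ^ (2 * m + 1) = 2 ^ (m + 1) * 2 ^ m := by ring
    have h6 : P.natDegree + 1 ≤ 2 ^ m := by omega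
    have := Nat.mul_le_mul_left (2 ^ (m + 1)) h6
    nlinarith
  by_contra hc
  push Not at hc
  apply h3
  rw [← Polynomial.map_eq_zero_iff (ZMod.castHom (dvd_refl 2) F).injective]
  refine poly_eq_zero _ (natDegree_map_le.trans_lt h5) fun b => ?_
  rw [← hc b, eval_map, coe_eval₂RingHom, ← coe_eval₂RingHom _ b, ← eval₂_at_apply]
  simp [θ_def]


/-- A non-trivial law holds in only finitely many Suzuki groups: for every non-trivial element w of the free group on countably many generators there is N such that for q = 2^(2m+1) with m ≥ N some substitution of elements of the Suzuki group over the field with q elements into w is not the identity. -/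
theorem result (w : FreeGroup ℕ) (hw : w ≠ 1) :
    ∃ N : ℕ, ∀ (F : Type*) [Field F] [Fintype F] (m : ℕ), 1 ≤ m → N ≤ m →
      Fintype.card F = 2 ^ (2 * m + 1) →
      ∃ f : ℕ → ↥(Cfsg.Lie.Sz F (2 ^ (m + 1))), FreeGroup.lift f w ≠ 1 := by
  let W : Matrix (Fin 4) (Fin 4) (ZMod 2)[X][X] :=
    (FreeGroup.lift (gU (C X : (ZMod 2)[X][X]) X) w : (Matrix (Fin 4) (Fin 4) (ZMod 2)[X][X])ˣ)
  have hW : W ≠ 1 := by
    intro he
    have h1 := map_lift (mapRingHom (evalRingHom (0 : ZMod 2))) (C X) X w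
    simp only [coe_mapRingHom, map_C, coe_evalRingHom, eval_X, map_zero, map_X] at h1
    apply lift_ne_one (K := ZMod 2) w hw
    rw [← h1]
    change W.map _ = 1
    rw [he, Matrix.map_one _ (by simp) (by simp)]
  obtain ⟨i, j, hij⟩ : ∃ i j, W i j - (1 : Matrix (Fin 4) (Fin 4) (ZMod 2)[X][X]) i j ≠ 0 := by
    by_contra hc
    push Not at hc
    exact hW (Matrix.ext fun i j => sub_eq_zero.mp (hc i j))
  obtain ⟨N, hN⟩ := exists_eval_ne _ hij
  refine ⟨N, fun F _ _ m hm hNm hF => ?_⟩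
  have := SuzF.of_card hm hF
  obtain ⟨b, hb⟩ := hN F m hNm
  let f : ℕ → G F m := fun i => u 0 (b ^ (i + 1)) * (Suz.w * u 0 (b ^ (i + 1)) * Suz.w)
  refine ⟨fun i => lieEquiv F (f i), fun he => hb ?_⟩
  have h1 : FreeGroup.lift (fun i => lieEquiv F (f i)) =
      (lieEquiv F).toMonoidHom.comp (FreeGroup.lift f) := by
    ext i : 1; simp
  rw [h1] at he
  have h2 : FreeGroup.lift f w = 1 := by simpa using he
  have h3 : (matHom F m).toHomUnits.comp (FreeGroup.lift f) = FreeGroup.lift (gU b (θ b)) := by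
    ext i : 1
    simp only [MonoidHom.comp_apply, FreeGroup.lift_apply_of]
    ext : 1
    change uM _ _ * (wM F * uM _ _ * wM F) = xM _ _ * yM _ _
    congr 1 <;> ext i j <;> fin_cases i <;> fin_cases j <;>
      simp [xM, yM, uM, wM, Matrix.mul_apply, Fin.sum_univ_four]
  have h4 := map_lift (eval₂RingHom (eval₂RingHom (ZMod.castHom (dvd_refl 2) F) b) (θ b)) (C X) X w
  simp only [coe_eval₂RingHom, eval₂_C, eval₂_X] at h4
  rw [← h3, MonoidHom.comp_apply, h2, map_one] at h4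
  have h5 := congrFun (congrFun h4 i) j
  rw [map_sub, sub_eq_zero]
  refine h5.trans ?_
  by_cases hij : i = j <;> simp [Matrix.one_apply, hij]

end Cfsg.Agent.S2354
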