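import Cfsg.Statements.S2355
import Cfsg.Agent.Lib.Law.Unitary

set_option autoImplicit false
open Cfsg

namespace Cfsg.Agent.S2355

open Cfsg.Agent.Law

theorem card_quot_le {G : Type*} [Group G] {H : Type} [Group H] [Finite H] (N : Subgroup H)
    [N.Normal] (e : G ≃* H ⧸ N) : Nat.card G ≤ Nat.card H := by
  rw [Nat.card_congr e.toEquiv]
  exact Nat.card_le_card_of_surjective _ (QuotientGroup.mk'_surjective N)

theorem finite_of_rep {H ι F : Type*} [Group H] [Fintype ι] [DecidableEq ι] [Field F] [Finite F]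
    (ρ : H →* Matrix ι ι F) (hρ : Function.Injective ρ) : Finite H :=
  Finite.of_injective (β := ι → ι → F) ρ hρ

theorem omega_bound {G : Type*} [Group G] {ι : Type} [Fintype ι] [DecidableEq ι] {F : Type}
    [Field F] [Finite F] (Q : (ι → F) → F) (e : G ≃* POmega F Q) {M q : ℕ}
    (hM : Fintype.card ι ≤ M) (hq : Nat.card F ≤ q) : Nat.card G ≤ q ^ (M * M) := by
  have hinj : Function.Injective ((isoRep F Q).comp (Omega F Q).subtype) :=
    (isoRep_injective F Q).comp (Subgroup.subtype_injective _)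
  have := finite_of_rep _ hinj
  exact (card_quot_le _ e).trans (card_le_of_rep _ hinj hM hq)

/-- A non-trivial law is satisfied by only finitely many finite simple groups that are alternating or classical, up to isomorphism: for every non-trivial element w of the free group on countably many generators there is a bound N such that every alternating group of degree ≥ 5 and every simple classical group (linear, symplectic, unitary or orthogonal, in this problem's sense) in which w is a law has order at most N. -/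
theorem result (w : FreeGroup ℕ) (hw : w ≠ 1) :
    ∃ N : ℕ, ∀ (G : Type*) [Group G] [Finite G],
      (Cfsg.IsAlternating G ∨ Cfsg.IsPSL G ∨ Cfsg.IsPSp G ∨ Cfsg.IsPSU G ∨ Cfsg.IsPOmegaOdd G ∨
          Cfsg.IsPOmegaPlus G ∨ Cfsg.IsPOmegaMinus G) →
      (∀ f : ℕ → G, FreeGroup.lift f w = 1) → Nat.card G ≤ N := by
  obtain ⟨M0, hM0⟩ := exists_bound_alt.{0} w hw
  obtain ⟨w1, hw1, h1⟩ := exists_law_of_center w hw
  obtain ⟨w2, hw2, h2⟩ := exists_law_of_commutator w1 hw1
  obtain ⟨M1, Q1, hA1, hB1⟩ := exists_bound_SL w1 hw1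
  obtain ⟨M2, Q2, -, hB2⟩ := exists_bound_SL w2 hw2
  refine ⟨M0.factorial + Q1 ^ (M1 * M1) + Q1 ^ ((2 * M1) * (2 * M1)) +
    ((Q1 + 1) ^ 2) ^ (M1 * M1) + Q2 ^ ((2 * M2 + 2) * (2 * M2 + 2)), ?_⟩
  intro G _ _ hG hlaw
  replace hlaw : IsLaw w G := hlaw
  rcases hG with ⟨n, hn, ⟨e⟩⟩ | ⟨F, _, _, n, hn, -, ⟨e⟩⟩ | ⟨F, _, _, n, hn, -, ⟨e⟩⟩ |
    ⟨F, _, _, n, q, hq, hn, -, ⟨e⟩⟩ | ⟨F, _, _, n, hn, -, ⟨e⟩⟩ | ⟨F, _, _, n, hn, ⟨e⟩⟩ |
    ⟨F, _, _, n, a, b, hn, -, ⟨e⟩⟩
  · have h := hM0 _ (hlaw.of_injective e.symm.toMonoidHom e.symm.injective)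
    have h3 : Nat.card G ≤ Nat.card (Equiv.Perm (Fin n)) := by
      rw [Nat.card_congr e.toEquiv]
      exact Nat.card_le_card_of_injective _ (Subgroup.subtype_injective _)
    rw [Nat.card_perm, Nat.card_eq_fintype_card (α := Fin n)] at h3
    have := Nat.factorial_le h.le
    omega
  · have h := hB1 F n hn (h1 _ (hlaw.of_injective e.symm.toMonoidHom e.symm.injective))
    have := (card_quot_le _ e).trans (card_le_of_rep _ coeSL_injective (M := M1)
      (by simpa using h.1) h.2)
    omega
  · have h := hB1 F n hn (law_Sp (h1 _ (hlaw.of_injective e.symm.toMonoidHom e.symm.injective)))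
    have hinj : Function.Injective (Matrix.symplecticGroup (Fin n) F).subtype :=
      Submonoid.subtype_injective _
    have := finite_of_rep _ hinj
    have := (card_quot_le _ e).trans (card_le_of_rep _ hinj (M := 2 * M1)
      (by simp; omega) h.2)
    omega
  · have hl := h1 _ (hlaw.of_injective e.symm.toMonoidHom e.symm.injective)
    have h3 := hA1 _ (law_SU_alt hl)
    obtain ⟨K, hK, hK'⟩ := law_SU_SL2 hq (by omega) hl
    have h4 := (hB1 K 2 le_rfl hK').2
    have := finite_of_rep _ (suRep_injective n F q)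
    have := (card_quot_le _ e).trans (card_le_of_rep _ (suRep_injective n F q) (M := M1)
      (Q := (Q1 + 1) ^ 2) h3 (by
        rw [Nat.card_eq_fintype_card, hq]
        exact Nat.pow_le_pow_left (by omega) 2))
    omega
  · have h := hB2 F n (by omega) (law_odd (h2 _ (h1 _
      (hlaw.of_injective e.symm.toMonoidHom e.symm.injective))))
    have := omega_bound _ e (M := 2 * M2 + 2) (by simp; omega) h.2
    omega
  · have h := hB2 F n (by omega) (law_plus (h2 _ (h1 _
      (hlaw.of_injective e.symm.toMonoidHom e.symm.injective))))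
    have := omega_bound _ e (M := 2 * M2 + 2) (by simp; omega) h.2
    omega
  · have h := hB2 F (n - 1) (by omega) (law_minus (h2 _ (h1 _
      (hlaw.of_injective e.symm.toMonoidHom e.symm.injective))))
    have := omega_bound _ e (M := 2 * M2 + 2) (by simp; omega) h.2
    omega

end Cfsg.Agent.S2355
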