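import Cfsg.Statements.S2360
import Cfsg.Agent.Lib.Forms.SU3
import Cfsg.Agent.Lib.SL2.GroupAux

set_option autoImplicit false
open Cfsg

namespace Cfsg.Agent.S2360

open Forms Forms.Form

theorem card_inv {F : Type*} [Field F] [Fintype F] {q : ℕ} (hq : Odd q)
    (hF : Fintype.card F = q ^ 2) :
    Nat.card {x : ↥(Cfsg.SU 3 F q) // x ≠ 1 ∧ x * x = 1} = q ^ 2 * (q ^ 2 - q + 1) := by
  have h2 : (2 : F) ≠ 0 := two_ne_zero_of_odd (hF ▸ hq.pow)
  have hf := uForm_nondeg 3 hF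
  have h3 : Module.finrank F (Fin 3 → F) = 3 := by simp
  have h4 := hf.card_tau h2 h3 (suEquiv 3 hF) fun _ => True
  have h5 := (hf.card_unit_B h3).1
  have hq2 := two_le_q hF
  simp only [and_true, Nat.card_subtype_true] at h4
  rw [← h4] at h5
  zify [show q ≤ q ^ 2 by nlinarith]
  refine mul_left_cancel₀ (show (q : ℤ) * (q + 1) ≠ 0 by positivity) ?_
  push_cast at h5
  linear_combination h5

/-- Let q be odd, F the field with q² elements and S = SU_3(F) (determinant-one isometries of the standard Hermitian form). Then all involutions of S are conjugate; there are exactly q²(q²−q+1) of them; the centralizer of an involution has order q(q+1)(q²−1), the order of the full unitary group of degree 2; and for two distinct commuting involutions t and x there is exactly one further involution commuting with both. -/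
theorem result {F : Type*} [Field F] [Fintype F] {q : ℕ} (hq : Odd q)
    (hF : Fintype.card F = q ^ 2) (t : ↥(Cfsg.SU 3 F q)) (ht : t ≠ 1) (ht2 : t * t = 1) :
    (∀ x : ↥(Cfsg.SU 3 F q), x ≠ 1 → x * x = 1 → ∃ g : ↥(Cfsg.SU 3 F q), g * t * g⁻¹ = x) ∧
    Nat.card {x : ↥(Cfsg.SU 3 F q) // x ≠ 1 ∧ x * x = 1} = q ^ 2 * (q ^ 2 - q + 1) ∧
    Nat.card ↥(Subgroup.centralizer ({t} : Set ↥(Cfsg.SU 3 F q))) = q * (q + 1) * (q ^ 2 - 1) ∧
    ∀ x : ↥(Cfsg.SU 3 F q), x ≠ 1 → x * x = 1 → x ≠ t → Commute t x →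
      Nat.card {y : ↥(Cfsg.SU 3 F q) // y ≠ 1 ∧ y * y = 1 ∧ y ≠ t ∧ y ≠ x ∧ Commute t y ∧ Commute x y} = 1 := by
  have h2 : (2 : F) ≠ 0 := two_ne_zero_of_odd (hF ▸ hq.pow)
  have hf := uForm_nondeg 3 hF
  have h3 : Module.finrank F (Fin 3 → F) = 3 := by simp
  let e := suEquiv 3 hF
  have hq2 := two_le_q hF
  obtain ⟨v, rfl⟩ := hf.exists_tau h2 h3 e ht ht2
  have h4 : ∀ x : ↥(Cfsg.SU 3 F q), x ≠ 1 → x * x = 1 → ∃ g, g * tau h2 h3 e v * g⁻¹ = x :=
    fun x h1 hx => by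
      obtain ⟨w, rfl⟩ := hf.exists_tau h2 h3 e h1 hx
      exact hf.exists_conj_tau h2 h3 e v w
  refine ⟨h4, card_inv hq hF, ?_, fun x h1 hx hne hc => ?_⟩
  · have h5 := SL2.card_carrier_mul_card_centralizer (tau h2 h3 e v)
    have h6 : Nat.card (ConjClasses.mk (tau h2 h3 e v)).carrier = q ^ 2 * (q ^ 2 - q + 1) := by
      rw [← card_inv hq hF]
      refine Nat.card_congr (Equiv.subtypeEquivRight fun x => ?_)
      rw [ConjClasses.mem_carrier_iff_mk_eq, eq_comm, ConjClasses.mk_eq_mk_iff_isConj, isConj_iff]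
      refine ⟨?_, fun h => h4 x h.1 h.2⟩
      rintro ⟨g, rfl⟩
      rw [tau_conj]
      exact ⟨hf.tau_ne_one h2 h3 e _, tau_mul_self h2 h3 e _⟩
    have h7 := hf.card_SIsom
    have h8 := hf.card_gu h3
    rw [← h7, ← Nat.card_congr e.toEquiv, ← h5, h6] at h8
    simp only [Finset.prod_range_succ, Finset.range_zero, Finset.prod_empty] at h8
    zify [show q ≤ q ^ 2 by nlinarith, show 1 ≤ q ^ 2 by nlinarith] at h8 ⊢
    refine mul_left_cancel₀ (show (q : ℤ) ^ 2 * (q ^ 2 - q + 1) * (q + 1) ≠ 0 from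
      mul_ne_zero (mul_ne_zero (by positivity) (by nlinarith)) (by positivity)) ?_
    linear_combination h8
  obtain ⟨w, rfl⟩ := hf.exists_tau h2 h3 e h1 hx
  have h5 := ((commute_tau_iff h2 h3 e).1 hc).resolve_left hne.symm
  obtain ⟨h6, h7⟩ := hf.orth_pair h3 v.B_ne w.B_ne h5
  have h8 := hf.card_tau h2 h3 e fun y => y ≠ tau h2 h3 e v ∧ y ≠ tau h2 h3 e w ∧
    Commute (tau h2 h3 e v) y ∧ Commute (tau h2 h3 e w) y
  rw [card_UV_mem ((uForm 3 hF).orth (Submodule.span F {v.1, w.1})) _ fun u => by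
    rw [mem_orth_pair, commute_tau_iff, commute_tau_iff]
    exact ⟨fun h => ⟨h.2.2.1.resolve_left h.1.symm, h.2.2.2.resolve_left h.2.1.symm⟩, fun h =>
      ⟨tau_ne_of_orth h2 h3 e h.1, tau_ne_of_orth h2 h3 e h.2, Or.inr h.1, Or.inr h.2⟩⟩] at h8
  have h9 := (h6.card_unit_B h7).1
  rw [← h8] at h9
  zify
  refine mul_left_cancel₀ (show (q : ℤ) * (q + 1) ≠ 0 by positivity) ?_
  push_cast at h9
  linear_combination h9

end Cfsg.Agent.S2360
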