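import Cfsg.Statements.S2356
import Cfsg.Agent.S2360

set_option autoImplicit false
open Cfsg

namespace Cfsg.Agent.S2356

open Forms Forms.Form

theorem card_and_eq {α : Type*} {p : α → Prop} {a : α} (h : p a) :
    Nat.card {x // p x ∧ x = a} = 1 :=
  (Nat.card_congr (Equiv.subtypeEquivRight (q := (· = a)) fun _ =>
    ⟨fun h => h.2, fun h' => ⟨h' ▸ h, h'⟩⟩)).trans Nat.card_unique

/-- Let q be odd, F the field with q² elements, S = SU_3(F) (determinant-one isometries of the standard Hermitian form) and t an involution of S. Then: exactly q(q−1) involutions other than t commute with t; exactly q(q−2)(q²−1) involutions do not commute with t but commute with some involution commuting with t; exactly (q+1)(q²−1) involutions x do not commute with t and admit no involution commuting with both t and x; and every involution can be reached from t in at most three steps, each step going to an involution that commutes with the previous one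 (the commuting involution graph is connected of diameter 3). -/
theorem result {F : Type*} [Field F] [Fintype F] {q : ℕ} (hq : Odd q)
    (hF : Fintype.card F = q ^ 2) (t : ↥(Cfsg.SU 3 F q)) (ht : t ≠ 1) (ht2 : t * t = 1) :
    Nat.card {x : ↥(Cfsg.SU 3 F q) // x ≠ 1 ∧ x * x = 1 ∧ x ≠ t ∧ Commute t x} = q * (q - 1) ∧
    Nat.card {x : ↥(Cfsg.SU 3 F q) // x ≠ 1 ∧ x * x = 1 ∧ ¬ Commute t x ∧
        ∃ y : ↥(Cfsg.SU 3 F q), y ≠ 1 ∧ y * y = 1 ∧ Commute t y ∧ Commute y x} = q * (q - 2) * (q ^ 2 - 1) ∧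
    Nat.card {x : ↥(Cfsg.SU 3 F q) // x ≠ 1 ∧ x * x = 1 ∧ ¬ Commute t x ∧
        ∀ y : ↥(Cfsg.SU 3 F q), y ≠ 1 → y * y = 1 → ¬ (Commute t y ∧ Commute y x)} = (q + 1) * (q ^ 2 - 1) ∧
    ∀ x : ↥(Cfsg.SU 3 F q), x ≠ 1 → x * x = 1 →
      ∃ y z : ↥(Cfsg.SU 3 F q), y ≠ 1 ∧ y * y = 1 ∧ z ≠ 1 ∧ z * z = 1 ∧
        Commute t y ∧ Commute y z ∧ Commute z x := by
  have h2 : (2 : F) ≠ 0 := two_ne_zero_of_odd (hF ▸ hq.pow)
  have hf := uForm_nondeg 3 hF
  have h3 : Module.finrank F (Fin 3 → F) = 3 := by simp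
  let e := suEquiv 3 hF
  have hq2 := two_le_q hF
  obtain ⟨v, rfl⟩ := hf.exists_tau h2 h3 e ht ht2
  have hW := hf.restrict_orth_singleton v.B_ne
  have hd : Module.finrank F ((uForm 3 hF).orth (F ∙ v.1)) = 2 := by
    have := hf.finrank_orth_singleton v.ne_zero
    omega
  obtain ⟨hU, hZ⟩ := hW.card_unit_B hd
  have c1 : Nat.card {x : ↥(Cfsg.SU 3 F q) // x ≠ 1 ∧ x * x = 1 ∧ x ≠ tau h2 h3 e v ∧
      Commute (tau h2 h3 e v) x} = q * (q - 1) := by
    have h8 := hf.card_tau h2 h3 e fun y => y ≠ tau h2 h3 e v ∧ Commute (tau h2 h3 e v) y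
    rw [card_UV_mem ((uForm 3 hF).orth (F ∙ v.1)) _ fun u => by
      rw [mem_orth_singleton, commute_tau_iff]
      exact ⟨fun h => h.2.resolve_left h.1.symm, fun h =>
        ⟨tau_ne_of_orth h2 h3 e h, Or.inr h⟩⟩] at h8
    rw [← h8] at hU
    zify [show 1 ≤ q by omega]
    refine mul_left_cancel₀ (show (q : ℤ) * (q + 1) ≠ 0 by positivity) ?_
    push_cast at hU
    linear_combination hU
  have c3 : Nat.card {x : ↥(Cfsg.SU 3 F q) // x ≠ 1 ∧ x * x = 1 ∧ ¬ Commute (tau h2 h3 e v) x ∧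
      ∀ y : ↥(Cfsg.SU 3 F q), y ≠ 1 → y * y = 1 → ¬ (Commute (tau h2 h3 e v) y ∧ Commute y x)} =
      (q + 1) * (q ^ 2 - 1) := by
    have h8 := hf.card_tau h2 h3 e fun x => ¬ Commute (tau h2 h3 e v) x ∧
      ∀ y : ↥(Cfsg.SU 3 F q), y ≠ 1 → y * y = 1 → ¬ (Commute (tau h2 h3 e v) y ∧ Commute y x)
    have h9 : ∀ w, (¬ Commute (tau h2 h3 e v) (tau h2 h3 e w) ∧
        ∀ y : ↥(Cfsg.SU 3 F q), y ≠ 1 → y * y = 1 →
          ¬ (Commute (tau h2 h3 e v) y ∧ Commute y (tau h2 h3 e w))) ↔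
        (uForm 3 hF).B w.1 v.1 * frobq hF ((uForm 3 hF).B w.1 v.1) = 1 ∧
          w.1 ≠ (uForm 3 hF).B w.1 v.1 • v.1 := fun w => by
      constructor
      · rintro ⟨h4, h5⟩
        refine ⟨by_contra fun h => ?_, fun h => h4 ((commute_tau_iff h2 h3 e).2
          (Or.inl ((tau_eq_iff h2 h3 e).2 ⟨_, h⟩)))⟩
        obtain ⟨u, h6, h7⟩ := hf.exists_perp h3 v w h
        exact h5 _ (hf.tau_ne_one h2 h3 e u) (tau_mul_self h2 h3 e u)
          ⟨(commute_tau_iff h2 h3 e).2 (Or.inr h6), ((commute_tau_iff h2 h3 e).2 (Or.inr h7)).symm⟩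
      · rintro ⟨h4, h5⟩
        have h6 : ¬ Commute (tau h2 h3 e v) (tau h2 h3 e w) := fun h => by
          rcases (commute_tau_iff h2 h3 e).1 h with h | h
          · obtain ⟨c, hc⟩ := (tau_eq_iff h2 h3 e).1 h
            exact h5 (by rw [hc, B_smul_left, v.2, mul_one])
          · simp [h] at h4
        refine ⟨h6, fun y h1 hy h => ?_⟩
        obtain ⟨u, rfl⟩ := hf.exists_tau h2 h3 e h1 hy
        exact h5 (hf.eq_smul_of_perp h3 h4 (((commute_tau_iff h2 h3 e).1 h.1).resolve_left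
          fun h7 => h6 (h7 ▸ h.2)) (((commute_tau_iff h2 h3 e).1 h.2.symm).resolve_left
          fun h7 => h6 (h7 ▸ h.1)))
    let f := uForm 3 hF
    have e1 : {w : f.UV // f.B w.1 v.1 * frobq hF (f.B w.1 v.1) = 1 ∧ w.1 ≠ f.B w.1 v.1 • v.1} ≃
        {c : F // c * frobq hF c = 1} ×
          {z : f.orth (F ∙ v.1) // (f.restrict _).B z z = 0 ∧ ¬ z = 0} :=
      { toFun := fun w => ⟨⟨_, w.2.1⟩, ⟨w.1.1 - f.B w.1.1 v.1 • v.1,
          mem_orth_singleton.2 (UV.B_proj v w.1).1⟩,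
          (UV.B_proj v w.1).2.trans (sub_eq_zero.2 w.2.1.symm),
          fun h => w.2.2 (sub_eq_zero.1 (congrArg Subtype.val h))⟩
        invFun := fun x =>
          have h0 := mem_orth_singleton.1 x.2.1.2
          have h1 : f.B (x.1.1 • v.1 + x.2.1.1) v.1 = x.1.1 := by
            rw [B_add_left, B_smul_left, v.2, h0]; simp
          ⟨⟨x.1.1 • v.1 + x.2.1.1, by
            rw [B_add_right, unit_B_smul_right, h1, B_add_left, B_smul_left, f.B_eq_zero_symm h0,
              show f.B x.2.1.1 x.2.1.1 = 0 from x.2.2.1, mul_comm, x.1.2]; simp⟩,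
            by simp only [h1]; exact x.1.2, by simp only [h1]; simpa using x.2.2.2⟩
        left_inv := fun w => by simp
        right_inv := fun x => by
          have h0 := mem_orth_singleton.1 x.2.1.2
          have h1 : f.B (x.1.1 • v.1 + x.2.1.1) v.1 = x.1.1 := by
            rw [B_add_left, B_smul_left, v.2, h0]; simp
          ext <;> simp only [h1]
          simp }
    rw [Nat.card_congr (Equiv.subtypeEquivRight h9), Nat.card_congr e1, Nat.card_prod,
      card_norm_one, mul_comm] at h8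
    have h10 := card_split (fun z : f.orth (F ∙ v.1) => (f.restrict _).B z z = 0) (· = 0)
    rw [card_and_eq (by simp)] at h10
    rw [h10] at hZ
    rw [Nat.eq_of_mul_eq_mul_left q.succ_pos h8]
    zify [show 1 ≤ q ^ 2 by nlinarith]
    refine mul_left_cancel₀ (show (q : ℤ) ≠ 0 by positivity) ?_
    push_cast at hZ
    linear_combination hZ
  refine ⟨c1, ?_, c3, fun x h1 hx => ?_⟩
  · set t := tau h2 h3 e v
    have h4 := card_split (fun x : ↥(Cfsg.SU 3 F q) => x ≠ 1 ∧ x * x = 1) (Commute t)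
    have h5 := card_split (fun x : ↥(Cfsg.SU 3 F q) => (x ≠ 1 ∧ x * x = 1) ∧ Commute t x) (· = t)
    have h6 := card_split (fun x : ↥(Cfsg.SU 3 F q) => (x ≠ 1 ∧ x * x = 1) ∧ ¬ Commute t x)
      fun x => ∃ y : ↥(Cfsg.SU 3 F q), y ≠ 1 ∧ y * y = 1 ∧ Commute t y ∧ Commute y x
    rw [card_and_eq ⟨⟨ht, ht2⟩, Commute.refl _⟩] at h5
    simp only [and_assoc, not_exists, not_and] at h4 h5 h6 c3
    simp only [and_comm (a := _ ≠ t)] at c1
    rw [h5, h6, S2360.card_inv hq hF, c1, c3] at h4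
    zify [show 1 ≤ q ^ 2 by nlinarith, show q ≤ q ^ 2 by nlinarith, show 1 ≤ q by omega, hq2] at h4 ⊢
    linear_combination -h4
  obtain ⟨w, rfl⟩ := hf.exists_tau h2 h3 e h1 hx
  obtain ⟨y, h4, h5⟩ : ∃ y : (uForm 3 hF).UV, Commute (tau h2 h3 e v) (tau h2 h3 e y) ∧
      (uForm 3 hF).B w.1 y.1 * frobq hF ((uForm 3 hF).B w.1 y.1) ≠ 1 := by
    by_cases h : (uForm 3 hF).B w.1 v.1 * frobq hF ((uForm 3 hF).B w.1 v.1) = 1
    swap
    · exact ⟨v, Commute.refl _, h⟩
    obtain ⟨h6, h7⟩ := UV.B_proj v w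
    rw [h, sub_self] at h7
    let z : (uForm 3 hF).orth (F ∙ v.1) := ⟨_, mem_orth_singleton.2 h6⟩
    suffices h : ∃ y : (uForm 3 hF).orth (F ∙ v.1), (uForm 3 hF).B y y = 1 ∧
        (uForm 3 hF).B z y * frobq hF ((uForm 3 hF).B z y) ≠ 1 by
      obtain ⟨y, h8, h9⟩ := h
      have h10 := mem_orth_singleton.1 y.2
      refine ⟨⟨y, h8⟩, (commute_tau_iff h2 h3 e).2 (Or.inr h10), ?_⟩
      simpa [z, B_eq_zero_symm _ h10] using h9
    by_cases hz : z = 0
    · have := Module.nontrivial_of_finrank_eq_succ hd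
      obtain ⟨y, hy⟩ := hW.unit_exists_B_eq (map_one _) one_ne_zero
      exact ⟨y, hy, by simp [hz]⟩
    obtain ⟨y, hy⟩ := hW.exists_hypPair ((unit_Q _ z).trans h7) hz
    obtain ⟨b, hb⟩ := exists_norm_eq hF (c := -1) (by simp)
    have hb0 : frobq hF b ≠ 0 := fun h => by simp [h] at hb
    have hb1 : b ≠ 0 := fun h => by simp [h] at hb
    have e1 : (uForm 3 hF).B z z = 0 := h7
    have e2 : (uForm 3 hF).B z y = 1 := hy.Bue
    have e3 : (uForm 3 hF).B y z = 1 := hy.Beu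
    have e4 : (uForm 3 hF).B y y = 0 := hy.Bee
    refine ⟨(2 * frobq hF b)⁻¹ • z + b • y, ?_, ?_⟩
    · simp only [Submodule.coe_add, Submodule.coe_smul, B_add_left, B_add_right, B_smul_left,
        unit_B_smul_right, e1, e2, e3, e4, map_inv₀, map_mul, map_ofNat, frobq_frobq]
      field_simp
      ring
    · simp only [Submodule.coe_add, Submodule.coe_smul, B_add_right,
        unit_B_smul_right, e1, e2, mul_zero, mul_one, zero_add, frobq_frobq]
      exact fun h => h2 (by linear_combination hb - h)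
  obtain ⟨u, h6, h7⟩ := hf.exists_perp h3 y w h5
  exact ⟨_, _, hf.tau_ne_one h2 h3 e y, tau_mul_self h2 h3 e y, hf.tau_ne_one h2 h3 e u,
    tau_mul_self h2 h3 e u, h4, (commute_tau_iff h2 h3 e).2 (Or.inr h6),
    ((commute_tau_iff h2 h3 e).2 (Or.inr h7)).symm⟩

end Cfsg.Agent.S2356
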