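import Cfsg.Statements.S2357
import Cfsg.Agent.Lib.Chev.Ree3

set_option autoImplicit false
open Cfsg

namespace Cfsg.Agent.S2357

open Cfsg.Agent.ChevM Cfsg.Agent.Chev

/-- Let R be the small Ree group over the field with q = 3^(2m+1) ≥ 27 elements and write φ for Euler's totient function. Then R has exactly q²(q²−q+1) involutions, (q²−1)(q³+1) elements of order 3, and q²(q−1)(q³+1) elements of order 6 and as many of order 9; for i > 2 dividing q−1 it has φ(i)q³(q³+1)/2 elements of order i; for i > 1 dividing (q+1)/4 it has φ(i)q³(q−1)(q²−q+1)/6 elements of order i and φ(i)q³(q−1)(q²−q+1)/2 elements of order 2i; and for i > 1 dividing q − 3^(m+1) + 1 (respectively q + 3^(m+1) + 1) it has φ(i)q³(q²−1)(q + 3^(m+1) + 1)/6 (respectively φ(i)q³(q²−1)(q − 3^(m+1) + 1)/6) elements of order i. -/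
theorem result {K : Type*} [Field K] [Fintype K] {m : ℕ} (hm : 1 ≤ m)
    (hK : Fintype.card K = 3 ^ (2 * m + 1)) :
    Nat.card {g : ↥(Cfsg.Lie.twistedG2 K (3 ^ m)) // orderOf g = 2} = (3 ^ (2 * m + 1)) ^ 2 * ((3 ^ (2 * m + 1)) ^ 2 - 3 ^ (2 * m + 1) + 1) ∧
    Nat.card {g : ↥(Cfsg.Lie.twistedG2 K (3 ^ m)) // orderOf g = 3} = ((3 ^ (2 * m + 1)) ^ 2 - 1) * ((3 ^ (2 * m + 1)) ^ 3 + 1) ∧
    Nat.card {g : ↥(Cfsg.Lie.twistedG2 K (3 ^ m)) // orderOf g = 6} = (3 ^ (2 * m + 1)) ^ 2 * (3 ^ (2 * m + 1) - 1) * ((3 ^ (2 * m + 1)) ^ 3 + 1) ∧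
    Nat.card {g : ↥(Cfsg.Lie.twistedG2 K (3 ^ m)) // orderOf g = 9} = (3 ^ (2 * m + 1)) ^ 2 * (3 ^ (2 * m + 1) - 1) * ((3 ^ (2 * m + 1)) ^ 3 + 1) ∧
    (∀ i : ℕ, 2 < i → i ∣ 3 ^ (2 * m + 1) - 1 →
      2 * Nat.card {g : ↥(Cfsg.Lie.twistedG2 K (3 ^ m)) // orderOf g = i} = Nat.totient i * (3 ^ (2 * m + 1)) ^ 3 * ((3 ^ (2 * m + 1)) ^ 3 + 1)) ∧
    (∀ i : ℕ, 1 < i → i ∣ (3 ^ (2 * m + 1) + 1) / 4 →
      6 * Nat.card {g : ↥(Cfsg.Lie.twistedG2 K (3 ^ m)) // orderOf g = i} =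
          Nat.totient i * (3 ^ (2 * m + 1)) ^ 3 * (3 ^ (2 * m + 1) - 1) * ((3 ^ (2 * m + 1)) ^ 2 - 3 ^ (2 * m + 1) + 1) ∧
        2 * Nat.card {g : ↥(Cfsg.Lie.twistedG2 K (3 ^ m)) // orderOf g = 2 * i} =
          Nat.totient i * (3 ^ (2 * m + 1)) ^ 3 * (3 ^ (2 * m + 1) - 1) * ((3 ^ (2 * m + 1)) ^ 2 - 3 ^ (2 * m + 1) + 1)) ∧
    (∀ i : ℕ, 1 < i → i ∣ 3 ^ (2 * m + 1) - 3 ^ (m + 1) + 1 →
      6 * Nat.card {g : ↥(Cfsg.Lie.twistedG2 K (3 ^ m)) // orderOf g = i} =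
        Nat.totient i * (3 ^ (2 * m + 1)) ^ 3 * ((3 ^ (2 * m + 1)) ^ 2 - 1) * (3 ^ (2 * m + 1) + 3 ^ (m + 1) + 1)) ∧
    (∀ i : ℕ, 1 < i → i ∣ 3 ^ (2 * m + 1) + 3 ^ (m + 1) + 1 →
      6 * Nat.card {g : ↥(Cfsg.Lie.twistedG2 K (3 ^ m)) // orderOf g = i} =
        Nat.totient i * (3 ^ (2 * m + 1)) ^ 3 * ((3 ^ (2 * m + 1)) ^ 2 - 1) * (3 ^ (2 * m + 1) - 3 ^ (m + 1) + 1)) := by
  obtain ⟨s, h1, h2, ⟨T1⟩, ⟨T2⟩, ⟨T3⟩, ⟨T4⟩⟩ := exists_tori hK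
  obtain ⟨_, φ, hφ, hφ2⟩ := exists_frob_G2 hK
  obtain ⟨R, -⟩ := exists_reeData hK φ hφ hφ2
  have hq : Nat.card K = 3 ^ (2 * m + 1) := by rw [Nat.card_eq_fintype_card, hK]
  have hc := card_twistedG2 hK
  have h3 := R.card_order_two fun x hx => isConj_invol_ree hK (orderOf_eq_prime R.i_sq fun e =>
    ReeData.neg_one_ne (R.h_inj (e.trans (map_one _).symm))) hx
  have h0 : ∀ {i n : ℕ}, 1 < i → i ∣ n → ¬ i.Coprime n := fun h1 h2 h => h1.ne' (h.eq_one_of_dvd h2)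
  refine ⟨?_, hq ▸ R.card_order_three, hq ▸ R.card_order_six, hq ▸ R.card_order_nine, ?_⟩
  · rw [hq] at h3
    generalize 3 ^ (2 * m + 1) = q at h3
    obtain ⟨d, hd⟩ := Nat.exists_eq_add_of_le (Nat.le_self_pow two_ne_zero q)
    refine Nat.eq_of_mul_eq_mul_right (Nat.succ_pos q) (h3.trans ?_)
    rw [show q ^ 2 - q = d by omega]
    change _ = _ * (q + 1)
    linear_combination q ^ 2 * (q + 1) * hd
  rw [show 3 ^ (m + 1) = (2 * s + 1) * 3 by rw [pow_succ, h1], h2, show 12 * s ^ 2 + 12 * s + 3 - 1 = 2 * (6 * s ^ 2 + 6 * s + 1) by omega,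
    show (12 * s ^ 2 + 12 * s + 3 + 1) / 4 = 3 * s ^ 2 + 3 * s + 1 by omega,
    show 12 * s ^ 2 + 12 * s + 3 - (2 * s + 1) * 3 + 1 = 12 * s ^ 2 + 6 * s + 1 by omega,
    show 12 * s ^ 2 + 12 * s + 3 + (2 * s + 1) * 3 + 1 = 12 * s ^ 2 + 18 * s + 7 by omega,
    show (12 * s ^ 2 + 12 * s + 3) ^ 2 - (12 * s ^ 2 + 12 * s + 3) + 1 =
      (12 * s ^ 2 + 6 * s + 1) * (12 * s ^ 2 + 18 * s + 7) by
      rw [show (12 * s ^ 2 + 12 * s + 3) ^ 2 = (12 * s ^ 2 + 12 * s + 3) * (12 * s ^ 2 + 12 * s + 2) +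
        (12 * s ^ 2 + 12 * s + 3) by ring, Nat.add_sub_cancel]; ring,
    show (12 * s ^ 2 + 12 * s + 3) ^ 2 - 1 = 8 * (6 * s ^ 2 + 6 * s + 1) * (3 * s ^ 2 + 3 * s + 1) from
      Nat.sub_eq_of_eq_add (by ring)]
  rw [h2, show 12 * s ^ 2 + 12 * s + 3 - 1 = 2 * (6 * s ^ 2 + 6 * s + 1) by omega] at hc
  refine ⟨fun i h4 h5 => ?_, fun i h4 h5 => ⟨?_, ?_⟩, fun i h4 h5 => ?_, fun i h4 h5 => ?_⟩
  · refine Nat.eq_of_mul_eq_mul_right (show 0 < 2 * (6 * s ^ 2 + 6 * s + 1) by omega) ?_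
    rcases Nat.even_or_odd' i with ⟨j, rfl | rfl⟩
    · have h6 := Nat.dvd_of_mul_dvd_mul_left two_pos h5
      have h7 := T1.card_orderOf (i := 2 * j) fun h => h0 (by omega) h6 (h.coprime_mul_left)
      rw [T1.card_T_even h6, hc] at h7
      rw [Nat.totient_two_mul_of_odd (T1.odd.of_dvd_nat h6)]
      linear_combination -h7
    · have h6 := (Nat.coprime_two_right.2 (odd_two_mul_add_one j)).dvd_of_dvd_mul_left h5
      have h7 := T1.card_orderOf (h0 (by omega) h6)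
      rw [T1.card_T_odd h6, hc] at h7
      linear_combination -h7
  · have h7 := T2.card_orderOf (h0 h4 h5)
    rw [T2.card_T_odd h5, hc] at h7
    refine Nat.eq_of_mul_eq_mul_right (show 0 < 4 * (3 * s ^ 2 + 3 * s + 1) by omega) ?_
    linear_combination -h7
  · have h7 := T2.card_orderOf (i := 2 * i) fun h => h0 h4 h5 (h.coprime_mul_left)
    rw [T2.card_T_even h5, hc] at h7
    refine Nat.eq_of_mul_eq_mul_right (show 0 < 12 * (3 * s ^ 2 + 3 * s + 1) by omega) ?_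
    linear_combination -h7
  · have h7 := T3.card_orderOf (h0 h4 h5)
    rw [T3.card_T_odd h5, hc] at h7
    refine Nat.eq_of_mul_eq_mul_right (show 0 < 12 * s ^ 2 + 6 * s + 1 by omega) ?_
    linear_combination -h7
  · have h7 := T4.card_orderOf (h0 h4 h5)
    rw [T4.card_T_odd h5, hc] at h7
    refine Nat.eq_of_mul_eq_mul_right (show 0 < 12 * s ^ 2 + 18 * s + 7 by omega) ?_
    linear_combination -h7

end Cfsg.Agent.S2357
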