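import Cfsg.Statements.S2359
import Cfsg.Agent.Lib.Chev.Ree2

set_option autoImplicit false
open Cfsg

namespace Cfsg.Agent.S2359

open Cfsg.Agent.ChevM Cfsg.Agent.Chev

/-- Let R be the small Ree group over the field with q = 3^(2m+1) ≥ 27 elements. If H is a cyclic subgroup of R of order (q−1)/2, then the centralizer of H in R is cyclic of order q−1, and every non-trivial subgroup of H has the same centralizer as H. If H is a cyclic subgroup of order (q+1)/4, then the centralizer of H is abelian of order q+1 with no element of order 4 (so it is the direct product of H and a group of order 4 whose non-identity elements all have order 2), and every non-trivial subgroup of H has the same centralizer as H. -/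
theorem result {K : Type*} [Field K] [Fintype K] {m : ℕ} (hm : 1 ≤ m)
    (hK : Fintype.card K = 3 ^ (2 * m + 1)) (H : Subgroup ↥(Cfsg.Lie.twistedG2 K (3 ^ m))) (hH : IsCyclic H) :
    (Nat.card H = (3 ^ (2 * m + 1) - 1) / 2 →
      IsCyclic ↥(Subgroup.centralizer (H : Set ↥(Cfsg.Lie.twistedG2 K (3 ^ m)))) ∧
        Nat.card ↥(Subgroup.centralizer (H : Set ↥(Cfsg.Lie.twistedG2 K (3 ^ m)))) = 3 ^ (2 * m + 1) - 1 ∧
        ∀ A : Subgroup ↥(Cfsg.Lie.twistedG2 K (3 ^ m)), A ≤ H → A ≠ ⊥ →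
          Subgroup.centralizer (A : Set ↥(Cfsg.Lie.twistedG2 K (3 ^ m))) = Subgroup.centralizer (H : Set ↥(Cfsg.Lie.twistedG2 K (3 ^ m)))) ∧
    (Nat.card H = (3 ^ (2 * m + 1) + 1) / 4 →
      IsMulCommutative ↥(Subgroup.centralizer (H : Set ↥(Cfsg.Lie.twistedG2 K (3 ^ m)))) ∧
        Nat.card ↥(Subgroup.centralizer (H : Set ↥(Cfsg.Lie.twistedG2 K (3 ^ m)))) = 3 ^ (2 * m + 1) + 1 ∧
        (∀ x ∈ Subgroup.centralizer (H : Set ↥(Cfsg.Lie.twistedG2 K (3 ^ m))), orderOf x ≠ 4) ∧
        ∀ A : Subgroup ↥(Cfsg.Lie.twistedG2 K (3 ^ m)), A ≤ H → A ≠ ⊥ →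
          Subgroup.centralizer (A : Set ↥(Cfsg.Lie.twistedG2 K (3 ^ m))) = Subgroup.centralizer (H : Set ↥(Cfsg.Lie.twistedG2 K (3 ^ m)))) := by
  obtain ⟨s, h1, h2, ⟨T1⟩, ⟨T2⟩, -⟩ := exists_tori hK
  rw [h2]
  have hs : 0 < s := by
    have := Nat.one_lt_pow (by omega : m ≠ 0) (by decide : 1 < 3)
    omega
  have h0 : ∀ n, 1 < n → Nat.card H = n → H ≠ ⊥ := fun n hn h e => by simp [e] at h; omega
  constructor <;> intro hc
  · obtain ⟨g, hg⟩ := T1.exists_centralizer hH (by rw [hc]; exact Dvd.intro 1 (by omega))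
    have h3 := hg H le_rfl (h0 _ (by omega) hc)
    have e := T1.T.equivMapOfInjective _ (show Function.Injective (MulAut.conj g).toMonoidHom from (MulAut.conj g).injective)
    have := T1.isCyclic
    refine ⟨h3 ▸ isCyclic_of_surjective e e.surjective, ?_, fun A h4 h5 => (hg A h4 h5).trans h3.symm⟩
    rw [h3, ← Nat.card_congr e.toEquiv, T1.card_T]; omega
  · obtain ⟨g, hg⟩ := T2.exists_centralizer hH (by rw [hc]; exact Dvd.intro 1 (by omega))
    have h3 := hg H le_rfl (h0 _ (by omega) hc)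
    have e := T2.T.equivMapOfInjective _ (show Function.Injective (MulAut.conj g).toMonoidHom from (MulAut.conj g).injective)
    refine ⟨?_, ?_, ?_, fun A h4 h5 => (hg A h4 h5).trans h3.symm⟩ <;> rw [h3]
    · refine ⟨⟨?_⟩⟩
      rintro ⟨_, a, ha, rfl⟩ ⟨_, b, hb, rfl⟩
      exact Subtype.ext ((T2.comm a ha b hb).map _).eq
    · rw [← Nat.card_congr e.toEquiv, T2.card_T]; omega
    · rintro _ ⟨a, ha, rfl⟩
      rw [MulEquiv.coe_toMonoidHom, MulEquiv.orderOf_eq]
      exact T2.orderOf_ne_four ha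

end Cfsg.Agent.S2359
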