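import Cfsg.Statements.S2361
import Cfsg.Agent.Lib.Ree.Tori
import Cfsg.Agent.Lib.Ree.Mult

set_option autoImplicit false
open Cfsg

namespace Cfsg.Agent.S2361

open Subgroup Cfsg.Agent.Ree Cfsg.Agent.Chev
open scoped commutatorElement Pointwise

theorem exists_core (X : Type*) [Group X] [Finite X] [Group.IsSolvable X] :
    ∃ Q : Subgroup X, Q.Normal ∧ IsPGroup 2 Q ∧ (centralizer (Q : Set X) ≤ Q ∨
      ∃ (p : ℕ) (y : X), p.Prime ∧ p ≠ 2 ∧ orderOf y = p ∧ ∀ s, Commute (s * y * s⁻¹) y) := by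
  have := Fact.mk Nat.prime_two
  obtain ⟨Q, ⟨hQ, hQ2⟩, hmax⟩ := (wellFounded_gt (α := Subgroup X)).has_min {Q | Q.Normal ∧ IsPGroup 2 Q}
    ⟨⊥, inferInstance, IsPGroup.of_bot⟩
  refine ⟨Q, hQ, hQ2, or_iff_not_imp_left.2 fun hc => ?_⟩
  obtain ⟨E, ⟨hE, hE1, hE2⟩, hmin⟩ := (wellFounded_lt (α := Subgroup X)).has_min
    {E | E.Normal ∧ E ≤ centralizer (Q : Set X) ∧ ¬ E ≤ Q} ⟨_, inferInstance, le_rfl, hc⟩
  have h1 : ⁅E, E⁆ < E := Group.IsSolvable.commutator_lt_of_ne_bot (by rintro rfl; exact hE2 bot_le)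
  have h2 : ⁅E, E⁆ ≤ Q := by
    by_contra h
    exact hmin _ ⟨inferInstance, h1.le.trans hE1, h⟩ h1
  obtain ⟨p, hp, hp2, hd⟩ : ∃ p : ℕ, p.Prime ∧ p ≠ 2 ∧ p ∣ Nat.card E := by
    by_contra! h
    have h3 : IsPGroup 2 E := IsPGroup.of_card (Nat.eq_prime_pow_of_unique_prime_dvd Nat.card_pos.ne'
      fun {d} hd h1 => by_contra fun h2 => h d hd h2 h1)
    exact hmax _ ⟨inferInstance, h3.to_sup_of_normal_right hQ2⟩ (lt_of_le_of_ne le_sup_right fun e =>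
      hE2 (e ▸ le_sup_left))
  have := Fact.mk hp
  obtain ⟨y, hy⟩ := exists_prime_orderOf_dvd_card' p hd
  refine ⟨p, y, hp, hp2, by rw [orderOf_coe, hy], fun s => ?_⟩
  have h4 := h2 (commutator_mem_commutator (hE.conj_mem _ y.2 s) y.2)
  generalize s * y * s⁻¹ = z at h4
  have h5 : Commute ⁅z, (y : X)⁆ y := hE1 y.2 _ h4
  have h6 : z * y * z⁻¹ = ⁅z, (y : X)⁆ * y := by rw [commutatorElement_def, inv_mul_cancel_right]
  have h7 : (y : X) ^ p = 1 := by rw [← hy, ← orderOf_coe, pow_orderOf_eq_one]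
  have h8 : ⁅z, (y : X)⁆ ^ p = 1 := by
    have := congrArg (· ^ p) h6
    simpa only [conj_pow, h5.mul_pow, h7, mul_one, mul_inv_cancel, eq_comm] using this
  obtain ⟨k, hk⟩ := hQ2 ⟨_, h4⟩
  exact commutatorElement_eq_one_iff_commute.1 (orderOf_eq_one_iff.1 (Nat.eq_one_of_dvd_coprimes
    (((Nat.coprime_primes hp Nat.prime_two).2 hp2).pow_right k) (orderOf_dvd_of_pow_eq_one h8)
    (orderOf_dvd_of_pow_eq_one (congrArg Subtype.val hk))))

theorem le_normalizer_map {Γ : Type*} [Group Γ] [Finite Γ] {S A : Subgroup Γ} {g : Γ}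
    (h : ∀ s ∈ S, ∀ a ∈ A, (g⁻¹ * s * g) * a * (g⁻¹ * s * g)⁻¹ ∈ A) :
    S ≤ normalizer (A.map (MulAut.conj g).toMonoidHom : Set Γ) := fun s hs =>
  mem_normalizer_fintype (by
    rintro _ ⟨a, ha, rfl⟩
    exact ⟨_, h s hs a ha, by simp [mul_assoc]⟩)

theorem tor_case {Γ : Type*} [Group Γ] [Finite Γ] {n e c : ℕ} (T : TorD Γ n e c) {S : Subgroup Γ} {y : Γ}
    (hy : ¬ (orderOf y).Coprime n) (h : ∀ s ∈ S, Commute (s * y * s⁻¹) y) :
    ∃ A : Subgroup Γ, S ≤ normalizer (A : Set Γ) ∧ IsCyclic A ∧ Nat.card A = n := by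
  obtain ⟨g, hg⟩ := T.exists_conj hy
  have e := T.C.equivMapOfInjective (MulAut.conj g).toMonoidHom (MulAut.conj g).injective
  have := T.cyc
  refine ⟨_, le_normalizer_map (A := T.C) (g := g) fun s hs a ha => ?_, isCyclic_of_surjective e e.surjective,
    by rw [← Nat.card_congr e.toEquiv, T.card_C]⟩
  have h0 : ∀ x : Γ, (x * y * x⁻¹) ^ 2 ≠ 1 := fun x e => T.sq_ne_one hy (by simpa [conj_pow] using e)
  have h1 : g⁻¹ * (s * y * s⁻¹) * g ∈ T.T := T.cen _ hg (by simpa using h0 g⁻¹) ▸ mem_centralizer_singleton_iff.2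
    (by simpa only [MulAut.conj_inv_apply] using ((h s hs).map (MulAut.conj g)⁻¹).eq)
  refine T.mem_C (T.cen _ h1 (by simpa [mul_assoc] using h0 (g⁻¹ * s)) ▸ mem_centralizer_singleton_iff.2 ?_) ?_
  · simpa [mul_assoc] using ((T.comm _ (T.le ha) _ hg).map (MulAut.conj (g⁻¹ * s * g))).eq
  · rw [← MulAut.conj_apply, MulEquiv.orderOf_eq]
    exact T.odd.of_dvd_nat (T.card_C ▸ orderOf_dvd_natCard _ ha)

variable {K : Type*} [Field K] {m : ℕ} {Γ : Type*} [Group Γ] [Finite Γ]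

theorem three_case (R : RG K m Γ) {S : Subgroup Γ} {y : Γ} (hy : orderOf y = 3)
    (h : ∀ s ∈ S, Commute (s * y * s⁻¹) y) : ∃ P : Sylow 3 Γ, S ≤ normalizer (P : Set Γ) := by
  have := Fact.mk Nat.prime_three
  obtain ⟨x, hx⟩ := R.exists_conj_mem_U (g := y) (n := 1) (by rw [pow_one, ← hy, pow_orderOf_eq_one])
  have h1 : x * y * x⁻¹ ≠ 1 := by rintro e; rw [conj_eq_one_iff.1 e] at hy; simp at hy
  refine ⟨x⁻¹ • R.isPGroup_U.toSylow R.not_dvd_index_U, le_normalizer_map (A := R.U) (g := x⁻¹) fun s hs a ha =>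
    R.conj_mem_U (R.mem_B_of_conj_mem hx h1 (R.mem_B_of_commute hx h1 ?_)) ha⟩
  simpa [mul_assoc] using ((h s hs).map (MulAut.conj x)).eq

omit [Finite Γ] in
theorem commute_of_two (R : RG K m Γ) {P : Subgroup Γ} (hP : IsPGroup 2 P) {a b : Γ} (ha : a ∈ P) (hb : b ∈ P) :
    Commute a b := by
  have h : ∀ x ∈ P, x⁻¹ = x := fun x hx => by
    obtain ⟨k, hk⟩ := hP ⟨x, hx⟩
    exact inv_eq_of_mul_eq_one_right (R.sq_eq_one_of_pow (congrArg Subtype.val hk))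
  have := h _ (mul_mem ha hb)
  rwa [mul_inv_rev, h a ha, h b hb, eq_comm] at this

theorem not_three_dvd (R : RT K m Γ) {V : Subgroup Γ} (hV : Nat.card V = 4) :
    ¬ 3 ∣ Nat.card (centralizer (V : Set Γ)) := fun h => by
  have := Fact.mk Nat.prime_three
  obtain ⟨⟨y, hy⟩, h3⟩ := exists_prime_orderOf_dvd_card' 3 h
  replace h3 : orderOf y = 3 := (orderOf_coe _).trans h3
  obtain ⟨x, hx⟩ := R.exists_conj_mem_U (g := y) (n := 1) (by rw [pow_one, ← h3, pow_orderOf_eq_one])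
  have h1 : x * y * x⁻¹ ≠ 1 := by rintro e; rw [show y = 1 from conj_eq_one_iff.1 e] at h3; simp at h3
  have h2 : V.map (MulAut.conj x).toMonoidHom ≤ R.B := by
    rintro _ ⟨v, hv, rfl⟩
    exact R.mem_B_of_commute hx h1 ((show Commute v y from hy v hv).map (MulAut.conj x)).eq
  have h4 := card_dvd_of_le h2
  rw [card_map_of_injective (MulAut.conj x).injective, hV, R.card_B] at h4
  have h5 := (Nat.Coprime.pow_right 3 (by rw [R.card]; exact Nat.Coprime.pow_right _ (by decide))).dvd_of_dvd_mul_left h4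
  rw [R.q_eq] at h5
  omega

theorem two_case (R : RT K m Γ) {S : Subgroup Γ} {Q : Subgroup S} [Q.Normal] (hQ : IsPGroup 2 Q)
    (hc : centralizer (Q : Set S) ≤ Q) : ∃ P : Sylow 2 Γ, S ≤ normalizer (P : Set Γ) := by
  have := Fact.mk Nat.prime_two
  have := Fact.mk Nat.prime_three
  have h1 : ∀ (x : S) (k : ℕ), x ^ 2 ^ k = 1 → x ∈ Q := fun x k hk => hc fun q hq => by
    have h2 : IsPGroup 2 (zpowers x) := by
      obtain ⟨j, -, hj⟩ := (Nat.dvd_prime_pow Nat.prime_two).1 (orderOf_dvd_of_pow_eq_one hk)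
      exact IsPGroup.of_card (by rw [Nat.card_zpowers, hj])
    exact Subtype.ext (commute_of_two R.toRG ((h2.to_sup_of_normal_right hQ).map S.subtype)
      ⟨_, mem_sup_right hq, rfl⟩ ⟨_, mem_sup_left (mem_zpowers x), rfl⟩).eq
  have h2 : ∀ x : S, x ^ (Nat.card Q).factorial ∈ Q := fun x => hc fun q hq => by
    have := pow_card_eq_one' (x := MulAut.toPerm Q (MulAut.conjNormal x))
    rw [Nat.card_perm, ← map_pow, ← map_pow] at this
    have h3 := congrArg (fun f : Equiv.Perm Q => (f ⟨q, hq⟩ : S)) this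
    exact (mul_inv_eq_iff_eq_mul.1 h3).symm
  have h3 : ∀ x ∈ Q, x ^ 2 = 1 := fun x hx => by
    obtain ⟨k, hk⟩ := hQ ⟨x, hx⟩
    exact Subtype.ext (by rw [sq]; exact R.sq_eq_one_of_pow (congrArg (fun z : Q => ((z : S) : Γ)) hk))
  let V := Q.map S.subtype
  have hV : IsPGroup 2 V := hQ.map _
  have hVc : Nat.card V = Nat.card Q := card_map_of_injective S.subtype_injective
  have hSV : S ≤ normalizer (V : Set Γ) := fun s hs => mem_normalizer_fintype (by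
    rintro _ ⟨a, ha, rfl⟩
    exact ⟨_, Normal.conj_mem inferInstance a ha ⟨s, hs⟩, rfl⟩)
  obtain ⟨P, hP⟩ := hV.exists_le_sylow
  obtain ⟨k, hk⟩ := hQ.exists_card_eq
  have hodd : Odd (Nat.card K ^ 3 * ((6 * R.s ^ 2 + 6 * R.s + 1) * ((3 * R.s ^ 2 + 3 * R.s + 1) *
      ((12 * R.s ^ 2 + 6 * R.s + 1) * (12 * R.s ^ 2 + 18 * R.s + 7))))) :=
    (R.card ▸ (by decide : Odd 3).pow.pow).mul (R.T1.odd.mul (R.T2.odd.mul (R.T3.odd.mul R.T4.odd)))
  have hP8 : Nat.card P ∣ 2 ^ 3 := by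
    obtain ⟨j, hj⟩ := P.isPGroup'.exists_card_eq
    have := card_subgroup_dvd_card (P : Subgroup Γ)
    rw [R.card_Γ, mul_left_comm] at this
    exact (hj ▸ (Nat.coprime_two_left.2 hodd).pow_left j :).dvd_of_dvd_mul_right this
  have hk3 : k ≤ 3 := (Nat.pow_dvd_pow_iff_le_right one_lt_two).1 (hk ▸ hVc ▸ (card_dvd_of_le hP).trans hP8)
  by_cases k1 : k ≤ 1
  · refine ⟨P, fun s hs => le_normalizer (hP ⟨⟨s, hs⟩, h1 _ 2 ?_, rfl⟩)⟩
    have h4 : (Nat.card Q).factorial ∣ 2 := by rw [hk]; interval_cases k <;> decide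
    obtain ⟨j, hj⟩ := h4
    rw [sq, pow_mul]
    exact h3 _ (by rw [hj, pow_mul]; exact pow_mem (h2 _) _)
  by_cases k3 : k = 3
  · refine ⟨P, ?_⟩
    rwa [show V = P from eq_of_le_of_card_ge hP (by rw [hVc, hk, k3]; exact Nat.le_of_dvd (by decide) hP8)] at hSV
  obtain rfl : k = 2 := by omega
  let C := centralizer (V : Set Γ)
  have hSC : S ≤ normalizer (C : Set Γ) := fun s hs => mem_normalizer_fintype fun a ha v hv => by
    simpa [mul_assoc] using ((show Commute _ a from ha _ ((mem_normalizer_iff''.1 (hSV hs) v).1 hv)).map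
      (MulAut.conj s)).eq
  have hPC : (P : Subgroup Γ) ≤ C := fun a ha v hv => (commute_of_two R.toRG P.isPGroup' (hP hv) ha).eq
  let f : S →* MulAut C := C.normalizerMonoidHom.comp (inclusion hSC)
  have hf : IsPGroup 3 f.range := by
    rintro ⟨_, x, rfl⟩
    refine ⟨1, Subtype.ext ?_⟩
    have h4 : x ^ 3 ∈ Q := h1 _ 4 (by
      have := h3 _ (h2 x)
      rw [hk, ← pow_mul] at this
      rw [← pow_mul]; exact this)
    change f x ^ 3 = 1
    rw [← map_pow]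
    ext a
    exact mul_inv_eq_iff_eq_mul.2 (a.2 _ ⟨_, h4, rfl⟩)
  obtain ⟨P0, hP0⟩ := hf.nonempty_fixed_point_of_prime_not_dvd_card (Sylow 2 C) fun h =>
    not_three_dvd R (hVc.trans hk) (h.trans ((P.subtype hPC).card_dvd_index.trans (index_dvd_card _)))
  refine ⟨(P0.isPGroup'.map C.subtype).toSylow ?_, fun s hs => mem_normalizer_fintype ?_⟩
  · rw [index_map_subtype, Nat.prime_two.dvd_mul, not_or]
    exact ⟨P0.not_dvd_index, fun h => P.not_dvd_index (h.trans (index_dvd_of_le hPC))⟩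
  · rintro _ ⟨a, ha, rfl⟩
    have h4 : f ⟨s, hs⟩ • P0 = P0 := hP0 ⟨_, ⟨s, hs⟩, rfl⟩
    refine ⟨f ⟨s, hs⟩ • a, ?_, rfl⟩
    rw [← h4]
    exact smul_mem_pointwise_smul _ _ _ ha


/-- Let R be the small Ree group over the field with q = 3^(2m+1) ≥ 27 elements. Every solvable subgroup of R lies in the normalizer of a Sylow 2-subgroup, of a Sylow 3-subgroup, or of a cyclic subgroup of order (q−1)/2, (q+1)/4, q − 3^(m+1) + 1 or q + 3^(m+1) + 1. -/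
theorem result {K : Type*} [Field K] [Fintype K] {m : ℕ} (hm : 1 ≤ m)
    (hK : Fintype.card K = 3 ^ (2 * m + 1)) (S : Subgroup ↥(Cfsg.Lie.twistedG2 K (3 ^ m)))
    (hS : Group.IsSolvable S) :
    ∃ A : Subgroup ↥(Cfsg.Lie.twistedG2 K (3 ^ m)), S ≤ Subgroup.normalizer (A : Set ↥(Cfsg.Lie.twistedG2 K (3 ^ m))) ∧
      ((∃ P : Sylow 2 ↥(Cfsg.Lie.twistedG2 K (3 ^ m)), A = P) ∨
       (∃ P : Sylow 3 ↥(Cfsg.Lie.twistedG2 K (3 ^ m)), A = P) ∨
       (IsCyclic A ∧ (Nat.card A = (3 ^ (2 * m + 1) - 1) / 2 ∨ Nat.card A = (3 ^ (2 * m + 1) + 1) / 4 ∨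
          Nat.card A = 3 ^ (2 * m + 1) - 3 ^ (m + 1) + 1 ∨ Nat.card A = 3 ^ (2 * m + 1) + 3 ^ (m + 1) + 1))) := by
  obtain ⟨_, ⟨R⟩⟩ := exists_rt hm hK
  obtain ⟨Q, _, hQ, hc | ⟨p, y, hp, hp2, hy, h⟩⟩ := exists_core S
  · obtain ⟨P, hP⟩ := two_case R hQ hc
    exact ⟨P, hP, Or.inl ⟨P, rfl⟩⟩
  rw [← Subgroup.orderOf_coe] at hy
  have h' : ∀ s ∈ S, Commute (s * y * s⁻¹) (y : ↥(Cfsg.Lie.twistedG2 K (3 ^ m))) := fun s hs =>
    (h ⟨s, hs⟩).map S.subtype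
  by_cases hp3 : p = 3
  · obtain ⟨P, hP⟩ := three_case R.toRG (hy.trans hp3) h'
    exact ⟨P, hP, Or.inr (Or.inl ⟨P, rfl⟩)⟩
  have h1 := R.q_eq
  have h2 : 3 ^ (m + 1) = 6 * R.s + 3 := by have := R.hs; rw [pow_succ]; omega
  rw [R.card] at h1
  rw [h1, h2]
  rcases R.prime_cases hp hp2 hp3 (hy ▸ orderOf_dvd_natCard _) with h3 | h3 | h3 | h3
  · obtain ⟨A, h4, h5, h6⟩ := tor_case R.T1 (hy ▸ hp.coprime_iff_not_dvd.not_left.2 h3) h'
    exact ⟨A, h4, Or.inr (Or.inr ⟨h5, Or.inl (by omega)⟩)⟩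
  · obtain ⟨A, h4, h5, h6⟩ := tor_case R.T2 (hy ▸ hp.coprime_iff_not_dvd.not_left.2 h3) h'
    exact ⟨A, h4, Or.inr (Or.inr ⟨h5, Or.inr (Or.inl (by omega))⟩)⟩
  · obtain ⟨A, h4, h5, h6⟩ := tor_case R.T3 (hy ▸ hp.coprime_iff_not_dvd.not_left.2 h3) h'
    exact ⟨A, h4, Or.inr (Or.inr ⟨h5, Or.inr (Or.inr (Or.inl (by omega)))⟩)⟩
  · obtain ⟨A, h4, h5, h6⟩ := tor_case R.T4 (hy ▸ hp.coprime_iff_not_dvd.not_left.2 h3) h'
    exact ⟨A, h4, Or.inr (Or.inr ⟨h5, Or.inr (Or.inr (Or.inr (by omega)))⟩)⟩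

end Cfsg.Agent.S2361
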