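import Cfsg.Statements.S2363
import Cfsg.Agent.Lib.Ord.Twisted
import Cfsg.Agent.Lib.Ord.Classical

set_option autoImplicit false
open Cfsg

namespace Cfsg.Agent.S2363

open Cfsg.Agent.OrdB Cfsg.Agent.Chev Cfsg.Lie

theorem big_or {G : Type*} [Group G] {p : ℕ} (hp : p.Prime) (hG : Cfsg.IsLieTypeChar p G) : Big p (Nat.card G) ∨
    ∃ (F : Type) (_ : Field F) (_ : Fintype F) (_ : CharP F p),
      Nonempty (G ≃* Matrix.ProjectiveSpecialLinearGroup (Fin 2) F) := by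
  rcases hG with ⟨F, _, _, _, n, h1, -, ⟨e⟩⟩ | ⟨F, _, _, _, m, h1, -, ⟨e⟩⟩ | ⟨F, _, _, _, n, q, h1, h2, -, ⟨e⟩⟩ |
    ⟨F, _, _, _, m, h1, h2, ⟨e⟩⟩ | ⟨F, _, _, _, m, h1, ⟨e⟩⟩ | ⟨F, _, _, _, m, a, b, h1, h2, ⟨e⟩⟩ |
    ⟨F, _, _, _, ⟨-, ⟨e⟩⟩ | ⟨⟨e⟩⟩ | ⟨⟨e⟩⟩ | ⟨⟨e⟩⟩ | ⟨⟨e⟩⟩⟩ | ⟨F, _, _, _, q, hq, ⟨h1, ⟨e⟩⟩ | ⟨h1, ⟨e⟩⟩⟩ |
    ⟨rfl, F, _, _, m, h1, h2, ⟨e⟩⟩ | ⟨rfl, F, _, _, m, h1, h2, ⟨e⟩⟩ | ⟨rfl, F, _, _, m, -, h2, ⟨e⟩⟩
  · rcases h1.eq_or_lt with rfl | h1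
    · exact Or.inr ⟨F, _, inferInstance, inferInstance, ⟨e⟩⟩
    · rw [Nat.card_congr e.toEquiv]; exact Or.inl (big_PSL hp h1)
  all_goals rw [Nat.card_congr e.toEquiv]; left
  exacts [big_PSp hp h1, big_PSU hp h1 h2, big_odd hp h1 h2, big_plus hp h1, big_minus hp (by omega) h2,
    big_chev degrees_G2 (by simp) (by decide), big_chev degrees_F4 (by simp) (by decide),
    big_chev degrees_E6 (by simp) (by decide), big_chev degrees_E7 (by simp) (by decide),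
    big_chev degrees_E8 (by simp) (by decide), big_2E6 hp hq h1, big_3D4 hp hq h1, big_suz h1 h2, big_2F4 h1 h2,
    big_2G2 h2]

/-- Let G be a finite simple group of Lie type in characteristic p and let p^k be the exact power of p dividing the order of G. Then the order of G is less than p^(3k); and unless G is isomorphic to PSL(2, F) for the field F with p^k elements, the cube of the order of G is less than p^(8k) (that is, the order is below p^(8k/3)). -/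
theorem result {G : Type*} [Group G] [Finite G] (p : ℕ) (hp : p.Prime) (hG : Cfsg.IsLieTypeChar p G) :
    Nat.card G < p ^ (3 * (Nat.card G).factorization p) ∧
      ((¬ ∃ (F : Type) (_ : Field F) (_ : Fintype F), Fintype.card F = p ^ (Nat.card G).factorization p ∧
          Nonempty (G ≃* Matrix.ProjectiveSpecialLinearGroup (Fin 2) F)) →
        Nat.card G ^ 3 < p ^ (8 * (Nat.card G).factorization p)) := by
  rcases big_or hp hG with h | ⟨F, _, _, _, ⟨e⟩⟩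
  · exact ⟨h.lt hp Nat.card_pos.ne', fun _ => h.cube hp Nat.card_pos.ne'⟩
  · obtain ⟨h1, h2⟩ := card_PSL_two (F := F) hp
    rw [← Nat.card_congr e.toEquiv] at h1 h2
    exact ⟨by rwa [mul_comm, pow_mul, ← h2], fun h => absurd ⟨F, _, inferInstance,
      Nat.card_eq_fintype_card.symm.trans h2, ⟨e⟩⟩ h⟩

end Cfsg.Agent.S2363
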