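import Cfsg.Statements.S2388
import Cfsg.Agent.Lib.GLn.Classes

set_option autoImplicit false
open Cfsg

namespace Cfsg.Agent.S2388

/-- In `SL_n(q)`, `q` a power of the prime `p`, two elements of order prime to `p` with the same characteristic polynomial are conjugate in `SL_n(q)` (not merely in `GL_n`). -/
theorem result {F : Type*} [Field F] [Fintype F] (p : ℕ) [Fact p.Prime] [CharP F p] (n : ℕ)
    (g h : Matrix.SpecialLinearGroup (Fin n) F) (hg : (orderOf g).Coprime p) (hh : (orderOf h).Coprime p)
    (hc : (g : Matrix (Fin n) (Fin n) F).charpoly = (h : Matrix (Fin n) (Fin n) F).charpoly) : IsConj g h := by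
  cases n with
  | zero => rw [Subsingleton.elim g h]
  | succ n =>
    have hg' := (GLn.coprime_orderOf_iff_typ p (Matrix.SpecialLinearGroup.toGL g)).1
      (by rwa [GLn.orderOf_toGL])
    have hh' := (GLn.coprime_orderOf_iff_typ p (Matrix.SpecialLinearGroup.toGL h)).1
      (by rwa [GLn.orderOf_toGL])
    have ht := GLn.typ_eq_of_charpoly_eq hg' hh' hc
    have hne : GLn.typ (g : Matrix (Fin (n + 1)) (Fin (n + 1)) F) ≠ 0 := by
      intro h0
      have := GLn.wt_typ (g : Matrix (Fin (n + 1)) (Fin (n + 1)) F)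
      rw [h0] at this
      simp [GLn.wt] at this
    obtain ⟨x, hx⟩ := Multiset.exists_mem_of_ne_zero hne
    exact GLn.isConj_SL_of_typ_eq ht hx fun c => ⟨c, by rw [hg' x hx, pow_one]⟩

end Cfsg.Agent.S2388
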