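import Cfsg.Statements.S2384
import Cfsg.Agent.S2388
import Cfsg.Agent.Lib.GLn.PolyCount

set_option autoImplicit false
open Cfsg

namespace Cfsg.Agent.S2384

/-- In `SL_n(q)`, `q` a power of the prime `p`, the number of conjugacy classes of elements of order prime to `p` (the semisimple classes) is `q^(n-1)`. -/
theorem result {F : Type*} [Field F] [Fintype F] {q : ℕ} (hq : Fintype.card F = q) (p : ℕ) [Fact p.Prime] [CharP F p] (n : ℕ) (hn : 1 ≤ n) :
    Nat.card {c : ConjClasses (Matrix.SpecialLinearGroup (Fin n) F) //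
      ∃ g : Matrix.SpecialLinearGroup (Fin n) F, ConjClasses.mk g = c ∧ (orderOf g).Coprime p} = q ^ (n - 1) := by
  obtain ⟨k, rfl⟩ : ∃ k, n = k + 1 := ⟨n - 1, by omega⟩
  rw [← hq, ← Nat.card_eq_fintype_card (α := F), Nat.add_sub_cancel,
    ← GLn.card_monic_coeff_zero_eq k ((-1 : F) ^ (k + 1))]
  have hdet : ∀ A : Matrix (Fin (k + 1)) (Fin (k + 1)) F,
      A.det = 1 ↔ A.charpoly.coeff 0 = (-1) ^ (k + 1) := by
    intro A
    rw [Matrix.det_eq_sign_charpoly_coeff, Fintype.card_fin]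
    have h1 : ((-1 : F) ^ (k + 1)) * (-1) ^ (k + 1) = 1 := by rw [← mul_pow]; simp
    constructor
    · intro h
      linear_combination (-1) ^ (k + 1) * h - A.charpoly.coeff 0 * h1
    · intro h
      rw [h, h1]
  refine Nat.card_eq_of_bijective (fun c => ⟨(c.2.choose.1).charpoly, Matrix.charpoly_monic _,
    by simp, (hdet _).1 c.2.choose.2⟩) ⟨?_, ?_⟩
  · intro c c' h
    have h1 : (c.2.choose.1).charpoly = (c'.2.choose.1).charpoly := congrArg Subtype.val h
    apply Subtype.ext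
    rw [← c.2.choose_spec.1, ← c'.2.choose_spec.1, ConjClasses.mk_eq_mk_iff_isConj]
    exact S2388.result p _ _ _ c.2.choose_spec.2 c'.2.choose_spec.2 h1
  · rintro ⟨f, hf, hd, h0⟩
    obtain ⟨A, hA, rfl⟩ := GLn.exists_semisimple_charpoly_eq (n := Fin (k + 1)) hf (by simp [hd])
    let g : Matrix.SpecialLinearGroup (Fin (k + 1)) F := ⟨A, (hdet A).2 h0⟩
    have hg : (orderOf g).Coprime p := by
      rw [← GLn.orderOf_toGL]
      exact (GLn.coprime_orderOf_iff_typ p (Matrix.SpecialLinearGroup.toGL g)).2 hA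
    have hc : ∃ g', ConjClasses.mk g' = ConjClasses.mk g ∧ (orderOf g').Coprime p := ⟨g, rfl, hg⟩
    refine ⟨⟨_, hc⟩, Subtype.ext ?_⟩
    have := GLn.typ_eq_of_isConj_SL (ConjClasses.mk_eq_mk_iff_isConj.1 hc.choose_spec.1)
    change (hc.choose.1).charpoly = A.charpoly
    rw [← GLn.chp_typ, this, GLn.chp_typ]

end Cfsg.Agent.S2384
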