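import Cfsg.Statements.S2385
import Cfsg.Agent.Lib.Forms.ClassCount
import Cfsg.Agent.Lib.GLn.PolyCount

set_option autoImplicit false
open Cfsg

namespace Cfsg.Agent.S2385

open Forms Forms.Form Polynomial

theorem map_tr2 {F : Type*} [Field F] [Fintype F] (T : Multiset (Kc F)) :
    (T.map (· ^ Fintype.card F)).map tr2 = (T.map tr2).map (· ^ Fintype.card F) := by
  rw [Multiset.map_map, Multiset.map_map]
  exact Multiset.map_congr rfl fun α _ => tr2_pow_card α

/-- In the symplectic group `Sp_{2n}(q)`, `q` a power of the prime `p`, the number of conjugacy classes of elements of order prime to `p` is `q^n`. -/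
theorem result {F : Type*} [Field F] [Fintype F] {q : ℕ} (hq : Fintype.card F = q) (p : ℕ) [Fact p.Prime] [CharP F p] (n : ℕ) :
    Nat.card {c : ConjClasses ↥(Matrix.symplecticGroup (Fin n) F) //
      ∃ g : ↥(Matrix.symplecticGroup (Fin n) F), ConjClasses.mk g = c ∧ (orderOf g).Coprime p} = q ^ n := by
  subst hq
  have hf := spForm_nondeg (F := F) n
  have h1 : ∀ g : Matrix.symplecticGroup (Fin n) F, (orderOf g).Coprime p ↔
      pexp p (spEquiv n F g) = 0 := fun g => by
    rw [pexp_eq_zero_iff p (Isom.orderOf_pos _), MulEquiv.orderOf_eq]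
  have h2 : ∀ g : (spForm n F).Isom, ∃ T, 0 ∉ T ∧ Isom.ev g = dbl T := fun g => by
    obtain ⟨r, α, k, e, -, -, -, -, -, h, -⟩ := hf.exists_spec_sp p g
    have : Isom.ev g = dbl (∑ i, e i • orb (· ^ Fintype.card F) (α i) (k i)) := by
      rw [h, dbl_sum]; simp only [dbl_nsmul, orb2]
    exact ⟨_, fun h0 => Isom.ne_zero_of_mem_ev (this ▸ mem_dbl.2 (Or.inl h0)) rfl, this⟩
  have h3 : Function.Injective fun T : Multiset (Kc F) => 2 • T := nsmul_right_injective two_ne_zero
  rw [← Nat.card_eq_fintype_card, ← GLn.card_monic_natDegree_eq n]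
  refine card_classes_eq _ (fun g => (Isom.ev (spEquiv n F g)).map tr2)
    (fun g h e => by rw [Isom.ev_eq_of_isConj ((isConj_equiv_iff (spEquiv n F)).2 e)])
    (fun g h hg hh e => ?_) (fun φ => 2 • φ.1.aroots (Kc F))
    (fun φ ψ e => Subtype.ext (eq_of_aroots_eq φ.2.1 ψ.2.1 (h3 e))) fun y => ⟨?_, ?_⟩
  · refine (isConj_equiv_iff (spEquiv n F)).1 (hf.sp_isConj p ((h1 g).1 hg) ((h1 h).1 hh) ?_)
    obtain ⟨T, h4, h5⟩ := h2 (spEquiv n F g)
    obtain ⟨T', h6, h7⟩ := h2 (spEquiv n F h)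
    simp only [h5, h7, map_tr2_dbl] at e ⊢
    exact dbl_eq_of_map_tr2 h4 h6 (h3 e)
  · rintro ⟨g, -, rfl⟩
    obtain ⟨T, h4, h5⟩ := h2 (spEquiv n F g)
    have h6 := congrArg (Multiset.map tr2) (Isom.ev_map_pow_card (spEquiv n F g))
    have h7 := Isom.card_ev (spEquiv n F g)
    rw [h5, card_dbl, finrank_plus] at h7
    rw [map_tr2, h5, map_tr2_dbl, Multiset.map_nsmul] at h6
    obtain ⟨φ, h8, h9, h10, -⟩ := exists_poly' (h3 h6)
    exact ⟨⟨φ, h8, by simp at h10; omega⟩, by simp only [h9, h5, map_tr2_dbl]⟩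
  · rintro ⟨φ, rfl⟩
    have h4 : ∀ u : Kc F, ∃ α, α ≠ 0 ∧ tr2 α = u := fun u => by
      obtain ⟨α, hα⟩ := IsAlgClosed.exists_root (X ^ 2 - C u * X + 1) (by
        rw [show degree (X ^ 2 - C u * X + 1 : (Kc F)[X]) = 2 by compute_degree!]; simp)
      have h0 : α ≠ 0 := by rintro rfl; simp at hα
      refine ⟨α, h0, ?_⟩
      simp only [IsRoot.def, eval_add, eval_sub, eval_pow, eval_X, eval_mul, eval_C, eval_one] at hα
      rw [tr2]; field_simp; linear_combination hα
    choose s hs0 hs using h4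
    let T := (φ.1.aroots (Kc F)).map s
    have h5 : T.map tr2 = φ.1.aroots (Kc F) := by simp [T, hs]
    have h6 : 0 ∉ T := by simp [T, hs0]
    have h7 : (dbl T).map (· ^ Fintype.card F) = dbl T := by
      have : (dbl T).map (· ^ Fintype.card F) = dbl (T.map (· ^ Fintype.card F)) := by simp [dbl]
      rw [this]
      refine dbl_eq_of_map_tr2 (by simp [T, hs0]) h6 ?_
      rw [map_tr2, h5, aroots_map_pow_card φ.2.1]
    obtain ⟨r, α, k, e, a1, -, -, a2, a3, -⟩ := exists_dbl_decomp h6 h7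
    obtain ⟨g, hg, hg'⟩ := (Realz.sum Finset.univ fun i _ => (realz_orb2_ss p
      (ne_of_mem_of_not_mem (a1 i) h6) ((a2 i _).2 dvd_rfl)).nsmul (e i)).exists_sp hf
      (by rw [← a3, card_dbl, finrank_plus, Multiset.card_map, card_aroots, φ.2.2])
    obtain ⟨g, rfl⟩ := (spEquiv n F).surjective g
    exact ⟨g, (h1 g).2 (hg'.trans (Finset.sup_bot _)), by simp only [hg, ← a3, map_tr2_dbl, h5]⟩

end Cfsg.Agent.S2385
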