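import Cfsg.Statements.S2386
import Cfsg.Agent.Lib.Forms.ClassCount

set_option autoImplicit false
open Cfsg

namespace Cfsg.Agent.S2386

open Forms Forms.Form Polynomial

theorem dual_iff {F : Type*} [Field F] [Fintype F] {q : ℕ} (hF : Fintype.card F = q ^ 2)
    {h : F[X]} (hm : h.Monic) {n : ℕ} (hn : h.natDegree = n) :
    (∀ i ≤ n, h.coeff (n - i) = (-1) ^ n * frobq hF (h.coeff i)) ↔ 0 ∉ h.aroots (Kc F) ∧
      (h.aroots (Kc F)).map (· ^ q) = (h.aroots (Kc F)).map (·⁻¹) ∧ (h.aroots (Kc F)).prod = 1 := by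
  have h1 := map_eq_prod_aroots (hm.map (frobq hF))
  rw [aroots_map_frobq] at h1
  have hc : (h.aroots (Kc F)).card = n := by rw [card_aroots, hn]
  have hs : ((-1 : Kc F) ^ n) ≠ 0 := by simp
  have h2 : (∀ i ≤ n, h.coeff (n - i) = (-1) ^ n * frobq hF (h.coeff i)) ↔
      reflect n (h.map (algebraMap F (Kc F))) =
        C ((-1) ^ n) * (h.map (frobq hF)).map (algebraMap F (Kc F)) := by
    simp only [Polynomial.ext_iff, coeff_reflect, coeff_map, coeff_C_mul]
    refine ⟨fun H i => ?_, fun H i hi => (algebraMap F (Kc F)).injective ?_⟩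
    · rcases le_or_gt i n with hi | hi
      · rw [revAt_le hi, H i hi]; simp
      · rw [revAt_eq_self_of_lt hi, coeff_eq_zero_of_natDegree_lt (hn ▸ hi)]; simp
    · simpa [revAt_le hi] using H i
  constructor
  · intro H
    have h3 := H n le_rfl
    rw [Nat.sub_self, ← hn, hm.coeff_natDegree, map_one, mul_one, hn] at h3
    have h4 : (h.aroots (Kc F)).prod = 1 := by
      have := congrArg (coeff · 0) (map_eq_prod_aroots hm)
      simp only [coeff_map, h3, coeff_zero_multiset_prod, Multiset.map_map] at this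
      refine mul_left_cancel₀ hs ?_
      rw [mul_one, ← hc, ← Multiset.prod_map_neg, hc]
      simpa using this.symm
    have h5 : 0 ∉ h.aroots (Kc F) := fun h0 => by
      simp [Multiset.prod_eq_zero h0] at h4
    refine ⟨h5, ?_, h4⟩
    rw [h2, h1, map_eq_prod_aroots hm, ← hc, reflect_prod _ h5, h4, mul_one, hc] at H
    have := congrArg roots (mul_left_cancel₀ (C_ne_zero.2 hs) H)
    rwa [roots_multiset_prod_X_sub_C, roots_multiset_prod_X_sub_C, eq_comm] at this
  · rintro ⟨h3, h4, h5⟩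
    rw [h2, h1, map_eq_prod_aroots hm, ← hc, reflect_prod _ h3, h5, mul_one, h4]

theorem card_dual {F : Type*} [Field F] [Fintype F] {q : ℕ} (hF : Fintype.card F = q ^ 2) (n : ℕ) :
    Nat.card {a : Fin (n + 2) → F // (∀ i, a i.rev = (-1) ^ (n + 1) * frobq hF (a i)) ∧
      a (Fin.last _) = 1} = q ^ n := by
  let τ : (Fin (n + 2) → F) →+ (Fin (n + 2) → F) :=
    { toFun := fun a i => (-1) ^ (n + 1) * frobq hF (a i.rev)
      map_zero' := by ext; simp
      map_add' := fun a b => by ext; simp [mul_add] }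
  have hs : ((-1 : F) ^ (n + 1)) * (-1) ^ (n + 1) = 1 := by rw [← mul_pow]; simp
  obtain ⟨ω, hω⟩ := frobq_ne hF
  have h1 := card_fixed_sq (frobq hF) hω (frobq_frobq hF) τ (fun a w => by ext; simp [τ]; ring)
    fun w => by ext; simp [τ, ← mul_assoc, hs, frobq_frobq]
  rw [Nat.card_fun, Nat.card_eq_fintype_card (α := F), hF, Nat.card_eq_fintype_card (α := Fin _),
    Fintype.card_fin, ← pow_mul, mul_comm, pow_mul] at h1
  replace h1 := Nat.pow_left_injective two_ne_zero h1
  let u : F → Fin (n + 2) → F := fun c =>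
    Pi.single (Fin.last _) c + Pi.single 0 ((-1) ^ (n + 1) * frobq hF c)
  have hu : ∀ c, τ (u c) = u c := fun c => funext fun i => by
    by_cases h0 : i = 0
    · simp [τ, u, h0]
    by_cases h2 : i = Fin.last _
    · simp [τ, u, h2, ← mul_assoc, hs, frobq_frobq]
    have h3 : i.rev ≠ 0 := by rwa [Ne, Fin.rev_eq_iff, Fin.rev_zero]
    have h4 : i.rev ≠ Fin.last _ := by rwa [Ne, Fin.rev_eq_iff, Fin.rev_last]
    simp [τ, u, h0, h2, h3, h4]
  have hu' : ∀ c, u c (Fin.last _) = c := fun c => by simp [u]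
  have hτ : ∀ a, τ a = a ↔ ∀ i, a i.rev = (-1) ^ (n + 1) * frobq hF (a i) := fun a => by
    rw [funext_iff, Fin.rev_surjective.forall]
    simp [τ, eq_comm]
  simp only [← hτ]
  have e : {a // τ a = a} ≃ {a // τ a = a ∧ a (Fin.last _) = 1} × F :=
    { toFun := fun a => (⟨a.1 - u (a.1 (Fin.last _) - 1), by rw [map_sub, a.2, hu], by simp [hu']⟩,
        a.1 (Fin.last _))
      invFun := fun x => ⟨x.1.1 + u (x.2 - 1), by rw [map_add, x.1.2.1, hu]⟩
      left_inv := fun a => by simp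
      right_inv := fun x => by simp [hu', x.1.2.2] }
  rw [Nat.card_congr e, Nat.card_prod, Nat.card_eq_fintype_card (α := F), hF, pow_add] at h1
  have := two_le_q hF
  exact Nat.eq_of_mul_eq_mul_right (by positivity) h1

/-- In the special unitary group `SU_n(q)` (matrices of determinant one over the field with `q²` elements preserving the standard Hermitian form), `q` a power of the prime `p`, the number of conjugacy classes of elements of order prime to `p` is `q^(n-1)`. -/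
theorem result {F : Type*} [Field F] [Fintype F] {q : ℕ} (hF : Fintype.card F = q ^ 2) (p : ℕ) [Fact p.Prime] [CharP F p] (n : ℕ) (hn : 1 ≤ n) :
    Nat.card {c : ConjClasses ↥(Cfsg.SU n F q) // ∃ g : ↥(Cfsg.SU n F q), ConjClasses.mk g = c ∧ (orderOf g).Coprime p} = q ^ (n - 1) := by
  classical
  obtain ⟨n, rfl⟩ : ∃ k, n = k + 1 := ⟨n - 1, by omega⟩
  have hf := uForm_nondeg (n + 1) hF
  have h1 : ∀ g : SU (n + 1) F q, (orderOf g).Coprime p ↔ pexp p (suEquiv (n + 1) hF g).1 = 0 :=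
    fun g => by
      rw [pexp_eq_zero_iff p (Isom.orderOf_pos _), Subgroup.orderOf_coe, MulEquiv.orderOf_eq]
  have h2 : ∀ a : Fin (n + 2) → F, a (Fin.last _) = 1 →
      (ofFn (n + 2) a).Monic ∧ (ofFn (n + 2) a).natDegree = n + 1 := fun a ha => by
    have h3 : (ofFn (n + 2) a).natDegree ≤ n + 1 :=
      Nat.le_of_lt_succ (ofFn_natDegree_lt (by omega) a)
    have h4 : (ofFn (n + 2) a).coeff (n + 1) = 1 := by
      rw [ofFn_coeff_eq_val_of_lt a (by omega)]; exact ha
    exact ⟨monic_of_natDegree_le_of_coeff_eq_one _ h3 h4,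
      natDegree_eq_of_le_of_coeff_ne_zero h3 (h4 ▸ one_ne_zero)⟩
  rw [Nat.add_sub_cancel, ← card_dual hF n]
  refine card_classes_eq _ (fun g => Isom.ev (suEquiv (n + 1) hF g).1)
    (fun g h e => Isom.ev_eq_of_isConj
      ((Subgroup.subtype _).map_isConj ((isConj_equiv_iff (suEquiv (n + 1) hF)).2 e)))
    (fun g h hg hh e => (isConj_equiv_iff (suEquiv (n + 1) hF)).1
      (hf.su_isConj p ((h1 g).1 hg) ((h1 h).1 hh) e))
    (fun a => (ofFn (n + 2) a.1).aroots (Kc F)) (fun a b e => Subtype.ext (injective_ofFn _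
      (eq_of_aroots_eq (h2 _ a.2.2).1 (h2 _ b.2.2).1 e))) fun y => ⟨?_, ?_⟩
  · rintro ⟨g, -, rfl⟩
    set g' := (suEquiv (n + 1) hF g).1
    let h := (g'.1 : (Fin (n + 1) → F) →ₗ[F] (Fin (n + 1) → F)).charpoly
    have hm : h.Monic := LinearMap.charpoly_monic _
    have hd : h.natDegree = n + 1 := by simp [h, LinearMap.charpoly_natDegree]
    have h3 := (dual_iff hF hm hd).2 ⟨fun h0 => Isom.ne_zero_of_mem_ev (g := g') h0 rfl,
      hf.unit_ev_dual hF g', Isom.mem_SIsom_iff.1 (suEquiv (n + 1) hF g).2⟩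
    refine ⟨⟨toFn (n + 2) h, fun i => ?_, ?_⟩, ?_⟩
    · have := h3 i (Nat.le_of_lt_succ i.2)
      simpa [toFn] using this
    · simpa [toFn, hd] using hm.coeff_natDegree
    · simp only [ofFn_comp_toFn_eq_id_of_natDegree_lt (hd ▸ Nat.lt_succ_self _ : h.natDegree < n + 2)]
      rfl
  · rintro ⟨a, rfl⟩
    obtain ⟨hm, hd⟩ := h2 _ a.2.2
    obtain ⟨h3, h4, h5⟩ := (dual_iff hF hm hd).1 fun i hi => by
      rw [ofFn_coeff_eq_val_of_lt _ (by omega), ofFn_coeff_eq_val_of_lt _ (by omega),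
        ← a.2.1 ⟨i, by omega⟩]
      exact congrArg a.1 (Fin.ext (by simp))
    obtain ⟨g, hg, hg'⟩ := (realz_unit_ss hF (p := p) h3 h4).exists_unit hf
      (by simp [card_aroots, hd])
    obtain ⟨g', h6⟩ := (suEquiv (n + 1) hF).surjective ⟨g, Isom.mem_SIsom_iff.2 (hg ▸ h5)⟩
    exact ⟨g', (h1 g').2 (by rw [h6]; exact hg'), by simp only [h6, hg]⟩

end Cfsg.Agent.S2386
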