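import Cfsg.Statements.S2387
import Cfsg.Agent.Lib.GLn.Classes
import Cfsg.Agent.Lib.GLn.PolyCount

set_option autoImplicit false
open scoped MatrixGroups
open Cfsg

namespace Cfsg.Agent.S2387

/-- In `GL_n(q)` with `n ≥ 1`, `q` a power of the prime `p`, the number of conjugacy classes of elements of order prime to `p` (diagonalisable over the algebraic closure; determined by the characteristic polynomial) is `(q - 1) q^(n-1)`. -/
theorem result {F : Type*} [Field F] [Fintype F] {q : ℕ} (hq : Fintype.card F = q) (p : ℕ) [Fact p.Prime] [CharP F p] (n : ℕ) (hn : 1 ≤ n) :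
    Nat.card {c : ConjClasses (GL (Fin n) F) // ∃ g : GL (Fin n) F, ConjClasses.mk g = c ∧ (orderOf g).Coprime p} = (q - 1) * q ^ (n - 1) := by
  obtain ⟨k, rfl⟩ : ∃ k, n = k + 1 := ⟨n - 1, by omega⟩
  rw [GLn.card_classes_eq _ (fun D => ∀ x ∈ D, x.2 = 1) (GLn.coprime_orderOf_iff_typ p),
    ← hq, ← Nat.card_eq_fintype_card (α := F), Nat.add_sub_cancel,
    ← GLn.card_monic_coeff_zero_ne]
  refine Nat.card_eq_of_bijective (fun D => ⟨GLn.chp D.1, D.2.1.monic_chp,
    by rw [D.2.1.natDegree_chp, D.2.2.1, Fintype.card_fin],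
    (GLn.chp_coeff_zero_ne_zero_iff D.2.1).2 D.2.2.2.1⟩) ⟨?_, ?_⟩
  · intro D D' h
    have h1 : GLn.chp D.1 = GLn.chp D'.1 := congrArg Subtype.val h
    apply Subtype.ext
    rw [GLn.eq_map_normalizedFactors D.2.1 D.2.2.2.2,
      GLn.eq_map_normalizedFactors D'.2.1 D'.2.2.2.2, h1]
  · rintro ⟨f, hf, hd, h0⟩
    obtain ⟨D, hD, h1, rfl⟩ := GLn.exists_valid_one_chp_eq hf
    exact ⟨⟨D, hD, by rw [← hD.natDegree_chp, hd, Fintype.card_fin],
      (GLn.chp_coeff_zero_ne_zero_iff hD).1 h0, h1⟩, rfl⟩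

end Cfsg.Agent.S2387
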