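import Cfsg.Statements.S2413
import Cfsg.Agent.Lib.Cls.Conc
import Cfsg.Agent.Lib.Forms.Spinor

set_option autoImplicit false
open Cfsg

namespace Cfsg.Agent.S2413

/-- The simple orthogonal group `PΩ_{2m+1}(q)` (commutator subgroup of the orthogonal group of `x₀² + Σ x_i y_i` modulo its centre) with `m ≥ 2` and `q` odd is generated by two of its elements. -/
theorem result {F : Type*} [Field F] [Fintype F] (hodd : Odd (Fintype.card F)) (m : ℕ) (hm : 2 ≤ m) :
    ∃ a b : Cfsg.POmega F (Cfsg.quadFormOdd m F), Subgroup.closure ({a, b} : Set (Cfsg.POmega F (Cfsg.quadFormOdd m F))) = ⊤ := by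
  have h2 := Forms.two_ne_zero_of_odd hodd
  have hf := Forms.oddForm_nondeg m h2
  obtain ⟨m, rfl⟩ : ∃ k, m = k + 1 := ⟨m - 1, by omega⟩
  obtain ⟨fr, hV⟩ := Cls.odd_frame (m + 1) h2
  obtain ⟨p, h1, h3⟩ := Cls.PM.exists_cyc m
  obtain ⟨v, v1, v2, v3⟩ := fr.exists_gen_V0 hf hV
  have e := h1 1 (by omega) 0 (by omega) (by omega)
  have : 1 < Fintype.card F := Fintype.one_lt_card
  exact (fr.twoG_B h1 h3 (by omega) (by rw [Nat.card_eq_fintype_card]; obtain ⟨k, hk⟩ := hodd; omega)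
    (Cls.orth_hZ _) v1 v2 v3).center _ (Cls.omegaHom_injective _) ((Cls.omegaHom_range _).trans
    (fr.orth_EG hf (by simp; omega) e.1 e.2).symm)

end Cfsg.Agent.S2413
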