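import Cfsg.Statements.S2414
import Cfsg.Agent.Lib.Cls.Conc
import Cfsg.Agent.Lib.Forms.Spinor

set_option autoImplicit false
open Cfsg

namespace Cfsg.Agent.S2414

/-- The simple orthogonal group `PΩ⁺_{2m}(q)` (commutator subgroup of the orthogonal group of `Σ x_i y_i` modulo its centre) with `m ≥ 4` is generated by two of its elements. -/
theorem result {F : Type*} [Field F] [Fintype F] (m : ℕ) (hm : 4 ≤ m) :
    ∃ a b : Cfsg.POmega F (Cfsg.quadFormPlus m F), Subgroup.closure ({a, b} : Set (Cfsg.POmega F (Cfsg.quadFormPlus m F))) = ⊤ := by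
  obtain ⟨m, rfl⟩ : ∃ k, m = k + 1 + 1 := ⟨m - 2, by omega⟩
  obtain ⟨fr, hV⟩ := Cls.plus_frame (F := F) (m + 1 + 1)
  obtain ⟨p, h1, h3⟩ := Cls.PM.exists_cyc (m + 1)
  have e := h1 1 (by omega) 0 (by omega) (by omega)
  exact (fr.twoG_plus h1 h3 (by omega) hV).center _ (Cls.omegaHom_injective _)
    ((Cls.omegaHom_range _).trans (fr.orth_EG (Forms.plusForm_nondeg _) (by simp; omega) e.1 e.2).symm)

end Cfsg.Agent.S2414
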