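import Cfsg.Statements.S2415
import Cfsg.Agent.Lib.Cls.Conc
import Cfsg.Agent.Lib.Forms.Spinor

set_option autoImplicit false
open Cfsg

namespace Cfsg.Agent.S2415

/-- The simple orthogonal group `PΩ⁻_{2m}(q)` with `m ≥ 4` (commutator subgroup, modulo its centre, of the orthogonal group of `Σ_{i<m−1} x_i y_i + z₁² + a z₁z₂ + b z₂²` with the binary part anisotropic) is generated by two of its elements. -/
theorem result {F : Type*} [Field F] [Fintype F] (m : ℕ) (hm : 4 ≤ m) (a b : F)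
    (hab : ∀ z₁ z₂ : F, z₁ ^ 2 + a * z₁ * z₂ + b * z₂ ^ 2 = 0 → z₁ = 0 ∧ z₂ = 0) :
    ∃ g h : Cfsg.POmega F (Cfsg.quadFormMinus (m - 1) F a b),
      Subgroup.closure ({g, h} : Set (Cfsg.POmega F (Cfsg.quadFormMinus (m - 1) F a b))) = ⊤ := by
  obtain ⟨m, rfl⟩ : ∃ k, m = k + 1 + 1 := ⟨m - 2, by omega⟩
  have hf := Forms.minusForm_nondeg (m + 1) (Forms.disc_ne_zero_of_anisotropic hab)
  obtain ⟨fr⟩ := Cls.minus_frame (m + 1) hab
  obtain ⟨p, h1, h3⟩ := Cls.PM.exists_cyc m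
  have e := h1 1 (by omega) 0 (by omega) (by omega)
  have h4 := fr.finrank_V0 hf
  exact (fr.twoG_minus hf h1 h3 (by omega) (by simp [Cls.PM.card] at h4; omega)).center _
    (Cls.omegaHom_injective _) ((Cls.omegaHom_range _).trans
    (fr.orth_EG hf (by simp; omega) e.1 e.2).symm)

end Cfsg.Agent.S2415
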