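import Cfsg.Statements.S2426
import Cfsg.Agent.Lib.SL2.Bruhat

set_option autoImplicit false
open Cfsg

namespace Cfsg.Agent.S2426

set_option backward.isDefEq.respectTransparency false
open Cfsg.Agent.SL2 Matrix
open scoped MatrixGroups

/-- images of the generators -/
def gen {K : Type*} [Field K] (p : Bool × K) : SL(2, K) := if p.1 then up p.2 else lo p.2

/-- The rank-one Steinberg presentation of `SL₂` over a finite field `K`: generators `x(t)`, `y(t)` (`t ∈ K`; the two opposite root subgroups) subject to additivity `x(t)x(u) = x(t+u)`, `y(t)y(u) = y(t+u)` and, with `w(t) = x(t) y(−t⁻¹) x(t)` and `w'(t) = y(t) x(−t⁻¹) y(t)` for `t ≠ 0`, the relations `w(t) x(u) w(t)⁻¹ = y(−t⁻² u)` and `w'(t) y(u) w'(t)⁻¹ = x(−t⁻² u)`, present `SL₂(K)`, with `x(t) ↦ (1 t; 0 1)` and `y(t) ↦ (1 0; t 1)`. -/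
theorem result {K : Type*} [Field K] [Finite K] :
    ∃ e : PresentedGroup
        ({g : FreeGroup (Bool × K) | ∃ (b : Bool) (t u : K), g = FreeGroup.of (b, t) * FreeGroup.of (b, u) * (FreeGroup.of (b, t + u))⁻¹} ∪
          {g | ∃ (b : Bool) (t u : K), t ≠ 0 ∧
            g = (FreeGroup.of (b, t) * FreeGroup.of (!b, -t⁻¹) * FreeGroup.of (b, t)) * FreeGroup.of (b, u) *
                  (FreeGroup.of (b, t) * FreeGroup.of (!b, -t⁻¹) * FreeGroup.of (b, t))⁻¹ * (FreeGroup.of (!b, -(t⁻¹ ^ 2 * u)))⁻¹})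
        ≃* Matrix.SpecialLinearGroup (Fin 2) K,
      (∀ t : K, ((e (PresentedGroup.of (true, t)) : Matrix (Fin 2) (Fin 2) K)) = !![1, t; 0, 1]) ∧
      (∀ t : K, ((e (PresentedGroup.of (false, t)) : Matrix (Fin 2) (Fin 2) K)) = !![1, 0; t, 1]) := by
  set R : Set (FreeGroup (Bool × K)) := ({g : FreeGroup (Bool × K) | ∃ (b : Bool) (t u : K), g = FreeGroup.of (b, t) * FreeGroup.of (b, u) * (FreeGroup.of (b, t + u))⁻¹} ∪
          {g | ∃ (b : Bool) (t u : K), t ≠ 0 ∧
            g = (FreeGroup.of (b, t) * FreeGroup.of (!b, -t⁻¹) * FreeGroup.of (b, t)) * FreeGroup.of (b, u) *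
                  (FreeGroup.of (b, t) * FreeGroup.of (!b, -t⁻¹) * FreeGroup.of (b, t))⁻¹ * (FreeGroup.of (!b, -(t⁻¹ ^ 2 * u)))⁻¹}) with hR
  have hrel : ∀ r ∈ R, FreeGroup.lift (gen (K := K)) r = 1 := by
    rintro r (⟨b, t, u, rfl⟩ | ⟨b, t, u, ht, rfl⟩)
    · simp only [map_mul, map_inv, FreeGroup.lift_apply_of]
      rw [mul_inv_eq_one]
      cases b
      · apply SL_ext
        apply mat_ext <;> simp [gen, add_comm]
      · apply SL_ext
        apply mat_ext <;> simp [gen, add_comm]
    · simp only [map_mul, map_inv, FreeGroup.lift_apply_of]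
      rw [mul_inv_eq_one, mul_inv_eq_iff_eq_mul]
      cases b
      · apply SL_ext
        apply mat_ext <;> simp [gen, ht] <;> field_simp
      · apply SL_ext
        apply mat_ext <;> simp [gen, ht] <;> field_simp
  let φ : PresentedGroup R →* SL(2, K) := PresentedGroup.toGroup hrel
  have hφ : ∀ p, φ (PresentedGroup.of p) = gen p := fun p => PresentedGroup.toGroup.of hrel
  have hadd : ∀ (b : Bool) (t u : K), (PresentedGroup.of (b, t + u) : PresentedGroup R) =
      PresentedGroup.of (b, t) * PresentedGroup.of (b, u) := fun b t u => by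
    have := PresentedGroup.one_of_mem (rels := R) (Or.inl ⟨b, t, u, rfl⟩)
    simp only [map_mul, map_inv] at this
    exact (mul_inv_eq_one.1 this).symm
  have hw : ∀ t u : K, t ≠ 0 →
      stW (fun t => (PresentedGroup.of (true, t) : PresentedGroup R))
        (fun t => PresentedGroup.of (false, t)) t * PresentedGroup.of (true, u) *
      (stW (fun t => (PresentedGroup.of (true, t) : PresentedGroup R))
        (fun t => PresentedGroup.of (false, t)) t)⁻¹ =
      PresentedGroup.of (false, -(t⁻¹ ^ 2 * u)) := fun t u ht => by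
    have := PresentedGroup.one_of_mem (rels := R) (Or.inr ⟨true, t, u, ht, rfl⟩)
    simp only [map_mul, map_inv] at this
    exact mul_inv_eq_one.1 this
  have hinj : Function.Injective φ := by
    refine steinberg_injective (hadd true) (hadd false) hw ?_ φ (fun a => hφ _) (fun a => hφ _)
    rw [eq_top_iff, ← PresentedGroup.closure_range_of R]
    apply Subgroup.closure_mono
    rintro _ ⟨⟨b, t⟩, rfl⟩
    cases b
    · exact Or.inr ⟨t, rfl⟩
    · exact Or.inl ⟨t, rfl⟩
  have hsurj : Function.Surjective φ := by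
    rw [← MonoidHom.range_eq_top]
    exact eq_top_of_up_lo (fun a => ⟨_, hφ (true, a)⟩) (fun a => ⟨_, hφ (false, a)⟩)
  refine ⟨MulEquiv.ofBijective φ ⟨hinj, hsurj⟩, fun t => ?_, fun t => ?_⟩
  · exact congrArg Subtype.val (hφ (true, t))
  · exact congrArg Subtype.val (hφ (false, t))

end Cfsg.Agent.S2426
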