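import Cfsg.Statements.S2444
import Cfsg.Agent.Lib.SLn.HessComm2
import Cfsg.Agent.Lib.SL2.Basic

set_option autoImplicit false
open Cfsg

namespace Cfsg.Agent.S2444

open Matrix Cfsg.Agent.SLn

variable {F : Type*} [Field F]

theorem isComm_block {m : Type*} [Fintype m] [DecidableEq m] (k : ℕ) (ζ : F)
    (a T : Matrix m m F) (h : a * T = ζ ^ (k + 1) • (T * a))
    (ha : ∏ i : Fin (k + 1), (ζ ^ i.val) ^ Fintype.card m * a.det = 1)
    (hT : ((-1) ^ k) ^ Fintype.card m * T.det = 1) :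
    IsComm (ζ • (1 : Matrix (m × Fin (k + 1)) (m × Fin (k + 1)) F)) := by
  let σ : Equiv.Perm (m × Fin (k + 1)) := Equiv.prodCongrRight fun _ => finRotate (k + 1)
  let T' : Fin (k + 1) → Matrix m m F := fun i => if i = 0 then T else 1
  let A : SpecialLinearGroup (m × Fin (k + 1)) F :=
    ⟨blockDiagonal fun i : Fin (k + 1) => ζ ^ i.val • a, by
      rw [det_blockDiagonal, ← ha]
      exact Finset.prod_congr rfl fun i _ => det_smul _ _⟩
  let B : SpecialLinearGroup (m × Fin (k + 1)) F :=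
    ⟨(blockDiagonal T').submatrix id σ, by
      rw [det_permute', det_blockDiagonal, Equiv.Perm.sign_prodCongrRight, ← hT,
        Fin.prod_univ_succ]
      simp [T', sign_finRotate]⟩
  have key : A.1 * B.1 = ζ • (B.1 * A.1) := by
    have e1 : A.1 = (blockDiagonal fun i : Fin (k + 1) =>
        ζ ^ ((finRotate (k + 1)).symm i).val • a).submatrix σ σ := by
      ext ⟨x, i⟩ ⟨y, j⟩
      simp [A, σ, blockDiagonal_apply]
    have e2 : A.1 * B.1 = (A.1 * blockDiagonal T').submatrix id σ := by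
      rw [← submatrix_mul_equiv _ _ id (Equiv.refl _) σ]; rfl
    rw [e2]
    nth_rewrite 2 [e1]
    rw [submatrix_mul_equiv, ← blockDiagonal_mul, ← blockDiagonal_mul]
    change _ = (ζ • blockDiagonal fun i : Fin (k + 1) =>
      T' i * ζ ^ ((finRotate (k + 1)).symm i).val • a).submatrix id σ
    rw [← blockDiagonal_smul]
    congr 2
    funext i
    obtain ⟨j, rfl⟩ := (finRotate (k + 1)).surjective i
    rw [Pi.smul_apply, Equiv.symm_apply_apply]
    by_cases hj : j = Fin.last k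
    · subst hj
      simp [T', h, smul_smul, pow_succ']
    · have h1 := coe_finRotate_of_ne_last hj
      have h2 : finRotate (k + 1) j ≠ 0 := by
        intro e; rw [e] at h1; simp at h1
      simp only [T', if_neg h2, h1, mul_one, one_mul, smul_smul, pow_succ']
  refine ⟨A, B, ?_⟩
  rw [Matrix.SpecialLinearGroup.coe_mul, Matrix.SpecialLinearGroup.coe_mul,
    Matrix.SpecialLinearGroup.coe_mul, key, smul_mul_assoc, smul_mul_assoc, mul_assoc B.1,
    coe_mul_inv, mul_one, coe_mul_inv]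

theorem isComm_scalar [Finite F] {n : ℕ} (hn : 1 ≤ n) {ζ : F} (hζ : ζ ^ n = 1) :
    IsComm (ζ • (1 : Matrix (Fin n) (Fin n) F)) := by
  have key : ∀ {ι : Type} [Fintype ι] [DecidableEq ι], Fintype.card ι = n →
      IsComm (ζ • (1 : Matrix ι ι F)) → IsComm (ζ • (1 : Matrix (Fin n) (Fin n) F)) := by
    intro ι _ _ hc h
    have := h.submatrix (Fintype.equivFinOfCardEq hc).symm
    rwa [submatrix_smul, Pi.smul_apply, Pi.smul_apply, submatrix_one_equiv] at this
  have hsum : ∀ k : ℕ, (∑ i : Fin (k + 1), i.val) * 2 = (k + 1) * k := fun k => by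
    rw [Fin.sum_univ_eq_sum_range (fun i => i), Finset.sum_range_id_mul_two]; simp
  rcases Nat.even_or_odd' n with ⟨k, rfl | rfl⟩
  · obtain ⟨k, rfl⟩ : ∃ j, k = j + 1 := ⟨k - 1, by omega⟩
    have h0 : ζ ≠ 0 := by rintro rfl; simp at hζ
    have h1 : ζ ^ (k + 1) * ζ ^ (k + 1) = 1 := by rw [← hζ, ← pow_add, two_mul]
    have h2 : ∀ d : F, ∏ i : Fin (k + 1), (ζ ^ i.val) ^ Fintype.card (Fin 2) * d =
        (ζ ^ (k + 1)) ^ k * d ^ (k + 1) := fun d => by
      rw [Finset.prod_mul_distrib, Finset.prod_pow, Finset.prod_pow_eq_pow_sum, ← pow_mul,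
        Fintype.card_fin, hsum, pow_mul]
      simp
    refine key (ι := Fin 2 × Fin (k + 1)) (by simp) ?_
    rcases mul_self_eq_one_iff.1 h1 with h | h
    · refine isComm_block k ζ 1 1 (by simp [h]) (by rw [h2, h]; simp) ?_
      rw [Fintype.card_fin, ← pow_mul, mul_comm k 2, pow_mul]; simp
    · obtain ⟨x, z, hxz⟩ := SL2.exists_sq_add_sq (F := F) one_ne_zero (pow_ne_zero k h0) (-1)
      refine isComm_block k ζ !![0, -ζ ^ k; 1, 0] !![x, ζ ^ k * z; z, -x] ?_ ?_ ?_
      · rw [h]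
        ext i j
        fin_cases i <;> fin_cases j <;> simp [mul_comm]
      · rw [h2, det_fin_two_of, h]
        simp only [mul_zero, zero_sub, mul_one, neg_neg]
        rw [← pow_mul, mul_comm k, pow_mul, h, ← mul_pow]; simp
      · rw [det_fin_two_of, Fintype.card_fin, ← pow_mul, mul_comm k 2, pow_mul]
        simp only [even_two, Even.neg_pow, one_pow, one_mul]
        linear_combination -hxz
  · refine key (ι := Unit × Fin (2 * k + 1)) (by simp) ?_
    refine isComm_block (2 * k) ζ 1 1 (by simp [hζ]) ?_ (by simp)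
    have := hsum (2 * k)
    simp only [Fintype.card_unique, pow_one, det_one, mul_one, Finset.prod_pow_eq_pow_sum]
    rw [show ∑ i : Fin (2 * k + 1), i.val = (2 * k + 1) * k by nlinarith, pow_mul, hζ, one_pow]

theorem isComm_two (h4 : Four F) {A : Matrix (Fin 2) (Fin 2) F} (hdet : A.det = 1)
    (hA : ∀ c : F, A ≠ c • 1) : IsComm A := by
  obtain ⟨a, a0, a1, a2⟩ := h4 0 1 (-1)
  have a3 : a - a⁻¹ ≠ 0 := fun e => by
    have : a * a = 1 := by nth_rewrite 2 [sub_eq_zero.1 e]; exact mul_inv_cancel₀ a0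
    rcases mul_self_eq_one_iff.1 this with h | h
    exacts [a1 h, a2 h]
  obtain ⟨g, L, U, h⟩ := sourour A ![a, a⁻¹] ![a⁻¹, a] (by simp [Fin.forall_fin_two, a0])
    (by simp [Fin.forall_fin_two, a0]) (by simp [hdet, a0]) (fun _ => hA)
  let d : SpecialLinearGroup (Fin 2) F := ⟨!![a, 0; 0, a⁻¹], by simp [a0]⟩
  let P : SpecialLinearGroup (Fin 2) F := ⟨!![1, 0; L 1 0 / (a - a⁻¹), 1], by simp⟩
  let Q : SpecialLinearGroup (Fin 2) F := ⟨!![1, U 0 1 / (a - a⁻¹); 0, 1], by simp⟩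
  have hP : L * P.1 = P.1 * d.1 := by
    ext i j
    fin_cases i <;> fin_cases j <;>
      simp [P, d, mul_apply, Fin.sum_univ_two, h.dL, h.lower 0 1 (by decide)]
    generalize a⁻¹ = b at a3
    field_simp
    ring
  have hQ : U * Q.1 = Q.1 * (d⁻¹).1 := by
    rw [Matrix.SpecialLinearGroup.coe_inv, adjugate_fin_two]
    ext i j
    fin_cases i <;> fin_cases j <;>
      simp [Q, d, mul_apply, Fin.sum_univ_two, h.dU, h.upper 1 0 (by decide)]
    generalize a⁻¹ = b at a3
    field_simp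
    ring
  refine ⟨g * P * d * P⁻¹ * g⁻¹, g * Q * P⁻¹ * g⁻¹, ?_⟩
  have : g * P * d * P⁻¹ * g⁻¹ * (g * Q * P⁻¹ * g⁻¹) * (g * P * d * P⁻¹ * g⁻¹)⁻¹ *
      (g * Q * P⁻¹ * g⁻¹)⁻¹ = g * (P * d * P⁻¹ * (Q * d⁻¹ * Q⁻¹)) * g⁻¹ := by group
  rw [this]
  simp only [Matrix.SpecialLinearGroup.coe_mul]
  rw [h.eq, ← hP, ← hQ, mul_assoc L, mul_assoc U, coe_mul_inv, coe_mul_inv, mul_one, mul_one]

/-- In the special linear group SL(n,F) over a finite field F, with n ≥ 2 and (n, |F|) not (2,2) or (2,3), every element is a commutator a·b·a⁻¹·b⁻¹ of two elements of SL(n,F). -/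
theorem result {F : Type*} [Field F] [Fintype F] (n : ℕ) (hn : 2 ≤ n) (hex : n = 2 → 4 ≤ Fintype.card F) :
    ∀ g : Matrix.SpecialLinearGroup (Fin n) F, ∃ a b : Matrix.SpecialLinearGroup (Fin n) F, g = a * b * a⁻¹ * b⁻¹ := by
  intro g
  suffices h : IsComm g.1 by
    obtain ⟨a, b, h⟩ := h
    exact ⟨a, b, Subtype.ext h⟩
  by_cases h : ∀ c : F, g.1 ≠ c • 1
  · rcases hn.eq_or_lt with rfl | hn
    · exact isComm_two (four_of_card (hex rfl)) g.2 h
    · exact isComm_of_not_scalar hn g.2 h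
  · push Not at h
    obtain ⟨c, hc⟩ := h
    have := g.2
    rw [hc, det_smul, det_one, mul_one, Fintype.card_fin] at this
    rw [hc]
    exact isComm_scalar (by omega) this

end Cfsg.Agent.S2444
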