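import Cfsg.Statements.S2448
import Cfsg.Agent.Lib.Ore.Plus
import Cfsg.Agent.Lib.Forms.OrthTwo

set_option autoImplicit false
open Cfsg

namespace Cfsg.Agent.S2448

/-- Let F be a finite field and n ≥ 4, and let Ω⁺(2n,F) be the commutator subgroup of the orthogonal group of the quadratic form Σ xᵢyᵢ (n hyperbolic planes). Then every element of Ω⁺(2n,F) is a commutator a·b·a⁻¹·b⁻¹ of two elements of Ω⁺(2n,F). -/
theorem result {F : Type*} [Field F] [Fintype F] (n : ℕ) (hn : 4 ≤ n) : ∀ g : Cfsg.Omega F (Cfsg.quadFormPlus n F), ∃ a b : Cfsg.Omega F (Cfsg.quadFormPlus n F), g = a * b * a⁻¹ * b⁻¹ := by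
  intro g
  have hf := Forms.plusForm_nondeg (F := F) n
  have hg := (Forms.mem_commutator_equiv (Forms.plusEquiv n F) g).2 g.2
  have hd := Forms.finrank_plus (F := F) n
  have : Ore.OC (Forms.plusEquiv n F g) := by
    by_cases h2 : (2 : F) = 0
    · exact Ore.oc_char_two hf h2 (by omega) (hd ▸ even_two_mul n) hg
    rcases Nat.even_or_odd n with h | h
    · refine Ore.oc_plus hf h2 hg (by omega) (by have := Nat.even_iff.1 h; omega) ?_
      obtain ⟨k, rfl⟩ := h
      rw [Forms.disc_plus _ h2, pow_add, ← mul_pow, Forms.chi_mul_self (by simp), one_pow]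
    · exact Ore.oc_odd hf h2 hg (by omega) (.inr (by have := Nat.odd_iff.1 h; omega))
  exact Ore.OC.exists g (by simpa using this.map (Forms.plusEquiv n F).symm.toMonoidHom)

end Cfsg.Agent.S2448
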