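import Cfsg.Statements.S2449
import Cfsg.Agent.Lib.Ore.Two2
import Cfsg.Agent.Lib.Forms.OrthTwo

set_option autoImplicit false
open Cfsg

namespace Cfsg.Agent.S2449

/-- Let F be a finite field and n ≥ 4, and let Ω⁻(2n,F) be the commutator subgroup of the orthogonal group of the quadratic form given by n − 1 hyperbolic planes plus an anisotropic binary form z₁² + a z₁z₂ + b z₂². Then every element of Ω⁻(2n,F) is a commutator a·b·a⁻¹·b⁻¹ of two elements of Ω⁻(2n,F). -/
theorem result {F : Type*} [Field F] [Fintype F] (n : ℕ) (hn : 4 ≤ n) (a b : F)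
    (hab : ∀ z₁ z₂ : F, z₁ ^ 2 + a * z₁ * z₂ + b * z₂ ^ 2 = 0 → z₁ = 0 ∧ z₂ = 0) :
    ∀ g : Cfsg.Omega F (Cfsg.quadFormMinus (n - 1) F a b), ∃ x y : Cfsg.Omega F (Cfsg.quadFormMinus (n - 1) F a b), g = x * y * x⁻¹ * y⁻¹ := by
  intro g
  have hf := Forms.minusForm_nondeg (n - 1) (Forms.disc_ne_zero_of_anisotropic hab)
  have hg := (Forms.mem_commutator_equiv (Forms.minusEquiv (n - 1) F a b) g).2 g.2
  have hd := Forms.finrank_minus (F := F) (n - 1)
  have : Ore.OC (Forms.minusEquiv (n - 1) F a b g) := by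
    by_cases h2 : (2 : F) = 0
    · exact Ore.oc_char_two hf h2 (by omega) (hd ▸ Nat.even_iff.2 (by omega)) hg
    rcases Nat.even_or_odd n with h | h
    · refine Ore.oc_minus hf h2 hg (by omega) (by have := Nat.even_iff.1 h; omega) ?_
      obtain ⟨k, rfl⟩ := h
      rw [Forms.disc_minus _ h2 hab, Nat.sub_add_cancel (by omega), pow_add, ← mul_pow,
        Forms.chi_mul_self (by simp), one_pow]
    · exact Ore.oc_odd hf h2 hg (by omega) (.inr (by have := Nat.odd_iff.1 h; omega))
  exact Ore.OC.exists g (by simpa using this.map (Forms.minusEquiv (n - 1) F a b).symm.toMonoidHom)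

end Cfsg.Agent.S2449
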