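import Cfsg.Statements.S2450
import Cfsg.Agent.Lib.SL2.PSL

set_option autoImplicit false
open Cfsg

namespace Cfsg.Agent.S2450

set_option backward.isDefEq.respectTransparency false
open SL2 Matrix
open scoped MatrixGroups

theorem exists_conj_ne {F : Type*} [Field F] {g : SL(2, F)} (hg : ¬ IsScal g.1) :
    ∃ u : SL(2, F), (u * g * u⁻¹).1 1 0 ≠ 0 := by
  by_contra h
  push Not at h
  have h1 := h 1
  have h2 := h wt
  have h3 := h (lo 1)
  simp only [SL_coe_mul, SL_coe_inv, mul_apply2] at h1 h2 h3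
  simp at h1 h2 h3
  exact hg ⟨h2, h1, by linear_combination h3 - h1 + h2⟩

theorem card_le_of_quad {F : Type*} [Field F] [Finite F] {A B C : F} (hA : A ≠ 0) (s : F) :
    Nat.card {x : F // A * x ^ 2 + B * x + C = s} ≤ 2 := by
  classical
  have hp : (Polynomial.C A * Polynomial.X ^ 2 + Polynomial.C B * Polynomial.X +
      Polynomial.C (C - s)).natDegree = 2 := Polynomial.natDegree_quadratic hA
  have hp0 : (Polynomial.C A * Polynomial.X ^ 2 + Polynomial.C B * Polynomial.X +
      Polynomial.C (C - s)) ≠ 0 := by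
    intro h; rw [h] at hp; simp at hp
  refine le_trans ?_ hp.le
  refine le_trans ?_ (Polynomial.card_roots' _)
  refine le_trans (le_of_eq ?_) (Multiset.toFinset_card_le _)
  rw [← Nat.card_eq_finsetCard]
  refine Nat.card_congr (Equiv.subtypeEquivRight fun x => ?_)
  rw [Multiset.mem_toFinset, Polynomial.mem_roots hp0]
  simp [add_sub, sub_eq_zero]

/-- The Arad–Herzog conjecture for PSL(2,q): let F be a finite field with q ≥ 4 elements. For any two non-identity elements a, b of PSL(2,F), the set of products of a conjugate of a with a conjugate of b is not a single conjugacy class. -/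
theorem result {F : Type*} [Field F] [Fintype F] (h4 : 4 ≤ Fintype.card F)
    (a b : Matrix.ProjectiveSpecialLinearGroup (Fin 2) F) (ha : a ≠ 1) (hb : b ≠ 1) (c : Matrix.ProjectiveSpecialLinearGroup (Fin 2) F) :
    {g : Matrix.ProjectiveSpecialLinearGroup (Fin 2) F | ∃ u v : Matrix.ProjectiveSpecialLinearGroup (Fin 2) F, g = (u * a * u⁻¹) * (v * b * v⁻¹)} ≠ {g | IsConj c g} := by
  rw [← Nat.card_eq_fintype_card] at h4
  intro h
  obtain ⟨a, rfl⟩ := pr_surjective a
  obtain ⟨b, rfl⟩ := pr_surjective b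
  obtain ⟨c, rfl⟩ := pr_surjective c
  obtain ⟨u, hu⟩ := exists_conj_ne (fun h => ha (pr_eq_one_iff.2 h))
  obtain ⟨v, hv⟩ := exists_conj_ne (fun h => hb (pr_eq_one_iff.2 h))
  set a' := u * a * u⁻¹ with ha'
  set b' := v * b * v⁻¹ with hb'
  have key : ∀ x : F, ∃ s, (s = c.1.trace ∨ s = -c.1.trace) ∧
      (-(a'.1 1 0 * b'.1 1 0)) * x ^ 2 +
      ((a'.1 0 0 - a'.1 1 1) * b'.1 1 0 + a'.1 1 0 * (b'.1 1 1 - b'.1 0 0)) * x +
      (a' * b').1.trace = s := by
    intro x
    have h1 : pr (a' * (up x * b' * (up x)⁻¹)) ∈ {g | IsConj (pr c) g} := by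
      rw [← h]
      exact ⟨pr u, pr (up x * v), by simp [ha', hb', mul_assoc]⟩
    refine ⟨(a' * (up x * b' * (up x)⁻¹)).1.trace, ?_, ?_⟩
    · rcases PSL_isConj_iff.1 h1 with h2 | h2
      · exact Or.inl (SL_trace_of_isConj h2).symm
      · right
        rw [SL_trace_of_isConj h2, SL_coe_neg, trace_neg, neg_neg]
    · simp only [up_inv, SL_coe_mul, trace_fin_two, mul_apply2]
      simp
      ring
  have hA : -(a'.1 1 0 * b'.1 1 0) ≠ 0 := neg_ne_zero.2 (mul_ne_zero hu hv)
  generalize -(a'.1 1 0 * b'.1 1 0) = A at key hA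
  generalize ((a'.1 0 0 - a'.1 1 1) * b'.1 1 0 + a'.1 1 0 * (b'.1 1 1 - b'.1 0 0)) = B at key
  generalize (a' * b').1.trace = C at key
  generalize c.1.trace = s at key
  by_cases h2 : (2 : F) = 0
  · have := card_le_of_quad (B := B) (C := C) hA s
    rw [Nat.card_congr (Equiv.subtypeUnivEquiv fun x => by
      obtain ⟨_, rfl | rfl, h⟩ := key x
      · exact h
      · linear_combination h - s * h2)] at this
    omega
  · have h5 := Nat.odd_iff.1 (odd_card_iff.2 h2)
    have h6 : Nat.card F ≤ Nat.card ({x : F // A * x ^ 2 + B * x + C = s} ⊕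
        {x : F // A * x ^ 2 + B * x + C = -s}) := by
      refine Nat.card_le_card_of_surjective (Sum.elim Subtype.val Subtype.val) fun x => ?_
      obtain ⟨_, rfl | rfl, h⟩ := key x
      · exact ⟨Sum.inl ⟨x, h⟩, rfl⟩
      · exact ⟨Sum.inr ⟨x, h⟩, rfl⟩
    rw [Nat.card_sum] at h6
    have := card_le_of_quad (B := B) (C := C) hA s
    have := card_le_of_quad (B := B) (C := C) hA (-s)
    omega

end Cfsg.Agent.S2450
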