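import Cfsg.Statements.S2455
import Cfsg.Agent.Lib.SL2.ClassProd

set_option autoImplicit false
open Cfsg

namespace Cfsg.Agent.S2455

/-- A strong covering result in the direction of Thompson's conjecture (non-identity elements) for PSL(2,q), q odd: let F be a finite field of odd characteristic p with at least 5 elements and let x ∈ PSL(2,F) have order greater than 2 and not divisible by p (so x is not unipotent). Then every non-identity element of PSL(2,F) is a product of two conjugates of x. -/
theorem result {F : Type*} [Field F] [Fintype F] (p : ℕ) [Fact p.Prime] [CharP F p] (hp : p ≠ 2) (h5 : 5 ≤ Fintype.card F)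
    (x : Matrix.ProjectiveSpecialLinearGroup (Fin 2) F) (hx2 : 2 < orderOf x) (hxp : ¬ p ∣ orderOf x) : ∀ g : Matrix.ProjectiveSpecialLinearGroup (Fin 2) F, g ≠ 1 → ∃ u v : Matrix.ProjectiveSpecialLinearGroup (Fin 2) F, g = (u * x * u⁻¹) * (v * x * v⁻¹) := by
  obtain ⟨x, rfl⟩ := SL2.pr_surjective x
  have h2 := SL2.two_ne_zero_of_char (F := F) p hp
  have hx : ¬ SL2.IsScal x.1 := fun h => by simp [SL2.pr_eq_one_iff.2 h] at hx2
  have hd : x.1.trace ^ 2 ≠ 4 := fun h => hxp (by rw [SL2.orderOf_pr_eq_char p hx h])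
  have ht : x.1.trace ≠ 0 := fun h => by
    have := SL2.orderOf_pr_eq_two_iff.2 ⟨hx, h⟩
    omega
  intro g hg
  exact SL2.exists_mul_conj hd (Or.inl ⟨h2, ht⟩) g hg

end Cfsg.Agent.S2455
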