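import Cfsg.Statements.S2456
import Cfsg.Agent.Lib.SL2.ClassProd

set_option autoImplicit false
open Cfsg

namespace Cfsg.Agent.S2456

/-- A strong covering result in the direction of Thompson's conjecture (non-identity elements) for PSL(2,q), q even: let F be a finite field of characteristic 2 with q ≥ 4 elements and let x ∈ PSL(2,F) have order greater than 2 and not dividing q + 1. Then every non-identity element of PSL(2,F) is a product of two conjugates of x. -/
theorem result {F : Type*} [Field F] [Fintype F] [CharP F 2] (h4 : 4 ≤ Fintype.card F)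
    (x : Matrix.ProjectiveSpecialLinearGroup (Fin 2) F) (hx2 : 2 < orderOf x) (hxq : ¬ orderOf x ∣ Fintype.card F + 1) : ∀ g : Matrix.ProjectiveSpecialLinearGroup (Fin 2) F, g ≠ 1 → ∃ u v : Matrix.ProjectiveSpecialLinearGroup (Fin 2) F, g = (u * x * u⁻¹) * (v * x * v⁻¹) := by
  obtain ⟨x, rfl⟩ := SL2.pr_surjective x
  have h2 : (2 : F) = 0 := by exact_mod_cast CharP.cast_eq_zero F 2
  have hx : ¬ SL2.IsScal x.1 := fun h => by simp [SL2.pr_eq_one_iff.2 h] at hx2
  rcases SL2.SL_trace_cases x.1.trace with h | ⟨a, ha, h⟩ | h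
  · exfalso
    apply hxq
    rw [← Nat.card_eq_fintype_card]
    apply orderOf_dvd_of_pow_eq_one
    rw [← map_pow, SL2.SL_pow_of_noRoot h, map_one]
  · intro g hg
    exact SL2.exists_mul_conj (by rw [h]; exact SL2.trace_sq_ne_of_sq_ne ha)
      (Or.inr ⟨a, ha, h⟩) g hg
  · have := SL2.orderOf_pr_eq_char 2 hx h
    omega

end Cfsg.Agent.S2456
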