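import Cfsg.Statements.S2457
import Cfsg.Agent.Lib.Suz.Torus
import Cfsg.Agent.Lib.Suz.Wp
import Cfsg.Agent.Lib.Suz.Iso

set_option autoImplicit false
open Cfsg

namespace Cfsg.Agent.S2457

open Cfsg.Agent.Suz

theorem of_conj {A : Type*} [Group A] {x g x1 x2 : A} (h1 : IsConj x x1) (h2 : IsConj x x2)
    (h3 : IsConj (x1 * x2) g) : ∃ u v : A, g = (u * x * u⁻¹) * (v * x * v⁻¹) := by
  obtain ⟨a, rfl⟩ := isConj_iff.mp h1
  obtain ⟨b, rfl⟩ := isConj_iff.mp h2
  obtain ⟨c, rfl⟩ := isConj_iff.mp h3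
  exact ⟨c * a, c * b, by group⟩

theorem isConj_mul_comm {A : Type*} [Group A] (a b : A) : IsConj (a * b) (b * a) :=
  isConj_iff.mpr ⟨b, by group⟩

theorem main {F : Type*} [Field F] {m : ℕ} [SuzF F m] (x : G F m) (hx2 : x * x ≠ 1) (g : G F m)
    (hg : g ≠ 1) : ∃ u v : G F m, g = (u * x * u⁻¹) * (v * x * v⁻¹) := by
  have hunip : ∀ k : G F m, tr k = 0 → k * k ≠ 1 →
      ∃ a b : F, a ≠ 0 ∧ IsConj (u a b) k := by
    intro k hk hk2
    obtain ⟨y, a, b, hy⟩ := exists_conj_mem_U_of_tr hk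
    have he : k = y * u a b * y⁻¹ := by rw [← hy]; group
    refine ⟨a, b, ?_, isConj_iff.mpr ⟨y, he.symm⟩⟩
    rintro rfl
    apply hk2
    rw [he, conj_mul, sq_of_mem_Z (u_mem_Z b)]; simp
  by_cases hx : tr x = 0
  · obtain ⟨a, b, ha, hxa⟩ := hunip x hx hx2
    obtain ⟨s, rfl⟩ := exists_eq_u_nm ha b
    have hcl : ∀ a' s' : F, a' ≠ 0 → s + s' ∈ RR F → IsConj x (u a' (a' * θ a' * s')) :=
      fun a' s' ha' hs => hxa.symm.trans (isConj_u_u ha ha' hs)
    by_cases ht : tr g = 0
    · by_cases hg2 : g * g = 1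
      · refine of_conj (IsConj.refl x) (IsConj.refl x) (isConj_invol ?_ hx2 hg2 hg)
        have := pow_four_of_tr_eq_zero hx
        rw [← this]; simp only [pow_succ, pow_zero, one_mul, mul_assoc]
      · obtain ⟨a', b', ha', hga⟩ := hunip g ht hg2
        obtain ⟨s', rfl⟩ := exists_eq_u_nm ha' b'
        obtain ⟨t, ht0, ht1⟩ := exists_ne_zero_one (F := F)
        have ht1' : t + 1 ≠ 0 := fun he => ht1 (CharTwo.add_eq_zero.mp he)
        obtain ⟨r, hr, hr'⟩ := exists_mul_not_mem_RR (ν := t * θ t)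
          (mul_ne_zero ht0 (θ_ne_zero ht0)) (fun he => ht1 (nm_eq_one.mp he))
        have hss : s + s ∈ RR F := by rw [add_self']; exact zero_mem _
        have key : ∀ r' ∈ RR F, t * θ t * (s + r') + (t + 1) * θ (t + 1) * s + θ t * (t + 1) + s'
            ∈ RR F → ∃ u v : G F m, g = (u * x * u⁻¹) * (v * x * v⁻¹) := by
          intro r' hr' hm
          refine of_conj (hcl t (s + r') ht0 (by rw [← add_assoc]; exact add_mem hss hr'))
            (hcl (t + 1) s ht1' hss) (IsConj.trans ?_ hga)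
          have := isConj_u_u (m := m) one_ne_zero ha' hm
          rw [u_mul_u]
          convert this using 2
          · rw [← add_assoc, add_self', zero_add]
          · simp
        by_cases hm : t * θ t * (s + 0) + (t + 1) * θ (t + 1) * s + θ t * (t + 1) + s' ∈ RR F
        · exact key 0 (zero_mem _) hm
        · refine key r hr ?_
          have := add_mem_RR_iff.mpr (iff_of_false hm hr')
          convert this using 1; ring
    · obtain ⟨σ, hσ⟩ := exists_quad_not_mem_RR (tr g)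
      have h0 : σ ≠ 0 := by rintro rfl; simp at hσ
      obtain ⟨S, hS⟩ := exists_sq_eq (tr g * (σ ^ 2 * θ σ) + σ ^ 2)
      rw [← hS, sq_mem_RR_iff, ← add_one_mem_RR_iff] at hσ
      obtain ⟨t, ht1, ht2⟩ := exists_wp_eq hσ s
      rw [add_comm] at ht2
      have h1 := θ_ne_zero h0
      refine of_conj (x1 := w * u σ⁻¹ (σ⁻¹ * θ σ⁻¹ * t) * w)
        ((hcl _ t (inv_ne_zero h0) ht2).trans (isConj_iff.mpr ⟨w, by simp⟩))
        (hcl 1 t one_ne_zero ht2) (IsConj.symm (isConj_of_tr_eq ht ?_))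
      rw [tr_w_u_w_u]
      simp only [ff, θ_mul, θ_inv, θ_θ, θ_one]
      field_simp
      grind
  · have hcl : ∀ k : G F m, tr k = tr x → IsConj x k := fun k hk => isConj_of_tr_eq hx hk.symm
    by_cases ht : tr g = 0
    · obtain ⟨a, b, ha, hab⟩ := exists_ff_eq (tr x)
      have h1 : IsConj x (w * u a b) :=
        (hcl (u a b * w) (by rw [tr_u_w, hab])).trans (isConj_mul_comm _ _)
      have h1' : IsConj x (w * u a (b + a * θ a)) :=
        (hcl (u a (b + a * θ a) * w) (by
          rw [tr_u_w, ← hab]; simp only [ff, θ_add, θ_mul, θ_θ]; grind)).trans (isConj_mul_comm _ _)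
      have hz : IsConj x (u 0 (φ (tr x)) * w) := (isConj_z_w hx).symm
      have hww : ∀ p q : G F m, p * w * (w * q) = p * q := fun p q => by
        rw [mul_assoc, ← mul_assoc w w, w_mul_w, one_mul]
      by_cases hg2 : g * g = 1
      · refine of_conj (hcl (u a b * w) (by rw [tr_u_w, hab])) h1 ?_
        rw [hww, ← sq, u_sq]
        exact isConj_invol (sq_of_mem_Z (u_mem_Z _)) (by simp [u_eq_one, ha]) hg2 hg
      · obtain ⟨a', b', ha', hga⟩ := hunip g ht hg2
        rcases isConj_u_or (m := m) ha ha' (φ (tr x) + b) b' with h2 | h2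
        · refine of_conj hz h1 (IsConj.trans ?_ hga)
          rw [hww, u_mul_u]; simpa using h2
        · refine of_conj hz h1' (IsConj.trans ?_ hga)
          rw [hww, u_mul_u]
          rw [u_inv] at h2
          simpa [add_assoc] using h2
    · obtain ⟨c, hc⟩ := exists_sq_eq (tr g)
      refine of_conj (x1 := u 0 (φ c) * w * u 0 (φ c + φ (tr x)))
        (x2 := u 0 (φ c + φ (tr x)) * (u 0 (φ c) * w)) (hcl _ ?_) (hcl _ ?_)
        (IsConj.symm (isConj_of_tr_eq ht ?_))
      · rw [tr_mul_comm, ← mul_assoc, u_mul_u]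
        simp only [add_zero, mul_zero, tr_z_w, θ_add, θ_φ]; grind
      · rw [← mul_assoc, u_mul_u]
        simp only [add_zero, mul_zero, tr_z_w, θ_add, θ_φ]; grind
      · rw [mul_assoc, ← mul_assoc (u 0 (φ c + φ (tr x))), sq_of_mem_Z (u_mem_Z _), one_mul, tr_sq,
          tr_z_w, θ_φ, hc]


/-- A strong covering result in the direction of Thompson's conjecture (non-identity elements) for the Suzuki groups: let q = 2^(2m+1) ≥ 8, F the field with q elements and Sz(q) the Suzuki group over F. For every element x of Sz(q) of order greater than 2, every non-identity element of Sz(q) is a product of two conjugates of x. -/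
theorem result {F : Type*} [Field F] [Fintype F] (m : ℕ) (hm : 1 ≤ m) (hF : Fintype.card F = 2 ^ (2 * m + 1))
    (x : Cfsg.Lie.Sz F (2 ^ (m + 1))) (hx2 : 2 < orderOf x) : ∀ g : Cfsg.Lie.Sz F (2 ^ (m + 1)), g ≠ 1 → ∃ u v : Cfsg.Lie.Sz F (2 ^ (m + 1)), g = (u * x * u⁻¹) * (v * x * v⁻¹) := by
  have := SuzF.of_card hm hF
  intro g hg
  obtain ⟨x, rfl⟩ := (lieEquiv F).surjective x
  obtain ⟨g, rfl⟩ := (lieEquiv F).surjective g
  have h1 : x * x ≠ 1 := by
    intro he
    rw [MulEquiv.orderOf_eq] at hx2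
    have := orderOf_le_of_pow_eq_one (n := 2) (by norm_num) (by rw [sq, he] : x ^ 2 = 1)
    omega
  obtain ⟨a, b, hab⟩ := main x h1 g (by simpa using hg)
  exact ⟨lieEquiv F a, lieEquiv F b, by rw [hab]; simp⟩

end Cfsg.Agent.S2457
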