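import Cfsg.Statements.S2460
import Cfsg.Agent.Lib.EG.Sp4

set_option autoImplicit false
open Cfsg

namespace Cfsg.Agent.S2460

open Matrix Cfsg.Agent.SL2 Cfsg.Agent.EG

section
variable {F : Type*} [Field F]

theorem three_dets (h2 : (2 : F) = 0) {w : F} (hw : w ^ 2 + w + 1 = 0) (a b : F) :
    ∃ r : F, r ≠ 0 ∧ 1 + r * a + r ^ 2 * b ≠ 0 := by
  have h0 : w ≠ 0 := by rintro rfl; simp at hw
  by_contra hn
  push Not at hn
  have e1 := hn 1 one_ne_zero
  have e2 := hn w h0
  have e3 := hn (w ^ 2) (pow_ne_zero 2 h0)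
  exact one_ne_zero (α := F) (by linear_combination e1 + e2 + e3 - h2 - (a + b * (w ^ 2 - w + 1)) * hw)

theorem exists_symm (B : M2 F) (h : ¬ (B 0 0 = 0 ∧ B 1 1 = 0 ∧ B 0 1 + B 1 0 = 0)) :
    ∃ R : M2 F, Rᵀ = R ∧ (B * R).trace ≠ 0 := by
  by_contra hn
  push Not at hn
  have e1 := hn !![1, 0; 0, 0] (mat_ext (by simp) (by simp) (by simp) (by simp))
  have e2 := hn !![0, 0; 0, 1] (mat_ext (by simp) (by simp) (by simp) (by simp))
  have e3 := hn !![0, 1; 1, 0] (mat_ext (by simp) (by simp) (by simp) (by simp))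
  simp [trace_fin_two, mul_apply, Fin.sum_univ_two] at e1 e2 e3
  exact h ⟨e1, e2, e3⟩

theorem shift [Finite F] (h2 : (2 : F) = 0) {w : F} (hw : w ^ 2 + w + 1 = 0) (h4 : ∀ x : F, x ≠ 0 → x ^ 3 = 1)
    {A M : M2 F} (hA : A.det = 1) (ht : A.trace = 0) (hM : M.trace ≠ 0) : ∃ r : F, Fac 1 w (A + r • M) := by
  obtain ⟨r, h0, hr⟩ := three_dets h2 hw (A 0 0 * M 1 1 + A 1 1 * M 0 0 - A 0 1 * M 1 0 - A 1 0 * M 0 1) M.det
  refine ⟨r, fac_four h2 hw 1 (h4 _ ?_) (by rw [trace_add, ht, zero_add, trace_smul]; exact mul_ne_zero h0 hM)⟩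
  convert hr using 1
  rw [det_fin_two] at hA
  simp only [det_fin_two, Matrix.add_apply, Matrix.smul_apply, smul_eq_mul]
  linear_combination hA

theorem four_case [Finite F] (h2 : (2 : F) = 0) {w : F} (hw : w ^ 2 + w + 1 = 0) (h4 : ∀ x : F, x ≠ 0 → x ^ 3 = 1)
    (h : Ok 1 w) {g : EG.Sp4 F} (hg : g ∉ Subgroup.center (EG.Sp4 F)) : P2 (xl h) g := by
  obtain ⟨g1, c1, A, B, C, D, e1, hA⟩ := exists_det_one hg
  refine P2.conj c1 ?_
  by_cases ht : A.trace ≠ 0
  · exact p2_of_fac h e1 (fac_four h2 hw 1 (by simp [hA]) ht)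
  rw [not_not] at ht
  by_cases hs : IsScal A
  · have e := eq_of_isScal hs
    generalize A 0 0 = c at e
    subst e
    have hc : c ^ 2 = 1 := by simpa using hA
    obtain rfl : c = 1 := sub_eq_zero.1 (pow_eq_zero_iff two_ne_zero |>.1 (by linear_combination hc + (1 - c) * h2))
    rw [one_smul] at e1
    exact p2_of_fac h e1 (fac_one h.h0)
  obtain ⟨P, hP, e⟩ := exists_intertwine (n := !![1, 1; 0, 1]) hs (by simp [IsScal])
    (by rw [ht, trace_fin_two_of, one_add_one_eq_two, h2]) (by simp [hA])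
  obtain ⟨g2, c2, e2⟩ := conjLev e1 hP
  refine P2.conj c2 ?_
  rw [e, mul_nonsing_inv_cancel_right _ _ hP.isUnit] at e2
  generalize P * B * Pᵀ = B at e2
  generalize P⁻¹ᵀ * C * P⁻¹ = C at e2
  generalize P⁻¹ᵀ * D * Pᵀ = D at e2
  have hu : (!![1, 1; 0, 1] : M2 F).trace = 0 := by rw [trace_fin_two_of, one_add_one_eq_two, h2]
  by_cases hB : ¬ (B 0 0 = 0 ∧ B 1 1 = 0 ∧ B 0 1 + B 1 0 = 0)
  · obtain ⟨R, hR, hR'⟩ := exists_symm B hB
    obtain ⟨r, hr⟩ := shift h2 hw h4 (by simp) hu hR'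
    obtain ⟨g3, c3, e3⟩ := conjLo e2 (R := -r • R) (by rw [transpose_smul, hR])
    exact (p2_of_fac h e3 (by simpa using hr)).conj c3
  by_cases hC : ¬ (C 0 0 = 0 ∧ C 1 1 = 0 ∧ C 0 1 + C 1 0 = 0)
  · obtain ⟨R, hR, hR'⟩ := exists_symm C hC
    rw [trace_mul_comm] at hR'
    obtain ⟨r, hr⟩ := shift h2 hw h4 (by simp) hu hR'
    obtain ⟨g3, c3, e3⟩ := conjUp e2 (R := r • R) (by rw [transpose_smul, hR])
    exact (p2_of_fac h e3 (by simpa using hr)).conj c3
  rw [not_not] at hB hC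
  obtain ⟨b0, b1, b2⟩ := hB
  obtain ⟨k0, k1, k2⟩ := hC
  have r3 := (rels e2).2.2
  have r00 := congrFun (congrFun r3 0) 0
  have r01 := congrFun (congrFun r3 0) 1
  have r10 := congrFun (congrFun r3 1) 0
  have r11 := congrFun (congrFun r3 1) 1
  simp [mul_apply, Fin.sum_univ_two, b0, b1, k0, k1] at r00 r01 r10 r11
  by_cases hc : B 0 1 * C 1 0 = 0
  · obtain ⟨g3, c3, e3⟩ := conj_blocks (P := !![1, 0; 0, 0]) (Q := !![0, 0; 0, 1]) (R := !![-C 1 0, 0; 0, -1])
      (S := !![1, 0; 0, B 0 1]) e2 (by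
        refine ⟨mat_ext ?_ ?_ ?_ ?_, mat_ext ?_ ?_ ?_ ?_, mat_ext ?_ ?_ ?_ ?_⟩ <;> simp [mul_apply, Fin.sum_univ_two])
    refine (p2_of_fac h e3 ?_).conj c3
    convert fac_one h.h0
    refine mat_ext ?_ ?_ ?_ ?_ <;> simp [vecMul, dotProduct, vecHead, vecTail, Matrix.mul_apply, Fin.sum_univ_two, b0, b1, k0, k1]
    · linear_combination B 0 1 * h2
    · linear_combination C 1 0 * r10 - C 1 0 * r00 - C 1 0 ^ 2 * b2 + C 1 0 * hc
    · linear_combination r11 - r01 + B 0 1 * k2 - hc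
  · obtain ⟨g3, c3, e3⟩ := conj_blocks (P := !![1, 0; 0, 0]) (Q := !![0, 0; 0, -1]) (R := !![0, 0; 0, 1])
      (S := !![1, 0; 0, 0]) e2 (by
        refine ⟨mat_ext ?_ ?_ ?_ ?_, mat_ext ?_ ?_ ?_ ?_, mat_ext ?_ ?_ ?_ ?_⟩ <;> simp [mul_apply, Fin.sum_univ_two])
    refine (p2_of_fac h e3 (fac_four h2 hw 1 ?_ ?_)).conj c3
    · refine h4 _ (ne_of_eq_of_ne ?_ one_ne_zero)
      simp [det_fin_two, vecMul, dotProduct, vecHead, vecTail, Matrix.mul_apply, Fin.sum_univ_two]
      linear_combination r11 - r01 + B 0 1 * k2 - B 0 1 * C 1 0 * h2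
    · refine ne_of_eq_of_ne ?_ hc
      simp [trace_fin_two, vecMul, dotProduct, vecHead, vecTail, Matrix.mul_apply, Fin.sum_univ_two]
      linear_combination r11 - r01 + B 0 1 * k2 + (1 - B 0 1 * C 1 0) * h2

end

/-- A form of Thompson's conjecture for the simple groups PSp(4,q), q ≥ 3 (covering the non-identity elements), with a semisimple class: for F a finite field of characteristic p with at least 3 elements there is an element x of PSp(4,F) of order prime to p such that every non-identity element of PSp(4,F) is a product of two conjugates of x. -/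
theorem result {F : Type*} [Field F] [Fintype F] (p : ℕ) [Fact p.Prime] [CharP F p] (h3 : 3 ≤ Fintype.card F) :
    ∃ x : Cfsg.PSp 2 F, ¬ p ∣ orderOf x ∧ ∀ g : Cfsg.PSp 2 F, g ≠ 1 → ∃ u v : Cfsg.PSp 2 F, g = (u * x * u⁻¹) * (v * x * v⁻¹) := by
  classical
  obtain ⟨t, d, h, hx⟩ : ∃ (t d : F) (h : Ok t d), ∀ g ∉ Subgroup.center (EG.Sp4 F), P2 (xl h) g := by
    by_cases h2 : (2 : F) = 0
    · by_cases h4 : 4 < Fintype.card F
      · have key : ∀ a b c d : F, ∃ x, x ≠ a ∧ x ≠ b ∧ x ≠ c ∧ x ≠ d := fun a b c d => by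
          by_contra hn
          push Not at hn
          have : (Finset.univ : Finset F) ⊆ {a, b, c, d} := fun x _ => by
            simp only [Finset.mem_insert, Finset.mem_singleton]; tauto
          exact absurd ((Finset.card_le_card this).trans Finset.card_le_four) (not_le.2 h4)
        obtain ⟨l, l0, l1, -, -⟩ := key 0 1 0 0
        obtain ⟨m, m0, m1, m2, m3⟩ := key 0 1 l l⁻¹
        have h : Ok (l + m) (l * m) := ⟨mul_ne_zero l0 m0, fun e => m3 (eq_inv_of_mul_eq_one_right e),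
          fun e => pow_ne_zero 2 (mul_ne_zero (sub_ne_zero.2 l1) (sub_ne_zero.2 m1))
            (by linear_combination e + ((l + m) ^ 2 - (1 + l * m) * (l + m)) * h2),
          fun e => pow_ne_zero 2 (sub_ne_zero.2 m2) (by linear_combination e)⟩
        exact ⟨_, _, h, fun g hg => p2_of_all h (fun A hA => fac_split h2 h.h0 hA) hg⟩
      · have h5 : Fintype.card F = 4 := by
          have : Fintype.card F ≠ 3 := fun e => one_ne_zero (α := F) (by
            have := FiniteField.cast_card_eq_zero F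
            rw [e] at this
            linear_combination (exp := 1) (by exact_mod_cast this : (3 : F) = 0) - h2)
          omega
        have h6 : ∀ x : F, x ≠ 0 → x ^ 3 = 1 := fun x hx => by
          simpa [h5] using FiniteField.pow_card_sub_one_eq_one x hx
        obtain ⟨w, w0, w1⟩ : ∃ w : F, w ≠ 0 ∧ w ≠ 1 := by
          by_contra hn
          push Not at hn
          have : (Finset.univ : Finset F) ⊆ {0, 1} := fun x _ => by
            simp only [Finset.mem_insert, Finset.mem_singleton]; tauto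
          exact absurd ((Finset.card_le_card this).trans Finset.card_le_two) (by rw [Finset.card_univ]; omega)
        have hw : w ^ 2 + w + 1 = 0 := mul_left_cancel₀ (sub_ne_zero.2 w1) (by linear_combination h6 w w0)
        have h : Ok 1 w := ⟨w0, w1, fun e => pow_ne_zero 2 w0 (by linear_combination e - w * h2),
          fun e => one_ne_zero (α := F) (by linear_combination e + 2 * w * h2)⟩
        exact ⟨_, _, h, fun g hg => four_case h2 hw h6 h hg⟩
    · have h : Ok (2 : F) (-1) := ⟨by simp, fun e => h2 (by linear_combination -e),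
        fun e => pow_ne_zero 2 h2 (by linear_combination -e), fun e => pow_ne_zero 3 h2 (by linear_combination e)⟩
      exact ⟨_, _, h, fun g hg => p2_of_all h (fun A hA => fac_odd h2 h2 hA) hg⟩
  obtain ⟨N, hN, hxN⟩ := xl_pow p h
  refine ⟨QuotientGroup.mk (xl h), fun hd => hN (hd.trans (orderOf_dvd_of_pow_eq_one ?_)), ?_⟩
  · rw [← QuotientGroup.mk_pow, hxN, QuotientGroup.mk_one]
  · intro g hg
    obtain ⟨A, rfl⟩ := QuotientGroup.mk_surjective g
    obtain ⟨a, b, ha, hb, e⟩ := hx A fun h => hg ((QuotientGroup.eq_one_iff _).2 h)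
    obtain ⟨u, rfl⟩ := isConj_iff.1 ha
    obtain ⟨v, rfl⟩ := isConj_iff.1 hb
    exact ⟨QuotientGroup.mk u, QuotientGroup.mk v, by rw [e]; rfl⟩

end Cfsg.Agent.S2460
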