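import Cfsg.Statements.S2461
import Cfsg.Agent.Lib.Gauss.Tw

set_option autoImplicit false
open Cfsg

namespace Cfsg.Agent.S2461

open Cfsg.Lie Cfsg.Agent.Chev Cfsg.Agent.Chev.RSys Cfsg.Agent.ChevM Cfsg.Agent.Gauss Cfsg.Agent.SL2
open scoped MatrixGroups

/-- The node of the short root. -/
def b0 : Fin chevG2.rank := ⟨0, by decide⟩

/-- The highest root. -/
def θ : Fin chevG2.nroots := ⟨11, by decide⟩

theorem rk2 : Rk2 chevG2 tw0 ⟨1, by decide⟩ b0 (fun i => if i = 0 then 1 else 0) θ :=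
  ⟨by decide +kernel, by decide +kernel, by decide +kernel, by decide +kernel, by decide +kernel, by decide +kernel⟩

/-- Conjugation by `diag(-1, 1)`. -/
def cj {K : Type*} [Field K] (A : SL(2, K)) : SL(2, K) :=
  ⟨!![A.1 0 0, -A.1 0 1; -A.1 1 0, A.1 1 1], by rw [Matrix.det_fin_two_of, neg_mul_neg, SL_det]⟩

instance fact3 : Fact (Nat.Prime 3) := ⟨by decide⟩

theorem good3 : ∀ B : SL(2, ZMod 3), ∃ s, ∃ u v : SL(2, ZMod 3),
    B * up s = u * cj (up 1 * lo 1 * u⁻¹ * v) * (up 1 * lo 1 * v⁻¹) := by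
  decide +kernel

theorem cj3 : (∀ A B : SL(2, ZMod 3), cj (A * B) = cj A * cj B) ∧ (∀ t : ZMod 3, cj (up t) = up (-t) ∧
    cj (lo t) = lo (-t)) ∧ (cj (up 1 * lo 1) * (up 1 * lo 1) : SL(2, ZMod 3)) ^ 2 = sl2h up lo ((-1 : (ZMod 3)ˣ) : ZMod 3) := by
  decide +kernel

variable {F : Type*} [Field F]

theorem eq_one {l : List ℤ} {v : Fˣ} (hc : v ^ prL chevG2 l θ ≠ 1) {u : chevG2.group F} {s t : F}
    (hu : u ∈ (PG chevG2 F).US {θ} ∨ u ∈ (PG chevG2 F).US {(rs chevG2).neg θ})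
    (h : Commute u (hG chevG2 (cot chevG2 l v) * (xG chevG2 F ((rs chevG2).simple b0 : Fin _) s *
      xG chevG2 F ((rs chevG2).neg ((rs chevG2).simple b0) : Fin _) t))) : u = 1 := by
  rw [← chi_cot] at hc
  have h2 := h.mul_right ((so_of_soB (r := θ) (s := (rs chevG2).simple b0)
    (by decide +kernel)).commute_US _ (hu.elim (USub_mono (by simp) ·) (USub_mono (by simp) ·))
      (mul_mem (xG_mem_US (Or.inl rfl) s) (xG_mem_US (Or.inr rfl) t))).inv_right
  rw [mul_inv_cancel_right] at h2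
  exact hu.elim (eq_one_of_mem_X hc · h2) (eq_one_of_mem_X (by rwa [chi_neg, Ne, inv_eq_one]) · h2)

variable [Finite F]

theorem roots {Q : Fin chevG2.nroots → Prop} (hQ : ∀ r : Fin chevG2.nroots,
    prL chevG2 [1, 2] r = 1 ∨ prL chevG2 [1, 2] r = -1 → prL chevG2 [1, 0] r % 2 = 1 → ¬ Q r) (r : Fin chevG2.nroots)
    (hr : ¬ (rs chevG2).InSub ((isTw0 chevG2 F).fold.orb b0) r) (e : Q r) :
    ((rs chevG2).IsPos r → r ∈ ({θ} : Set _)) ∧ (¬ (rs chevG2).IsPos r → r ∈ ({(rs chevG2).neg θ} : Set _)) := by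
  rw [rk2.inSub] at hr
  have : ∀ r : Fin chevG2.nroots, (¬ ∀ i : Fin chevG2.rank, (if (i : ℕ) = 0 then 1 else 0) = 0 → rcN chevG2 r i = 0) →
      ((chevG2.nroots ≤ 2 * r → r = θ) ∧ (¬ chevG2.nroots ≤ 2 * r → r = (rs chevG2).neg θ)) ∨
        (prL chevG2 [1, 2] r = 1 ∨ prL chevG2 [1, 2] r = -1) ∧ prL chevG2 [1, 0] r % 2 = 1 := by decide +kernel
  rw [rs_isPos_iff_le]
  exact (this r hr).resolve_right fun h => hQ r h.1 h.2 e

theorem hw0 : ∀ r, (rs chevG2).w0 r = (rs chevG2).neg r :=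
  w0_eq_neg ([0, 1, 0, 1, 0, 1] : List (Fin 2)) (by decide +kernel)

theorem hf : (MonoidHom.id _).range ≤ (isTw0 chevG2 F).fold.gen := le_top.trans gen0.ge

theorem hk : (isTw0 chevG2 F).fold.OrbOK ((rs chevG2).simple b0) 1 := (isTw0 chevG2 F).orbOK per0 _

theorem three [CharP F 3] (h3 : Function.Surjective (ZMod.castHom (dvd_refl 3) F)) :
    ∃ x : chevG2.group F, ¬ 3 ∣ orderOf x ∧ ∀ g, g ≠ 1 → P2 x g := by
  have h := isTw0 chevG2 F
  have E := emb0 chevG2 F
  have hι := fun t => iff_of_true (show (MonoidHom.id _)^[1] (xG chevG2 F ((rs chevG2).simple b0 : Fin _) t) =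
    xG chevG2 F ((rs chevG2).simple b0 : Fin _) t from rfl) (h3 t)
  have hb := h.isSL2 E hk hι id rfl
  obtain ⟨ψ, e1, e2⟩ := exists_sl2 hb.toSL2D
  have e3 : ∀ t, ψ (up t) = xG chevG2 F ((rs chevG2).simple b0 : Fin _) (ZMod.castHom (dvd_refl 3) F t) := fun t =>
    (e1 t).trans ((congrFun (h.comp_Y E hk hι) t).trans (dl_one _))
  have e4 : ∀ t, ψ (lo t) = xG chevG2 F ((rs chevG2).neg ((rs chevG2).simple b0) : Fin _)
      (ZMod.castHom (dvd_refl 3) F t) := fun t => (e2 t).trans ((congrFun (h.comp_Y_neg E hk hι) t).trans (dl_one _))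
  have hn : (-1 : Fˣ) ≠ 1 := fun e => by
    have : ((2 : ℕ) : F) = 0 := by
      have := congrArg Units.val e
      push_cast at this ⊢
      linear_combination -this
    exact absurd ((CharP.cast_eq_zero_iff F 3 2).mp this) (by decide)
  obtain ⟨k, hk1⟩ : ∃ k, k = hG chevG2 (cot chevG2 [0, 1] (-1 : Fˣ)) := ⟨_, rfl⟩
  have hk2 : k * k = 1 := by
    rw [hk1, ← map_mul, show cot chevG2 [0, 1] (-1 : Fˣ) * cot chevG2 [0, 1] (-1) = 1 from
      funext fun i => by simp [cot, ← mul_zpow], map_one]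
  have hk4 : chi chevG2 (cot chevG2 [0, 1] (-1 : Fˣ)) ((rs chevG2).simple b0) = -1 := by
    rw [chi_cot, show prL chevG2 _ _ = -1 by decide +kernel]; simp
  have hk3 : ∀ A, k * ψ A * k⁻¹ = ψ (cj A) := SL_induction (fun A => k * ψ A * k⁻¹ = ψ (cj A))
    (fun t => by rw [(cj3.2.1 t).1, e3, e3, hk1, hG_conj_xG, hk4]; simp)
    (fun t => by rw [(cj3.2.1 t).2, e4, e4, hk1, hG_conj_xG, chi_neg, hk4]; simp)
    fun A B ha hb => by rw [cj3.1, map_mul, map_mul, ← ha, ← hb]; simp [mul_assoc]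
  rw [inv_eq_of_mul_eq_one_right hk2] at hk3
  have hL := map_mem_LJ E hb e1 e2
  have h4 : (k * ψ (up 1 * lo 1)) ^ 4 = hG chevG2 (cot chevG2 [1, 0] (-1 : Fˣ)) := by
    rw [show 4 = 2 * 2 from rfl, pow_mul, sq (k * _), ← mul_assoc, hk3, ← map_mul, ← map_pow, cj3.2.2, map_sl2h,
      show ψ ∘ up = _ from funext e1, show ψ ∘ lo = _ from funext e2]
    refine (h.map_sl2h_Y' E hk hι (-1)).trans ?_
    rw [dl_one, h.tor_eq]
    exact congrArg _ (funext fun i : Fin 2 => by fin_cases i <;> simp [cot, b0] <;> rfl)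
  have h5 : Fpf (PG chevG2 F) (MonoidHom.id _) (h.fold.orb b0) (k * ψ (up 1 * lo 1)) := by
    have h6 : (-1 : Fˣ) ^ prL chevG2 [0, 1] θ ≠ 1 := by rwa [show prL chevG2 _ _ = 1 by decide +kernel, zpow_one]
    refine fpf_of_pow (mul_mem (PreRGD.H_le_LJ _ _ (hk1 ▸ hG_mem_H _)) (hL _)) h4 (roots fun r _ h2 => ?_)
      (fun u hu hc => ?_) fun u hu hc => ?_
    · rwa [chi_cot, (Int.odd_iff.mpr h2).neg_one_zpow]
    all_goals rw [map_mul, e3, e4, hk1] at hc
    exacts [eq_one h6 (Or.inl hu) hc, eq_one h6 (Or.inr hu) hc]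
  refine ⟨_, not_dvd_orderOf 3 E.inj (n := 4) (by decide) (h4 ▸ hG_mem_H _), fun g hg =>
    rk2.p2 h E 3 hw0 hf (hz_per h E per0) (hT_per h E per0 hf) hb e1 e2 (k := 1) (one_mem _) (fun B => ?_) hg⟩
  obtain ⟨s, u, v, e⟩ := good3 B
  refine ⟨s, _, _, h5.conj (hL u), h5.conj (hL v), isConj_iff.mpr ⟨_, rfl⟩, isConj_iff.mpr ⟨_, rfl⟩, ?_⟩
  rw [e, map_mul, map_mul, ← hk3]
  simp [mul_assoc]

/-- A form of Thompson's conjecture for the simple Chevalley groups G₂(q), q ≥ 3 (covering the non-identity elements), with a semisimple class: for F a finite field of characteristic p with at least 3 elements there is an element x of the Chevalley group of type G₂ over F of order prime to p such that every non-identity element of that group is a product of two conjugates of x. -/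
theorem result {F : Type*} [Field F] [Fintype F] (p : ℕ) [Fact p.Prime] [CharP F p] (h3 : 3 ≤ Fintype.card F) :
    ∃ x : Cfsg.Lie.chevG2.group F, ¬ p ∣ orderOf x ∧ ∀ g : Cfsg.Lie.chevG2.group F, g ≠ 1 → ∃ u v : Cfsg.Lie.chevG2.group F, g = (u * x * u⁻¹) * (v * x * v⁻¹) := by
  rcases h3.lt_or_eq with h3 | h3
  · have h := isTw0 chevG2 F
    have E := emb0 chevG2 F
    obtain ⟨t, ht⟩ := exists_zpow_ne_one (K := F) (n := 2) fun h => by
      have := Int.le_of_dvd two_pos h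
      rw [Nat.card_eq_fintype_card] at this
      omega
    have h1 : t ^ (Nat.card F + 1) ≠ 1 := by
      rwa [show Nat.card F + 1 = Nat.card Fˣ + 2 by rw [Nat.card_units, Nat.card_eq_fintype_card]; omega, pow_add,
        pow_card_eq_one', one_mul, ← zpow_natCast]
    refine rk2.exists_class h E p hw0 hf (hz_per h E per0) (hT_per h E per0 hf) hk (ι := RingHom.id F)
      (fun t => iff_of_true rfl ⟨t, rfl⟩) (c := cot chevG2 [1, 2] t) ⟨_, rfl⟩ ?_ (roots fun r h2 _ => ?_)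
      fun u d _ hu hc => ?_
    · rw [chi_cot, show prL chevG2 _ _ = 0 by decide +kernel, zpow_zero]
    · rw [chi_cot]
      rcases h2 with h2 | h2 <;> simpa [h2] using h1
    · rw [dl_one, dl_one] at hc
      exact eq_one (by rwa [show prL chevG2 _ _ = 2 by decide +kernel]) hu hc
  obtain rfl : p = 3 := by
    obtain ⟨n, hn, e⟩ := exists_card_eq (F := F) p
    rw [Nat.card_eq_fintype_card, ← h3] at e
    exact (Nat.prime_dvd_prime_iff_eq Fact.out Nat.prime_three).mp (e ▸ dvd_pow_self p hn.ne')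
  exact three (ZMod.castHom_bijective F h3.symm).2

end Cfsg.Agent.S2461
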