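import Cfsg.Statements.S2462
import Cfsg.Agent.Lib.Gauss.Tw
import Cfsg.Agent.Lib.Ord.Twisted

set_option autoImplicit false
open Cfsg

namespace Cfsg.Agent.S2462

open Cfsg.Lie Cfsg.Agent.Chev Cfsg.Agent.Chev.RSys Cfsg.Agent.ChevM Cfsg.Agent.Gauss

theorem rk2 : Rk2 chevD4 twD4a ⟨0, by decide⟩ ⟨1, by decide⟩ (fun i => if i = 1 then 1 else 0) ⟨23, by decide⟩ :=
  ⟨by decide +kernel, by decide +kernel, by decide +kernel, by decide +kernel, by decide +kernel, by decide +kernel⟩

/-- A form of Thompson's conjecture for the triality groups ³D₄(q) (covering the non-identity elements) with a semisimple class: for q a power of the prime p and K the field with q³ elements there is an element x of ³D₄(q) (realised over K) of order prime to p such that every non-identity element of ³D₄(q) is a product of two conjugates of x. -/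
theorem result {K : Type*} [Field K] [Fintype K] (p : ℕ) [Fact p.Prime] [CharP K p] (q : ℕ) (hq : IsPrimePow q) (hK : Fintype.card K = q ^ 3) :
    ∃ x : Cfsg.Lie.twistedD4 K q, ¬ p ∣ orderOf x ∧ ∀ g : Cfsg.Lie.twistedD4 K q, g ≠ 1 → ∃ u v : Cfsg.Lie.twistedD4 K q, g = (u * x * u⁻¹) * (v * x * v⁻¹) := by
  classical
  obtain ⟨_, -, -, -, φ, hφ, hφk⟩ := exists_frob hq hK
  have h := isTw_adj (twOK_D4a K) φ
  have E := emb_twistedD4 φ hφ hφk
  have hf := (range_twistedD4 φ hφ hφk).le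
  have hq1 : 1 < q := hq.one_lt
  have hinj : ∀ (s : Kˣ) (n : ℕ), s ^ q ^ n = 1 → s = 1 := fun s n => by
    induction n with
    | zero => simp
    | succ n ih =>
      refine fun e => ih (Units.ext (φ.injective ?_))
      rw [hφ, Units.val_one, map_one, ← Units.val_pow_eq_pow_val, ← pow_mul, ← pow_succ, e, Units.val_one]
  obtain ⟨t, ht, hN⟩ : ∃ t : Kˣ, t ≠ 1 ∧ t ^ (1 + q + q ^ 2) = 1 := by
    obtain ⟨w, hw⟩ := exists_zpow_ne_one (K := K) (n := (q - 1 : ℕ)) (fun h => by
      rw [Nat.card_eq_fintype_card, hK] at h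
      have := Int.le_of_dvd (by omega) h
      have : q < q ^ 3 := by simpa using Nat.pow_lt_pow_right hq1 (show 1 < 3 by norm_num)
      omega)
    refine ⟨_, hw, ?_⟩
    rw [zpow_natCast, ← pow_mul, show (q - 1) * (1 + q + q ^ 2) = Fintype.card K - 1 by
      obtain ⟨q, rfl⟩ : ∃ k, q = k + 1 := ⟨q - 1, by omega⟩
      rw [hK, eq_tsub_iff_add_eq_of_le (Nat.one_le_pow _ _ (by omega))]; simp; ring, ← Fintype.card_units,
      pow_card_eq_one]
  have hcard : Nat.card (Fx twD4a 3 φ ((rs chevD4).simple ⟨1, by decide⟩)) = q := by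
    rw [← OrdB.ncard_pow_eq_self (Nat.card_eq_fintype_card.trans hK) hq1, ← Nat.card_coe_set_eq]
    exact Nat.card_congr (Equiv.subtypeEquivRight fun t => by
      rw [mem_Fx, kr_fix (by decide +kernel), Set.mem_ofPred_eq, ← hφ]; rfl)
  have hs : ∀ n : ℕ, (t ^ (2 * (q + 1))) ^ q ^ n ≠ 1 := fun n e => ht (by
    have h1 := hinj _ n e
    have h2 : Odd (1 + q + q ^ 2) := by
      have := Nat.even_mul_succ_self q
      rw [show 1 + q + q ^ 2 = q * (q + 1) + 1 by ring]; exact this.add_one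
    obtain ⟨k, hk⟩ := h2
    have h3 : t ^ (q + 1) = 1 := by
      have := congrArg (· ^ (q + 1)) hN
      simp only [hk] at this
      rwa [← pow_mul, show (2 * k + 1) * (q + 1) = 2 * (q + 1) * k + (q + 1) by ring, pow_add, pow_mul, h1, one_pow,
        one_pow, one_mul] at this
    rw [show 1 + q + q ^ 2 = q + 1 + q ^ 2 by ring, pow_add, h3, one_mul] at hN
    exact hinj t 2 hN)
  have := h.finite_of_emb (GS_xG chevD4 K) E
  have hw0 := w0_eq_neg (D := chevD4) ([0, 1, 0, 2, 1, 0, 3, 1, 0, 2, 1, 3] : List (Fin 4)) (by decide +kernel)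
  refine rk2.exists_class h E p hw0 hf (hz_per h E per_D4) (hT_per h E per_D4 hf) (h.orbOK per_D4 _)
    (h.fix_iff' per_D4 _) (c := dl h.σT 3 (cot chevD4 [2, 2, 1, 1] t)) (h.tor_eq _ ▸ h.tor_mem_range per_D4 E hφk _)
    ?_ (S := {⟨22, by decide⟩, ⟨23, by decide⟩}) (S' := {⟨0, by decide⟩, ⟨1, by decide⟩}) (fun r hr e => ?_)
    fun u d hd hu hc => ?_
  · rw [h.chi_dl_cot hφ, show exN chevD4 twD4a _ 3 _ = [0, 0, 0] by decide +kernel]
    simp [evQ]
  · rw [h.chi_dl_cot hφ, hcard] at e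
    rw [rk2.inSub h, rs_isPos_iff_le] at *
    have key : ∀ (ε m : ℤ) (i : ℕ), ε = 1 ∨ ε = -1 →
        (t ^ (2 * ε * q ^ i + m * (1 + q + q ^ 2 : ℕ))) ^ (q + 1) ≠ 1 := fun ε m i hε e => hs i (by
      rw [zpow_add, mul_comm m, zpow_mul _ _ m, zpow_natCast, hN, one_zpow, mul_one, ← zpow_natCast, ← zpow_mul] at e
      rw [← pow_mul, ← zpow_natCast]
      rcases hε with rfl | rfl
      · convert e using 2; push_cast; ring
      · rw [← inv_eq_one, ← zpow_neg]; convert e using 2; push_cast; ring)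
    have : ∀ r : Fin chevD4.nroots, (¬ ∀ i : Fin chevD4.rank, (if (i : ℕ) = 1 then 1 else 0) = 0 → rcN chevD4 r i = 0) →
        (r.1 = 0 ∨ r.1 = 1 ∨ r.1 = 22 ∨ r.1 = 23) ∨ ∃ ε ∈ [(1 : ℤ), -1], ∃ m ∈ [(2 : ℤ), 0, -2],
          exN chevD4 twD4a [2, 2, 1, 1] 3 r ∈ [[2 * ε + m, m, m], [m, 2 * ε + m, m], [m, m, 2 * ε + m]] := by
      decide +kernel
    rcases this r hr with h1 | ⟨ε, hε, m, -, h1⟩
    · simp only [Set.mem_insert_iff, Set.mem_singleton_iff, Fin.ext_iff, show chevD4.nroots = 24 from rfl]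
      omega
    simp only [List.mem_cons, List.not_mem_nil, or_false] at h1 hε
    rcases h1 with h1 | h1 | h1 <;> rw [h1] at e
    exacts [(key ε m 0 hε (by convert e using 3; simp [evQ]; ring)).elim,
      (key ε m 1 hε (by convert e using 3; simp [evQ]; ring)).elim,
      (key ε m 2 hε (by convert e using 3; simp [evQ]; ring)).elim]
  · rw [kr_fix (by decide +kernel), dl_one, dl_one] at hc
    have key : ∀ r : Fin chevD4.nroots, (∃ m ∈ [(2 : ℤ), -2], exN chevD4 twD4a [2, 2, 1, 1] 3 r = [m, m, m]) → ∀ s : K,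
        xG chevD4 K r s ∈ Subgroup.centralizer {hG chevD4 (dl h.σT 3 (cot chevD4 [2, 2, 1, 1] t))} := by
      rintro r ⟨m, -, e⟩ s
      rw [Subgroup.mem_centralizer_singleton_iff, eq_comm, ← mul_inv_eq_iff_eq_mul, hG_conj_xG, h.chi_dl_cot hφ, e,
        show evQ q [m, m, m] = (1 + q + q ^ 2 : ℕ) * m by simp [evQ]; ring, zpow_mul, zpow_natCast, hN]
      simp
    have h1 : Commute u (hG chevD4 (dl h.σT 3 (cot chevD4 [2, 2, 1, 1] t))) :=
      Subgroup.mem_centralizer_singleton_iff.mp (hu.elim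
        (USub_XS_le_iff.mpr (by rintro _ (rfl | rfl) <;> exact key _ (by decide +kernel)) ·)
        (USub_XS_le_iff.mpr (by rintro _ (rfl | rfl) <;> exact key _ (by decide +kernel)) ·))
    have h2 := h1.inv_right.mul_right hc
    rw [inv_mul_cancel_left] at h2
    rcases hu with hu | hu
    · exact eq_one_of_pair halfSpace_pos ((rs_isPos_iff_le _).mpr (by decide)) ((rs_isPos_iff_le _).mpr (by decide))
        (ε := -1) (ε' := -1) (by decide +kernel) hd hu h2
    · exact eq_one_of_pair halfSpace_neg ((rs_isPos_iff_le _).not.mpr (by decide))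
        ((rs_isPos_iff_le _).not.mpr (by decide)) (ε := 1) (ε' := 1) (by decide +kernel) hd hu h2

end Cfsg.Agent.S2462
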