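import Cfsg.Statements.S2463
import Cfsg.Agent.Lib.Gauss.Tw
import Cfsg.Agent.Lib.Gauss.TitsSq
import Cfsg.Agent.Lib.LieId.Tits

set_option autoImplicit false
open Cfsg

namespace Cfsg.Agent.S2463

open Cfsg.Lie Cfsg.Agent.Chev Cfsg.Agent.Chev.RSys Cfsg.Agent.ChevM Cfsg.Agent.Gauss

theorem rk2 : Rk2 chevF4 twF4 (repF4 1) (repF4 0) (fun i => if i = 0 ∨ i = 3 then 1 else 0) ⟨47, by decide⟩ :=
  ⟨by decide +kernel, by decide +kernel, by decide +kernel, by decide +kernel, by decide +kernel, by decide +kernel⟩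

theorem arith {n e a b : ℤ} (h1 : n ∣ (a + e * b) * (2 * e ^ 2 + 1)) (h2 : n ∣ 2 * e ^ 2 - 1)
    (h3 : 2 * a ^ 2 - b ^ 2 ∣ 8) : n ∣ 1 := by
  obtain ⟨c, h3⟩ := h3
  have h4 : n ∣ 16 := (((h1.mul_left (2 * a - 2 * e * b)).sub (h2.mul_left ((a + e * b) * (2 * a - 2 * e * b)))).add
    (h2.mul_left (2 * b ^ 2))).mul_right c |>.trans (dvd_of_eq (by linear_combination -2 * h3))
  exact ((h4.mul_left (e ^ 8)).sub (h2.mul_left (8 * e ^ 6 + 4 * e ^ 4 + 2 * e ^ 2 + 1))).trans (dvd_of_eq (by ring))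

theorem ree' {K : Type*} [Field K] [Finite K] [CharP K 2] {φ : K →+* K} {e : ℕ} (he : 2 ≤ e)
    (hq : Nat.card K = 2 * e ^ 2) (hφ : ∀ t, φ t = t ^ e) (hφ2 : ∀ t, φ (φ t) ^ 2 = t)
    {σ : chevF4.group K →* chevF4.group K} (h : IsTw chevF4 twF4 (xG chevF4 K) φ σ) {Γ : Type*} [Group Γ]
    {f : Γ →* chevF4.group K} (E : h.fold.Emb f) (hf : f.range ≤ h.fold.gen) :
    ∃ x : Γ, ¬ 2 ∣ orderOf x ∧ ∀ g, g ≠ 1 → P2 x g := by
  have := h.finite_of_emb (GS_xG chevF4 K) E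
  have hw0 := w0_eq_neg (D := chevF4) ([0, 1, 0, 2, 1, 0, 2, 1, 2, 3, 2, 1, 0, 2, 1, 2, 3, 2, 1, 0, 2, 1, 2, 3] :
    List (Fin 4)) (by decide +kernel)
  obtain ⟨t, ht⟩ := exists_zpow_ne_one (K := K) (n := 1) fun h => by
    have h1 := Int.le_of_dvd one_pos h
    rw [hq] at h1
    push_cast at h1
    nlinarith
  refine rk2.exists_class h E 2 hw0 hf (hz_tw h E fun j => ?_) (hT_of_odd E (hc_tw h E) (fun n k hn hk => E.inj ?_)
    fun k hk => (Nat.odd_iff.trans Nat.two_dvd_ne_zero.symm).mpr (not_dvd_orderOf 2 E.inj (n := 1) (by decide)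
      (by rwa [pow_one]))) (h.orbOK_F4 (by decide +kernel)) (ι := RingHom.id K)
    (fun t => iff_of_true (h.iter_F4 hφ2 _ t) ⟨t, rfl⟩) (c := dl h.σT 2 (cot chevF4 [2, 4, 6, 3] t))
    (h.tor_eq _ ▸ h.tor_mem_F4 hφ2 E (GS_xG _ _) center_eq_bot _) ?_ (S := ∅) (S' := ∅) (fun r hr e => (ht ?_).elim)
    fun u d _ hu _ => by simpa [PreRGD.US] using hu
  · obtain ⟨a, ha⟩ := h.hrep_F4 j
    fin_cases a
    · have n0 : h.Nd (repF4 0) 2 (RingHom.id K) := ⟨h.orbOK_F4 (by decide +kernel), fun t => h.iter_F4 hφ2 _ t⟩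
      exact ⟨_, ha, (n0.exists_sc E (map_one _)).imp fun x hx => ⟨PreRGD.UL_le_U _ _ hx.1, hx.2⟩⟩
    obtain ⟨y, hy⟩ := h.exists_bW hφ2 E 1 0
    refine ⟨⟨1, by decide⟩, Fold.orb_eq (h.mem_orb_of (a := repF4 1) (i := ⟨1, by decide⟩) 1 (by decide +kernel)) ▸ ha,
      y, PreRGD.UL_le_U _ _ (hy ▸ h.bW_mem_UL 1 0), sc_eq ?_⟩
    have : ∀ r : Fin chevF4.nroots, r.1 ∈ [25, 28, 30] → ∀ t, xG chevF4 K r t ∈ (PG chevF4 K).UJ {⟨1, by decide⟩} :=
      fun r hr => xG_mem_US (pos_not_inSub_singleton.mpr (by revert r; decide +kernel))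
    rw [hy, bW, map_one, mul_assoc, mul_assoc]
    change (xG chevF4 K 27 1)⁻¹ * _ ∈ _
    rw [inv_mul_cancel_left]
    exact mul_mem (this ⟨25, by decide⟩ (by simp) _)
      (mul_mem (this ⟨28, by decide⟩ (by simp) _) (this ⟨30, by decide⟩ (by simp) _))
  · have := conj_w0 hw0 hn hk
    rw [map_mul, map_mul, map_inv, map_inv, ← inv_inj]
    nth_rw 1 [← this]
    simp [mul_assoc]
  · rw [h.chi_dl_cot hφ, show exN chevF4 twF4 _ 2 _ = [0, 0] by decide +kernel]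
    simp [evQ]
  · rw [h.chi_dl_cot hφ] at e
    rw [rk2.inSub h] at hr
    have : ∀ r : Fin chevF4.nroots, (¬ ∀ i : Fin chevF4.rank, (if (i : ℕ) = 0 ∨ (i : ℕ) = 3 then 1 else 0) = 0 →
        rcN chevF4 r i = 0) → ∃ a ∈ Finset.Icc (-3 : ℤ) 3, ∃ b ∈ Finset.Icc (-4 : ℤ) 4,
          exN chevF4 twF4 [2, 4, 6, 3] 2 r = [a, b] ∧ 2 * a ^ 2 - b ^ 2 ∣ 8 := by
      decide +kernel
    obtain ⟨a, -, b, -, h1, h2⟩ := this r hr
    rw [h1, ← zpow_natCast, ← zpow_mul, ← orderOf_dvd_iff_zpow_eq_one, hq] at e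
    have h3 := Int.natCast_dvd_natCast.mpr (orderOf_dvd_natCard t)
    rw [Nat.card_units, hq, Nat.cast_pred (by positivity)] at h3
    exact orderOf_dvd_iff_zpow_eq_one.mp (arith (by simpa [evQ] using e) (by simpa using h3) h2)

theorem ree {K : Type*} [Field K] [Fintype K] {m : ℕ} (hm : 1 ≤ m) (hK : Fintype.card K = 2 ^ (2 * m + 1)) :
    ∃ x : twistedF4 K (2 ^ m), ¬ 2 ∣ orderOf x ∧ ∀ g, g ≠ 1 → P2 x g := by
  obtain ⟨_, φ, hφ, hφ2⟩ := exists_frob_F4 hK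
  exact ree' (Nat.pow_le_pow_right two_pos hm) (by rw [Nat.card_eq_fintype_card, hK]; ring) hφ hφ2 _
    (emb_twistedF4 φ hφ hφ2) (range_twistedF4 φ hφ hφ2).le

theorem transfer {M Γ : Type*} [Group M] [Group Γ] (e : M ≃* Γ) {x : Γ} (h1 : Odd (orderOf x))
    (h2 : ∀ g, g ≠ 1 → P2 x g) : ∃ x : M, Odd (orderOf x) ∧ ∀ g, g ≠ 1 → P2 x g :=
  ⟨e.symm x, by rwa [MulEquiv.orderOf_eq], fun g hg => by
    simpa using (h2 (e g) (by simpa using hg)).map e.symm.toMonoidHom⟩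

/-- A form of Thompson's conjecture for the simple groups of type ²F₄ (covering the non-identity elements) with a semisimple class: if M is a large Ree group ²F₄(2^(2m+1)) with m ≥ 1, or the Tits group, then there is an element x of M of odd order such that every non-identity element of M is a product of two conjugates of x. -/
theorem result {M : Type*} [Group M] [Finite M] (hM : Cfsg.Lie.Iso2F4 M ∨ Cfsg.Lie.IsoTits M) :
    ∃ x : M, Odd (orderOf x) ∧ ∀ g : M, g ≠ 1 → ∃ u v : M, g = (u * x * u⁻¹) * (v * x * v⁻¹) := by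
  rcases hM with ⟨K, _, _, m, hm, hK, ⟨e⟩⟩ | ⟨⟨e⟩⟩
  · obtain ⟨x, h1, h2⟩ := ree hm hK
    exact transfer e (Nat.odd_iff.mpr (Nat.two_dvd_ne_zero.mp h1)) h2
  obtain ⟨e'⟩ := LieId.Tits.iso
  obtain ⟨x, h1, h2⟩ := CG.Tits.Sq.exists_class
  exact transfer (e.trans e') h1 h2

end Cfsg.Agent.S2463
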