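import Cfsg.Statements.S2466
import Cfsg.Agent.Lib.Alt.Orders

set_option autoImplicit false
open Cfsg

namespace Cfsg.Agent.S2466

open Cfsg.Agent.Alt

/-- Adjacency of odd primes in the prime graph of the alternating groups: let r ≠ s be odd primes at most n. The alternating group of degree n has an element of order r·s if and only if r + s ≤ n. -/
theorem result (n r s : ℕ) (hr : r.Prime) (hs : s.Prime) (hr2 : r ≠ 2) (hs2 : s ≠ 2) (hrs : r ≠ s) (hrn : r ≤ n) (hsn : s ≤ n) :
    (r * s ∈ Set.range (orderOf : alternatingGroup (Fin n) → ℕ)) ↔ r + s ≤ n := by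
  rw [mem_range_orderOf_alt, Fintype.card_fin]
  have hc : r.Coprime s := (Nat.coprime_primes hr hs).2 hrs
  have := hr.two_le
  have := hs.two_le
  constructor
  · rintro ⟨m, h1, h2, -, h4⟩
    obtain ⟨a, ha, h5⟩ := exists_mem_dvd_of_prime_dvd_lcm hr (h4 ▸ dvd_mul_right r s)
    obtain ⟨b, hb, h6⟩ := exists_mem_dvd_of_prime_dvd_lcm hs (h4 ▸ dvd_mul_left s r)
    have h7 := h2 a ha
    have h8 := h2 b hb
    by_cases hab : a = b
    · subst hab
      have h9 := Nat.le_of_dvd (by omega) (hc.mul_dvd_of_dvd_of_dvd h5 h6)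
      have := Multiset.single_le_sum (fun x _ => Nat.zero_le x) a ha
      nlinarith
    · have := add_le_sum_of_ne ha hb hab
      have := Nat.le_of_dvd (by omega) h5
      have := Nat.le_of_dvd (by omega) h6
      omega
  · intro h
    refine ⟨{r, s}, by simpa using h, by simp [*], ?_, by simp [lcm_eq_nat_lcm, hc.lcm_eq_mul]⟩
    have := hr.eq_two_or_odd.resolve_left hr2
    have := hs.eq_two_or_odd.resolve_left hs2
    simp only [Multiset.insert_eq_cons, Multiset.sum_cons, Multiset.sum_singleton,
      Multiset.card_cons, Multiset.card_singleton, Nat.even_iff]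
    omega

end Cfsg.Agent.S2466
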