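import Cfsg.Statements.S2467
import Cfsg.Agent.Lib.Alt.Orders

set_option autoImplicit false
open Cfsg

namespace Cfsg.Agent.S2467

open Cfsg.Agent.Alt

theorem even_of_odd (m : Multiset ℕ) (h : ∀ a ∈ m, a % 2 = 1) : (m.sum + m.card) % 2 = 0 := by
  induction m using Multiset.induction_on with
  | empty => rfl
  | cons a s ih =>
    have h1 := h a (Multiset.mem_cons_self _ _)
    have h2 := ih fun b hb => h b (Multiset.mem_cons_of_mem hb)
    rw [Multiset.sum_cons, Multiset.card_cons]
    omega

/-- Adjacency of 2 and an odd prime in the prime graph of the alternating groups: let r be an odd prime at most n, with n ≥ 4. The alternating group of degree n has an element of order 2r if and only if r + 4 ≤ n. -/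
theorem result (n r : ℕ) (hn : 4 ≤ n) (hr : r.Prime) (hr2 : r ≠ 2) (hrn : r ≤ n) :
    (2 * r ∈ Set.range (orderOf : alternatingGroup (Fin n) → ℕ)) ↔ r + 4 ≤ n := by
  rw [mem_range_orderOf_alt, Fintype.card_fin]
  have hc : Nat.Coprime 2 r := (Nat.coprime_primes Nat.prime_two hr).2 hr2.symm
  have := hr.two_le
  have hodd := hr.eq_two_or_odd.resolve_left hr2
  constructor
  · rintro ⟨m, h1, h2, h3, h4⟩
    obtain ⟨a, ha, h5⟩ := exists_mem_dvd_of_prime_dvd_lcm Nat.prime_two (h4 ▸ dvd_mul_right 2 r)
    obtain ⟨s, rfl⟩ := Multiset.exists_cons_of_mem ha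
    rw [Multiset.sum_cons, Multiset.card_cons, Nat.even_iff] at h3
    obtain ⟨b, hb, h6⟩ : ∃ b ∈ s, b % 2 = 0 := by
      by_contra h7
      push Not at h7
      have := even_of_odd s fun b hb => by have := h7 b hb; omega
      omega
    obtain ⟨t, rfl⟩ := Multiset.exists_cons_of_mem hb
    obtain ⟨c, hc', h7⟩ := exists_mem_dvd_of_prime_dvd_lcm hr (h4 ▸ dvd_mul_left r 2)
    simp only [Multiset.sum_cons] at h1
    have ha2 := h2 a ha
    have hb2 := h2 b (by simp)
    have hc2 := h2 c hc'
    simp only [Multiset.mem_cons] at hc'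
    rcases hc' with rfl | rfl | h8
    · have := Nat.le_of_dvd (by omega) (hc.mul_dvd_of_dvd_of_dvd h5 h7)
      omega
    · have := Nat.le_of_dvd (by omega) (hc.mul_dvd_of_dvd_of_dvd (by omega) h7)
      omega
    · have := Multiset.single_le_sum (fun x _ => Nat.zero_le x) c h8
      have := Nat.le_of_dvd (by omega) h7
      omega
  · intro h
    refine ⟨{2, 2, r}, by simp; omega, by simp [*], ?_, ?_⟩
    · simp only [Multiset.insert_eq_cons, Multiset.sum_cons, Multiset.sum_singleton,
        Multiset.card_cons, Multiset.card_singleton, Nat.even_iff]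
      omega
    · simp only [Multiset.insert_eq_cons, Multiset.lcm_cons, Multiset.lcm_singleton, normalize_eq,
        lcm_eq_nat_lcm, hc.lcm_eq_mul]
      exact Nat.lcm_eq_right (dvd_mul_right 2 r)

end Cfsg.Agent.S2467
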