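import Cfsg.Statements.S2471
import Cfsg.Agent.Lib.SL2.PSL

set_option autoImplicit false
open Cfsg

namespace Cfsg.Agent.S2471

/-- In PSL(2,q) with q odd, the characteristic p is isolated from 2 in the prime graph: for F a finite field of odd characteristic p with at least 5 elements, PSL(2,F) has no element of order 2p. -/
theorem result {F : Type*} [Field F] [Fintype F] (p : ℕ) [Fact p.Prime] [CharP F p] (hp : p ≠ 2) (h5 : 5 ≤ Fintype.card F) (g : Matrix.ProjectiveSpecialLinearGroup (Fin 2) F) :
    orderOf g ≠ 2 * p := by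
  rw [← Nat.card_eq_fintype_card] at h5
  intro h
  have hpp : p.Prime := Fact.out
  have hq := SL2.char_dvd_card (F := F) p
  have hd : Nat.gcd 2 (Nat.card F - 1) = 2 := by
    rw [← SL2.card_center_SL, SL2.card_center_SL_odd (SL2.two_ne_zero_of_char p hp)]
  have hodd := Nat.odd_iff.1 (SL2.odd_card_iff.2 (SL2.two_ne_zero_of_char (F := F) p hp))
  have h1 := SL2.orderOf_PSL_dvd p g
  rw [h, hd] at h1
  apply hpp.one_lt.ne'
  rw [← Nat.dvd_one]
  rcases h1 with h1 | h1 | h1
  · have := Nat.le_of_dvd hpp.pos h1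
    have := hpp.pos
    omega
  · have h2 : p ∣ Nat.card F - 1 := (Dvd.intro_left 2 rfl).trans
      (h1.trans (Nat.div_dvd_of_dvd (by omega)))
    have := Nat.dvd_sub hq h2
    rwa [show Nat.card F - (Nat.card F - 1) = 1 by omega] at this
  · have h2 : p ∣ Nat.card F + 1 := (Dvd.intro_left 2 rfl).trans
      (h1.trans (Nat.div_dvd_of_dvd (by omega)))
    have := Nat.dvd_sub h2 hq
    rwa [show Nat.card F + 1 - Nat.card F = 1 by omega] at this

end Cfsg.Agent.S2471
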