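import Cfsg.Statements.S2474
import Cfsg.Agent.Lib.Forms.OSpec2

set_option autoImplicit false
open Cfsg

namespace Cfsg.Agent.S2474

open Forms Forms.Form

/-- necessary conditions for an element order -/
def Dat (p q n M : ℕ) : Prop := ∃ (s r : ℕ) (k e : Fin r → ℕ) (ε : Fin r → Bool) (K : ℕ),
  (∀ i, 0 < k i) ∧ (∀ i, 0 < e i) ∧ s + 2 * ∑ i, k i * e i = 2 * n + 1 ∧
  (s ≤ 1 → (∀ i, e i ≤ 1) → K = 0) ∧ (∀ m, 2 ∣ m → (∀ i, tq q (k i) (ε i) ∣ m) → M ∣ p ^ K * m) ∧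
  (s ≤ 1 → ∀ i, (∀ j, j = i) → e i = 1 → M ∣ p ^ K * (tq q (k i) (ε i) / 2))

/-- sufficient conditions for an element order -/
def Good (p q n M : ℕ) : Prop := ∃ (ι : Type) (_ : Fintype ι) (N k : ι → ℕ) (ε : ι → Bool) (a K : ℕ),
  (∀ i, 0 < k i) ∧ (∀ i, N i ∣ tq q (k i) (ε i)) ∧ ∑ i, k i + a = n ∧ K ≤ 1 ∧ (K = 1 → 1 ≤ a) ∧
  ∀ t, p ^ K ∣ t → (∀ i, N i ∣ 2 * t) → M ∣ t

variable {F : Type*} [Field F] [Fintype F] (p : ℕ) [Fact p.Prime] [CharP F p]

theorem dat_omega (h2 : (2 : F) ≠ 0) {n : ℕ} (g : commutator (oddForm n F).Isom) :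
    Dat p (Fintype.card F) n (orderOf g) := by
  obtain ⟨a, b, r, k, e, ε, K, h1, h3, h4, ⟨c, h5⟩, h6, h7, h8⟩ :=
    (oddForm_nondeg n h2).odat_orderOf p h2 g
  exact ⟨a + b, r, k, e, ε, K, h1, h3, by rwa [finrank_odd] at h4,
    fun h h' => Nat.le_zero.1 (h6 0 (by simp; omega) (by omega) (by simpa)),
    fun m h => h7 m fun _ => h, fun h => h8 (by omega)⟩

theorem dat_psp (h2 : (2 : F) ≠ 0) {n : ℕ} (hn : 1 ≤ n) (x : PSp n F) : Dat p (Fintype.card F) n (orderOf x) := by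
  obtain ⟨g, hg⟩ := exists_spec_PSp p hn x
  obtain ⟨a, b, r, α, k, e, a0, a1, a2, a3, a4, -, a5, a6, a7⟩ :=
    (spForm_nondeg n).exists_spec2 p (fun _ => rfl) g
  choose ε hε using fun i => (cl_iff Fintype.card_pos (a0 i)).1 ((a4 i _).2 dvd_rfl)
  have key : ∀ m (c : Kc F), (∀ β ∈ Isom.ev g, β ^ m = c) → orderOf x ∣ p ^ pexp p g * m :=
    fun m c h => (hg _).2 ⟨fun β hβ γ hγ => by
      rw [mul_comm, pow_mul, pow_mul, h β hβ, h γ hγ], dvd_mul_right _ _⟩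
  refine ⟨a + b + 1, r, k, e, ε, pexp p g, a2, a3, by rw [finrank_plus] at a5; omega,
    fun h h' => Nat.le_zero.1 (a7 0 (by omega) (by omega) (by simpa)),
    fun m h h' => key m 1 fun β hβ => ?_,
    fun h i h' _ => key _ (α i ^ (tq (Fintype.card F) (k i) (ε i) / 2)) fun β hβ => ?_⟩
  · simp only [a6, Multiset.mem_add, Multiset.mem_replicate, Multiset.mem_sum] at hβ
    rcases hβ with (⟨-, rfl⟩ | ⟨-, rfl⟩) | ⟨i, -, h3⟩
    · exact one_pow m
    · exact (even_iff_two_dvd.2 h).neg_one_pow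
    · obtain ⟨c, rfl⟩ := h' i
      exact pow_eq_of_mem_orb2 (by rw [pow_mul, hε, one_pow]) inv_one (one_pow _)
        (Multiset.mem_of_mem_nsmul h3)
  · obtain ⟨rfl, rfl⟩ : a = 0 ∧ b = 0 := by omega
    simp only [a6, Multiset.replicate_zero, zero_add, Multiset.mem_sum] at hβ
    obtain ⟨j, -, h3⟩ := hβ
    obtain rfl := h' j
    have h4 : (α j ^ (tq (Fintype.card F) (k j) (ε j) / 2))⁻¹ =
        α j ^ (tq (Fintype.card F) (k j) (ε j) / 2) :=
      inv_eq_of_mul_eq_one_right (by rw [← pow_add, ← two_mul, two_mul_tq_div h2, hε])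
    exact pow_eq_of_mem_orb2 rfl h4 (pow_card_of_inv_eq (pow_ne_zero _ (a0 j)) h4)
      (Multiset.mem_of_mem_nsmul h3)

theorem good_omega (h2 : (2 : F) ≠ 0) {n M : ℕ} (h : Good p (Fintype.card F) n M) :
    M ∈ Set.range (orderOf : commutator (oddForm n F).Isom → ℕ) := by
  obtain ⟨ι, _, N, k, ε, a, K, h1, h3, h4, h5, h6, h7⟩ := h
  choose ζ a1 a2 a3 using fun i => exists_primRoot_of_dvd_tq (h1 i) (h3 i)
  have a4 : ∀ i, ζ i ^ tq (Fintype.card F) (k i) (ε i) = 1 := fun i => (a1 i).pow_eq_one_iff_dvd _ |>.2 (h3 i)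
  obtain ⟨g, h8, h9⟩ := (oddForm_nondeg n h2).exists_omega_odd p h2 (ζ := fun i => ζ i ^ 2)
    (ε := ε) (fun i => pow_ne_zero _ (a2 i)) h1 (fun i => by rw [pow_right_comm, a4, one_pow])
    (Finset.prod_eq_one fun i _ => by rw [← pow_mul, two_mul_tq_div h2, a4]) (m := a) (K := K)
    (by rw [finrank_odd, h4]) (by
      rcases Nat.le_one_iff_eq_zero_or_eq_one.1 h5 with h | h
      · omega
      · exact h.le.trans (Nat.clog_pos (Fact.out : p.Prime).one_lt (by have := h6 h; omega)))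
  haveI := finite_isom (oddForm n F)
  exact mem_range_orderOf_of_dvd (h7 _ h8 fun i => (a1 i).dvd_of_pow_eq_one _ (by rw [pow_mul, h9]))

theorem good_psp {n M : ℕ} (hn : 1 ≤ n) (h : Good p (Fintype.card F) n M) :
    M ∈ Set.range (orderOf : PSp n F → ℕ) := by
  obtain ⟨ι, _, N, k, ε, a, K, h1, h3, h4, h5, h6, h7⟩ := h
  obtain ⟨x, h8, h9⟩ := exists_PSp_of_dvd_tq p hn N k ε h1 h3 h4 (K := K) (by
    rcases Nat.le_one_iff_eq_zero_or_eq_one.1 h5 with h | h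
    · omega
    · exact h.le.trans (Nat.clog_pos (Fact.out : p.Prime).one_lt (by have := h6 h; omega)))
  exact mem_range_orderOf_of_dvd (h7 _ h8 h9)

theorem good_of_dat (h2 : (2 : F) ≠ 0) {n M r s : ℕ} (hn : 2 ≤ n) (h : Dat p (Fintype.card F) n M)
    (hr : r.Prime) (hs : s.Prime) (hrs : r ≠ s) (hM : r * s ∣ M) :
    Good p (Fintype.card F) n (r * s) := by
  set q := Fintype.card F
  have hp : p.Prime := Fact.out
  have hp2 : p ≠ 2 := fun h => by
    have := char_odd p h2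
    rw [h] at this
    exact absurd this (by decide)
  obtain ⟨σ, ρ, k, e, ε, K, h1, h3, h4, h5, h6, h7⟩ := h
  have b0 : ∑ i, k i ≤ ∑ i, k i * e i := Finset.sum_le_sum fun i _ => Nat.le_mul_of_pos_right _ (h3 i)
  have b1 := h6 (2 * ∏ i, tq q (k i) (ε i)) (dvd_mul_right _ _)
    fun i => (Finset.dvd_prod_of_mem _ (Finset.mem_univ i)).mul_left _
  have b2 : ∀ t, t.Prime → t ≠ 2 → t ≠ p → t ∣ M → ∃ i, t ∣ tq q (k i) (ε i) := fun t c1 c2 c3 c4 => by
    have := ((Nat.coprime_primes c1 Nat.prime_two).2 c2).dvd_of_dvd_mul_left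
      ((((Nat.coprime_primes c1 hp).2 c3).pow_right K).dvd_of_dvd_mul_left (c4.trans b1))
    simpa using (c1.prime.dvd_finsetProd_iff _).1 this
  have b3 : n ≤ ∑ i, k i → σ ≤ 1 ∧ (∀ i, e i = 1) ∧ K = 0 := fun h => by
    have c1 : ∀ i, e i = 1 := fun i => (Nat.mul_eq_left (h1 i).ne').1 ((Finset.sum_eq_sum_iff_of_le
      fun i _ => Nat.le_mul_of_pos_right _ (h3 i)).1 (by omega) i (Finset.mem_univ i)).symm
    exact ⟨by omega, c1, h5 (by omega) fun i => (c1 i).le⟩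
  have b4 : p ∣ M → ∑ i, k i + 1 ≤ n := fun h => by
    by_contra h'
    rw [(b3 (by omega)).2.2, pow_zero, one_mul] at b1
    obtain ⟨i, -, hi⟩ := (hp.prime.dvd_finsetProd_iff _).1
      (((Nat.coprime_primes hp Nat.prime_two).2 hp2).dvd_of_dvd_mul_left (h.trans b1))
    exact hp.coprime_iff_not_dvd.1 (coprime_tq p (h1 i) _).symm hi
  have b5 : ∀ i, k i ≤ ∑ i, k i := fun i =>
    Finset.single_le_sum (fun _ _ => Nat.zero_le _) (Finset.mem_univ i)
  have b6 : ∀ i j, i ≠ j → k i + k j ≤ n := fun i j h => by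
    have := Finset.add_le_sum (f := k) (fun _ _ => Nat.zero_le _) (Finset.mem_univ i)
      (Finset.mem_univ j) h
    omega
  have b7 : ∀ i, k i = n → 2 * M ∣ tq q (k i) (ε i) := fun i h => by
    obtain ⟨c1, c2, c3⟩ := b3 (h ▸ b5 i)
    have := h7 c1 i (fun j => by_contra fun h' => by have := b6 j i h'; have := h1 j; omega) (c2 i)
    rw [c3, pow_zero, one_mul] at this
    rw [← two_mul_tq_div h2]
    exact Nat.mul_dvd_mul_left 2 this
  obtain ⟨ε0, b8⟩ : ∃ ε0, 4 ∣ tq q 1 ε0 := by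
    obtain ⟨c, hc⟩ := odd_card h2
    by_cases h : q % 4 = 1
    exacts [⟨false, by simp; omega⟩, ⟨true, by simp; omega⟩]
  have b9 : ∀ i, k i ≤ n := fun i => by have := b5 i; omega
  clear b0 b1 b3 h4 h5 h6 h7
  have four : ∀ t, 4 ∣ 2 * t → 2 ∣ t := fun t h => by omega
  have odd : ∀ {r t}, r.Prime → r ≠ 2 → r ∣ 2 * t → r ∣ t := fun h h' =>
    ((Nat.coprime_primes h Nat.prime_two).2 h').dvd_of_dvd_mul_left
  have cop : ∀ {r s t : ℕ}, r.Prime → s.Prime → r ≠ s → r ∣ t → s ∣ t → r * s ∣ t := fun h h' h'' =>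
    ((Nat.coprime_primes h h').2 h'').mul_dvd_of_dvd_of_dvd
  have one : ∀ N k ε K M', 0 < k → N ∣ tq q k ε → k + K ≤ n → K ≤ 1 →
      (∀ t, p ^ K ∣ t → N ∣ 2 * t → M' ∣ t) → Good p q n M' := fun N k ε K M' c1 c2 c3 c4 c5 =>
    ⟨Unit, inferInstance, fun _ => N, fun _ => k, fun _ => ε, n - k, K, fun _ => c1, fun _ => c2,
      by simp; omega, c4, by omega, fun t d1 d2 => c5 t d1 (d2 ())⟩
  have two : ∀ N k ε N' k' ε' M', 0 < k → 0 < k' → N ∣ tq q k ε → N' ∣ tq q k' ε' → k + k' ≤ n →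
      (∀ t, N ∣ 2 * t → N' ∣ 2 * t → M' ∣ t) → Good p q n M' :=
    fun N k ε N' k' ε' M' c1 c2 c3 c4 c5 c6 =>
    ⟨Bool, inferInstance, fun b => cond b N N', fun b => cond b k k', fun b => cond b ε ε',
      n - (k + k'), 0, by simp [c1, c2], by simp [c3, c4], by simp; omega, by omega, by omega,
      fun t _ d => c6 t (d true) (d false)⟩
  wlog hw : s ≠ 2 ∧ (s = p → r = 2) generalizing r s
  · rw [mul_comm] at hM ⊢
    exact this hs hr hrs.symm hM (by omega)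
  have hrM := (dvd_mul_right r s).trans hM
  have hsM := (dvd_mul_left s r).trans hM
  by_cases c1 : s = p
  · refine one 4 1 ε0 1 _ one_pos b8 hn le_rfl fun t d1 d2 => cop hr hs hrs ?_ ?_
    · rw [hw.2 c1]; exact four t d2
    · rwa [c1, ← pow_one p]
  obtain ⟨i, hi⟩ := b2 s hs hw.1 c1 hsM
  by_cases c2 : r = p
  · refine one s _ _ 1 _ (h1 i) hi (by have := b4 (c2 ▸ hrM); have := b5 i; omega) le_rfl
      fun t d1 d2 => cop hr hs hrs ?_ (odd hs hw.1 d2)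
    rwa [c2, ← pow_one p]
  by_cases c3 : r = 2
  · by_cases c4 : k i = n
    · exact one _ _ _ 0 _ (h1 i) ((Nat.mul_dvd_mul_left 2 hM).trans (b7 i c4)) (by omega) zero_le
        fun t _ d => Nat.dvd_of_mul_dvd_mul_left two_pos d
    · exact two s _ _ 4 1 ε0 _ (h1 i) one_pos hi b8 (by have := b9 i; omega)
        fun t d1 d2 => cop hr hs hrs (c3 ▸ four t d2) (odd hs hw.1 d1)
  obtain ⟨j, hj⟩ := b2 r hr c3 c2 hrM
  by_cases c4 : i = j
  · exact one _ _ _ 0 _ (h1 i) (cop hr hs hrs (c4 ▸ hj) hi) (b9 i) zero_le fun t _ d =>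
      cop hr hs hrs (odd hr c3 ((dvd_mul_right r s).trans d)) (odd hs hw.1 ((dvd_mul_left s r).trans d))
  · exact two _ _ _ _ _ _ _ (h1 i) (h1 j) hi hj (b6 i j c4)
      fun t d1 d2 => cop hr hs hrs (odd hr c3 d2) (odd hs hw.1 d1)

/-- For q odd and n ≥ 3 the simple groups PΩ(2n+1,q) and PSp(2n,q) (which have the same order but different sets of element orders) have the same prime graph: for all distinct primes r, s, one of them has an element of order r·s if and only if the other does. -/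
theorem result {F : Type*} [Field F] [Fintype F] (hodd : Odd (Fintype.card F)) (n : ℕ) (hn : 3 ≤ n) (r s : ℕ) (hr : r.Prime) (hs : s.Prime) (hrs : r ≠ s) :
    (r * s ∈ Set.range (orderOf : Cfsg.POmega F (Cfsg.quadFormOdd n F) → ℕ)) ↔ (r * s ∈ Set.range (orderOf : Cfsg.PSp n F → ℕ)) := by
  have h2 := two_ne_zero_of_odd hodd
  obtain ⟨p, hc⟩ := CharP.exists F
  haveI : Fact p.Prime := ⟨CharP.char_is_prime F p⟩
  rw [range_orderOf_POmega_odd h2 (by omega)]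
  constructor
  · rintro ⟨g, hg⟩
    exact good_psp p (by omega) (good_of_dat p h2 (by omega) (dat_omega p h2 g) hr hs hrs hg.symm.dvd)
  · rintro ⟨g, hg⟩
    exact good_omega p h2 (good_of_dat p h2 (by omega) (dat_psp p h2 (by omega) g) hr hs hrs hg.symm.dvd)

end Cfsg.Agent.S2474
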