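import Cfsg.Statements.S2476
import Cfsg.Agent.Lib.GLn.Spec3

set_option autoImplicit false
open Cfsg

namespace Cfsg.Agent.S2476

/-- The set of element orders of PSL(3,q): let F be a finite field of characteristic p with q elements and d = gcd(3, q − 1). The orders of elements of PSL(3,F) are exactly the divisors of (q² + q + 1)/d, of (q² − 1)/d, of q − 1, of p(q − 1)/d, and, when p = 2, of 4. -/
theorem result {F : Type*} [Field F] [Fintype F] (p : ℕ) [Fact p.Prime] [CharP F p] :
    Set.range (orderOf : Matrix.ProjectiveSpecialLinearGroup (Fin 3) F → ℕ) =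
      {m : ℕ | m ∣ (Fintype.card F ^ 2 + Fintype.card F + 1) / Nat.gcd 3 (Fintype.card F - 1) ∨
        m ∣ (Fintype.card F ^ 2 - 1) / Nat.gcd 3 (Fintype.card F - 1) ∨ m ∣ Fintype.card F - 1 ∨
        m ∣ p * (Fintype.card F - 1) / Nat.gcd 3 (Fintype.card F - 1) ∨ (p = 2 ∧ m ∣ 4)} := by
  classical
  rw [← Nat.card_eq_fintype_card]
  have hp : p.Prime := Fact.out
  have hq : 1 < Nat.card F := Finite.one_lt_card
  set q := Nat.card F with hqdef
  set d := Nat.gcd 3 (q - 1) with hd
  have hd3 : d ∣ 3 := Nat.gcd_dvd_left _ _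
  have hdq : d ∣ q - 1 := Nat.gcd_dvd_right _ _
  have hd0 : 0 < d := Nat.gcd_pos_of_pos_left _ (by norm_num)
  have hc2 : Nat.clog p 2 = 1 := by
    apply le_antisymm (Nat.clog_le_of_le_pow (by simpa using hp.two_le))
    exact Nat.clog_pos hp.one_lt one_lt_two
  have hpd : p * (q - 1) / d = p * ((q - 1) / d) := Nat.mul_div_assoc _ hdq
  have hq2 : q ^ 2 - 1 = (q - 1) * (q + 1) := by rw [← GLn.gs_two, GLn.pred_mul_gs hq.le]
  have hdq2 : d ∣ q + 2 := by
    have : q + 2 = (q - 1) + 3 := by omega
    rw [this]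
    exact dvd_add hdq hd3
  have hcq : (q - 1).Coprime p := by
    have := GLn.coprime_card_pow_sub_one (F := F) p one_ne_zero
    rwa [pow_one] at this
  apply Set.Subset.antisymm
  · rintro _ ⟨x, rfl⟩
    obtain ⟨t, α, k, e, h0, hk, he, hfix, hsum, hdet, hord⟩ :=
      GLn.exists_spec_PSL (K := AlgebraicClosure F) p x
    rw [Fintype.card_fin] at hsum
    have hke : ∀ i, 1 ≤ k i * e i := fun i => Nat.mul_pos (hk i) (he i)
    have ht : t ≤ 3 := by
      have := Finset.card_nsmul_le_sum Finset.univ (fun i => k i * e i) 1 (fun i _ => hke i)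
      simpa [hsum] using this
    have hF1 : ∀ i, k i = 1 → α i ^ (q - 1) = 1 := fun i h =>
      (GLn.pow_card_pow_eq_self_iff (h0 i) hq.le).1 (by simpa only [pow_one] using (hfix i 1).2 (h ▸ dvd_rfl))
    have hF2 : ∀ i, k i = 2 → α i ^ (q ^ 2 - 1) = 1 := fun i h =>
      (GLn.pow_card_pow_eq_self_iff (h0 i) (pow_pos hq.le _)).1 ((hfix i 2).2 (h ▸ dvd_rfl))
    have hmul1 : ∀ a b : ℕ, a * b = 1 → a = 1 ∧ b = 1 := fun a b h =>
      ⟨Nat.eq_one_of_mul_eq_one_right h, Nat.eq_one_of_mul_eq_one_left h⟩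
    have hmul2 : ∀ a b : ℕ, a * b = 2 → (a = 1 ∧ b = 2) ∨ (a = 2 ∧ b = 1) := fun a b h => by
      have := (Nat.prime_two.mul_eq_prime_sq_iff (x := a) (y := b))
      have h1 : a ≤ 2 := Nat.le_of_dvd two_pos ⟨b, h.symm⟩
      interval_cases a <;> omega
    have hmul3 : ∀ a b : ℕ, a * b = 3 → (a = 1 ∧ b = 3) ∨ (a = 3 ∧ b = 1) := fun a b h => by
      have h1 : a ≤ 3 := Nat.le_of_dvd three_pos ⟨b, h.symm⟩
      interval_cases a <;> omega
    -- two blocks of total sizes two and one
    have two : ∀ i j : Fin t, (∀ l, l = i ∨ l = j) → k i * e i = 2 → k j * e j = 1 →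
        α i ^ (e i * GLn.gs q (k i)) * α j ^ (e j * GLn.gs q (k j)) = 1 →
        orderOf x ∣ (q ^ 2 - 1) / d ∨ orderOf x ∣ p * (q - 1) / d := by
      intro i j hij hi hj hdet
      obtain ⟨hj1, hj2⟩ := hmul1 _ _ hj
      obtain ⟨c, hc⟩ := (GLn.mem_range_iff_pow_card_sub_one (F := F) (h0 j)).2 (hF1 j hj1)
      rw [hj1, hj2] at hdet
      simp only [GLn.gs_one, mul_one, pow_one] at hdet
      rcases hmul2 _ _ hi with ⟨hi1, hi2⟩ | ⟨hi1, hi2⟩
      · right
        rw [hi1, hi2, GLn.gs_one, mul_one] at hdet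
        refine (hord _).2 ⟨c ^ (p * (q - 1) / d), fun l => ?_⟩
        rcases hij l with rfl | rfl
        · refine ⟨?_, by rw [hi2, hc2, pow_one, hpd]; exact dvd_mul_right _ _⟩
          rw [map_pow, ← hc]
          apply mul_right_cancel₀ (pow_ne_zero (p * (q - 1) / d) (pow_ne_zero 2 (h0 l)))
          rw [← mul_pow, ← mul_pow, mul_comm (α j), hdet, one_pow, ← pow_succ', ← pow_mul, hpd]
          obtain ⟨u, hu⟩ := hd3
          have : (2 + 1) * (p * ((q - 1) / d)) = (q - 1) * (u * p) := by
            rw [show 2 + 1 = 3 from rfl]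
            conv_lhs => rw [hu]
            conv_rhs => rw [← Nat.div_mul_cancel hdq]
            ring
          rw [this, pow_mul, hF1 l hi1, one_pow]
        · exact ⟨by rw [map_pow, ← hc], by simp [hj2]⟩
      · left
        rw [hi1, hi2, GLn.gs_two, one_mul] at hdet
        refine (hord _).2 ⟨c ^ ((q ^ 2 - 1) / d), fun l => ?_⟩
        rcases hij l with rfl | rfl
        · refine ⟨?_, by simp [hi2]⟩
          rw [map_pow, ← hc]
          apply mul_right_cancel₀ (pow_ne_zero ((q ^ 2 - 1) / d) (pow_ne_zero (q + 1) (h0 l)))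
          rw [← mul_pow, ← mul_pow, mul_comm (α j), hdet, one_pow, ← pow_succ', ← pow_mul]
          obtain ⟨u, hu⟩ := hdq2
          have h1 : d ∣ q ^ 2 - 1 := hq2 ▸ hdq.mul_right _
          have : (q + 1 + 1) * ((q ^ 2 - 1) / d) = (q ^ 2 - 1) * u := by
            rw [show q + 1 + 1 = q + 2 from rfl, hu]
            conv_rhs => rw [← Nat.div_mul_cancel h1]
            ring
          rw [this, pow_mul, hF2 l hi1, one_pow]
        · exact ⟨by rw [map_pow, ← hc], by simp [hj2]⟩
    interval_cases t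
    · simp at hsum
    · simp only [Finset.univ_unique, Fin.default_eq_zero, Finset.sum_singleton,
        Finset.prod_singleton] at hsum hdet
      rcases hmul3 _ _ hsum with ⟨h1, h2⟩ | ⟨h1, h2⟩
      · obtain ⟨c, hc⟩ := (GLn.mem_range_iff_pow_card_sub_one (F := F) (h0 0)).2 (hF1 0 h1)
        have h3 : orderOf x ∣ p ^ Nat.clog p 3 := by
          refine (hord _).2 ⟨c ^ p ^ Nat.clog p 3, fun l => ?_⟩
          obtain rfl : l = 0 := Subsingleton.elim _ _
          exact ⟨by rw [map_pow, ← hc], by rw [h2]⟩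
        by_cases hp2 : p = 2
        · subst hp2
          exact Or.inr (Or.inr (Or.inr (Or.inr ⟨rfl, h3⟩)))
        · have h4 : Nat.clog p 3 ≤ 1 := Nat.clog_le_of_le_pow (by
            have := hp.two_le
            rw [pow_one]
            omega)
          refine Or.inr (Or.inr (Or.inr (Or.inl ((h3.trans (pow_dvd_pow _ h4)).trans ?_))))
          rw [hpd, pow_one]
          exact dvd_mul_right _ _
      · left
        rw [h1, h2, one_mul, GLn.gs_three] at hdet
        have h3 : d ∣ q ^ 2 + q + 1 := by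
          rw [← GLn.gs_three, hd, ← GLn.gcd_gs_pred hq.le]
          exact Nat.gcd_dvd_left _ _
        obtain ⟨c, hc⟩ := (GLn.mem_range_iff_pow_card_sub_one (F := F)
          (pow_ne_zero ((q ^ 2 + q + 1) / d) (h0 0))).2 (by
            have : (q ^ 2 + q + 1) / d * (q - 1) = (q ^ 2 + q + 1) * ((q - 1) / d) := by
              conv_lhs => rw [← Nat.div_mul_cancel hdq]
              conv_rhs => rw [← Nat.div_mul_cancel h3]
              ring
            rw [← pow_mul, this, pow_mul, hdet, one_pow])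
        refine (hord _).2 ⟨c, fun l => ?_⟩
        obtain rfl : l = 0 := Subsingleton.elim _ _
        exact ⟨hc, by simp [h2]⟩
    · rw [Fin.sum_univ_two] at hsum
      rw [Fin.prod_univ_two] at hdet
      have h1 := hke 0
      have h2 := hke 1
      have : orderOf x ∣ (q ^ 2 - 1) / d ∨ orderOf x ∣ p * (q - 1) / d := by
        by_cases h3 : k 0 * e 0 = 2
        · exact two 0 1 (by decide) h3 (by omega) hdet
        · exact two 1 0 (by decide) (by omega) (by omega) (by rw [mul_comm]; exact hdet)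
      rcases this with h | h
      · exact Or.inr (Or.inl h)
      · exact Or.inr (Or.inr (Or.inr (Or.inl h)))
    · rw [Fin.sum_univ_three] at hsum
      have h1 := hke 0
      have h2 := hke 1
      have h3 := hke 2
      have h4 : ∀ i, k i * e i = 1 := by
        intro i
        fin_cases i <;> simp only [Fin.zero_eta, Fin.mk_one, Fin.reduceFinMk] <;> omega
      refine Or.inr (Or.inr (Or.inl ((hord _).2 ⟨1, fun i => ⟨?_, ?_⟩⟩)))
      · rw [hF1 i (hmul1 _ _ (h4 i)).1, map_one]
      · simp [(hmul1 _ _ (h4 i)).2]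
  · obtain ⟨ζ, hζ⟩ := GLn.exists_isPrimitiveRoot_of_coprime (F := F) (K := AlgebraicClosure F) p
      hcq
    have hζ0 := hζ.ne_zero (by omega)
    have hζq : ζ ^ q = ζ := (GLn.pow_card_pow_eq_self_iff hζ0 hq.le).2 hζ.pow_eq_one
    rintro m (hm | hm | hm | hm | ⟨hp2, hm⟩)
    · obtain ⟨x, hx⟩ := GLn.exists_PSL_of_dvd_gs (F := F) p (n := 3) (ι := Unit)
        (fun _ => GLn.gs q 3) (fun _ => 3) (fun _ => 1) (by simp) (by simp) (fun _ => dvd_rfl)
        (by simp)
      refine GLn.mem_range_orderOf_of_dvd x (hm.trans ?_)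
      have := GLn.div_gcd_dvd_of_dvd_mul (GLn.gs_pos _ three_pos) (hx ()).1
      rwa [GLn.gcd_gs_pred hq.le, GLn.gs_three] at this
    · have hc := GLn.coprime_card_pow_sub_one (F := F) p two_ne_zero
      obtain ⟨σ, hσ⟩ := GLn.exists_isPrimitiveRoot_of_coprime (F := F) (K := AlgebraicClosure F) p
        hc
      have h1 : 0 < q ^ 2 - 1 := by rw [hq2]; exact Nat.mul_pos (by omega) (by omega)
      have hσ0 := hσ.ne_zero h1.ne'
      obtain ⟨x, c, hc0, -, hc⟩ := GLn.exists_PSL_of_spec_le (F := F) p (n := 3) (ι := Bool)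
        (fun b => if b then σ else (σ ^ (q + 1))⁻¹) (fun b => if b then 2 else 1) (fun _ => 1)
        (by rintro (_ | _) <;> simp [hσ0]) (by rintro (_ | _) <;> simp) (fun _ => one_pos)
        (by
          rintro (_ | _)
          · simp only [Bool.false_eq_true, if_false, pow_one]
            rw [GLn.pow_card_pow_eq_self_iff (inv_ne_zero (pow_ne_zero _ hσ0)) hq.le, inv_pow,
              ← pow_mul, mul_comm, ← hq2, hσ.pow_eq_one, inv_one]
          · simp only [if_true]
            exact GLn.pow_card_pow_eq_of_pow_eq_one hq.le hσ.pow_eq_one dvd_rfl)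
        (by simp) (by simp [hσ0, GLn.gs_two, hqdef])
      have h3 := (hc true).1
      have h4 := (hc false).1
      simp only [if_true] at h3
      simp only [Bool.false_eq_true, if_false] at h4
      refine GLn.mem_range_orderOf_of_dvd x (hm.trans ?_)
      have h5 : q ^ 2 - 1 ∣ orderOf x * (q + 2) := by
        rw [← hσ.pow_eq_one_iff_dvd]
        rw [← h3, inv_pow] at h4
        calc σ ^ (orderOf x * (q + 2)) = (σ ^ (q + 1)) ^ orderOf x * σ ^ orderOf x := by ring
          _ = 1 := by rw [← h4, mul_inv_cancel₀ (pow_ne_zero _ (pow_ne_zero _ hσ0))]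
      have h6 := GLn.div_gcd_dvd_of_dvd_mul h1 h5
      have h7 : Nat.gcd (q ^ 2 - 1) (q + 2) = d := by
        apply Nat.dvd_antisymm
        · have h8 : Nat.gcd (q ^ 2 - 1) (q + 2) ∣ 3 := by
            have h9 : q ^ 2 - 1 = (q + 2) * (q - 2) + 3 := by
              obtain ⟨s, hs⟩ : ∃ s, q = s + 2 := ⟨q - 2, by omega⟩
              rw [hq2, hs]
              simp only [Nat.add_sub_cancel, show s + 2 - 1 = s + 1 from rfl]
              ring
            have h10 := Nat.gcd_dvd_left (q ^ 2 - 1) (q + 2)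
            have h11 := Nat.gcd_dvd_right (q ^ 2 - 1) (q + 2)
            generalize Nat.gcd (q ^ 2 - 1) (q + 2) = g at h10 h11
            rw [h9] at h10
            exact (Nat.dvd_add_right (h11.mul_right _)).1 h10
          refine Nat.dvd_gcd h8 ?_
          have h9 := Nat.gcd_dvd_right (q ^ 2 - 1) (q + 2)
          generalize Nat.gcd (q ^ 2 - 1) (q + 2) = g at h8 h9
          rw [show q + 2 = 3 + (q - 1) by omega] at h9
          exact (Nat.dvd_add_right h8).1 h9
        · exact Nat.dvd_gcd (hq2 ▸ hdq.mul_right _) hdq2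
      rwa [h7] at h6
    · obtain ⟨x, c, hc0, hc1, hc⟩ := GLn.exists_PSL_of_spec_le (F := F) p (n := 3) (ι := Bool)
        (fun b => if b then ζ else ζ⁻¹) (fun _ => 1) (fun _ => 1)
        (by rintro (_ | _) <;> simp [hζ0]) (fun _ => one_pos) (fun _ => one_pos)
        (by
          rintro (_ | _)
          · simp only [Bool.false_eq_true, if_false, pow_one]
            rw [inv_pow, hζq]
          · simp only [if_true, pow_one]
            exact hζq)
        (by simp) (by simp [hζ0])
      refine GLn.mem_range_orderOf_of_dvd x (hm.trans ?_)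
      have h3 := (hc true).1
      simp only [if_true] at h3
      rw [← hζ.pow_eq_one_iff_dvd, h3, hc1 (by simp), map_one]
    · obtain ⟨x, c, hc0, hc1, hc⟩ := GLn.exists_PSL_of_spec_le (F := F) p (n := 3) (ι := Bool)
        (fun b => if b then ζ else (ζ ^ 2)⁻¹) (fun _ => 1) (fun b => if b then 2 else 1)
        (by rintro (_ | _) <;> simp [hζ0]) (fun _ => one_pos) (by rintro (_ | _) <;> simp)
        (by
          rintro (_ | _)
          · simp only [Bool.false_eq_true, if_false, pow_one]
            rw [inv_pow, ← pow_mul, mul_comm, pow_mul, hζq]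
          · simp only [if_true, pow_one]
            exact hζq)
        (by simp) (by simp [hζ0])
      have h3 := hc true
      have h4 := hc false
      simp only [if_true, hc2, pow_one] at h3
      simp only [Bool.false_eq_true, if_false] at h4
      refine GLn.mem_range_orderOf_of_dvd x (hm.trans ?_)
      have h5 : q - 1 ∣ orderOf x * 3 := by
        rw [← hζ.pow_eq_one_iff_dvd]
        have h6 := h4.1
        rw [← h3.1, inv_pow] at h6
        calc ζ ^ (orderOf x * 3) = (ζ ^ 2) ^ orderOf x * ζ ^ orderOf x := by ring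
          _ = 1 := by rw [← h6, mul_inv_cancel₀ (pow_ne_zero _ (pow_ne_zero _ hζ0))]
      have h6 := GLn.div_gcd_dvd_of_dvd_mul (by omega) h5
      rw [Nat.gcd_comm] at h6
      rw [hpd]
      exact (Nat.Coprime.coprime_dvd_left (Nat.div_dvd_of_dvd hdq) hcq).symm.mul_dvd_of_dvd_of_dvd
        h3.2 h6
    · subst hp2
      obtain ⟨x, hx⟩ := GLn.exists_PSL_of_dvd_gs (F := F) 2 (n := 3) (ι := Unit)
        (fun _ => 1) (fun _ => 1) (fun _ => 3) (by simp) (by simp) (fun _ => one_dvd _)
        (by simp)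
      exact GLn.mem_range_orderOf_of_dvd x (hm.trans (hx ()).2)

end Cfsg.Agent.S2476
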