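import Cfsg.Statements.S2479
import Cfsg.Agent.S2384
import Cfsg.Agent.Lib.GLn.ClassBounds

set_option autoImplicit false
open Cfsg

namespace Cfsg.Agent.S2479

/-- The number of conjugacy classes of SL(n,q): for F a finite field with q elements, the number k of conjugacy classes of SL(n,F) satisfies q^(n−1) < k and k ≤ (5/2)·q^(n−1) for n ≥ 2, and k ≤ q^(n−1) + 3q^(n−2) for n ≥ 3. -/
theorem result {F : Type*} [Field F] [Fintype F] (n : ℕ) (hn : 2 ≤ n) :
    Fintype.card F ^ (n - 1) < Nat.card (ConjClasses (Matrix.SpecialLinearGroup (Fin n) F)) ∧ 2 * Nat.card (ConjClasses (Matrix.SpecialLinearGroup (Fin n) F)) ≤ 5 * Fintype.card F ^ (n - 1) ∧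
      (3 ≤ n → Nat.card (ConjClasses (Matrix.SpecialLinearGroup (Fin n) F)) ≤ Fintype.card F ^ (n - 1) + 3 * Fintype.card F ^ (n - 2)) := by
  have hq : 0 < Nat.card F - 1 := Nat.sub_pos_of_lt Finite.one_lt_card
  have h1 := GLn.card_conjClasses_SL_mul_le (F := F) (n := Fin n) (M := n) (by simp)
  rw [Fintype.card_fin] at h1
  rw [← Nat.card_eq_fintype_card]
  refine ⟨?_, ?_, fun h3 => ?_⟩
  · obtain ⟨p, hp⟩ := CharP.exists F
    have : Fact p.Prime := ⟨CharP.char_is_prime F p⟩
    rw [← S2384.result (F := F) Nat.card_eq_fintype_card.symm p n (by omega)]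
    have hD : GLn.Valid ({(Polynomial.X - 1, n)} : Multiset (Polynomial F × ℕ)) := by
      intro x hx
      rw [Multiset.mem_singleton.1 hx]
      exact ⟨GLn.monic_X_sub_one, GLn.irreducible_X_sub_one, by omega⟩
    obtain ⟨A, hA⟩ := hD.exists_typ_eq (n := Fin n) (by simp [GLn.wt, GLn.natDegree_X_sub_one'])
    have hdet : A.det = 1 := by
      rw [GLn.det_eq_typ, hA, GLn.chp]
      simp [Polynomial.coeff_zero_eq_eval_zero, ← mul_pow]
    refine Finite.card_subtype_lt (x := ConjClasses.mk ⟨A, hdet⟩) ?_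
    rintro ⟨g, hg, hc⟩
    have h2 := GLn.typ_eq_of_isConj_SL (ConjClasses.mk_eq_mk_iff_isConj.1 hg)
    rw [← GLn.orderOf_toGL, GLn.coprime_orderOf_iff_typ] at hc
    have h3 := hc (Polynomial.X - 1, n) (by
      change _ ∈ GLn.typ (g : Matrix (Fin n) (Fin n) F)
      rw [h2]
      change _ ∈ GLn.typ A
      rw [hA]
      exact Multiset.mem_singleton_self _)
    simp only at h3
    omega
  · have h2 := GLn.two_mul_sqS_le (F := F) (M := n) (n := n) (by omega) le_rfl hn
    refine Nat.le_of_mul_le_mul_right ?_ hq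
    rw [mul_assoc]
    omega
  · exact Nat.le_of_mul_le_mul_right (h1.trans (GLn.sqS_le_of_three_le h3 le_rfl)) hq

end Cfsg.Agent.S2479
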