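import Cfsg.Statements.S2480
import Cfsg.Agent.S2479

set_option autoImplicit false
open Cfsg

namespace Cfsg.Agent.S2480

/-- The number of conjugacy classes of PSL(n,q): for F a finite field with q elements, n ≥ 2 and d = gcd(n, q − 1), the number k of conjugacy classes of PSL(n,F) satisfies q^(n−1) ≤ d·k ≤ q^(n−1) + 5q^(n−2). -/
theorem result {F : Type*} [Field F] [Fintype F] (n : ℕ) (hn : 2 ≤ n) :
    Fintype.card F ^ (n - 1) ≤ Nat.gcd n (Fintype.card F - 1) * Nat.card (ConjClasses (Matrix.ProjectiveSpecialLinearGroup (Fin n) F)) ∧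
      Nat.gcd n (Fintype.card F - 1) * Nat.card (ConjClasses (Matrix.ProjectiveSpecialLinearGroup (Fin n) F)) ≤ Fintype.card F ^ (n - 1) + 5 * Fintype.card F ^ (n - 2) := by
  classical
  obtain ⟨h1, h2, h3⟩ := S2479.result (F := F) n hn
  have : Nonempty (Fin n) := ⟨⟨0, by omega⟩⟩
  have hq : 1 < Nat.card F := Finite.one_lt_card
  have hq' : 0 < Nat.card F - 1 := Nat.sub_pos_of_lt hq
  have hZ := GLn.card_center_SL (F := F) (n := Fin n)
  rw [Fintype.card_fin] at hZ
  rw [← Nat.card_eq_fintype_card] at h1 h2 h3 ⊢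
  have hB := GLn.card_conjClasses_quotient_center (Matrix.SpecialLinearGroup (Fin n) F)
  rw [← hZ, hB, ← Finset.add_sum_erase _ _ (Finset.mem_univ 1)]
  have e1 : Nat.card {c : ConjClasses (Matrix.SpecialLinearGroup (Fin n) F) // ∃ g,
      ConjClasses.mk g = c ∧ IsConj
        ((1 : Subgroup.center (Matrix.SpecialLinearGroup (Fin n) F)).1 * g) g} =
      Nat.card (ConjClasses (Matrix.SpecialLinearGroup (Fin n) F)) := by
    refine Nat.card_congr (Equiv.subtypeUnivEquiv fun c => ?_)
    obtain ⟨g, rfl⟩ := ConjClasses.exists_rep c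
    exact ⟨g, rfl, by rw [OneMemClass.coe_one, one_mul]⟩
  rw [e1]
  refine ⟨h1.le.trans (Nat.le_add_right _ _), ?_⟩
  have key : ∀ z ∈ Finset.univ.erase (1 : Subgroup.center (Matrix.SpecialLinearGroup (Fin n) F)),
      ∃ m, 1 ≤ m ∧ m ≤ n / 2 ∧ Nat.card {c : ConjClasses (Matrix.SpecialLinearGroup (Fin n) F) //
        ∃ g, ConjClasses.mk g = c ∧ IsConj (z.1 * g) g} * (Nat.card F - 1) ≤ GLn.sqS F n m := by
    intro z hz
    obtain ⟨r, hr, hr'⟩ := Matrix.SpecialLinearGroup.mem_center_iff.1 z.2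
    rw [Fintype.card_fin] at hr
    have h4 : orderOf r ∣ n := orderOf_dvd_of_pow_eq_one hr
    have h5 : 0 < orderOf r := Nat.pos_of_dvd_of_pos h4 (by omega)
    have h6 : orderOf r ≠ 1 := by
      intro h
      rw [orderOf_eq_one_iff] at h
      apply Finset.ne_of_mem_erase hz
      apply Subtype.ext
      apply Subtype.ext
      rw [← hr', h, map_one]
      rfl
    have h7 := GLn.card_fixed_mul_le z.1 hr'.symm h5 (M := n) (by simp)
    rw [Fintype.card_fin] at h7
    exact ⟨_, Nat.div_pos (Nat.le_of_dvd (by omega) h4) h5,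
      Nat.div_le_div_left (by omega) two_pos, h7⟩
  have hc : (Finset.univ.erase (1 : Subgroup.center (Matrix.SpecialLinearGroup (Fin n) F))).card =
      Nat.gcd n (Nat.card F - 1) - 1 := by
    rw [Finset.card_erase_of_mem (Finset.mem_univ _), Finset.card_univ, ← Nat.card_eq_fintype_card,
      hZ]
  have g1 : Nat.gcd n (Nat.card F - 1) ≤ n := Nat.gcd_le_left _ (by omega)
  have g2 : Nat.gcd n (Nat.card F - 1) ≤ Nat.card F - 1 := Nat.gcd_le_right _ hq'
  rcases hn.eq_or_lt with rfl | hn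
  · have h4 := Finset.sum_le_card_nsmul _ _ 1 fun z hz => by
      obtain ⟨m, m1, m2, m3⟩ := key z hz
      obtain rfl : m = 1 := by omega
      exact Nat.le_of_mul_le_mul_right (m3.trans ((GLn.sqS_one_le le_rfl).trans (one_mul _).ge)) hq'
    have h5 := GLn.card_conjClasses_SL_mul_le (F := F) (n := Fin 2) (M := 2) (by simp)
    rw [Fintype.card_fin] at h5
    have h6 := Nat.le_of_mul_le_mul_right (h5.trans (GLn.sqS_two_le le_rfl).1) hq'
    rw [hc, smul_eq_mul] at h4
    norm_num only [pow_one, pow_zero]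
    omega
  have h4 := Finset.sum_le_card_nsmul _
    (fun z : Subgroup.center (Matrix.SpecialLinearGroup (Fin n) F) =>
      2 * Nat.card {c : ConjClasses (Matrix.SpecialLinearGroup (Fin n) F) //
        ∃ g, ConjClasses.mk g = c ∧ IsConj (z.1 * g) g})
    (5 * Nat.card F ^ (n / 2 - 1)) fun z hz => by
    obtain ⟨m, m1, m2, m3⟩ := key z hz
    have m4 := GLn.two_mul_sqS_le (F := F) (M := n) m1 (by omega) (by omega)
    have m5 := (Nat.mul_le_mul_left 2 m3).trans m4
    rw [← mul_assoc] at m5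
    have m6 := (Nat.le_of_mul_le_mul_right m5 hq').trans
      (Nat.mul_le_mul_left 5 (Nat.pow_le_pow_right hq.le (by omega : m - 1 ≤ n / 2 - 1)))
    exact m6
  rw [← Finset.mul_sum, hc, smul_eq_mul] at h4
  have h5 : (Nat.gcd n (Nat.card F - 1) - 1) * (5 * Nat.card F ^ (n / 2 - 1)) ≤
      4 * Nat.card F ^ (n - 2) := by
    generalize Nat.gcd n (Nat.card F - 1) = d at g1 g2
    generalize Nat.card F = q at hq g2
    rcases (show 3 ≤ n from hn).eq_or_lt with rfl | hn
    · norm_num only [pow_one, pow_zero]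
      omega
    rcases (show 4 ≤ n from hn).eq_or_lt with rfl | hn
    · norm_num only [pow_one, pow_zero]
      have : (d - 1) * 5 ≤ 4 * q := by omega
      nlinarith
    · have a1 : q ^ (n / 2 - 1) * q * q ≤ q ^ (n - 2) := by
        rw [← pow_succ, ← pow_succ]
        exact Nat.pow_le_pow_right hq.le (by omega)
      have a2 : d - 1 ≤ q := by omega
      generalize q ^ (n / 2 - 1) = y at a1
      have a3 : (d - 1) * (5 * y) ≤ q * (5 * y) := Nat.mul_le_mul_right _ a2
      have a4 : y * q * 2 ≤ y * q * q := Nat.mul_le_mul_left _ hq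
      nlinarith
  have h6 := h3 hn
  omega

end Cfsg.Agent.S2480
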