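import Cfsg.Statements.S2481
import Cfsg.Agent.Lib.Forms.UClass
import Cfsg.Agent.S2386

set_option autoImplicit false
open Cfsg

namespace Cfsg.Agent.S2481

open Forms Finset

theorem PU_step {q C a : ℝ} (hq : 1 < q) (hC : 0 ≤ C) (ha : 1 + q⁻¹ ≤ a * (1 - q⁻¹)) {M : ℕ}
    (h : PU q M ≤ C * (1 - a * q⁻¹ ^ (M + 1))) : PU q (M + 1) ≤ C * (1 - a * q⁻¹ ^ (M + 2)) := by
  have h0 : 0 < q⁻¹ := by positivity
  have h1 : q⁻¹ < 1 := inv_lt_one_of_one_lt₀ hq
  have h2 : q⁻¹ ^ (M + 1) < 1 := pow_lt_one₀ h0.le h1 (Nat.succ_ne_zero M)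
  have h3 : 0 < q⁻¹ ^ (M + 1) := by positivity
  have h4 : 0 ≤ a := by nlinarith
  rw [PU, prod_range_succ, ← PU, ← mul_div_assoc, div_le_iff₀ (by linarith), pow_succ' _ (M + 1)]
  refine (mul_le_mul_of_nonneg_right h (by positivity)).trans ?_
  rw [mul_assoc, mul_assoc]
  refine mul_le_mul_of_nonneg_left ?_ hC
  generalize q⁻¹ ^ (M + 1) = y at h2 h3
  generalize q⁻¹ = x at h0 h1 ha
  nlinarith [mul_nonneg (sub_nonneg.2 ha) h3.le, mul_nonneg (mul_nonneg h4 h0.le) (sq_nonneg y)]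

theorem PU_le_three {q : ℝ} (hq : 3 ≤ q) (M : ℕ) : PU q M ≤ 3 := by
  have h0 : q⁻¹ ≤ 3⁻¹ := inv_anti₀ (by norm_num) hq
  have h1 : PU q M ≤ 3 * (1 - 2 * q⁻¹ ^ (M + 1)) := by
    induction M with
    | zero => simp only [PU, prod_range_zero, zero_add, pow_one]; linarith
    | succ M ih => exact PU_step (by linarith) (by norm_num) (by linarith) ih
  have h2 : 0 ≤ q⁻¹ ^ (M + 1) := by positivity
  linarith

theorem PU_two (M : ℕ) : PU 2 M ≤ 6 ∧ PU 2 M ≤ 4 ^ M := by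
  have h1 : ∀ M, PU 2 (M + 2) ≤ 6 * (1 - 3 * (2 : ℝ)⁻¹ ^ (M + 3)) := fun M => by
    induction M with
    | zero => norm_num [PU, prod_range_succ]
    | succ M ih => exact PU_step (by norm_num) (by norm_num) (by norm_num) ih
  match M with
  | 0 => norm_num [PU]
  | 1 => norm_num [PU]
  | M + 2 =>
    have h2 : 0 ≤ (2 : ℝ)⁻¹ ^ (M + 3) := by positivity
    have h3 : (1 : ℝ) ≤ 4 ^ M := one_le_pow₀ (by norm_num)
    have := h1 M
    rw [pow_add 4]
    constructor <;> linarith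

theorem sum_le (n : ℕ) : ∑ d ∈ Icc 1 n, ((d : ℝ) ^ 2 - 1) * (3 : ℝ)⁻¹ ^ (d - 1) =
    3 - (3 * (n : ℝ) ^ 2 + 9 * n + 6) / 2 * (3 : ℝ)⁻¹ ^ n := by
  induction n with
  | zero => norm_num
  | succ n ih =>
    rw [sum_Icc_succ_top (by omega), ih, Nat.add_sub_cancel]
    push_cast
    ring

theorem main {q n : ℕ} (hq : 2 ≤ q) :
    PU q n * q ^ n + ∑ d ∈ (Icc 2 (n + 1)).filter (fun d => d ∣ n + 1 ∧ d ∣ q + 1),
      ((d : ℝ) ^ 2 - 1) * (PU q ((n + 1) / d - 1) * q ^ ((n + 1) / d - 1)) ≤ 8 * q ^ n := by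
  have hq' : (2 : ℝ) ≤ q := by exact_mod_cast hq
  have h0 : (0 : ℝ) < q ^ n := by positivity
  have h1 : ∀ d ∈ (Icc 2 (n + 1)).filter (fun d => d ∣ n + 1 ∧ d ∣ q + 1),
      ((d : ℝ) ^ 2 - 1) * (PU q ((n + 1) / d - 1) * q ^ ((n + 1) / d - 1)) ≤
        ((d : ℝ) ^ 2 - 1) * (q : ℝ)⁻¹ ^ (d - 1) * q ^ n := by
    intro d hd
    obtain ⟨h2, ⟨m, hm⟩, h3⟩ := mem_filter.1 hd
    obtain ⟨e, rfl⟩ : ∃ e, d = e + 2 := ⟨d - 2, by have := (mem_Icc.1 h2).1; omega⟩
    obtain ⟨m, rfl⟩ : ∃ k, m = k + 1 := ⟨m - 1, by rcases m with _ | m <;> simp at hm ⊢⟩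
    rw [hm, Nat.mul_div_cancel_left _ (by omega), Nat.add_sub_cancel, mul_assoc,
      show n = (e + 1) + ((e + 1) * m + m) by nlinarith, show e + 2 - 1 = e + 1 from rfl,
      pow_add _ (e + 1), ← mul_assoc (_ ^ _), ← mul_pow, inv_mul_cancel₀ (by linarith), one_pow,
      one_mul, pow_add]
    refine mul_le_mul_of_nonneg_left (mul_le_mul_of_nonneg_right ?_ (by positivity)) ?_
    · rcases hq.eq_or_lt with rfl | hq
      · obtain rfl : e = 1 := by
          have := Nat.le_of_dvd (by norm_num) h3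
          rcases e with _ | _ | e <;> omega
        rw [pow_mul]
        norm_num
        exact (PU_two m).2
      · have h4 : (3 : ℝ) ≤ q := by exact_mod_cast hq
        rcases m with _ | m
        · simp [PU]
        · exact (PU_le_three h4 _).trans (h4.trans (le_self_pow₀ (by linarith) (by positivity)))
    · push_cast
      nlinarith [(Nat.cast_nonneg e : (0 : ℝ) ≤ e)]
  have h2 := sum_le_sum h1
  rw [← sum_mul] at h2
  rcases hq.eq_or_lt with rfl | hq
  · have h3 : ∑ d ∈ (Icc 2 (n + 1)).filter (fun d => d ∣ n + 1 ∧ d ∣ 2 + 1),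
        ((d : ℝ) ^ 2 - 1) * ((2 : ℕ) : ℝ)⁻¹ ^ (d - 1) ≤ 2 := by
      refine (sum_le_sum_of_subset_of_nonneg (t := {3}) (fun d hd => ?_) fun d hd _ => ?_).trans ?_
      · obtain ⟨h2, -, h3⟩ := mem_filter.1 hd
        have := (mem_Icc.1 h2).1
        rcases (Nat.dvd_prime Nat.prime_three).1 h3 with h | h <;> simp [h] at this ⊢
      · rw [mem_singleton.1 hd]; norm_num
      · norm_num
    have h4 := (PU_two n).1
    push_cast at *
    nlinarith
  · have h4 : (3 : ℝ) ≤ q := by exact_mod_cast hq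
    have h3 : ∑ d ∈ (Icc 2 (n + 1)).filter (fun d => d ∣ n + 1 ∧ d ∣ q + 1),
        ((d : ℝ) ^ 2 - 1) * (q : ℝ)⁻¹ ^ (d - 1) ≤ 3 := by
      have h5 : ∀ d ∈ Icc 1 (n + 1), (0 : ℝ) ≤ (d : ℝ) ^ 2 - 1 := fun d hd => by
        have : (1 : ℝ) ≤ d := by exact_mod_cast (mem_Icc.1 hd).1
        nlinarith
      refine (sum_le_sum_of_subset_of_nonneg (t := Icc 1 (n + 1))
        ((filter_subset _ _).trans (Icc_subset_Icc_left (by omega)))
        fun d hd _ => mul_nonneg (h5 d hd) (by positivity)).trans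
        ((sum_le_sum fun d hd => mul_le_mul_of_nonneg_left (pow_le_pow_left₀ (by positivity)
          (inv_anti₀ (by norm_num) h4) _) (h5 d hd)).trans ?_)
      rw [sum_le, sub_le_self_iff]
      positivity
    have h5 := PU_le_three h4 n
    nlinarith

/-- The number of conjugacy classes of SU(n,q): for n ≥ 2, q a prime power and F the field with q² elements, the number k of conjugacy classes of SU(n,q) (the determinant-one isometries of the standard Hermitian form on F^n) satisfies q^(n−1) ≤ k ≤ 8.26·q^(n−1). -/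
theorem result {F : Type*} [Field F] [Fintype F] (n q : ℕ) (hn : 2 ≤ n) (hF : Fintype.card F = q ^ 2) :
    q ^ (n - 1) ≤ Nat.card (ConjClasses (Cfsg.SU n F q)) ∧ 100 * Nat.card (ConjClasses (Cfsg.SU n F q)) ≤ 826 * q ^ (n - 1) := by
  obtain ⟨p, k, hp, hc, -, hk⟩ := exists_char_pow hF
  have := Fact.mk hp
  refine ⟨(S2386.result hF p n (by omega)).symm.trans_le (Finite.card_subtype_le _), ?_⟩
  obtain ⟨n, rfl⟩ : ∃ k, n = k + 1 := ⟨n - 1, by omega⟩
  have hq := two_le_q hF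
  have hq' : (2 : ℝ) ≤ q := by exact_mod_cast hq
  have h1 := (uForm_nondeg (n + 1) hF).card_conjClasses_SIsom
  rw [Module.finrank_fin_fun] at h1
  have h2 := h1.trans (sum_gM_sq_le hF n.succ_pos)
  have h3 : ∀ m, (Nat.card (ST (uP hF) (m + 1) (m + 1)) : ℝ) ≤ PU q m * q ^ m * (q + 1) := fun m =>
    (card_ST_le hF m _).trans_eq (by field_simp; ring)
  have h4 : (Nat.card (ConjClasses (uForm (n + 1) hF).SIsom) : ℝ) * (q + 1) ≤
      8 * q ^ n * (q + 1) := by
    have h2' := (Nat.cast_le (α := ℝ)).2 h2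
    rw [Nat.cast_mul, Nat.cast_add q, Nat.cast_one] at h2'
    refine le_trans h2' (le_trans ?_ (mul_le_mul_of_nonneg_right (main hq) (by linarith)))
    rw [Nat.cast_add, Nat.cast_sum, add_mul, sum_mul]
    refine add_le_add (h3 n) (sum_le_sum fun d hd => ?_)
    obtain ⟨h5, h6⟩ := mem_Icc.1 (mem_filter.1 hd).1
    have h7 := h3 ((n + 1) / d - 1)
    rw [Nat.sub_add_cancel (Nat.div_pos h6 (by omega))] at h7
    rw [Nat.cast_mul, Nat.cast_sub (Nat.one_le_pow _ _ (by omega)), mul_assoc]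
    push_cast
    refine mul_le_mul_of_nonneg_left h7 ?_
    have : (2 : ℝ) ≤ d := by exact_mod_cast h5
    nlinarith
  have h5 : Nat.card (ConjClasses (uForm (n + 1) hF).SIsom) ≤ 8 * q ^ n := by
    exact_mod_cast le_of_mul_le_mul_right h4 (by linarith)
  have h6 : Nat.card (ConjClasses (SU (n + 1) F q)) ≤
      Nat.card (ConjClasses (uForm (n + 1) hF).SIsom) := by
    have := (uForm (n + 1) hF).finite_isom
    exact Nat.card_le_card_of_surjective _
      (ConjClasses.map_surjective (f := (suEquiv _ hF).symm.toMonoidHom) (suEquiv _ hF).symm.surjective)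
  rw [Nat.add_sub_cancel]
  omega

end Cfsg.Agent.S2481
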