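import Cfsg.Statements.S2482
import Cfsg.Agent.Lib.Forms.SpClass
import Cfsg.Agent.S2385

set_option autoImplicit false
open Cfsg

namespace Cfsg.Agent.S2482

open Forms Finset

theorem prod_le (M : ℕ) : ∏ i ∈ range (M + 4), (1 + (3 : ℝ)⁻¹ ^ (i + 1)) ^ 4 / (1 - 3⁻¹ ^ (i + 1)) ≤
    54 / 5 * (1 - 9 * 3⁻¹ ^ (M + 5)) := by
  induction M with
  | zero => norm_num [prod_range_succ]
  | succ M ih =>
    have h2 : (3 : ℝ)⁻¹ ^ (M + 5) < 1 := pow_lt_one₀ (by norm_num) (by norm_num) (Nat.succ_ne_zero _)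
    have h3 : 0 < (3 : ℝ)⁻¹ ^ (M + 5) := by positivity
    rw [show M + 1 + 4 = M + 4 + 1 from rfl, prod_range_succ, ← mul_div_assoc,
      div_le_iff₀ (by linarith), show M + 1 + 5 = M + 5 + 1 from rfl, pow_succ _ (M + 5)]
    refine (mul_le_mul_of_nonneg_right ih (by positivity)).trans ?_
    rw [show M + 4 + 1 = M + 5 from rfl]
    generalize (3 : ℝ)⁻¹ ^ (M + 5) = x at h3
    nlinarith [pow_pos h3 2, pow_pos h3 3, pow_pos h3 4, pow_pos h3 5]

/-- The number of conjugacy classes of Sp(2n,q), q odd: for F a finite field of odd order q and n ≥ 1, the number k of conjugacy classes of Sp(2n,F) satisfies q^n ≤ k ≤ 10.8·q^n. -/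
theorem result {F : Type*} [Field F] [Fintype F] (hodd : Odd (Fintype.card F)) (n : ℕ) (hn : 1 ≤ n) :
    Fintype.card F ^ n ≤ Nat.card (ConjClasses (Matrix.symplecticGroup (Fin n) F)) ∧ 5 * Nat.card (ConjClasses (Matrix.symplecticGroup (Fin n) F)) ≤ 54 * Fintype.card F ^ n := by
  have h2 : (2 : F) ≠ 0 := fun h => by
    have := FiniteField.even_card_of_char_two (F := F) (CharP.ringChar_of_prime_eq_zero Nat.prime_two h)
    rw [Nat.odd_iff] at hodd
    omega
  obtain ⟨p, hp⟩ := CharP.exists F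
  have := Fact.mk (CharP.char_is_prime F p)
  refine ⟨(S2385.result rfl p n).symm.trans_le (Finite.card_subtype_le _), ?_⟩
  have h3 := (spForm_nondeg (F := F) n).card_conjClasses_sp h2 (finrank_plus n) (M := 2 * n + 4)
    (by omega)
  have hq : (3 : ℝ) ≤ Fintype.card F := by
    have := Fintype.one_lt_card (α := F)
    obtain ⟨k, hk⟩ := hodd
    exact_mod_cast (show 3 ≤ Fintype.card F by omega)
  have h4 : ∏ i ∈ range (2 * n + 4), (1 + (Fintype.card F : ℝ)⁻¹ ^ (i + 1)) ^ 4 /
      (1 - (Fintype.card F : ℝ)⁻¹ ^ (i + 1)) ≤ 54 / 5 := by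
    have h5 : ∀ i, (Fintype.card F : ℝ)⁻¹ ^ (i + 1) ≤ 3⁻¹ ^ (i + 1) := fun i =>
      pow_le_pow_left₀ (by positivity) (inv_anti₀ (by norm_num) hq) _
    have h6 : ∀ i, (3 : ℝ)⁻¹ ^ (i + 1) < 1 := fun i =>
      pow_lt_one₀ (by norm_num) (by norm_num) (Nat.succ_ne_zero _)
    refine (prod_le_prod (fun i _ => div_nonneg (by positivity) (by linarith [h5 i, h6 i]))
      fun i _ => ?_).trans ((prod_le (2 * n)).trans ?_)
    · have := h5 i
      have := h6 i
      gcongr
    · have : 0 < (3 : ℝ)⁻¹ ^ (2 * n + 5) := by positivity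
      linarith
  have h5 : Nat.card (ConjClasses (Matrix.symplecticGroup (Fin n) F)) ≤
      Nat.card (ConjClasses (spForm n F).Isom) := by
    have := (spForm n F).finite_isom
    exact Nat.card_le_card_of_surjective _ (ConjClasses.map_surjective
      (f := (spEquiv n F).symm.toMonoidHom) (spEquiv n F).symm.surjective)
  have h6 : 5 * Nat.card (ConjClasses (spForm n F).Isom) ≤ 54 * Fintype.card F ^ n := by
    have := mul_le_mul_of_nonneg_right h4 (show (0 : ℝ) ≤ Fintype.card F ^ n by positivity)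
    exact_mod_cast (show (5 * Nat.card (ConjClasses (spForm n F).Isom) : ℝ) ≤
      54 * Fintype.card F ^ n by linarith)
  omega

end Cfsg.Agent.S2482
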