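import Cfsg.Statements.S2483
import Cfsg.Agent.Lib.Cov.Low

set_option autoImplicit false
open Cfsg

namespace Cfsg.Agent.S2483

/-- The covering number of PSL(n,q) is n: let F be a finite field with q ≥ 4 elements and n ≥ 3. For every non-identity element x of PSL(n,F), every element of PSL(n,F) is a product of n conjugates of x; and for some non-identity x, some element is not a product of n − 1 conjugates of x. -/
theorem result {F : Type*} [Field F] [Fintype F] (h4 : 4 ≤ Fintype.card F) (n : ℕ) (hn : 3 ≤ n) :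
    (∀ x : Matrix.ProjectiveSpecialLinearGroup (Fin n) F, x ≠ 1 → ∀ g : Matrix.ProjectiveSpecialLinearGroup (Fin n) F, ∃ f : Fin n → Matrix.ProjectiveSpecialLinearGroup (Fin n) F, g = (List.ofFn fun i => f i * x * (f i)⁻¹).prod) ∧
    (∃ x : Matrix.ProjectiveSpecialLinearGroup (Fin n) F, x ≠ 1 ∧ ∃ g : Matrix.ProjectiveSpecialLinearGroup (Fin n) F, ∀ f : Fin (n - 1) → Matrix.ProjectiveSpecialLinearGroup (Fin n) F, g ≠ (List.ofFn fun i => f i * x * (f i)⁻¹).prod) := by
  let π := QuotientGroup.mk' (Subgroup.center (Matrix.SpecialLinearGroup (Fin n) F))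
  have key : ∀ (k : ℕ) (f : Fin k → Matrix.SpecialLinearGroup (Fin n) F) x,
      (List.ofFn fun i => π (f i) * π x * (π (f i))⁻¹).prod =
        π (List.ofFn fun i => f i * x * (f i)⁻¹).prod := fun k f x => by
    rw [map_list_prod, List.map_ofFn]
    simp only [Function.comp_def, map_mul, map_inv]
  refine ⟨fun x hx g => ?_, ?_⟩
  · obtain ⟨x, rfl⟩ := QuotientGroup.mk'_surjective _ x
    obtain ⟨g, rfl⟩ := QuotientGroup.mk'_surjective _ g
    have h := Cov.full h4 hn x.2 (SLn.not_scalar_of_notMem_center fun h =>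
      hx ((QuotientGroup.eq_one_iff x).2 h))
    by_cases hg : g ∈ Subgroup.center _
    · obtain ⟨c, h⟩ := h.2
      obtain ⟨f, hf⟩ := h.exists_fn
      refine ⟨fun i => π (f i), ((QuotientGroup.eq_one_iff g).2 hg).trans ?_⟩
      rw [key]
      refine ((QuotientGroup.eq_one_iff _).2 ?_).symm
      by_contra h1
      exact SLn.not_scalar_of_notMem_center h1 c hf
    · obtain ⟨f, hf⟩ := (h.1 g.1 g.2 (SLn.not_scalar_of_notMem_center hg)).exists_fn
      exact ⟨fun i => π (f i), by rw [key, Subtype.ext hf]⟩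
  · obtain ⟨x, g, h1, h2⟩ := Cov.exists_low (F := F) hn
    refine ⟨π x, fun h => h1 ((QuotientGroup.eq_one_iff x).1 h), π g, fun f h => ?_⟩
    choose f' hf using fun i => QuotientGroup.mk'_surjective _ (f i)
    obtain rfl : f = fun i => π (f' i) := funext fun i => (hf i).symm
    rw [key] at h
    exact h2 f' (QuotientGroup.eq.1 h)

end Cfsg.Agent.S2483
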