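import Cfsg.Statements.S2485
import Cfsg.Agent.Lib.SL2.PSL

set_option autoImplicit false
open scoped Pointwise
open Cfsg

namespace Cfsg.Agent.S2485

set_option backward.isDefEq.respectTransparency false
open SL2 Matrix
open scoped MatrixGroups Pointwise

variable {F : Type*} [Field F]

/-- The projection onto `PGL₂`. -/
abbrev pg : GL (Fin 2) F →* GL (Fin 2) F ⧸ Subgroup.center (GL (Fin 2) F) := QuotientGroup.mk' _

theorem pg_comm {x y : GL (Fin 2) F} (h : x.1 * y.1 = -(y.1 * x.1)) :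
    pg x * pg y = pg y * pg x := by
  rw [← map_mul, ← map_mul, QuotientGroup.mk'_eq_mk']
  refine ⟨-1, GL_mem_center_iff.2 (isScal_neg.2 isScal_one), Units.ext ?_⟩
  simp [h]

theorem isPGroup_cent [Finite F] {k : ℕ} (hk : Nat.card F + 1 = 2 ^ k) {z : GL (Fin 2) F}
    (hz : ∀ c : F, c ^ 2 - z.1.trace * c + z.1.det ≠ 0) :
    IsPGroup 2 (Subgroup.centralizer ({pg z} : Set _)) := by
  have hq := one_lt_card (F := F)
  have hZ : Nat.card (Subgroup.center (GL (Fin 2) F)) = Nat.card F - 1 := by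
    rw [GeneralLinearGroup.center_eq_range_scalar, ← Nat.card_units]
    refine (Nat.card_congr (MonoidHom.ofInjective ?_).toEquiv).symm
    intro a b h
    apply Units.ext
    simpa using (mat_ext_iff.1 (congrArg Units.val h)).1
  have hC : Nat.card ((Subgroup.centralizer ({z} : Set (GL (Fin 2) F))).map pg) = 2 ^ k := by
    have h1 := ((Subgroup.center (GL (Fin 2) F)).subgroupOf
      (Subgroup.centralizer ({z} : Set (GL (Fin 2) F)))).index_mul_card
    rw [Nat.card_congr (Subgroup.subgroupOfEquivOfLe (Subgroup.center_le_centralizer _)).toEquiv,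
      hZ, card_cent_GL_noRoot hz] at h1
    rw [← Subgroup.relIndex_ker, QuotientGroup.ker_mk', ← hk]
    apply Nat.eq_of_mul_eq_mul_right (show 0 < Nat.card F - 1 by omega)
    rw [← Nat.sq_sub_sq, one_pow]
    exact h1
  rintro ⟨y, hy⟩
  obtain ⟨y, rfl⟩ := QuotientGroup.mk'_surjective _ y
  refine ⟨k + 1, Subtype.ext ?_⟩
  change pg y ^ 2 ^ (k + 1) = 1
  rw [mem_cent_iff, ← map_mul, ← map_mul, QuotientGroup.mk'_eq_mk'] at hy
  obtain ⟨c, hc, e⟩ := hy
  obtain ⟨a, ha⟩ := isScal_iff.1 (GL_mem_center_iff.1 hc)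
  have e1 : a • (y.1 * z.1) = z.1 * y.1 := by
    have := congrArg Units.val e
    simpa [ha] using this
  have e2 : a ^ 2 = 1 := by
    have := congrArg Matrix.det e1
    rw [det_smul, det_mul, det_mul, mul_comm z.1.det, Fintype.card_fin] at this
    exact (mul_eq_right₀ (mul_ne_zero y.det_ne_zero z.det_ne_zero)).1 this
  have h2 : y ^ 2 ∈ Subgroup.centralizer ({z} : Set (GL (Fin 2) F)) := by
    rw [mem_cent_iff]
    apply Units.ext
    simp only [sq, Units.val_mul]
    rw [← Matrix.mul_assoc z.1, ← e1, smul_mul_assoc, Matrix.mul_assoc y.1 z.1, ← e1,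
      mul_smul_comm, smul_smul, ← sq a, e2, one_smul, Matrix.mul_assoc]
  rw [pow_succ', pow_mul, ← map_pow, ← hC]
  exact orderOf_dvd_iff_pow_eq_one.1
    (Subgroup.orderOf_dvd_natCard _ (Subgroup.mem_map_of_mem _ h2))

theorem exists_common (h2 : (2 : F) ≠ 0) (hF : ∀ c : F, c ^ 2 + 1 ≠ 0) {z z' : GL (Fin 2) F}
    (t1 : z.1.trace = 0) (d1 : z.1.det = 1) (t2 : z'.1.trace = 0) (d2 : z'.1.det = 1) :
    ∃ w, w ≠ 1 ∧ w ∈ Subgroup.centralizer ({pg z} : Set _) ∧
      w ∈ Subgroup.centralizer ({pg z'} : Set _) := by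
  have hz : ∀ c : F, c ^ 2 - z.1.trace * c + z.1.det ≠ 0 := by simpa [t1, d1] using hF
  have hne : ∀ w : GL (Fin 2) F, ¬ IsScal w.1 → pg w ≠ 1 := fun w hw h =>
    hw (GL_mem_center_iff.1 ((QuotientGroup.eq_one_iff _).1 h))
  by_cases h : z.1 * z'.1 = z'.1 * z.1
  · refine ⟨pg z, hne z (not_isScal_of_noRoot hz), self_mem_cent _, mem_cent_iff.2 ?_⟩
    rw [← map_mul, ← map_mul, show z * z' = z' * z from Units.ext h]
  have s1 : z.1 * z.1 = -1 := by rw [mul_self_eq, t1, d1]; simp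
  have s2 : z'.1 * z'.1 = -1 := by rw [mul_self_eq, t2, d2]; simp
  set w := z.1 * z'.1 - z'.1 * z.1 with hw
  have hw0 : w ≠ 0 := sub_ne_zero.2 h
  have a1 : w * z.1 = -(z.1 * w) := by
    rw [hw, Matrix.sub_mul, Matrix.mul_sub, Matrix.mul_assoc z'.1, s1, ← Matrix.mul_assoc z.1 z.1,
      s1, Matrix.mul_assoc]
    simp
  have a2 : w * z'.1 = -(z'.1 * w) := by
    rw [hw, Matrix.sub_mul, Matrix.mul_sub, Matrix.mul_assoc z.1, s2, ← Matrix.mul_assoc z'.1 z'.1,
      s2, Matrix.mul_assoc]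
    simp [sub_eq_add_neg]
  have tw : w.trace = 0 := by rw [hw, trace_sub, trace_mul_comm, sub_self]
  have hdet : w.det ≠ 0 := by
    intro h0
    obtain ⟨v, hv, hwv⟩ := Matrix.exists_mulVec_eq_zero_iff.2 h0
    have h3 : w.mulVec (z.1.mulVec v) = 0 := by
      rw [mulVec_mulVec, a1, neg_mulVec, ← mulVec_mulVec, hwv]; simp
    have h4 := (noEigen_iff z.1).2 hz
    set u := z.1.mulVec v with hu
    have h5 : v 0 * u 1 - v 1 * u 0 ≠ 0 := by
      intro h5
      by_cases hv0 : v 0 = 0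
      · have hv1 : v 1 ≠ 0 := fun hv1 => hv (by ext i; fin_cases i <;> simp [hv0, hv1])
        refine h4 (u 1 / v 1) v hv ?_
        rw [← hu]
        ext i; fin_cases i
        · rw [hv0] at h5
          simp [hv0]
          apply mul_left_cancel₀ hv1
          linear_combination -h5
        · simp [hv1]
      · refine h4 (u 0 / v 0) v hv ?_
        rw [← hu]
        ext i; fin_cases i
        · simp [hv0]
        · simp; field_simp; linear_combination h5
    apply hw0
    have b0 := congrFun hwv 0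
    have b1 := congrFun hwv 1
    have c0 := congrFun h3 0
    have c1 := congrFun h3 1
    simp [mulVec, dotProduct, Fin.sum_univ_two] at b0 b1 c0 c1
    apply mat_ext <;> apply mul_left_cancel₀ h5 <;> simp only [Matrix.zero_apply]
    · linear_combination u 1 * b0 - v 1 * c0
    · linear_combination v 0 * c0 - u 0 * b0
    · linear_combination u 1 * b1 - v 1 * c1
    · linear_combination v 0 * c1 - u 0 * b1
  refine ⟨pg (GeneralLinearGroup.mkOfDetNeZero w hdet), hne _ ?_, mem_cent_iff.2 (pg_comm a1),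
    mem_cent_iff.2 (pg_comm a2)⟩
  refine not_isScal_of_disc (m := w) ?_
  rw [tw]
  simpa using ⟨four_ne_zero' h2, hdet⟩

theorem exists_cent_le [Finite F] {k : ℕ} (hk : Nat.card F + 1 = 2 ^ k)
    (hF : ∀ c : F, c ^ 2 + 1 ≠ 0)
    (H : Sylow 2 (GL (Fin 2) F ⧸ Subgroup.center (GL (Fin 2) F))) :
    ∃ z : GL (Fin 2) F, z.1.trace = 0 ∧ z.1.det = 1 ∧
      Subgroup.centralizer ({pg z} : Set _) ≤ H := by
  let z0 : GL (Fin 2) F := Matrix.SpecialLinearGroup.toGL wt
  have t0 : z0.1.trace = 0 := by simp [z0, trace_fin_two]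
  have d0 : z0.1.det = 1 := by simp [z0, det_fin_two]
  obtain ⟨S, hS⟩ := (isPGroup_cent hk (z := z0) (by simpa [t0, d0] using hF)).exists_le_sylow
  obtain ⟨c, rfl⟩ := MulAction.exists_smul_eq (GL (Fin 2) F ⧸ Subgroup.center (GL (Fin 2) F)) S H
  obtain ⟨c, rfl⟩ := QuotientGroup.mk'_surjective _ c
  have hc : IsConj z0 (c * z0 * c⁻¹) := isConj_iff.2 ⟨c, rfl⟩
  rcases GL_isConj_iff'.1 hc with ⟨h, -⟩ | ⟨-, -, h1, h2⟩
  · exact absurd h (not_isScal_of_noRoot (by simpa [t0, d0] using hF))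
  refine ⟨c * z0 * c⁻¹, h1 ▸ t0, h2 ▸ d0, ?_⟩
  rw [map_mul, map_mul, map_inv, centralizer_conj]
  exact Subgroup.map_mono hS

/-- Let q = 2^k − 1 ≥ 7 be a prime and let G = PGL(2,q), the general linear group of degree 2 over the field with q elements modulo its centre. Then any two Sylow 2-subgroups of G have a non-trivial intersection: for a Sylow 2-subgroup H and every x ∈ G, H ∩ H^x ≠ 1. -/
theorem result {q k : ℕ} [Fact q.Prime] (hk : q + 1 = 2 ^ k) (hq : 7 ≤ q)
    (H : Sylow 2 (GL (Fin 2) (ZMod q) ⧸ Subgroup.center (GL (Fin 2) (ZMod q))))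
    (x : GL (Fin 2) (ZMod q) ⧸ Subgroup.center (GL (Fin 2) (ZMod q))) :
    (H : Subgroup (GL (Fin 2) (ZMod q) ⧸ Subgroup.center (GL (Fin 2) (ZMod q)))) ⊓ MulAut.conj x • (H : Subgroup _) ≠ ⊥ := by
  have hcard : Nat.card (ZMod q) + 1 = 2 ^ k := by rw [Nat.card_zmod, hk]
  have h4 : q % 4 = 3 := by
    have : 2 ≤ k := by
      by_contra h
      have : k ≤ 1 := by omega
      have := Nat.pow_le_pow_right two_pos this
      omega
    have := pow_dvd_pow 2 this
    omega
  have hF : ∀ c : ZMod q, c ^ 2 + 1 ≠ 0 := fun c hc =>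
    ZMod.mod_four_ne_three_of_sq_eq_neg_one (y := c) (by linear_combination hc) h4
  have h2 : (2 : ZMod q) ≠ 0 := two_ne_zero_of_char q (by omega)
  obtain ⟨z, t1, d1, h1⟩ := exists_cent_le hcard hF H
  obtain ⟨z', t2, d2, h3⟩ := exists_cent_le hcard hF (x • H)
  obtain ⟨w, hw, w1, w2⟩ := exists_common h2 hF t1 d1 t2 d2
  intro h
  apply hw
  rw [← Subgroup.mem_bot, ← h]
  exact ⟨h1 w1, h3 w2⟩

end Cfsg.Agent.S2485
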