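import Cfsg.Statements.S2486
import Cfsg.Agent.Lib.GLn.ParabolicCard

set_option autoImplicit false
open scoped Pointwise
open Cfsg

namespace Cfsg.Agent.S2486

open Matrix Cfsg.Agent.SLn Cfsg.Agent.GLn
open scoped MatrixGroups Pointwise

variable {n : ℕ}

theorem compLabel_one (i : Fin n) : compLabel (fun _ : Fin n => 1) i = i.val := by
  have h : ∀ k, k ≤ n → psum (fun _ : Fin n => 1) k = k := by
    intro k hk
    unfold psum
    rw [← Finset.card_eq_sum_ones, card_filter_lt k hk]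
  have := i.2
  rw [compLabel_eq_iff (by simp), h _ (by omega), h _ (by omega)]
  omega

theorem upper_eq (F : Type*) [Field F] :
    upperTriangularGL n F = parabolicGL n F (fun _ => 1) := by
  ext g
  simp only [mem_upperTriangularGL, mem_parabolicGL, compLabel_one, Fin.lt_def]

theorem upper_isPGroup : IsPGroup 2 (upperTriangularGL n (ZMod 2)) := by
  rw [upper_eq]
  refine IsPGroup.of_card (n := ∑ j : Fin n, j.val) ?_
  rw [card_parabolicGL (by simp), ← Finset.prod_pow_eq_pow_sum]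
  refine Finset.prod_congr rfl fun j _ => ?_
  have h : psum (fun _ : Fin n => 1) (j.val + 1) = j.val + 1 := by
    unfold psum
    rw [← Finset.card_eq_sum_ones, card_filter_lt _ j.2]
  rw [compLabel_one, h, ZMod.card, pow_succ]
  omega

theorem upper_index : ¬ 2 ∣ (upperTriangularGL n (ZMod 2)).index := by
  have h := card_quotient_parabolicGL (F := ZMod 2) (μ := fun _ : Fin n => 1) (by simp)
  rw [upper_eq]
  intro h2
  have h3 : 2 ∣ qFact 2 n := by
    rw [ZMod.card] at h
    exact h ▸ Dvd.dvd.mul_right h2 _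
  unfold qFact at h3
  obtain ⟨j, -, hj⟩ := (Prime.dvd_finsetProd_iff Nat.prime_two.prime _).1 h3
  unfold qInt at hj
  rw [Finset.sum_range_succ', pow_zero] at hj
  have : 2 ∣ ∑ k ∈ Finset.range j, 2 ^ (k + 1) :=
    Finset.dvd_sum fun k _ => dvd_pow_self 2 (by omega)
  omega

variable {F : Type*} [Field F]

/-- elementary matrices in `GL` -/
def elem {i j : Fin n} (h : i ≠ j) : GL (Fin n) F :=
  Matrix.SpecialLinearGroup.toGL (Matrix.SpecialLinearGroup.transvection h 1)

theorem elem_apply {i j : Fin n} (h : i ≠ j) (a b : Fin n) :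
    (elem (F := F) h).1 a b = (if a = b then 1 else 0) + if i = a ∧ j = b then 1 else 0 := rfl

theorem elem_mem {i j : Fin n} (h : i ≠ j) :
    elem (F := F) h ∈ upperTriangularGL n F ↔ i < j := by
  rw [mem_upperTriangularGL]
  constructor
  · intro h1
    by_contra h2
    have := h1 i j (lt_of_le_of_ne (not_lt.1 h2) h.symm)
    simp [elem_apply, h] at this
  · intro h1 a b hab
    rw [elem_apply, if_neg hab.ne', if_neg, add_zero]
    rintro ⟨rfl, rfl⟩
    exact lt_asymm h1 hab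

theorem elem_ne_one {i j : Fin n} (h : i ≠ j) : elem (F := F) h ≠ 1 := by
  intro e
  have := elem_apply (F := F) h i j
  simp [e, h] at this

theorem perm_mul_elem (σ : Equiv.Perm (Fin n)) {i j : Fin n} (h : i ≠ j) :
    permGL F σ * elem h * (permGL F σ)⁻¹ = elem (σ.injective.ne h) := by
  rw [mul_inv_eq_iff_eq_mul]
  ext a b
  obtain ⟨a, rfl⟩ := σ.surjective a
  rw [Units.val_mul, Units.val_mul, coe_permGL, monoMat_mul_apply, mul_monoMat_apply, elem_apply,
    elem_apply]
  simp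

theorem mem_of_normalizes {s : GL (Fin n) F}
    (hs : ∀ x ∈ upperTriangularGL n F, s * x * s⁻¹ ∈ upperTriangularGL n F) :
    s ∈ upperTriangularGL n F := by
  obtain ⟨u, b, σ, hu, -, hb, rfl⟩ := bruhat s
  have h1 : StrictMono σ := by
    intro i j hij
    have h2 := hs (b⁻¹ * elem hij.ne * b)
      (mul_mem (mul_mem (inv_mem hb) ((elem_mem _).2 hij)) hb)
    have h3 := mul_mem (mul_mem (inv_mem hu) h2) hu
    rw [show u⁻¹ * (u * permGL F σ * b * (b⁻¹ * elem hij.ne * b) * (u * permGL F σ * b)⁻¹) * u =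
      permGL F σ * elem hij.ne * (permGL F σ)⁻¹ by group, perm_mul_elem, elem_mem] at h3
    exact h3
  have h2 : σ = 1 := by
    ext i
    have := Subsingleton.elim (h1.orderIsoOfSurjective σ σ.surjective) (OrderIso.refl _)
    exact congrArg Fin.val (DFunLike.congr_fun this i)
  rw [h2, map_one, mul_one]
  exact mul_mem hu hb

theorem exists_opposite {g : GL (Fin n) F}
    (hg : ∀ x ∈ upperTriangularGL n F, g⁻¹ * x * g ∈ upperTriangularGL n F → x = 1) :
    ∃ u ∈ upperTriangularGL n F, ∃ b ∈ upperTriangularGL n F,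
      g = u * permGL F Fin.revPerm * b := by
  obtain ⟨u, b, σ, hu, -, hb, rfl⟩ := bruhat g
  refine ⟨u, hu, b, hb, ?_⟩
  have h1 : StrictMono (fun i => (σ i).rev) := by
    intro i j hij
    rw [Fin.rev_lt_rev]
    by_contra h
    have h2 : σ i < σ j := lt_of_le_of_ne (not_lt.1 h) (σ.injective.ne hij.ne)
    have h3 := hg (u * elem h2.ne * u⁻¹)
      (mul_mem (mul_mem hu ((elem_mem _).2 h2)) (inv_mem hu)) (by
        rw [← perm_mul_elem σ hij.ne, show (u * permGL F σ * b)⁻¹ *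
          (u * (permGL F σ * elem hij.ne * (permGL F σ)⁻¹) * u⁻¹) * (u * permGL F σ * b) =
          b⁻¹ * elem hij.ne * b by group]
        exact mul_mem (mul_mem (inv_mem hb) ((elem_mem _).2 hij)) hb)
    exact elem_ne_one _ (by simpa [mul_inv_eq_one] using h3)
  have h2 : σ = Fin.revPerm := by
    ext i
    have := Subsingleton.elim (h1.orderIsoOfSurjective _
      (Fin.rev_surjective.comp σ.surjective)) (OrderIso.refl _)
    have h3 : (σ i).rev = i := DFunLike.congr_fun this i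
    rw [Fin.revPerm_apply, ← Fin.rev_rev (σ i), h3]
  rw [h2]

theorem toGL_bijective : Function.Bijective
    (Matrix.SpecialLinearGroup.toGL : SpecialLinearGroup (Fin n) (ZMod 2) → GL (Fin n) (ZMod 2)) := by
  refine ⟨Matrix.SpecialLinearGroup.toGL_injective, fun g => ⟨⟨g.1, ?_⟩, Units.ext rfl⟩⟩
  have := Matrix.GeneralLinearGroup.det_ne_zero g
  generalize g.1.det = x at this
  revert x
  decide

theorem exists_conj {G : Type*} [Group G] [Finite G] (N : Subgroup G) [N.Normal]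
    (φ : N ≃* GL (Fin n) (ZMod 2)) (hidx : N.index = 2) (K : Sylow 2 G) :
    (∃ k ∈ K, k ∉ N) ∧ ∃ g : GL (Fin n) (ZMod 2), ∀ y : N,
      y.1 ∈ K ↔ g⁻¹ * φ y * g ∈ upperTriangularGL n (ZMod 2) := by
  have hK : ¬ (K : Subgroup G) ≤ N := fun h =>
    K.not_dvd_index (by have := Subgroup.index_dvd_of_le h; rwa [hidx] at this)
  refine ⟨SetLike.not_le_iff_exists.1 hK, ?_⟩
  have h1 : N.relIndex K = 2 := by
    have h2 : N.relIndex K ∣ 2 := by
      have := Subgroup.relIndex_dvd_index_of_normal N K; rwa [hidx] at this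
    rcases (Nat.dvd_prime Nat.prime_two).1 h2 with h | h
    · exact absurd (Subgroup.relIndex_eq_one.1 h) hK
    · exact h
  have h2 : (K : Subgroup G).relIndex N = K.index := by
    have h3 := Subgroup.relIndex_mul_index (inf_le_left : (K : Subgroup G) ⊓ N ≤ K)
    have h4 := Subgroup.relIndex_mul_index (inf_le_right : (K : Subgroup G) ⊓ N ≤ N)
    rw [Subgroup.inf_relIndex_left, h1] at h3
    rw [Subgroup.inf_relIndex_right, hidx, ← h3] at h4
    omega
  let P : Sylow 2 (GL (Fin n) (ZMod 2)) :=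
    IsPGroup.toSylow (P := ((K : Subgroup G).subgroupOf N).map φ.toMonoidHom)
      ((K.isPGroup'.comap_subtype).map _) (by
        rw [Subgroup.index_map_of_bijective φ.bijective]
        change ¬ 2 ∣ (K : Subgroup G).relIndex N
        rw [h2]
        exact K.not_dvd_index)
  let B : Sylow 2 (GL (Fin n) (ZMod 2)) := upper_isPGroup.toSylow upper_index
  obtain ⟨g, hg⟩ := MulAction.exists_smul_eq (GL (Fin n) (ZMod 2)) B P
  refine ⟨g, fun y => ?_⟩
  have h3 : y.1 ∈ K ↔ φ y ∈ P := by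
    change _ ↔ φ y ∈ ((K : Subgroup G).subgroupOf N).map φ.toMonoidHom
    rw [Subgroup.mem_map_equiv, MulEquiv.symm_apply_apply]
    rfl
  rw [h3, ← hg]
  change φ y ∈ MulAut.conj g • (upperTriangularGL n (ZMod 2)) ↔ _
  rw [Subgroup.mem_pointwise_smul_iff_inv_smul_mem]
  simp

/-- Let n ≥ 4 and let G be a finite group with a normal subgroup N of index 2 isomorphic to SL(n,2) and with trivial centralizer in G (so G is the extension of the simple group L_n(2) by its inverse-transpose automorphism, its full automorphism group). Then any two Sylow 2-subgroups of G have a non-trivial intersection: for a Sylow 2-subgroup H and every x ∈ G, H ∩ H^x ≠ 1. -/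
theorem result {G : Type*} [Group G] [Finite G] {n : ℕ} (hn : 4 ≤ n) (N : Subgroup G) [N.Normal]
    (e : N ≃* Matrix.SpecialLinearGroup (Fin n) (ZMod 2)) (hidx : N.index = 2)
    (hC : Subgroup.centralizer (N : Set G) = ⊥)
    (H : Sylow 2 G) (x : G) :
    (H : Subgroup G) ⊓ MulAut.conj x • (H : Subgroup G) ≠ ⊥ := by
  intro hbot
  let φ : N ≃* GL (Fin n) (ZMod 2) := e.trans (MulEquiv.ofBijective _ toGL_bijective)
  set K : Sylow 2 G := x • H with hK
  have hHK : ∀ y, y ∈ H → y ∈ K → y = 1 := fun y h1 h2 =>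
    Subgroup.mem_bot.1 (hbot ▸ (⟨h1, h2⟩ : y ∈ (H : Subgroup G) ⊓ MulAut.conj x • (H : Subgroup G)))
  obtain ⟨⟨t, htH, htN⟩, a, ha⟩ := exists_conj N φ hidx H
  obtain ⟨⟨k, hkK, hkN⟩, b, hb⟩ := exists_conj N φ hidx K
  obtain ⟨-, c, hc⟩ := exists_conj N φ hidx (t • K)
  have hmem : ∀ y, y ∈ t • K ↔ t⁻¹ * y * t ∈ K := fun y => by
    change y ∈ MulAut.conj t • (K : Subgroup G) ↔ _
    rw [Subgroup.mem_pointwise_smul_iff_inv_smul_mem]
    simp
    rfl
  have key : ∀ (L : Sylow 2 G) (d : GL (Fin n) (ZMod 2)), (∀ y, y ∈ H → y ∈ L → y = 1) →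
      (∀ y : N, y.1 ∈ L ↔ d⁻¹ * φ y * d ∈ upperTriangularGL n (ZMod 2)) →
      ∃ u : N, u.1 ∈ H ∧ ∀ y : N, y.1 ∈ L ↔ (permGL (ZMod 2) Fin.revPerm)⁻¹ *
        (a⁻¹ * φ (u⁻¹ * y * u) * a) * permGL (ZMod 2) Fin.revPerm ∈
          upperTriangularGL n (ZMod 2) := by
    intro L d hL hd
    obtain ⟨u, hu, w, hw, e⟩ := exists_opposite (g := a⁻¹ * d) (by
      intro y hy hy'
      have h1 : (φ.symm (a * y * a⁻¹)).1 ∈ H := by rw [ha]; simpa [mul_assoc] using hy
      have h2 : (φ.symm (a * y * a⁻¹)).1 ∈ L := by rw [hd]; simpa [mul_assoc] using hy'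
      have h3 : φ.symm (a * y * a⁻¹) = 1 := Subtype.ext (hL _ h1 h2)
      simpa [mul_inv_eq_one] using h3)
    refine ⟨φ.symm (a * u * a⁻¹), by rw [ha]; simpa [mul_assoc] using hu, fun y => ?_⟩
    rw [hd, inv_mul_eq_iff_eq_mul.1 e, map_mul, map_mul, map_inv, MulEquiv.apply_symm_apply,
      ← mul_mem_cancel_left hw, ← mul_mem_cancel_right (inv_mem hw)]
    apply iff_of_eq
    congr 1
    group
  obtain ⟨u₁, hu₁, h₁⟩ := key K b hHK hb
  obtain ⟨u₂, hu₂, h₂⟩ := key (t • K) c (fun y h1 h2 => by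
    have := hHK _ (mul_mem (mul_mem (inv_mem htH) h1) htH) ((hmem y).1 h2)
    simpa [mul_assoc, inv_mul_eq_one] using this) hc
  set s : G := t⁻¹ * u₂ * u₁⁻¹ with hs
  have hsH : s ∈ H := mul_mem (mul_mem (inv_mem htH) hu₂) (inv_mem hu₁)
  have hsN : s ∉ N := fun h => htN (by
    have := mul_mem (mul_mem h u₁.2) (inv_mem u₂.2)
    simpa [hs] using this)
  have hsK : ∀ y : N, y.1 ∈ K → s * y * s⁻¹ ∈ K := by
    intro y hy
    have h3 := (h₂ (u₂ * u₁⁻¹ * y * u₁ * u₂⁻¹)).2 (by
      rw [show u₂⁻¹ * (u₂ * u₁⁻¹ * y * u₁ * u₂⁻¹) * u₂ = u₁⁻¹ * y * u₁ by group]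
      exact (h₁ y).1 hy)
    rw [hmem] at h3
    simpa [hs, mul_assoc] using h3
  have hskN : k⁻¹ * s ∈ N := by
    rw [Subgroup.mul_mem_iff_of_index_two hidx]
    simp [hkN, hsN]
  have h4 : (⟨k⁻¹ * s, hskN⟩ : N).1 ∈ K := by
    rw [hb]
    apply mem_of_normalizes
    intro y hy
    have h5 : (φ.symm (b * y * b⁻¹)).1 ∈ K := by rw [hb]; simpa [mul_assoc] using hy
    have h6 := mul_mem (mul_mem (inv_mem hkK) (hsK _ h5)) hkK
    have h7 := (hb (⟨k⁻¹ * s, hskN⟩ * φ.symm (b * y * b⁻¹) * ⟨k⁻¹ * s, hskN⟩⁻¹)).1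
      (by simpa [mul_assoc] using h6)
    rw [map_mul, map_mul, map_inv, MulEquiv.apply_symm_apply] at h7
    convert h7 using 1
    group
  have h5 : s ∈ K := by simpa using mul_mem hkK h4
  exact hsN (hHK s hsH h5 ▸ one_mem N)

end Cfsg.Agent.S2486
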