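import Cfsg.Statements.S2487
import Cfsg.Agent.Lib.Forms.PFix
import Cfsg.Agent.Lib.Forms.OrthTwo

set_option autoImplicit false
open scoped Pointwise
open Cfsg

namespace Cfsg.Agent.S2487

open Forms Forms.Form Module

universe u

variable {F : Type*} [Field F] [Fintype F]

theorem cases_of_card (hF : Fintype.card F = 2) (c : F) : c = 0 ∨ c = 1 := by
  have := FiniteField.pow_card c
  rw [hF] at this
  exact (mul_eq_zero.1 (show c * (c - 1) = 0 by linear_combination this)).imp_right sub_eq_zero.1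

theorem exists_sing (hF : Fintype.card F = 2) [CharP F 2] {V : Type u} [AddCommGroup V] [Module F V]
    [FiniteDimensional F V] {f : Form (Param.orth F) V} (hf : f.Nondeg) (hd : 3 ≤ finrank F V)
    {H : Subgroup f.Isom} (hH : IsPGroup 2 H) : ∃ u, u ≠ 0 ∧ f.Q u = 0 ∧ ∀ g ∈ H, g.1 u = u := by
  obtain ⟨r, -, h0, hr⟩ := exists_mem_fixSub 2 hH (T := ⊤) (fun e => by
    rw [← finrank_top, e, finrank_bot] at hd; omega) fun _ _ _ _ => trivial
  by_cases hQ : f.Q r = 0
  · exact ⟨r, h0, hQ, hr⟩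
  have h1 : ∀ g : H, ∀ x ∈ F ∙ r, g.1.1 x ∈ F ∙ r := fun g x hx => by
    obtain ⟨c, rfl⟩ := Submodule.mem_span_singleton.1 hx
    rwa [map_smul, hr g g.2]
  obtain ⟨x, h2, h3, h4⟩ := exists_fixed_mod 2 hH (f.Isom.subtype.comp H.subtype) (S := F ∙ r)
    (T := f.orth (F ∙ r)) (fun h => by
      have := Submodule.finrank_mono h
      have := hf.finrank_orth_singleton h0
      have := finrank_span_singleton (K := F) h0
      omega) h1 fun g => Isom.orth_invariant g.1 (h1 g)
  rw [mem_orth_singleton] at h2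
  have h5 : ∀ g ∈ H, g.1 x = x := fun g hg => by
    obtain ⟨c, hc⟩ := Submodule.mem_span_singleton.1 (h4 ⟨g, hg⟩)
    have e1 : g.1 x = x + c • r := by rw [hc]; exact (add_sub_cancel _ _).symm
    have e2 := Isom.map_Q g x
    rw [e1, orth_Q_add, orth_B_smul_right, h2, orth_Q_smul] at e2
    rw [e1, mul_self_eq_zero.1 ((mul_eq_zero.1 (show c * c * f.Q r = 0 by linear_combination e2)).resolve_right
      hQ), zero_smul, add_zero]
  rcases cases_of_card hF (f.Q x) with h6 | h6
  · exact ⟨x, fun e => h3 (e ▸ zero_mem _), h6, h5⟩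
  · refine ⟨x + r, fun e => h3 (Submodule.mem_span_singleton.2 ⟨-1, ?_⟩), ?_, fun g hg => ?_⟩
    · rw [eq_neg_of_add_eq_zero_left e, neg_one_smul]
    · rw [orth_Q_add, h6, h2, (cases_of_card hF _).resolve_left hQ, add_zero, CharTwo.add_self_eq_zero]
    · rw [map_add, h5 g hg, hr g hg]

theorem aux (hF : Fintype.card F = 2) [CharP F 2] (m : ℕ) : ∀ (V : Type u) [AddCommGroup V] [Module F V]
    [FiniteDimensional F V] (f : Form (Param.orth F) V), f.Nondeg → finrank F V = 2 * (m + 1) →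
    (∃ S, f.TotSing S ∧ m + 1 ≤ finrank F S) → ∀ S T : Sylow 2 f.Isom,
      ∃ g, g ≠ 1 ∧ g ∈ (S : Subgroup f.Isom) ∧ g ∈ (T : Subgroup f.Isom) := by
  induction m with
  | zero =>
    intro V _ _ _ f hf hd ⟨R, hR, hRd⟩ S T
    obtain ⟨u, hu, h0⟩ := R.exists_mem_ne_zero_of_ne_bot fun e => by
      rw [e, finrank_bot] at hRd; omega
    obtain ⟨e, h⟩ := hf.exists_hypPair (hR.1 u hu) h0
    have h1 : ∀ w, ∃ a b : F, w = a • u + b • e := fun w => by
      have := h.sub_mem_orth w
      rw [Submodule.finrank_eq_zero.1 (show finrank F (f.orth (Submodule.span F {u, e})) = 0 by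
        have := h.finrank_orth hf; omega), Submodule.mem_bot, sub_sub, sub_eq_zero] at this
      exact ⟨_, _, this⟩
    have h2 : ∀ w, w ≠ 0 → f.Q w = 0 → w = u ∨ w = e := fun w hw hQ => by
      obtain ⟨a, b, rfl⟩ := h1 w
      rcases cases_of_card hF a with rfl | rfl <;> rcases cases_of_card hF b with rfl | rfl <;>
        simp_all [orth_Q_add, h.Qu, h.Qe, h.Bue]
    have h3 : IsPGroup 2 (⊤ : Subgroup f.Isom) := fun g => ⟨1, Subtype.ext (Isom.ext fun w => by
      obtain ⟨a, b, rfl⟩ := h1 w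
      have h4 := h.map g.1
      have h5 := h4.Bue
      change g.1.1 (g.1.1 _) = _
      rcases h2 _ h4.u_ne_zero h4.Qu with e1 | e1 <;> rcases h2 _ h4.e_ne_zero h4.Qe with e2 | e2 <;>
        simp_all [h.Buu, h.Bee])⟩
    obtain ⟨g, h4, -⟩ := hf.witt_hypPair h h.swap
    refine ⟨g, fun e1 => ?_, (S.is_maximal' h3 le_top).le trivial, (T.is_maximal' h3 le_top).le trivial⟩
    have h5 := h.Bue
    rw [← h4, e1, Isom.one_apply, h.Buu] at h5
    exact zero_ne_one h5
  | succ m ih =>
    intro V _ _ _ f hf hd ⟨R, hR, hRd⟩ S T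
    obtain ⟨u, h0, hu, huS⟩ := exists_sing hF hf (by omega) S.isPGroup'
    obtain ⟨e, h0', he, heT⟩ := exists_sing hF hf (by omega) T.isPGroup'
    have key : ∀ v (hv : f.B v u = 0), v ∉ F ∙ u → f.eichler u v _ hu hv (f.orth_isLam v) ≠ 1 := by
      intro v hv h1 h2
      obtain ⟨w, hw⟩ := hf.exists_hypPair hu h0
      have h3 := f.eichler_apply u v _ hu hv (f.orth_isLam v) w
      rw [h2, Isom.one_apply, hw.Beu, Param.orth_ε, one_smul] at h3
      exact h1 (Submodule.mem_span_singleton.2 ⟨1 * f.B w v + 1 * f.Q v * 1, by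
        linear_combination (norm := module) h3⟩)
    rcases cases_of_card hF (f.B u e) with h1 | h1
    · by_cases h2 : e ∈ F ∙ u
      · obtain ⟨c, rfl⟩ := Submodule.mem_span_singleton.1 h2
        obtain rfl : c = 1 := (cases_of_card hF c).resolve_left fun e => h0' (by simp [e])
        rw [one_smul] at heT
        obtain ⟨v, h3, h4⟩ := SetLike.not_le_iff_exists.1 fun h : f.orth (F ∙ u) ≤ F ∙ u => by
          have := Submodule.finrank_mono h
          have := hf.finrank_orth_singleton h0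
          have := finrank_span_singleton (K := F) h0
          omega
        rw [mem_orth_singleton] at h3
        exact ⟨_, key v h3 h4, Qsub_le_sylow 2 S huS (eichler_mem_Qsub ..),
          Qsub_le_sylow 2 T heT (eichler_mem_Qsub ..)⟩
      · have h3 := f.B_eq_zero_symm h1
        refine ⟨_, key e h3 h2, Qsub_le_sylow 2 S huS (eichler_mem_Qsub ..),
          Qsub_le_sylow 2 T heT ⟨eichler_apply_of_orth _ _ _ _ _ _ _ h3 (f.B_self_of_Q he), fun x hx =>
            Submodule.mem_span_singleton.2 ⟨f.B x u, ?_⟩⟩⟩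
        rw [eichler_apply, hx, he]
        module
    · have h : f.HypPair u e := ⟨hu, he, h1⟩
      obtain ⟨S', hS'⟩ := h.exists_sylow_comap 2 _ (h.ext_injective hf) (h.ext_u hf)
        (fun g => h.exists_ext hf) S huS
      obtain ⟨T', hT'⟩ := h.swap.exists_sylow_comap 2 _ (h.ext_injective hf) (h.ext_e hf)
        (fun g h2 h3 => h.exists_ext hf (by simpa using h3) h2) T heT
      obtain ⟨R', h2, h3⟩ := h.exists_totSing hf hR
      obtain ⟨g, h4, h5, h6⟩ := ih _ _ (hf.restrict_orth_range (h.isIsom_pairMap.comap_nondeg hyp_nondeg))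
        (by have := h.finrank_orth hf; rw [range_pairMap]; omega) ⟨R', h2, by omega⟩ S' T'
      exact ⟨h.ext hf g, (map_ne_one_iff _ (h.ext_injective hf)).2 h4, (hS'.le h5 :), (hT'.le h6 :)⟩

/-- Let m ≥ 4 and let G be the full isometry group of the hyperbolic quadratic form x₁y₁ + ⋯ + x_m y_m on the 2m-dimensional space over the field with 2 elements (the orthogonal group O⁺(2m,2), which contains Ω⁺(2m,2) with index 2). Then any two Sylow 2-subgroups of G have a non-trivial intersection: for a Sylow 2-subgroup H and every x ∈ G, H ∩ H^x ≠ 1. -/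
theorem result {F : Type*} [Field F] [Fintype F] (hF : Fintype.card F = 2) {m : ℕ} (hm : 4 ≤ m)
    (H : Sylow 2 (Cfsg.isometryGroup F (Cfsg.quadFormPlus m F)))
    (x : Cfsg.isometryGroup F (Cfsg.quadFormPlus m F)) :
    (H : Subgroup (Cfsg.isometryGroup F (Cfsg.quadFormPlus m F))) ⊓ MulAut.conj x • (H : Subgroup _) ≠ ⊥ := by
  have : CharP F 2 := by
    obtain ⟨p, hp⟩ := CharP.exists F
    obtain ⟨k, h1, h2⟩ := FiniteField.card F p
    rwa [← (Nat.prime_dvd_prime_iff_eq h1 Nat.prime_two).1 (hF ▸ h2 ▸ dvd_pow_self p k.ne_zero)]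
  obtain ⟨m, rfl⟩ : ∃ k, m = k + 1 := ⟨m - 1, by omega⟩
  have hs : Function.Surjective (plusEquiv (m + 1) F).toMonoidHom := (plusEquiv (m + 1) F).surjective
  obtain ⟨_, h1, ⟨a, h2, rfl⟩, b, h3, h4⟩ := aux hF m _ _ (plusForm_nondeg (m + 1)) (finrank_plus _)
    ⟨LinearMap.range (LinearMap.funLeft F F (Sum.elim some fun _ => none) ∘ₗ
      LinearMap.pi fun o => o.elim 0 LinearMap.proj), totSing_of_Q (by
        rintro _ ⟨x, rfl⟩
        simp [plusForm_Q, quadFormPlus, LinearMap.funLeft_apply]), by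
      rw [LinearMap.finrank_range_of_inj fun x y h => funext fun i => congrFun h (.inl i)]
      simp⟩ (H.mapSurjective hs) ((x • H).mapSurjective hs)
  obtain rfl : b = a := (plusEquiv (m + 1) F).injective h4
  exact fun h => h1 (by rw [Subgroup.mem_bot.1 (h.le ⟨h2, h3⟩), map_one])

end Cfsg.Agent.S2487
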