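import Cfsg.Statements.S2488
-- import your own Cfsg.Agent.* helpers here

set_option autoImplicit false
open scoped Pointwise
open Cfsg

namespace Cfsg.Agent.S2488

open Equiv Equiv.Perm

/-- A double transposition. -/
def z0 : Perm (Fin 6) := swap 0 1 * swap 2 3

theorem card_cent : (Finset.univ.filter fun c : Perm (Fin 6) => sign c = 1 ∧ c * z0 * c⁻¹ = z0).card = 8 := by
  decide +kernel

theorem card_inv : (Finset.univ.filter fun t : Perm (Fin 6) => sign t = 1 ∧ (t * t = 1 ∧ t ≠ 1)).card = 45 := by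
  decide +kernel

theorem card_five : (Finset.univ.filter fun t : Perm (Fin 6) =>
    sign t = 1 ∧ ((t * t = 1 ∧ t ≠ 1) ∧ (z0 * t) ^ 5 = 1)).card = 17 := by
  decide +kernel

theorem card_not_five : (Finset.univ.filter fun t : Perm (Fin 6) =>
    sign t = 1 ∧ ((t * t = 1 ∧ t ≠ 1) ∧ ¬ (z0 * t) ^ 5 = 1)).card = 28 := by
  decide +kernel

theorem cycleType_inv {t : Perm (Fin 6)} (h1 : sign t = 1) (h2 : t * t = 1) (h3 : t ≠ 1) :
    t.cycleType = Multiset.replicate 2 2 := by
  have h4 : orderOf t = 2 := orderOf_eq_prime (by rw [sq, h2]) h3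
  obtain ⟨n, hn⟩ := cycleType_prime_order (σ := t) (by rw [h4]; exact Nat.prime_two)
  have h5 := sum_cycleType_le t
  have h6 := sign_of_cycleType t
  rw [hn, h4] at h5 h6
  rw [hn, h4]
  simp only [Multiset.sum_replicate, smul_eq_mul, Fintype.card_fin, Multiset.card_replicate] at h5 h6
  have : n = 0 ∨ n = 1 ∨ n = 2 := by omega
  rcases this with rfl | rfl | rfl
  · rw [h1] at h6; exact absurd h6 (by decide)
  · rfl
  · rw [h1] at h6; exact absurd h6 (by decide)

theorem card_eq {N : Type*} [Group N] (ψ : N →* Perm (Fin 6)) (h1 : Function.Injective ψ)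
    (h2 : ∀ t, t ∈ ψ.range ↔ sign t = 1) (P : Perm (Fin 6) → Prop) [DecidablePred P] :
    Nat.card {n : N // P (ψ n)} = (Finset.univ.filter fun t => sign t = 1 ∧ P t).card := by
  rw [← Fintype.card_subtype, ← Nat.card_eq_fintype_card]
  refine Nat.card_eq_of_bijective (fun n => ⟨ψ n.1, (h2 _).mp ⟨_, rfl⟩, n.2⟩) ⟨fun a b h => ?_, fun t => ?_⟩
  · exact Subtype.ext (h1 (congrArg Subtype.val h))
  · obtain ⟨n, hn⟩ := (h2 t).mpr t.2.1
    exact ⟨⟨n, hn ▸ t.2.2⟩, Subtype.ext hn⟩

variable {G : Type*} [Group G] (N : Subgroup G) [hN : N.Normal]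

/-- The involutions of `N`. -/
def Inv : Type _ := {t : N // t * t = 1 ∧ t ≠ 1}

instance : MulAction G (Inv N) where
  smul g t := ⟨MulAut.conjNormal g t.1, by rw [← map_mul, t.2.1, map_one], by simpa using t.2.2⟩
  one_smul t := Subtype.ext (show MulAut.conjNormal (1 : G) t.1 = t.1 by simp)
  mul_smul g h t := Subtype.ext (show MulAut.conjNormal (g * h) t.1 = _ by rw [map_mul]; rfl)

theorem smul_val (g : G) (t : Inv N) : (g • t).1 = MulAut.conjNormal g t.1 := rfl

theorem exists_psi (e : N ≃* alternatingGroup (Fin 6)) : ∃ ψ : N →* Perm (Fin 6), Function.Injective ψ ∧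
    (∀ t, t ∈ ψ.range ↔ sign t = 1) := by
  refine ⟨(alternatingGroup (Fin 6)).subtype.comp e.toMonoidHom, Subtype.val_injective.comp e.injective, fun t => ?_⟩
  constructor
  · rintro ⟨n, rfl⟩; exact (e n).2
  · exact fun h => ⟨e.symm ⟨t, h⟩, by simp⟩

theorem exists_psi' (e : N ≃* alternatingGroup (Fin 6)) (z : Inv N) : ∃ ψ : N →* Perm (Fin 6), Function.Injective ψ ∧
    (∀ t, t ∈ ψ.range ↔ sign t = 1) ∧ ψ z.1 = z0 := by
  obtain ⟨ψ, h1, h2⟩ := exists_psi N e
  have h3 : IsConj (ψ z.1) z0 := by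
    rw [isConj_iff_cycleType_eq, cycleType_inv ((h2 _).mp ⟨_, rfl⟩) (by rw [← map_mul, z.2.1, map_one])
      (fun h => z.2.2 (h1 (by rw [h, map_one]))), cycleType_inv (by decide) (by decide) (by decide)]
  obtain ⟨c, hc⟩ := isConj_iff.mp h3
  refine ⟨(MulAut.conj c).toMonoidHom.comp ψ, (MulAut.conj c).injective.comp h1, fun t => ?_, hc⟩
  constructor
  · rintro ⟨n, rfl⟩
    have := (h2 _).mp ⟨n, rfl⟩
    simp [this]
  · intro h
    obtain ⟨n, hn⟩ := (h2 (c⁻¹ * t * c)).mpr (by simp [h])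
    exact ⟨n, by simp [hn, mul_assoc]⟩

theorem card_stab [Finite G] (e : N ≃* alternatingGroup (Fin 6)) (hidx : N.index = 4) (z : Inv N) :
    Nat.card (MulAction.stabilizer G z) ≤ 32 := by
  obtain ⟨ψ, h1, h2, h3⟩ := exists_psi' N e z
  have h4 := card_eq ψ h1 h2 (fun c => c * z0 * c⁻¹ = z0)
  rw [card_cent] at h4
  have h5 := (N.subgroupOf (MulAction.stabilizer G z)).card_mul_index
  have h6 : (N.subgroupOf (MulAction.stabilizer G z)).index ≤ 4 :=
    Nat.le_of_dvd (by norm_num) (hidx ▸ Subgroup.relIndex_dvd_index_of_normal N _)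
  have h7 : Nat.card (N.subgroupOf (MulAction.stabilizer G z)) ≤ 8 := by
    rw [← h4]
    refine Nat.card_le_card_of_injective (fun g => ⟨⟨g.1.1, g.2⟩, ?_⟩) fun a b h => ?_
    · rw [← h3, ← map_inv, ← map_mul, ← map_mul]
      exact congrArg ψ (Subtype.ext (congrArg (fun t : Inv N => (t.1 : G)) g.1.2))
    · exact Subtype.ext (Subtype.ext (congrArg (fun t => (t.1 : G)) h))
  nlinarith

/-- Let G be a finite group with a normal subgroup N of index 4 isomorphic to the alternating group of degree 6 and with trivial centralizer in G (so G is the full automorphism group of A₆). Then any two Sylow 2-subgroups of G have a non-trivial intersection: for a Sylow 2-subgroup H and every x ∈ G, H ∩ H^x ≠ 1. -/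
theorem result {G : Type*} [Group G] [Finite G] (N : Subgroup G) [N.Normal]
    (e : N ≃* alternatingGroup (Fin 6)) (hidx : N.index = 4)
    (hC : Subgroup.centralizer (N : Set G) = ⊥)
    (H : Sylow 2 G) (x : G) :
    (H : Subgroup G) ⊓ MulAut.conj x • (H : Subgroup G) ≠ ⊥ := by
  have : Finite (Inv N) := inferInstanceAs (Finite {t : N // t * t = 1 ∧ t ≠ 1})
  have hG : Nat.card G = 1440 := by
    rw [← N.card_mul_index, hidx, Nat.card_congr e.toEquiv, nat_card_alternatingGroup]
    simp [Nat.factorial]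
  have hH : Nat.card H = 32 := by
    rw [H.card_eq_multiplicity, hG, show 1440 = 2 ^ 5 * 45 from rfl,
      Nat.factorization_mul_apply_of_coprime (by norm_num), Nat.Prime.factorization_pow Nat.prime_two,
      Nat.factorization_eq_zero_of_not_dvd (by norm_num)]
    simp
  have hI : Nat.card (Inv N) = 45 := by
    obtain ⟨ψ, h1, h2⟩ := exists_psi N e
    rw [← card_inv, ← card_eq ψ h1 h2 (fun t => t * t = 1 ∧ t ≠ 1)]
    exact Nat.card_congr (Equiv.subtypeEquivRight fun t => by
      rw [← map_mul, map_eq_one_iff ψ h1, Ne, Ne, map_eq_one_iff ψ h1])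
  obtain ⟨z, hz⟩ := H.2.nonempty_fixed_point_of_prime_not_dvd_card (Inv N) (by rw [hI]; norm_num)
  have hHz : (H : Subgroup G) = MulAction.stabilizer G z :=
    Subgroup.eq_of_le_of_card_ge (fun h hh => hz ⟨h, hh⟩) (hH ▸ card_stab N e hidx z)
  obtain ⟨ψ, h1, h2, h3⟩ := exists_psi' N e z
  have key : ∀ (P : Prop → Prop) [DecidablePred fun t : Perm (Fin 6) => (t * t = 1 ∧ t ≠ 1) ∧ P ((z0 * t) ^ 5 = 1)],
      P ((z.1 * (x • z).1) ^ 5 = 1) → Nat.card (MulAction.orbit (H : Subgroup G) (x • z)) ≤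
      (Finset.univ.filter fun t : Perm (Fin 6) => sign t = 1 ∧ ((t * t = 1 ∧ t ≠ 1) ∧ P ((z0 * t) ^ 5 = 1))).card := by
    intro P _ hP
    rw [← card_eq ψ h1 h2 (fun t => (t * t = 1 ∧ t ≠ 1) ∧ P ((z0 * t) ^ 5 = 1))]
    refine Nat.card_le_card_of_injective (fun t => ⟨t.1.1, ?_, ?_⟩) fun a b h => ?_
    · rw [← map_mul, map_eq_one_iff ψ h1, Ne, map_eq_one_iff ψ h1]; exact t.1.2
    · obtain ⟨_, h, rfl⟩ := t
      have h4 : MulAut.conjNormal (h : G) z.1 = z.1 := congrArg Subtype.val (hz h)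
      rw [← h3, ← map_mul, ← map_pow, map_eq_one_iff ψ h1]
      show P ((z.1 * MulAut.conjNormal (h : G) (x • z).1) ^ 5 = 1)
      conv => enter [1, 1, 1, 1]; rw [← h4]
      rwa [← map_mul, ← map_pow, map_eq_one_iff _ (MulEquiv.injective _)]
    · exact Subtype.ext (Subtype.ext (congrArg (fun t => t.1) h))
  have h5 : Nat.card (MulAction.orbit (H : Subgroup G) (x • z)) < 32 := by
    by_cases h : (z.1 * (x • z).1) ^ 5 = 1
    · exact (key (fun p => p) h).trans_lt (card_five.trans_lt (by norm_num))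
    · exact (key Not h).trans_lt (card_not_five.trans_lt (by norm_num))
  intro hb
  have h6 : MulAction.stabilizer (H : Subgroup G) (x • z) = ⊥ := by
    rw [eq_bot_iff]
    intro h hh
    have h7 : (h : G) ∈ MulAction.stabilizer G (x • z) := hh
    rw [MulAction.stabilizer_smul_eq_stabilizer_map_conj, ← hHz] at h7
    have h8 : (h : G) ∈ (H : Subgroup G) ⊓ MulAut.conj x • (H : Subgroup G) := ⟨h.2, h7⟩
    rw [hb] at h8
    exact Subtype.ext h8
  rw [Nat.card_coe_set_eq, ← MulAction.index_stabilizer, h6, Subgroup.index_bot] at h5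
  exact absurd hH h5.ne

end Cfsg.Agent.S2488
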