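import Cfsg.Statements.S2490
import Cfsg.Agent.Lib.FG.Basic

set_option autoImplicit false
open Cfsg

namespace Cfsg.Agent.S2490

open Subgroup Cfsg.Agent.FG

section
variable {G : Type*} [Group G] [Finite G]

/-- adjacency in the prime graph -/
def Adj (G : Type*) [Group G] (r s : ℕ) : Prop := ∃ g : G, orderOf g = r * s

instance f2 : Fact (Nat.Prime 2) := ⟨Nat.prime_two⟩
instance f3 : Fact (Nat.Prime 3) := ⟨Nat.prime_three⟩
instance f5 : Fact (Nat.Prime 5) := ⟨Nat.prime_five⟩
instance f11 : Fact (Nat.Prime 11) := ⟨by norm_num⟩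

omit [Finite G] in
lemma Adj.of_sub {H : Subgroup G} {r s : ℕ} (h : Adj H r s) : Adj G r s := by
  obtain ⟨g, hg⟩ := h
  exact ⟨g, by rw [Subgroup.orderOf_coe, hg]⟩

lemma adj_of_cent {r s : ℕ} (hr : r.Prime) (hs : s.Prime) (hrs : r ≠ s) {x : G} (hx : orderOf x = s)
    (S : Set G) (hxS : x ∈ S) (h : r ∣ Nat.card (centralizer S)) : Adj G r s := by
  have := Fact.mk hr
  obtain ⟨y, hy⟩ := exists_prime_orderOf_dvd_card' r h
  exact exists_orderOf_mul_of_commute hs hr hrs hx (y := y) (by rw [Subgroup.orderOf_coe, hy]) (y.2 x hxS)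

lemma fact11 (d : ℕ) (hd : d ∣ 720) (r : ℕ) (hr : r.Prime) (h : r ∣ d) :
    ¬ r ^ d.factorization r ≡ 1 [MOD 11] := by
  have hd0 : d ≠ 0 := by rintro rfl; simp at hd
  have h1 : r ^ d.factorization r ∣ 720 := (Nat.ordProj_dvd d r).trans hd
  have h2 : 1 ≤ d.factorization r := hr.factorization_pos_of_dvd hd0 h
  generalize d.factorization r = k at h1 h2
  have h3 : r ∣ 720 := h.trans hd
  have hr' : r = 2 ∨ r = 3 ∨ r = 5 := by
    have : (720 : ℕ) = 2 ^ 4 * 3 ^ 2 * 5 := by norm_num
    rw [this, hr.dvd_mul, hr.dvd_mul] at h3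
    rcases h3 with (h3 | h3) | h3
    · exact Or.inl ((Nat.prime_dvd_prime_iff_eq hr Nat.prime_two).mp (hr.dvd_of_dvd_pow h3))
    · exact Or.inr (Or.inl ((Nat.prime_dvd_prime_iff_eq hr Nat.prime_three).mp (hr.dvd_of_dvd_pow h3)))
    · exact Or.inr (Or.inr ((Nat.prime_dvd_prime_iff_eq hr Nat.prime_five).mp h3))
  have hk : k < 5 := by
    by_contra hk
    have : r ^ 5 ∣ 720 := (pow_dvd_pow r (by omega)).trans h1
    rcases hr' with rfl | rfl | rfl <;> norm_num at this
  rcases hr' with rfl | rfl | rfl <;> interval_cases k <;> decide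

/-- a normal `11'`-subgroup -/
lemma adj11 (hG : Nat.card G ∣ 7920) (h11 : 11 ∣ Nat.card G) (L : Subgroup G) [L.Normal]
    (hL : ¬ 11 ∣ Nat.card L) (r : ℕ) (hr : r.Prime) (h : r ∣ Nat.card L) : Adj G r 11 := by
  have := Fact.mk hr
  refine exists_orderOf_mul_of_normal L h11 hL (fact11 _ ?_ r hr h)
  have h1 : Nat.card L ∣ 720 * 11 := (card_subgroup_dvd_card L).trans hG
  exact (Nat.Coprime.symm ((Nat.Prime.coprime_iff_not_dvd f11.out).mpr hL)).dvd_of_dvd_mul_right h1

lemma cardP (hG : Nat.card G = 7920) (P : Sylow 11 G) : Nat.card P = 11 := by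
  rw [P.card_eq_multiplicity, hG]
  have : (7920 : ℕ) = 11 * 720 := by norm_num
  rw [this, Nat.factorization_mul (by norm_num) (by norm_num), Finsupp.add_apply,
    f11.out.factorization_self, Nat.factorization_eq_zero_of_not_dvd (by norm_num)]
  rfl

lemma eq_zpowers {P : Subgroup G} (hP : Nat.card P = 11) {x : G} (hx : x ∈ P) (hx1 : x ≠ 1) :
    P = zpowers x := by
  have h1 : orderOf x ∣ 11 := hP ▸ P.orderOf_dvd_natCard hx
  have h2 : orderOf x = 11 := ((Nat.dvd_prime f11.out).mp h1).resolve_left (by simpa using hx1)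
  symm
  apply eq_of_le_of_card_ge (zpowers_le.mpr hx)
  rw [hP, Nat.card_zpowers, h2]

lemma mem_cent {P : Subgroup G} (hP : Nat.card P = 11) {x t : G} (hx : x ∈ P) (hx1 : x ≠ 1)
    (h : Commute x t) : t ∈ centralizer (P : Set G) := by
  intro y hy
  rw [eq_zpowers hP hx hx1] at hy
  obtain ⟨k, rfl⟩ := hy
  exact h.zpow_left k

lemma le_cent {P : Subgroup G} (hP : Nat.card P = 11) : P ≤ centralizer (P : Set G) := by
  have := isCyclic_of_prime_card hP
  intro x hx y hy
  exact congrArg Subtype.val (IsCyclic.commGroup.mul_comm (⟨y, hy⟩ : P) ⟨x, hx⟩)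

lemma dvd_cent (hG : Nat.card G = 7920) (P : Sylow 11 G) {r : ℕ} (hr : r.Prime) (hr11 : r ≠ 11)
    (h : Adj G r 11) : r ∣ Nat.card (centralizer (P : Set G)) := by
  obtain ⟨g, hg⟩ := h
  have h0 : orderOf g ≠ 0 := (orderOf_pos g).ne'
  have hz : orderOf (g ^ r) = 11 := by
    rw [orderOf_pow_of_dvd hr.ne_zero (hg ▸ Dvd.intro _ rfl), hg, Nat.mul_div_cancel_left _ hr.pos]
  have hy : orderOf (g ^ 11) = r := by
    rw [orderOf_pow_of_dvd (by norm_num) (hg ▸ Dvd.intro_left _ rfl), hg, Nat.mul_div_cancel _ (by norm_num)]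
  have hp : IsPGroup 11 (zpowers (g ^ r)) := IsPGroup.of_card (n := 1) (by rw [Nat.card_zpowers, hz, pow_one])
  obtain ⟨Q, hQ⟩ := hp.exists_le_sylow
  obtain ⟨k, hk⟩ := MulAction.exists_smul_eq G Q P
  have h1 : k * g ^ r * k⁻¹ ∈ (P : Subgroup G) := by
    rw [← hk, Sylow.coe_subgroup_smul]
    exact smul_mem_pointwise_smul _ (MulAut.conj k) _ (hQ (mem_zpowers _))
  have h2 : k * g ^ 11 * k⁻¹ ∈ centralizer (P : Set G) := by
    refine mem_cent (cardP hG P) h1 ?_ ?_
    · intro h
      rw [conj_eq_one_iff] at h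
      rw [h] at hz; simp at hz
    · exact ((Commute.refl g).pow_pow r 11).conj k
  have h3 := (centralizer (P : Set G)).orderOf_dvd_natCard h2
  rwa [show k * g ^ 11 * k⁻¹ = MulAut.conj k (g ^ 11) from rfl, MulEquiv.orderOf_eq, hy] at h3

lemma eq_of_mem_normalizer (hG : Nat.card G = 7920) (P Q : Sylow 11 G) {x : G} (hx : x ∈ P) (hx1 : x ≠ 1)
    (h : x • Q = Q) : P = Q := by
  rw [Sylow.smul_eq_iff_mem_normalizer] at h
  have h1 : x ∈ (P : Subgroup G) ⊓ normalizer (Q : Set G) := ⟨hx, h⟩
  rw [P.2.inf_normalizer_sylow Q] at h1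
  apply Sylow.ext
  rw [eq_zpowers (cardP hG P) hx hx1, eq_zpowers (cardP hG Q) h1.2 hx1]

/-- an element normalising `Q` without centralising it has few fixed points -/
lemma fix_le (hG : Nat.card G = 7920) (Q : Sylow 11 G) {t : G} (ht : t • Q = Q)
    (hc : t ∉ centralizer (Q : Set G)) :
    Nat.card {R : Sylow 11 G // t • R = R ∧ R ≠ Q} * 11 + 1 ≤ Nat.card (Sylow 11 G) := by
  classical
  let f : {R : Sylow 11 G // t • R = R ∧ R ≠ Q} × Q → {R : Sylow 11 G // R ≠ Q} := fun a =>
    ⟨(a.2 : G) • a.1.1, fun h => a.1.2.2 (by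
      have h2 : (a.2 : G) • Q = Q := Sylow.smul_eq_iff_mem_normalizer.mpr (le_normalizer a.2.2)
      exact MulAction.injective (a.2 : G) (h.trans h2.symm))⟩
  have hf : Function.Injective f := by
    rintro ⟨⟨R, hR, hRQ⟩, y⟩ ⟨⟨R', hR', hRQ'⟩, y'⟩ h
    have h1 : (y : G) • R = (y' : G) • R' := congrArg Subtype.val h
    have h2 : R' = ((y'⁻¹ * y : Q) : G) • R := by
      push_cast; rw [mul_smul, h1, inv_smul_smul]
    have h3 : y'⁻¹ * y = 1 := by
      generalize y'⁻¹ * y = z at h2
      by_contra hz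
      have hz' : (z : G) ≠ 1 := fun h => hz (Subtype.ext h)
      have htn : t ∈ normalizer (Q : Set G) := Sylow.smul_eq_iff_mem_normalizer.mp ht
      have hw : (z : G)⁻¹ * (t * z * t⁻¹) ∈ Q := mul_mem (inv_mem z.2) ((htn z).mp z.2)
      have hfix : ((z : G)⁻¹ * (t * z * t⁻¹)) • R = R := by
        rw [mul_smul, mul_smul, mul_smul, inv_smul_eq_iff.mpr hR.symm, ← h2, hR', h2, inv_smul_smul]
      by_cases hw1 : (z : G)⁻¹ * (t * z * t⁻¹) = 1
      · apply hc
        refine mem_cent (cardP hG Q) z.2 hz' ?_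
        rw [inv_mul_eq_one, eq_mul_inv_iff_mul_eq] at hw1
        exact hw1
      · exact hRQ (eq_of_mem_normalizer hG Q R hw hw1 hfix).symm
    have h4 : y = y' := (inv_mul_eq_one.mp h3).symm
    subst h4
    simp only [inv_mul_cancel, OneMemClass.coe_one, one_smul] at h2
    subst h2; rfl
  have h1 := Nat.card_le_card_of_injective f hf
  rw [Nat.card_prod, cardP hG Q] at h1
  have := Fintype.ofFinite (Sylow 11 G)
  rw [Nat.card_eq_fintype_card (α := {R : Sylow 11 G // R ≠ Q}), Fintype.card_subtype_compl,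
    Fintype.card_subtype_eq, ← Nat.card_eq_fintype_card] at h1
  have : 0 < Nat.card (Sylow 11 G) := Nat.card_pos
  omega

lemma divs (n : ℕ) (h : n ∣ 720) (h1 : n ≡ 1 [MOD 11]) : n = 1 ∨ n = 12 ∨ n = 45 ∨ n = 144 := by
  have : ∀ n ∈ Nat.divisors 720, n % 11 = 1 → n = 1 ∨ n = 12 ∨ n = 45 ∨ n = 144 := by decide +kernel
  exact this n (Nat.mem_divisors.mpr ⟨h, by norm_num⟩) h1

/-- the possible spanning trees -/
def Conn (G : Type*) [Group G] : Prop :=
  Adj G 2 11 ∧ (Adj G 3 11 ∨ Adj G 3 2) ∧ (Adj G 5 11 ∨ Adj G 5 2 ∨ Adj G 3 5)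

lemma case45 (hG : Nat.card G = 7920) (P : Sylow 11 G) (h45 : Nat.card (Sylow 11 G) = 45)
    (hN : Nat.card (normalizer (P : Set G)) = 176) (hC : Nat.card (centralizer (P : Set G)) = 88) :
    Conn G := by
  classical
  have hP := cardP hG P
  obtain ⟨x, hx⟩ := exists_prime_orderOf_dvd_card' (G := P) 11 (by rw [hP])
  have hx' : orderOf (x : G) = 11 := by rw [Subgroup.orderOf_coe, hx]
  have h2 : Adj G 2 11 := adj_of_cent Nat.prime_two f11.out (by norm_num) hx' P x.2 (by rw [hC]; norm_num)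
  have : Nontrivial (Sylow 11 G) := Finite.one_lt_card_iff_nontrivial.mp (by omega)
  obtain ⟨Q, hQP⟩ := exists_ne P
  set C := centralizer (P : Set G) with hCdef
  have hCP : ∀ c ∈ C, c • P = P := fun c hc =>
    Sylow.smul_eq_iff_mem_normalizer.mpr (centralizer_le_normalizer _ hc)
  -- an involution of `C` normalising `Q`
  obtain ⟨t, htC, ht2, htQ⟩ : ∃ t ∈ C, orderOf t = 2 ∧ t • Q = Q := by
    have h1 : (MulAction.stabilizer C Q).index < 88 := by
      rw [MulAction.index_stabilizer]
      have := Set.ncard_le_card (MulAction.orbit C Q)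
      omega
    have h3 := (MulAction.stabilizer C Q).index_mul_card
    have h4 : ¬ 11 ∣ Nat.card (MulAction.stabilizer C Q) := by
      intro h
      obtain ⟨y, hy⟩ := exists_prime_orderOf_dvd_card' 11 h
      have hy' : orderOf ((y : C) : G) = 11 := by rw [Subgroup.orderOf_coe, Subgroup.orderOf_coe, hy]
      have hp : IsPGroup 11 (zpowers ((y : C) : G)) :=
        IsPGroup.of_card (n := 1) (by rw [Nat.card_zpowers, hy', pow_one])
      obtain ⟨R, hR⟩ := hp.exists_le_sylow
      have hy1 : ((y : C) : G) ≠ 1 := by intro h; rw [h] at hy'; simp at hy'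
      have e1 := eq_of_mem_normalizer hG R Q (hR (mem_zpowers _)) hy1 y.2
      have e2 := eq_of_mem_normalizer hG R P (hR (mem_zpowers _)) hy1 (hCP _ y.1.2)
      exact hQP (e1.symm.trans e2)
    have h5 : 2 ∣ Nat.card (MulAction.stabilizer C Q) := by
      rw [hC] at h3
      have h6 : Nat.card (MulAction.stabilizer C Q) ∣ 88 := Dvd.intro_left _ h3
      have h7 := Nat.le_of_dvd (by norm_num) h6
      generalize Nat.card (MulAction.stabilizer C Q) = m at *
      interval_cases m <;> omega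
    obtain ⟨y, hy⟩ := exists_prime_orderOf_dvd_card' 2 h5
    exact ⟨y, y.1.2, by rw [Subgroup.orderOf_coe, Subgroup.orderOf_coe, hy], y.2⟩
  have htQc : t ∈ centralizer (Q : Set G) := by
    by_contra hc
    have h1 := fix_le hG Q htQ hc
    let f : P → {R : Sylow 11 G // t • R = R ∧ R ≠ Q} := fun y =>
      if hy : y = 1 then ⟨P, hCP t htC, hQP.symm⟩ else ⟨(y : G) • Q, by
        rw [← mul_smul, ← htC y y.2, mul_smul, htQ], fun h =>
          hQP (eq_of_mem_normalizer hG P Q y.2 (fun h => hy (Subtype.ext h)) h).symm⟩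
    have hPy : ∀ y : P, (y : G) • Q ≠ P := fun y h => hQP (by
      have h2 : (y : G) • P = P := Sylow.smul_eq_iff_mem_normalizer.mpr (le_normalizer y.2)
      exact MulAction.injective (y : G) (h.trans h2.symm))
    have hf : Function.Injective f := by
      intro y y' h
      by_cases hy : y = 1 <;> by_cases hy' : y' = 1
      · rw [hy, hy']
      · simp only [f, hy, hy', dif_pos, dif_neg, not_false_eq_true, Subtype.mk.injEq] at h
        exact absurd h.symm (hPy y')
      · simp only [f, hy, hy', dif_pos, dif_neg, not_false_eq_true, Subtype.mk.injEq] at h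
        exact absurd h (hPy y)
      · simp only [f, hy, hy', dif_neg, not_false_eq_true, Subtype.mk.injEq] at h
        by_contra hne
        refine hQP (eq_of_mem_normalizer hG P Q (y'⁻¹ * y).2 (fun h => hne ?_) ?_).symm
        · exact (inv_mul_eq_one.mp (Subtype.ext h : y'⁻¹ * y = 1)).symm
        · push_cast; rw [mul_smul, h, inv_smul_smul]
    have h3 : Nat.card (P : Subgroup G) ≤ _ := Nat.card_le_card_of_injective f hf
    omega
  set H := centralizer ({t} : Set G) with hH
  have hPH : (P : Subgroup G) ≤ H := fun y hy => mem_centralizer_singleton_iff.mpr (htC y hy)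
  have hQH : (Q : Subgroup G) ≤ H := fun y hy => mem_centralizer_singleton_iff.mpr (htQc y hy)
  have h1 := card_sylow_subgroup P H hPH
  have hHG : Nat.card H ∣ 7920 := hG ▸ card_subgroup_dvd_card H
  have hm := card_sylow_modEq_one 11 H
  have hne : Nat.card (Sylow 11 H) ≠ 1 := by
    intro h
    have := (Nat.card_eq_one_iff_unique.mp h).1
    exact hQP (Sylow.subtype_injective (Subsingleton.elim (Q.subtype hQH) (P.subtype hPH)))
  -- `44` divides `|H ⊓ C|`
  have h44 : 44 ∣ Nat.card (H ⊓ C : Subgroup G) := by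
    have h11 : 11 ∣ Nat.card (H ⊓ C : Subgroup G) := hP ▸ card_dvd_of_le (le_inf hPH (le_cent hP))
    have h4 : 4 ∣ Nat.card (H ⊓ C : Subgroup G) := by
      obtain ⟨K, hK, hle⟩ := Sylow.exists_subgroup_card_pow_succ (G := C) (p := 2) (n := 1)
        (by rw [hC]; norm_num) (H := zpowers ⟨t, htC⟩)
        (by rw [Nat.card_zpowers, ← Subgroup.orderOf_coe]; exact ht2)
      have hcomm := IsPGroup.isMulCommutative_of_card_eq_prime_sq (p := 2) hK
      have : Nat.card (K.map C.subtype) = 4 := by rw [card_map_of_injective C.subtype_injective, hK]; rfl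
      rw [← this]
      apply card_dvd_of_le
      rintro _ ⟨k, hk, rfl⟩
      refine ⟨mem_centralizer_singleton_iff.mpr ?_, k.2⟩
      exact congrArg (fun z : K => ((z : C) : G)) (hcomm.is_comm.comm ⟨k, hk⟩ ⟨_, hle (mem_zpowers _)⟩)
    exact Nat.Coprime.mul_dvd_of_dvd_of_dvd (by norm_num : Nat.Coprime 4 11) h4 h11
  have hle : H ⊓ C ≤ H ⊓ normalizer (P : Set G) := inf_le_inf_left _ (centralizer_le_normalizer _)
  have h44' := h44.trans (card_dvd_of_le hle)
  have h176 : Nat.card (H ⊓ normalizer (P : Set G) : Subgroup G) ∣ 176 := hN ▸ card_dvd_of_le inf_le_right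
  obtain ⟨e, he⟩ := h44'
  have hd : Nat.card (Sylow 11 H) * (4 * e) ∣ 720 := by
    rw [← h1, he] at hHG
    exact Nat.dvd_of_mul_dvd_mul_left (k := 11) (by norm_num) (by convert hHG using 1; ring)
  have hadj : ∀ r, r.Prime → r ≠ 2 → r ∣ Nat.card (Sylow 11 H) → Adj G r 2 := fun r hr hr2 h =>
    adj_of_cent hr Nat.prime_two hr2 ht2 {t} rfl (h.trans (Dvd.intro _ h1))
  rcases divs _ (Dvd.dvd.trans (Dvd.intro _ rfl) hd) hm with h | h | h | h
  · exact absurd h hne
  · exfalso
    rw [h] at hd h1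
    have he1 : e = 1 := by
      rw [he] at h176
      have h7 : e ∣ 4 := Nat.dvd_of_mul_dvd_mul_left (k := 44) (by norm_num) h176
      have := Nat.le_of_dvd (by norm_num) h7
      interval_cases e <;> omega
    have heq : H ⊓ C = H ⊓ normalizer (P : Set G) :=
      eq_of_le_of_card_ge hle (by rw [he, he1]; exact Nat.le_of_dvd Nat.card_pos h44)
    obtain ⟨L, hLn, hL, hL11⟩ := exists_normal_compl P H hPH (heq ▸ inf_le_right)
    rw [hP, ← h1, he, he1] at hL
    have h3 := (adj11 hHG (by rw [← h1, he, he1]; norm_num) L hL11 3 Nat.prime_three (by omega)).of_sub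
    have := dvd_cent hG P Nat.prime_three (by norm_num) h3
    rw [hC] at this; norm_num at this
  · exact ⟨h2, Or.inr (hadj 3 Nat.prime_three (by norm_num) (by rw [h]; norm_num)),
      Or.inr (Or.inl (hadj 5 Nat.prime_five (by norm_num) (by rw [h]; norm_num)))⟩
  · exfalso
    rw [h] at hd
    have : 64 ∣ 720 := Dvd.dvd.trans ⟨9 * e, by ring⟩ hd
    norm_num at this

lemma main (hG : Nat.card G = 7920) (hc : ¬ Conn G) : IsSimpleGroup G := by
  obtain ⟨P⟩ : Nonempty (Sylow 11 G) := inferInstance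
  have hP := cardP hG P
  obtain ⟨x, hx⟩ := exists_prime_orderOf_dvd_card' (G := P) 11 (by rw [hP])
  have hx' : orderOf (x : G) = 11 := by rw [Subgroup.orderOf_coe, hx]
  have hadj : ∀ r, r.Prime → r ≠ 11 → r ∣ Nat.card (centralizer (P : Set G)) → Adj G r 11 :=
    fun r hr hr11 h => adj_of_cent hr f11.out hr11 hx' P x.2 h
  obtain ⟨d, hd, hNC⟩ := exists_card_normalizer (P : Subgroup G)
  have := isCyclic_of_prime_card hP
  rw [IsCyclic.card_mulAut, hP, Nat.totient_prime f11.out] at hd
  have hn := Sylow.card_eq_index_normalizer P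
  have hidx := (normalizer (P : Set G)).index_mul_card
  rw [← hn, hG] at hidx
  have hPC : 11 ∣ Nat.card (centralizer (P : Set G)) := hP.symm.dvd.trans (card_dvd_of_le (le_cent hP))
  have hd1 : d ≠ 1 := by
    rintro rfl
    have heq : centralizer (P : Set G) = normalizer (P : Set G) :=
      eq_of_le_of_card_ge (centralizer_le_normalizer _) (by rw [one_mul] at hNC; exact hNC.le)
    obtain ⟨L, hLn, hL, hL11⟩ := exists_normal_compl P ⊤ le_top (heq ▸ inf_le_right)
    rw [card_top, hG, hP] at hL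
    have h := fun r hr hr' => (adj11 (by rw [card_top, hG]) (by rw [card_top, hG]; norm_num) L hL11 r hr hr').of_sub
    exact hc ⟨h 2 Nat.prime_two (by omega), Or.inl (h 3 Nat.prime_three (by omega)),
      Or.inl (h 5 Nat.prime_five (by omega))⟩
  have hd' := Nat.le_of_dvd (by norm_num) hd
  simp only [Sylow.coe_coe] at hNC
  obtain ⟨c, hc11⟩ := hPC
  have h720 : Nat.card (Sylow 11 G) * (d * c) = 720 := by
    rw [hNC, hc11] at hidx; linarith
  have small : Nat.card (Sylow 11 G) = 1 ∨ Nat.card (Sylow 11 G) = 12 → False := by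
    intro h
    have h6 : 2 ∣ c ∧ 3 ∣ c ∧ ¬ 27 ∣ c ∧ 5 ∣ d * c := by
      rcases h with h | h <;> rw [h] at h720 <;> interval_cases d <;> omega
    have a2 := hadj 2 Nat.prime_two (by norm_num) (hc11 ▸ h6.1.mul_left _)
    have a3 := hadj 3 Nat.prime_three (by norm_num) (hc11 ▸ h6.2.1.mul_left _)
    by_cases h5 : 5 ∣ Nat.card (centralizer (P : Set G))
    · exact hc ⟨a2, Or.inl a3, Or.inl (hadj 5 Nat.prime_five (by norm_num) h5)⟩
    have hcard : Nat.card ((centralizer (P : Set G)).subgroupOf (normalizer (P : Set G))) = 11 * c := by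
      rw [Nat.card_congr (subgroupOfEquivOfLe (centralizer_le_normalizer _)).toEquiv, hc11]
    have hnorm : ((centralizer (P : Set G)).subgroupOf (normalizer (P : Set G))).Normal := by
      have := (P : Subgroup G).normalizerMonoidHom_ker
      simp only [Sylow.coe_coe] at this
      rw [← this]; infer_instance
    refine hc ⟨a2, Or.inl a3, Or.inr (Or.inr (Adj.of_sub (H := normalizer (P : Set G)) ?_))⟩
    refine exists_orderOf_mul_of_normal ((centralizer (P : Set G)).subgroupOf (normalizer (P : Set G)))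
      (by rw [hNC, hc11, mul_left_comm]; exact h6.2.2.2.mul_left _) (by rw [hcard, ← hc11]; exact h5) ?_
    rw [hcard]
    have hc0 : 11 * c ≠ 0 := by rw [← hc11]; exact Nat.card_pos.ne'
    have k1 : 1 ≤ (11 * c).factorization 3 :=
      Nat.prime_three.factorization_pos_of_dvd hc0 (h6.2.1.mul_left _)
    have k2 : (11 * c).factorization 3 < 3 := by
      by_contra hk
      have : 3 ^ 3 ∣ 11 * c := (Nat.prime_three.pow_dvd_iff_le_factorization hc0).mpr (by omega)
      omega
    generalize (11 * c).factorization 3 = k at k1 k2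
    interval_cases k <;> decide
  rcases divs _ (Dvd.intro _ h720) (card_sylow_modEq_one 11 G) with h | h | h | h
  · exact (small (Or.inl h)).elim
  · exact (small (Or.inr h)).elim
  · rw [h] at h720 hidx
    refine absurd (case45 hG P h (by omega) ?_) hc
    rw [hc11]
    interval_cases d <;> omega
  rw [h] at h720 hidx
  have hc1 : c = 1 := by interval_cases d <;> omega
  have hN : Nat.card (normalizer (P : Set G)) = 55 := by omega
  rw [hc1] at hc11
  have nonadj : ∀ (H : Subgroup G) (L : Subgroup H) [L.Normal], 11 ∣ Nat.card H → ¬ 11 ∣ Nat.card L →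
      Nat.card L = 1 := by
    intro H L _ h1 h2
    by_contra hne
    obtain ⟨r, hr, hrL⟩ := Nat.exists_prime_and_dvd hne
    have hr11 : r ≠ 11 := by rintro rfl; exact h2 hrL
    have := dvd_cent hG P hr hr11 (adj11 (hG ▸ card_subgroup_dvd_card H) h1 L h2 r hr hrL).of_sub
    rw [hc11] at this
    exact hr11 ((Nat.prime_dvd_prime_iff_eq hr f11.out).mp this)
  have : Nontrivial G := Finite.one_lt_card_iff_nontrivial.mp (by omega)
  refine ⟨fun M hM => ?_⟩
  by_cases h11 : 11 ∣ Nat.card M
  · right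
    have hsup := card_sup_mul_card_inf (P : Subgroup G) M
    have hPM : (P : Subgroup G) ≤ M := by
      obtain ⟨y, hy⟩ := exists_prime_orderOf_dvd_card' 11 h11
      have hy' : orderOf (y : G) = 11 := by rw [Subgroup.orderOf_coe, hy]
      have hp : IsPGroup 11 (zpowers (y : G)) :=
        IsPGroup.of_card (n := 1) (by rw [Nat.card_zpowers, hy', pow_one])
      obtain ⟨R, hR⟩ := hp.exists_le_sylow
      obtain ⟨k, hk⟩ := MulAction.exists_smul_eq G R P
      have h1 : k * y * k⁻¹ ∈ (P : Subgroup G) := by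
        rw [← hk, Sylow.coe_subgroup_smul]
        exact smul_mem_pointwise_smul _ (MulAut.conj k) _ (hR (mem_zpowers _))
      rw [eq_zpowers hP h1 (by
        intro h
        rw [conj_eq_one_iff] at h
        rw [h] at hy'; simp at hy'), zpowers_le]
      exact hM.conj_mem _ y.2 k
    have hF := Sylow.normalizer_sup_eq_top' P hPM
    by_contra hMt
    have h1 : Nat.card (M ⊓ normalizer (P : Set G) : Subgroup G) ∣ 55 := hN ▸ card_dvd_of_le inf_le_right
    have hle : (P : Subgroup G) ≤ M ⊓ normalizer (P : Set G) := le_inf hPM le_normalizer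
    have h2 : 11 ∣ Nat.card (M ⊓ normalizer (P : Set G) : Subgroup G) := hP.symm.dvd.trans (card_dvd_of_le hle)
    have h3 : Nat.card (M ⊓ normalizer (P : Set G) : Subgroup G) ≠ 55 := by
      intro h
      have := eq_of_le_of_card_ge (inf_le_right : M ⊓ normalizer (P : Set G) ≤ _) (by rw [h, hN])
      apply hMt
      rw [← hF, eq_comm, sup_eq_right, ← this]
      exact inf_le_left
    have h4 : Nat.card (M ⊓ normalizer (P : Set G) : Subgroup G) = 11 := by
      have := Nat.le_of_dvd (by norm_num) h1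
      generalize Nat.card (M ⊓ normalizer (P : Set G) : Subgroup G) = m at *
      interval_cases m <;> omega
    have h5 := eq_of_le_of_card_ge hle (by rw [h4, hP])
    obtain ⟨L, hLn, hL, hL11⟩ := exists_normal_compl P M hPM (h5 ▸ le_cent hP)
    rw [nonadj M L h11 hL11, hP] at hL
    have h6 := card_sup_mul_card_inf (normalizer (P : Set G)) M
    rw [hF, inf_comm, h4, hN, ← hL, card_top, hG] at h6
    norm_num at h6
  · left
    have := nonadj ⊤ (M.subgroupOf ⊤) (by rw [card_top, hG]; norm_num) (by rwa [card_subgroupOf, top_inf_eq])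
    rwa [card_subgroupOf, top_inf_eq, card_eq_one] at this

end

/-- Let G be a finite group of order 7920 = 2⁴·3²·5·11 (the order of the smallest Mathieu group) and suppose its prime graph (vertices the prime divisors of the order, distinct p, q joined when there is an element of order pq) is disconnected: the prime divisors split into two non-empty parts with no element of order pq for p in one part and q in the other. Then G is simple. -/
theorem result {G : Type*} [Group G] [Finite G] (hord : Nat.card G = 7920)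
    (hdisc : (∃ A : Set ℕ, (∃ a ∈ A, a.Prime ∧ a ∣ Nat.card G) ∧ (∃ b ∉ A, b.Prime ∧ b ∣ Nat.card G) ∧
      ∀ a ∈ A, ∀ b ∉ A, a.Prime → b.Prime → a ∣ Nat.card G → b ∣ Nat.card G → ¬ ∃ g : G, orderOf g = a * b)) :
    IsSimpleGroup G := by
  refine main hord ?_
  rintro ⟨c1, c2, c3⟩
  obtain ⟨A, ⟨a, haA, ha, had⟩, ⟨b, hbA, hb, hbd⟩, h⟩ := hdisc
  have key : ∀ r s : ℕ, r.Prime → s.Prime → r ∣ 7920 → s ∣ 7920 → Adj G r s → (r ∈ A ↔ s ∈ A) := by
    intro r s hr hs hr' hs' hadj
    constructor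
    · intro h1; by_contra h2; exact h r h1 s h2 hr hs (hord ▸ hr') (hord ▸ hs') hadj
    · intro h1; by_contra h2
      exact h s h1 r h2 hs hr (hord ▸ hs') (hord ▸ hr') (by rw [mul_comm]; exact hadj)
  have p2 := Nat.prime_two
  have p3 := Nat.prime_three
  have p5 := Nat.prime_five
  have p11 := f11.out
  have k2 : 2 ∈ A ↔ 11 ∈ A := key 2 11 p2 p11 (by norm_num) (by norm_num) c1
  have k3 : 3 ∈ A ↔ 11 ∈ A := by
    rcases c2 with c | c
    · exact key 3 11 p3 p11 (by norm_num) (by norm_num) c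
    · exact (key 3 2 p3 p2 (by norm_num) (by norm_num) c).trans k2
  have k5 : 5 ∈ A ↔ 11 ∈ A := by
    rcases c3 with c | c | c
    · exact key 5 11 p5 p11 (by norm_num) (by norm_num) c
    · exact (key 5 2 p5 p2 (by norm_num) (by norm_num) c).trans k2
    · exact (key 3 5 p3 p5 (by norm_num) (by norm_num) c).symm.trans k3
  have all : ∀ r : ℕ, r.Prime → r ∣ Nat.card G → (r ∈ A ↔ 11 ∈ A) := by
    intro r hr hd
    rw [hord, show (7920 : ℕ) = 2 ^ 4 * 3 ^ 2 * 5 * 11 by norm_num, hr.dvd_mul, hr.dvd_mul, hr.dvd_mul] at hd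
    rcases hd with ((hd | hd) | hd) | hd
    · rw [(Nat.prime_dvd_prime_iff_eq hr p2).mp (hr.dvd_of_dvd_pow hd)]; exact k2
    · rw [(Nat.prime_dvd_prime_iff_eq hr p3).mp (hr.dvd_of_dvd_pow hd)]; exact k3
    · rw [(Nat.prime_dvd_prime_iff_eq hr p5).mp hd]; exact k5
    · rw [(Nat.prime_dvd_prime_iff_eq hr p11).mp hd]
  exact hbA ((all b hb hbd).mpr ((all a ha had).mp haA))

end Cfsg.Agent.S2490
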