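import Cfsg.Statements.S2493
import Cfsg.Agent.Lib.Alt.SpinComm

set_option autoImplicit false
open Cfsg

namespace Cfsg.Agent.S2493

open Equiv Equiv.Perm Alt

section

variable {G α : Type*} [Group G] [DecidableEq α] [Fintype α] {π : G →* Perm α} {z : G}
  (hz : ∀ g, π g = 1 ↔ g = 1 ∨ g = z) (hc : ∀ g, g * z = z * g) (hz2 : z * z = 1)
  (hs : ∀ σ, sign σ = 1 → ∃ g, π g = σ)
include hz hz2

theorem sq_ker {g : G} (h : π g = 1) : g ^ 2 = 1 := by
  rcases (hz g).1 h with rfl | rfl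
  exacts [one_pow 2, by rw [sq, hz2]]

include hs in
theorem lift3 {a b c : α} (ab : a ≠ b) (ac : a ≠ c) (bc : b ≠ c) :
    ∃ x, π x = c3 a b c ∧ x ^ 3 = 1 := by
  obtain ⟨y, hy⟩ := hs _ (c3_isThreeCycle ab ac bc).sign
  refine ⟨y ^ 4, by rw [map_pow, hy, pow_succ, c3_pow_three ab ac bc, one_mul], ?_⟩
  rw [← pow_mul, show 4 * 3 = 3 * 2 * 2 from rfl, pow_mul, pow_mul,
    sq_ker hz hz2 (g := y ^ 3) (by rw [map_pow, hy, c3_pow_three ab ac bc]), one_pow]

include hc in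
theorem comm3 {x a : G} (hx : x ^ 3 = 1) (h : π a * π x * (π a)⁻¹ = π x) : a * x = x * a := by
  rcases (hz (x⁻¹ * (a * x * a⁻¹))).1 (by simp [h]) with h1 | h1
  · exact mul_inv_eq_iff_eq_mul.1 (inv_mul_eq_one.1 h1).symm
  · have h2 := congrArg (· ^ 3) (inv_mul_eq_iff_eq_mul.1 h1)
    simp only [conj_pow, hx, Commute.mul_pow (hc x), pow_succ z, pow_zero, one_mul, hz2] at h2
    exact mul_inv_eq_iff_eq_mul.1 (inv_mul_eq_one.1 (h1.trans (by simpa using h2.symm))).symm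

include hc hs in
theorem sq_dt (hp : commutator G = ⊤) (h1 : z ≠ 1) (he : ∀ g, sign (π g) = 1) {p q r s : α}
    (h : [p, q, r, s].Nodup) {a : G} (ha : π a = swap p q * swap r s) : a ^ 2 = z := by
  have h2 := h
  simp only [List.nodup_cons, List.mem_cons, not_or] at h2
  refine ((hz _).1 (by
    rw [map_pow, ha, (disjoint_swap_swap h).commute.mul_pow]; simp [sq])).resolve_left fun h3 => h1 ?_
  have h4 : ∀ i, ∃ x, i ≠ p → i ≠ q → π x = c3 i p q ∧ x ^ 3 = 1 := fun i => by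
    by_cases h : i ≠ p ∧ i ≠ q
    · exact (lift3 hz hz2 hs h.1 h.2 h2.1.1).imp fun x hx _ _ => hx
    · exact ⟨1, fun h' h'' => absurd ⟨h', h''⟩ h⟩
  choose x hx using h4
  obtain ⟨φ, hφ⟩ := exists_carmichael_hom h2.1.1 x (fun i ip iq => (hx i ip iq).2)
    fun i j ip iq jp jq ij => by
      obtain ⟨g, g1, g2⟩ := exists_even_conj (a := swap p q * swap r s) (b := swap i p * swap j q)
        (p := p) (q := q) (by rw [cycleType_swap_mul_swap_of_nodup h,
          cycleType_swap_mul_swap_of_nodup (by simp; grind)]) h2.1.1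
        (by simp only [mul_apply, swap_apply_def]; grind)
        (by simp only [mul_apply, swap_apply_def]; grind)
      obtain ⟨g, rfl⟩ := hs g g1
      have h5 : (g * a * g⁻¹) ^ 2 = 1 := by rw [conj_pow, h3]; simp
      rcases (hz ((g * a * g⁻¹)⁻¹ * (x i * x j))).1 (by
        rw [map_mul, map_inv, map_mul, map_mul, map_inv, ha, g2, map_mul, (hx i ip iq).1,
          (hx j jp jq).1, c3_mul_c3 ij ip iq jp jq h2.1.1, inv_mul_cancel]) with h6 | h6
      · rw [← inv_mul_eq_one.1 h6, h5]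
      · rw [inv_mul_eq_iff_eq_mul.1 h6, Commute.mul_pow (hc _), h5, one_mul, sq, hz2]
  let π' : G →* alternatingGroup α := π.codRestrict _ he
  have h5 : π.comp φ = (alternatingGroup α).subtype :=
    MonoidHom.eq_of_eqOn_dense (closure_star_t3 h2.1.1) (by
      rintro _ ⟨i, rfl⟩
      simp [hφ _ i.2.1 i.2.2, (hx _ i.2.1 i.2.2).1, coe_t3 i.2.1 i.2.2 h2.1.1])
  have h6 : ∀ g, ∃ c ∈ Subgroup.center G, φ (π' g) = g * c := fun g => by
    refine ⟨g⁻¹ * φ (π' g), ?_, by simp⟩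
    rcases (hz (g⁻¹ * φ (π' g))).1 (by
      rw [map_mul, map_inv, show π (φ _) = _ from DFunLike.congr_fun h5 _]; exact inv_mul_cancel _)
      with h | h <;> rw [h]
    exacts [one_mem _, Subgroup.mem_center_iff.2 hc]
  have h7 : commutator G ≤ (φ.comp π').eqLocus (MonoidHom.id G) := by
    rw [commutator_def, Subgroup.commutator_le]
    intro g _ k _
    obtain ⟨c, c1, c2⟩ := h6 g
    obtain ⟨d, d1, d2⟩ := h6 k
    rw [Subgroup.mem_center_iff] at c1 d1
    change φ (π' _) = _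
    rw [map_commutatorElement, map_commutatorElement, c2, d2]
    calc _ = g * (c * (k * d)) * c⁻¹ * g⁻¹ * d⁻¹ * k⁻¹ := by group
      _ = g * k * (d * g⁻¹) * d⁻¹ * k⁻¹ := by rw [← c1]; group
      _ = g * k * g⁻¹ * k⁻¹ := by rw [← d1]; group
  have h8 : φ (π' z) = z := h7 (hp ▸ Subgroup.mem_top z)
  rw [← h8, show π' z = 1 from Subtype.ext ((hz z).2 (Or.inr rfl)), map_one]

include hc hs in
theorem nonsplit (hp : commutator G = ⊤) (h1 : z ≠ 1) (he : ∀ g, sign (π g) = 1) {a : G}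
    (ha : DT (π a)) : ∃ h, h * a * h⁻¹ = a * z := by
  obtain ⟨p, q, r, s, h, a1, a2, a3, a4⟩ := ha
  have h2 := h
  simp only [List.nodup_cons, List.mem_cons, not_or] at h2
  obtain ⟨b, hb⟩ := hs (swap p q * swap r s) (by simp [h2.1.1, h2.2.2.1.1])
  obtain ⟨x, x1, x2⟩ := lift3 hz hz2 hs h2.1.2.1 h2.1.2.2.1 h2.2.2.1.1
  obtain ⟨y, y1, y2⟩ := lift3 hz hz2 hs h2.2.1.1 h2.2.1.2.1 h2.2.2.1.1
  have h3 : π (b⁻¹ * a) p = p ∧ π (b⁻¹ * a) q = q ∧ π (b⁻¹ * a) r = r ∧ π (b⁻¹ * a) s = s := by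
    simp only [map_mul, map_inv, hb, mul_apply, Perm.inv_eq_iff_eq, a1, a2, a3, a4, swap_apply_def]
    grind
  have h4 := comm3 hz hc hz2 (a := b⁻¹ * a) x2 (by rw [x1, conj_c3, h3.1, h3.2.2.1, h3.2.2.2])
  have h5 := comm3 hz hc hz2 (a := b⁻¹ * a) y2 (by rw [y1, conj_c3, h3.2.1, h3.2.2.1, h3.2.2.2])
  have h6 : π (x * y) = swap p r * swap q s := by
    rw [map_mul, x1, y1, c3_mul_c3] <;> grind
  have e1 := sq_dt hz hc hz2 hs hp h1 he h hb
  have e2 := sq_dt hz hc hz2 hs hp h1 he (by simp; grind) h6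
  have e3 := sq_dt hz hc hz2 hs hp h1 he (p := p) (q := s) (r := q) (s := r) (a := x * y * b)
    (by simp; grind) (by
      rw [map_mul, h6, hb]
      clear * - h2
      ext w; simp only [mul_apply, swap_apply_def]; grind)
  refine ⟨x * y, ?_⟩
  have h7 : Commute (b⁻¹ * a) (x * y) := Commute.mul_right h4 h5
  generalize x * y = k at *
  have h8 : k * b * k⁻¹ = b * z :=
    calc k * b * k⁻¹ = (k * b) ^ 2 * b⁻¹ * (k ^ 2)⁻¹ := by simp only [sq]; group
      _ = b * (b ^ 2)⁻¹ := by rw [e3, e2, ← hc]; group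
      _ = _ := by rw [e1, inv_eq_of_mul_eq_one_left hz2]
  calc k * a * k⁻¹ = k * b * k⁻¹ * (k * (b⁻¹ * a) * k⁻¹) := by group
    _ = _ := by rw [h8, ← h7.eq, mul_inv_cancel_right, mul_assoc, ← hc, ← mul_assoc,
        mul_inv_cancel_left]

end

/-- Let n ≥ 5 and let G be a finite perfect group whose centre has order 2 with G/Z(G) isomorphic to the alternating group of degree n (the double cover of the alternating group). Then every element of G is a commutator. -/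
theorem result {G : Type*} [Group G] [Finite G] (hperf : commutator G = ⊤) {n : ℕ} (hn : 5 ≤ n)
    (hZ : Nat.card (Subgroup.center G) = 2) (e : G ⧸ Subgroup.center G ≃* alternatingGroup (Fin n))
    (g : G) :
    ∃ a b : G, a * b * a⁻¹ * b⁻¹ = g := by
  let π : G →* Perm (Fin n) := (alternatingGroup (Fin n)).subtype.comp
    (e.toMonoidHom.comp (QuotientGroup.mk' _))
  obtain ⟨⟨z, hz⟩, h1, h2⟩ := (Nat.card_eq_two_iff' (1 : Subgroup.center G)).1 hZ
  have h3 : ∀ g, π g = 1 ↔ g = 1 ∨ g = z := fun g => by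
    have : π g = 1 ↔ g ∈ Subgroup.center G := by simp [π]
    rw [this]
    refine ⟨fun h => or_iff_not_imp_left.2 fun h' => congrArg Subtype.val
      (h2 ⟨g, h⟩ fun e => h' (congrArg Subtype.val e)), ?_⟩
    rintro (rfl | rfl)
    exacts [one_mem _, hz]
  have h4 : z ≠ 1 := fun e => h1 (Subtype.ext e)
  have h5 := Subgroup.mem_center_iff.1 hz
  have h6 : z * z = 1 := ((h3 _).1 (by rw [map_mul, (h3 z).2 (Or.inr rfl), mul_one])).resolve_right
    (by simpa using h4)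
  have h7 : ∀ σ, sign σ = 1 → ∃ g, π g = σ := fun σ h => by
    obtain ⟨g, hg⟩ := QuotientGroup.mk'_surjective _ (e.symm ⟨σ, h⟩)
    exact ⟨g, by simp only [π, MonoidHom.comp_apply, hg]; simp⟩
  have h8 : ∀ g, sign (π g) = 1 := fun g => (e g).2
  obtain ⟨a, c, a1, c1, d, h9⟩ := goodComm (by simpa using hn) (h8 g)
  obtain ⟨a, rfl⟩ := h7 a a1
  obtain ⟨c, rfl⟩ := h7 c c1
  rcases (h3 ((a * c * a⁻¹ * c⁻¹)⁻¹ * g)).1 (by simp [h9, mul_assoc]) with h | h
  · exact ⟨a, c, inv_mul_eq_one.1 h⟩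
  · obtain ⟨k, hk⟩ := nonsplit h3 h5 h6 h7 hperf h4 h8 d
    refine ⟨a, c * k, ?_⟩
    calc _ = a * c * (k * a * k⁻¹)⁻¹ * c⁻¹ := by group
      _ = _ := by
        rw [hk, inv_mul_eq_iff_eq_mul.1 h, h5 a, mul_inv_rev, inv_eq_of_mul_eq_one_left h6,
          mul_assoc _ _ z, h5 c⁻¹]
        simp only [mul_assoc]

end Cfsg.Agent.S2493
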