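import Cfsg.Statements.S2495
import Cfsg.Agent.Lib.GLn.Spec3

set_option autoImplicit false
open Cfsg

namespace Cfsg.Agent.S2495

theorem sq_le {q m k g : ℕ} (hq : 3 ≤ q) (hk : 0 < k) (h1 : g ∣ q ^ m + 1) (h2 : g ∣ q ^ k - 1) :
    g ^ 2 ≤ 2 * q ^ k := by
  have hq0 : 0 < q := by omega
  have h3 : (q : ZMod g) ^ m = -1 := by
    have := (ZMod.natCast_eq_zero_iff _ _).2 h1
    push_cast at this
    exact eq_neg_of_add_eq_zero_left this
  rw [GLn.dvd_pow_sub_one_iff_orderOf_dvd hq0] at h2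
  have h4 : orderOf (q : ZMod g) ∣ 2 * m := by
    rw [orderOf_dvd_iff_pow_eq_one, mul_comm, pow_mul, h3]
    simp
  have hqk : q ≤ q ^ k := Nat.le_self_pow hk.ne' q
  obtain ⟨u, hu⟩ := h4
  rcases Nat.even_or_odd' u with ⟨v, rfl | rfl⟩
  · have h5 : m = orderOf (q : ZMod g) * v := by nlinarith
    rw [h5, pow_mul, pow_orderOf_eq_one, one_pow] at h3
    have h6 : g ∣ 2 := by
      rw [← ZMod.natCast_eq_zero_iff]
      push_cast
      linear_combination h3
    have := Nat.le_of_dvd two_pos h6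
    nlinarith
  · obtain ⟨j, hj⟩ : 2 ∣ orderOf (q : ZMod g) := by
      refine (Nat.prime_two.dvd_mul.1 ⟨m, hu.symm⟩).resolve_right ?_
      omega
    have h5 : m = j * (2 * v + 1) := by
      rw [hj] at hu
      nlinarith
    have h6 : (q : ZMod g) ^ j = -1 := by
      rw [← h3, h5, mul_add, pow_add, mul_one, ← mul_assoc, mul_comm j 2, ← hj, pow_mul,
        pow_orderOf_eq_one, one_pow, one_mul]
    have h7 : g ∣ q ^ j + 1 := by
      rw [← ZMod.natCast_eq_zero_iff]
      push_cast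
      rw [h6, neg_add_cancel]
    have h8 := Nat.le_of_dvd (Nat.succ_pos _) h7
    have h9 : q ^ (2 * j) ≤ q ^ k := Nat.pow_le_pow_right hq0 (hj ▸ Nat.le_of_dvd hk h2)
    rcases Nat.eq_zero_or_pos j with rfl | hj0
    · simp at h8
      nlinarith
    · have h10 : 3 ≤ q ^ j := hq.trans (Nat.le_self_pow hj0.ne' q)
      rw [mul_comm, pow_mul] at h9
      nlinarith

theorem gcd_prod_dvd {ι : Type*} (s : Finset ι) (N : ℕ) (a : ι → ℕ) :
    Nat.gcd N (∏ i ∈ s, a i) ∣ ∏ i ∈ s, Nat.gcd N (a i) := by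
  classical
  induction s using Finset.induction_on with
  | empty => simp
  | insert i s hi ih =>
    rw [Finset.prod_insert hi, Finset.prod_insert hi]
    exact (Nat.gcd_mul_right_dvd_mul_gcd _ _ _).trans (Nat.mul_dvd_mul_left _ ih)

theorem gcd_dvd_iff {a m : ℕ} (ha : a ≠ 0) (hm : m ≠ 0) :
    Nat.gcd (2 * m) a ∣ m ↔ padicValNat 2 a < padicValNat 2 (2 * m) := by
  have h2 : padicValNat 2 (2 * m) = padicValNat 2 m + 1 := by
    rw [padicValNat.mul two_ne_zero hm, padicValNat.self one_lt_two, add_comm]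
  rw [h2, Nat.lt_succ_iff]
  constructor
  · intro h
    by_contra h1
    have h3 : 2 ^ (padicValNat 2 m + 1) ∣ a := padicValNat_dvd_iff_le ha |>.2 (by omega)
    have h4 : 2 ^ (padicValNat 2 m + 1) ∣ 2 * m := h2 ▸ pow_padicValNat_dvd
    have h5 := (padicValNat_dvd_iff_le hm).1 ((Nat.dvd_gcd h4 h3).trans h)
    omega
  · intro h
    obtain ⟨u, hu⟩ := Nat.gcd_dvd_left (2 * m) a
    rcases Nat.even_or_odd' u with ⟨v, rfl | rfl⟩
    · exact ⟨v, by nlinarith⟩
    · exfalso
      have h4 : 2 ^ (padicValNat 2 m + 1) ∣ 2 * m := h2 ▸ pow_padicValNat_dvd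
      rw [hu] at h4
      have h5 : 2 ^ (padicValNat 2 m + 1) ∣ Nat.gcd (2 * m) a :=
        (Nat.Coprime.pow_left _ (by simp)).dvd_of_dvd_mul_right h4
      have h6 := (padicValNat_dvd_iff_le ha).1 (h5.trans (Nat.gcd_dvd_right _ _))
      omega

/-- Let q be an odd prime power, n ≥ 4 even, and L = PSL(n,q). Then L has an element of order q^(n/2) + 1 if and only if the 2-part of n exceeds the 2-part of q − 1. -/
theorem result {F : Type*} [Field F] [Fintype F] {q : ℕ} (hF : Fintype.card F = q) (hodd : Odd q)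
    {n : ℕ} (hn : 4 ≤ n) (heven : Even n) :
    (∃ g : Matrix.ProjectiveSpecialLinearGroup (Fin n) F, orderOf g = q ^ (n / 2) + 1) ↔
      padicValNat 2 (q - 1) < padicValNat 2 n := by
  classical
  obtain ⟨p, hpc⟩ := CharP.exists F
  have : Fact p.Prime := ⟨CharP.char_is_prime F p⟩
  have hp : p.Prime := Fact.out
  rw [← Nat.card_eq_fintype_card] at hF
  subst hF
  have hq : 1 < Nat.card F := Finite.one_lt_card
  obtain ⟨m, rfl⟩ : ∃ m, n = 2 * m := ⟨n / 2, by obtain ⟨r, hr⟩ := heven; omega⟩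
  rw [Nat.mul_div_cancel_left _ two_pos, ← gcd_dvd_iff (by omega) (by omega)]
  set q := Nat.card F with hqdef
  have hq3 : 3 ≤ q := by
    obtain ⟨r, hr⟩ := hodd
    omega
  set d := Nat.gcd (2 * m) (q - 1) with hd
  have hdq : d ∣ q - 1 := Nat.gcd_dvd_right _ _
  have hgs : GLn.gs q (2 * m) = GLn.gs q m * (q ^ m + 1) := by
    rw [mul_comm 2 m, GLn.gs_mul hq, GLn.gs_two]
  have hdm : d ∣ GLn.gs q m ↔ d ∣ m := ((GLn.gs_modEq q m hq.le).of_dvd hdq).dvd_iff dvd_rfl
  have hdg : d ∣ GLn.gs q (2 * m) := by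
    rw [hd, ← GLn.gcd_gs_pred hq.le]
    exact Nat.gcd_dvd_left _ _
  rw [← hdm]
  constructor
  · rintro ⟨x, hx⟩
    obtain ⟨t, α, k, e, h0, hk, he, hfix, hsum, hdet, hord⟩ :=
      GLn.exists_spec_PSL (K := AlgebraicClosure F) p x
    rw [Fintype.card_fin] at hsum
    have he1 : ∀ i, e i = 1 := by
      intro i
      obtain ⟨c, hc⟩ := (hord _).1 dvd_rfl
      have h1 := (hc i).2
      by_contra h2
      have h3 : 0 < Nat.clog p (e i) := Nat.clog_pos hp.one_lt (by have := he i; omega)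
      have h4 := (dvd_pow_self p h3.ne').trans h1
      rw [hx, Nat.dvd_add_right ((GLn.char_dvd_card p).trans (dvd_pow_self _ (by omega)))] at h4
      exact hp.one_lt.ne' (Nat.dvd_one.1 h4)
    simp only [he1, mul_one, one_mul] at hsum hdet
    obtain rfl | rfl | ht : t = 0 ∨ t = 1 ∨ 2 ≤ t := by omega
    · simp at hsum
      omega
    · simp only [Finset.univ_unique, Fin.default_eq_zero, Finset.sum_singleton,
        Finset.prod_singleton] at hsum hdet
      rw [hsum] at hdet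
      obtain ⟨c, hc⟩ := (GLn.mem_range_iff_pow_card_sub_one (F := F)
        (pow_ne_zero (GLn.gs q (2 * m) / d) (h0 0))).2 (by
          have : GLn.gs q (2 * m) / d * (q - 1) = GLn.gs q (2 * m) * ((q - 1) / d) := by
            conv_lhs => rw [← Nat.div_mul_cancel hdq]
            conv_rhs => rw [← Nat.div_mul_cancel hdg]
            ring
          rw [← pow_mul, this, pow_mul, hdet, one_pow])
      have h1 : orderOf x ∣ GLn.gs q (2 * m) / d := by
        refine (hord _).2 ⟨c, fun l => ?_⟩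
        obtain rfl : l = 0 := Subsingleton.elim _ _
        exact ⟨hc, by simp [he1]⟩
      rw [hx, Nat.dvd_div_iff_mul_dvd hdg, hgs] at h1
      exact Nat.dvd_of_mul_dvd_mul_right (Nat.succ_pos _) h1
    · exfalso
      have hev : ∀ j, 2 ∣ q ^ j - 1 := fun j => by
        obtain ⟨r, hr⟩ := hodd.pow (n := j)
        omega
      choose a ha using fun i => hev (k i)
      obtain ⟨N, hN⟩ : 2 ∣ q ^ m + 1 := by
        obtain ⟨r, hr⟩ := hodd.pow (n := m)
        omega
      have h1 : orderOf x ∣ 2 * ∏ i, a i := by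
        refine (hord _).2 ⟨1, fun i => ⟨?_, by simp [he1]⟩⟩
        obtain ⟨u, hu⟩ := Finset.dvd_prod_of_mem a (Finset.mem_univ i)
        rw [hu, ← mul_assoc, ← ha, pow_mul,
          (GLn.pow_card_pow_eq_self_iff (h0 i) (pow_pos hq.le _)).1 ((hfix i _).2 dvd_rfl),
          one_pow, map_one]
      rw [hx, hN, Nat.mul_dvd_mul_iff_left two_pos] at h1
      have h2 := gcd_prod_dvd Finset.univ N a
      rw [Nat.gcd_eq_left h1] at h2
      have hN0 : 0 < N := by omega
      have h3 := Nat.le_of_dvd (Finset.prod_pos fun i _ => Nat.gcd_pos_of_pos_left _ hN0) h2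
      have h4 : ∀ i, 2 * Nat.gcd N (a i) ^ 2 ≤ q ^ k i := by
        intro i
        have := sq_le (m := m) (g := 2 * Nat.gcd N (a i)) hq3 (hk i)
          (hN ▸ Nat.mul_dvd_mul_left _ (Nat.gcd_dvd_left _ _))
          (ha i ▸ Nat.mul_dvd_mul_left _ (Nat.gcd_dvd_right _ _))
        nlinarith
      have h5 : ∏ i, 2 * Nat.gcd N (a i) ^ 2 ≤ ∏ i, q ^ k i :=
        Finset.prod_le_prod' fun i _ => h4 i
      rw [Finset.prod_mul_distrib, Finset.prod_const, Finset.card_univ, Fintype.card_fin,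
        Finset.prod_pow, Finset.prod_pow_eq_pow_sum, hsum, mul_comm 2 m, pow_mul] at h5
      have h6 : 2 ^ 2 ≤ 2 ^ t := Nat.pow_le_pow_right two_pos ht
      have h7 : N ^ 2 ≤ (∏ i, Nat.gcd N (a i)) ^ 2 := Nat.pow_le_pow_left h3 2
      have h8 : 2 ^ 2 * N ^ 2 ≤ (q ^ m) ^ 2 := (Nat.mul_le_mul h6 h7).trans h5
      nlinarith
  · intro h
    obtain ⟨x, hx⟩ := GLn.exists_PSL_of_dvd_gs (F := F) p (n := 2 * m) (ι := Unit)
      (fun _ => GLn.gs q (2 * m)) (fun _ => 2 * m) (fun _ => 1) (fun _ => by omega) (by simp)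
      (fun _ => dvd_rfl) (by simp)
    refine GLn.mem_range_orderOf_of_dvd x (dvd_trans ?_
      (GLn.div_gcd_dvd_of_dvd_mul (GLn.gs_pos _ (by omega)) (hx ()).1))
    rw [GLn.gcd_gs_pred hq.le, Nat.dvd_div_iff_mul_dvd hdg, hgs]
    exact Nat.mul_dvd_mul_right h _

end Cfsg.Agent.S2495
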