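import Cfsg.Statements.S2496
import Cfsg.Agent.Lib.Forms.USpec
import Cfsg.Agent.S2495

set_option autoImplicit false
open Cfsg

namespace Cfsg.Agent.S2496

open Forms

theorem sq_le {q m k g : ℕ} (hq : 3 ≤ q) (hk : 0 < k) (h1 : (g : ℤ) ∣ (-q : ℤ) ^ m + 1)
    (h2 : g ∣ qu q k) : 9 * g ^ 2 ≤ 16 * q ^ k := by
  have hq0 : 0 < q := by omega
  have h3 : (-q : ZMod g) ^ m = -1 := by
    have := (ZMod.intCast_zmod_eq_zero_iff_dvd _ _).2 h1
    push_cast at this
    exact eq_neg_of_add_eq_zero_left this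
  have h2' : orderOf (-q : ZMod g) ∣ k := by
    rw [qu, ← Int.natCast_dvd, ← ZMod.intCast_zmod_eq_zero_iff_dvd] at h2
    push_cast at h2
    rw [orderOf_dvd_iff_pow_eq_one, ← sub_eq_zero, h2]
  have h4 : orderOf (-q : ZMod g) ∣ 2 * m := by
    rw [orderOf_dvd_iff_pow_eq_one, mul_comm, pow_mul, h3]
    simp
  have hqk : q ≤ q ^ k := Nat.le_self_pow hk.ne' q
  have two : (1 : ZMod g) = -1 → 9 * g ^ 2 ≤ 16 * q ^ k := fun h3 => by
    have h6 : g ∣ 2 := by
      rw [← ZMod.natCast_eq_zero_iff]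
      push_cast
      linear_combination h3
    have := Nat.le_of_dvd two_pos h6
    nlinarith
  obtain ⟨u, hu⟩ := h4
  rcases Nat.even_or_odd' u with ⟨v, rfl | rfl⟩
  · have h5 : m = orderOf (-q : ZMod g) * v := by nlinarith
    rw [h5, pow_mul, pow_orderOf_eq_one, one_pow] at h3
    exact two h3
  · obtain ⟨j, hj⟩ : 2 ∣ orderOf (-q : ZMod g) := by
      refine (Nat.prime_two.dvd_mul.1 ⟨m, hu.symm⟩).resolve_right ?_
      omega
    have h5 : m = j * (2 * v + 1) := by
      rw [hj] at hu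
      nlinarith
    have h6 : (-q : ZMod g) ^ j = -1 := by
      rw [← h3, h5, mul_add, pow_add, mul_one, ← mul_assoc, mul_comm j 2, ← hj, pow_mul,
        pow_orderOf_eq_one, one_pow, one_mul]
    rcases Nat.eq_zero_or_pos j with rfl | hj0
    · exact two (by simpa using h6)
    have h7 : (g : ℤ) ∣ (-q : ℤ) ^ j + 1 := by
      rw [← ZMod.intCast_zmod_eq_zero_iff_dvd]
      push_cast
      rw [h6, neg_add_cancel]
    have h10 : 3 ≤ q ^ j := hq.trans (Nat.le_self_pow hj0.ne' q)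
    have h8 : g ≤ q ^ j + 1 := by
      have h11 : (3 : ℤ) ≤ q ^ j := by exact_mod_cast h10
      rcases Nat.even_or_odd j with h | h
      · rw [h.neg_pow] at h7
        exact_mod_cast Int.le_of_dvd (by positivity) h7
      · rw [h.neg_pow, ← Int.dvd_neg] at h7
        have := Int.le_of_dvd (by omega) h7
        zify; omega
    have h9 : q ^ (2 * j) ≤ q ^ k := Nat.pow_le_pow_right hq0 (hj ▸ Nat.le_of_dvd hk h2')
    rw [mul_comm, pow_mul] at h9
    nlinarith

theorem pow_bound {t : ℕ} (ht : 2 ≤ t) : 81 * 4 ^ t ≤ 16 * 9 ^ t := by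
  induction t, ht using Nat.le_induction with
  | base => norm_num
  | succ t _ ih => rw [pow_succ, pow_succ]; omega


/-- Let q be an odd prime power, n ≥ 4 even, and U = PSU(n,q) (realised over the field with q² elements). Then U has an element of order q^(n/2) + (−1)^(n/2) — that is, q^(n/2) + 1 when n/2 is even and q^(n/2) − 1 when n/2 is odd — if and only if the 2-part of n exceeds the 2-part of q + 1. -/
theorem result {F : Type*} [Field F] [Fintype F] {q : ℕ} (hF : Fintype.card F = q ^ 2) (hodd : Odd q)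
    {n : ℕ} (hn : 4 ≤ n) (heven : Even n) :
    (∃ g : Cfsg.PSU n F q, orderOf g = if Even (n / 2) then q ^ (n / 2) + 1 else q ^ (n / 2) - 1) ↔
      padicValNat 2 (q + 1) < padicValNat 2 n := by
  classical
  obtain ⟨p, hpc⟩ := CharP.exists F
  have : Fact p.Prime := ⟨CharP.char_is_prime F p⟩
  have hp : p.Prime := Fact.out
  have hq : 2 ≤ q := two_le_q hF
  obtain ⟨m, rfl⟩ : ∃ m, n = 2 * m := ⟨n / 2, by obtain ⟨r, hr⟩ := heven; omega⟩
  rw [Nat.mul_div_cancel_left _ two_pos, ← S2495.gcd_dvd_iff (by omega) (by omega)]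
  have hq3 : 3 ≤ q := by
    obtain ⟨r, hr⟩ := hodd
    omega
  have hqm : 1 ≤ q ^ m := Nat.one_le_pow _ _ (by omega)
  obtain ⟨M, hM⟩ : ∃ M, M = if Even m then q ^ m + 1 else q ^ m - 1 := ⟨_, rfl⟩
  rw [← hM]
  have hM1 : M = ((-q : ℤ) ^ m + 1).natAbs := by
    rw [hM]
    split_ifs with h
    · rw [h.neg_pow]; zify; exact (abs_of_nonneg (by positivity)).symm
    · rw [(Nat.not_even_iff_odd.1 h).neg_pow]
      zify [hqm]
      rw [← abs_neg, abs_of_nonneg] <;> zify at hqm <;> omega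
  have hM2 : 8 * q ^ m < 9 * M := by
    rw [hM]
    split_ifs with h
    · omega
    · have h1 : 3 ≤ m := by
        obtain ⟨r, hr⟩ := Nat.not_even_iff_odd.1 h
        omega
      have h2 : 3 ^ 3 ≤ q ^ m :=
        (Nat.pow_le_pow_left hq3 3).trans (Nat.pow_le_pow_right (by omega) h1)
      omega
  set d := Nat.gcd (2 * m) (q + 1) with hd
  have hdq : d ∣ q + 1 := Nat.gcd_dvd_right _ _
  have hgs : gsu q (2 * m) = gsu q m * M := by
    rw [mul_comm 2 m, ← natAbs_gz, gz_mul, Int.natAbs_mul, natAbs_gz, hM1]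
    simp [Finset.sum_range_succ, add_comm]
  have hdm : d ∣ gsu q m ↔ d ∣ m := by
    constructor
    · exact fun h => (gcd_gsu_succ q m ▸ Nat.dvd_gcd h hdq).trans (Nat.gcd_dvd_left _ _)
    · exact fun h => ((gcd_gsu_succ q m).symm ▸ Nat.dvd_gcd h hdq).trans (Nat.gcd_dvd_left _ _)
  have hdg : d ∣ gsu q (2 * m) := by
    rw [hd, ← gcd_gsu_succ]
    exact Nat.gcd_dvd_left _ _
  rw [← hdm]
  constructor
  · rintro ⟨x, hx⟩
    obtain ⟨t, α, k, e, h0, hk, he, hfix, hsum, hdet, hord⟩ := exists_uspec_PSU p hF (by omega) x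
    have he1 : ∀ i, e i = 1 := by
      intro i
      obtain ⟨c, -, hc⟩ := (hord _).1 dvd_rfl
      have h1 := (hc i).2
      by_contra h2
      have h3 : 0 < Nat.clog p (e i) := Nat.clog_pos hp.one_lt (by have := he i; omega)
      have h4 := (dvd_pow_self p h3.ne').trans h1
      rw [hx, hM1, ← Int.natCast_dvd, dvd_add_right (dvd_pow (Int.dvd_neg.2
        (Int.natCast_dvd_natCast.2 (char_dvd_q p hF))) (by omega))] at h4
      exact hp.one_lt.ne' (Nat.dvd_one.1 (Int.natCast_dvd_natCast.1 h4))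
    simp only [he1, mul_one, Nat.cast_one, one_mul] at hsum hdet
    obtain rfl | rfl | ht : t = 0 ∨ t = 1 ∨ 2 ≤ t := by omega
    · simp at hsum
      omega
    · simp only [Finset.univ_unique, Fin.default_eq_zero, Finset.sum_singleton,
        Finset.prod_singleton] at hsum hdet
      rw [hsum, zpow_gz_eq_one_iff] at hdet
      have h1 : orderOf x ∣ gsu q (2 * m) / d := by
        refine (hord _).2 ⟨α 0 ^ (gsu q (2 * m) / d), ?_, fun l => ?_⟩
        · have : gsu q (2 * m) / d * (q + 1) = gsu q (2 * m) * ((q + 1) / d) := by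
            conv_lhs => rw [← Nat.div_mul_cancel hdq]
            conv_rhs => rw [← Nat.div_mul_cancel hdg]
            ring
          rw [← pow_mul, this, pow_mul, hdet, one_pow]
        obtain rfl : l = 0 := Subsingleton.elim _ _
        exact ⟨rfl, by simp [he1]⟩
      rw [hx, Nat.dvd_div_iff_mul_dvd hdg, hgs] at h1
      exact Nat.dvd_of_mul_dvd_mul_right (by omega) h1
    · exfalso
      have hoq : Odd (-q : ℤ) := (Int.odd_coe_nat q).2 hodd |>.neg
      have hev : ∀ j, 2 ∣ qu q j := fun j => by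
        rw [qu, ← Int.natCast_dvd]
        exact (hoq.pow.sub_odd odd_one).two_dvd
      choose a ha using fun i => hev (k i)
      obtain ⟨N, hN⟩ : 2 ∣ M := by
        rw [hM1, ← Int.natCast_dvd]
        exact (hoq.pow.add_odd odd_one).two_dvd
      have h1 : orderOf x ∣ 2 * ∏ i, a i := by
        refine (hord _).2 ⟨1, one_pow _, fun i => ⟨?_, by simp [he1]⟩⟩
        obtain ⟨u, hu⟩ := Finset.dvd_prod_of_mem a (Finset.mem_univ i)
        rw [hu, ← mul_assoc, ← ha, pow_mul,
          (psi_iterate_eq_iff (h0 i) _).1 ((hfix i _).2 dvd_rfl), one_pow]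
      rw [hx, hN, Nat.mul_dvd_mul_iff_left two_pos] at h1
      have h2 := S2495.gcd_prod_dvd Finset.univ N a
      rw [Nat.gcd_eq_left h1] at h2
      have hN0 : 0 < N := by omega
      have h3 := Nat.le_of_dvd (Finset.prod_pos fun i _ => Nat.gcd_pos_of_pos_left _ hN0) h2
      have h4 : ∀ i, 9 * Nat.gcd N (a i) ^ 2 ≤ 4 * q ^ k i := by
        intro i
        have := sq_le (m := m) (g := 2 * Nat.gcd N (a i)) hq3 (hk i)
          (by rw [Int.natCast_dvd, ← hM1, hN]; exact Nat.mul_dvd_mul_left _ (Nat.gcd_dvd_left _ _))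
          (ha i ▸ Nat.mul_dvd_mul_left _ (Nat.gcd_dvd_right _ _))
        nlinarith
      have h5 : ∏ i, 9 * Nat.gcd N (a i) ^ 2 ≤ ∏ i, 4 * q ^ k i :=
        Finset.prod_le_prod' fun i _ => h4 i
      rw [Finset.prod_mul_distrib, Finset.prod_mul_distrib, Finset.prod_const, Finset.prod_const,
        Finset.card_univ, Fintype.card_fin,
        Finset.prod_pow, Finset.prod_pow_eq_pow_sum, hsum, mul_comm 2 m, pow_mul] at h5
      have h6 := pow_bound ht
      have h7 : N ^ 2 ≤ (∏ i, Nat.gcd N (a i)) ^ 2 := Nat.pow_le_pow_left h3 2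
      have h8 : 9 ^ t * N ^ 2 ≤ 4 ^ t * (q ^ m) ^ 2 := (Nat.mul_le_mul_left _ h7).trans h5
      have h9 : (4 * q ^ m) ^ 2 < (9 * N) ^ 2 := Nat.pow_lt_pow_left (by omega) two_ne_zero
      have h10 : 4 ^ t * (81 * N ^ 2) ≤ 4 ^ t * (16 * (q ^ m) ^ 2) := by
        calc 4 ^ t * (81 * N ^ 2) = (81 * 4 ^ t) * N ^ 2 := by ring
          _ ≤ (16 * 9 ^ t) * N ^ 2 := Nat.mul_le_mul_right _ h6
          _ = 16 * (9 ^ t * N ^ 2) := by ring
          _ ≤ 16 * (4 ^ t * (q ^ m) ^ 2) := Nat.mul_le_mul_left _ h8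
          _ = _ := by ring
      have h11 := Nat.le_of_mul_le_mul_left h10 (by positivity)
      nlinarith
  · intro h
    obtain ⟨x, hx⟩ := exists_PSU_of_dvd_gsu p hF (n := 2 * m) (by omega) (ι := Unit)
      (fun _ => gsu q (2 * m)) (fun _ => 2 * m) (fun _ => 1) (fun _ => by omega) (by simp)
      (fun _ => dvd_rfl) (by simp)
    refine GLn.mem_range_orderOf_of_dvd x (dvd_trans ?_
      (GLn.div_gcd_dvd_of_dvd_mul (gsu_pos hF (by omega)) (hx ()).1))
    rw [gcd_gsu_succ, Nat.dvd_div_iff_mul_dvd hdg, hgs]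
    exact Nat.mul_dvd_mul_right h _

end Cfsg.Agent.S2496
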