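import Cfsg.Statements.S2503
import Cfsg.Agent.Lib.SL2.PSL

set_option autoImplicit false
open Cfsg

namespace Cfsg.Agent.S2503

set_option backward.isDefEq.respectTransparency false
open SL2 Matrix
open scoped MatrixGroups

theorem key {F : Type*} [Field F] [Finite F] (h2 : (2 : F) = 0) {d : SL(2, F)}
    (hd : ∀ c : F, c ^ 2 - d.1.trace * c + 1 ≠ 0) (hd10 : d.1 1 0 = 1) (hd00 : d.1 0 0 = 0)
    (g : SL(2, F)) :
    ∃ a ∈ Subgroup.centralizer ({d} : Set SL(2, F)), ∃ b : F,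
      ∃ c ∈ Subgroup.centralizer ({d} : Set SL(2, F)), g = a * up b * c := by
  have hns : ¬ IsScal d.1 := fun h => by simp [h.2.1] at hd10
  set t := d.1.trace with ht
  have mk : ∀ x y : F, nf t 1 x y = 1 → ∃ a ∈ Subgroup.centralizer ({d} : Set SL(2, F)),
      a.1 0 0 = x ∧ a.1 1 0 = y := fun x y h =>
    ⟨⟨x • 1 + y • d.1, by rw [det_smul_one_add, d.2]; exact h⟩,
      (SL_mem_cent_iff hns).2 ⟨x, y, rfl⟩, by simp [hd00], by simp [hd10]⟩
  have hdet := SL_det g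
  -- a non-zero vector on which the norm form is preserved by `g`
  obtain ⟨x, y, hxy, e⟩ : ∃ x y : F, ¬ (x = 0 ∧ y = 0) ∧
      nf t 1 (g.1 0 0 * x + g.1 0 1 * y) (g.1 1 0 * x + g.1 1 1 * y) = nf t 1 x y := by
    obtain ⟨r, hr⟩ := isSquare_of_two_eq_zero h2 (nf t 1 (g.1 0 0) (g.1 1 0) - 1)
    obtain ⟨s, hs⟩ := isSquare_of_two_eq_zero h2 (nf t 1 (g.1 0 1) (g.1 1 1) - 1)
    by_cases h : s = 0 ∧ r = 0
    · refine ⟨1, 0, by simp, ?_⟩
      rw [h.2] at hr
      unfold nf at hr ⊢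
      linear_combination hr
    · refine ⟨s, r, h, ?_⟩
      unfold nf at hr hs ⊢
      linear_combination s ^ 2 * hr + r ^ 2 * hs + t * s * r * hdet +
        (s ^ 2 * r ^ 2 + s * r * (g.1 0 0 * g.1 0 1 + g.1 1 0 * g.1 1 1 +
          t * g.1 0 1 * g.1 1 0)) * h2
  have hn : nf t 1 x y ≠ 0 := fun h => hxy ((nf_eq_zero_iff hd x y).1 h)
  obtain ⟨u, hu⟩ := isSquare_of_two_eq_zero h2 (nf t 1 x y)⁻¹
  have hu' : nf t 1 x y * (u * u) = 1 := by rw [← hu, mul_inv_cancel₀ hn]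
  obtain ⟨c, hc, c0, c1⟩ := mk (u * x) (u * y) (by
    unfold nf at hu' ⊢; linear_combination hu')
  obtain ⟨a, ha, a0, a1⟩ := mk (u * (g.1 0 0 * x + g.1 0 1 * y)) (u * (g.1 1 0 * x + g.1 1 1 * y))
    (by rw [← e] at hu'; unfold nf at hu' ⊢; linear_combination hu')
  have hda := SL_det a
  have e0 : (a⁻¹ * g * c).1 0 0 = 1 := by
    rw [mul_assoc, SL_coe_mul, SL_coe_inv, mul_apply2, SL_coe_mul, mul_apply2, mul_apply2, c0, c1]
    simp
    rw [a0, a1] at hda
    linear_combination hda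
  have e1 : (a⁻¹ * g * c).1 1 0 = 0 := by
    rw [mul_assoc, SL_coe_mul, SL_coe_inv, mul_apply2, SL_coe_mul, mul_apply2, mul_apply2, c0, c1]
    simp
    rw [a0, a1]
    ring
  have e2 : (a⁻¹ * g * c).1 1 1 = 1 := by
    have := SL_det (a⁻¹ * g * c)
    rw [e0, e1] at this
    simpa using this
  refine ⟨a, ha, (a⁻¹ * g * c).1 0 1, c⁻¹, inv_mem hc, ?_⟩
  rw [← eq_up_of_entries e0 e2 e1]
  group

/-- Let F be a finite field with q = 2^t ≥ 4 elements and L = PSL(2,F). Then L has a cyclic subgroup A of order q + 1 and an elementary abelian 2-subgroup B of order q such that L = ABA: every element of L is a product a·b·a' with a, a' ∈ A and b ∈ B. -/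
theorem result {F : Type*} [Field F] [Fintype F]
    (h2 : 2 ∣ Fintype.card F) (h4 : 4 ≤ Fintype.card F) :
    ∃ A B : Subgroup (Matrix.ProjectiveSpecialLinearGroup (Fin 2) F),
      IsCyclic A ∧ Nat.card A = Fintype.card F + 1 ∧ IsMulCommutative B ∧ (∀ b ∈ B, b * b = 1) ∧
        Nat.card B = Fintype.card F ∧
        ∀ g : Matrix.ProjectiveSpecialLinearGroup (Fin 2) F, ∃ a ∈ A, ∃ b ∈ B, ∃ c ∈ A, g = a * b * c := by
  rw [← Nat.card_eq_fintype_card] at h4 h2 ⊢
  replace h2 := even_card_iff.1 (even_iff_two_dvd.2 h2)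
  obtain ⟨t, ht⟩ := exists_noRoot (F := F)
  have hd : ∀ c : F, c ^ 2 - (cmp t).1.trace * c + 1 ≠ 0 := by simpa using ht
  refine ⟨(Subgroup.centralizer {cmp t}).map pr, (pr.comp upHom).range,
    isCyclic_map _ (isCyclic_cent_SL (SL_trace_sq_ne_of_noRoot hd)) _, ?_, inferInstance, ?_, ?_, ?_⟩
  · rw [Subgroup.card_map_of_injective (pr_injective h2), card_cent_SL_noRoot hd]
  · rintro _ ⟨b, rfl⟩
    rw [← map_mul]
    have : b * b = 1 := by
      change b.toAdd + b.toAdd = 0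
      linear_combination b.toAdd * h2
    rw [this, map_one]
  · rw [← Nat.card_congr (MonoidHom.ofInjective (f := pr.comp upHom)
      ((pr_injective h2).comp (up_injective.comp Multiplicative.toAdd.injective))).toEquiv]
    rfl
  · intro g
    obtain ⟨g, rfl⟩ := pr_surjective g
    obtain ⟨a, ha, b, c, hc, rfl⟩ := key h2 hd (by simp [SL2.comp]) (by simp [SL2.comp]) g
    exact ⟨_, Subgroup.mem_map_of_mem _ ha, _, ⟨Multiplicative.ofAdd b, rfl⟩, _,
      Subgroup.mem_map_of_mem _ hc, by simp⟩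

end Cfsg.Agent.S2503
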