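import Cfsg.Statements.S2506
import Cfsg.Agent.Lib.Alt.Abel

set_option autoImplicit false
open Cfsg

namespace Cfsg.Agent.S2506

open Cfsg.Agent.Alt Equiv Equiv.Perm
open scoped Pointwise

/-- In the alternating group of any degree, any two abelian subgroups of the largest possible order (among abelian subgroups) are conjugate. -/
theorem result (n : ℕ)
    (A B : Subgroup (alternatingGroup (Fin n))) (hA : IsMulCommutative A) (hB : IsMulCommutative B)
    (hAmax : ∀ C : Subgroup (alternatingGroup (Fin n)), IsMulCommutative C → Nat.card C ≤ Nat.card A)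
    (hBmax : ∀ C : Subgroup (alternatingGroup (Fin n)), IsMulCommutative C → Nat.card C ≤ Nat.card B) :
    ∃ g : alternatingGroup (Fin n), B = MulAut.conj g • A := by
  have hc : Fintype.card (Fin n) = n := Fintype.card_fin n
  have hAB : Nat.card A = Nat.card B := le_antisymm (hBmax A hA) (hAmax B hB)
  suffices h : ∃ g : alternatingGroup (Fin n), ∀ h ∈ A, g * h * g⁻¹ ∈ B by
    obtain ⟨g, hg⟩ := h
    refine ⟨g, (Subgroup.eq_of_le_of_card_ge ?_ ?_).symm⟩
    · rintro _ ⟨x, hx, rfl⟩
      exact hg x hx
    · rw [← hAB]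
      exact (Subgroup.card_map_of_injective (MulAction.injective (MulAut.conj g))).ge
  by_cases h3 : n < 3
  · have : Subsingleton (alternatingGroup (Fin n)) := by
      rw [← Fintype.card_le_one_iff_subsingleton]
      interval_cases n <;> decide
    exact ⟨1, fun h _ => by rw [Subsingleton.elim (1 * h * 1⁻¹) 1]; exact one_mem B⟩
  obtain ⟨C, hC, hC'⟩ := exists_abel_alt n
  have h1 := hAmax C hC
  have h2 := hBmax C hC
  rw [hC'] at h1 h2
  by_cases h5 : n = 5
  · subst h5
    have h4 : Nat.card A = 5 :=
      le_antisymm ((isGreatest_abel_alt (n := 5) (by norm_num)).2 ⟨A, hA, rfl⟩) h1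
    have := Fact.mk Nat.prime_five
    have h60 : Nat.card (alternatingGroup (Fin 5)) = 60 := by
      have := two_mul_card_alt (α := Fin 5) (by simp)
      rw [hc, show Nat.factorial 5 = 120 from rfl] at this
      omega
    have h6 := B.card_mul_index
    rw [← hAB, h4, h60] at h6
    obtain ⟨d, -, hd⟩ := exists_conj_le_sylow
      ((IsPGroup.of_card (p := 5) (n := 1) (hAB.symm.trans h4)).toSylow (by omega)) le_top
      (Q := A) le_top (IsPGroup.of_card (n := 1) h4)
    exact ⟨d, hd⟩
  obtain ⟨g, hg, h⟩ := abel_conj (A := A.map (alternatingGroup (Fin n)).subtype)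
    (B := B.map (alternatingGroup (Fin n)).subtype) inferInstance inferInstance
    (Subgroup.map_subtype_le _) (Subgroup.map_subtype_le _) (by omega) (by omega)
    (by rwa [hc, Subgroup.card_map_of_injective (alternatingGroup (Fin n)).subtype_injective])
    (by rwa [hc, Subgroup.card_map_of_injective (alternatingGroup (Fin n)).subtype_injective])
  refine ⟨⟨g, hg⟩, fun x hx => ?_⟩
  obtain ⟨y, hy, h6⟩ := h x.1 ⟨x, hx, rfl⟩
  exact (Subtype.ext h6 : y = ⟨g, hg⟩ * x * ⟨g, hg⟩⁻¹) ▸ hy

end Cfsg.Agent.S2506
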