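import Cfsg.Statements.S2507
import Cfsg.Agent.Lib.SL2.PSL

set_option autoImplicit false
open Cfsg

namespace Cfsg.Agent.S2507

/-- Let F be a finite field with q = 2^f ≥ 4 elements. The conjugacy class sizes of PSL(2,F) are exactly 1, q(q − 1), q² − 1 and q(q + 1). -/
theorem result {F : Type*} [Field F] [Fintype F]
    (h2 : 2 ∣ Fintype.card F) (h4 : 4 ≤ Fintype.card F) :
    Set.range (fun g : (Matrix.ProjectiveSpecialLinearGroup (Fin 2) F) => (Subgroup.centralizer ({g} : Set (Matrix.ProjectiveSpecialLinearGroup (Fin 2) F))).index) =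
      {1, Fintype.card F * (Fintype.card F - 1), Fintype.card F ^ 2 - 1, Fintype.card F * (Fintype.card F + 1)} := by
  rw [← Nat.card_eq_fintype_card] at h4 h2 ⊢
  replace h2 := SL2.even_card_iff.1 (even_iff_two_dvd.2 h2)
  ext m
  simp only [Set.mem_range, Set.mem_insert_iff, Set.mem_singleton_iff]
  constructor
  · rintro ⟨x, rfl⟩
    obtain ⟨g, rfl⟩ := SL2.pr_surjective x
    by_cases hg : SL2.IsScal g.1
    · left; rw [SL2.pr_eq_one_iff.2 hg]; simp
    rw [SL2.index_cent_pr_of_trace_ne (Or.inr h2)]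
    by_cases hd : g.1.trace ^ 2 = 4
    · exact Or.inr (Or.inr (Or.inl (SL2.index_cent_double_even h2 hg hd)))
    · rcases SL2.card_cent_regular hd with h | h
      · exact Or.inr (Or.inr (Or.inr (SL2.index_cent_of_card_eq_pred h)))
      · exact Or.inr (Or.inl (SL2.index_cent_of_card_eq_succ h))
  · rintro (rfl | rfl | rfl | rfl)
    · exact ⟨1, by simp⟩
    · obtain ⟨g, hg⟩ := SL2.exists_SL_noRoot (F := F)
      exact ⟨SL2.pr g, by rw [SL2.index_cent_pr_of_trace_ne (Or.inr h2),
        SL2.index_cent_of_card_eq_succ (SL2.card_cent_SL_noRoot hg)]⟩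
    · exact ⟨SL2.pr (SL2.up 1), by rw [SL2.index_cent_pr_of_trace_ne (Or.inr h2),
        SL2.index_cent_double_even h2 (by simp [SL2.IsScal])
          (by rw [SL2.trace_up]; norm_num)]⟩
    · obtain ⟨a, ha⟩ := SL2.exists_unit_sq_ne_one h4
      exact ⟨SL2.pr (SL2.dg a), by rw [SL2.index_cent_pr_of_trace_ne (Or.inr h2),
        SL2.index_cent_of_card_eq_pred (SL2.card_cent_SL_split' ha (SL2.trace_dg a))]⟩

end Cfsg.Agent.S2507
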