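import Cfsg.Statements.S2508
import Cfsg.Agent.Lib.SL2.PSL

set_option autoImplicit false
open Cfsg

namespace Cfsg.Agent.S2508

open SL2 Matrix
open scoped MatrixGroups

theorem four_dvd {F : Type*} [Field F] (h2 : (2 : F) ≠ 0) {g : SL(2, F)} (h : g.1.trace = 0) :
    4 ∣ Nat.card (Subgroup.centralizer ({g} : Set SL(2, F))) := by
  have h1 : orderOf g = 4 := by
    have := SL_mul_self_of_trace_eq_zero h
    refine orderOf_eq_prime_pow (p := 2) (n := 1) ?_ ?_
    · rw [pow_one, sq, this]; exact SL_neg_one_ne_one h2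
    · rw [show 2 ^ (1 + 1) = 2 * 2 by norm_num, pow_mul, sq g, this]; simp
  rw [← h1]
  exact Subgroup.orderOf_dvd_natCard _ (self_mem_cent g)

theorem exists_trace_ne {F : Type*} [Field F] [Finite F] {g : SL(2, F)}
    (hd : g.1.trace ^ 2 ≠ 4) (h : 4 < Nat.card (Subgroup.centralizer ({g} : Set SL(2, F)))) :
    ∃ x : SL(2, F), x.1.trace ≠ 0 ∧ Subgroup.centralizer ({x} : Set SL(2, F)) =
      Subgroup.centralizer ({g} : Set SL(2, F)) := by
  obtain ⟨x, hx, ho⟩ := exists_orderOf_eq_of_isCyclic _ (isCyclic_cent_SL hd) dvd_rfl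
  refine ⟨x, fun h0 => ?_, SL_cent_eq_of_mem (SL_not_isScal_of_trace hd) (fun h0 => ?_) hx⟩
  · have : x ^ 4 = 1 := by
      rw [show 4 = 2 * 2 by norm_num, pow_mul, sq x, SL_mul_self_of_trace_eq_zero h0]; simp
    have := orderOf_le_of_pow_eq_one (by norm_num) this
    omega
  · have := orderOf_le_of_pow_eq_one (by norm_num) (SL_sq_of_isScal h0)
    omega

theorem aux {F : Type*} [Field F] [Finite F] (h2 : (2 : F) ≠ 0) (h7 : 7 ≤ Nat.card F) (k : ℕ)
    (hk : ∀ g : SL(2, F), g.1.trace = 0 →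
      (Subgroup.centralizer ({g} : Set SL(2, F))).index = k) :
    Set.range (fun g : PSL(2, F) => (Subgroup.centralizer ({g} : Set PSL(2, F))).index) =
      {1, (Nat.card F ^ 2 - 1) / 2, k / 2, Nat.card F * (Nat.card F - 1),
        Nat.card F * (Nat.card F + 1)} := by
  have h0 : ∀ g : SL(2, F), g.1.trace = 0 →
      (Subgroup.centralizer ({pr g} : Set PSL(2, F))).index = k / 2 := fun g hg => by
    rw [← hk g hg, ← index_cent_pr_of_trace_eq h2 hg]; simp
  have h1 : ∀ g : SL(2, F), ¬ IsScal g.1 → g.1.trace ^ 2 = 4 →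
      (Subgroup.centralizer ({pr g} : Set PSL(2, F))).index = (Nat.card F ^ 2 - 1) / 2 := by
    intro g hg hd
    rw [index_cent_pr_of_trace_ne (Or.inl fun h => trace_sq_ne_of_trace_eq_zero h2 h hd),
      ← index_cent_double_odd h2 hg hd]; simp
  ext m
  simp only [Set.mem_range, Set.mem_insert_iff, Set.mem_singleton_iff]
  constructor
  · rintro ⟨x, rfl⟩
    obtain ⟨g, rfl⟩ := pr_surjective x
    by_cases hg : IsScal g.1
    · left; rw [pr_eq_one_iff.2 hg]; simp
    by_cases hd : g.1.trace ^ 2 = 4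
    · exact Or.inr (Or.inl (h1 g hg hd))
    by_cases ht : g.1.trace = 0
    · exact Or.inr (Or.inr (Or.inl (h0 g ht)))
    rw [index_cent_pr_of_trace_ne (Or.inl ht)]
    rcases card_cent_regular hd with h | h
    · exact Or.inr (Or.inr (Or.inr (Or.inr (index_cent_of_card_eq_pred h))))
    · exact Or.inr (Or.inr (Or.inr (Or.inl (index_cent_of_card_eq_succ h))))
  · rintro (rfl | rfl | rfl | rfl | rfl)
    · exact ⟨1, by simp⟩
    · exact ⟨pr (up 1), h1 _ (by simp [IsScal]) (by rw [trace_up]; norm_num)⟩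
    · exact ⟨pr wt, h0 _ (by simp [trace_fin_two])⟩
    · obtain ⟨g, hg⟩ := exists_SL_noRoot (F := F)
      have hc := card_cent_SL_noRoot hg
      obtain ⟨x, hx, e⟩ := exists_trace_ne (SL_trace_sq_ne_of_noRoot hg) (by omega)
      exact ⟨pr x, by rw [index_cent_pr_of_trace_ne (Or.inl hx), e, index_cent_of_card_eq_succ hc]⟩
    · obtain ⟨a, ha⟩ := exists_unit_sq_ne_one (F := F) (by omega)
      have hc := card_cent_SL_split' ha (trace_dg a)
      obtain ⟨x, hx, e⟩ := exists_trace_ne (g := dg a)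
        (by rw [trace_dg]; exact trace_sq_ne_of_sq_ne ha) (by omega)
      exact ⟨pr x, by rw [index_cent_pr_of_trace_ne (Or.inl hx), e, index_cent_of_card_eq_pred hc]⟩

/-- Let F be a finite field with q elements, q odd and q ≥ 7. If q ≡ 1 (mod 4) the conjugacy class sizes of PSL(2,F) are exactly 1, (q² − 1)/2, q(q + 1)/2, q(q − 1) and q(q + 1); if q ≡ 3 (mod 4) they are exactly 1, (q² − 1)/2, q(q − 1)/2, q(q + 1) and q(q − 1). -/
theorem result {F : Type*} [Field F] [Fintype F]
    (hodd : ¬ 2 ∣ Fintype.card F) (h7 : 7 ≤ Fintype.card F) :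
    (Fintype.card F % 4 = 1 →
      Set.range (fun g : (Matrix.ProjectiveSpecialLinearGroup (Fin 2) F) => (Subgroup.centralizer ({g} : Set (Matrix.ProjectiveSpecialLinearGroup (Fin 2) F))).index) =
        {1, (Fintype.card F ^ 2 - 1) / 2, Fintype.card F * (Fintype.card F + 1) / 2,
          Fintype.card F * (Fintype.card F - 1), Fintype.card F * (Fintype.card F + 1)}) ∧
    (Fintype.card F % 4 = 3 →
      Set.range (fun g : (Matrix.ProjectiveSpecialLinearGroup (Fin 2) F) => (Subgroup.centralizer ({g} : Set (Matrix.ProjectiveSpecialLinearGroup (Fin 2) F))).index) =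
        {1, (Fintype.card F ^ 2 - 1) / 2, Fintype.card F * (Fintype.card F - 1) / 2,
          Fintype.card F * (Fintype.card F + 1), Fintype.card F * (Fintype.card F - 1)}) := by
  rw [← Nat.card_eq_fintype_card] at h7 hodd ⊢
  have h2 := odd_card_iff.1 (Nat.odd_iff.2 (show Nat.card F % 2 = 1 by omega))
  constructor
  · intro h4
    refine aux h2 h7 _ fun g hg => index_cent_of_card_eq_pred ?_
    have := four_dvd h2 hg
    rcases card_cent_regular (trace_sq_ne_of_trace_eq_zero h2 hg) with h | h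
    · exact h
    · omega
  · intro h4
    rw [aux h2 h7 (Nat.card F * (Nat.card F - 1)) fun g hg => index_cent_of_card_eq_succ ?_,
      Set.pair_comm]
    have := four_dvd h2 hg
    rcases card_cent_regular (trace_sq_ne_of_trace_eq_zero h2 hg) with h | h
    · omega
    · exact h

end Cfsg.Agent.S2508
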