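import Cfsg.Statements.S2511
import Cfsg.Agent.Lib.Forms.USpec

set_option autoImplicit false
open Cfsg

namespace Cfsg.Agent.S2511

open Forms

variable {F : Type*} [Field F] [Fintype F] (p : ℕ) [Fact p.Prime] [CharP F p] {q : ℕ}
  (hF : Fintype.card F = q ^ 2)
include hF

theorem twist {n r : ℕ} (hn2 : 2 ≤ n)
    (hr : r.Prime) (hrq : r ∣ q + 1) (hrn : ¬ r ∣ n) {ι : Type*} [Fintype ι]
    [Nontrivial ι] (α : ι → Kc F) (k e : ι → ℕ) (h0 : ∀ i, α i ≠ 0)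
    (hk : ∀ i, 0 < k i) (he : ∀ i, 0 < e i) (hfix : ∀ i, (psi q)^[k i] (α i) = α i)
    (hn : ∑ i, k i * e i = n) (hdet : ∏ i, α i ^ (e i * gz q (k i)) = 1)
    {N : ℕ} (hN : ∀ m, N ∣ m ↔ UCond p q α e m) (hrN : ¬ r ∣ N) :
    ∃ y : PSU n F q, N ∣ orderOf y ∧ r ∣ orderOf y := by
  classical
  have hu1 : qu q 1 = q + 1 := by rw [qu_of_odd odd_one, pow_one]
  obtain ⟨ζ, hζ, hζ0, hζq⟩ := exists_primRoot_of_dvd_qu hF one_pos (hu1 ▸ hrq : r ∣ _)
  have hζ1 : ∀ j, (ζ ^ j) ^ (q + 1) = 1 := fun j => by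
    rw [← pow_mul, hζ.pow_eq_one_iff_dvd]; exact hrq.mul_left _
  obtain ⟨i₀, i₁, hne⟩ := exists_pair_ne ι
  let n₁ := k i₀ * e i₀
  let a : ι → ℕ := fun i => if i = i₀ then n + (r - 1) * n₁ else (r - 1) * n₁
  obtain ⟨y, hy⟩ := exists_PSU_of_uspec p hF hn2 (fun i => ζ ^ a i * α i) k e
    (fun i => mul_ne_zero (pow_ne_zero _ hζ0) (h0 i)) hk he
    (fun i => by
      have h1 := hfix i
      have h2 := psi_iterate_of_fixed ((psi_eq_self_iff (pow_ne_zero _ hζ0)).2 (hζ1 (a i))) (k i)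
      rw [psi_iterate] at h1 h2 ⊢
      rw [mul_zpow, h1, h2]) hn
    (by
      simp only [mul_zpow]
      rw [Finset.prod_mul_distrib, hdet, mul_one]
      have h1 : ∀ i, (ζ ^ a i) ^ (e i * gz q (k i)) = ζ ^ (a i * (k i * e i)) := by
        intro i
        rw [mul_comm, zpow_mul, zpow_gz_of_fixed (hζ1 _), zpow_natCast, ← pow_mul, ← pow_mul]
      simp only [h1]
      rw [Finset.prod_pow_eq_pow_sum, hζ.pow_eq_one_iff_dvd]
      have h2 : ∑ i, a i * (k i * e i) = n * n₁ + (r - 1) * n₁ * n := by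
        have h3 : ∀ i, a i * (k i * e i) =
            (if i = i₀ then n * n₁ else 0) + (r - 1) * n₁ * (k i * e i) := by
          intro i
          by_cases hi : i = i₀
          · subst hi
            simp only [a, if_true, n₁]
            ring
          · simp [a, hi]
        simp only [h3]
        rw [Finset.sum_add_distrib, ← Finset.mul_sum, hn]
        simp
      rw [h2]
      obtain ⟨s, rfl⟩ : ∃ s, r = s + 1 := ⟨r - 1, by have := hr.pos; omega⟩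
      exact ⟨n * n₁, by rw [Nat.add_sub_cancel]; ring⟩)
  obtain ⟨c, hc1, hc⟩ := (hy _).1 dvd_rfl
  obtain ⟨c₀, -, hc₀⟩ := (hN _).1 dvd_rfl
  have hrM : r ∣ orderOf y := by
    have h1 := congrArg (· ^ N) (hc i₀).1
    have h2 := congrArg (· ^ N) (hc i₁).1
    rw [← h2, ← pow_mul, ← pow_mul, mul_pow, mul_pow, mul_comm (orderOf y) N, pow_mul (α i₀),
      pow_mul (α i₁), (hc₀ i₀).1, ← (hc₀ i₁).1] at h1
    have h3 := mul_right_cancel₀ (pow_ne_zero _ (pow_ne_zero _ (h0 i₁))) h1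
    simp only [a, if_true, if_neg hne.symm] at h3
    rw [pow_add, mul_pow] at h3
    have h4 := (mul_eq_right₀ (pow_ne_zero _ (pow_ne_zero _ hζ0))).1 h3
    rw [← pow_mul, hζ.pow_eq_one_iff_dvd] at h4
    exact (hr.dvd_mul.1 ((hr.dvd_mul.1 h4).resolve_left hrn)).resolve_left hrN
  refine ⟨y, (hN _).2 ⟨c, hc1, fun i => ⟨?_, (hc i).2⟩⟩, hrM⟩
  have h1 := (hc i).1
  rwa [mul_pow, ← pow_mul, mul_comm (a i), pow_mul, (hζ.pow_eq_one_iff_dvd _).2 hrM, one_pow,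
    one_mul] at h1

theorem singer {n r : ℕ} (hn : 2 ≤ n) (hr : r.Prime) (hrq : r ∣ q + 1) (hrn : ¬ r ∣ n) :
    ∃ s : PSU n F q, ∀ x : PSU n F q, ¬ r ∣ orderOf x →
        (∃ y : PSU n F q, orderOf x ∣ orderOf y ∧ r ∣ orderOf y) ∨
        orderOf x ∣ Nat.lcm (orderOf s) (p ^ Nat.clog p n) := by
  have hn0 : 0 < n := by omega
  obtain ⟨σ, hσ, hσ0, hσq⟩ := exists_primRoot_of_dvd_qu hF hn0
    (succ_mul_gsu q n ▸ dvd_mul_left _ _ : gsu q n ∣ _)
  have hg0 := gsu_pos hF hn0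
  obtain ⟨s, hs⟩ := exists_PSU_of_uspec p hF hn (ι := Unit) (fun _ => σ)
    (fun _ => n) (fun _ => 1) (fun _ => hσ0) (fun _ => hn0) (fun _ => one_pos)
    (fun _ => hσq) (by simp) (by simp [zpow_gz_eq_one_iff, hσ.pow_eq_one])
  obtain ⟨c, hc1, hc⟩ := (hs _).1 dvd_rfl
  refine ⟨s, fun x hx => ?_⟩
  obtain ⟨t, α, k, e, h0, hk, he, hfix, hsum, hdet, hord⟩ := exists_uspec_PSU p hF hn x
  obtain rfl | rfl | ht : t = 0 ∨ t = 1 ∨ 2 ≤ t := by omega
  · simp at hsum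
    omega
  · right
    simp only [Finset.univ_unique, Fin.default_eq_zero, Finset.sum_singleton,
      Finset.prod_singleton] at hsum hdet
    have h1 : α 0 ^ gsu q n = 1 := by
      rw [← zpow_gz_eq_one_iff, ← hsum, gz_mul, zpow_mul,
        zpow_geom_of_fixed (zpow_ne_zero _ (h0 0)), ← zpow_natCast, ← zpow_mul, mul_comm, hdet]
      rw [← zpow_mul, mul_comm, zpow_mul, ← psi_iterate, (hfix 0 _).2 dvd_rfl]
    have : NeZero (gsu q n) := ⟨hg0.ne'⟩
    obtain ⟨j, -, hj⟩ := hσ.eq_pow_of_pow_eq_one h1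
    obtain ⟨u, hu⟩ := Nat.dvd_lcm_left (orderOf s) (p ^ Nat.clog p n)
    refine (hord _).2 ⟨c ^ (j * u), by rw [← pow_mul, mul_comm, pow_mul, hc1, one_pow], fun i => ?_⟩
    obtain rfl : i = 0 := Subsingleton.elim _ _
    refine ⟨?_, dvd_trans (pow_dvd_pow _ (Nat.clog_mono_right _ ?_)) (Nat.dvd_lcm_right _ _)⟩
    · rw [← (hc ()).1, ← hj, hu, ← pow_mul, ← pow_mul]
      congr 1
      ring
    · rw [← hsum]
      exact Nat.le_mul_of_pos_left _ (hk 0)
  · left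
    have : Nontrivial (Fin t) := Fin.nontrivial_iff_two_le.2 ht
    exact twist p hF hn hr hrq hrn α k e h0 hk he (fun i => (hfix i _).2 dvd_rfl) hsum hdet hord hx

theorem unip {n r : ℕ} (hr : r.Prime) (hrq : r ∣ q + 1) (hrn : ¬ r ∣ n) (hn : 2 ≤ n) :
    ∃ y : PSU n F q, p ^ Nat.clog p (n - 1) ∣ orderOf y ∧ r ∣ orderOf y := by
  have hcop : r.Coprime p := by
    have := coprime_qu p hF one_pos
    rw [qu_of_odd odd_one, pow_one] at this
    exact Nat.Coprime.coprime_dvd_left hrq this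
  refine twist p hF hn hr hrq hrn (ι := Bool) (fun _ => 1) (fun _ => 1)
    (fun b => if b then n - 1 else 1) (by simp) (by simp) (by rintro (_ | _) <;> simp; omega)
    (by simp [psi]) (by simp; omega) (by simp)
    (fun m => ⟨fun h => ⟨1, one_pow _, ?_⟩, fun ⟨c, _, h⟩ => ?_⟩) ?_
  · rintro (_ | _) <;> simp [h]
  · simpa using (h true).2
  · exact (hr.coprime_iff_not_dvd).1 (hcop.pow_right _)

theorem exists_unip {n : ℕ} (hn : 2 ≤ n) : ∃ x : PSU n F q, p ^ Nat.clog p n ∣ orderOf x := by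
  obtain ⟨x, hx⟩ := exists_PSU_of_uspec p hF hn
    (ι := Unit) (fun _ => 1) (fun _ => 1) (fun _ => n) (by simp) (by simp) (by simp; omega)
    (by simp [psi]) (by simp) (by simp)
  obtain ⟨c, -, hc⟩ := (hx _).1 dvd_rfl
  exact ⟨x, (hc ()).2⟩

omit hF


/-- Let F be a finite field with q² elements, q = p^a, n ≥ 3 with (n, q) ≠ (3, 2), L = PSU(n, q) realised over F, and let r be a prime dividing q + 1 and not dividing n. Then for every m the direct product L × L × L × (ℤ/r)^m has the same set of element orders as L × L × L; and if n − 1 is not a power of p, then already L × L × (ℤ/r)^m has the same set of element orders as L × L. -/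
theorem result {F : Type*} [Field F] [Fintype F] (p a n q r m : ℕ) (hp : p.Prime) (ha : 1 ≤ a) (hq : q = p ^ a) (hF : Fintype.card F = q ^ 2)
    (hn : 3 ≤ n) (hn3 : ¬ (n = 3 ∧ q = 2)) (hr : r.Prime) (hrq : r ∣ q + 1) (hrn : ¬ r ∣ n) :
    Set.range (orderOf : Cfsg.PSU n F q × Cfsg.PSU n F q × Cfsg.PSU n F q × Multiplicative (Fin m → ZMod r) → ℕ) = Set.range (orderOf : Cfsg.PSU n F q × Cfsg.PSU n F q × Cfsg.PSU n F q → ℕ) ∧
    ((¬ ∃ j : ℕ, n - 1 = p ^ j) →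
      Set.range (orderOf : Cfsg.PSU n F q × Cfsg.PSU n F q × Multiplicative (Fin m → ZMod r) → ℕ) = Set.range (orderOf : Cfsg.PSU n F q × Cfsg.PSU n F q → ℕ)) := by
  have : Fact p.Prime := ⟨hp⟩
  have : CharP F p := charP_of_card_eq_prime_pow (f := a * 2) (by rw [hF, hq, pow_mul])
  have hw : ∀ w : Multiplicative (Fin m → ZMod r), orderOf w ∣ r := by
    intro w
    rw [orderOf_dvd_iff_pow_eq_one]
    apply Multiplicative.toAdd.injective
    funext i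
    simp
  obtain ⟨s, hs⟩ := singer p hF (by omega : 2 ≤ n) hr hrq hrn
  obtain ⟨v, hv1, hv2⟩ := unip p hF hr hrq hrn (by omega)
  have hs' : ∀ x : PSU n F q, (∃ y : PSU n F q, orderOf x ∣ orderOf y ∧ r ∣ orderOf y) ∨
        orderOf x ∣ Nat.lcm (orderOf s) (p ^ Nat.clog p n) := by
    intro x
    by_cases hx : r ∣ orderOf x
    · exact Or.inl ⟨x, dvd_rfl, hx⟩
    · exact hs x hx
  refine ⟨Set.Subset.antisymm ?_ ?_, fun hj => Set.Subset.antisymm ?_ ?_⟩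
  · rintro _ ⟨⟨x, y, z, w⟩, rfl⟩
    have hw' := hw w
    obtain ⟨u, hu⟩ := exists_unip p hF (n := n) (by omega)
    have hl : ∀ a b c : ℕ, a ∣ Nat.lcm a (Nat.lcm b c) ∧ b ∣ Nat.lcm a (Nat.lcm b c) ∧
        c ∣ Nat.lcm a (Nat.lcm b c) := fun a b c => ⟨Nat.dvd_lcm_left _ _,
      (Nat.dvd_lcm_left _ _).trans (Nat.dvd_lcm_right _ _),
      (Nat.dvd_lcm_right _ _).trans (Nat.dvd_lcm_right _ _)⟩
    rcases hs' x with ⟨x', h1, h2⟩ | hx
    · refine GLn.mem_range_orderOf_of_dvd (x', y, z) ?_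
      obtain ⟨h3, h4, h5⟩ := hl (orderOf x') (orderOf y) (orderOf z)
      simp only [Prod.orderOf_mk, Nat.lcm_dvd_iff]
      exact ⟨h1.trans h3, h4, h5, (hw'.trans h2).trans h3⟩
    rcases hs' y with ⟨y', h1, h2⟩ | hy
    · refine GLn.mem_range_orderOf_of_dvd (x, y', z) ?_
      obtain ⟨h3, h4, h5⟩ := hl (orderOf x) (orderOf y') (orderOf z)
      simp only [Prod.orderOf_mk, Nat.lcm_dvd_iff]
      exact ⟨h3, h1.trans h4, h5, (hw'.trans h2).trans h4⟩
    rcases hs' z with ⟨z', h1, h2⟩ | hz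
    · refine GLn.mem_range_orderOf_of_dvd (x, y, z') ?_
      obtain ⟨h3, h4, h5⟩ := hl (orderOf x) (orderOf y) (orderOf z')
      simp only [Prod.orderOf_mk, Nat.lcm_dvd_iff]
      exact ⟨h3, h4, h1.trans h5, (hw'.trans h2).trans h5⟩
    refine GLn.mem_range_orderOf_of_dvd (s, u, v) ?_
    obtain ⟨h3, h4, h5⟩ := hl (orderOf s) (orderOf u) (orderOf v)
    have h6 := Nat.lcm_dvd h3 (hu.trans h4)
    simp only [Prod.orderOf_mk, Nat.lcm_dvd_iff]
    exact ⟨hx.trans h6, hy.trans h6, hz.trans h6, (hw'.trans hv2).trans h5⟩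
  · rintro _ ⟨⟨x, y, z⟩, rfl⟩
    exact ⟨(x, y, z, 1), by simp [Prod.orderOf_mk]⟩
  · rintro _ ⟨⟨x, y, w⟩, rfl⟩
    have hw' := hw w
    have hcl : Nat.clog p n ≤ Nat.clog p (n - 1) := by
      apply Nat.clog_le_of_le_pow
      have h1 := Nat.le_pow_clog hp.one_lt (n - 1)
      have h2 : n - 1 ≠ p ^ Nat.clog p (n - 1) := fun h => hj ⟨_, h⟩
      omega
    rcases hs' x with ⟨x', h1, h2⟩ | hx
    · refine GLn.mem_range_orderOf_of_dvd (x', y) ?_
      simp only [Prod.orderOf_mk, Nat.lcm_dvd_iff]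
      exact ⟨h1.trans (Nat.dvd_lcm_left _ _), Nat.dvd_lcm_right _ _,
        (hw'.trans h2).trans (Nat.dvd_lcm_left _ _)⟩
    rcases hs' y with ⟨y', h1, h2⟩ | hy
    · refine GLn.mem_range_orderOf_of_dvd (x, y') ?_
      simp only [Prod.orderOf_mk, Nat.lcm_dvd_iff]
      exact ⟨Nat.dvd_lcm_left _ _, h1.trans (Nat.dvd_lcm_right _ _),
        (hw'.trans h2).trans (Nat.dvd_lcm_right _ _)⟩
    refine GLn.mem_range_orderOf_of_dvd (s, v) ?_
    have h6 : Nat.lcm (orderOf s) (p ^ Nat.clog p n) ∣ Nat.lcm (orderOf s) (orderOf v) :=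
      Nat.lcm_dvd (Nat.dvd_lcm_left _ _)
        (((pow_dvd_pow p hcl).trans hv1).trans (Nat.dvd_lcm_right _ _))
    simp only [Prod.orderOf_mk, Nat.lcm_dvd_iff]
    exact ⟨hx.trans h6, hy.trans h6, (hw'.trans hv2).trans (Nat.dvd_lcm_right _ _)⟩
  · rintro _ ⟨⟨x, y⟩, rfl⟩
    exact ⟨(x, y, 1), by simp [Prod.orderOf_mk]⟩

end Cfsg.Agent.S2511
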