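import Cfsg.Statements.S2512
import Cfsg.Agent.Lib.Forms.SpSpec2

set_option autoImplicit false
open Cfsg

namespace Cfsg.Agent.S2512

open Forms Forms.Form

section

variable {F : Type*} [Field F] [Fintype F] (p : ℕ) [Fact p.Prime] [CharP F p]

theorem twist {n : ℕ} (hn : 1 ≤ n) (hp : p ≠ 2) {R₁ R₂ : Multiset (Kc F)} {K₁ K₂ : ℕ}
    (h₁ : Realz (Param.sp F) p R₁ K₁) (h₂ : Realz (Param.sp F) p R₂ K₂) (hc₁ : 0 < R₁.card)
    (hc₂ : 0 < R₂.card) (hc : R₁.card + R₂.card = 2 * n) {N : ℕ}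
    (hN : ∀ m, AllEq (R₁ + R₂) m → p ^ K₁ ∣ m → p ^ K₂ ∣ m → N ∣ m) :
    ∃ y : PSp n F, N ∣ orderOf y ∧ 2 ∣ orderOf y := by
  obtain ⟨x, hx⟩ := (h₁.add h₂).exists_PSp p hn (by simpa)
  obtain ⟨y, hy⟩ := (h₁.add h₂.neg).exists_PSp p hn (by simpa)
  obtain ⟨hx1, hx2⟩ := (hx _).1 dvd_rfl
  obtain ⟨hy1, hy2⟩ := (hy _).1 dvd_rfl
  have hm : ∀ m, p ^ max K₁ K₂ ∣ m → p ^ K₁ ∣ m ∧ p ^ K₂ ∣ m := fun m h =>
    ⟨(pow_dvd_pow _ (le_max_left _ _)).trans h, (pow_dvd_pow _ (le_max_right _ _)).trans h⟩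
  rcases Nat.even_or_odd (orderOf x) with h | h
  · exact ⟨x, hN _ hx1 (hm _ hx2).1 (hm _ hx2).2, even_iff_two_dvd.1 h⟩
  have h3 : Even (orderOf y) := by
    by_contra h3
    rw [Nat.not_even_iff_odd] at h3
    obtain ⟨a, ha⟩ := Multiset.card_pos_iff_exists_mem.1 hc₁
    obtain ⟨b, hb⟩ := Multiset.card_pos_iff_exists_mem.1 hc₂
    have hb0 : b ≠ 0 := by
      obtain ⟨_, f, g, -, rfl, -⟩ := h₂
      exact Isom.ne_zero_of_mem_ev hb
    have h4 := congrArg (· ^ orderOf y) (hx1 a (by simp [ha]) b (by simp [hb]))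
    have h5 := congrArg (· ^ orderOf x) (hy1 a (by simp [ha]) (-b) (by simp [hb]))
    simp only [h3.neg_pow, h.neg_pow, ← pow_mul, mul_comm (orderOf y)] at h4 h5
    rw [h4, eq_neg_iff_add_eq_zero, ← two_mul, mul_eq_zero] at h5
    rcases h5 with h5 | h5
    · exact hp ((Nat.prime_dvd_prime_iff_eq Fact.out Nat.prime_two).1
        ((CharP.cast_eq_zero_iff (Kc F) p 2).1 h5))
    · exact pow_ne_zero _ hb0 h5
  refine ⟨y, hN _ ?_ (hm _ hy2).1 (hm _ hy2).2, even_iff_two_dvd.1 h3⟩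
  have h4 : ∀ a ∈ R₁ + R₂, ∃ b ∈ R₁ + R₂.map (-·), a ^ orderOf y = b ^ orderOf y := by
    intro a ha
    rcases Multiset.mem_add.1 ha with ha | ha
    · exact ⟨a, by simp [ha], rfl⟩
    · exact ⟨-a, by simp [ha], (h3.neg_pow a).symm⟩
  intro a ha b hb
  obtain ⟨a', ha', h5⟩ := h4 a ha
  obtain ⟨b', hb', h6⟩ := h4 b hb
  rw [h5, h6, hy1 a' ha' b' hb']

include p in
theorem singer {n : ℕ} (hn : 1 ≤ n) (ε : Bool) : ∃ s : PSp n F,
    tq (Fintype.card F) n ε ∣ 2 * orderOf s ∧ ∀ α : Kc F, α ^ tq (Fintype.card F) n ε = 1 →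
      (α ^ orderOf s)⁻¹ = α ^ orderOf s := by
  obtain ⟨s, -, hs⟩ := exists_PSp_of_dvd_tq (F := F) p hn (ι := Unit)
    (fun _ => tq (Fintype.card F) n ε) (fun _ => n) (fun _ => ε) (fun _ => hn)
    (fun _ => dvd_rfl) (a := 0) (K := 0) (by simp) (Nat.zero_le _)
  refine ⟨s, hs (), fun α hα => inv_eq_of_mul_eq_one_right ?_⟩
  obtain ⟨u, hu⟩ := hs ()
  rw [← pow_add, ← two_mul, hu, pow_mul, hα, one_pow]

theorem cases {n : ℕ} (hn : 2 ≤ n) (hp : p ≠ 2) {s : Bool → PSp n F}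
    (hs : ∀ ε, ∀ α : Kc F, α ^ tq (Fintype.card F) n ε = 1 →
      (α ^ orderOf (s ε))⁻¹ = α ^ orderOf (s ε)) (x : PSp n F) :
    (∃ y : PSp n F, orderOf x ∣ orderOf y ∧ 2 ∣ orderOf y) ∨ (∃ ε, orderOf x ∣ orderOf (s ε)) ∨
      (orderOf x ∣ p ^ Nat.clog p (2 * n) ∧ ∃ j, 2 * n - 1 = p ^ j) := by
  have hpp : p.Prime := Fact.out
  obtain ⟨r, α, k, e, ε, K, h0, hk, he, hfix, hε, hsum, hR, hK, hord⟩ :=
    exists_spec_PSp' p (by omega) x
  obtain rfl | rfl | hr : r = 0 ∨ r = 1 ∨ 2 ≤ r := by omega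
  · simp at hsum; omega
  · simp only [Finset.univ_unique, Fin.default_eq_zero, Finset.sum_singleton,
      Finset.sup_singleton, Fin.forall_fin_one] at hsum hK hord
    by_cases h1 : (α 0)⁻¹ = α 0
    · have h2 := Nat.dvd_one.1 ((hfix 0 1).1 (Or.inl (by
        rw [pow_one, pow_card_of_inv_eq (h0 0) h1])))
      rw [h2, one_mul] at hsum
      rw [wsp_of_eq p h1, hsum] at hK
      have h3 : orderOf x ∣ p ^ Nat.clog p (2 * n) :=
        (hord _).2 ⟨⟨_, by rw [← inv_pow, h1], rfl⟩, pow_dvd_pow _ hK⟩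
      by_cases h4 : ∃ j, 2 * n - 1 = p ^ j
      · exact Or.inr (Or.inr ⟨h3, h4⟩)
      left
      refine twist p (by omega) hp (realz_sp_unip (n - 1) le_rfl)
        (realz_sp_unip 1 (Nat.zero_le _)) (by simp; omega) (by simp) (by simp; omega)
        fun m _ h5 _ => h3.trans ((pow_dvd_pow _ (Nat.clog_le_of_le_pow ?_)).trans h5)
      have h6 := Nat.le_pow_clog hpp.one_lt (2 * (n - 1))
      have h7 : 2 * n - 1 ≠ p ^ Nat.clog p (2 * (n - 1)) := fun h => h4 ⟨_, h⟩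
      obtain ⟨c, hc⟩ : Odd (p ^ Nat.clog p (2 * (n - 1))) := (hpp.odd_of_ne_two hp).pow
      omega
    rw [wsp_of_ne p h1] at hK
    rcases (show 1 ≤ e 0 from he 0).eq_or_lt with h2 | h2
    · rw [← h2, mul_one] at hsum
      rw [← h2, Nat.clog_one_right, Nat.le_zero] at hK
      refine Or.inr (Or.inl ⟨ε 0, (hord _).2 ⟨⟨_, hs _ _ (hsum ▸ hε 0), rfl⟩, by simp [hK]⟩⟩)
    · left
      have h3 : k 0 * 2 ≤ k 0 * e 0 := Nat.mul_le_mul_left _ h2
      have h4 := hk 0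
      have h5 : e 0 ≤ 2 * (n - k 0) := by
        have : e 0 ≤ k 0 * e 0 := Nat.le_mul_of_pos_left _ h4
        omega
      refine twist p (by omega) hp (realz_orb2_ss p (h0 0) ((hfix 0 _).2 dvd_rfl))
        (realz_sp_unip (n - k 0) (hK.trans (Nat.clog_mono_right _ h5))) (by simpa) (by simp; omega)
        (by rw [card_orb2, Multiset.card_replicate]; omega)
        fun m h6 _ h7 => (hord _).2 ⟨⟨1, inv_one, ?_⟩, h7⟩
      rw [h6 _ (Multiset.mem_add.2 (Or.inl (self_mem_orb2 h4))) 1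
        (Multiset.mem_add.2 (Or.inr (Multiset.mem_replicate.2 ⟨by omega, rfl⟩))), one_pow]
  · left
    obtain ⟨r, rfl⟩ : ∃ t, r = t + 2 := ⟨r - 2, by omega⟩
    have h1 := Nat.mul_pos (hk 0) (he 0)
    have h2 : 0 < ∑ i : Fin (r + 1), k i.succ * e i.succ :=
      Finset.sum_pos (fun i _ => Nat.mul_pos (hk _) (he _)) Finset.univ_nonempty
    rw [Fin.sum_univ_succ] at hsum
    refine twist p (by omega) hp (hR 0) (Realz.sum Finset.univ fun i _ => hR (Fin.succ i))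
      (by simp [hk, he]) (by rw [card_sum_orb2]; omega)
      (by rw [card_sum_orb2, Multiset.card_nsmul, card_orb2, ← hsum]; ring)
      fun m h3 h4 h5 => (hord _).2 ⟨?_, (pow_dvd_pow _ hK).trans ?_⟩
    · rw [← allEq_orb2_iff h0 hk he, Fin.sum_univ_succ]; exact h3
    · rw [pow_sup_dvd_iff] at h5 ⊢
      intro i
      induction i using Fin.cases with
      | zero => exact h4
      | succ i => exact h5 i

end


/-- Let F be a finite field of odd order q = p^a, n ≥ 2 (with q ≥ 3 automatic), and L = PSp(2n, F). Then for every m the direct product L × L × L × (ℤ/2)^m has the same set of element orders as L × L × L; and if 2n − 1 is not a power of p, then already L × L × (ℤ/2)^m has the same set of element orders as L × L. -/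
theorem result {F : Type*} [Field F] [Fintype F] (p a n m : ℕ) (hp : p.Prime) (ha : 1 ≤ a) (hF : Fintype.card F = p ^ a) (hodd : Odd (Fintype.card F))
    (hn : 2 ≤ n) :
    Set.range (orderOf : Cfsg.PSp n F × Cfsg.PSp n F × Cfsg.PSp n F × Multiplicative (Fin m → ZMod 2) → ℕ) = Set.range (orderOf : Cfsg.PSp n F × Cfsg.PSp n F × Cfsg.PSp n F → ℕ) ∧
    ((¬ ∃ j : ℕ, 2 * n - 1 = p ^ j) →
      Set.range (orderOf : Cfsg.PSp n F × Cfsg.PSp n F × Multiplicative (Fin m → ZMod 2) → ℕ) = Set.range (orderOf : Cfsg.PSp n F × Cfsg.PSp n F → ℕ)) := by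
  have : Fact p.Prime := ⟨hp⟩
  have : CharP F p := charP_of_card_eq_prime_pow hF
  have hp2 : p ≠ 2 := by
    rintro rfl
    rw [hF, Nat.odd_pow_iff (by omega)] at hodd
    exact absurd hodd (by decide)
  have hw : ∀ w : Multiplicative (Fin m → ZMod 2), orderOf w ∣ 2 := by
    intro w
    rw [orderOf_dvd_iff_pow_eq_one]
    apply Multiplicative.toAdd.injective
    funext i
    simp
    exact Or.inl rfl
  choose s hs1 hs2 using singer (F := F) p (n := n) (by omega)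
  have hs' := cases p hn hp2 hs2
  have h2 : 2 ∣ Nat.lcm (orderOf (s true)) (orderOf (s false)) := by
    by_contra h
    have h1 : ∀ ε, ¬ 4 ∣ tq (Fintype.card F) n ε := fun ε h1 => h (by
      have : 2 ∣ orderOf (s ε) := Nat.dvd_of_mul_dvd_mul_left two_pos (h1.trans (hs1 ε))
      cases ε
      exacts [this.trans (Nat.dvd_lcm_right _ _), this.trans (Nat.dvd_lcm_left _ _)])
    have h3 := h1 true
    have h4 := h1 false
    obtain ⟨c, hc⟩ := hodd.pow (n := n)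
    simp only [tq_true, tq_false] at h3 h4
    omega
  have h3 : ∀ ε, orderOf (s ε) ∣ Nat.lcm (orderOf (s true)) (orderOf (s false)) := by
    rintro (_ | _)
    exacts [Nat.dvd_lcm_right _ _, Nat.dvd_lcm_left _ _]
  refine ⟨Set.Subset.antisymm ?_ ?_, fun hj => Set.Subset.antisymm ?_ ?_⟩
  · rintro _ ⟨⟨x, y, z, w⟩, rfl⟩
    have hw' := hw w
    obtain ⟨u, hu, -⟩ := exists_PSp_of_dvd_tq (F := F) p (n := n) (by omega) (ι := Empty)
      Empty.elim Empty.elim Empty.elim (by simp) (by simp) (a := n) (by simp) le_rfl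
    have hl : ∀ a b c : ℕ, a ∣ Nat.lcm a (Nat.lcm b c) ∧ b ∣ Nat.lcm a (Nat.lcm b c) ∧
        c ∣ Nat.lcm a (Nat.lcm b c) := fun a b c => ⟨Nat.dvd_lcm_left _ _,
      (Nat.dvd_lcm_left _ _).trans (Nat.dvd_lcm_right _ _),
      (Nat.dvd_lcm_right _ _).trans (Nat.dvd_lcm_right _ _)⟩
    have h4 : ∀ x : PSp n F, (∃ y : PSp n F, orderOf x ∣ orderOf y ∧ 2 ∣ orderOf y) ∨
        orderOf x ∣ Nat.lcm (orderOf u) (Nat.lcm (orderOf (s true)) (orderOf (s false))) := by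
      intro x
      rcases hs' x with h | ⟨ε, h⟩ | ⟨h, -⟩
      · exact Or.inl h
      · exact Or.inr ((h.trans (h3 ε)).trans (Nat.dvd_lcm_right _ _))
      · exact Or.inr ((h.trans hu).trans (Nat.dvd_lcm_left _ _))
    rcases h4 x with ⟨x', h1, h2⟩ | hx
    · refine GLn.mem_range_orderOf_of_dvd (x', y, z) ?_
      obtain ⟨h3, h4, h5⟩ := hl (orderOf x') (orderOf y) (orderOf z)
      simp only [Prod.orderOf_mk, Nat.lcm_dvd_iff]
      exact ⟨h1.trans h3, h4, h5, (hw'.trans h2).trans h3⟩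
    rcases h4 y with ⟨y', h1, h2⟩ | hy
    · refine GLn.mem_range_orderOf_of_dvd (x, y', z) ?_
      obtain ⟨h3, h4, h5⟩ := hl (orderOf x) (orderOf y') (orderOf z)
      simp only [Prod.orderOf_mk, Nat.lcm_dvd_iff]
      exact ⟨h3, h1.trans h4, h5, (hw'.trans h2).trans h4⟩
    rcases h4 z with ⟨z', h1, h2⟩ | hz
    · refine GLn.mem_range_orderOf_of_dvd (x, y, z') ?_
      obtain ⟨h3, h4, h5⟩ := hl (orderOf x) (orderOf y) (orderOf z')
      simp only [Prod.orderOf_mk, Nat.lcm_dvd_iff]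
      exact ⟨h3, h4, h1.trans h5, (hw'.trans h2).trans h5⟩
    refine GLn.mem_range_orderOf_of_dvd (u, s true, s false) ?_
    simp only [Prod.orderOf_mk, Nat.lcm_dvd_iff]
    exact ⟨hx, hy, hz, (hw'.trans h2).trans (Nat.dvd_lcm_right _ _)⟩
  · rintro _ ⟨⟨x, y, z⟩, rfl⟩
    exact ⟨(x, y, z, 1), by simp [Prod.orderOf_mk]⟩
  · rintro _ ⟨⟨x, y, w⟩, rfl⟩
    have hw' := hw w
    have h4 : ∀ x : PSp n F, (∃ y : PSp n F, orderOf x ∣ orderOf y ∧ 2 ∣ orderOf y) ∨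
        orderOf x ∣ Nat.lcm (orderOf (s true)) (orderOf (s false)) := by
      intro x
      rcases hs' x with h | ⟨ε, h⟩ | ⟨-, h⟩
      · exact Or.inl h
      · exact Or.inr (h.trans (h3 ε))
      · exact absurd h hj
    rcases h4 x with ⟨x', h1, h2⟩ | hx
    · refine GLn.mem_range_orderOf_of_dvd (x', y) ?_
      simp only [Prod.orderOf_mk, Nat.lcm_dvd_iff]
      exact ⟨h1.trans (Nat.dvd_lcm_left _ _), Nat.dvd_lcm_right _ _,
        (hw'.trans h2).trans (Nat.dvd_lcm_left _ _)⟩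
    rcases h4 y with ⟨y', h1, h2⟩ | hy
    · refine GLn.mem_range_orderOf_of_dvd (x, y') ?_
      simp only [Prod.orderOf_mk, Nat.lcm_dvd_iff]
      exact ⟨Nat.dvd_lcm_left _ _, h1.trans (Nat.dvd_lcm_right _ _),
        (hw'.trans h2).trans (Nat.dvd_lcm_right _ _)⟩
    refine GLn.mem_range_orderOf_of_dvd (s true, s false) ?_
    simp only [Prod.orderOf_mk, Nat.lcm_dvd_iff]
    exact ⟨hx, hy, hw'.trans h2⟩
  · rintro _ ⟨⟨x, y⟩, rfl⟩
    exact ⟨(x, y, 1), by simp [Prod.orderOf_mk]⟩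

end Cfsg.Agent.S2512
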