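import Cfsg.Statements.S2513
import Cfsg.Agent.Lib.GLn.Spec

set_option autoImplicit false
open Cfsg

namespace Cfsg.Agent.S2513

theorem exists_unip {F : Type*} [Field F] [Finite F] (p : ℕ) [Fact p.Prime] [CharP F p] (n : ℕ)
    (hn : 0 < n) :
    ∃ x : Matrix.ProjectiveSpecialLinearGroup (Fin n) F, p ^ Nat.clog p n ∣ orderOf x := by
  obtain ⟨x, hx⟩ := GLn.exists_PSL_of_spec (n := Fin n) (F := F) (K := AlgebraicClosure F) p
    (ι := Unit) (fun _ => 1) (fun _ => 1) (fun _ => n) (by simp) (by simp) (by simpa) (by simp)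
    (by simp) (by simp)
  obtain ⟨c, hc⟩ := (hx _).1 dvd_rfl
  exact ⟨x, (hc ()).2⟩

theorem exists_torus {F : Type*} [Field F] [Finite F] (hF : Nat.card F = 2) [CharP F 2] (n i : ℕ)
    (hi : 0 < i) (hin : i ≤ n) :
    ∃ x : Matrix.ProjectiveSpecialLinearGroup (Fin n) F, 2 ^ i - 1 ∣ orderOf x := by
  have hc := GLn.coprime_card_pow_sub_one (F := F) 2 hi.ne'
  rw [hF] at hc
  obtain ⟨ζ, hζ⟩ := GLn.exists_isPrimitiveRoot_of_coprime (F := F) (K := AlgebraicClosure F) 2 hc
  have h1 : 1 ≤ 2 ^ i := Nat.one_le_two_pow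
  have h2 : 2 ^ i - 1 ≠ 0 := by
    have := Nat.one_lt_two_pow hi.ne'
    omega
  have hgs : GLn.gs 2 i = 2 ^ i - 1 := by simpa using GLn.pred_mul_gs (q := 2) (by norm_num) i
  obtain ⟨x, hx⟩ := GLn.exists_PSL_of_spec (n := Fin n) (F := F) (K := AlgebraicClosure F) 2
    (ι := Option (Fin (n - i))) (fun j => j.elim ζ fun _ => 1) (fun j => j.elim i fun _ => 1)
    (fun _ => 1)
    (by rintro (_ | j); exacts [hζ.ne_zero h2, one_ne_zero])
    (by rintro (_ | j); exacts [hi, one_pos]) (by simp)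
    (by
      rintro (_ | j)
      · simp only [Option.elim, hF]
        rw [← Nat.sub_add_cancel h1, pow_succ, hζ.pow_eq_one, one_mul]
      · simp)
    (by simp [Fintype.sum_option]; omega)
    (by simp [Fintype.prod_option, hF, hgs, hζ.pow_eq_one])
  obtain ⟨c, hc⟩ := (hx _).1 dvd_rfl
  refine ⟨x, (hζ.pow_eq_one_iff_dvd _).1 ?_⟩
  have h3 : ζ ^ orderOf x = algebraMap F _ c := (hc none).1
  have h4 : c ≠ 0 := by
    rintro rfl
    exact pow_ne_zero (orderOf x) (hζ.ne_zero h2) (by rw [h3, map_zero])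
  have := Fintype.ofFinite F
  have h5 := FiniteField.pow_card_sub_one_eq_one c h4
  rw [← Nat.card_eq_fintype_card, hF] at h5
  rw [h3, show c = 1 by simpa using h5, map_one]

/-- Let F be the field with two elements, n ≥ 2, L = PSL(n, F) and k₀ = ⌊(n + 3)/2⌋. Then for every k ≥ k₀ the direct product of k copies of L has the same set of element orders as the direct product of k₀ copies of L. -/
theorem result {F : Type*} [Field F] [Fintype F] (hF : Fintype.card F = 2) (n k : ℕ) (hn : 2 ≤ n) (hk : (n + 3) / 2 ≤ k) :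
    Set.range (orderOf : (Fin k → Matrix.ProjectiveSpecialLinearGroup (Fin n) F) → ℕ) = Set.range (orderOf : (Fin ((n + 3) / 2) → Matrix.ProjectiveSpecialLinearGroup (Fin n) F) → ℕ) := by
  have hF' : Nat.card F = 2 := by rw [Nat.card_eq_fintype_card, hF]
  have : CharP F 2 := charP_of_card_eq_prime hF
  -- an element of the smaller power whose order is a multiple of the exponent
  have key : ∃ y : Fin ((n + 3) / 2) → Matrix.ProjectiveSpecialLinearGroup (Fin n) F,
      ∀ g : Matrix.ProjectiveSpecialLinearGroup (Fin n) F, orderOf g ∣ orderOf y := by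
    obtain ⟨u, hu⟩ := exists_unip (F := F) 2 n (by omega)
    have h1 : ∀ j : Fin ((n + 3) / 2), ∃ x : Matrix.ProjectiveSpecialLinearGroup (Fin n) F,
        (j.val = 0 → 2 ^ Nat.clog 2 n ∣ orderOf x) ∧
          (j.val ≠ 0 → 2 ^ (n + 1 - j.val) - 1 ∣ orderOf x) := by
      intro j
      by_cases hj : j.val = 0
      · exact ⟨u, fun _ => hu, fun h => absurd hj h⟩
      · obtain ⟨x, hx⟩ := exists_torus hF' n (n + 1 - j.val) (by omega) (by omega)
        exact ⟨x, fun h => absurd h hj, fun _ => hx⟩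
    choose y hy using h1
    refine ⟨y, fun g => ?_⟩
    obtain ⟨r, α, kk, e, h0, hk0, he, hfix, hsum, -, hord⟩ :=
      GLn.exists_spec_PSL (K := AlgebraicClosure F) 2 g
    rw [Fintype.card_fin] at hsum
    have hle : ∀ i, kk i * e i ≤ n := fun i =>
      hsum ▸ Finset.single_le_sum (f := fun i => kk i * e i) (fun _ _ => Nat.zero_le _)
        (Finset.mem_univ i)
    refine (hord _).2 ⟨1, fun i => ⟨?_, ?_⟩⟩
    · have hki : kk i ≤ n := le_trans (Nat.le_mul_of_pos_right _ (he i)) (hle i)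
      have h2 : n / 2 < kk i * (n / kk i) := by
        have h3 := Nat.div_add_mod n (kk i)
        have h4 := Nat.mod_lt n (hk0 i)
        have h5 : kk i ≤ kk i * (n / kk i) :=
          Nat.le_mul_of_pos_right _ (Nat.div_pos hki (hk0 i))
        omega
      have h3 : kk i * (n / kk i) ≤ n := Nat.mul_div_le n (kk i)
      have h4 := (hy ⟨n + 1 - kk i * (n / kk i), by omega⟩).2 (by simp; omega)
      have h5 : n + 1 - (n + 1 - kk i * (n / kk i)) = kk i * (n / kk i) := by omega
      simp only [h5] at h4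
      obtain ⟨t, ht⟩ := h4.trans (orderOf_apply_dvd_orderOf _)
      have h6 := (hfix i (kk i * (n / kk i))).2 (dvd_mul_right _ _)
      rw [hF', ← Nat.sub_add_cancel (Nat.one_le_two_pow (n := kk i * (n / kk i))), pow_succ] at h6
      rw [ht, pow_mul, (mul_eq_right₀ (h0 i)).1 h6, one_pow, map_one]
    · have hei : e i ≤ n := le_trans (Nat.le_mul_of_pos_left _ (hk0 i)) (hle i)
      exact (pow_dvd_pow 2 (Nat.clog_mono_right 2 hei)).trans
        (((hy ⟨0, by omega⟩).1 rfl).trans (orderOf_apply_dvd_orderOf _))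
  obtain ⟨y, hy⟩ := key
  apply Set.Subset.antisymm
  · rintro _ ⟨x, rfl⟩
    have h1 : orderOf x ∣ orderOf y := by
      rw [orderOf_dvd_iff_pow_eq_one]
      funext i
      exact orderOf_dvd_iff_pow_eq_one.1 (hy (x i))
    exact ⟨_, orderOf_pow_orderOf_div (orderOf_pos y).ne' h1⟩
  · rintro _ ⟨x, rfl⟩
    refine ⟨fun i => if h : i.val < (n + 3) / 2 then x ⟨i, h⟩ else 1, ?_⟩
    rw [orderOf_eq_orderOf_iff]
    intro m
    constructor
    · intro h
      funext i
      have := congrFun h ⟨i, by omega⟩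
      simpa using this
    · intro h
      funext i
      by_cases hi : i.val < (n + 3) / 2
      · simpa [hi] using congrFun h ⟨i, hi⟩
      · simp [hi]

end Cfsg.Agent.S2513
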