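import Cfsg.Statements.S2514
import Mathlib

set_option autoImplicit false
open Cfsg

namespace Cfsg.Agent.S2514

theorem mem_of_dvd {X : Type*} [Group X] [Finite X] {n : ℕ} (y : X) (h : n ∣ orderOf y) :
    n ∈ Set.range (orderOf : X → ℕ) :=
  ⟨y ^ (orderOf y / n), orderOf_pow_orderOf_div (orderOf_pos y).ne' h⟩

theorem exists_max {X : Type*} [Group X] [Finite X] (x : X) :
    ∃ y : X, orderOf x ∣ orderOf y ∧
      ∀ m ∈ Set.range (orderOf : X → ℕ), orderOf y ∣ m → m = orderOf y := by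
  obtain ⟨y, hy, h⟩ := Set.exists_max_image {y : X | orderOf x ∣ orderOf y} orderOf
    (Set.toFinite _) ⟨x, dvd_refl _⟩
  refine ⟨y, hy, ?_⟩
  rintro _ ⟨z, rfl⟩ hz
  exact le_antisymm (h z (dvd_trans hy hz)) (Nat.le_of_dvd (orderOf_pos z) hz)

theorem dvd_pi {X ι : Type*} [Group X] (x : ι → X) (i : ι) : orderOf (x i) ∣ orderOf x :=
  orderOf_map_dvd (Pi.evalMonoidHom (fun _ => X) i) x

/-- For a finite group X write μ(X) for the set of element orders of X that are maximal under divisibility. Let G and H be finite groups and k ≥ 1 such that μ(H) ⊆ μ(G) and μ(G) has fewer than k elements outside μ(H). Then the direct product of k copies of G has the same set of element orders as the direct product of k − 1 copies of G with H. -/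
theorem result {G H : Type*} [Group G] [Finite G] [Group H] [Finite H] (k : ℕ) (hk : 1 ≤ k)
    (hsub : {n : ℕ | n ∈ Set.range (orderOf : H → ℕ) ∧ ∀ m ∈ Set.range (orderOf : H → ℕ), n ∣ m → m = n} ⊆ {n : ℕ | n ∈ Set.range (orderOf : G → ℕ) ∧ ∀ m ∈ Set.range (orderOf : G → ℕ), n ∣ m → m = n})
    (hfew : ({n : ℕ | n ∈ Set.range (orderOf : G → ℕ) ∧ ∀ m ∈ Set.range (orderOf : G → ℕ), n ∣ m → m = n} \ {n : ℕ | n ∈ Set.range (orderOf : H → ℕ) ∧ ∀ m ∈ Set.range (orderOf : H → ℕ), n ∣ m → m = n}).ncard < k) :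
    Set.range (orderOf : (Fin k → G) → ℕ) = Set.range (orderOf : (Fin (k - 1) → G) × H → ℕ) := by
  obtain ⟨k, rfl⟩ : ∃ k', k = k' + 1 := ⟨k - 1, by omega⟩
  change _ = Set.range (orderOf : (Fin k → G) × H → ℕ)
  apply Set.Subset.antisymm
  · rintro _ ⟨x, rfl⟩
    choose g hg hmax using fun i => exists_max (x i)
    have key : ∀ (i0 : Fin (k + 1)) (h : H),
        orderOf (x i0) ∣ orderOf ((fun j => g (i0.succAbove j), h) : (Fin k → G) × H) →
        orderOf x ∈ Set.range (orderOf : (Fin k → G) × H → ℕ) := by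
      intro i0 h h1
      refine mem_of_dvd ((fun j => g (i0.succAbove j), h) : (Fin k → G) × H)
        (orderOf_dvd_of_pow_eq_one (funext fun i => ?_))
      rw [Pi.pow_apply, Pi.one_apply, ← orderOf_dvd_iff_pow_eq_one]
      rcases Fin.eq_self_or_eq_succAbove i0 i with rfl | ⟨j, rfl⟩
      · exact h1
      · exact (hg _).trans ((dvd_pi (fun j => g (i0.succAbove j)) j).trans
          (orderOf_fst_dvd_orderOf (x := (_, h))))
    by_cases h1 : ∃ i, orderOf (g i) ∈ Set.range (orderOf : H → ℕ)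
    · obtain ⟨i, h, hh⟩ := h1
      exact key i h ((hg i).trans (hh ▸ orderOf_snd_dvd_orderOf (x := (_, h))))
    · push Not at h1
      obtain ⟨i, j, hij, h2⟩ : ∃ i j, i ≠ j ∧ orderOf (g i) = orderOf (g j) := by
        by_contra h3
        push Not at h3
        have h4 := Set.ncard_le_ncard_of_injOn (s := (Set.univ : Set (Fin (k + 1))))
          (t := {n : ℕ | n ∈ Set.range (orderOf : G → ℕ) ∧ ∀ m ∈ Set.range (orderOf : G → ℕ), n ∣ m → m = n} \ {n : ℕ | n ∈ Set.range (orderOf : H → ℕ) ∧ ∀ m ∈ Set.range (orderOf : H → ℕ), n ∣ m → m = n})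
          (fun i => orderOf (g i)) (fun i _ => ⟨⟨⟨_, rfl⟩, hmax i⟩, fun h => h1 i h.1⟩)
          (fun i _ j _ h => by_contra fun h5 => h3 i j h5 h)
          ((Set.finite_range _).subset fun n hn => hn.1.1)
        rw [Set.ncard_univ, Nat.card_eq_fintype_card, Fintype.card_fin] at h4
        omega
      obtain ⟨j', rfl⟩ := Fin.exists_succAbove_eq hij.symm
      exact key i 1 ((hg i).trans (h2 ▸ (dvd_pi (fun j => g (i.succAbove j)) j').trans
        (orderOf_fst_dvd_orderOf (x := (_, (1 : H))))))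
  · rintro _ ⟨⟨x, h⟩, rfl⟩
    obtain ⟨y, hy, hmax⟩ := exists_max h
    obtain ⟨⟨g, hg⟩, -⟩ := hsub ⟨⟨y, rfl⟩, hmax⟩
    refine mem_of_dvd (Fin.cons g x : Fin (k + 1) → G) (orderOf_dvd_of_pow_eq_one (Prod.ext
      (funext fun i => ?_) ?_))
    · rw [Prod.pow_fst, Pi.pow_apply, Prod.fst_one, Pi.one_apply, ← orderOf_dvd_iff_pow_eq_one]
      exact dvd_pi (Fin.cons g x : Fin (k + 1) → G) i.succ
    · rw [Prod.pow_snd, Prod.snd_one, ← orderOf_dvd_iff_pow_eq_one]
      exact hy.trans (hg ▸ dvd_pi (Fin.cons g x : Fin (k + 1) → G) 0)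

end Cfsg.Agent.S2514
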