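import Cfsg.Statements.S2515
import Cfsg.Agent.Lib.SL2.PSL

set_option autoImplicit false
open Cfsg

namespace Cfsg.Agent.S2515

set_option backward.isDefEq.respectTransparency false
open SL2 Matrix
open scoped MatrixGroups

section

variable {F : Type} [Field F] [CharP F 3]

instance fact_three : Fact (Nat.Prime 3) := ⟨Nat.prime_three⟩

/-- The Frobenius twist. -/
noncomputable def sg : SL(2, F) →* SL(2, F) := Matrix.SpecialLinearGroup.map (frobenius F 3)

theorem sg_apply (g : SL(2, F)) (i j : Fin 2) : (sg g).1 i j = g.1 i j ^ 3 := rfl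

theorem h3 : (3 : F) = 0 := by exact_mod_cast CharP.cast_eq_zero F 3

theorem h2 : (2 : F) ≠ 0 := two_ne_zero_of_char 3 (by norm_num)

theorem trace_sg (g : SL(2, F)) : (sg g).1.trace = g.1.trace ^ 3 := by
  rw [trace_fin_two, trace_fin_two, sg_apply, sg_apply, add_pow_char]

theorem sg_neg_one : sg (-1 : SL(2, F)) = -1 := by
  apply SL_ext
  apply mat_ext <;> simp [sg_apply] <;> norm_num

/-- The linear action on two by two matrices. -/
noncomputable def act (k : ℤˣ × SL(2, F)) (M : Matrix (Fin 2) (Fin 2) F) :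
    Matrix (Fin 2) (Fin 2) F := k.1 • (k.2.1 * M * (sg k.2⁻¹).1)

theorem act_one (M : Matrix (Fin 2) (Fin 2) F) : act 1 M = M := by simp [act]

theorem act_mul (k l : ℤˣ × SL(2, F)) (M : Matrix (Fin 2) (Fin 2) F) :
    act (k * l) M = act k (act l M) := by
  simp only [act, Prod.fst_mul, Prod.snd_mul, _root_.mul_inv_rev, map_mul, SL_coe_mul, mul_smul,
    Matrix.mul_smul, Matrix.smul_mul, Matrix.mul_assoc]

theorem act_add (k : ℤˣ × SL(2, F)) (M N : Matrix (Fin 2) (Fin 2) F) :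
    act k (M + N) = act k M + act k N := by
  simp only [act, Matrix.mul_add, Matrix.add_mul, smul_add]

theorem act_sub (k : ℤˣ × SL(2, F)) (M N : Matrix (Fin 2) (Fin 2) F) :
    act k (M - N) = act k M - act k N := by
  simp only [act, Matrix.mul_sub, Matrix.sub_mul, smul_sub]

/-- The linear action as permutations. -/
noncomputable def lin : ℤˣ × SL(2, F) →* Equiv.Perm (Matrix (Fin 2) (Fin 2) F) :=
  MonoidHom.mk' (fun k => ⟨act k, act k⁻¹, fun M => by rw [← act_mul, inv_mul_cancel, act_one],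
    fun M => by rw [← act_mul, mul_inv_cancel, act_one]⟩) fun k l => Equiv.ext (act_mul k l)

theorem lin_apply (k : ℤˣ × SL(2, F)) (M : Matrix (Fin 2) (Fin 2) F) : lin k M = act k M := rfl

/-- Translations. -/
def tr (v : Matrix (Fin 2) (Fin 2) F) : Equiv.Perm (Matrix (Fin 2) (Fin 2) F) := Equiv.addLeft v

omit [CharP F 3] in
theorem tr_apply (v M : Matrix (Fin 2) (Fin 2) F) : tr v M = v + M := rfl

omit [CharP F 3] in
theorem tr_mul (v w : Matrix (Fin 2) (Fin 2) F) : tr v * tr w = tr (v + w) :=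
  Equiv.ext fun M => by simp [tr_apply, add_assoc]

omit [CharP F 3] in
theorem tr_zero : tr (0 : Matrix (Fin 2) (Fin 2) F) = 1 := Equiv.ext fun M => by simp [tr_apply]

omit [CharP F 3] in
theorem tr_inv (v : Matrix (Fin 2) (Fin 2) F) : (tr v)⁻¹ = tr (-v) := by
  rw [inv_eq_iff_mul_eq_one, tr_mul, add_neg_cancel, tr_zero]

theorem tr_pow_three (v : Matrix (Fin 2) (Fin 2) F) : tr v ^ 3 = 1 := by
  rw [pow_three, tr_mul, tr_mul, ← tr_zero]
  congr 1
  have : v + (v + v) = (3 : F) • v := by module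
  rw [this, h3, zero_smul]

theorem lin_mul_tr (k : ℤˣ × SL(2, F)) (v : Matrix (Fin 2) (Fin 2) F) :
    lin k * tr v = tr (act k v) * lin k :=
  Equiv.ext fun M => by simp [tr_apply, lin_apply, act_add]

/-- The affine group. -/
noncomputable def HH (F : Type) [Field F] [CharP F 3] :
    Subgroup (Equiv.Perm (Matrix (Fin 2) (Fin 2) F)) where
  carrier := {π | ∃ v k, π = tr v * lin k}
  mul_mem' := by
    rintro _ _ ⟨v, k, rfl⟩ ⟨w, l, rfl⟩
    refine ⟨v + act k w, k * l, ?_⟩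
    rw [mul_assoc, ← mul_assoc (lin k), lin_mul_tr, ← tr_mul, map_mul]
    simp only [mul_assoc]
  one_mem' := ⟨0, 1, by simp [tr_zero]⟩
  inv_mem' := by
    rintro _ ⟨v, k, rfl⟩
    exact ⟨act k⁻¹ (-v), k⁻¹, by rw [_root_.mul_inv_rev, tr_inv, ← map_inv, lin_mul_tr]⟩

theorem pow_eq (v : Matrix (Fin 2) (Fin 2) F) (k : ℤˣ × SL(2, F)) (n : ℕ) :
    ∃ w, (tr v * lin k) ^ n = tr w * lin (k ^ n) := by
  induction n with
  | zero => exact ⟨0, by simp [tr_zero]⟩
  | succ n ih =>
    obtain ⟨w, hw⟩ := ih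
    refine ⟨w + act (k ^ n) v, ?_⟩
    rw [pow_succ, hw, mul_assoc, ← mul_assoc (lin _), lin_mul_tr, ← tr_mul, pow_succ, map_mul]
    simp only [mul_assoc]

theorem lin_eq_one_iff (k : ℤˣ × SL(2, F)) : lin k = 1 ↔ k.1 = 1 ∧ pr k.2 = 1 := by
  obtain ⟨e, g⟩ := k
  rw [pr_eq_one_iff']
  constructor
  · intro h
    have h1 : ∀ M : Matrix (Fin 2) (Fin 2) F, e • (g.1 * M) = M * (sg g).1 := by
      intro M
      have h4 : act (e, g) M = M := by rw [← lin_apply, h]; rfl
      have h5 : (sg g⁻¹).1 * (sg g).1 = 1 := by rw [← SL_coe_mul, ← map_mul]; simp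
      calc e • (g.1 * M) = act (e, g) M * (sg g).1 := by
            simp only [act, Matrix.smul_mul, Matrix.mul_assoc, h5, Matrix.mul_one]
        _ = _ := by rw [h4]
    have h4 : e • g.1 = (sg g).1 := by simpa using h1 1
    have h5 : g ∈ Subgroup.center SL(2, F) := by
      rw [Subgroup.mem_center_iff]
      intro x
      apply SL_ext
      have := h1 x.1
      rw [← h4, Matrix.mul_smul] at this
      exact (smul_left_cancel e this).symm
    rw [SL_mem_center_iff'] at h5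
    refine ⟨?_, h5⟩
    rcases Int.units_eq_one_or e with rfl | rfl
    · rfl
    · exfalso
      apply h2 (F := F)
      rcases h5 with rfl | rfl
      · have := (mat_ext_iff.1 h4).1
        simp at this
        linear_combination -this
      · rw [sg_neg_one] at h4
        have := (mat_ext_iff.1 h4).1
        simp at this
        linear_combination this
  · rintro ⟨h1, rfl | rfl⟩
    · simp only at h1
      subst h1
      exact map_one _
    · simp only at h1
      subst h1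
      ext1 M
      simp [lin_apply, act, sg_neg_one]

theorem lin_pow_eq_one_iff (k : ℤˣ × SL(2, F)) (n : ℕ) :
    lin k ^ n = 1 ↔ k.1 ^ n = 1 ∧ pr k.2 ^ n = 1 := by
  rw [← map_pow, lin_eq_one_iff, ← map_pow]; rfl

theorem orderOf_lin (k : ℤˣ × SL(2, F)) :
    orderOf (lin k) = Nat.lcm (orderOf k.1) (orderOf (pr k.2)) := by
  rw [← Prod.orderOf_mk, orderOf_eq_orderOf_iff]
  intro n
  rw [lin_pow_eq_one_iff, Prod.ext_iff]; rfl

theorem pow_three_mul {v : Matrix (Fin 2) (Fin 2) F} {k : ℤˣ × SL(2, F)} {n : ℕ}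
    (h : lin k ^ n = 1) : (tr v * lin k) ^ (n * 3) = 1 := by
  obtain ⟨w, hw⟩ := pow_eq v k n
  rw [pow_mul, hw, map_pow, h, mul_one, tr_pow_three]

theorem trace_of_fixed {k : ℤˣ × SL(2, F)} {M : Matrix (Fin 2) (Fin 2) F} (hM : M ≠ 0)
    (h : act k M = M) : k.2.1.trace = k.1 • k.2.1.trace ^ 3 := by
  obtain ⟨e, g⟩ := k
  have h5 : (sg g⁻¹).1 * (sg g).1 = 1 := by rw [← SL_coe_mul, ← map_mul]; simp
  have h1 : e • (g.1 * M) = M * (sg g).1 := by
    calc e • (g.1 * M) = act (e, g) M * (sg g).1 := by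
          simp only [act, Matrix.smul_mul, Matrix.mul_assoc, h5, Matrix.mul_one]
      _ = _ := by rw [h]
  have h6 : g.1 * (g.1 * M) = M * ((sg g).1 * (sg g).1) := by
    rw [← Matrix.mul_assoc M, ← h1, Matrix.smul_mul, Matrix.mul_assoc, ← h1, Matrix.mul_smul,
      smul_smul, Int.units_mul_self, one_smul]
  rw [← Matrix.mul_assoc, mul_self_eq, mul_self_eq, g.2, (sg g).2, trace_sg, Matrix.sub_mul,
    Matrix.mul_sub, Matrix.smul_mul, Matrix.mul_smul, ← h1] at h6
  simp only [one_smul, Matrix.one_mul, Matrix.mul_one, sub_left_inj] at h6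
  have h7 : g.1 * M ≠ 0 := fun h0 => hM (by
    have : (g⁻¹).1 * (g.1 * M) = M := by
      rw [← Matrix.mul_assoc, ← SL_coe_mul, inv_mul_cancel]; simp
    rw [← this, h0, Matrix.mul_zero])
  apply smul_left_injective F h7
  simp only
  rw [h6, smul_comm, smul_assoc]

theorem pow_cases [Finite F] (hq : Nat.card F % 4 = 3) {h : Equiv.Perm (Matrix (Fin 2) (Fin 2) F)}
    (hh : h ∈ HH F) :
    h ^ 6 = 1 ∨ h ^ 9 = 1 ∨ h ^ (Nat.card F - 1) = 1 ∨ h ^ ((Nat.card F + 1) / 2) = 1 := by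
  obtain ⟨v, ⟨e, g⟩, rfl⟩ := hh
  have he : ∀ n, Even n → e ^ n = 1 := fun n hn => by
    obtain ⟨m, rfl⟩ := hn
    rw [← two_mul, pow_mul, Int.units_sq, one_pow]
  by_cases hf : ∃ M, M ≠ 0 ∧ act (e, g) M = M
  · obtain ⟨M, hM, hf⟩ := hf
    have ht := trace_of_fixed hM hf
    by_cases h0 : g.1.trace = 0
    · left
      refine pow_three_mul (n := 2) ((lin_pow_eq_one_iff _ _).2 ⟨he 2 even_two, ?_⟩)
      rw [← map_pow, sq, SL_mul_self_of_trace_eq_zero h0, pr_neg, map_one]
    · rcases Int.units_eq_one_or e with rfl | rfl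
      · right; left
        refine pow_three_mul (n := 3) ((lin_pow_eq_one_iff _ _).2 ⟨one_pow _, pr_pow_char 3 ?_⟩)
        apply mul_left_cancel₀ h0
        simp only [one_smul] at ht
        linear_combination -ht - g.1.trace * h3 (F := F)
      · exfalso
        have := Fintype.ofFinite F
        refine (FiniteField.isSquare_neg_one_iff (F := F)).1 ⟨g.1.trace, ?_⟩
          (by rwa [← Nat.card_eq_fintype_card])
        apply mul_left_cancel₀ h0
        simp only [Units.neg_smul, one_smul] at ht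
        linear_combination -ht
  · push Not at hf
    have hinj : Function.Injective (fun M => M - act (e, g) M) := by
      intro M N hMN
      by_contra hne
      apply hf (M - N) (sub_ne_zero.2 hne)
      rw [act_sub]
      simp only at hMN
      rw [← sub_eq_zero] at hMN ⊢
      rw [← neg_eq_zero, ← hMN]; abel
    obtain ⟨M, hM⟩ := Finite.surjective_of_injective hinj v
    have hc : tr v * lin (e, g) = tr M * lin (e, g) * (tr M)⁻¹ := by
      rw [eq_mul_inv_iff_mul_eq, mul_assoc, lin_mul_tr, ← mul_assoc, tr_mul, ← hM]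
      simp
    simp only [hc, conj_pow, conj_eq_one_iff, lin_pow_eq_one_iff]
    by_cases hd : g.1.trace ^ 2 = 4
    · left
      exact ⟨he 6 (by decide), by rw [show 6 = 3 * 2 by norm_num, pow_mul, pr_pow_char 3 hd, one_pow]⟩
    · have h4 := orderOf_pr_dvd g
      rw [← card_center_SL, card_center_SL_odd h2] at h4
      right; right
      rcases card_cent_regular hd with h5 | h5 <;> rw [h5] at h4
      · left
        exact ⟨he _ (Nat.even_iff.2 (by omega)), orderOf_dvd_iff_pow_eq_one.1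
          (h4.trans (Nat.div_dvd_of_dvd (by omega)))⟩
      · right
        exact ⟨he _ (Nat.even_iff.2 (by omega)), orderOf_dvd_iff_pow_eq_one.1 h4⟩

theorem lin_mem (k : ℤˣ × SL(2, F)) : lin k ∈ HH F := ⟨0, k, by simp [tr_zero]⟩

theorem tr_mem (v : Matrix (Fin 2) (Fin 2) F) : tr v ∈ HH F := ⟨v, 1, by simp⟩

theorem orderOf_neg_one' : orderOf (-1 : ℤˣ) = 2 := orderOf_eq_prime (by simp) (by decide)

theorem exists_six : ∃ h ∈ HH F, orderOf h = 6 :=
  ⟨_, lin_mem (-1, up 1), by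
    rw [orderOf_lin, orderOf_neg_one', orderOf_pr_eq_char 3 (by simp [IsScal])
      (by rw [trace_up]; norm_num)]
    rfl⟩

theorem exists_nine : ∃ h ∈ HH F, orderOf h = 9 := by
  refine ⟨tr !![0, 0; 1, 0] * lin (1, up 1), ⟨_, _, rfl⟩, orderOf_eq_prime_pow (p := 3) (n := 1)
    (fun h => ?_) (pow_three_mul (n := 3) ((lin_pow_eq_one_iff _ _).2
      ⟨one_pow _, pr_pow_char 3 (by rw [trace_up]; norm_num)⟩))⟩
  have h1 : sg (up (-1 : F)) = up (-1) := by
    apply SL_ext
    apply mat_ext <;> simp [sg_apply]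
    norm_num
  have h4 := congrFun (congrFun (Equiv.ext_iff.1 h 0) 0) 1
  simp [pow_three, tr_apply, lin_apply, act, up_inv, h1] at h4
  apply h2 (F := F)
  linear_combination -h4 - h3 (F := F)

theorem exists_pred [Finite F] (hq : Nat.card F % 4 = 3) (h4 : 4 ≤ Nat.card F) :
    ∃ h ∈ HH F, orderOf h = Nat.card F - 1 := by
  obtain ⟨a, ha⟩ := exists_unit_sq_ne_one h4
  obtain ⟨x, -, hx⟩ := exists_orderOf_pr_eq (g := dg a)
    (by rw [trace_dg]; exact trace_sq_ne_of_sq_ne ha) dvd_rfl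
  rw [card_cent_SL_split' ha (trace_dg a), ← card_center_SL, card_center_SL_odd h2] at hx
  refine ⟨_, lin_mem (-1, x), ?_⟩
  rw [orderOf_lin, orderOf_neg_one', hx, Nat.Coprime.lcm_eq_mul]
  · omega
  · rw [Nat.coprime_two_left, Nat.odd_iff]; omega

theorem exists_succ [Finite F] : ∃ h ∈ HH F, orderOf h = (Nat.card F + 1) / 2 := by
  obtain ⟨g, hg⟩ := exists_SL_noRoot (F := F)
  obtain ⟨x, -, hx⟩ := exists_orderOf_pr_eq (SL_trace_sq_ne_of_noRoot hg) dvd_rfl
  rw [card_cent_SL_noRoot hg, ← card_center_SL, card_center_SL_odd h2] at hx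
  exact ⟨_, lin_mem (1, x), by rw [orderOf_lin, hx]; simp⟩

/-- The translation subgroup. -/
def TT (F : Type) [Field F] [CharP F 3] : Subgroup (HH F) where
  carrier := {h | ∃ v, h.1 = tr v}
  mul_mem' := by
    rintro a b ⟨v, hv⟩ ⟨w, hw⟩
    exact ⟨v + w, by rw [Subgroup.coe_mul, hv, hw, tr_mul]⟩
  one_mem' := ⟨0, tr_zero.symm⟩
  inv_mem' := by
    rintro a ⟨v, hv⟩
    exact ⟨-v, by rw [Subgroup.coe_inv, hv, tr_inv]⟩

theorem TT_normal : (TT F).Normal := by
  constructor
  rintro a ⟨v, hv⟩ ⟨_, w, k, rfl⟩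
  refine ⟨act k v, ?_⟩
  simp only [Subgroup.coe_mul, Subgroup.coe_inv, hv]
  rw [mul_inv_eq_iff_eq_mul, mul_assoc, lin_mul_tr, ← mul_assoc, ← mul_assoc, tr_mul, tr_mul,
    add_comm]

end

/-- Let q = 3^α with α ≥ 3 odd. There is a finite group H having a non-trivial normal 3-subgroup and whose element orders maximal under divisibility are exactly 6, 9, q − 1 and (q + 1)/2. -/
theorem result (α : ℕ) (hα : 3 ≤ α) (hodd : Odd α) :
    ∃ (H : Type) (_ : Group H) (_ : Fintype H), (∃ P : Subgroup H, P.Normal ∧ P ≠ ⊥ ∧ IsPGroup 3 ↥P) ∧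
      {n : ℕ | n ∈ Set.range (orderOf : H → ℕ) ∧ ∀ m ∈ Set.range (orderOf : H → ℕ), n ∣ m → m = n} = ({6, 9, 3 ^ α - 1, (3 ^ α + 1) / 2} : Set ℕ) := by
  let F := GaloisField 3 α
  have hF : Nat.card F = 3 ^ α := GaloisField.card 3 α (by omega)
  have hq : Nat.card F % 4 = 3 := by
    obtain ⟨k, rfl⟩ := hodd
    rw [hF, pow_succ, pow_mul, Nat.mul_mod, Nat.pow_mod]
    simp
  have h27 : 27 ≤ Nat.card F := by
    rw [hF]
    exact Nat.pow_le_pow_right (show 0 < 3 by norm_num) hα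
  have h3q : 3 ∣ Nat.card F := char_dvd_card 3
  rw [← hF]
  refine ⟨HH F, inferInstance, Fintype.ofFinite _, ⟨TT F, TT_normal, ?_, ?_⟩, ?_⟩
  · intro h
    have h1 : (⟨tr 1, tr_mem 1⟩ : HH F) ∈ TT F := ⟨1, rfl⟩
    rw [h, Subgroup.mem_bot] at h1
    have h4 := Equiv.ext_iff.1 (congrArg Subtype.val h1) 0
    simp [tr_apply] at h4
  · rintro ⟨a, v, hv⟩
    refine ⟨1, Subtype.ext (Subtype.ext ?_)⟩
    change a.1 ^ 3 ^ 1 = 1
    rw [hv, pow_one, tr_pow_three]
  have hA : ∀ m ∈ Set.range (orderOf : HH F → ℕ),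
      ∃ k ∈ ({6, 9, Nat.card F - 1, (Nat.card F + 1) / 2} : Set ℕ), m ∣ k := by
    rintro _ ⟨h, rfl⟩
    simp only [Set.mem_insert_iff, Set.mem_singleton_iff, exists_eq_or_imp, exists_eq_left,
      ← Subgroup.orderOf_coe h, orderOf_dvd_iff_pow_eq_one]
    exact pow_cases hq h.2
  have hB : ∀ k ∈ ({6, 9, Nat.card F - 1, (Nat.card F + 1) / 2} : Set ℕ),
      k ∈ Set.range (orderOf : HH F → ℕ) := by
    have : ∀ k, (∃ h ∈ HH F, orderOf h = k) → k ∈ Set.range (orderOf : HH F → ℕ) := by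
      rintro k ⟨h, h1, h4⟩
      exact ⟨⟨h, h1⟩, by rw [← h4, ← Subgroup.orderOf_coe]⟩
    rintro _ (rfl | rfl | rfl | rfl)
    · exact this _ exists_six
    · exact this _ exists_nine
    · exact this _ (exists_pred hq (by omega))
    · exact this _ exists_succ
  have hC : ∀ k ∈ ({6, 9, Nat.card F - 1, (Nat.card F + 1) / 2} : Set ℕ),
      ∀ l ∈ ({6, 9, Nat.card F - 1, (Nat.card F + 1) / 2} : Set ℕ), k ∣ l → l = k := by
    generalize Nat.card F = q at *
    obtain ⟨r, rfl⟩ : ∃ r, q = 2 * r + 1 := ⟨q / 2, by omega⟩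
    rw [show 2 * r + 1 - 1 = 2 * r by omega, show (2 * r + 1 + 1) / 2 = r + 1 by omega]
    rintro _ (rfl | rfl | rfl | rfl) _ (rfl | rfl | rfl | rfl) h
    all_goals first | rfl | omega | (exfalso; have := Nat.le_of_dvd (by omega) h; omega) | skip
    exfalso
    have h1 : r + 1 ∣ 2 := (Nat.dvd_add_right h).1 (by
      rw [show 2 * r + 2 = 2 * (r + 1) by ring]; exact Dvd.intro_left 2 rfl)
    have := Nat.le_of_dvd (by omega) h1
    omega
  ext n
  constructor
  · rintro ⟨h1, h4⟩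
    obtain ⟨k, hk, hnk⟩ := hA n h1
    rw [← h4 k (hB k hk) hnk]
    exact hk
  · intro hn
    refine ⟨hB n hn, fun m hm hnm => ?_⟩
    obtain ⟨k, hk, hmk⟩ := hA m hm
    have := hC n hn k hk (hnm.trans hmk)
    subst this
    exact Nat.dvd_antisymm hmk hnm

end Cfsg.Agent.S2515
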