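import Cfsg.Statements.S2517
import Cfsg.Agent.Lib.Forms.O9Num

set_option autoImplicit false
open Cfsg

namespace Cfsg.Agent.S2517

open Forms Forms.Form Forms.O9 Module Polynomial Multiplicative

variable {F : Type*} [Field F] [Fintype F] (p : ℕ) [Fact p.Prime] [CharP F p]

def Good (M : ℕ) : Prop := ∃ (ι : Type) (_ : Fintype ι) (ζ : ι → Kc F) (k : ι → ℕ) (ε : ι → Bool) (K : ℕ),
  (∀ i, ζ i ≠ 0) ∧ (∀ i, 0 < k i) ∧ (∀ i, ζ i ^ tq (Fintype.card F) (k i) (ε i) = 1) ∧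
  ∏ i, ζ i ^ (tq (Fintype.card F) (k i) (ε i) / 2) = 1 ∧ Ty p (∑ i, k i) (∏ i, sgnB (ε i)) K ∧
  ∀ t, p ^ K ∣ t → (∀ i, ζ i ^ t = 1) → M ∣ t

theorem good_of_num (h2 : (2 : F) ≠ 0) {M : ℕ} (h : Num p (Fintype.card F) M) : Good (F := F) p M := by
  obtain ⟨K, ⟨h1, h3⟩ | ⟨k, ε, h1, h3, h4⟩ | ⟨k, ε, k', ε', h1, h1', h3, h4⟩⟩ := h
  · exact ⟨Empty, inferInstance, 1, 0, fun _ => true, K, by simp, by simp, by simp, by simp,
      by simpa using h1, fun t h _ => h3.trans h⟩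
  · have h5 : tq (Fintype.card F) k ε / 2 ∣ tq (Fintype.card F) k ε :=
      Dvd.intro_left _ (two_mul_tq_div h2 k ε)
    obtain ⟨ζ, a1, a2, -⟩ := exists_primRoot_of_dvd_tq h1 h5
    exact ⟨Unit, inferInstance, fun _ => ζ, fun _ => k, fun _ => ε, K, fun _ => a2, fun _ => h1,
      fun _ => (a1.pow_eq_one_iff_dvd _).2 h5, by simp [a1.pow_eq_one], by simpa using h3,
      fun t b1 b2 => h4.trans ((((coprime_tq p h1 ε).coprime_dvd_left h5).symm.pow_left
        K).mul_dvd_of_dvd_of_dvd b1 (a1.dvd_of_pow_eq_one _ (b2 ())))⟩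
  · have key : ∀ k ε, 0 < k → ∃ ζ : Kc F, IsPrimitiveRoot ζ (tq (Fintype.card F) k ε) ∧ ζ ≠ 0 ∧
        ζ ^ (tq (Fintype.card F) k ε / 2) = -1 := fun k ε hk => by
      obtain ⟨ζ, a1, a2, -⟩ := exists_primRoot_of_dvd_tq (F := F) (ε := ε) hk dvd_rfl
      exact ⟨ζ, a1, a2, (a1.pow (tq_pos Fintype.one_lt_card hk ε)
        (by rw [mul_comm, two_mul_tq_div h2])).eq_neg_one_of_two_right⟩
    obtain ⟨ζ, a1, a2, a3⟩ := key k ε h1
    obtain ⟨ξ, b1, b2, b3⟩ := key k' ε' h1'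
    exact ⟨Bool, inferInstance, fun b => cond b ζ ξ, fun b => cond b k k', fun b => cond b ε ε', K,
      by simp [a2, b2], by simp [h1, h1'], by simp [a1.pow_eq_one, b1.pow_eq_one], by simp [a3, b3],
      by simpa using h3, fun t c1 c2 => h4.trans (((((coprime_tq p h1 ε).mul_left
        (coprime_tq p h1' ε')).coprime_dvd_left (Nat.lcm_dvd_mul _ _)).symm.pow_left
        K).mul_dvd_of_dvd_of_dvd c1 (Nat.lcm_dvd (a1.dvd_of_pow_eq_one _ (c2 true))
          (b1.dvd_of_pow_eq_one _ (c2 false))))⟩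

theorem good_omega (h2 : (2 : F) ≠ 0) {M : ℕ} (h : Good (F := F) p M) :
    M ∈ Set.range (orderOf : commutator (oddForm 4 F).Isom → ℕ) := by
  obtain ⟨ι, _, ζ, k, ε, K, h0, h1, h3, h4, h5, h6⟩ := h
  obtain ⟨g, h7, h8⟩ := (oddForm_nondeg 4 h2).exists_omega_odd p h2 h0 h1 h3 h4 (m := 4 - ∑ i, k i)
    (K := K) (by rw [finrank_odd]; rcases h5 with h | ⟨m, L, h, -⟩ <;> omega) (by
      rcases h5 with h | ⟨m, L, a1, rfl, a2⟩
      · omega
      · exact (Nat.lt_clog_iff_pow_lt (Fact.out : p.Prime).one_lt).2 (by omega))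
  haveI := finite_isom (oddForm 4 F)
  exact mem_range_orderOf_of_dvd (h6 _ h7 h8)

omit [Fintype F] in
theorem geom (K m : ℕ) : ∑ j ∈ Finset.range (p ^ K * m), (X : F[X]) ^ j =
    (∑ j ∈ Finset.range m, (X ^ p ^ K) ^ j) * (X - 1) ^ (p ^ K - 1) := by
  refine mul_right_cancel₀ (X_sub_C_ne_zero 1) ?_
  rw [C_1, geom_sum_mul, mul_assoc, ← pow_succ, Nat.sub_add_cancel (Nat.one_le_pow _ _
    (Fact.out : p.Prime).pos), sub_pow_char_pow, one_pow, geom_sum_mul, pow_mul]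

variable {V : Type*} [AddCommGroup V] [Module F V] [FiniteDimensional F V]

omit [Fintype F] in
open Classical in
theorem geom_eq_zero {g : V →ₗ[F] V} {K m : ℕ} (h : g ^ (p ^ K * m) = 1)
    (hc : (ev g).count 1 + 1 ≤ p ^ K) : ∑ j ∈ Finset.range (p ^ K * m), g ^ j = 0 := by
  obtain ⟨R, h1, h3⟩ := exists_eq_pow_rootMultiplicity_mul_and_not_dvd g.charpoly
    g.charpoly_monic.ne_zero 1
  rw [ev, aroots_def, count_roots, ← map_one (algebraMap F _),
    ← eq_rootMultiplicity_map (algebraMap F _).injective] at hc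
  obtain ⟨u, w, h4⟩ := (irreducible_X_sub_C (1 : F)).coprime_iff_not_dvd.2 h3
  obtain ⟨d, hd⟩ := Nat.exists_eq_add_of_le' (Nat.le_sub_one_of_lt hc)
  have h5 : ∑ j ∈ Finset.range (p ^ K * m), (X : F[X]) ^ j = u * (X ^ (p ^ K * m) - 1) +
      w * (∑ j ∈ Finset.range m, (X ^ p ^ K) ^ j) * (X - 1) ^ d * g.charpoly := by
    rw [← geom_sum_mul, geom, hd, pow_add]
    nth_rewrite 3 [h1]
    rw [C_1] at h4 ⊢
    linear_combination (-(∑ j ∈ Finset.range m, (X ^ p ^ K) ^ j) * (X - 1) ^ d *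
      (X - 1) ^ rootMultiplicity 1 g.charpoly) * h4
  simpa [h, LinearMap.aeval_self_charpoly] using congrArg (aeval g) h5

variable {f : Form (Param.orth F) V} {G : Type*} [Group G] {φ : G →* MulAut (Multiplicative V)}
  (ψ : G ≃* commutator f.Isom) (hφ : ∀ g v, φ g (ofAdd v) = ofAdd ((ψ g).1.1 v))

omit [Fintype F] [FiniteDimensional F V] in
include hφ in
theorem sd_pow (v : V) (g : G) (n : ℕ) : (⟨ofAdd v, g⟩ : Multiplicative V ⋊[φ] G) ^ n =
    ⟨ofAdd ((∑ i ∈ Finset.range n, ((ψ g).1.1 : V →ₗ[F] V) ^ i) v), g ^ n⟩ := by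
  induction n with
  | zero => ext <;> simp
  | succ n ih =>
    rw [pow_succ, ih]
    ext
    · rw [SemidirectProduct.mul_left]
      simp only [hφ]
      simp only [Finset.sum_range_succ, LinearMap.add_apply, map_pow, ofAdd_add, ← coe_pow_eq]
      rfl
    · rw [SemidirectProduct.mul_right, pow_succ]

include hφ in
theorem odat_sd (hf : f.Nondeg) (h2 : (2 : F) ≠ 0) (x : Multiplicative V ⋊[φ] G) :
    ODat p (Fintype.card F) (finrank F V + 1) (orderOf x) := by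
  obtain ⟨v, g⟩ := x
  refine hf.odat p h2 (ψ g).2 fun K m h1 h3 => orderOf_dvd_of_pow_eq_one ?_
  rw [← ofAdd_toAdd v, sd_pow ψ hφ, geom_eq_zero p (by rw [← coe_pow_eq]; exact congrArg (·.1.1) h1) h3,
    ψ.injective (a₁ := g ^ _) (a₂ := 1) (by rw [map_pow, map_one]; exact Subtype.ext h1)]
  rfl

include hφ in
theorem good_sd (hf : f.Nondeg) (h2 : (2 : F) ≠ 0) (hd : finrank F V = 8)
    (hs : f.disc = -chi F (-1) ^ 4) {M : ℕ} (h : Good (F := F) p M) :
    M ∈ Set.range (orderOf : Multiplicative V ⋊[φ] G → ℕ) := by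
  obtain ⟨ι, _, ζ, k, ε, K, h0, h1, h3, h4, h5, h6⟩ := h
  have := finite_isom f
  have : Finite G := Finite.of_equiv _ ψ.symm.toEquiv
  have : Finite V := Module.finite_of_finite F
  have : Finite (Multiplicative V ⋊[φ] G) := Finite.of_equiv _ SemidirectProduct.equivProd.symm
  have h7 := RealzO.sum_orb2 (p := p) (h2 := h2) h0 h1 h3 h4
  have h8 : (∑ i, orb2 (Fintype.card F) (ζ i) (k i)).prod = 1 := by
    simp [Multiset.prod_sum, prod_orb2 (h0 _)]
  have h9 : (∑ i, orb2 (Fintype.card F) (ζ i) (k i)).card = 2 * ∑ i, k i := by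
    simp [Multiset.card_sum, ← Finset.mul_sum]
  have h10 : ∀ i, ζ i ∈ ∑ i, orb2 (Fintype.card F) (ζ i) (k i) := fun i =>
    Multiset.mem_sum.2 ⟨i, Finset.mem_univ _, self_mem_orb2 (h1 i)⟩
  have key : ∀ (g : commutator f.Isom) (v : V), (∀ i, ζ i ∈ Isom.ev g.1) → (∀ t, g.1 ^ t = 1 →
      (∑ i ∈ Finset.range t, (g.1.1 : V →ₗ[F] V) ^ i) v = 0 → p ^ K ∣ t) →
      M ∈ Set.range (orderOf : Multiplicative V ⋊[φ] G → ℕ) := fun g v a1 a2 => by
    obtain ⟨g, rfl⟩ := ψ.surjective g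
    have a3 := pow_orderOf_eq_one (⟨ofAdd v, g⟩ : Multiplicative V ⋊[φ] G)
    rw [sd_pow ψ hφ] at a3
    have a4 := congrArg (fun x => (ψ x.right).1) a3
    simp only [map_pow, SemidirectProduct.one_right, map_one] at a4
    exact mem_range_orderOf_of_dvd (h6 _ (a2 _ a4 (congrArg (·.left) a3)) fun i =>
      ((Isom.pow_eq_one_iff p _ _).1 a4).1 _ (a1 i))
  rcases h5 with ⟨rfl, a1, a2⟩ | ⟨m, L, a1, rfl, a2⟩
  · obtain ⟨n, f', g, hf', b1, -, b2, b3⟩ := h7
    obtain ⟨i⟩ := hf'.orth_iso hf h2 (by rw [← Isom.card_ev g, b1, h9, a1, hd])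
      (by rw [b2, hs, a1, a2, mul_neg_one])
    refine key ⟨i.isomEquiv g, (mem_commutator_equiv _ g).2 ((hf'.mem_commutator_iff h2 g).2
      ⟨Isom.mem_SIsom_iff.2 (b1 ▸ h8), b3⟩)⟩ 0 (fun j => ?_) (by simp)
    rw [i.ev_isomEquiv, b1]
    exact h10 j
  · obtain ⟨f1, u, hf1, c1, c2, c3⟩ := exists_orth_unip p h2 m
    have c4 : ∀ x : ℤ, x * x = 1 → ∀ n, x ^ n * x ^ n = 1 := fun x h n => by rw [← mul_pow, h, one_pow]
    have c5 : (chi F (-1) ^ (∑ i, k i) * ∏ i, sgnB (ε i)) * (chi F (-1) ^ (∑ i, k i) * ∏ i, sgnB (ε i)) = 1 := by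
      rw [mul_mul_mul_comm, c4 _ (chi_mul_self (by simp)), ← Finset.prod_mul_distrib]
      simp [sgnB_mul_self]
    have c6 := hf1.disc_mul_self
    have c7 := hf.disc_mul_self
    generalize chi F (-1) ^ (∑ i, k i) * ∏ i, sgnB (ε i) = D at h7 c5
    obtain ⟨n, f', g, hf', b1, b4, b2, b3⟩ := h7.add (RealzO.one one_pos (d := D * f1.disc * f.disc)
      (by linear_combination (f1.disc ^ 2 * f.disc ^ 2) * c5 + f.disc ^ 2 * c6 + c7))
    obtain ⟨i⟩ := (hf1.prod hf').orth_iso hf h2 (by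
        rw [finrank_prod, ← Isom.card_ev g, b1, Multiset.card_add, h9, hd]; simp; omega)
      (by rw [disc_prod, b2]; linear_combination (f1.disc ^ 2 * f.disc) * c5 + f.disc * c6)
    obtain ⟨w, hw⟩ := DFunLike.ne_iff.1 c3
    refine key ⟨i.isomEquiv (prodHom _ _ (u, g)), (mem_commutator_equiv _ _).2
      (((hf1.prod hf').mem_commutator_iff h2 _).2 ⟨Isom.mem_SIsom_iff.2 ?_, ?_⟩)⟩ (i.e (w, 0))
      (fun j => ?_) fun t d1 d2 => ?_
    · simp [ev_prodHom, c1, b1, h8]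
    · rw [hf1.spin_prodHom h2 hf', b3, hf1.spin_of_unip h2 fun α h =>
        Multiset.eq_of_mem_replicate (c1 ▸ h)]
      rfl
    · simp [i.ev_isomEquiv, ev_prodHom, b1, h10]
    · have d3 : ∀ j, (((i.isomEquiv (prodHom _ _ (u, g))).1 : V →ₗ[F] V) ^ j) (i.e (w, 0)) =
          i.e (((u.1 : _ →ₗ[F] _) ^ j) w, 0) := fun j => by
        rw [← Isom.coe_pow, ← Isom.coe_pow, ← map_pow, ← map_pow, LinearEquiv.coe_coe,
          i.isomEquiv_apply', prodHom_apply]
        simp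
      rw [← map_pow, ← map_pow, map_eq_one_iff _ i.isomEquiv.injective,
        map_eq_one_iff _ (prodHom_injective _ _)] at d1
      have d4 := ((Isom.pow_eq_one_iff p _ _).1 (congrArg Prod.fst d1 : u ^ t = 1)).2
      have hp := (Fact.out : p.Prime)
      rw [c2, ← a2, Nat.clog_pow _ _ hp.one_lt] at d4
      obtain ⟨t, rfl⟩ := d4
      simp only [LinearMap.sum_apply, d3, ← map_sum, map_eq_zero_iff _ i.e.injective] at d2
      have d5 := congrArg Prod.fst d2
      rw [Prod.fst_sum, ← LinearMap.sum_apply] at d5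
      have d6 : (u.1 : (Fin (2 * m + 1) → F) →ₗ[F] (Fin (2 * m + 1) → F)) ^ p ^ L = 1 := by
        rw [← Isom.coe_pow, (Isom.pow_eq_one_iff p u _).2 ⟨fun α h => by
          rw [c1] at h; rw [Multiset.eq_of_mem_replicate h, one_pow], by
          rw [c2, ← a2, Nat.clog_pow _ _ hp.one_lt]⟩]
        rfl
      have d7 := congrArg (aeval (u.1 : (Fin (2 * m + 1) → F) →ₗ[F] (Fin (2 * m + 1) → F))) (geom (F := F) p L t)
      simp only [map_sum, map_pow, aeval_X, map_mul, d6, map_sub, map_one, one_pow, Finset.sum_const,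
        Finset.card_range, show p ^ L - 1 = 2 * m by omega] at d7
      rw [d7, smul_mul_assoc, one_mul, LinearMap.smul_apply, ← Nat.cast_smul_eq_nsmul F] at d5
      rw [pow_succ]
      exact Nat.mul_dvd_mul_left _ ((CharP.cast_eq_zero_iff F p t).1 ((smul_eq_zero.1 d5).resolve_right hw))

/-- Let F be a finite field of odd order q, let Ω₉ be the simple orthogonal group PΩ(9, F), and let Ω₈⁻ be the commutator subgroup of the isometry group of a minus-type non-singular quadratic form on V = F⁸ (the simple group PΩ⁻(8, F), acting on its natural module V). Then Ω₉ and the semidirect product V ⋊ Ω₈⁻ have exactly the same set of element orders. -/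
theorem result {F : Type*} [Field F] [Fintype F] (hF : Odd (Fintype.card F)) (a b : F)
    (hab : ∀ z₁ z₂ : F, z₁ ^ 2 + a * z₁ * z₂ + b * z₂ ^ 2 = 0 → z₁ = 0 ∧ z₂ = 0) :
    Set.range (orderOf : Cfsg.POmega F (Cfsg.quadFormOdd 4 F) → ℕ) =
      Set.range (orderOf :
        (Multiplicative (((Fin 3 ⊕ Fin 3) ⊕ Fin 2) → F)) ⋊[
          (MulAutMultiplicative (((Fin 3 ⊕ Fin 3) ⊕ Fin 2) → F)).symm.toMonoidHom.comp
           ((DistribMulAction.toAddAut (LinearMap.GeneralLinearGroup F (((Fin 3 ⊕ Fin 3) ⊕ Fin 2) → F))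
              (((Fin 3 ⊕ Fin 3) ⊕ Fin 2) → F)).comp
            (Matrix.GeneralLinearGroup.toLin.toMonoidHom.comp
              ((Cfsg.isometryGroup F (Cfsg.quadFormMinus 3 F a b)).subtype.comp
                (Cfsg.Omega F (Cfsg.quadFormMinus 3 F a b)).subtype)))]
          ↥(Cfsg.Omega F (Cfsg.quadFormMinus 3 F a b)) → ℕ) := by
  have h2 := two_ne_zero_of_odd hF
  obtain ⟨p, hc⟩ := CharP.exists F
  have hp := CharP.char_is_prime F p
  haveI : Fact p.Prime := ⟨hp⟩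
  have hf := minusForm_nondeg 3 (disc_ne_zero_of_anisotropic hab)
  have key := fun M h => good_of_num p h2 (M := M) (num_of_odat hp (char_odd p h2) hF h)
  rw [range_orderOf_POmega_odd h2 (by omega)]
  refine Set.Subset.antisymm ?_ ?_
  · rintro _ ⟨g, rfl⟩
    exact good_sd p (commutatorEquiv (minusEquiv 3 F a b)) (fun g v => rfl) hf h2 (finrank_minus 3)
      (disc_minus 3 h2 hab) (key _ (by
        simpa only [finrank_odd] using (oddForm_nondeg 4 h2).odat_orderOf p h2 g))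
  · rintro _ ⟨g, rfl⟩
    exact good_omega p h2 (key _ (by
      simpa only [finrank_minus] using
        odat_sd p (commutatorEquiv (minusEquiv 3 F a b)) (fun g v => rfl) hf h2 g))

end Cfsg.Agent.S2517
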