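import Cfsg.Statements.S2519
import Cfsg.Agent.Lib.Chev.G2Ord

set_option autoImplicit false
open Cfsg

namespace Cfsg.Agent.S2519

open Cfsg.Agent.ChevM Cfsg.Agent.Chev

/-- Let F be a finite field of odd order q = p^a ≥ 5. The element orders of the Chevalley group G₂(F) that are maximal under divisibility are exactly p(q + 1), p(q − 1), q² − 1, q² + q + 1, q² − q + 1, together with p² when p is 3 or 5. -/
theorem result {F : Type*} [Field F] [Fintype F] (p a : ℕ) (hp : p.Prime) (hp2 : p ≠ 2) (ha : 1 ≤ a) (hF : Fintype.card F = p ^ a) (hq5 : 5 ≤ Fintype.card F) :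
    {n : ℕ | n ∈ Set.range (orderOf : ↥(Cfsg.Lie.chevG2.group F) → ℕ) ∧ ∀ m ∈ Set.range (orderOf : ↥(Cfsg.Lie.chevG2.group F) → ℕ), n ∣ m → m = n} =
      ({p * (p ^ a + 1), p * (p ^ a - 1), p ^ (2 * a) - 1, p ^ (2 * a) + p ^ a + 1, p ^ (2 * a) - p ^ a + 1} : Set ℕ) ∪
        (if p = 3 ∨ p = 5 then ({p ^ 2} : Set ℕ) else ∅) := by
  obtain ⟨p', hc, m, hp', e⟩ := FiniteField.card' F
  obtain rfl : p' = p := (Nat.prime_dvd_prime_iff_eq hp' hp).mp (hp'.dvd_of_dvd_pow (n := a) (by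
    rw [← hF, e]; exact dvd_pow_self _ m.ne_zero))
  have := Fact.mk hp
  have hd : p' ∣ Nat.card F := by rw [Nat.card_eq_fintype_card, hF]; exact dvd_pow_self _ (by omega)
  rw [pow_mul', ← hF, ← Nat.card_eq_fintype_card] at *
  set M : Set ℕ := _ ∪ _
  have hM : ∀ n, n ∈ M ↔ n ∈ ordG2 p' (Nat.card F) ∨ (p' = 3 ∨ p' = 5) ∧ n = p' ^ 2 := fun n => by
    simp only [M, ordG2, Set.mem_union, Set.mem_insert_iff, Set.mem_singleton_iff, Set.mem_ite_empty_right, List.mem_cons]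
    tauto
  have h1 : M ⊆ Set.range (orderOf : Lie.chevG2.group F → ℕ) := fun n hn =>
    ((hM n).1 hn).elim (exists_order_G2' p') fun h => h.2 ▸ (exists_unip_G2 p').2 h.1
  have h2 : ∀ g : Lie.chevG2.group F, ∃ n ∈ M, orderOf g ∣ n := fun g =>
    (order_dvd_G2' p' g).elim (fun ⟨n, hn, h⟩ => ⟨n, (hM n).2 (.inl hn), h⟩) fun h =>
      ⟨_, (hM _).2 (.inr ⟨(h.resolve_left fun h => hp2 h.1).1, rfl⟩), (h.resolve_left fun h => hp2 h.1).2⟩
  have h3 : ∀ n ∈ M, ∀ n' ∈ M, n ∣ n' → n = n' := by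
    generalize Nat.card F = Q at hM hd hq5
    have hpQ := Nat.le_of_dvd (by omega) hd
    have h5 : 5 * Q ≤ Q ^ 2 := by nlinarith
    have h0 : ∀ n, p' ∣ n → ¬ p' ∣ n + 1 := fun n h h' => hp.one_lt.ne' (Nat.dvd_one.1 ((Nat.dvd_add_right h).1 h'))
    have h0' : ∀ n, 0 < n → p' ∣ n → ¬ p' ∣ n - 1 := fun n hn h h' => h0 _ h' (by rwa [Nat.sub_add_cancel hn])
    have hQ : p' ∣ Q ^ 2 := dvd_pow hd two_ne_zero
    have hA : ∀ n ∈ M, (¬ p' ∣ n ∧ Q ^ 2 - Q + 1 ≤ n ∧ n ≤ Q ^ 2 + Q + 1) ∨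
        ∃ m, n = p' * m ∧ (m = Q - 1 ∨ m = Q + 1 ∨ m = p') := fun n hn => by
      simp only [hM, ordG2, List.mem_cons, List.not_mem_nil, or_false] at hn
      rcases hn with (rfl | rfl | rfl | rfl | rfl) | ⟨-, rfl⟩
      exacts [.inl ⟨h0' _ (by omega) hQ, by omega⟩, .inl ⟨h0 _ (dvd_add hQ hd), by omega⟩,
        .inl ⟨h0 _ (Nat.dvd_sub hQ hd), by omega⟩, .inr ⟨_, rfl, by simp⟩, .inr ⟨_, rfl, by simp⟩, .inr ⟨_, sq _, by simp⟩]
    intro n hn n' hn' h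
    obtain ⟨h1, h2⟩ | ⟨m, rfl, h1⟩ := hA n hn <;> obtain ⟨h3, h4⟩ | ⟨m', rfl, h3⟩ := hA n' hn'
    · exact (Nat.eq_of_dvd_of_lt_two_mul (by omega) h (by omega)).symm
    · have := Nat.le_of_dvd (by have := hp.pos; omega) (((hp.coprime_iff_not_dvd.2 h1).symm).dvd_of_dvd_mul_left h)
      omega
    · exact absurd ((dvd_mul_right _ _).trans h) h3
    have h4 := Nat.dvd_of_mul_dvd_mul_left hp.pos h
    have h6 := h0 _ hd
    have h7 := h0' _ (by omega) hd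
    rcases h1 with rfl | rfl | rfl <;> rcases h3 with rfl | rfl | rfl <;> first | rfl | contradiction | skip
    · have := Nat.eq_of_dvd_of_lt_two_mul (by omega) h4 (by omega); omega
    · exact absurd (((Nat.dvd_prime hp).1 h4).resolve_left (by omega)).symm.dvd h7
    · have := Nat.le_of_dvd (by omega) h4; omega
    · exact absurd (((Nat.dvd_prime hp).1 h4).resolve_left (by omega)).symm.dvd h6
  ext n
  refine ⟨?_, fun hn => ⟨h1 hn, ?_⟩⟩
  · rintro ⟨⟨g, rfl⟩, h⟩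
    obtain ⟨n, hn, h'⟩ := h2 g
    exact h n (h1 hn) h' ▸ hn
  · rintro _ ⟨g, rfl⟩ h
    obtain ⟨n', hn', h'⟩ := h2 g
    exact Nat.dvd_antisymm (h3 n hn n' hn' (h.trans h') ▸ h') h

end Cfsg.Agent.S2519
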