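import Cfsg.Statements.S2520
import Cfsg.Agent.Lib.Chev.G2Ord

set_option autoImplicit false
open Cfsg

namespace Cfsg.Agent.S2520

open Cfsg.Agent.ChevM Cfsg.Agent.Chev

/-- Let F be a finite field with q = 2^a ≥ 4 elements and G₂(F) the Chevalley group of type G₂ over it. Every element order of G₂(F) maximal under divisibility lies in the set {8, 12, 2(q + 1), 2(q − 1), q² − 1, q² + q + 1, q² − q + 1}, and every member of that set is an element order of G₂(F). -/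
theorem result {F : Type*} [Field F] [Fintype F] (a : ℕ) (ha : 2 ≤ a) (hF : Fintype.card F = 2 ^ a) :
    {n : ℕ | n ∈ Set.range (orderOf : ↥(Cfsg.Lie.chevG2.group F) → ℕ) ∧ ∀ m ∈ Set.range (orderOf : ↥(Cfsg.Lie.chevG2.group F) → ℕ), n ∣ m → m = n} ⊆ ({8, 12, 2 * (2 ^ a + 1), 2 * (2 ^ a - 1), 2 ^ (2 * a) - 1, 2 ^ (2 * a) + 2 ^ a + 1, 2 ^ (2 * a) - 2 ^ a + 1} : Set ℕ) ∧
    ({8, 12, 2 * (2 ^ a + 1), 2 * (2 ^ a - 1), 2 ^ (2 * a) - 1, 2 ^ (2 * a) + 2 ^ a + 1, 2 ^ (2 * a) - 2 ^ a + 1} : Set ℕ) ⊆ Set.range (orderOf : ↥(Cfsg.Lie.chevG2.group F) → ℕ) := by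
  obtain ⟨p, hc, m, hp, e⟩ := FiniteField.card' F
  obtain rfl : p = 2 := (Nat.prime_dvd_prime_iff_eq hp Nat.prime_two).mp (hp.dvd_of_dvd_pow (n := a) (by
    rw [← hF, e]; exact dvd_pow_self _ m.ne_zero))
  rw [pow_mul', ← hF, ← Nat.card_eq_fintype_card]
  have h1 : ({8, 12, 2 * (Nat.card F + 1), 2 * (Nat.card F - 1), Nat.card F ^ 2 - 1, Nat.card F ^ 2 + Nat.card F + 1,
      Nat.card F ^ 2 - Nat.card F + 1} : Set ℕ) ⊆ Set.range (orderOf : Lie.chevG2.group F → ℕ) := by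
    rintro n (rfl | rfl | h)
    · exact (exists_unip_G2 2).1 rfl
    · exact exists_twelve_G2
    · exact exists_order_G2' 2 (by simp only [Set.mem_insert_iff, Set.mem_singleton_iff] at h; simp only [ordG2, List.mem_cons]; tauto)
  refine ⟨?_, h1⟩
  rintro _ ⟨⟨g, rfl⟩, h⟩
  have h2 := fun n hn hd => h n (h1 hn) hd ▸ hn
  obtain ⟨n, hn, hd⟩ | ⟨-, hd | hd⟩ | h := order_dvd_G2' 2 g
  · exact h2 n (by simp only [ordG2, List.mem_cons] at hn; simp only [Set.mem_insert_iff, Set.mem_singleton_iff]; tauto) hd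
  · exact h2 _ (by simp) hd
  · exact h2 _ (by simp) hd
  · omega

end Cfsg.Agent.S2520
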