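import Cfsg.Statements.S2524
import Cfsg.Agent.Lib.Deg.Rank3
import Cfsg.Agent.Lib.Deg.Weil
import Cfsg.Agent.Lib.Char.Central

set_option autoImplicit false
open Cfsg
open Cfsg.Agent.Deg Cfsg.Agent.Forms Cfsg.Agent.Char

namespace Cfsg.Agent.S2524

theorem card_two {G H : Type*} [Group G] [Group H] (j : G ≃* H) {χ₀ χ₁ : H → ℂ} {c : ℂ}
    (h₀ : IsIrrCharacter H χ₀) (h₁ : IsIrrCharacter H χ₁) (e₀ : χ₀ 1 = c) (e₁ : χ₁ 1 = c)
    (hne : χ₀ ≠ χ₁) (h : ∀ χ, IsIrrCharacter H χ → χ 1 = c → χ = χ₀ ∨ χ = χ₁) :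
    Nat.card {χ : IrrCharacter G // χ.1 1 = c} = 2 := by
  refine Nat.card_eq_two_iff.mpr ⟨⟨⟨_, isIrr_comp j.toMonoidHom j.surjective h₀⟩, by simpa⟩,
    ⟨⟨_, isIrr_comp j.toMonoidHom j.surjective h₁⟩, by simpa⟩, fun e => hne (funext fun g => ?_),
    Set.eq_univ_of_forall fun χ => ?_⟩
  · simpa using congrFun (congrArg (·.1.1) e) (j.symm g)
  · rcases h _ (isIrr_comp j.symm.toMonoidHom j.symm.surjective χ.1.2) (by simpa using χ.2)
      with e | e
    · exact .inl (Subtype.ext (Subtype.ext (funext fun g => by simpa using congrFun e (j g))))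
    · exact .inr (Subtype.ext (Subtype.ext (funext fun g => by simpa using congrFun e (j g))))

/-- Let F be a finite field of odd order q and G = Sp(2n, F) with n ≥ 2. Then G has exactly four irreducible complex characters of degree (q^n + 1)/2 or (q^n − 1)/2 (two of each), and every other non-principal irreducible character has degree at least (q^n − 1)(q^n − q)/(2(q + 1)). -/
theorem result {F : Type*} [Field F] [Fintype F] (hodd : Odd (Fintype.card F)) (n : ℕ) (hn : 2 ≤ n) :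
    Nat.card {χ : Cfsg.IrrCharacter ↥(Matrix.symplecticGroup (Fin n) F) // (χ : ↥(Matrix.symplecticGroup (Fin n) F) → ℂ) 1 = (((Fintype.card F) ^ n + 1 : ℕ) : ℂ) / 2} = 2 ∧
    Nat.card {χ : Cfsg.IrrCharacter ↥(Matrix.symplecticGroup (Fin n) F) // (χ : ↥(Matrix.symplecticGroup (Fin n) F) → ℂ) 1 = (((Fintype.card F) ^ n - 1 : ℕ) : ℂ) / 2} = 2 ∧
    ∀ χ : Cfsg.IrrCharacter ↥(Matrix.symplecticGroup (Fin n) F),
      (χ : ↥(Matrix.symplecticGroup (Fin n) F) → ℂ) 1 ≠ 1 →
      (χ : ↥(Matrix.symplecticGroup (Fin n) F) → ℂ) 1 ≠ (((Fintype.card F) ^ n + 1 : ℕ) : ℂ) / 2 →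
      (χ : ↥(Matrix.symplecticGroup (Fin n) F) → ℂ) 1 ≠ (((Fintype.card F) ^ n - 1 : ℕ) : ℂ) / 2 →
      (((Fintype.card F) ^ n - 1 : ℕ) : ℝ) * (((Fintype.card F) ^ n - Fintype.card F : ℕ) : ℝ) / (2 * ((Fintype.card F : ℕ) + 1 : ℝ)) ≤ ‖(χ : ↥(Matrix.symplecticGroup (Fin n) F) → ℂ) 1‖ := by
  classical
  have hc : ringChar F ≠ 2 := fun h => Nat.not_even_iff_odd.mpr hodd (Nat.even_iff.mpr
    (FiniteField.even_card_iff_char_two.mp h))
  have h2 : (2 : F) ≠ 0 := Ring.two_ne_zero hc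
  obtain ⟨ε, hε⟩ := FiniteField.exists_nonsquare hc
  have hε0 : ε ≠ 0 := by rintro rfl; exact hε IsSquare.zero
  have : Finite (spForm n F).Isom := .of_equiv _ (spEquiv n F).toEquiv
  obtain ⟨χp, χm, κ, p1, m1, p2, m2, hκ, p3, m3⟩ := exists_weil_sp hodd (n := n) (by omega)
  have hq : 3 ≤ Fintype.card F := by
    have := Fintype.one_lt_card (α := F)
    obtain ⟨k, hk⟩ := hodd
    omega
  obtain ⟨r, hr⟩ := hodd.pow (n := n)
  have h9 : Fintype.card F ^ 2 ≤ Fintype.card F ^ n := Nat.pow_le_pow_right (by omega) hn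
  have hr1 : 2 * Fintype.card F + 2 ≤ 2 * r := by nlinarith
  rw [show (Fintype.card F ^ n + 1) / 2 = r + 1 by omega] at p2
  rw [show (Fintype.card F ^ n - 1) / 2 = r by omega] at m2
  have hD : ∀ d ≤ r + 1, 2 * (Fintype.card F + 1) * d <
      (Fintype.card F ^ n - 1) * (Fintype.card F ^ n - Fintype.card F) := fun d hd => by
    obtain ⟨t, ht⟩ : ∃ t, r = Fintype.card F + 1 + t := ⟨r - Fintype.card F - 1, by omega⟩
    rw [show Fintype.card F ^ n - 1 = 2 * r by omega,
      show Fintype.card F ^ n - Fintype.card F = Fintype.card F + 3 + 2 * t by omega]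
    nlinarith
  have key := fun {χ₀} h₀ {d₀} a1 a2 a3 a4 {κ} => small_pair (spForm_nondeg n) (lag_injective n)
    (lag_B n) (by simpa) (by simp; omega) h2
    (fun y hy => ⟨y ∘ .inl, funext fun i => by
      rcases i with i | i
      · rfl
      · simpa [spForm_B', lag, Pi.single_apply, eq_comm] using hy (Pi.single i 1)⟩)
    (LinearEquiv.piCongrRight fun i => LinearEquiv.smulOfNeZero F F (Sum.elim 1 (fun _ => ε) i)
      (by rcases i with i | i <;> simp [hε0])) hε0 hε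
    (fun x y => by
      simp only [spForm_B', Finset.mul_sum]
      exact Finset.sum_congr rfl fun i _ => by simp; ring)
    (fun x => funext fun i => by rcases i with i | i <;> simp [lag])
    (χ₀ := χ₀) h₀ (d₀ := d₀) a1 a2 a3 a4 (κ := κ)
  simp only [Fintype.card_fin, Nat.card_eq_fintype_card] at key
  obtain ⟨χp', p4, p5, p6, p7⟩ := key p1 p2 (by omega) (by omega) (hD _ le_rfl) hκ p3
  obtain ⟨χm', m4, m5, m6, m7⟩ := key m1 m2 (by omega) (by omega) (hD _ (by omega))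
    (neg_ne_zero.mpr hκ) m3
  have hz : ∀ {χ}, IsIrrCharacter (spForm n F).Isom χ →
      (χ (spForm n F).negOne / χ 1) ^ 2 = 1 := fun {χ} h => by
    have := irr_central_mul h (Subgroup.mem_center_iff.mpr negOne_comm) (spForm n F).negOne
    rw [Form.negOne_mul_self] at this
    rw [sq, ← mul_div_assoc, ← this, div_self (irr_one_ne_zero h)]
  have all : ∀ χ, IsIrrCharacter (spForm n F).Isom χ → ∀ d : ℕ, χ 1 = d → d ≠ 1 →
      2 * (Fintype.card F + 1) * d <
        (Fintype.card F ^ n - 1) * (Fintype.card F ^ n - Fintype.card F) →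
      (χ = χp ∨ χ = χp') ∨ χ = χm ∨ χ = χm' := fun χ h d h1 h2 h3 => by
    have := hz p1
    rw [p3, mul_div_cancel_right₀ _ (irr_one_ne_zero p1), ← hz h, sq_eq_sq_iff_eq_or_eq_neg,
      eq_div_iff (irr_one_ne_zero h), ← neg_eq_iff_eq_neg, eq_div_iff (irr_one_ne_zero h)] at this
    exact this.imp (fun e => p7 χ h d h1 h2 h3 e.symm) fun e => m7 χ h d h1 h2 h3 e.symm
  have e1 : ((Fintype.card F ^ n + 1 : ℕ) : ℂ) / 2 = (r + 1 : ℕ) := by rw [hr]; push_cast; ring
  have e2 : ((Fintype.card F ^ n - 1 : ℕ) : ℂ) / 2 = r := by rw [hr]; simp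
  rw [e1, e2]
  refine ⟨card_two (spEquiv n F) p1 p4 p2 p5 p6 fun χ h e =>
      (all χ h _ e (by omega) (hD _ le_rfl)).resolve_right ?_,
    card_two (spEquiv n F) m1 m4 m2 m5 m6 fun χ h e =>
      (all χ h _ e (by omega) (hD _ (by omega))).resolve_left ?_, fun χ h1 h3 h4 => ?_⟩
  · rintro (rfl | rfl)
    exacts [by simpa using e.symm.trans m2, by simpa using e.symm.trans m5]
  · rintro (rfl | rfl)
    exacts [by simpa using e.symm.trans p2, by simpa using e.symm.trans p5]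
  obtain ⟨d, -, hd⟩ := exists_pos_degree χ.2
  rw [hd, Complex.norm_natCast, div_le_iff₀ (by positivity), mul_comm (d : ℝ)]
  norm_cast
  by_contra hlt
  have hj := isIrr_comp (spEquiv n F).symm.toMonoidHom (spEquiv n F).symm.surjective χ.2
  have h5 : χ.1 ((spEquiv n F).symm.toMonoidHom 1) = χ.1 1 := by rw [map_one]
  rcases all _ hj d (h5.trans hd) (by rintro rfl; exact h1 (by simpa using hd)) (not_le.mp hlt) with
    (e | e) | e | e
  exacts [h3 (h5.symm.trans ((congrFun e 1).trans p2)), h3 (h5.symm.trans ((congrFun e 1).trans p5)),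
    h4 (h5.symm.trans ((congrFun e 1).trans m2)), h4 (h5.symm.trans ((congrFun e 1).trans m5))]

end Cfsg.Agent.S2524
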