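import Cfsg.Statements.S2525
import Cfsg.Agent.Lib.Chev.Prime2

set_option autoImplicit false
open Cfsg

namespace Cfsg.Agent.S2525

open Cfsg.Agent.ChevM Cfsg.Agent.Chev Cfsg.Lie

theorem dvd_iffs {q r : ℕ} (hr : r.Prime) (h2 : r ≠ 2) (hq : ¬ r ∣ q) {e : ℕ} (he : orderOf (q : ZMod r) = e)
    (h : e ∈ [1, 2, 3, 4, 6, 8, 12]) :
    ((r : ℤ) ∣ (q + 1) * (q ^ 3 - 1) ↔ e ∈ [1, 2, 3]) ∧ ((r : ℤ) ∣ (q - 1) * (q ^ 3 + 1) ↔ e ∈ [1, 2, 6]) ∧
    ((r : ℤ) ∣ q ^ 4 - 1 ↔ e ∈ [1, 2, 4]) ∧ ((r : ℤ) ∣ q ^ 4 + 1 ↔ e = 8) ∧ ((r : ℤ) ∣ q ^ 4 - q ^ 2 + 1 ↔ e = 12) := by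
  have hp := Nat.prime_iff_prime_int.1 hr
  have d : ∀ n, (r : ℤ) ∣ q ^ n - 1 ↔ e ∣ n := fun n => he ▸ dvd_pow_sub_one_iff
  have p : ∀ n, (r : ℤ) ∣ q ^ n + 1 ↔ e ∣ 2 * n ∧ ¬ e ∣ n := fun n => by
    rw [← d, ← d, show (q : ℤ) ^ (2 * n) - 1 = (q ^ n - 1) * (q ^ n + 1) by ring, hp.dvd_mul]
    refine ⟨fun h => ⟨Or.inr h, fun h' => h2 ((Nat.prime_dvd_prime_iff_eq hr Nat.prime_two).1
      (Int.natCast_dvd_natCast.1 (by simpa using dvd_sub h h')))⟩, fun h => h.1.resolve_left h.2⟩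
  have d1 := d 1
  have p1 := p 1
  have p6 := p 6
  rw [pow_one] at d1 p1
  rw [show (q : ℤ) ^ 6 + 1 = (q ^ 2 + 1) * (q ^ 4 - q ^ 2 + 1) by ring, hp.dvd_mul, p] at p6
  rw [hp.dvd_mul, hp.dvd_mul, p1, d1, d, d, p, p]
  refine ⟨?_, ?_, ?_, ?_, fun h' => ?_, fun h' => (p6.2 (by simp [h'])).resolve_left (by simp [h'])⟩
  iterate 4 clear he d p d1 p1 p6; revert e; decide
  obtain rfl | rfl : e = 4 ∨ e = 12 := by have := p6.1 (Or.inr h'); clear he d p d1 p1 p6; revert e; decide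
  · have := Fact.mk hr
    obtain rfl := (Nat.prime_dvd_prime_iff_eq hr Nat.prime_three).1 (Int.natCast_dvd_natCast.1 (by
      rw [show ((3 : ℕ) : ℤ) = q ^ 4 - q ^ 2 + 1 - (q ^ 2 + 1) * (q ^ 2 - 2) by push_cast; ring]
      exact dvd_sub h' (((p 2).2 (by decide)).mul_right _)))
    exact absurd (he ▸ orderOf_dvd_pred hq) (by decide)
  · rfl

variable {F : Type*} [Field F] [Finite F] [CharP F 2]

theorem not_dvd {r : ℕ} (hr : r.Prime) (h2 : r ≠ 2) : ¬ r ∣ Nat.card F := fun h => by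
  have := Fintype.ofFinite F
  obtain ⟨n, -, e⟩ := FiniteField.card F 2
  rw [Nat.card_eq_fintype_card, e] at h
  exact h2 ((Nat.prime_dvd_prime_iff_eq hr Nat.prime_two).1 (hr.dvd_of_dvd_pow h))

theorem mem_of_dvd {r : ℕ} (hr : r.Prime) (h2 : r ≠ 2) (h : r ∣ Nat.card (chevF4.group F)) :
    orderOf (Nat.card F : ZMod r) ∈ [1, 2, 3, 4, 6, 8, 12] := by
  have hp := Nat.prime_iff_prime_int.1 hr
  have := (Int.natCast_dvd_natCast.2 h).mul_right (Nat.card (cm chevF4 (F := F)).ker)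
  simp only [degrees_F4.card_group, List.map, List.prod_cons, List.prod_nil, mul_one, hp.dvd_mul,
    dvd_pow_sub_one_iff] at this
  have h1 := this.resolve_left fun h => not_dvd hr h2 (Int.natCast_dvd_natCast.1 (hp.dvd_of_dvd_pow h))
  generalize orderOf (Nat.card F : ZMod r) = e at h1
  have : e < 13 := by rcases h1 with h | h | h | h <;> have := Nat.le_of_dvd (by decide) h <;> omega
  revert h1; revert e; decide

theorem adj_two {s : ℕ} (hs : s.Prime) (h2 : s ≠ 2) (h : s ∣ Nat.card (chevF4.group F)) :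
    (∃ x : chevF4.group F, orderOf x = s * 2) ↔ orderOf (Nat.card F : ZMod s) ∈ [1, 2, 3, 4, 6] := by
  have hp := Nat.prime_iff_prime_int.1 hs
  have he := mem_of_dvd hs h2 h
  have hq := not_dvd (F := F) hs h2
  refine ⟨fun ⟨x, hx⟩ => ?_, fun h1 => ?_⟩
  · obtain ⟨y, i, hy⟩ := exists_conj_PJ 2 (u := x ^ s) (by rw [orderOf_pow' _ hs.ne_zero, hx]; simp [hs.pos])
      (Commute.self_pow x s)
    have hd : s ∣ orderOf (y⁻¹ * x * y) := by
      rw [← MulAut.conj_inv_apply, MulEquiv.orderOf_eq, hx]; exact dvd_mul_right _ _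
    suffices (s : ℤ) ∣ Nat.card F * ((Nat.card F ^ 4 - 1) ^ 2 * (Nat.card F ^ 6 - 1)) by
      rw [hp.dvd_mul, hp.dvd_mul, hp.dvd_pow_iff_dvd two_ne_zero, dvd_pow_sub_one_iff, dvd_pow_sub_one_iff,
        Int.natCast_dvd_natCast] at this
      have := this.resolve_left hq
      generalize orderOf (Nat.card F : ZMod s) = e at this he
      revert this; revert e; decide
    have key : ∀ l : List PStep, stepsOK chevF4 certF4 l = true → (∀ j < 4, j ≠ (i : ℕ) → j ∈ l.map PStep.j) →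
        (s : ℤ) ∣ Nat.card F * (Nat.card F - 1) * (l.map fun s => evPoin (Nat.card F) s.cnt).prod := fun l h1 h2 =>
      dvd_of_mem_PJ agree_F4 h1 ((PG _ F).PJ_mono (fun j hj => h2 j j.2 (Fin.val_ne_of_ne hj)) hy) hs hd
    generalize (Nat.card F : ℤ) = q at key
    have hi : (i : ℕ) < 4 := i.2
    clear hy
    generalize (i : ℕ) = j at key hi
    obtain rfl | rfl | rfl | rfl : j = 0 ∨ j = 1 ∨ j = 2 ∨ j = 3 := by omega
    · refine (key (stepsF4.drop 1) (by decide +kernel) (by decide +kernel)).trans ⟨(q - 1) ^ 2 * (q ^ 2 + 1), ?_⟩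
      simp only [stepsF4, evPoin, List.drop, List.map, List.prod_cons, List.prod_nil, List.foldr]; ring
    · refine (key [⟨0, 2, 1, 0x888900008897, 0x10100000000000000000001, 0x1, 0x0, [1, 1]⟩,
        ⟨3, 3, 0, 0x87980000798800009888, 0x201000000000000000200000000000001000000, 0x20100, 0x20300, [1, 1, 1]⟩,
        ⟨2, 2, 0, 0x979800008988, 0x10000, 0x100, 0x200, [1, 1]⟩] (by decide +kernel) (by decide +kernel)).trans
        ⟨(q ^ 4 - 1) * (q ^ 2 + 1) * (q - 1) * (q ^ 2 - q + 1), ?_⟩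
      simp only [evPoin, List.map, List.prod_cons, List.prod_nil, List.foldr]; ring
    · refine (key [⟨1, 3, 1, 0x8a790000889800008a87, 0x200010000000000010002010000000000000002, 0x10002, 0x10000, [1, 1, 1]⟩,
        ⟨0, 2, 1, 0x888900008897, 0x10000000000000000000001, 0x1, 0x0, [1, 1]⟩,
        ⟨3, 2, 0, 0x798800009888, 0x1000000, 0x100, 0x300, [1, 1]⟩] (by decide +kernel) (by decide +kernel)).trans
        ⟨(q ^ 4 - 1) * (q ^ 2 + 1) * (q - 1) * (q ^ 2 - q + 1), ?_⟩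
      simp only [evPoin, List.map, List.prod_cons, List.prod_nil, List.foldr]; ring
    · refine (key (⟨0, 6, 5, 0x88890000a8790000a69800008a78000088970000a887,
        0x5050100000000000403000000000000020403000000000003010200000000000102050000000000000004, 0x403020105,
        0x102010000, [1, 1, 1, 1, 1, 1]⟩ :: stepsF4.drop 2) (by decide +kernel) (by decide +kernel)).trans
        ⟨(q - 1) ^ 2 * (q ^ 2 + 1), ?_⟩
      simp only [stepsF4, evPoin, List.drop, List.map, List.prod_cons, List.prod_nil, List.foldr]; ring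
  by_cases h1' : (s : ℤ) ∣ Nat.card F - 1
  · have := Fact.mk hs
    obtain ⟨z, rfl, -⟩ := exists_primitive (k := AlgebraicClosure F) (n := s) (by
      rw [Ne, CharP.cast_eq_zero_iff _ 2, Nat.prime_dvd_prime_iff_eq Nat.prime_two hs]; exact h2.symm)
    rw [← orderOf_piMulSingle (M := fun _ : Fin chevF4.rank => (AlgebraicClosure F)ˣ) ⟨0, by decide⟩ z]
    refine (exists_of_TA expC_F4 2 (one_mem _) ?_).2 ⟨47, by decide⟩ rfl ?_
    · rw [mem_TA, RSys.cw_one, mp_one, ← Pi.mulSingle_pow, ← zpow_natCast, ← sub_add_cancel (Nat.card F : ℤ) 1,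
        zpow_add_one, orderOf_dvd_iff_zpow_eq_one.1 h1', one_mul]
    · rw [chi_eq_mp, Finset.prod_eq_single ⟨0, by decide⟩ (fun i _ hi => by simp [hi]) (by simp), agree_F4.pair_simple,
        show certF4.car _ _ = 0 by decide +kernel, zpow_zero]
  obtain ⟨-, d2, d3, -⟩ := dvd_iffs hs h2 hq rfl he
  obtain ⟨-, e2, e3, -, -, e6⟩ := det_F4 (Nat.card F)
  have key := fun (l : List ℕ) (hl : (∀ r ∈ l, r < 48) ∧ wB chevF4 certF4 l 47 = 47) hd =>
    exists_order_mul_char expC_F4 2 (wR_mem l) hs hd h1' (r := ⟨47, by decide⟩)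
      (Fin.ext ((keyOK_F4.wB_eq hl.1 _).symm.trans hl.2))
  obtain h3 | h3 | h3 := (by decide : ∀ e ∈ [1, 2, 3, 4, 6], e ∈ [1, 2, 6] ∨ e ∈ [1, 2, 4] ∨ e ∣ 3) _ h1
  · exact key _ (by decide +kernel) (e2 ▸ d2.2 h3)
  · exact key _ (by decide +kernel) (e3 ▸ d3.2 h3)
  · exact key _ (by decide +kernel) (e6 ▸ (dvd_pow_sub_one_iff.2 h3).mul_left _)

theorem adj_odd {r s : ℕ} (hr : r.Prime) (hs : s.Prime) (hrs : r ≠ s) (hr2 : r ≠ 2) (hs2 : s ≠ 2)
    (hrG : r ∣ Nat.card (chevF4.group F)) (hsG : s ∣ Nat.card (chevF4.group F)) :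
    (∃ x : chevF4.group F, orderOf x = r * s) ↔ ∃ L ∈ [[1, 2, 3], [1, 2, 6], [1, 2, 4], [8], [12]],
      orderOf (Nat.card F : ZMod r) ∈ L ∧ orderOf (Nat.card F : ZMod s) ∈ L := by
  obtain ⟨a1, a2, a3, a4, a5⟩ := dvd_iffs hr hr2 (not_dvd (F := F) hr hr2) rfl (mem_of_dvd hr hr2 hrG)
  obtain ⟨b1, b2, b3, b4, b5⟩ := dvd_iffs hs hs2 (not_dvd (F := F) hs hs2) rfl (mem_of_dvd hs hs2 hsG)
  simp only [List.exists_mem_cons_iff, List.not_mem_nil, false_and, exists_false, or_false]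
  simp only [List.mem_singleton, ← a1, ← a2, ← a3, ← a4, ← a5, ← b1, ← b2, ← b3, ← b4, ← b5]
  refine ⟨fun ⟨x, hx⟩ => ?_, fun h => ?_⟩
  · obtain ⟨w, hw, a, ha, e⟩ := exists_TA expC_F4 2 (g := x) (hx ▸ ((Nat.coprime_primes Nat.prime_two hr).2 hr2.symm).mul_right
      ((Nat.coprime_primes Nat.prime_two hs).2 hs2.symm))
    obtain ⟨f, hf, h1⟩ := exists_poly keyOK_F4 ((rs _).W_le_Aut hw) polyB_F4
    have h2 := orderOf_dvd_iff_zpow_eq_one.2 (h1 _ a ha)
    rw [e, hx, Nat.cast_mul] at h2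
    have h3 : ∀ t : ℤ, evPoin (Nat.card F) f = t → (r : ℤ) ∣ t ∧ (s : ℤ) ∣ t := fun t ht =>
      ht ▸ ⟨(dvd_mul_right _ _).trans h2, (dvd_mul_left _ _).trans h2⟩
    simp only [List.mem_cons, List.not_mem_nil, or_false] at hf
    refine hf.imp (fun e => h3 _ ?_) (Or.imp (fun e => h3 _ ?_) (Or.imp (fun e => h3 _ ?_) (Or.imp (fun e => h3 _ ?_)
      fun e => h3 _ ?_))) <;> simp only [e, evPoin, List.foldr] <;> ring
  · obtain ⟨e1, e2, e3, e4, e5, -⟩ := det_F4 (Nat.card F)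
    rw [← e1, ← e2, ← e5, ← e4, ← e3] at h
    rcases h with h | h | h | h | h <;> exact exists_order_mul expC_F4 (wR_mem _) hr hs hrs h.1 h.2


/-- Let F be a finite field with q = 2^n elements and G = F₄(F). For an odd prime r let e(r, q) be the multiplicative order of q modulo r. Two distinct primes r, s dividing the order of G are non-adjacent in the prime graph of G (no element of order rs) if and only if, up to swapping r and s, either r = 2 and e(s, q) ∈ {8, 12}, or r, s are both odd with k = e(r, q) < l = e(s, q) and one of: l ∈ {8, 12}; l = 6 and k ∈ {3, 4}; l = 4 and k = 3. -/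
theorem result {F : Type*} [Field F] [Fintype F] (n : ℕ) (hn : 1 ≤ n) (hF : Fintype.card F = 2 ^ n)
    (r s : ℕ) (hr : r.Prime) (hs : s.Prime) (hrs : r ≠ s) (hrG : r ∣ Nat.card ↥(Cfsg.Lie.chevF4.group F)) (hsG : s ∣ Nat.card ↥(Cfsg.Lie.chevF4.group F)) :
    (¬ ∃ x : ↥(Cfsg.Lie.chevF4.group F), orderOf x = r * s) ↔
      ((r = 2 ∧ orderOf ((Fintype.card F : ℕ) : ZMod s) ∈ ({8, 12} : Finset ℕ)) ∨ (s = 2 ∧ orderOf ((Fintype.card F : ℕ) : ZMod r) ∈ ({8, 12} : Finset ℕ)) ∨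
       (r ≠ 2 ∧ s ≠ 2 ∧
         ((orderOf ((Fintype.card F : ℕ) : ZMod r) < orderOf ((Fintype.card F : ℕ) : ZMod s) ∧ (orderOf ((Fintype.card F : ℕ) : ZMod s) ∈ ({8, 12} : Finset ℕ) ∨ (orderOf ((Fintype.card F : ℕ) : ZMod s) = 6 ∧ orderOf ((Fintype.card F : ℕ) : ZMod r) ∈ ({3, 4} : Finset ℕ)) ∨ (orderOf ((Fintype.card F : ℕ) : ZMod s) = 4 ∧ orderOf ((Fintype.card F : ℕ) : ZMod r) = 3))) ∨
          (orderOf ((Fintype.card F : ℕ) : ZMod s) < orderOf ((Fintype.card F : ℕ) : ZMod r) ∧ (orderOf ((Fintype.card F : ℕ) : ZMod r) ∈ ({8, 12} : Finset ℕ) ∨ (orderOf ((Fintype.card F : ℕ) : ZMod r) = 6 ∧ orderOf ((Fintype.card F : ℕ) : ZMod s) ∈ ({3, 4} : Finset ℕ)) ∨ (orderOf ((Fintype.card F : ℕ) : ZMod r) = 4 ∧ orderOf ((Fintype.card F : ℕ) : ZMod s) = 3)))))) := by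
  obtain ⟨p, hc, m, hp, e⟩ := FiniteField.card' F
  obtain rfl : p = 2 := (Nat.prime_dvd_prime_iff_eq hp Nat.prime_two).mp (hp.dvd_of_dvd_pow (n := n) (by
    rw [← hF, e]; exact dvd_pow_self _ m.ne_zero))
  rw [← Nat.card_eq_fintype_card]
  by_cases hr2 : r = 2
  · subst hr2
    have := mem_of_dvd hs hrs.symm hsG
    rw [mul_comm, adj_two hs hrs.symm hsG]
    simp only [hrs.symm, false_and, ne_eq, not_true, or_false, true_and]
    generalize orderOf (Nat.card F : ZMod s) = e at this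
    revert e; decide
  by_cases hs2 : s = 2
  · subst hs2
    have := mem_of_dvd hr hrs hrG
    rw [adj_two hr hrs hrG]
    simp only [hrs, false_and, ne_eq, not_true, or_false, true_and, false_or, and_false]
    generalize orderOf (Nat.card F : ZMod r) = e at this
    revert e; decide
  have h1 := mem_of_dvd hr hr2 hrG
  have h2 := mem_of_dvd hs hs2 hsG
  rw [adj_odd hr hs hrs hr2 hs2 hrG hsG]
  simp only [hr2, hs2, false_and, ne_eq, not_false_iff, false_or, true_and]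
  generalize orderOf (Nat.card F : ZMod r) = k at h1
  generalize orderOf (Nat.card F : ZMod s) = l at h2
  revert l; revert k; decide

end Cfsg.Agent.S2525
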